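import Cfsg.Statements.S0076
import Mathlib
import Cfsg.Agent.Lib.Lead.Basic

set_option autoImplicit false
open Cfsg

namespace Cfsg.Agent.S0076

/-- Two P-invariant subsets of a Sylow p-subgroup P that are conjugate in G are conjugate under the normalizer of P. -/
theorem result {G : Type*} [Group G] [Finite G] {p : ℕ} [Fact p.Prime] (P : Sylow p G) (X Y : Set G) (hXP : X ⊆ P) (hYP : Y ⊆ P) (hX : ∀ x ∈ P, (fun y => x * y * x⁻¹) '' X = X) (hY : ∀ x ∈ P, (fun y => x * y * x⁻¹) '' Y = Y) (g : G) (hg : (fun y => g * y * g⁻¹) '' X = Y) : ∃ n ∈ Subgroup.normalizer (P : Set G), (fun y => n * y * n⁻¹) '' X = Y := by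
  classical
  have hmemY : ∀ (c : G), (fun y => c * y * c⁻¹) '' Y = Y → c ∈ Subgroup.normalizer Y := by
    intro c hc
    rw [Subgroup.mem_normalizer_iff_conj_image_eq]
    exact hc
  have himg : ∀ (c : G), c ∈ Subgroup.normalizer Y → (fun y => c * y * c⁻¹) '' Y = Y := by
    intro c hc
    rw [Subgroup.mem_normalizer_iff_conj_image_eq] at hc
    exact hc
  have h1 : (P : Subgroup G) ≤ Subgroup.normalizer Y := fun x hx => hmemY x (hY x hx)
  have h2 : ((g • P : Sylow p G) : Subgroup G) ≤ Subgroup.normalizer Y := by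
    intro w hw
    have hw' : g⁻¹ * w * g ∈ P := (Cfsg.Agent.Lib.Lead.mem_sylow_smul_iff P g w).mp hw
    apply hmemY
    have := hX _ hw'
    rw [← hg]
    conv_rhs => rw [← this]
    simp only [Set.image_image]
    congr 1
    funext y
    simp [mul_assoc]
  obtain ⟨c, hcN, hc⟩ := Cfsg.Agent.Lib.Lead.sylow_conj_in (Subgroup.normalizer Y) (g • P) P h2 h1
  rw [smul_smul] at hc
  refine ⟨c * g, Sylow.smul_eq_iff_mem_normalizer.mp hc, ?_⟩
  have := himg c hcN
  conv_rhs => rw [← this, ← hg]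
  simp only [Set.image_image]
  congr 1
  funext y
  simp [mul_assoc]

end Cfsg.Agent.S0076
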