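import Cfsg.Statements.S0203
import Mathlib
import Cfsg.Agent.Lib.Lead.Klein

set_option autoImplicit false
open Cfsg

namespace Cfsg.Agent.S0203

open Cfsg.Agent.Lib.Lead

/-- If a Sylow 2-subgroup P of a finite group G is a Klein four-group, then G has three classes of involutions if and only if P has a normal complement in G. -/
theorem result {G : Type*} [Group G] [Finite G] (P : Sylow 2 G) (hP : IsKleinFour (P : Subgroup G)) : Nat.card {C : ConjClasses G // ∃ t : G, orderOf t = 2 ∧ ConjClasses.mk t = C} = 3 ↔ ∃ N : Subgroup G, N.Normal ∧ Subgroup.IsComplement' N (P : Subgroup G) := by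
  obtain ⟨a, b, ha, hb, ha1, hb1, hab⟩ := klein_exists _ hP
  have hab1 : a * b ≠ 1 := by
    intro h
    apply hab
    have h2 := klein_sq _ hP hb
    exact mul_right_cancel (h.trans h2.symm)
  have haab : a ≠ a * b := by
    intro h
    apply hb1
    have : a * 1 = a * b := by rw [mul_one]; exact h
    exact (mul_left_cancel this).symm
  have hbab : b ≠ a * b := by
    intro h
    apply ha1
    have : 1 * b = a * b := by rw [one_mul]; exact h
    exact (mul_right_cancel this).symm
  constructor
  · intro h3
    have hnc : ¬ (IsConj a b ∨ IsConj a (a * b) ∨ IsConj b (a * b)) := by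
      intro h
      rw [klein_card_one P hP ha hb ha1 hb1 hab h] at h3
      norm_num at h3
    push Not at hnc
    have hNC : Subgroup.normalizer ((P : Subgroup G) : Set G) ≤ Subgroup.centralizer ((P : Subgroup G) : Set G) := by
      intro n hn
      rw [Subgroup.mem_centralizer_iff]
      intro x hx
      have hx' : x ∈ (P : Subgroup G) := hx
      have hnx : n * x * n⁻¹ ∈ (P : Subgroup G) := ((Subgroup.mem_normalizer_iff (H := (P : Subgroup G))).mp hn x).mp hx'
      have hc : IsConj x (n * x * n⁻¹) := isConj_iff.2 ⟨n, rfl⟩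
      have key : n * x * n⁻¹ = x := by
        have hne1 : x ≠ 1 → n * x * n⁻¹ ≠ 1 := by
          intro hx1 h
          apply hx1
          have : x = n⁻¹ * (n * x * n⁻¹) * n := by group
          rw [this, h]; group
        rcases klein_mem_cases _ hP ha hb ha1 hb1 hab hx' with h | h | h | h
        · rw [h]; group
        · rcases klein_mem_cases _ hP ha hb ha1 hb1 hab hnx with h' | h' | h' | h'
          · exact absurd h' (hne1 (h ▸ ha1))
          · rw [h', h]
          · rw [h', h] at hc; exact absurd hc hnc.1
          · rw [h', h] at hc; exact absurd hc hnc.2.1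
        · rcases klein_mem_cases _ hP ha hb ha1 hb1 hab hnx with h' | h' | h' | h'
          · exact absurd h' (hne1 (h ▸ hb1))
          · rw [h', h] at hc; exact absurd hc.symm hnc.1
          · rw [h', h]
          · rw [h', h] at hc; exact absurd hc hnc.2.2
        · rcases klein_mem_cases _ hP ha hb ha1 hb1 hab hnx with h' | h' | h' | h'
          · exact absurd h' (hne1 (h ▸ hab1))
          · rw [h', h] at hc; exact absurd hc.symm hnc.2.1
          · rw [h', h] at hc; exact absurd hc.symm hnc.2.2
          · rw [h', h]
      calc x * n = (n * x * n⁻¹) * n := by rw [key]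
        _ = n * x := by group
    exact ⟨_, inferInstance, MonoidHom.ker_transferSylow_isComplement' P hNC⟩
  · rintro ⟨N, hN, hc⟩
    apply klein_card_three P hP ha hb ha1 hb1 hab
    have key : ∀ x ∈ P, ∀ y ∈ P, IsConj x y → x = y := by
      intro x hx y hy hxy
      obtain ⟨g, hg⟩ := isConj_iff.1 hxy
      obtain ⟨⟨⟨n, hn⟩, ⟨q, hq⟩⟩, hnq⟩ := hc.2 g
      have hnq' : n * q = g := hnq
      have h1 : q * x * q⁻¹ = x := by
        rw [klein_comm _ hP hq hx, mul_assoc, mul_inv_cancel, mul_one]
      have h2 : y = n * x * n⁻¹ := by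
        rw [← hg, ← hnq']
        calc n * q * x * (n * q)⁻¹ = n * (q * x * q⁻¹) * n⁻¹ := by group
          _ = n * x * n⁻¹ := by rw [h1]
      have h3 : y * x⁻¹ ∈ N := by
        rw [h2]
        have : n * x * n⁻¹ * x⁻¹ = n * (x * n⁻¹ * x⁻¹) := by group
        rw [this]
        exact N.mul_mem hn (hN.conj_mem _ (N.inv_mem hn) x)
      have h4 : y * x⁻¹ ∈ (P : Subgroup G) := mul_mem hy (inv_mem hx)
      have h5 : y * x⁻¹ = 1 := by
        have := hc.disjoint.le_bot ⟨h3, h4⟩
        exact this
      exact (mul_inv_eq_one.mp h5).symm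
    rintro (h | h | h)
    · exact hab (key a ha b hb h)
    · exact haab (key a ha _ (mul_mem ha hb) h)
    · exact hbab (key b hb _ (mul_mem ha hb) h)

end Cfsg.Agent.S0203
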