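import Cfsg.Statements.S0187
import Cfsg.Agent.Lib.Helper2.CharReg

set_option autoImplicit false
open Cfsg

namespace Cfsg.Agent.S0187

/-- A finite group is commutative if and only if every irreducible complex character has degree 1. -/
theorem result {G : Type*} [Group G] [Finite G] : (∀ a b : G, a * b = b * a) ↔ ∀ χ : Cfsg.IrrCharacter G, (χ : G → ℂ) 1 = 1 := by
  classical
  cases nonempty_fintype G
  have := Cfsg.Agent.Lib.Helper2.finite_irrCharacter (G := G)
  cases nonempty_fintype (Cfsg.IrrCharacter G)
  constructor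
  · intro hc χ
    obtain ⟨n, ρ, hρ, h⟩ := χ.2
    have : IsMulCommutative G := ⟨⟨hc⟩⟩
    rw [← h, Representation.char_one,
      Representation.IsIrreducible.finrank_eq_one_of_isMulCommutative ρ]
    simp
  · intro h1
    have h2 := Cfsg.Agent.Lib.Helper2.sum_irr_one_mul (G := G) 1
    rw [if_pos rfl] at h2
    simp only [h1, mul_one, Finset.sum_const, Finset.card_univ, nsmul_eq_mul] at h2
    have h3 : Fintype.card (Cfsg.IrrCharacter G) = Nat.card G := by exact_mod_cast h2
    rw [← Nat.card_eq_fintype_card, Cfsg.Agent.Lib.Helper2.card_irrCharacter] at h3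
    have h4 : Function.Bijective (ConjClasses.mk : G → ConjClasses G) := by
      rw [Fintype.bijective_iff_surjective_and_card]
      refine ⟨ConjClasses.mk_surjective, ?_⟩
      rw [← Nat.card_eq_fintype_card, ← Nat.card_eq_fintype_card, h3]
    intro a b
    have h5 : ConjClasses.mk (a * b * a⁻¹) = ConjClasses.mk b :=
      (ConjClasses.mk_eq_mk_iff_isConj.2 (isConj_iff.2 ⟨a, rfl⟩)).symm
    have h6 := h4.1 h5
    exact mul_inv_eq_iff_eq_mul.1 h6

end Cfsg.Agent.S0187
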