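import Cfsg.Statements.S4713
import Cfsg.Agent.Lib.Helper25.ItoMichler
import Cfsg.Agent.Lib.Helper25.Ito
import Cfsg.Agent.Lib.Helper5.PSolv
import Cfsg.Agent.S0187

set_option autoImplicit false
open Cfsg

namespace Cfsg.Agent.S4713

/-- Let p be a prime and G a finite p-solvable group. Then G has a normal abelian Sylow p-subgroup if and only if the degree of every irreducible character of G is prime to p. -/
theorem result {G : Type*} [Group G] [Finite G] (p : ℕ) [Fact p.Prime] (hsolv : Cfsg.IsPSolvable p G) (P : Sylow p G) : ((P : Subgroup G).Normal ∧ IsMulCommutative P) ↔ ∀ χ : Cfsg.IrrCharacter G, ¬ p ∣ Cfsg.charDegree (χ : G → ℂ) := by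
  classical
  cases nonempty_fintype G
  have hdegc : ∀ (χ : G → ℂ) (d : ℕ), χ 1 = d → Cfsg.charDegree χ = d := by
    intro χ d hd
    simp [Cfsg.charDegree, hd]
  constructor
  · rintro ⟨hn, hc⟩ χ hdvd
    obtain ⟨d, hd, hdi⟩ := Cfsg.Agent.Lib.Helper25.ito_aux _ G rfl (P : Subgroup G)
      (fun a ha b hb => congrArg Subtype.val (hc.is_comm.comm ⟨a, ha⟩ ⟨b, hb⟩)) χ χ.2
    rw [hdegc _ d hd] at hdvd
    exact P.not_dvd_index (hdvd.trans hdi)
  · intro h
    have hdeg : Cfsg.Agent.Lib.Helper25.PPrimeDegrees p G := by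
      intro χ hχ d hd hdvd
      apply h ⟨χ, hχ⟩
      rw [hdegc _ d hd]
      exact hdvd
    have hn : (P : Subgroup G).Normal := by
      refine Cfsg.Agent.Lib.Helper25.sylow_normal_aux p (fun G _ => Cfsg.IsPSolvable p G) ?_ ?_ _ G
        rfl hsolv hdeg P
      · intro G _ _ N _ hG
        exact Cfsg.Agent.Lib.Helper5.isPSolvable_of_surjective (QuotientGroup.mk' N)
          (QuotientGroup.mk'_surjective N) hG
      · intro G _ _ _ hG
        obtain ⟨n, H, h0, hn, hmono, hnorm, hfac⟩ := hG
        by_contra hcon
        push Not at hcon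
        have hall : ∀ i : Fin (n + 1), H i = ⊥ := by
          intro i
          induction i using Fin.induction with
          | zero => exact h0
          | succ i ih =>
            by_contra hne
            have h1 := hcon (H i.succ) (hnorm _) hne
            rcases hfac i with ⟨m, hm⟩ | hc
            · rw [ih, Subgroup.relIndex_bot_left] at hm
              exact h1.1 (IsPGroup.of_card hm)
            · rw [ih, Subgroup.relIndex_bot_left] at hc
              exact h1.2 hc
        rw [hall] at hn
        exact bot_ne_top hn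
    refine ⟨hn, ⟨⟨?_⟩⟩⟩
    exact Cfsg.Agent.Lib.Helper25.sylow_comm_of_pPrimeDegrees p P hdeg
      (fun hl => Cfsg.Agent.S0187.result.2 hl)

end Cfsg.Agent.S4713
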