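import Cfsg.Statements.S1452
import Mathlib
import Cfsg.Agent.S0100
import Cfsg.Agent.Lib.Helper11.PGroup
-- import your own Cfsg.Agent.* helpers here

set_option autoImplicit false
open Cfsg

namespace Cfsg.Agent.S1452

open Cfsg.Agent.Lib.Helper11 in
/-- A normal abelian subgroup of a finite `p`-group lies in a self-centralizing normal abelian
subgroup (variant of `Helper11.exists_normal_abelian_self_centralizing`). -/
theorem exists_scn_ge {R : Type*} [Group R] [Finite R] (p : ℕ)
    [Fact p.Prime] (hR : IsPGroup p R) (E : Subgroup R) (hEn : E.Normal) (hEc : IsMulCommutative E) :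
    ∃ A : Subgroup R, E ≤ A ∧ A.Normal ∧ IsMulCommutative A ∧
      Subgroup.centralizer (A : Set R) = A := by
  obtain ⟨A, hEA, hA⟩ := Finite.exists_le_maximal
    (p := fun A : Subgroup R => A.Normal ∧ IsMulCommutative A) (a := E)
    ⟨hEn, hEc⟩
  obtain ⟨⟨hAn, hAc⟩, hmax⟩ := hA
  have hAcomm : ∀ a ∈ A, ∀ a' ∈ A, a * a' = a' * a := by
    intro a ha a' ha'
    have := hAc.is_comm.comm ⟨a, ha⟩ ⟨a', ha'⟩
    exact congrArg Subtype.val this
  refine ⟨A, hEA, hAn, hAc, le_antisymm ?_ ?_⟩
  swap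
  · intro a ha
    rw [Subgroup.mem_centralizer_iff]
    intro b hb
    exact hAcomm b hb a ha
  by_contra hcon
  obtain ⟨x, hxC, hxA⟩ := SetLike.not_le_iff_exists.mp hcon
  let π := QuotientGroup.mk' A
  have hπs : Function.Surjective π := QuotientGroup.mk'_surjective A
  let N := (Subgroup.centralizer (A : Set R)).map π
  have hNn : N.Normal := Subgroup.Normal.map inferInstance π hπs
  have hN : N ≠ ⊥ := by
    intro h
    have : π x ∈ N := Subgroup.mem_map_of_mem π hxC
    rw [h, Subgroup.mem_bot] at this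
    exact hxA ((QuotientGroup.eq_one_iff x).mp this)
  obtain ⟨zb, hzN, hz1, hzc⟩ := exists_mem_center_of_normal_ne_bot p (hR.to_quotient A) N hN
  obtain ⟨z, hzC, rfl⟩ := Subgroup.mem_map.mp hzN
  have hzA : z ∉ A := fun h => hz1 ((QuotientGroup.eq_one_iff z).mpr h)
  let B := (Subgroup.zpowers (π z)).comap π
  have hZn : (Subgroup.zpowers (π z)).Normal := by
    constructor
    intro n hn g
    obtain ⟨k, rfl⟩ := Subgroup.mem_zpowers_iff.mp hn
    have hc : (π z) ^ k ∈ Subgroup.center (R ⧸ A) := Subgroup.zpow_mem _ hzc k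
    rw [Subgroup.mem_center_iff] at hc
    rw [hc g]
    simp
  have hBn : B.Normal := Subgroup.Normal.comap hZn π
  have hAB : A ≤ B := by
    intro a ha
    show π a ∈ Subgroup.zpowers (π z)
    have h1 : π a = 1 := (QuotientGroup.eq_one_iff a).mpr ha
    rw [h1]
    exact Subgroup.one_mem _
  have hzB : z ∈ B := Subgroup.mem_zpowers (π z)
  have hdec : ∀ b ∈ B, ∃ k : ℤ, ∃ a ∈ A, b = z ^ k * a := by
    intro b hb
    obtain ⟨k, hk⟩ := Subgroup.mem_zpowers_iff.mp hb
    refine ⟨k, (z ^ k)⁻¹ * b, ?_, by group⟩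
    apply (QuotientGroup.eq_one_iff _).mp
    show π ((z ^ k)⁻¹ * b) = 1
    rw [map_mul, map_inv, map_zpow, hk]
    simp
  have hzk : ∀ k : ℤ, ∀ a ∈ A, a * z ^ k = z ^ k * a := by
    intro k a ha
    have : z ^ k ∈ Subgroup.centralizer (A : Set R) := Subgroup.zpow_mem _ hzC k
    exact (Subgroup.mem_centralizer_iff.mp this) a ha
  have hBc : IsMulCommutative B := by
    rw [isMulCommutative_iff]
    rintro ⟨b, hb⟩ ⟨b', hb'⟩
    ext
    show b * b' = b' * b
    obtain ⟨k, a, ha, rfl⟩ := hdec b hb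
    obtain ⟨k', a', ha', rfl⟩ := hdec b' hb'
    calc z ^ k * a * (z ^ k' * a') = z ^ k * (a * z ^ k') * a' := by group
      _ = z ^ k * (z ^ k' * a) * a' := by rw [hzk k' a ha]
      _ = (z ^ k * z ^ k') * (a * a') := by group
      _ = (z ^ k' * z ^ k) * (a' * a) := by rw [hAcomm a ha a' ha', ← zpow_add, ← zpow_add, add_comm]
      _ = z ^ k' * (z ^ k * a') * a := by group
      _ = z ^ k' * (a' * z ^ k) * a := by rw [hzk k a' ha']
      _ = z ^ k' * a' * (z ^ k * a) := by group
  exact hzA (hmax ⟨hBn, hBc⟩ hAB hzB)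

/-- Let p be an odd prime and R a finite p-group containing an elementary abelian subgroup of order p ^ 3. If E is a normal elementary abelian subgroup of R of order p ^ 2, then E ≤ A for some normal subgroup A of R with C_R(A) = A that contains an elementary abelian subgroup of order p ^ 3. -/
theorem result {R : Type*} [Group R] [Finite R] (p : ℕ) [Fact p.Prime] (hp : p ≠ 2) (hR : IsPGroup p R) (hr : ¬ Cfsg.PRankLE p 2 R)
    (E : Subgroup R) [E.Normal] (hE : Cfsg.IsElementaryAbelian p E) (hE2 : Nat.card E = p ^ 2) :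
    ∃ A : Subgroup R, E ≤ A ∧ A.Normal ∧ Subgroup.centralizer (A : Set R) = A ∧ ¬ Cfsg.PRankLE p 2 A := by
  have hpp : p.Prime := Fact.out
  -- a normal elementary abelian subgroup of order p^3
  obtain ⟨B, hBn, hBc, hBe, hB3⟩ : ∃ B : Subgroup R, B.Normal ∧ IsMulCommutative B ∧
      (∀ a ∈ B, a ^ p = 1) ∧ Nat.card B = p ^ 3 := by
    by_contra hcon
    push Not at hcon
    exact hr (fun A hA hAe => Cfsg.Agent.S0100.result hp hR hcon A hA hAe)
  set C := Subgroup.centralizer (E : Set R) with hC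
  have hCn : C.Normal := inferInstance
  have hCi : C.index ∣ p := Cfsg.Agent.S0100.index_centralizer_dvd hR E (by rw [hE2])
  set D := B ⊓ C with hD
  have hDn : D.Normal := inferInstance
  have hEcomm : ∀ a ∈ E, ∀ b ∈ E, a * b = b * a := by
    intro a ha b hb
    exact congrArg Subtype.val (hE.1.is_comm.comm ⟨a, ha⟩ ⟨b, hb⟩)
  have hBcomm : ∀ a ∈ B, ∀ b ∈ B, a * b = b * a := by
    intro a ha b hb
    exact congrArg Subtype.val (hBc.is_comm.comm ⟨a, ha⟩ ⟨b, hb⟩)
  have hDE : ∀ d ∈ D, ∀ e ∈ E, e * d = d * e := by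
    intro d hd e he
    exact (Subgroup.mem_centralizer_iff.mp (Subgroup.mem_inf.1 hd).2) e he
  set E1 := E ⊔ D with hE1
  have hE1n : E1.Normal := inferInstance
  have hmem : ∀ x ∈ E1, ∃ e ∈ E, ∃ d ∈ D, x = e * d := by
    intro x hx
    rw [hE1, Subgroup.mem_sup_of_normal_right] at hx
    obtain ⟨e, he, d, hd, rfl⟩ := hx
    exact ⟨e, he, d, hd, rfl⟩
  have hE1comm : ∀ x ∈ E1, ∀ y ∈ E1, x * y = y * x := by
    intro x hx y hy
    obtain ⟨e, he, d, hd, rfl⟩ := hmem x hx
    obtain ⟨e', he', d', hd', rfl⟩ := hmem y hy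
    calc e * d * (e' * d') = e * (d * e') * d' := by group
      _ = e * (e' * d) * d' := by rw [hDE d hd e' he']
      _ = (e * e') * (d * d') := by group
      _ = (e' * e) * (d' * d) := by
          rw [hEcomm e he e' he', hBcomm d (Subgroup.mem_inf.1 hd).1 d' (Subgroup.mem_inf.1 hd').1]
      _ = e' * (e * d') * d := by group
      _ = e' * (d' * e) * d := by rw [hDE d' hd' e he]
      _ = e' * d' * (e * d) := by group
  have hE1c : IsMulCommutative E1 := by
    rw [isMulCommutative_iff]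
    rintro ⟨x, hx⟩ ⟨y, hy⟩
    ext
    exact hE1comm x hx y hy
  have hE1e : ∀ x ∈ E1, x ^ p = 1 := by
    intro x hx
    obtain ⟨e, he, d, hd, rfl⟩ := hmem x hx
    rw [(show Commute e d from hDE d hd e he).mul_pow, hE.2 e he, hBe d (Subgroup.mem_inf.1 hd).1,
      one_mul]
  -- order of D
  have hDcard : p ^ 2 ≤ Nat.card D := by
    have h1 : C.relIndex B ∣ p := (Subgroup.relIndex_dvd_index_of_normal C B).trans hCi
    have h2 : Nat.card D * C.relIndex B = Nat.card B := by
      have h3 := Subgroup.relIndex_mul_relIndex ⊥ D B bot_le inf_le_left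
      rw [Subgroup.relIndex_bot_left, Subgroup.relIndex_bot_left, hD, Subgroup.inf_relIndex_left,
        ← hD] at h3
      exact h3
    have h4 : C.relIndex B ≤ p := Nat.le_of_dvd hpp.pos h1
    rw [hB3] at h2
    by_contra hlt
    push Not at hlt
    have : Nat.card D * C.relIndex B < p ^ 2 * p := by
      calc Nat.card D * C.relIndex B ≤ Nat.card D * p := Nat.mul_le_mul_left _ h4
        _ < p ^ 2 * p := Nat.mul_lt_mul_of_pos_right hlt hpp.pos
    rw [h2] at this
    exact absurd this (by rw [← pow_succ]; exact lt_irrefl _)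
  have hE1card : ¬ Nat.card E1 ≤ p ^ 2 := by
    intro hle
    have hEE1 : E = E1 := Subgroup.eq_of_le_of_card_ge le_sup_left (by rw [hE2]; exact hle)
    have hDleE : D ≤ E := by rw [hEE1]; exact le_sup_right
    have hDeqE : D = E := Subgroup.eq_of_le_of_card_ge hDleE (by rw [hE2]; exact hDcard)
    have hEB : E ≤ B := by rw [← hDeqE]; exact inf_le_left
    have hBC : B ≤ C := by
      intro b hb
      rw [hC, Subgroup.mem_centralizer_iff]
      intro e he
      exact hBcomm e (hEB he) b hb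
    have hDB : D = B := by rw [hD]; exact inf_eq_left.2 hBC
    have : Nat.card B = p ^ 2 := by rw [← hDB, hDeqE, hE2]
    rw [hB3] at this
    exact absurd (Nat.pow_right_injective hpp.two_le this) (by norm_num)
  obtain ⟨A, hE1A, hAn, hAc, hAC⟩ := exists_scn_ge p hR E1 hE1n hE1c
  refine ⟨A, le_sup_left.trans hE1A, hAn, hAC, ?_⟩
  intro hrank
  apply hE1card
  have := hrank (E1.subgroupOf A) (by
      rw [isMulCommutative_iff]
      rintro ⟨x, hx⟩ ⟨y, hy⟩
      ext
      exact hE1comm x hx y hy) (by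
      intro a ha
      ext
      exact hE1e a ha)
  rwa [Nat.card_congr (Subgroup.subgroupOfEquivOfLe hE1A).toEquiv] at this

end Cfsg.Agent.S1452
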