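import Cfsg.Statements.S0749

set_option autoImplicit false
open Cfsg

namespace Cfsg.Agent.S0749

variable {F V : Type*} [Field F] [AddCommGroup V] [Module F V]

/-- the symplectic transvection `x ↦ x + c B(x,w) w` -/
noncomputable def tv (B : LinearMap.BilinForm F V) (hA : B.IsAlt) (w : V) (c : F) : V ≃ₗ[F] V :=
  LinearEquiv.transvection (f := c • B.flip w) (v := w) (by simp [hA w])

theorem tv_apply (B : LinearMap.BilinForm F V) (hA : B.IsAlt) (w : V) (c : F) (x : V) :
    tv B hA w c x = x + (c * B x w) • w := by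
  unfold tv
  rw [LinearEquiv.transvection.apply]
  simp

theorem tv_isom (B : LinearMap.BilinForm F V) (hA : B.IsAlt) (w : V) (c : F) (x y : V) :
    B (tv B hA w c x) (tv B hA w c y) = B x y := by
  rw [tv_apply, tv_apply]
  simp only [map_add, map_smul, LinearMap.add_apply, LinearMap.smul_apply, smul_eq_mul, hA w]
  have := LinearMap.IsAlt.neg hA w y
  rw [← this]
  ring

theorem step (B : LinearMap.BilinForm F V) (hA : B.IsAlt) (x y : V) (h : B x y ≠ 0) :
    ∃ g : V ≃ₗ[F] V, (∀ u v, B (g u) (g v) = B u v) ∧ g x = y ∧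
      ∀ z, B z (x - y) = 0 → g z = z := by
  refine ⟨tv B hA (x - y) (B x y)⁻¹, tv_isom B hA _ _, ?_, ?_⟩
  · rw [tv_apply, map_sub, hA x, zero_sub, mul_neg, inv_mul_cancel₀ h]
    simp
  · intro z hz
    rw [tv_apply, hz]
    simp

theorem exists_orth [FiniteDimensional F V] (B : LinearMap.BilinForm F V) (hB : B.Nondegenerate)
    (hA : B.IsAlt) (X : Submodule F V) (a : V) (ha : a ∉ X) :
    ∃ t, (∀ n ∈ X, B n t = 0) ∧ B t a ≠ 0 := by
  by_contra hcon
  push Not at hcon
  apply ha
  rw [← LinearMap.BilinForm.orthogonal_orthogonal hB hA.isRefl X,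
    LinearMap.BilinForm.mem_orthogonal_iff]
  intro t ht
  exact hcon t (LinearMap.BilinForm.mem_orthogonal_iff.mp ht)

theorem main [FiniteDimensional F V] (B : LinearMap.BilinForm F V) (hB : B.Nondegenerate)
    (hA : B.IsAlt) (s : Finset V) : ∀ φ : V →ₗ[F] V,
    (∀ x ∈ Submodule.span F (s : Set V), ∀ x' ∈ Submodule.span F (s : Set V),
      B (φ x) (φ x') = B x x') →
    (∀ x ∈ Submodule.span F (s : Set V), φ x = 0 → x = 0) →
    ∃ g : V ≃ₗ[F] V, (∀ u v, B (g u) (g v) = B u v) ∧
      ∀ x ∈ Submodule.span F (s : Set V), g x = φ x := by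
  classical
  induction s using Finset.induction_on with
  | empty =>
    intro φ _ _
    refine ⟨LinearEquiv.refl F V, fun u v => rfl, fun x hx => ?_⟩
    simp only [Finset.coe_empty, Submodule.span_empty, Submodule.mem_bot] at hx
    subst hx
    simp
  | insert a s _ ih =>
    intro φ hφ hinj
    rw [Finset.coe_insert] at hφ hinj ⊢
    have hle : Submodule.span F (s : Set V) ≤ Submodule.span F (insert a (s : Set V)) :=
      Submodule.span_mono (Set.subset_insert a s)
    have haX : a ∈ Submodule.span F (insert a (s : Set V)) :=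
      Submodule.subset_span (Set.mem_insert a s)
    obtain ⟨g0, hg0, hg0φ⟩ := ih φ (fun x hx x' hx' => hφ x (hle hx) x' (hle hx'))
      (fun x hx => hinj x (hle hx))
    by_cases ha : a ∈ Submodule.span F (s : Set V)
    · refine ⟨g0, hg0, fun x hx => ?_⟩
      rw [Submodule.span_insert_eq_span ha] at hx
      exact hg0φ x hx
    · set y := g0.symm (φ a) with hy
      have hgy : g0 y = φ a := by simp [hy]
      have h1 : ∀ z ∈ Submodule.span F (s : Set V), B z (a - y) = 0 := by
        intro z hz
        rw [map_sub, sub_eq_zero, ← hg0 z y, hgy, hg0φ z hz, hφ z (hle hz) a haX]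
      have h2 : y ∉ Submodule.span F (s : Set V) := by
        intro hyX
        have h3 : φ (a - y) = 0 := by
          rw [map_sub, ← hg0φ y hyX, hgy, sub_self]
        have h4 := hinj (a - y) (Submodule.sub_mem _ haX (hle hyX)) h3
        rw [sub_eq_zero] at h4
        rw [h4] at ha
        exact ha hyX
      obtain ⟨h, hh, hha, hhfix⟩ : ∃ h : V ≃ₗ[F] V, (∀ u v, B (h u) (h v) = B u v) ∧ h a = y ∧
          ∀ z ∈ Submodule.span F (s : Set V), h z = z := by
        by_cases hay : B a y = 0
        · obtain ⟨t, ht, hta, hty⟩ : ∃ t, (∀ n ∈ Submodule.span F (s : Set V), B n t = 0) ∧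
              B t a ≠ 0 ∧ B t y ≠ 0 := by
            obtain ⟨t1, ht1, ht1a⟩ := exists_orth B hB hA _ a ha
            obtain ⟨t2, ht2, ht2y⟩ := exists_orth B hB hA _ y h2
            by_cases c1 : B t1 y = 0
            · by_cases c2 : B t2 a = 0
              · refine ⟨t1 + t2, fun n hn => by rw [map_add, ht1 n hn, ht2 n hn, add_zero], ?_, ?_⟩
                · rw [map_add, LinearMap.add_apply, c2, add_zero]; exact ht1a
                · rw [map_add, LinearMap.add_apply, c1, zero_add]; exact ht2y
              · exact ⟨t2, ht2, c2, ht2y⟩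
            · exact ⟨t1, ht1, ht1a, c1⟩
          have e1 : B a (a + t) ≠ 0 := by
            rw [map_add, hA a, zero_add, ← LinearMap.IsAlt.neg hA t a]
            exact neg_ne_zero.mpr hta
          have e2 : B (a + t) y ≠ 0 := by
            rw [map_add, LinearMap.add_apply, hay, zero_add]
            exact hty
          obtain ⟨k1, hk1, hk1a, hk1fix⟩ := step B hA a (a + t) e1
          obtain ⟨k2, hk2, hk2a, hk2fix⟩ := step B hA (a + t) y e2
          refine ⟨k1.trans k2, fun u v => ?_, ?_, fun z hz => ?_⟩
          · simp only [LinearEquiv.trans_apply, hk2, hk1]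
          · simp only [LinearEquiv.trans_apply, hk1a, hk2a]
          · have f1 : k1 z = z := by
              apply hk1fix
              rw [sub_add_cancel_left, map_neg, ht z hz, neg_zero]
            have f2 : k2 z = z := by
              apply hk2fix
              have : a + t - y = (a - y) + t := by abel
              rw [this, map_add, h1 z hz, ht z hz, add_zero]
            simp only [LinearEquiv.trans_apply, f1, f2]
        · obtain ⟨k, hk, hka, hkfix⟩ := step B hA a y hay
          exact ⟨k, hk, hka, fun z hz => hkfix z (h1 z hz)⟩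
      refine ⟨h.trans g0, fun u v => ?_, fun x hx => ?_⟩
      · simp only [LinearEquiv.trans_apply, hg0, hh]
      · rw [Submodule.mem_span_insert] at hx
        obtain ⟨c, z, hz, rfl⟩ := hx
        simp only [LinearEquiv.trans_apply, map_add, map_smul, hha, hgy, hhfix z hz, hg0φ z hz]

/-- Witt's Lemma for alternating forms. If B is a non-degenerate alternating bilinear form on a finite-dimensional vector space V (over any field) and φ is a linear equivalence between subspaces X and Y of V preserving B, then φ extends to a B-preserving linear automorphism of V. -/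
theorem result {F V : Type*} [Field F] [AddCommGroup V] [Module F V] [FiniteDimensional F V] (B : LinearMap.BilinForm F V) (hB : B.Nondegenerate) (hA : B.IsAlt) (X Y : Submodule F V) (φ : X ≃ₗ[F] Y) (hφ : ∀ x x' : X, B (φ x : V) (φ x' : V) = B (x : V) (x' : V)) : ∃ g : V ≃ₗ[F] V, (∀ u v : V, B (g u) (g v) = B u v) ∧ ∀ x : X, g (x : V) = (φ x : V) := by
  obtain ⟨s, hs⟩ : X.FG := IsNoetherian.noetherian X
  obtain ⟨φ', hφ'⟩ := LinearMap.exists_extend (Y.subtype ∘ₗ φ.toLinearMap)
  have hφ'' : ∀ x : X, φ' (x : V) = (φ x : V) := by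
    intro x
    have := congrArg (fun f => f x) hφ'
    simpa using this
  obtain ⟨g, hg, hgφ⟩ := main B hB hA s φ' (by
      rw [hs]
      intro x hx x' hx'
      have := hφ ⟨x, hx⟩ ⟨x', hx'⟩
      rw [← hφ'', ← hφ''] at this
      exact this) (by
      rw [hs]
      intro x hx h0
      have h1 := hφ'' ⟨x, hx⟩
      simp only at h1
      rw [h0] at h1
      have h2 : φ ⟨x, hx⟩ = 0 := Subtype.ext h1.symm
      have h3 : (⟨x, hx⟩ : X) = 0 := by simpa using h2
      exact congrArg Subtype.val h3)
  refine ⟨g, hg, fun x => ?_⟩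
  rw [hgφ x (by rw [hs]; exact x.2), hφ'']

end Cfsg.Agent.S0749
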