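import Cfsg.Statements.S0751

set_option autoImplicit false
open Cfsg

namespace Cfsg.Agent.S0751

variable {F V : Type*} [Field F] [AddCommGroup V] [Module F V]

theorem exists_trace (σ : F →+* F) (hσ : σ ≠ RingHom.id F) (hσ2 : ∀ a : F, σ (σ a) = a)
    (c : F) (hc : σ c = c) : ∃ ν : F, ν ≠ 0 ∧ ν + σ ν = c := by
  obtain ⟨a, ha⟩ : ∃ a : F, σ a ≠ a := by
    by_contra hcon
    push Not at hcon
    exact hσ (RingHom.ext hcon)
  by_cases hc0 : c = 0
  · refine ⟨a - σ a, sub_ne_zero.mpr (Ne.symm ha), ?_⟩
    rw [map_sub, hσ2, hc0]; ring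
  · obtain ⟨θ, hθ⟩ : ∃ θ : F, θ + σ θ ≠ 0 := by
      by_contra hcon
      push Not at hcon
      have h1 := hcon 1
      rw [map_one] at h1
      have h2 := hcon a
      apply ha
      have h3 : σ a = - a := by linear_combination h2
      rw [h3]
      linear_combination (-a) * h1
    have hτ : σ (θ + σ θ) = θ + σ θ := by rw [map_add, hσ2]; ring
    refine ⟨c * θ / (θ + σ θ), ?_, ?_⟩
    · intro h
      rw [div_eq_zero_iff] at h
      rcases h with h | h
      · rcases mul_eq_zero.mp h with h | h
        · exact hc0 h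
        · apply hθ; rw [h]; simp
      · exact hθ h
    · rw [map_div₀, map_mul, hτ, hc]
      field_simp

variable (σ : F →+* F) (B : V →ₛₗ[σ] V →ₗ[F] F)

theorem equiv_of_isom [FiniteDimensional F V] (hB : B.Nondegenerate) (T : V →ₗ[F] V)
    (hT : ∀ u v, B (T u) (T v) = B u v) : ∃ g : V ≃ₗ[F] V, ∀ x, g x = T x := by
  have hinj : Function.Injective T := by
    rw [injective_iff_map_eq_zero]
    intro u hu
    apply hB.1
    intro v
    rw [← hT, hu]
    simp
  exact ⟨LinearEquiv.ofInjectiveEndo T hinj, fun x => rfl⟩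

theorem step [FiniteDimensional F V] (hS : B.IsSymm) (hB : B.Nondegenerate) (x y : V)
    (hxy : B x x = B y y) (h : B (x - y) x ≠ 0) :
    ∃ g : V ≃ₗ[F] V, (∀ u v, B (g u) (g v) = B u v) ∧ g x = y ∧
      ∀ z, B (x - y) z = 0 → g z = z := by
  set w := x - y with hw
  set β := B w x with hβ
  have hσβ : σ β = B x w := hS.eq w x
  have hσβ0 : σ β ≠ 0 := by
    intro h0
    apply h
    have := (map_eq_zero σ).mp h0
    exact this
  have hww : B w w = β + σ β := by
    have e1 : B w w = B w x - B w y := by rw [← map_sub, ← hw]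
    have e2 : B w y = B x y - B y y := by rw [hw]; simp
    have e3 : B x w = B x x - B x y := by rw [hw]; simp
    rw [e1, e2, hσβ, e3, hxy]; ring
  let T : V →ₗ[F] V := LinearMap.id + ((-β⁻¹) • B w).smulRight w
  have hTapp : ∀ z, T z = z + (-β⁻¹ * B w z) • w := by
    intro z
    simp [T]
  have hT : ∀ u v, B (T u) (T v) = B u v := by
    intro u v
    rw [hTapp, hTapp]
    simp only [map_add, LinearMap.add_apply, LinearMap.map_smulₛₗ, LinearMap.smul_apply, map_smul,
      smul_eq_mul, map_mul, map_neg, map_inv₀, hS.eq w u, hww]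
    field_simp
    ring
  obtain ⟨g, hg⟩ := equiv_of_isom σ B hB T hT
  refine ⟨g, fun u v => by rw [hg, hg, hT], ?_, ?_⟩
  · rw [hg, hTapp, ← hβ, neg_mul, inv_mul_cancel₀ h, hw]
    simp
  · intro z hz
    rw [hg, hTapp, hz]
    simp

theorem exists_orth [Finite F] [FiniteDimensional F V] (hB : B.Nondegenerate)
    (X : Submodule F V) (a : V) (ha : a ∉ X) :
    ∃ t, (∀ n ∈ X, B t n = 0) ∧ B t a ≠ 0 := by
  obtain ⟨f, hfa, hf⟩ := Submodule.exists_le_ker_of_notMem ha
  have : Finite V := Module.finite_of_finite F
  have hinj : Function.Injective (fun t : V => B t) := by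
    intro t t' h
    have h' : B (t - t') = 0 := by
      rw [map_sub]; exact sub_eq_zero.mpr h
    have := hB.1 (t - t') (fun y => by rw [h']; rfl)
    exact sub_eq_zero.mp this
  have hsurj : Function.Surjective (fun t : V => B t) :=
    (Finite.injective_iff_surjective_of_equiv
      (Module.finBasis F V).toDualEquiv.toEquiv).mp hinj
  obtain ⟨t, ht⟩ := hsurj f
  simp only at ht
  refine ⟨t, fun n hn => ?_, ?_⟩
  · rw [ht]; exact hf hn
  · rw [ht]; exact hfa

theorem main [Finite F] [FiniteDimensional F V] (hσ : σ ≠ RingHom.id F)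
    (hσ2 : ∀ a : F, σ (σ a) = a) (hS : B.IsSymm) (hB : B.Nondegenerate)
    (s : Finset V) : ∀ φ : V →ₗ[F] V,
    (∀ x ∈ Submodule.span F (s : Set V), ∀ x' ∈ Submodule.span F (s : Set V),
      B (φ x) (φ x') = B x x') →
    (∀ x ∈ Submodule.span F (s : Set V), φ x = 0 → x = 0) →
    ∃ g : V ≃ₗ[F] V, (∀ u v, B (g u) (g v) = B u v) ∧
      ∀ x ∈ Submodule.span F (s : Set V), g x = φ x := by
  classical
  induction s using Finset.induction_on with
  | empty =>
    intro φ _ _
    refine ⟨LinearEquiv.refl F V, fun u v => rfl, fun x hx => ?_⟩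
    simp only [Finset.coe_empty, Submodule.span_empty, Submodule.mem_bot] at hx
    subst hx
    simp
  | insert a s _ ih =>
    intro φ hφ hinj
    rw [Finset.coe_insert] at hφ hinj ⊢
    have hle : Submodule.span F (s : Set V) ≤ Submodule.span F (insert a (s : Set V)) :=
      Submodule.span_mono (Set.subset_insert a s)
    have haX : a ∈ Submodule.span F (insert a (s : Set V)) :=
      Submodule.subset_span (Set.mem_insert a s)
    obtain ⟨g0, hg0, hg0φ⟩ := ih φ (fun x hx x' hx' => hφ x (hle hx) x' (hle hx'))
      (fun x hx => hinj x (hle hx))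
    by_cases ha : a ∈ Submodule.span F (s : Set V)
    · refine ⟨g0, hg0, fun x hx => ?_⟩
      rw [Submodule.span_insert_eq_span ha] at hx
      exact hg0φ x hx
    · set y := g0.symm (φ a) with hy
      have hgy : g0 y = φ a := by simp [hy]
      have h1 : ∀ z ∈ Submodule.span F (s : Set V), B (a - y) z = 0 := by
        intro z hz
        rw [map_sub, LinearMap.sub_apply, sub_eq_zero, ← hg0 y z, hgy, hg0φ z hz,
          hφ a haX z (hle hz)]
      have hyy : B a a = B y y := by
        rw [← hg0 y y, hgy, hφ a haX a haX]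
      have h2 : y ∉ Submodule.span F (s : Set V) := by
        intro hyX
        have h3 : φ (a - y) = 0 := by
          rw [map_sub, ← hg0φ y hyX, hgy, sub_self]
        have h4 := hinj (a - y) (Submodule.sub_mem _ haX (hle hyX)) h3
        rw [sub_eq_zero] at h4
        rw [h4] at ha
        exact ha hyX
      obtain ⟨h, hh, hha, hhfix⟩ : ∃ h : V ≃ₗ[F] V, (∀ u v, B (h u) (h v) = B u v) ∧ h a = y ∧
          ∀ z ∈ Submodule.span F (s : Set V), h z = z := by
        by_cases hay : B (a - y) a = 0
        · obtain ⟨t0, ht0, ht0a, ht0y⟩ : ∃ t, (∀ n ∈ Submodule.span F (s : Set V), B t n = 0) ∧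
              B t a ≠ 0 ∧ B t y ≠ 0 := by
            obtain ⟨t1, ht1, ht1a⟩ := exists_orth σ B hB _ a ha
            obtain ⟨t2, ht2, ht2y⟩ := exists_orth σ B hB _ y h2
            by_cases c1 : B t1 y = 0
            · by_cases c2 : B t2 a = 0
              · refine ⟨t1 + t2, fun n hn => by
                  rw [map_add, LinearMap.add_apply, ht1 n hn, ht2 n hn, add_zero], ?_, ?_⟩
                · rw [map_add, LinearMap.add_apply, c2, add_zero]; exact ht1a
                · rw [map_add, LinearMap.add_apply, c1, zero_add]; exact ht2y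
              · exact ⟨t2, ht2, c2, ht2y⟩
            · exact ⟨t1, ht1, ht1a, c1⟩
          -- scale t0
          set γ := B a t0 with hγ
          have hσγ : σ γ = B t0 a := hS.eq a t0
          have hσγ0 : σ γ ≠ 0 := by rw [hσγ]; exact ht0a
          have hγ0 : γ ≠ 0 := fun h0 => hσγ0 (by rw [h0, map_zero])
          set δ := B t0 t0 with hδ
          have hσδ : σ δ = δ := hS.eq t0 t0
          obtain ⟨ν, hν0, hν⟩ := exists_trace σ hσ hσ2 (-δ / (γ * σ γ)) (by
            rw [map_div₀, map_neg, map_mul, hσ2, hσδ, mul_comm])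
          have hσν0 : σ ν ≠ 0 := fun h0 => hν0 ((map_eq_zero σ).mp h0)
          set lam := (ν * γ)⁻¹ with hlam
          have hlam0 : lam ≠ 0 := inv_ne_zero (mul_ne_zero hν0 hγ0)
          have hσlam0 : σ lam ≠ 0 := fun h0 => hlam0 ((map_eq_zero σ).mp h0)
          set t := lam • t0 with ht
          have htX : ∀ n ∈ Submodule.span F (s : Set V), B t n = 0 := by
            intro n hn
            rw [ht, LinearMap.map_smulₛₗ, LinearMap.smul_apply, ht0 n hn, smul_zero]
          have hat : B a t = lam * γ := by rw [ht, map_smul, smul_eq_mul]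
          have hta : B t a = σ lam * σ γ := by
            rw [ht, LinearMap.map_smulₛₗ, LinearMap.smul_apply, smul_eq_mul, hσγ]
          have htt : B t t = σ lam * (lam * δ) := by
            rw [ht, map_smul, LinearMap.map_smulₛₗ, LinearMap.smul_apply, smul_eq_mul, smul_eq_mul]
            ring
          have hcond : B a t + B t a + B t t = 0 := by
            rw [hat, hta, htt, hlam, map_inv₀, map_mul]
            have hν' : σ ν = -δ / (γ * σ γ) - ν := by rw [← hν]; ring
            have e : (ν * γ)⁻¹ * γ + (σ ν * σ γ)⁻¹ * σ γ + (σ ν * σ γ)⁻¹ * ((ν * γ)⁻¹ * δ)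
                = ((ν + σ ν) * (γ * σ γ) + δ) / (ν * σ ν * (γ * σ γ)) := by
              field_simp
              ring
            rw [e, hν]
            field_simp
            ring
          have hty : B t y ≠ 0 := by
            rw [ht, LinearMap.map_smulₛₗ, LinearMap.smul_apply, smul_eq_mul]
            exact mul_ne_zero hσlam0 ht0y
          have hyt : B y t ≠ 0 := by
            rw [← hS.eq t y]
            exact fun h0 => hty ((map_eq_zero σ).mp h0)
          have hta0 : B t a ≠ 0 := by rw [hta]; exact mul_ne_zero hσlam0 hσγ0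
          have n1 : B a a = B (a + t) (a + t) := by
            simp only [map_add, LinearMap.add_apply]
            linear_combination -hcond
          have e1 : B (a - (a + t)) a ≠ 0 := by
            rw [sub_add_cancel_left, map_neg, LinearMap.neg_apply]
            exact neg_ne_zero.mpr hta0
          have e2 : B (a + t - y) (a + t) ≠ 0 := by
            have : B (a + t - y) (a + t) = - B y t := by
              have hay' : B a a - B y a = 0 := by
                simpa using hay
              simp only [map_add, map_sub, LinearMap.add_apply, LinearMap.sub_apply]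
              linear_combination hay' + hcond
            rw [this]
            exact neg_ne_zero.mpr hyt
          obtain ⟨k1, hk1, hk1a, hk1fix⟩ := step σ B hS hB a (a + t) n1 e1
          obtain ⟨k2, hk2, hk2a, hk2fix⟩ := step σ B hS hB (a + t) y (n1.symm.trans hyy) e2
          refine ⟨k1.trans k2, fun u v => ?_, ?_, fun z hz => ?_⟩
          · simp only [LinearEquiv.trans_apply, hk2, hk1]
          · simp only [LinearEquiv.trans_apply, hk1a, hk2a]
          · have f1 : k1 z = z := by
              apply hk1fix
              rw [sub_add_cancel_left, map_neg, LinearMap.neg_apply, htX z hz, neg_zero]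
            have f2 : k2 z = z := by
              apply hk2fix
              have : a + t - y = (a - y) + t := by abel
              rw [this, map_add, LinearMap.add_apply, h1 z hz, htX z hz, add_zero]
            simp only [LinearEquiv.trans_apply, f1, f2]
        · obtain ⟨k, hk, hka, hkfix⟩ := step σ B hS hB a y hyy hay
          exact ⟨k, hk, hka, fun z hz => hkfix z (h1 z hz)⟩
      refine ⟨h.trans g0, fun u v => ?_, fun x hx => ?_⟩
      · simp only [LinearEquiv.trans_apply, hg0, hh]
      · rw [Submodule.mem_span_insert] at hx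
        obtain ⟨c, z, hz, rfl⟩ := hx
        simp only [LinearEquiv.trans_apply, map_add, map_smul, hha, hgy, hhfix z hz, hg0φ z hz]

/-- Witt's Lemma for Hermitian forms. Let σ be a non-identity involutive automorphism of a finite field F and B a non-degenerate σ-sesquilinear form on a finite-dimensional F-space V which is conjugate-symmetric (σ (B x y) = B y x). Then every linear equivalence between subspaces X, Y of V preserving B extends to a B-preserving linear automorphism of V. -/
theorem result {F V : Type*} [Field F] [Finite F] [AddCommGroup V] [Module F V] [FiniteDimensional F V] (σ : F →+* F) (hσ : σ ≠ RingHom.id F) (hσ2 : ∀ a : F, σ (σ a) = a) (B : V →ₛₗ[σ] V →ₗ[F] F) (hS : B.IsSymm) (hB : B.Nondegenerate) (X Y : Submodule F V) (φ : X ≃ₗ[F] Y) (hφ : ∀ x x' : X, B (φ x : V) (φ x' : V) = B (x : V) (x' : V)) : ∃ g : V ≃ₗ[F] V, (∀ u v : V, B (g u) (g v) = B u v) ∧ ∀ x : X, g (x : V) = (φ x : V) := by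
  obtain ⟨s, hs⟩ : X.FG := IsNoetherian.noetherian X
  obtain ⟨φ', hφ'⟩ := LinearMap.exists_extend (Y.subtype ∘ₗ φ.toLinearMap)
  have hφ'' : ∀ x : X, φ' (x : V) = (φ x : V) := by
    intro x
    have := congrArg (fun f => f x) hφ'
    simpa using this
  obtain ⟨g, hg, hgφ⟩ := main σ B hσ hσ2 hS hB s φ' (by
      rw [hs]
      intro x hx x' hx'
      have := hφ ⟨x, hx⟩ ⟨x', hx'⟩
      rw [← hφ'', ← hφ''] at this
      exact this) (by
      rw [hs]
      intro x hx h0
      have h1 := hφ'' ⟨x, hx⟩
      simp only at h1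
      rw [h0] at h1
      have h2 : φ ⟨x, hx⟩ = 0 := Subtype.ext h1.symm
      have h3 : (⟨x, hx⟩ : X) = 0 := by simpa using h2
      exact congrArg Subtype.val h3)
  refine ⟨g, hg, fun x => ?_⟩
  rw [hgφ x (by rw [hs]; exact x.2), hφ'']

end Cfsg.Agent.S0751
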