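import Cfsg.Statements.S0755

set_option autoImplicit false
open Cfsg

namespace Cfsg.Agent.S0755

universe u v

/-- Surjectivity of the norm `x ↦ x σ(x)` onto the non-zero fixed elements, for a non-identity
involution of a finite field. -/
theorem norm_surj {F : Type u} [Field F] [Finite F] (σ : F →+* F) (hσ : σ ≠ RingHom.id F)
    (hσ2 : ∀ a : F, σ (σ a) = a) (c : F) (hc0 : c ≠ 0) (hc : σ c = c) :
    ∃ l : F, l * σ l = c := by
  let S : Fˣ →* Fˣ := Units.map σ.toMonoidHom
  have hS : ∀ x : Fˣ, ((S x : Fˣ) : F) = σ x := fun x => rfl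
  let N : Fˣ →* Fˣ := MonoidHom.id Fˣ * S
  let D : Fˣ →* Fˣ := MonoidHom.id Fˣ * S⁻¹
  have hN : ∀ x : Fˣ, N x = x * S x := fun x => rfl
  have hD : ∀ x : Fˣ, D x = x * (S x)⁻¹ := fun x => rfl
  have hSS : ∀ x : Fˣ, S (S x) = x := fun x => Units.ext (hσ2 x)
  have h1 : D.range = N.ker := by
    apply le_antisymm
    · rintro _ ⟨y, rfl⟩
      rw [MonoidHom.mem_ker, hN, hD, map_mul, map_inv, hSS]
      group
    · intro x hx
      rw [MonoidHom.mem_ker, hN] at hx
      have hx' : (x : F) * σ x = 1 := by
        have := congrArg Units.val hx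
        simpa [hS] using this
      obtain ⟨θ, hθ⟩ : ∃ θ : F, θ + x * σ θ ≠ 0 := by
        by_contra hcon
        push Not at hcon
        have e1 := hcon 1
        rw [map_one, mul_one] at e1
        apply hσ
        ext a
        have e2 := hcon a
        have e3 : (x : F) = -1 := by linear_combination e1
        rw [e3] at e2
        simp only [RingHom.id_apply]
        linear_combination -e2
      refine ⟨Units.mk0 _ hθ, ?_⟩
      rw [hD, mul_inv_eq_iff_eq_mul]
      apply Units.ext
      rw [Units.val_mul, hS, Units.val_mk0, map_add, map_mul, hσ2]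
      linear_combination (-θ) * hx'
  have h2 : N.range ≤ D.ker := by
    rintro _ ⟨y, rfl⟩
    rw [MonoidHom.mem_ker, hD, hN, map_mul, hSS, mul_comm (S y) y]
    simp
  have c1 := Subgroup.card_mul_index N.ker
  have c2 := Subgroup.card_mul_index D.ker
  rw [Subgroup.index_ker] at c1 c2
  rw [h1] at c2
  have hpos : 0 < Nat.card N.ker := Nat.card_pos
  have c3 : Nat.card N.range = Nat.card D.ker := by
    have : Nat.card N.ker * Nat.card N.range = Nat.card N.ker * Nat.card D.ker := by
      rw [c1, ← c2, mul_comm]
    exact Nat.eq_of_mul_eq_mul_left hpos this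
  have h3 : N.range = D.ker := Subgroup.eq_of_le_of_card_ge h2 c3.ge
  have hcmem : Units.mk0 c hc0 ∈ D.ker := by
    rw [MonoidHom.mem_ker, hD, mul_inv_eq_one]
    apply Units.ext
    rw [hS, Units.val_mk0, hc]
  rw [← h3] at hcmem
  obtain ⟨l, hl⟩ := hcmem
  refine ⟨l, ?_⟩
  have := congrArg Units.val hl
  simpa [hN, hS] using this

theorem exists_family {F : Type u} [Field F] [Finite F] (σ : F →+* F) (hσ : σ ≠ RingHom.id F)
    (hσ2 : ∀ a : F, σ (σ a) = a) (n : ℕ) : ∀ {V : Type v} [AddCommGroup V] [Module F V]
    [FiniteDimensional F V] (B : V →ₛₗ[σ] V →ₗ[F] F), B.IsSymm → B.Nondegenerate →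
    Module.finrank F V = n → ∃ b : Fin n → V, ∀ i j, B (b i) (b j) = if i = j then 1 else 0 := by
  induction n with
  | zero =>
    intro V _ _ _ B _ _ _
    exact ⟨Fin.elim0, fun i => i.elim0⟩
  | succ n ih =>
    intro V _ _ _ B hS hB hn
    have hnt : Nontrivial V := Module.nontrivial_of_finrank_pos (R := F) (by omega)
    -- a vector with non-zero norm
    obtain ⟨v1, hv1⟩ : ∃ v, B v v ≠ 0 := by
      by_contra hcon
      push Not at hcon
      have hanti : ∀ u v : V, B u v + B v u = 0 := by
        intro u v
        have h := hcon (u + v)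
        simp only [map_add, LinearMap.add_apply, hcon, zero_add, add_zero] at h
        rw [add_comm]; exact h
      obtain ⟨a, ha⟩ : ∃ a : F, σ a ≠ a := by
        by_contra hcon'
        push Not at hcon'
        exact hσ (RingHom.ext hcon')
      obtain ⟨x, hx⟩ := exists_ne (0 : V)
      apply hx
      apply hB.1
      intro y
      have h1 := hanti (a • x) y
      have h2 := hanti x y
      simp only [LinearMap.map_smulₛₗ, LinearMap.smul_apply, map_smul, smul_eq_mul] at h1
      have h3 : (σ a - a) * B x y = 0 := by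
        have : B y x = - B x y := by linear_combination h2
        rw [this] at h1
        linear_combination h1
      rcases mul_eq_zero.mp h3 with h | h
      · exact absurd (sub_eq_zero.mp h) ha
      · exact h
    obtain ⟨l, hl⟩ := norm_surj σ hσ hσ2 (B v1 v1)⁻¹ (inv_ne_zero hv1) (by
      rw [map_inv₀, hS.eq])
    set v0 := l • v1 with hv0
    have hv00 : B v0 v0 = 1 := by
      rw [hv0, map_smul, LinearMap.map_smulₛₗ, LinearMap.smul_apply, smul_eq_mul, smul_eq_mul,
        ← mul_assoc, hl, inv_mul_cancel₀ hv1]
    clear_value v0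
    let W : Submodule F V := LinearMap.ker (B v0)
    have hW : ∀ w ∈ W, B v0 w = 0 := fun w hw => hw
    have hW' : ∀ w ∈ W, B w v0 = 0 := fun w hw => by rw [← hS.eq, hW w hw, map_zero]
    have hdec : ∀ z : V, z - (B v0 z) • v0 ∈ W := by
      intro z
      change B v0 _ = 0
      rw [map_sub, map_smul, hv00]; simp
    have hfr : Module.finrank F W = n := by
      have h1 := LinearMap.finrank_range_add_finrank_ker (B v0)
      have h2 : LinearMap.range (B v0) = ⊤ := by
        rw [LinearMap.range_eq_top]
        intro c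
        exact ⟨c • v0, by rw [map_smul, hv00]; simp⟩
      rw [h2, finrank_top, Module.finrank_self] at h1
      change Module.finrank F (LinearMap.ker (B v0)) = n
      omega
    let B' : W →ₛₗ[σ] W →ₗ[F] F := B.domRestrict₁₂ W W
    have hB'app : ∀ x y : W, B' x y = B x y := fun x y => rfl
    have hS' : B'.IsSymm := ⟨fun x y => hS.eq x y⟩
    have hsepL : B'.SeparatingLeft := by
      intro x hx
      apply Subtype.ext
      apply hB.1
      intro z
      have h1 := hx ⟨_, hdec z⟩
      rw [hB'app] at h1
      simp only [map_sub, map_smul, hW' x x.2, smul_zero, sub_zero] at h1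
      exact h1
    have hsepR : B'.SeparatingRight := by
      intro y hy
      apply hsepL
      intro x
      rw [← hS'.eq, hy, map_zero]
    obtain ⟨b, hb⟩ := ih B' hS' ⟨hsepL, hsepR⟩ hfr
    refine ⟨Fin.cons v0 (fun i => (b i : V)), ?_⟩
    intro i j
    refine Fin.cases ?_ (fun i => ?_) i <;> refine Fin.cases ?_ (fun j => ?_) j
    · simpa using hv00
    · simp only [Fin.cons_zero, Fin.cons_succ]
      rw [hW _ (b j).2, if_neg (Fin.succ_ne_zero j).symm]
    · simp only [Fin.cons_zero, Fin.cons_succ]
      rw [hW' _ (b i).2, if_neg (Fin.succ_ne_zero i)]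
    · simp only [Fin.cons_succ, Fin.succ_inj]
      exact hb i j

/-- Classification of Hermitian forms over finite fields: if σ is a non-identity involutive automorphism of the finite field F and B is a non-degenerate conjugate-symmetric σ-sesquilinear form on the finite-dimensional space V, then V has a B-orthonormal basis. -/
theorem result {F V : Type*} [Field F] [Finite F] [AddCommGroup V] [Module F V] [FiniteDimensional F V] (σ : F →+* F) (hσ : σ ≠ RingHom.id F) (hσ2 : ∀ a : F, σ (σ a) = a) (B : V →ₛₗ[σ] V →ₗ[F] F) (hS : B.IsSymm) (hB : B.Nondegenerate) : ∃ b : Module.Basis (Fin (Module.finrank F V)) F V, ∀ i j, B (b i) (b j) = if i = j then 1 else 0 := by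
  obtain ⟨b, hb⟩ := exists_family σ hσ hσ2 (Module.finrank F V) B hS hB rfl
  have hli : LinearIndependent F b := by
    rw [Fintype.linearIndependent_iff]
    intro c hc j
    have := congrArg (fun x => B (b j) x) hc
    simpa [map_sum, hb] using this
  have hsp : ⊤ ≤ Submodule.span F (Set.range b) :=
    (hli.span_eq_top_of_card_eq_finrank' (by simp)).ge
  refine ⟨Module.Basis.mk hli hsp, fun i j => ?_⟩
  simp only [Module.Basis.mk_apply]
  exact hb i j

end Cfsg.Agent.S0755
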