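import Cfsg.Statements.S1302
import Cfsg.Agent.Lib.Helper13.PPrimeP
import Cfsg.Agent.Lib.Helper5.Card
import Cfsg.Agent.Lib.Helper1.Glauberman
import Cfsg.Agent.S1949
import Cfsg.Agent.S3737
import Mathlib

set_option autoImplicit false
open Cfsg

namespace Cfsg.Agent.S1302

/-- Let X be a finite p-constrained group, p an odd prime, and A an abelian p-subgroup of X containing every element of order p of C_X(A). Then every subgroup of X of order prime to p that is normalized by A lies in O_{p'}(X). -/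
theorem result {X : Type*} [Group X] [Finite X] (p : ℕ) [Fact p.Prime] (hp : p ≠ 2) (hX : Cfsg.IsPConstrained p X) (A : Subgroup X) (hA : IsMulCommutative ↥A) (hAp : IsPGroup p ↥A) (hΩ : ∀ x ∈ Subgroup.centralizer (A : Set X), orderOf x = p → x ∈ A) (Q : Subgroup X) (hQ : ¬ p ∣ Nat.card ↥Q) (hAQ : A ≤ Subgroup.normalizer (Q : Set X)) : Q ≤ Cfsg.pPrimeCore p X := by
  classical
  open Subgroup Cfsg.Agent.Lib.Helper13 Cfsg.Agent.Lib.Helper5 Cfsg.Agent.Lib.Helper1 in
  set K := Cfsg.pPrimeCore p X with hKdef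
  set L := Cfsg.pPrimePCore p X with hLdef
  have hKn : K.Normal := inferInstance
  have hLn : L.Normal := Cfsg.Agent.Lib.Helper10.pPrimePCore_normal (X := X) p
  have hKcop : (Nat.card K).Coprime p := pPrimeCore_coprime
  have hpp : p.Prime := Fact.out
  have hQcop : (Nat.card Q).Coprime p := (Nat.Coprime.symm ((Nat.Prime.coprime_iff_not_dvd hpp).2 hQ))
  obtain ⟨S, hAS⟩ := hAp.exists_le_sylow
  set H : Subgroup X := (S : Subgroup X) ⊓ L with hH
  have hHp : IsPGroup p H := S.2.to_le inf_le_left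
  have hSH : (S : Subgroup X) ≤ normalizer (H : Set X) := by
    rw [le_normalizer_iff]
    intro a ha x hx
    exact mem_inf.2 ⟨mul_mem (mul_mem ha (mem_inf.1 hx).1) (inv_mem ha), hLn.conj_mem _ (mem_inf.1 hx).2 _⟩
  have hAH : A ≤ normalizer (H : Set X) := hAS.trans hSH
  -- the enlarged p'-group
  set Q' : Subgroup X := Q ⊔ K with hQ'
  have hQK : Q ≤ normalizer (K : Set X) := by rw [normalizer_eq_top]; exact le_top
  have hQ'cop : (Nat.card Q').Coprime p := by
    have h1 := card_sup_mul_card_inf Q K hQK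
    have h2 : (Nat.card Q * Nat.card K).Coprime p := Nat.Coprime.mul_left hQcop hKcop
    rw [← h1] at h2
    exact Nat.Coprime.coprime_mul_right h2
  have hAQ' : A ≤ normalizer (Q' : Set X) :=
    Cfsg.Agent.Lib.Helper17.le_normalizer_sup hAQ (by rw [normalizer_eq_top]; exact le_top)
  set Q₁ : Subgroup X := Q' ⊓ normalizer (H : Set X) with hQ₁
  have hQ₁cop : (Nat.card Q₁).Coprime p :=
    Nat.Coprime.coprime_dvd_left (card_dvd_of_le inf_le_left) hQ'cop
  have hAQ₁ : A ≤ normalizer (Q₁ : Set X) := by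
    rw [le_normalizer_iff]
    intro a ha x hx
    exact mem_inf.2 ⟨le_normalizer_iff.1 hAQ' a ha x (mem_inf.1 hx).1,
      mul_mem (mul_mem (hAH ha) (mem_inf.1 hx).2) (inv_mem (hAH ha))⟩
  have hdisj : H ⊓ Q₁ = ⊥ := disjoint_pGroup_coprime hHp hQ₁cop
  suffices hmain : Q₁ ≤ K by
    intro q hq
    obtain ⟨d, hd, hqd⟩ := pp_frattini S q
    have h1 : q * d ∈ Q₁ := ⟨mul_mem (mem_sup_left hq) (mem_sup_right hd), hqd⟩
    have : q = q * d * d⁻¹ := by group
    rw [this]
    exact mul_mem (hmain h1) (inv_mem hd)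
  -- the small exponent subgroup
  obtain ⟨D₀, hD1, -, hD3, -, hD5, -⟩ := Cfsg.Agent.S1949.result (P := ↥H) hHp ⊤ le_top
  set D : Subgroup X := D₀.map H.subtype with hD
  have hDH : D ≤ H := map_subtype_le D₀
  have hDp : IsPGroup p D := hHp.to_le hDH
  have hND : normalizer (H : Set X) ≤ normalizer (D : Set X) := by
    rw [le_normalizer_iff]
    rintro g hg _ ⟨x, hx, rfl⟩
    have h1 := hD1 (H.normalizerMonoidHom ⟨g, hg⟩) (mem_top _)
    have h2 : H.normalizerMonoidHom ⟨g, hg⟩ x ∈ D₀ := by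
      rw [← h1]; exact mem_map_of_mem _ hx
    exact ⟨_, h2, rfl⟩
  have hexp : ∀ d ∈ D, d ^ p = 1 := by
    rintro _ ⟨x, hx, rfl⟩
    rcases hD3 x hx with h | ⟨h, -⟩
    · have := congrArg Subtype.val h
      simpa using this
    · exact absurd h hp
  have hC : D ⊓ centralizer (A : Set X) ≤ centralizer (Q₁ : Set X) := by
    rintro d ⟨hdD, hdA⟩
    by_cases hd1 : d = 1
    · rw [hd1]; exact one_mem _
    have hord : orderOf d = p := orderOf_eq_prime (hexp d hdD) hd1
    have hdA' : d ∈ A := hΩ d hdA hord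
    rw [mem_centralizer_iff]
    intro q hq
    have hm : q * d * q⁻¹ * d⁻¹ ∈ H ⊓ Q₁ := by
      rw [mem_inf]
      constructor
      · exact mul_mem (le_normalizer_iff.1 (le_refl _) q hq.2 d (hDH hdD)) (inv_mem (hDH hdD))
      · have h1 := le_normalizer_iff.1 hAQ₁ d hdA' q⁻¹ (inv_mem hq)
        have : q * d * q⁻¹ * d⁻¹ = q * (d * q⁻¹ * d⁻¹) := by group
        rw [this]
        exact mul_mem hq h1
    rw [hdisj, mem_bot] at hm
    calc q * d = q * d * q⁻¹ * d⁻¹ * (d * q) := by group
      _ = d * q := by rw [hm, one_mul]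
  have hcent := Cfsg.Agent.S3737.result hp A Q₁ D hAp hQ₁cop hAQ₁ hDp (hAH.trans hND)
    (inf_le_right.trans hND) hC
  -- so `Q₁` centralizes `H`
  have hQ₁H : Q₁ ≤ centralizer (H : Set X) := by
    intro q hq
    have hα := hD5 (H.normalizerMonoidHom ⟨q, hq.2⟩) (mem_top _) (by
      have h1 : orderOf (H.normalizerMonoidHom ⟨q, hq.2⟩) ∣ orderOf q := by
        have := orderOf_map_dvd H.normalizerMonoidHom (⟨q, hq.2⟩ : normalizer (H : Set X))
        rwa [Subgroup.orderOf_mk] at this
      have h2 : orderOf q ∣ Nat.card Q₁ := by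
        have := orderOf_dvd_natCard (⟨q, hq⟩ : Q₁)
        rwa [Subgroup.orderOf_mk] at this
      exact Nat.Coprime.coprime_dvd_left (h1.trans h2) hQ₁cop) (by
      intro d hd
      apply Subtype.ext
      show q * d * q⁻¹ = d
      have := (mem_centralizer_iff.1 (hcent hq)) d (mem_map_of_mem H.subtype hd)
      have h3 : (d : X) * q = q * d := this
      rw [← h3]; group)
    rw [mem_centralizer_iff]
    intro h hh
    have h1 := congrArg (fun f : MulAut H => ((f ⟨h, hh⟩ : H) : X)) hα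
    have h2 : q * h * q⁻¹ = h := h1
    calc h * q = q * h * q⁻¹ * q := by rw [h2]
      _ = q * h := by group
  -- p-constraint
  have hsyl : ¬ p ∣ (H.subgroupOf L).index := pp_sylow S
  let PL : Sylow p L := (hHp.comap_subtype (K := L)).toSylow hsyl
  have hPL : ((PL : Subgroup L).map L.subtype : Subgroup X) = H := by
    show (H.subgroupOf L).map L.subtype = H
    rw [subgroupOf_map_subtype, inf_eq_left]
    exact inf_le_right
  have hCL : centralizer (H : Set X) ≤ L := by
    have := hX PL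
    rwa [hPL] at this
  intro q hq
  obtain ⟨k, hk⟩ := pp_pow_mem q (hCL (hQ₁H hq))
  have h2 : orderOf q ∣ Nat.card Q₁ := by
    have := orderOf_dvd_natCard (⟨q, hq⟩ : Q₁)
    rwa [Subgroup.orderOf_mk] at this
  have hcop : (orderOf q).Coprime (p ^ k) :=
    Nat.Coprime.pow_right k (Nat.Coprime.coprime_dvd_left h2 hQ₁cop)
  obtain ⟨m, hm⟩ := exists_pow_eq_self_of_coprime hcop.symm
  rw [← hm]
  exact pow_mem hk m

end Cfsg.Agent.S1302
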