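import Cfsg.Statements.S1480
import Cfsg.Agent.Lib.Helper18.PConsInv
import Cfsg.Agent.Lib.Helper1.CoprimeSylow
import Cfsg.Agent.Lib.Helper17.Core
import Cfsg.Agent.Lib.Helper9.PGrp
import Cfsg.Agent.S1282
import Mathlib

set_option autoImplicit false
open Cfsg

namespace Cfsg.Agent.S1480

open Subgroup Cfsg.Agent.Lib.Helper1 Cfsg.Agent.Lib.Helper18 Cfsg.Agent.Lib.Helper9
open scoped commutatorElement Pointwise

theorem eq_one_of_pow {G : Type*} [Group G] {p : ℕ} {y : G} {j n : ℕ} (h1 : y ^ p ^ j = 1)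
    (h2 : y ^ n = 1) (hn : n.Coprime p) : y = 1 :=
  orderOf_eq_one_iff.1 (Nat.eq_one_of_dvd_coprimes (Nat.Coprime.pow_right j hn)
    (orderOf_dvd_of_pow_eq_one h2) (orderOf_dvd_of_pow_eq_one h1))

/-- `p'`-elements of `C(E)` lie in `O_{p'}(C(E))`. -/
theorem mem_core {G : Type*} [Group G] [Finite G] (p : ℕ) [Fact p.Prime] (E : Subgroup G)
    (hEp : IsPGroup p E) (hEc : IsMulCommutative E)
    (hEfull : ∀ x ∈ centralizer (E : Set G), IsPGroup p (zpowers x) → x ∈ E)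
    (x : G) (hx : x ∈ centralizer (E : Set G)) (hox : (orderOf x).Coprime p) :
    x ∈ Cfsg.piCoreOf (Cfsg.primesNotDvd p) (centralizer (E : Set G)) := by
  have hpp : p.Prime := Fact.out
  set C := centralizer (E : Set G) with hC
  set E' := E.subgroupOf C with hE'
  have hcentral : ∀ e ∈ E', ∀ c : C, e * c = c * e := by
    intro e he c
    apply Subtype.ext
    exact (mem_centralizer_iff.1 c.2) e (mem_subgroupOf.1 he)
  have hE'n : E'.Normal := ⟨fun e he c => by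
    rw [← hcentral e he c, mul_inv_cancel_right]; exact he⟩
  have hE'p : IsPGroup p E' := hEp.comap_subtype
  obtain ⟨P, hP⟩ := hE'p.exists_le_sylow
  have hPE : (P : Subgroup C) = E' := by
    apply le_antisymm _ hP
    intro y hy
    rw [hE', mem_subgroupOf]
    apply hEfull _ y.2
    have h1 : IsPGroup p ((zpowers y).map C.subtype) := (P.2.to_le (zpowers_le.2 hy)).map _
    rwa [MonoidHom.map_zpowers] at h1
  have hidx : ¬ p ∣ E'.index := hPE ▸ P.not_dvd_index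
  have hcop : (Nat.card E').Coprime E'.index := by
    obtain ⟨n, hn⟩ := IsPGroup.iff_card.mp hE'p
    rw [hn]
    exact Nat.Coprime.pow_left n ((Nat.Prime.coprime_iff_not_dvd hpp).2 hidx)
  obtain ⟨K, hK⟩ := exists_right_complement'_of_coprime hcop
  have hKcard : Nat.card K = E'.index := hK.symm.index_eq_card.symm
  have hKcop : (Nat.card K).Coprime p := by
    rw [hKcard]; exact ((Nat.Prime.coprime_iff_not_dvd hpp).2 hidx).symm
  have hKn : K.Normal := by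
    refine ⟨fun n hn c => ?_⟩
    obtain ⟨⟨e, k⟩, hek⟩ := hK.2 c
    have hek' : (e : C) * k = c := hek
    have h1 : c * n * c⁻¹ = (k : C) * n * (k : C)⁻¹ := by
      rw [← hek', hcentral e e.2 k]
      have := hcentral e e.2 n
      calc (k : C) * e * n * ((k : C) * e)⁻¹ = k * (e * n) * (e : C)⁻¹ * (k : C)⁻¹ := by group
        _ = k * (n * e) * (e : C)⁻¹ * (k : C)⁻¹ := by rw [this]
        _ = _ := by group
    rw [h1]
    exact mul_mem (mul_mem k.2 hn) (inv_mem k.2)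
  have hKle : K ≤ Cfsg.piCore (Cfsg.primesNotDvd p) C := by
    apply le_sSup
    refine ⟨hKn, fun r hr hdvd => ⟨hr, fun h => ?_⟩⟩
    have : r = p := (Nat.prime_dvd_prime_iff_eq hr hpp).1 h
    rw [this] at hdvd
    exact (Nat.Prime.coprime_iff_not_dvd hpp).1 hKcop.symm hdvd
  obtain ⟨⟨e, k⟩, hek⟩ := hK.2 (⟨x, hx⟩ : C)
  have hek' : (e : C) * k = ⟨x, hx⟩ := hek
  have hpow : (e : C) ^ Nat.card K = (⟨x, hx⟩ : C) ^ Nat.card K := by
    rw [← hek', (show Commute (e : C) k from hcentral e e.2 k).mul_pow]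
    have : (k : C) ^ Nat.card K = 1 := by
      have := pow_card_eq_one' (G := K) (x := k)
      exact_mod_cast congrArg Subtype.val this
    rw [this, mul_one]
  obtain ⟨j, hj⟩ := hE'p e
  have hj' : (e : C) ^ p ^ j = 1 := by exact_mod_cast congrArg Subtype.val hj
  have h1 : (e : C) ^ Nat.card K = 1 := by
    apply eq_one_of_pow (p := p) (j := j) (n := orderOf x)
    · rw [← pow_mul, mul_comm, pow_mul, hj', one_pow]
    · rw [hpow, ← pow_mul, mul_comm, pow_mul]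
      have : (⟨x, hx⟩ : C) ^ orderOf x = 1 := by
        apply Subtype.ext
        simp [pow_orderOf_eq_one]
      rw [this, one_pow]
    · exact hox
  have he1 : (e : C) = 1 := eq_one_of_pow hj' h1 hKcop
  rw [he1, one_mul] at hek'
  exact ⟨k, hKle k.2, by rw [hek']; rfl⟩

theorem le_theta {G : Type*} [Group G] [Finite G] (p : ℕ) [Fact p.Prime] (M : Subgroup G)
    (hM : Cfsg.IsPConstrained p ↥M)
    (h2 : p = 2 → ∀ x y z : G, IsPGroup p (closure {x, y, z}) → ⁅⁅x, y⁆, z⁆ = 1)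
    (E : Subgroup G) (hEM : E ≤ M) (hEp : IsPGroup p E) (hEc : IsMulCommutative E)
    (hEfull : ∀ x ∈ centralizer (E : Set G), IsPGroup p (zpowers x) → x ∈ E)
    (U : Subgroup G) (hUM : U ≤ M) (hU : ¬ p ∣ Nat.card U)
    (hEU : E ≤ normalizer (U : Set G)) :
    U ≤ (Cfsg.pPrimeCore p ↥M).map M.subtype := by
  have hc : IsMulCommutative (E.subgroupOf M) := inferInstance
  have key := inv_le_pPrimeCore p hM (E.subgroupOf M) hc hEp.comap_subtype
    (by
      intro x hx hxp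
      rw [mem_subgroupOf]
      apply hEfull
      · rw [mem_centralizer_iff]
        intro e he
        have := (mem_centralizer_iff.1 hx) ⟨e, hEM he⟩ (mem_subgroupOf.2 he)
        exact congrArg Subtype.val this
      · have h1 : IsPGroup p ((zpowers x).map M.subtype) := hxp.map _
        rwa [MonoidHom.map_zpowers] at h1)
    (by
      intro hp x y z hxyz
      apply Subtype.ext
      have h1 : IsPGroup p ((closure {x, y, z}).map M.subtype) := hxyz.map _
      rw [MonoidHom.map_closure] at h1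
      have h3 : (M.subtype '' {x, y, z} : Set G) = {(x : G), (y : G), (z : G)} := by
        simp [Set.image_insert_eq]
      rw [h3] at h1
      exact h2 hp x y z h1)
    (U.subgroupOf M) (by rwa [card_subgroupOf_of_le hUM])
    (by
      rw [le_normalizer_iff]
      intro e he u hu
      rw [mem_subgroupOf] at he hu ⊢
      exact le_normalizer_iff.1 hEU _ he _ hu)
  intro u hu
  exact ⟨⟨u, hUM hu⟩, key (mem_subgroupOf.2 hu), rfl⟩


theorem mem_cj {G : Type*} [Group G] {k x : G} {Q : Subgroup G} :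
    x ∈ Q.map (MulAut.conj k).toMonoidHom ↔ k⁻¹ * x * k ∈ Q := by
  constructor
  · rintro ⟨y, hy, rfl⟩
    have : k⁻¹ * ((MulAut.conj k).toMonoidHom y) * k = y := by
      simp [MulAut.conj_apply]; group
    rw [this]; exact hy
  · intro h
    refine ⟨_, h, ?_⟩
    simp [MulAut.conj_apply]; group

theorem cj_cj {G : Type*} [Group G] (k k' : G) (Q : Subgroup G) :
    (Q.map (MulAut.conj k).toMonoidHom).map (MulAut.conj k').toMonoidHom
      = Q.map (MulAut.conj (k' * k)).toMonoidHom := by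
  ext x
  rw [mem_cj, mem_cj, mem_cj]
  have : k⁻¹ * (k'⁻¹ * x * k') * k = (k' * k)⁻¹ * x * (k' * k) := by group
  rw [this]

theorem cj_one {G : Type*} [Group G] (Q : Subgroup G) :
    Q.map (MulAut.conj (1 : G)).toMonoidHom = Q := by
  ext x
  rw [mem_cj]; simp

theorem inv_iff {G : Type*} [Group G] [Finite G] (E : Subgroup G) (q : ℕ) [Fact q.Prime]
    (Y : Subgroup G) :
    Y ∈ Cfsg.invSubgroups ⊤ E {q} ↔ IsPGroup q Y ∧ E ≤ normalizer (Y : Set G) := by
  have hqq : q.Prime := Fact.out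
  constructor
  · rintro ⟨-, h1, h2⟩
    refine ⟨?_, h2⟩
    have := Nat.eq_prime_pow_of_unique_prime_dvd (n := Nat.card Y) (p := q) Nat.card_pos.ne'
      (fun {d} hd hdvd => h1 d hd hdvd)
    exact IsPGroup.of_card this
  · rintro ⟨h1, h2⟩
    refine ⟨le_top, fun r hr hdvd => ?_, h2⟩
    obtain ⟨n, hn⟩ := IsPGroup.iff_card.mp h1
    rw [hn] at hdvd
    exact (Nat.prime_dvd_prime_iff_eq hr hqq).1 (hr.dvd_of_dvd_pow hdvd)

theorem inv_cj {G : Type*} [Group G] [Finite G] (E : Subgroup G) (q : ℕ) [Fact q.Prime]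
    {k : G} (hk : k ∈ centralizer (E : Set G)) {Y : Subgroup G}
    (hY : Y ∈ Cfsg.invSubgroups ⊤ E {q}) :
    Y.map (MulAut.conj k).toMonoidHom ∈ Cfsg.invSubgroups ⊤ E {q} := by
  rw [inv_iff] at hY ⊢
  refine ⟨hY.1.map _, ?_⟩
  rw [le_normalizer_iff]
  intro e he x hx
  rw [mem_cj] at hx ⊢
  have h1 := le_normalizer_iff.1 hY.2 e he _ hx
  have h2 : e * k = k * e := (mem_centralizer_iff.1 hk) e he
  have h3 : k⁻¹ * e = e * k⁻¹ := by
    calc k⁻¹ * e = k⁻¹ * (e * k) * k⁻¹ := by group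
      _ = e * k⁻¹ := by rw [h2]; group
  have h4 : e⁻¹ * k = k * e⁻¹ := by
    calc e⁻¹ * k = e⁻¹ * (k * e) * e⁻¹ := by group
      _ = k * e⁻¹ := by rw [← h2]; group
  have : k⁻¹ * (e * x * e⁻¹) * k = e * (k⁻¹ * x * k) * e⁻¹ := by
    calc k⁻¹ * (e * x * e⁻¹) * k = (k⁻¹ * e) * x * (e⁻¹ * k) := by group
      _ = _ := by rw [h3, h4]; group
  rw [this]; exact h1

theorem maxInv_cj {G : Type*} [Group G] [Finite G] (E : Subgroup G) (q : ℕ) [Fact q.Prime]
    {k : G} (hk : k ∈ centralizer (E : Set G)) {Y : Subgroup G}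
    (hY : Y ∈ Cfsg.maxInvSubgroups ⊤ E {q}) :
    Y.map (MulAut.conj k).toMonoidHom ∈ Cfsg.maxInvSubgroups ⊤ E {q} := by
  refine ⟨inv_cj E q hk hY.1, fun R hR hle => ?_⟩
  have h1 := hY.2 _ (inv_cj E q (inv_mem hk) hR) (by
    have := map_mono (f := (MulAut.conj k⁻¹).toMonoidHom) hle
    rwa [cj_cj, inv_mul_cancel, cj_one] at this)
  rw [← h1, cj_cj, mul_inv_cancel, cj_one]

theorem exists_max {G : Type*} [Group G] [Finite G] (E : Subgroup G) (q : ℕ)
    {Y : Subgroup G} (hY : Y ∈ Cfsg.invSubgroups ⊤ E {q}) :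
    ∃ Q ∈ Cfsg.maxInvSubgroups ⊤ E {q}, Y ≤ Q := by
  obtain ⟨Q, hQ⟩ := (Set.toFinite {R : Subgroup G | R ∈ Cfsg.invSubgroups ⊤ E {q} ∧ Y ≤ R}).exists_maximal
    ⟨Y, hY, le_rfl⟩
  refine ⟨Q, ⟨hQ.1.1, fun R hR hle => ?_⟩, hQ.1.2⟩
  exact le_antisymm (hQ.2 ⟨hR, hQ.1.2.trans hle⟩ hle) hle

theorem class_two {G : Type*} [Group G] [Finite G] (p : ℕ) [Fact p.Prime]
    (h2 : p = 2 → ∀ S : Sylow p G, Group.IsNilpotent (S : Subgroup G) ∧
      Group.nilpotencyClass (S : Subgroup G) ≤ 2) :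
    p = 2 → ∀ x y z : G, IsPGroup p (closure {x, y, z}) → ⁅⁅x, y⁆, z⁆ = 1 := by
  intro hp x y z hxyz
  obtain ⟨S, hS⟩ := hxyz.exists_le_sylow
  obtain ⟨hnil, hcl⟩ := h2 hp S
  have h1 : (S : Subgroup G).lowerCentralSeries 2 = ⊥ :=
    lowerCentralSeries_eq_bot_of_nilpotencyClass_le hcl
  have hx : x ∈ (S : Subgroup G) := hS (subset_closure (by simp))
  have hy : y ∈ (S : Subgroup G) := hS (subset_closure (by simp))
  have hz : z ∈ (S : Subgroup G) := hS (subset_closure (by simp))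
  have h3 : ⁅⁅x, y⁆, z⁆ ∈ (S : Subgroup G).lowerCentralSeries 2 :=
    commutator_mem_commutator (commutator_mem_commutator hx hy) hz
  rwa [h1, mem_bot] at h3

/-- Let G be a finite group and p a prime such that the normalizer of every nontrivial p-subgroup of G is p-constrained; if p = 2 assume also that the Sylow 2-subgroups of G have nilpotency class at most 2. Let E be an abelian p-subgroup containing an elementary abelian subgroup of order p ^ 3 and containing every element of p-power order of C_G(E). Then for every prime q ≠ p, any two maximal E-invariant q-subgroups of G are conjugate by an element of O_{p'}(C_G(E)). -/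
theorem result {G : Type*} [Group G] [Finite G] (p : ℕ) [Fact p.Prime]
    (hloc : ∀ T : Subgroup G, IsPGroup p T → T ≠ ⊥ → Cfsg.IsPConstrained p ↥(Subgroup.normalizer (T : Set G)))
    (h2 : p = 2 → ∀ S : Sylow p G, Group.IsNilpotent (S : Subgroup G) ∧ Group.nilpotencyClass (S : Subgroup G) ≤ 2)
    (E : Subgroup G) (hEp : IsPGroup p E) (hEc : IsMulCommutative E) (hE3 : ¬ Cfsg.PRankLE p 2 E)
    (hEfull : ∀ x ∈ Subgroup.centralizer (E : Set G), IsPGroup p (Subgroup.zpowers x) → x ∈ E)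
    (q : ℕ) [Fact q.Prime] (hqp : q ≠ p) :
    ∀ Q₁ ∈ Cfsg.maxInvSubgroups ⊤ E {q}, ∀ Q₂ ∈ Cfsg.maxInvSubgroups ⊤ E {q},
        ∃ k ∈ Cfsg.piCoreOf (Cfsg.primesNotDvd p) (Subgroup.centralizer (E : Set G)), Q₂ = Q₁.map (MulAut.conj k).toMonoidHom := by
  classical
  have hpp : p.Prime := Fact.out
  have hqq : q.Prime := Fact.out
  have h2' := class_two p h2
  set C := centralizer (E : Set G) with hC
  set Kc := Cfsg.piCoreOf (Cfsg.primesNotDvd p) C with hKc
  have hKcC : Kc ≤ C := map_subtype_le _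
  have hEcomm : ∀ e ∈ E, ∀ e' ∈ E, e * e' = e' * e := fun e he e' he' =>
    comm_of_isMulCommutative hEc he he'
  -- the elementary abelian subgroup
  obtain ⟨E₀, hE₀E, hE₀el, hE₀3⟩ : ∃ E₀ : Subgroup G, E₀ ≤ E ∧ Cfsg.IsElementaryAbelian p E₀ ∧
      p ^ 3 ≤ Nat.card E₀ := by
    unfold Cfsg.PRankLE at hE3
    push Not at hE3
    obtain ⟨A₀, hA₀c, hA₀e, hA₀⟩ := hE3
    refine ⟨A₀.map E.subtype, map_subtype_le _, ⟨?_, ?_⟩, ?_⟩
    · exact ⟨⟨fun x y => Subtype.ext (hEcomm _ (map_subtype_le _ x.2) _ (map_subtype_le _ y.2))⟩⟩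
    · rintro _ ⟨a, ha, rfl⟩
      have := congrArg Subtype.val (hA₀e a ha)
      simpa using this
    · rw [card_map_of_injective E.subtype_injective]
      obtain ⟨n, hn⟩ := IsPGroup.iff_card.mp (hEp.to_subgroup A₀)
      rw [hn] at hA₀ ⊢
      have : 2 < n := (Nat.pow_lt_pow_iff_right hpp.one_lt).1 hA₀
      exact Nat.pow_le_pow_right hpp.pos this
  -- the conjugacy relation
  have rel_symm : ∀ Q₁ Q₂ : Subgroup G, (∃ k ∈ Kc, Q₂ = Q₁.map (MulAut.conj k).toMonoidHom) →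
      ∃ k ∈ Kc, Q₁ = Q₂.map (MulAut.conj k).toMonoidHom := by
    rintro Q₁ Q₂ ⟨k, hk, rfl⟩
    exact ⟨k⁻¹, inv_mem hk, by rw [cj_cj, inv_mul_cancel, cj_one]⟩
  have rel_trans : ∀ Q₁ Q₂ Q₃ : Subgroup G,
      (∃ k ∈ Kc, Q₂ = Q₁.map (MulAut.conj k).toMonoidHom) →
      (∃ k ∈ Kc, Q₃ = Q₂.map (MulAut.conj k).toMonoidHom) →
      ∃ k ∈ Kc, Q₃ = Q₁.map (MulAut.conj k).toMonoidHom := by
    rintro Q₁ Q₂ Q₃ ⟨k, hk, rfl⟩ ⟨k', hk', rfl⟩
    exact ⟨k' * k, mul_mem hk' hk, by rw [cj_cj]⟩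
  have main : ∀ n : ℕ, ∀ Q₁ ∈ Cfsg.maxInvSubgroups ⊤ E {q}, ∀ Q₂ ∈ Cfsg.maxInvSubgroups ⊤ E {q},
      Nat.card G - Nat.card (Q₁ ⊓ Q₂ : Subgroup G) = n →
      ∃ k ∈ Kc, Q₂ = Q₁.map (MulAut.conj k).toMonoidHom := by
    intro n
    induction n using Nat.strong_induction_on with
    | _ n ih =>
    intro Q₁ hQ₁ Q₂ hQ₂ hn
    by_cases hQQ : Q₁ = Q₂
    · exact ⟨1, one_mem _, by rw [cj_one, hQQ]⟩
    set D := Q₁ ⊓ Q₂ with hD
    have ih' : ∀ R₁ ∈ Cfsg.maxInvSubgroups ⊤ E {q}, ∀ R₂ ∈ Cfsg.maxInvSubgroups ⊤ E {q},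
        ∀ V : Subgroup G, D < V → V ≤ R₁ → V ≤ R₂ →
        ∃ k ∈ Kc, R₂ = R₁.map (MulAut.conj k).toMonoidHom := by
      intro R₁ hR₁ R₂ hR₂ V hDV h1 h2
      refine ih _ ?_ R₁ hR₁ R₂ hR₂ rfl
      have h3 : Nat.card D < Nat.card V := card_lt_of_lt hDV
      have h4 : Nat.card V ≤ Nat.card (R₁ ⊓ R₂ : Subgroup G) := card_le_of_le (le_inf h1 h2)
      have h5 : Nat.card (R₁ ⊓ R₂ : Subgroup G) ≤ Nat.card G := card_le_card_group _
      omega
    obtain ⟨hq₁, hE₁⟩ := (inv_iff E q Q₁).1 hQ₁.1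
    obtain ⟨hq₂, hE₂⟩ := (inv_iff E q Q₂).1 hQ₂.1
    have hD₁ : Q₁ ⊓ Q₂ ≠ Q₁ := fun h => hQQ (hQ₁.2 Q₂ hQ₂.1 (inf_eq_left.1 h)).symm
    have hD₂ : Q₁ ⊓ Q₂ ≠ Q₂ := fun h => hQQ (hQ₂.2 Q₁ hQ₁.1 (inf_eq_right.1 h))
    obtain ⟨a, haE₀, ha1, hU₁, hU₂⟩ := Cfsg.Agent.S1282.result p E₀ hE₀el hE₀3 q hqp Q₁ Q₂ hq₁ hq₂
      (hE₀E.trans hE₁) (hE₀E.trans hE₂) hD₁ hD₂
    rw [← hD] at hU₁ hU₂
    have haE : a ∈ E := hE₀E haE₀
    have hDq : IsPGroup q D := hq₁.to_le inf_le_left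
    have hED : E ≤ normalizer (D : Set G) := le_normalizer_inf hE₁ hE₂
    have hEND : E ≤ normalizer ((normalizer (D : Set G) : Subgroup G) : Set G) :=
      hED.trans le_normalizer
    set T := zpowers a with hT
    have hTp : IsPGroup p T := hEp.to_le (zpowers_le.2 haE)
    have hT1 : T ≠ ⊥ := by rw [hT, Ne, zpowers_eq_bot]; exact ha1
    set M := normalizer (T : Set G) with hM
    have hMc := hloc T hTp hT1
    have hCaM : centralizer ({a} : Set G) ≤ M := by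
      intro g hg
      apply centralizer_le_normalizer
      rw [mem_centralizer_iff]
      rintro _ ⟨m, rfl⟩
      have h1 : a * g = g * a := (mem_centralizer_iff.1 hg) a rfl
      exact ((show Commute a g from h1).zpow_left m).eq
    have hECa : E ≤ centralizer ({a} : Set G) := by
      intro e he
      rw [mem_centralizer_iff]
      rintro _ rfl
      exact hEcomm _ haE _ he
    have hEM : E ≤ M := hECa.trans hCaM
    set θ := (Cfsg.pPrimeCore p ↥M).map M.subtype with hθ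
    have hθcop : (Nat.card θ).Coprime p := by
      rw [hθ, card_map_of_injective M.subtype_injective]
      exact Cfsg.Agent.Lib.Helper5.pPrimeCore_coprime
    have hEθ : E ≤ normalizer (θ : Set G) := by
      rw [le_normalizer_iff]
      rintro e he _ ⟨y, hy, rfl⟩
      have hn : (Cfsg.pPrimeCore p ↥M).Normal := inferInstance
      exact ⟨_, hn.conj_mem y hy ⟨e, hEM he⟩, rfl⟩
    set Y := θ ⊓ normalizer (D : Set G) with hY
    have hYD : Y ≤ normalizer (D : Set G) := inf_le_right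
    have hEY : E ≤ normalizer (Y : Set G) := le_normalizer_inf hEθ hEND
    set Z := Y ⊔ D with hZ
    have hEZ : E ≤ normalizer (Z : Set G) := Cfsg.Agent.Lib.Helper17.le_normalizer_sup hEY hED
    have hDcop : (Nat.card D).Coprime p :=
      ((Nat.Prime.coprime_iff_not_dvd hpp).2 (not_dvd_card_of_isPGroup hpp hqq hqp hDq)).symm
    have hZcop : (Nat.card Z).Coprime p := by
      have h1 := Cfsg.Agent.Lib.Helper5.card_sup_mul_card_inf Y D hYD
      have h3 : (Nat.card Y * Nat.card D).Coprime p :=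
        Nat.Coprime.mul_left (Nat.Coprime.coprime_dvd_left (card_dvd_of_le inf_le_left) hθcop) hDcop
      rw [← h1] at h3
      exact Nat.Coprime.coprime_mul_right h3
    have hEZcop : (Nat.card E).Coprime (Nat.card Z) := by
      obtain ⟨m, hm⟩ := IsPGroup.iff_card.mp hEp
      rw [hm]
      exact (Nat.Coprime.pow_right m hZcop).symm
    have hEsolv : Group.IsSolvable E ∨ Group.IsSolvable Z := Or.inl (isSolvable_of_isPGroup hEp)
    -- the two q-subgroups
    have hV : ∀ Q : Subgroup G, IsPGroup q Q → E ≤ normalizer (Q : Set G) → D ≤ Q →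
        ¬ (normalizer (D : Set G) ⊓ Q ⊓ centralizer ({a} : Set G) ≤ D) →
        ∃ V : Subgroup G, D < V ∧ V ≤ Q ∧ V ≤ Z ∧ IsPGroup q V ∧ E ≤ normalizer (V : Set G) := by
      intro Q hQq hEQ hDQ hU
      set U := normalizer (D : Set G) ⊓ Q ⊓ centralizer ({a} : Set G) with hUdef
      have hUQ : U ≤ Q := inf_le_left.trans inf_le_right
      have hUq : IsPGroup q U := hQq.to_le hUQ
      have hEU : E ≤ normalizer (U : Set G) :=
        le_normalizer_inf (le_normalizer_inf hEND hEQ) (hECa.trans le_normalizer)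
      have hUθ : U ≤ θ := le_theta p M hMc h2' E hEM hEp hEc hEfull U (inf_le_right.trans hCaM)
        (not_dvd_card_of_isPGroup hpp hqq hqp hUq) hEU
      refine ⟨U ⊔ D, lt_of_le_of_ne le_sup_right ?_, sup_le hUQ hDQ,
        sup_le_sup_right (le_inf hUθ (inf_le_left.trans inf_le_left)) D,
        hQq.to_le (sup_le hUQ hDQ), Cfsg.Agent.Lib.Helper17.le_normalizer_sup hEU hED⟩
      intro h
      exact hU (h ▸ le_sup_left)
    obtain ⟨V₁, hDV₁, hV₁Q, hV₁Z, hV₁q, hEV₁⟩ := hV Q₁ hq₁ hE₁ inf_le_left hU₁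
    obtain ⟨V₂, hDV₂, hV₂Q, hV₂Z, hV₂q, hEV₂⟩ := hV Q₂ hq₂ hE₂ inf_le_right hU₂
    obtain ⟨P₁, hVP₁, hEP₁⟩ := invariant_sylow_ge E Z hEZ hEZcop hEsolv q _ V₁ rfl hV₁Z hV₁q hEV₁
    obtain ⟨P₂, hVP₂, hEP₂⟩ := invariant_sylow_ge E Z hEZ hEZcop hEsolv q _ V₂ rfl hV₂Z hV₂q hEV₂
    obtain ⟨c, hcE, hcP⟩ := (invariant_sylow E Z hEZ hEZcop hEsolv q).2 P₁ P₂ hEP₁ hEP₂
    have hcK : (c : G) ∈ Kc := by
      apply mem_core p E hEp hEc hEfull _ hcE
      have h1 : orderOf (c : G) ∣ Nat.card Z := by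
        rw [Subgroup.orderOf_coe]; exact orderOf_dvd_natCard c
      exact Nat.Coprime.coprime_dvd_left h1 hZcop
    set T₁ := (P₁ : Subgroup Z).map Z.subtype with hT₁
    set T₂ := (P₂ : Subgroup Z).map Z.subtype with hT₂
    have hT₂₁ : T₂ ≤ T₁.map (MulAut.conj (c : G)).toMonoidHom := by
      rintro _ ⟨y, hy, rfl⟩
      rw [mem_cj]
      have h1 : y ∈ ((MulAut.conj c • P₁ : Sylow q Z) : Subgroup Z) := by rw [hcP]; exact hy
      rw [Sylow.pointwise_smul_def, mem_pointwise_smul_iff_inv_smul_mem] at h1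
      refine ⟨_, h1, ?_⟩
      simp [MulAut.smul_def, MulAut.conj_inv_apply]
    obtain ⟨R₁, hR₁, hTR₁⟩ := exists_max E q ((inv_iff E q T₁).2 ⟨P₁.2.map _, hEP₁⟩)
    obtain ⟨R₂, hR₂, hTR₂⟩ := exists_max E q ((inv_iff E q T₂).2 ⟨P₂.2.map _, hEP₂⟩)
    have s1 := ih' Q₁ hQ₁ R₁ hR₁ V₁ hDV₁ hV₁Q (hVP₁.trans hTR₁)
    have s2 : ∃ k ∈ Kc, R₁.map (MulAut.conj (c : G)).toMonoidHom
        = R₁.map (MulAut.conj k).toMonoidHom := ⟨c, hcK, rfl⟩
    have s3 := ih' _ (maxInv_cj E q hcE hR₁) R₂ hR₂ V₂ hDV₂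
      ((hVP₂.trans hT₂₁).trans (map_mono hTR₁)) (hVP₂.trans hTR₂)
    have s4 := ih' R₂ hR₂ Q₂ hQ₂ V₂ hDV₂ (hVP₂.trans hTR₂) hV₂Q
    exact rel_trans _ _ _ (rel_trans _ _ _ (rel_trans _ _ _ s1 s2) s3) s4
  intro Q₁ hQ₁ Q₂ hQ₂
  exact main _ Q₁ hQ₁ Q₂ hQ₂ rfl

end Cfsg.Agent.S1480
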