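import Cfsg.Statements.S1697
import Cfsg.Agent.Lib.Helper19.OrdFi23.Main
import Cfsg.Agent.Lib.Helper19.OrdFi23.Z

set_option autoImplicit false
set_option maxRecDepth 1000000
open Cfsg

namespace Cfsg.Agent.S1697

open Cfsg.Agent.Lib.Helper19.TCS (evn evn_rot evn_rev evn_pair AllS forall_of_allS lift_rels mk_eq_lift cox_swap shapeI prod_rep index_of_equiv orbit_ncard orbit_image ncard_interval fix_of_closure RC)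
open Cfsg.Agent.Lib.Helper19.TC2
open Cfsg.Spor Cfsg.Agent.Lib.Helper19.PresFi23
open Cfsg.Spor.Fi23
open Cfsg.Agent.Lib.Helper19 Cfsg.Agent.Lib.Helper19.OrdFi23

theorem faith : ∀ x : Cfsg.Spor.Fi23, Fi23a.ψ x = 1 → x = 1 := fun x hx => joint x hx

theorem hlt : ∀ k < 10, ∀ i < Fi23a.cB.N, fB Fi23a.cB k i < Fi23a.cB.N := fB_lt Fi23a.hOK gen num_gen

theorem hA : ∀ i < Fi23a.cB.N, app Fi23a.cB [1, 2, 3, 4, 5, 6, 8, 1, 2, 3, 4, 5, 6, 8, 1, 2, 3, 4, 5, 6, 8, 1, 2, 3, 4, 5, 6, 8, 1, 2, 3, 4, 5, 6, 8, 1, 2, 3, 4, 5, 6, 8, 1, 2, 3, 4, 5, 6, 8, 1, 2, 3, 4, 5, 6, 8, 1, 2, 3, 4, 5, 6, 8] i = Z.fT i := Z.tA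

theorem cm0 : evn el [0] * evn el [1, 2, 3, 4, 5, 6, 8, 1, 2, 3, 4, 5, 6, 8, 1, 2, 3, 4, 5, 6, 8, 1, 2, 3, 4, 5, 6, 8, 1, 2, 3, 4, 5, 6, 8, 1, 2, 3, 4, 5, 6, 8, 1, 2, 3, 4, 5, 6, 8, 1, 2, 3, 4, 5, 6, 8, 1, 2, 3, 4, 5, 6, 8] = evn el [1, 2, 3, 4, 5, 6, 8, 1, 2, 3, 4, 5, 6, 8, 1, 2, 3, 4, 5, 6, 8, 1, 2, 3, 4, 5, 6, 8, 1, 2, 3, 4, 5, 6, 8, 1, 2, 3, 4, 5, 6, 8, 1, 2, 3, 4, 5, 6, 8, 1, 2, 3, 4, 5, 6, 8, 1, 2, 3, 4, 5, 6, 8] * evn el [0] :=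
  (evn_append el _ _).symm.trans ((eq_of_app (L := 10) Fi23a.ψ Fi23a.hψ faith _ _ (by decide) (by decide)
    (comm_tableW Z.fT [1, 2, 3, 4, 5, 6, 8, 1, 2, 3, 4, 5, 6, 8, 1, 2, 3, 4, 5, 6, 8, 1, 2, 3, 4, 5, 6, 8, 1, 2, 3, 4, 5, 6, 8, 1, 2, 3, 4, 5, 6, 8, 1, 2, 3, 4, 5, 6, 8, 1, 2, 3, 4, 5, 6, 8, 1, 2, 3, 4, 5, 6, 8] [0] hA (app_lt _ (fun k hk => hlt k (by revert k; decide))) Z.tB0)).trans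
      (evn_append el _ _))

theorem cm1 : evn el [1] * evn el [1, 2, 3, 4, 5, 6, 8, 1, 2, 3, 4, 5, 6, 8, 1, 2, 3, 4, 5, 6, 8, 1, 2, 3, 4, 5, 6, 8, 1, 2, 3, 4, 5, 6, 8, 1, 2, 3, 4, 5, 6, 8, 1, 2, 3, 4, 5, 6, 8, 1, 2, 3, 4, 5, 6, 8, 1, 2, 3, 4, 5, 6, 8] = evn el [1, 2, 3, 4, 5, 6, 8, 1, 2, 3, 4, 5, 6, 8, 1, 2, 3, 4, 5, 6, 8, 1, 2, 3, 4, 5, 6, 8, 1, 2, 3, 4, 5, 6, 8, 1, 2, 3, 4, 5, 6, 8, 1, 2, 3, 4, 5, 6, 8, 1, 2, 3, 4, 5, 6, 8, 1, 2, 3, 4, 5, 6, 8] * evn el [1] :=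
  (evn_append el _ _).symm.trans ((eq_of_app (L := 10) Fi23a.ψ Fi23a.hψ faith _ _ (by decide) (by decide)
    (comm_tableW Z.fT [1, 2, 3, 4, 5, 6, 8, 1, 2, 3, 4, 5, 6, 8, 1, 2, 3, 4, 5, 6, 8, 1, 2, 3, 4, 5, 6, 8, 1, 2, 3, 4, 5, 6, 8, 1, 2, 3, 4, 5, 6, 8, 1, 2, 3, 4, 5, 6, 8, 1, 2, 3, 4, 5, 6, 8, 1, 2, 3, 4, 5, 6, 8] [1] hA (app_lt _ (fun k hk => hlt k (by revert k; decide))) Z.tB1)).trans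
      (evn_append el _ _))

theorem cm2 : evn el [2] * evn el [1, 2, 3, 4, 5, 6, 8, 1, 2, 3, 4, 5, 6, 8, 1, 2, 3, 4, 5, 6, 8, 1, 2, 3, 4, 5, 6, 8, 1, 2, 3, 4, 5, 6, 8, 1, 2, 3, 4, 5, 6, 8, 1, 2, 3, 4, 5, 6, 8, 1, 2, 3, 4, 5, 6, 8, 1, 2, 3, 4, 5, 6, 8] = evn el [1, 2, 3, 4, 5, 6, 8, 1, 2, 3, 4, 5, 6, 8, 1, 2, 3, 4, 5, 6, 8, 1, 2, 3, 4, 5, 6, 8, 1, 2, 3, 4, 5, 6, 8, 1, 2, 3, 4, 5, 6, 8, 1, 2, 3, 4, 5, 6, 8, 1, 2, 3, 4, 5, 6, 8, 1, 2, 3, 4, 5, 6, 8] * evn el [2] :=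
  (evn_append el _ _).symm.trans ((eq_of_app (L := 10) Fi23a.ψ Fi23a.hψ faith _ _ (by decide) (by decide)
    (comm_tableW Z.fT [1, 2, 3, 4, 5, 6, 8, 1, 2, 3, 4, 5, 6, 8, 1, 2, 3, 4, 5, 6, 8, 1, 2, 3, 4, 5, 6, 8, 1, 2, 3, 4, 5, 6, 8, 1, 2, 3, 4, 5, 6, 8, 1, 2, 3, 4, 5, 6, 8, 1, 2, 3, 4, 5, 6, 8, 1, 2, 3, 4, 5, 6, 8] [2] hA (app_lt _ (fun k hk => hlt k (by revert k; decide))) Z.tB2)).trans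
      (evn_append el _ _))

theorem cm3 : evn el [3] * evn el [1, 2, 3, 4, 5, 6, 8, 1, 2, 3, 4, 5, 6, 8, 1, 2, 3, 4, 5, 6, 8, 1, 2, 3, 4, 5, 6, 8, 1, 2, 3, 4, 5, 6, 8, 1, 2, 3, 4, 5, 6, 8, 1, 2, 3, 4, 5, 6, 8, 1, 2, 3, 4, 5, 6, 8, 1, 2, 3, 4, 5, 6, 8] = evn el [1, 2, 3, 4, 5, 6, 8, 1, 2, 3, 4, 5, 6, 8, 1, 2, 3, 4, 5, 6, 8, 1, 2, 3, 4, 5, 6, 8, 1, 2, 3, 4, 5, 6, 8, 1, 2, 3, 4, 5, 6, 8, 1, 2, 3, 4, 5, 6, 8, 1, 2, 3, 4, 5, 6, 8, 1, 2, 3, 4, 5, 6, 8] * evn el [3] :=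
  (evn_append el _ _).symm.trans ((eq_of_app (L := 10) Fi23a.ψ Fi23a.hψ faith _ _ (by decide) (by decide)
    (comm_tableW Z.fT [1, 2, 3, 4, 5, 6, 8, 1, 2, 3, 4, 5, 6, 8, 1, 2, 3, 4, 5, 6, 8, 1, 2, 3, 4, 5, 6, 8, 1, 2, 3, 4, 5, 6, 8, 1, 2, 3, 4, 5, 6, 8, 1, 2, 3, 4, 5, 6, 8, 1, 2, 3, 4, 5, 6, 8, 1, 2, 3, 4, 5, 6, 8] [3] hA (app_lt _ (fun k hk => hlt k (by revert k; decide))) Z.tB3)).trans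
      (evn_append el _ _))

theorem cm4 : evn el [4] * evn el [1, 2, 3, 4, 5, 6, 8, 1, 2, 3, 4, 5, 6, 8, 1, 2, 3, 4, 5, 6, 8, 1, 2, 3, 4, 5, 6, 8, 1, 2, 3, 4, 5, 6, 8, 1, 2, 3, 4, 5, 6, 8, 1, 2, 3, 4, 5, 6, 8, 1, 2, 3, 4, 5, 6, 8, 1, 2, 3, 4, 5, 6, 8] = evn el [1, 2, 3, 4, 5, 6, 8, 1, 2, 3, 4, 5, 6, 8, 1, 2, 3, 4, 5, 6, 8, 1, 2, 3, 4, 5, 6, 8, 1, 2, 3, 4, 5, 6, 8, 1, 2, 3, 4, 5, 6, 8, 1, 2, 3, 4, 5, 6, 8, 1, 2, 3, 4, 5, 6, 8, 1, 2, 3, 4, 5, 6, 8] * evn el [4] :=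
  (evn_append el _ _).symm.trans ((eq_of_app (L := 10) Fi23a.ψ Fi23a.hψ faith _ _ (by decide) (by decide)
    (comm_tableW Z.fT [1, 2, 3, 4, 5, 6, 8, 1, 2, 3, 4, 5, 6, 8, 1, 2, 3, 4, 5, 6, 8, 1, 2, 3, 4, 5, 6, 8, 1, 2, 3, 4, 5, 6, 8, 1, 2, 3, 4, 5, 6, 8, 1, 2, 3, 4, 5, 6, 8, 1, 2, 3, 4, 5, 6, 8, 1, 2, 3, 4, 5, 6, 8] [4] hA (app_lt _ (fun k hk => hlt k (by revert k; decide))) Z.tB4)).trans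
      (evn_append el _ _))

theorem cm5 : evn el [5] * evn el [1, 2, 3, 4, 5, 6, 8, 1, 2, 3, 4, 5, 6, 8, 1, 2, 3, 4, 5, 6, 8, 1, 2, 3, 4, 5, 6, 8, 1, 2, 3, 4, 5, 6, 8, 1, 2, 3, 4, 5, 6, 8, 1, 2, 3, 4, 5, 6, 8, 1, 2, 3, 4, 5, 6, 8, 1, 2, 3, 4, 5, 6, 8] = evn el [1, 2, 3, 4, 5, 6, 8, 1, 2, 3, 4, 5, 6, 8, 1, 2, 3, 4, 5, 6, 8, 1, 2, 3, 4, 5, 6, 8, 1, 2, 3, 4, 5, 6, 8, 1, 2, 3, 4, 5, 6, 8, 1, 2, 3, 4, 5, 6, 8, 1, 2, 3, 4, 5, 6, 8, 1, 2, 3, 4, 5, 6, 8] * evn el [5] :=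
  (evn_append el _ _).symm.trans ((eq_of_app (L := 10) Fi23a.ψ Fi23a.hψ faith _ _ (by decide) (by decide)
    (comm_tableW Z.fT [1, 2, 3, 4, 5, 6, 8, 1, 2, 3, 4, 5, 6, 8, 1, 2, 3, 4, 5, 6, 8, 1, 2, 3, 4, 5, 6, 8, 1, 2, 3, 4, 5, 6, 8, 1, 2, 3, 4, 5, 6, 8, 1, 2, 3, 4, 5, 6, 8, 1, 2, 3, 4, 5, 6, 8, 1, 2, 3, 4, 5, 6, 8] [5] hA (app_lt _ (fun k hk => hlt k (by revert k; decide))) Z.tB5)).trans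
      (evn_append el _ _))

theorem cm6 : evn el [6] * evn el [1, 2, 3, 4, 5, 6, 8, 1, 2, 3, 4, 5, 6, 8, 1, 2, 3, 4, 5, 6, 8, 1, 2, 3, 4, 5, 6, 8, 1, 2, 3, 4, 5, 6, 8, 1, 2, 3, 4, 5, 6, 8, 1, 2, 3, 4, 5, 6, 8, 1, 2, 3, 4, 5, 6, 8, 1, 2, 3, 4, 5, 6, 8] = evn el [1, 2, 3, 4, 5, 6, 8, 1, 2, 3, 4, 5, 6, 8, 1, 2, 3, 4, 5, 6, 8, 1, 2, 3, 4, 5, 6, 8, 1, 2, 3, 4, 5, 6, 8, 1, 2, 3, 4, 5, 6, 8, 1, 2, 3, 4, 5, 6, 8, 1, 2, 3, 4, 5, 6, 8, 1, 2, 3, 4, 5, 6, 8] * evn el [6] :=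
  (evn_append el _ _).symm.trans ((eq_of_app (L := 10) Fi23a.ψ Fi23a.hψ faith _ _ (by decide) (by decide)
    (comm_tableW Z.fT [1, 2, 3, 4, 5, 6, 8, 1, 2, 3, 4, 5, 6, 8, 1, 2, 3, 4, 5, 6, 8, 1, 2, 3, 4, 5, 6, 8, 1, 2, 3, 4, 5, 6, 8, 1, 2, 3, 4, 5, 6, 8, 1, 2, 3, 4, 5, 6, 8, 1, 2, 3, 4, 5, 6, 8, 1, 2, 3, 4, 5, 6, 8] [6] hA (app_lt _ (fun k hk => hlt k (by revert k; decide))) Z.tB6)).trans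
      (evn_append el _ _))

theorem cm7 : evn el [8] * evn el [1, 2, 3, 4, 5, 6, 8, 1, 2, 3, 4, 5, 6, 8, 1, 2, 3, 4, 5, 6, 8, 1, 2, 3, 4, 5, 6, 8, 1, 2, 3, 4, 5, 6, 8, 1, 2, 3, 4, 5, 6, 8, 1, 2, 3, 4, 5, 6, 8, 1, 2, 3, 4, 5, 6, 8, 1, 2, 3, 4, 5, 6, 8] = evn el [1, 2, 3, 4, 5, 6, 8, 1, 2, 3, 4, 5, 6, 8, 1, 2, 3, 4, 5, 6, 8, 1, 2, 3, 4, 5, 6, 8, 1, 2, 3, 4, 5, 6, 8, 1, 2, 3, 4, 5, 6, 8, 1, 2, 3, 4, 5, 6, 8, 1, 2, 3, 4, 5, 6, 8, 1, 2, 3, 4, 5, 6, 8] * evn el [8] :=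
  (evn_append el _ _).symm.trans ((eq_of_app (L := 10) Fi23a.ψ Fi23a.hψ faith _ _ (by decide) (by decide)
    (comm_tableW Z.fT [1, 2, 3, 4, 5, 6, 8, 1, 2, 3, 4, 5, 6, 8, 1, 2, 3, 4, 5, 6, 8, 1, 2, 3, 4, 5, 6, 8, 1, 2, 3, 4, 5, 6, 8, 1, 2, 3, 4, 5, 6, 8, 1, 2, 3, 4, 5, 6, 8, 1, 2, 3, 4, 5, 6, 8, 1, 2, 3, 4, 5, 6, 8] [8] hA (app_lt _ (fun k hk => hlt k (by revert k; decide))) Z.tB7)).trans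
      (evn_append el _ _))

theorem cm8 : evn el [9] * evn el [1, 2, 3, 4, 5, 6, 8, 1, 2, 3, 4, 5, 6, 8, 1, 2, 3, 4, 5, 6, 8, 1, 2, 3, 4, 5, 6, 8, 1, 2, 3, 4, 5, 6, 8, 1, 2, 3, 4, 5, 6, 8, 1, 2, 3, 4, 5, 6, 8, 1, 2, 3, 4, 5, 6, 8, 1, 2, 3, 4, 5, 6, 8] = evn el [1, 2, 3, 4, 5, 6, 8, 1, 2, 3, 4, 5, 6, 8, 1, 2, 3, 4, 5, 6, 8, 1, 2, 3, 4, 5, 6, 8, 1, 2, 3, 4, 5, 6, 8, 1, 2, 3, 4, 5, 6, 8, 1, 2, 3, 4, 5, 6, 8, 1, 2, 3, 4, 5, 6, 8, 1, 2, 3, 4, 5, 6, 8] * evn el [9] :=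
  (evn_append el _ _).symm.trans ((eq_of_app (L := 10) Fi23a.ψ Fi23a.hψ faith _ _ (by decide) (by decide)
    (comm_tableW Z.fT [1, 2, 3, 4, 5, 6, 8, 1, 2, 3, 4, 5, 6, 8, 1, 2, 3, 4, 5, 6, 8, 1, 2, 3, 4, 5, 6, 8, 1, 2, 3, 4, 5, 6, 8, 1, 2, 3, 4, 5, 6, 8, 1, 2, 3, 4, 5, 6, 8, 1, 2, 3, 4, 5, 6, 8, 1, 2, 3, 4, 5, 6, 8] [9] hA (app_lt _ (fun k hk => hlt k (by revert k; decide))) Z.tB8)).trans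
      (evn_append el _ _))

theorem cmAll : ∀ w ∈ Fi23a.sgw, evn el w * evn el [1, 2, 3, 4, 5, 6, 8, 1, 2, 3, 4, 5, 6, 8, 1, 2, 3, 4, 5, 6, 8, 1, 2, 3, 4, 5, 6, 8, 1, 2, 3, 4, 5, 6, 8, 1, 2, 3, 4, 5, 6, 8, 1, 2, 3, 4, 5, 6, 8, 1, 2, 3, 4, 5, 6, 8, 1, 2, 3, 4, 5, 6, 8] = evn el [1, 2, 3, 4, 5, 6, 8, 1, 2, 3, 4, 5, 6, 8, 1, 2, 3, 4, 5, 6, 8, 1, 2, 3, 4, 5, 6, 8, 1, 2, 3, 4, 5, 6, 8, 1, 2, 3, 4, 5, 6, 8, 1, 2, 3, 4, 5, 6, 8, 1, 2, 3, 4, 5, 6, 8, 1, 2, 3, 4, 5, 6, 8] * evn el w :=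
  forall_of_allS (l := Fi23a.sgw) ⟨cm0, cm1, cm2, cm3, cm4, cm5, cm6, cm7, cm8, trivial⟩

theorem hAn : ∀ h ∈ Fi23a.HH, ∀ a ∈ Subgroup.zpowers (evn el [1, 2, 3, 4, 5, 6, 8, 1, 2, 3, 4, 5, 6, 8, 1, 2, 3, 4, 5, 6, 8, 1, 2, 3, 4, 5, 6, 8, 1, 2, 3, 4, 5, 6, 8, 1, 2, 3, 4, 5, 6, 8, 1, 2, 3, 4, 5, 6, 8, 1, 2, 3, 4, 5, 6, 8, 1, 2, 3, 4, 5, 6, 8]), h * a * h⁻¹ ∈ Subgroup.zpowers (evn el [1, 2, 3, 4, 5, 6, 8, 1, 2, 3, 4, 5, 6, 8, 1, 2, 3, 4, 5, 6, 8, 1, 2, 3, 4, 5, 6, 8, 1, 2, 3, 4, 5, 6, 8, 1, 2, 3, 4, 5, 6, 8, 1, 2, 3, 4, 5, 6, 8, 1, 2, 3, 4, 5, 6, 8, 1, 2, 3, 4, 5, 6, 8]) := by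
  rw [Fi23a.hH]
  apply normalizes_of_comm
  intro s hs
  obtain ⟨w, hw, rfl⟩ := Fi23a.h1 s hs
  exact cmAll w hw

theorem hC : ∀ i < Fi23a.cB.N, Z.fT (app Fi23a.cB [7, 6, 5, 4, 3, 2, 1, 8, 3, 2, 4, 3, 5, 4, 6, 5, 8, 3, 2, 1, 4, 3, 2, 8, 3, 4, 5, 6] i) = app Fi23a.cB ([7, 6, 5, 4, 3, 2, 1, 8, 3, 2, 4, 3, 5, 4, 6, 5, 8, 3, 2, 1, 4, 3, 2, 8, 3, 4, 5, 6] ++ [7]) i := Z.tC

theorem hconj : evn el [1, 2, 3, 4, 5, 6, 8, 1, 2, 3, 4, 5, 6, 8, 1, 2, 3, 4, 5, 6, 8, 1, 2, 3, 4, 5, 6, 8, 1, 2, 3, 4, 5, 6, 8, 1, 2, 3, 4, 5, 6, 8, 1, 2, 3, 4, 5, 6, 8, 1, 2, 3, 4, 5, 6, 8, 1, 2, 3, 4, 5, 6, 8] * evn el [7, 6, 5, 4, 3, 2, 1, 8, 3, 2, 4, 3, 5, 4, 6, 5, 8, 3, 2, 1, 4, 3, 2, 8, 3, 4, 5, 6] = evn el [7, 6, 5, 4, 3, 2, 1, 8, 3, 2, 4, 3, 5, 4, 6, 5, 8, 3, 2, 1, 4, 3, 2, 8, 3, 4,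 5, 6] * el 7 := by
  have h := (evn_append el _ _).symm.trans ((eq_of_app (L := 10) Fi23a.ψ Fi23a.hψ faith ([1, 2, 3, 4, 5, 6, 8, 1, 2, 3, 4, 5, 6, 8, 1, 2, 3, 4, 5, 6, 8, 1, 2, 3, 4, 5, 6, 8, 1, 2, 3, 4, 5, 6, 8, 1, 2, 3, 4, 5, 6, 8, 1, 2, 3, 4, 5, 6, 8, 1, 2, 3, 4, 5, 6, 8, 1, 2, 3, 4, 5, 6, 8] ++ [7, 6, 5, 4, 3, 2, 1, 8, 3, 2, 4, 3, 5, 4, 6, 5, 8, 3, 2, 1, 4, 3, 2, 8, 3, 4, 5, 6]) ([7, 6, 5, 4, 3, 2, 1, 8, 3, 2, 4, 3, 5, 4, 6, 5, 8, 3, 2, 1, 4, 3, 2, 8, 3, 4, 5, 6] ++ [7]) (by decide) (by decide)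
    (conj_tableW Z.fT [1, 2, 3, 4, 5, 6, 8, 1, 2, 3, 4, 5, 6, 8, 1, 2, 3, 4, 5, 6, 8, 1, 2, 3, 4, 5, 6, 8, 1, 2, 3, 4, 5, 6, 8, 1, 2, 3, 4, 5, 6, 8, 1, 2, 3, 4, 5, 6, 8, 1, 2, 3, 4, 5, 6, 8, 1, 2, 3, 4, 5, 6, 8] [7, 6, 5, 4, 3, 2, 1, 8, 3, 2, 4, 3, 5, 4, 6, 5, 8, 3, 2, 1, 4, 3, 2, 8, 3, 4, 5, 6] _ hA (app_lt _ (fun k hk => hlt k (by revert k; decide))) hC)).trans
      (evn_append el _ _))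
  rwa [evn_single] at h

theorem hcox (x y : ℕ) : (el x * el y) ^ coxLabel edges (gen x) (gen y) = 1 :=
  TCS.of_cox edges extra (node _) (node _)

theorem hgenN (N : Subgroup Cfsg.Spor.Fi23) [N.Normal] (h : el 7 ∈ N) : N = ⊤ := by
  have n7 := h
  have n6 : el 6 ∈ N := mem_normal_of_odd N (el_sq 6) 1 (hcox 7 6) n7
  have n5 : el 5 ∈ N := mem_normal_of_odd N (el_sq 5) 1 (hcox 6 5) n6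
  have n4 : el 4 ∈ N := mem_normal_of_odd N (el_sq 4) 1 (hcox 5 4) n5
  have n3 : el 3 ∈ N := mem_normal_of_odd N (el_sq 3) 1 (hcox 4 3) n4
  have n2 : el 2 ∈ N := mem_normal_of_odd N (el_sq 2) 1 (hcox 3 2) n3
  have n8 : el 8 ∈ N := mem_normal_of_odd N (el_sq 8) 1 (hcox 3 8) n3
  have n1 : el 1 ∈ N := mem_normal_of_odd N (el_sq 1) 1 (hcox 2 1) n2
  have n9 : el 9 ∈ N := mem_normal_of_odd N (el_sq 9) 1 (hcox 8 9) n8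
  have n0 : el 0 ∈ N := mem_normal_of_odd N (el_sq 0) 1 (hcox 1 0) n1
  apply top_of_gens N _ (PresentedGroup.closure_range_of _)
  rintro _ ⟨x, rfl⟩
  cases x
  · exact n0
  · exact n1
  · exact n2
  · exact n3
  · exact n4
  · exact n5
  · exact n6
  · exact n7
  · exact n8
  · exact n9

theorem hgen : Subgroup.normalClosure (Subgroup.zpowers (evn el [1, 2, 3, 4, 5, 6, 8, 1, 2, 3, 4, 5, 6, 8, 1, 2, 3, 4, 5, 6, 8, 1, 2, 3, 4, 5, 6, 8, 1, 2, 3, 4, 5, 6, 8, 1, 2, 3, 4, 5, 6, 8, 1, 2, 3, 4, 5, 6, 8, 1, 2, 3, 4, 5, 6, 8, 1, 2, 3, 4, 5, 6, 8]) : Set Cfsg.Spor.Fi23) = ⊤ := by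
  apply hgenN
  exact mem_of_conj _ (Subgroup.subset_normalClosure (Subgroup.mem_zpowers _)) hconj

theorem hperf : commutator Cfsg.Spor.Fi23 = ⊤ := by
  have sq : ∀ k, Abelianization.of (el k) * Abelianization.of (el k) = 1 := fun k => by
    rw [← map_mul, el_sq, map_one]
  have e7 : Abelianization.of (el 7) = Abelianization.of (el 7) := rfl
  have e6 : Abelianization.of (el 6) = Abelianization.of (el 7) :=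
    (ab_eq_of_odd (sq 6) (sq 7) 1 (by rw [← map_mul, ← map_pow]; exact (congrArg _ (hcox 6 7)).trans (map_one _))).trans e7
  have e5 : Abelianization.of (el 5) = Abelianization.of (el 7) :=
    (ab_eq_of_odd (sq 5) (sq 6) 1 (by rw [← map_mul, ← map_pow]; exact (congrArg _ (hcox 5 6)).trans (map_one _))).trans e6
  have e4 : Abelianization.of (el 4) = Abelianization.of (el 7) :=
    (ab_eq_of_odd (sq 4) (sq 5) 1 (by rw [← map_mul, ← map_pow]; exact (congrArg _ (hcox 4 5)).trans (map_one _))).trans e5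
  have e3 : Abelianization.of (el 3) = Abelianization.of (el 7) :=
    (ab_eq_of_odd (sq 3) (sq 4) 1 (by rw [← map_mul, ← map_pow]; exact (congrArg _ (hcox 3 4)).trans (map_one _))).trans e4
  have e2 : Abelianization.of (el 2) = Abelianization.of (el 7) :=
    (ab_eq_of_odd (sq 2) (sq 3) 1 (by rw [← map_mul, ← map_pow]; exact (congrArg _ (hcox 2 3)).trans (map_one _))).trans e3
  have e8 : Abelianization.of (el 8) = Abelianization.of (el 7) :=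
    (ab_eq_of_odd (sq 8) (sq 3) 1 (by rw [← map_mul, ← map_pow]; exact (congrArg _ (hcox 8 3)).trans (map_one _))).trans e3
  have e1 : Abelianization.of (el 1) = Abelianization.of (el 7) :=
    (ab_eq_of_odd (sq 1) (sq 2) 1 (by rw [← map_mul, ← map_pow]; exact (congrArg _ (hcox 1 2)).trans (map_one _))).trans e2
  have e9 : Abelianization.of (el 9) = Abelianization.of (el 7) :=
    (ab_eq_of_odd (sq 9) (sq 8) 1 (by rw [← map_mul, ← map_pow]; exact (congrArg _ (hcox 9 8)).trans (map_one _))).trans e8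
  have e0 : Abelianization.of (el 0) = Abelianization.of (el 7) :=
    (ab_eq_of_odd (sq 0) (sq 1) 1 (by rw [← map_mul, ← map_pow]; exact (congrArg _ (hcox 0 1)).trans (map_one _))).trans e1
  have all : ∀ k < 10, Abelianization.of (el k) = Abelianization.of (el 7) := by
    intro k hk
    interval_cases k
    · exact e0
    · exact e1
    · exact e2
    · exact e3
    · exact e4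
    · exact e5
    · exact e6
    · exact e7
    · exact e8
    · exact e9
  have h1 : Abelianization.of (el 7) = 1 := by
    have h2 := congrArg Abelianization.of xg1_one
    rw [evn_hom, map_one, evn_const _ (Abelianization.of (el 7)) _
      (fun k hk => all k (by revert k; decide))] at h2
    exact one_of_odd_pow (sq 7) 31 h2
  apply perfect_of_gens _ (PresentedGroup.closure_range_of _)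
  rintro _ ⟨x, rfl⟩
  have := all (num x) (num_lt x)
  rw [h1] at this
  simpa [el, gen_num] using this

theorem simple : IsSimpleGroup Cfsg.Spor.Fi23 :=
  haveI := nontrivial_of_card card_eq (by decide)
  simple_of_iwasawa Fi23a.ψ Fi23a.z faith CX.trans Fi23a.HH (Subgroup.zpowers (evn el [1, 2, 3, 4, 5, 6, 8, 1, 2, 3, 4, 5, 6, 8, 1, 2, 3, 4, 5, 6, 8, 1, 2, 3, 4, 5, 6, 8, 1, 2, 3, 4, 5, 6, 8, 1, 2, 3, 4, 5, 6, 8, 1, 2, 3, 4, 5, 6, 8, 1, 2, 3, 4, 5, 6, 8, 1, 2, 3, 4, 5, 6, 8])) Fi23a.hfix CX.coatom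
    inferInstance hAn hgen hperf

/-- The presented Fischer group Fi23 is simple of the expected order (that is, it is a simple group of the order of the Fischer group Fi₂₃). -/
theorem result : Cfsg.IsFi23 Cfsg.Spor.Fi23 := by
  exact ⟨simple, card_eq⟩

end Cfsg.Agent.S1697
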