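import Cfsg.Statements.S4296
import Cfsg.Agent.S0035
import Cfsg.Agent.S0039
import Cfsg.Agent.S0040
import Cfsg.Agent.Lib.Helper23.QuatSq

set_option autoImplicit false
open Cfsg

namespace Cfsg.Agent.S4296

theorem quat_elems (m : ℕ) (hm : 0 < m) : ∃ I J z : QuaternionGroup (2 * m),
    I * I = z ∧ J * J = z ∧ I * J = z * (J * I) ∧ z * z = 1 ∧ z ≠ 1 := by
  refine ⟨QuaternionGroup.a (m : ZMod (2 * (2 * m))), QuaternionGroup.xa 0,
    QuaternionGroup.a ((2 * m : ℕ) : ZMod (2 * (2 * m))), ?_, ?_, ?_, ?_, ?_⟩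
  · rw [QuaternionGroup.a_mul_a]
    congr 1
    push_cast
    ring
  · rw [QuaternionGroup.xa_mul_xa]
    congr 1
    ring
  · rw [QuaternionGroup.a_mul_xa, QuaternionGroup.xa_mul_a, QuaternionGroup.a_mul_xa]
    congr 1
    push_cast
    ring
  · rw [QuaternionGroup.a_mul_a, QuaternionGroup.one_def]
    congr 1
    have h : ((2 * (2 * m) : ℕ) : ZMod (2 * (2 * m))) = 0 := ZMod.natCast_self _
    rw [← h]
    push_cast
    ring
  · rw [QuaternionGroup.one_def]
    intro h
    have h1 : ((2 * m : ℕ) : ZMod (2 * (2 * m))) = 0 := by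
      injection h
    rw [ZMod.natCast_eq_zero_iff] at h1
    have := Nat.le_of_dvd (by omega) h1
    omega

/-- Let H be a Frobenius complement in a finite group, and suppose some Sylow subgroup of H is not cyclic. Then the number of elements of the Frobenius kernel (the identity together with the elements lying in no conjugate of H) is an odd perfect square. -/
theorem result {L : Type*} [Group L] [Finite L] (H : Subgroup L) (hF : Cfsg.IsFrobeniusComplement H)
    (hZ : ∃ (p : ℕ) (_ : Fact p.Prime) (P : Sylow p H), ¬ IsCyclic P) :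
    Odd (Nat.card (Cfsg.frobeniusKernel H)) ∧ IsSquare (Nat.card (Cfsg.frobeniusKernel H)) := by
  obtain ⟨p, hp, P, hP⟩ := hZ
  obtain ⟨N, hNset, hNn, hc⟩ := Cfsg.Agent.S0035.result H hF
  have hNbot : N ≠ ⊥ := by
    intro h
    rw [h, Subgroup.isComplement'_bot_left] at hc
    exact hF.2.1 hc
  have hfpf := (Cfsg.Agent.S0039.result N H hc hNbot hF.1).1 hF
  have hcard : Nat.card (Cfsg.frobeniusKernel H) = Nat.card N := by
    rw [← hNset]; rfl
  rw [hcard]
  rcases Cfsg.Agent.S0040.result N H hc hNbot hfpf p P with h | ⟨n, ⟨e⟩⟩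
  · exact absurd h hP
  · have hn : n ≠ 0 := by
      rintro rfl
      rw [pow_zero] at e
      have := QuaternionGroup.quaternionGroup_one_isCyclic
      exact hP (isCyclic_of_surjective e.symm e.symm.surjective)
    obtain ⟨k, rfl⟩ := Nat.exists_eq_succ_of_ne_zero hn
    rw [Nat.succ_eq_add_one, pow_succ'] at e
    obtain ⟨I, J, z, h1, h2, h3, h4, h5⟩ := quat_elems (2 ^ k) (by positivity)
    let f : QuaternionGroup (2 * 2 ^ k) →* L :=
      (H.subtype.comp (P : Subgroup H).subtype).comp e.symm.toMonoidHom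
    have hf : Function.Injective f := by
      intro x y hxy
      have h6 : ((e.symm x : H) : L) = ((e.symm y : H) : L) := hxy
      exact e.symm.injective (Subtype.ext (Subtype.ext h6))
    have hfH : ∀ x, f x ∈ H := fun x => (e.symm x : H).2
    refine Cfsg.Agent.Lib.Helper23.quat_odd_isSquare N (f I) (f J) (f z) ?_ ?_ ?_ ?_ ?_
    · rw [← map_mul, h1]
    · rw [← map_mul, h2]
    · rw [← map_mul, h3, map_mul, map_mul]
    · rw [← map_mul, h4, map_one]
    · intro n hn hzn
      have h6 : f z ≠ 1 := by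
        intro h
        rw [← map_one f] at h
        exact h5 (hf h)
      have h7 := hfpf (f z) (hfH z) h6
      have h8 : n ∈ N ⊓ Subgroup.centralizer {f z} :=
        Subgroup.mem_inf.2 ⟨hn, Subgroup.mem_centralizer_singleton_iff.2 hzn.symm⟩
      rw [h7] at h8
      exact Subgroup.mem_bot.1 h8

end Cfsg.Agent.S4296
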