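import Cfsg.Statements.S4295
import Cfsg.Agent.S0035
import Cfsg.Agent.S0039
import Cfsg.Agent.S4296
import Cfsg.Agent.Lib.Helper23.QuatSq
import Cfsg.Agent.Lib.Helper23.Frob
import Cfsg.Agent.Lib.Helper15.Frob

set_option autoImplicit false
open Cfsg

namespace Cfsg.Agent.S4295

/-- universal property of the generalised quaternion groups -/
theorem exists_lift {Γ : Type*} [Group Γ] (n : ℕ) [NeZero n] (x y : Γ) (hx : x ^ (2 * n) = 1)
    (hy : y * y = x ^ n) (hxy : y⁻¹ * x * y = x⁻¹) :
    ∃ f : QuaternionGroup n →* Γ, f (QuaternionGroup.a 1) = x ∧ f (QuaternionGroup.xa 0) = y := by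
  let g : ZMod (2 * n) → Γ := fun k => x ^ k.val
  have hg_add : ∀ i j, g (i + j) = g i * g j := by
    intro i j
    show x ^ (i + j).val = x ^ i.val * x ^ j.val
    rw [ZMod.val_add, ← pow_add, ← pow_eq_pow_mod _ hx]
  have hg0 : g 0 = 1 := by
    show x ^ (0 : ZMod (2 * n)).val = 1
    rw [ZMod.val_zero, pow_zero]
  have hg_neg : ∀ i, g (-i) = (g i)⁻¹ := by
    intro i
    rw [eq_inv_iff_mul_eq_one, ← hg_add, neg_add_cancel, hg0]
  have hg_sub : ∀ i j, g (j - i) = (g i)⁻¹ * g j := by
    intro i j
    rw [sub_eq_neg_add, hg_add, hg_neg]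
  have hgn : g (n : ZMod (2 * n)) = x ^ n := by
    show x ^ (n : ZMod (2 * n)).val = x ^ n
    rw [ZMod.val_natCast, ← pow_eq_pow_mod _ hx]
  have hg1 : g 1 = x := by
    have h1 : g ((1 : ℕ) : ZMod (2 * n)) = x ^ 1 := by
      show x ^ ((1 : ℕ) : ZMod (2 * n)).val = x ^ 1
      rw [ZMod.val_natCast, ← pow_eq_pow_mod _ hx]
    rwa [Nat.cast_one, pow_one] at h1
  have hconj : ∀ i, g i * y = y * (g i)⁻¹ := by
    intro i
    have h1 : y⁻¹ * x ^ i.val * y = (x ^ i.val)⁻¹ := by
      have h2 := conj_pow (a := y⁻¹) (b := x) (i := i.val)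
      rw [inv_inv, hxy, inv_pow] at h2
      exact h2.symm
    show x ^ i.val * y = y * (x ^ i.val)⁻¹
    rw [← h1]
    group
  let f : QuaternionGroup n → Γ := fun q =>
    match q with
    | QuaternionGroup.a k => g k
    | QuaternionGroup.xa k => y * g k
  have hfa : ∀ k, f (QuaternionGroup.a k) = g k := fun _ => rfl
  have hfxa : ∀ k, f (QuaternionGroup.xa k) = y * g k := fun _ => rfl
  refine ⟨MonoidHom.mk' f ?_, ?_, ?_⟩
  · rintro (i | i) (j | j)
    · rw [QuaternionGroup.a_mul_a, hfa, hfa, hfa, hg_add]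
    · rw [QuaternionGroup.a_mul_xa, hfa, hfxa, hfxa, hg_sub, ← mul_assoc (g i), hconj, mul_assoc]
    · rw [QuaternionGroup.xa_mul_a, hfa, hfxa, hfxa, hg_add, mul_assoc]
    · rw [QuaternionGroup.xa_mul_xa, hfa, hfxa, hfxa, add_sub_assoc, hg_add, hg_sub, hgn,
        mul_assoc y (g i), ← mul_assoc (g i), hconj, ← hy]
      simp only [mul_assoc]
  · show g 1 = x
    exact hg1
  · show y * g 0 = y
    rw [hg0, mul_one]

/-- additive "quaternion modules" of every square order -/
theorem exists_quat_module (k : ℕ) : k ≠ 0 →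
    ∃ (V : Type) (_ : AddCommGroup V) (_ : Finite V) (i j : V →+ V), Nat.card V = k * k ∧
      (∀ v, i (i v) = -v) ∧ (∀ v, j (j v) = -v) ∧ (∀ v, i (j v) = -(j (i v))) := by
  induction k using Nat.recOnMul with
  | zero => intro h; exact absurd rfl h
  | one =>
    intro _
    refine ⟨PUnit, inferInstance, inferInstance, 0, 0, by simp, ?_, ?_, ?_⟩ <;> intro v <;> rfl
  | prime p hp =>
    intro _
    have : Fact p.Prime := ⟨hp⟩
    obtain ⟨a, b, hab⟩ := ZMod.sq_add_sq p (-1)
    refine ⟨ZMod p × ZMod p, inferInstance, inferInstance,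
      AddMonoidHom.mk' (fun v => (a * v.1 + b * v.2, b * v.1 - a * v.2)) ?_,
      AddMonoidHom.mk' (fun v => (-v.2, v.1)) ?_, ?_, ?_, ?_, ?_⟩
    · intro u v
      ext
      · show a * (u.1 + v.1) + b * (u.2 + v.2) = (a * u.1 + b * u.2) + (a * v.1 + b * v.2)
        ring
      · show b * (u.1 + v.1) - a * (u.2 + v.2) = (b * u.1 - a * u.2) + (b * v.1 - a * v.2)
        ring
    · intro u v
      ext
      · show -(u.2 + v.2) = -u.2 + -v.2
        ring
      · rfl
    · rw [Nat.card_prod, Nat.card_zmod]
    · intro v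
      ext
      · show a * (a * v.1 + b * v.2) + b * (b * v.1 - a * v.2) = -v.1
        linear_combination v.1 * hab
      · show b * (a * v.1 + b * v.2) - a * (b * v.1 - a * v.2) = -v.2
        linear_combination v.2 * hab
    · intro v
      ext
      · rfl
      · rfl
    · intro v
      ext
      · show a * (-v.2) + b * v.1 = -(-(b * v.1 - a * v.2))
        ring
      · show b * (-v.2) - a * v.1 = -(a * v.1 + b * v.2)
        ring
  | mul a b iha ihb =>
    intro hab
    obtain ⟨V, i1, i2, i, j, hc, hi, hj, hij⟩ := iha (fun h => hab (by rw [h, zero_mul]))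
    obtain ⟨W, i3, i4, i', j', hc', hi', hj', hij'⟩ := ihb (fun h => hab (by rw [h, mul_zero]))
    refine ⟨V × W, inferInstance, inferInstance, AddMonoidHom.prodMap i i',
      AddMonoidHom.prodMap j j', ?_, ?_, ?_, ?_⟩
    · rw [Nat.card_prod, hc, hc']
      ring
    · intro v
      ext
      · exact hi v.1
      · exact hi' v.2
    · intro v
      ext
      · exact hj v.1
      · exact hj' v.2
    · intro v
      ext
      · exact hij v.1
      · exact hij' v.2

theorem exists_quat_group (k : ℕ) (hk : k ≠ 0) :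
    ∃ (N : Type) (_ : CommGroup N) (_ : Finite N) (i j : N →* N), Nat.card N = k * k ∧
      (∀ v, i (i v) = v⁻¹) ∧ (∀ v, j (j v) = v⁻¹) ∧ (∀ v, i (j v) = (j (i v))⁻¹) := by
  obtain ⟨V, i1, i2, i, j, hc, hi, hj, hij⟩ := exists_quat_module k hk
  exact ⟨Multiplicative V, inferInstance, inferInstance, AddMonoidHom.toMultiplicative i,
    AddMonoidHom.toMultiplicative j, hc, hi, hj, hij⟩

theorem q8_sq (h : QuaternionGroup 2) (hh : h ≠ 1) :
    h * h = QuaternionGroup.a 2 ∨ h = QuaternionGroup.a 2 := by
  revert h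
  decide

theorem forward {L : Type*} [Group L] [Finite L] (H : Subgroup L)
    (hF : Cfsg.IsFrobeniusComplement H) (e : H ≃* QuaternionGroup (2 * 1)) :
    Odd (Nat.card (Cfsg.frobeniusKernel H)) ∧ IsSquare (Nat.card (Cfsg.frobeniusKernel H)) ∧
      1 < Nat.card (Cfsg.frobeniusKernel H) := by
  obtain ⟨N, hNset, hNn, hc⟩ := Cfsg.Agent.S0035.result H hF
  have hNbot : N ≠ ⊥ := by
    intro h
    rw [h, Subgroup.isComplement'_bot_left] at hc
    exact hF.2.1 hc
  have hfpf := (Cfsg.Agent.S0039.result N H hc hNbot hF.1).1 hF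
  have hcard : Nat.card (Cfsg.frobeniusKernel H) = Nat.card N := by
    rw [← hNset]; rfl
  rw [hcard]
  obtain ⟨I, J, z, h1, h2, h3, h4, h5⟩ := Cfsg.Agent.S4296.quat_elems 1 one_pos
  let f : QuaternionGroup (2 * 1) →* L := H.subtype.comp e.symm.toMonoidHom
  have hf : Function.Injective f := by
    intro x y hxy
    have h6 : ((e.symm x : H) : L) = ((e.symm y : H) : L) := hxy
    exact e.symm.injective (Subtype.ext h6)
  have hfH : ∀ x, f x ∈ H := fun x => (e.symm x : H).2
  have key := Cfsg.Agent.Lib.Helper23.quat_odd_isSquare N (f I) (f J) (f z)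
    (by rw [← map_mul, h1]) (by rw [← map_mul, h2]) (by rw [← map_mul, h3, map_mul, map_mul])
    (by rw [← map_mul, h4, map_one]) (by
      intro n hn hzn
      have h6 : f z ≠ 1 := by
        intro h
        rw [← map_one f] at h
        exact h5 (hf h)
      have h7 := hfpf (f z) (hfH z) h6
      have h8 : n ∈ N ⊓ Subgroup.centralizer {f z} :=
        Subgroup.mem_inf.2 ⟨hn, Subgroup.mem_centralizer_singleton_iff.2 hzn.symm⟩
      rw [h7] at h8
      exact Subgroup.mem_bot.1 h8)
  exact ⟨key.1, key.2, (Subgroup.one_lt_card_iff_ne_bot N).2 hNbot⟩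

/-- For a natural number m the following are equivalent: (a) some finite group has a Frobenius complement isomorphic to the quaternion group of order 8 whose Frobenius kernel (the identity together with the elements lying in no conjugate of the complement) has exactly m elements; (b) m is an odd perfect square greater than 1. -/
theorem result (m : ℕ) :
    (∃ (L : Type) (_ : Group L) (_ : Finite L) (H : Subgroup L), Cfsg.IsFrobeniusComplement H ∧
        Nonempty (H ≃* QuaternionGroup 2) ∧ Nat.card (Cfsg.frobeniusKernel H) = m) ↔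
    (Odd m ∧ IsSquare m ∧ 1 < m) := by
  constructor
  · rintro ⟨L, _, _, H, hF, ⟨e⟩, rfl⟩
    exact forward H hF e
  · rintro ⟨hodd, ⟨k, rfl⟩, hlt⟩
    have hk : k ≠ 0 := by
      rintro rfl
      omega
    obtain ⟨N, i1, i2, i, j, hc, hi, hj, hij⟩ := exists_quat_group k hk
    let x : MulAut N :=
      { toFun := i
        invFun := fun v => (i v)⁻¹
        left_inv := fun v => by
          show (i (i v))⁻¹ = v
          rw [hi, inv_inv]
        right_inv := fun v => by
          show i ((i v)⁻¹) = v
          rw [map_inv, hi, inv_inv]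
        map_mul' := i.map_mul }
    let y : MulAut N :=
      { toFun := j
        invFun := fun v => (j v)⁻¹
        left_inv := fun v => by
          show (j (j v))⁻¹ = v
          rw [hj, inv_inv]
        right_inv := fun v => by
          show j ((j v)⁻¹) = v
          rw [map_inv, hj, inv_inv]
        map_mul' := j.map_mul }
    have hx' : ∀ v, x (x v) = v⁻¹ := hi
    have hy' : ∀ v, y (y v) = v⁻¹ := hj
    have hxy' : ∀ v, x (y v) = (y (x v))⁻¹ := hij
    have r1 : x ^ (2 * 2) = 1 := by
      have e1 : x ^ (2 * 2) = (x * x) * (x * x) := by rw [pow_mul, pow_two, pow_two]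
      rw [e1]
      ext v
      show x (x (x (x v))) = v
      rw [hx', hx', inv_inv]
    have r2 : y * y = x ^ 2 := by
      rw [pow_two]
      ext v
      show y (y v) = x (x v)
      rw [hx', hy']
    have r3 : y⁻¹ * x * y = x⁻¹ := by
      have h : x * y * x = y := by
        ext v
        show x (y (x v)) = y v
        rw [hxy', hx', map_inv, inv_inv]
      calc y⁻¹ * x * y = y⁻¹ * (x * y * x) * x⁻¹ := by group
        _ = y⁻¹ * y * x⁻¹ := by rw [h]
        _ = x⁻¹ := by group
    obtain ⟨φ, hφ1, hφ2⟩ := exists_lift 2 x y r1 r2 r3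
    have hφz : ∀ v, φ (QuaternionGroup.a 2) v = v⁻¹ := by
      intro v
      have e1 : (QuaternionGroup.a 2 : QuaternionGroup 2) = QuaternionGroup.a 1 * QuaternionGroup.a 1 := by
        decide
      rw [e1, map_mul, hφ1]
      exact hx' v
    have hfpf : ∀ h : QuaternionGroup 2, h ≠ 1 → ∀ n : N, φ h n = n → n = 1 := by
      intro h hh n hn
      have h1 : φ (QuaternionGroup.a 2) n = n := by
        rcases q8_sq h hh with h2 | h2
        · rw [← h2, map_mul]
          show φ h (φ h n) = n
          rw [hn, hn]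
        · rw [← h2]; exact hn
      rw [hφz] at h1
      have h2 : n ^ 2 = 1 := by
        rw [pow_two]
        nth_rewrite 1 [← h1]
        exact inv_mul_cancel n
      have h3 : orderOf n ∣ 2 := orderOf_dvd_of_pow_eq_one h2
      have h4 : orderOf n ∣ Nat.card N := orderOf_dvd_natCard n
      have h5 : Nat.Coprime 2 (Nat.card N) := by
        rw [hc]
        exact Nat.coprime_two_left.2 hodd
      exact orderOf_eq_one_iff.1 (Nat.eq_one_of_dvd_coprimes h5 h3 h4)
    have hnt : Nontrivial N := by
      rw [← Finite.one_lt_card_iff_nontrivial, hc]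
      exact hlt
    have hfin : Finite (N ⋊[φ] QuaternionGroup 2) :=
      Finite.of_equiv _ SemidirectProduct.equivProd.symm
    have hF := Cfsg.Agent.Lib.Helper23.isFrobeniusComplement_semidirect φ hfpf
    let eH : QuaternionGroup 2 ≃* (SemidirectProduct.inr : QuaternionGroup 2 →* N ⋊[φ] QuaternionGroup 2).range :=
      MonoidHom.ofInjective SemidirectProduct.inr_injective
    refine ⟨N ⋊[φ] QuaternionGroup 2, inferInstance, hfin, _, hF, ⟨eH.symm⟩, ?_⟩
    rw [Cfsg.Agent.Lib.Helper15.card_frobeniusKernel hF]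
    have h1 := Subgroup.card_mul_index
      (SemidirectProduct.inr : QuaternionGroup 2 →* N ⋊[φ] QuaternionGroup 2).range
    rw [← Nat.card_congr eH.toEquiv, Nat.card_congr (SemidirectProduct.equivProd (φ := φ)),
      Nat.card_prod, hc, mul_comm] at h1
    exact Nat.eq_of_mul_eq_mul_right Nat.card_pos h1

end Cfsg.Agent.S4295
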