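import Cfsg.Statements.S4211
import Cfsg.Agent.S4295

set_option autoImplicit false
open Cfsg

namespace Cfsg.Agent.S4211

/-- power of a product in class 2 -/
theorem mul_pow_class2 {G : Type*} [Group G] (u v d : G) (hvu : v * u = u * v * d)
    (hdu : Commute d u) (hdv : Commute d v) (n : ℕ) :
    (u * v) ^ n = u ^ n * v ^ n * d ^ (n.choose 2) := by
  have h1 : ∀ k : ℕ, v ^ k * u = u * v ^ k * d ^ k := by
    intro k
    induction k with
    | zero => simp
    | succ k ih =>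
      calc v ^ (k+1) * u = v ^ k * (v * u) := by rw [pow_succ, mul_assoc]
        _ = v ^ k * (u * v * d) := by rw [hvu]
        _ = (v ^ k * u) * (v * d) := by simp only [mul_assoc]
        _ = (u * v ^ k * d ^ k) * (v * d) := by rw [ih]
        _ = u * v ^ k * (d ^ k * v) * d := by simp only [mul_assoc]
        _ = u * v ^ k * (v * d ^ k) * d := by rw [(hdv.pow_left k).eq]
        _ = u * v ^ (k+1) * d ^ (k+1) := by rw [pow_succ, pow_succ]; simp only [mul_assoc]
  induction n with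
  | zero => simp
  | succ n ih =>
    have hc : (n+1).choose 2 = n + n.choose 2 := by
      rw [Nat.choose_succ_succ' n 1, Nat.choose_one_right]
    calc (u * v) ^ (n+1) = (u * v) ^ n * (u * v) := pow_succ _ _
      _ = u ^ n * v ^ n * d ^ (n.choose 2) * (u * v) := by rw [ih]
      _ = u ^ n * v ^ n * (d ^ (n.choose 2) * (u * v)) := by simp only [mul_assoc]
      _ = u ^ n * v ^ n * ((u * v) * d ^ (n.choose 2)) := by
          rw [((hdu.mul_right hdv).pow_left _).eq]
      _ = u ^ n * (v ^ n * u) * v * d ^ (n.choose 2) := by simp only [mul_assoc]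
      _ = u ^ n * (u * v ^ n * d ^ n) * v * d ^ (n.choose 2) := by rw [h1]
      _ = u ^ n * u * v ^ n * (d ^ n * v) * d ^ (n.choose 2) := by simp only [mul_assoc]
      _ = u ^ n * u * v ^ n * (v * d ^ n) * d ^ (n.choose 2) := by rw [(hdv.pow_left n).eq]
      _ = u ^ (n+1) * v ^ (n+1) * d ^ ((n+1).choose 2) := by
          rw [hc, pow_add d, pow_succ u, pow_succ v]; simp only [mul_assoc]

theorem mem_zpowers_of_cyclic {C : Type*} [Group C] [Finite C] [IsCyclic C] (p : ℕ) (hp : 0 < p)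
    (u z : C) (hz : orderOf z = p) (hu : u ^ p = 1) : u ∈ Subgroup.zpowers z := by
  classical
  have := Fintype.ofFinite C
  have h1 := IsCyclic.card_pow_eq_one_le (α := C) hp
  let S : Finset C := Finset.univ.filter (fun a => a ∈ Subgroup.zpowers z)
  have hS : S.card = p := by
    rw [← hz, ← Nat.card_zpowers]
    exact (Nat.subtype_card S (fun a => by simp [S])).symm
  have hsub : S ⊆ Finset.univ.filter (fun a : C => a ^ p = 1) := by
    intro a ha
    have ha' : a ∈ Subgroup.zpowers z := by simpa [S] using ha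
    obtain ⟨k, rfl⟩ := ha'
    simp only [Finset.mem_filter, Finset.mem_univ, true_and]
    show (z ^ k) ^ p = 1
    rw [← zpow_natCast, ← zpow_mul, mul_comm, zpow_mul, zpow_natCast, ← hz, pow_orderOf_eq_one,
      one_zpow]
  have heq := Finset.eq_of_subset_of_card_le hsub (by rw [hS]; exact h1)
  have hu' : u ∈ S := by
    rw [heq]
    simp [hu]
  simpa [S] using hu'

theorem mem_zpowers_of_mem {G : Type*} [Group G] [Finite G] (p : ℕ) (hp : 0 < p) (g u z : G)
    (hu : u ∈ Subgroup.zpowers g) (hz : z ∈ Subgroup.zpowers g) (hzo : orderOf z = p)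
    (hup : u ^ p = 1) : u ∈ Subgroup.zpowers z := by
  have h := mem_zpowers_of_cyclic (C := Subgroup.zpowers g) p hp ⟨u, hu⟩ ⟨z, hz⟩
    (by rw [← hzo]; exact Subgroup.orderOf_mk z hz) (by ext; simpa using hup)
  obtain ⟨k, hk⟩ := Subgroup.mem_zpowers_iff.1 h
  refine Subgroup.mem_zpowers_iff.2 ⟨k, ?_⟩
  have := congrArg Subtype.val hk
  simpa using this

theorem zpowers_four {G : Type*} [Group G] (w v : G) (hw : w ^ 4 = 1)
    (hv : v ∈ Subgroup.zpowers w) : v = 1 ∨ v = w ∨ v = w ^ 2 ∨ v = w ^ 3 := by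
  obtain ⟨k, rfl⟩ := Subgroup.mem_zpowers_iff.1 hv
  have h4 : w ^ (4 : ℤ) = 1 := by rw [← hw]; exact zpow_ofNat w 4
  rw [zpow_eq_zpow_emod k h4]
  have h1 : 0 ≤ k % 4 := Int.emod_nonneg _ (by norm_num)
  have h2 : k % 4 < 4 := Int.emod_lt_of_pos _ (by norm_num)
  obtain ⟨j, hj⟩ : ∃ j, j = k % 4 := ⟨_, rfl⟩
  rw [← hj] at h1 h2 ⊢
  interval_cases j
  · left; simp
  · right; left; simp
  · right; right; left; exact zpow_ofNat w 2
  · right; right; right; exact zpow_ofNat w 3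

theorem zpowers_two {G : Type*} [Group G] (w v : G) (hw : w ^ 2 = 1)
    (hv : v ∈ Subgroup.zpowers w) : v = 1 ∨ v = w := by
  have h4 : w ^ 4 = 1 := by
    have : w ^ 4 = (w ^ 2) ^ 2 := by rw [← pow_mul]
    rw [this, hw, one_pow]
  rcases zpowers_four w v h4 hv with h | h | h | h
  · exact Or.inl h
  · exact Or.inr h
  · left; rw [h, hw]
  · right; rw [h, pow_succ, hw, one_mul]

theorem conj_order4 {G : Type*} [Group G] (hn : ∀ H : Subgroup G, H.Normal) (x g : G)
    (hx : orderOf x = 4) : g * x * g⁻¹ = x ∨ g * x * g⁻¹ = x⁻¹ := by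
  have hx4 : x ^ 4 = 1 := by rw [← hx]; exact pow_orderOf_eq_one x
  have hx2 : x ^ 2 ≠ 1 := by
    intro h
    have := orderOf_dvd_of_pow_eq_one h
    rw [hx] at this
    norm_num at this
  have h1 : g * x * g⁻¹ ∈ Subgroup.zpowers x :=
    (hn (Subgroup.zpowers x)).conj_mem _ (Subgroup.mem_zpowers x) g
  have h2 : (g * x * g⁻¹) ^ 2 ≠ 1 := by
    rw [conj_pow]
    intro h
    apply hx2
    have : x ^ 2 = g⁻¹ * (g * x ^ 2 * g⁻¹) * g := by group
    rw [this, h]; group
  rcases zpowers_four x _ hx4 h1 with h | h | h | h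
  · exact absurd (by rw [h, one_pow]) h2
  · exact Or.inl h
  · exact absurd (by rw [h, ← pow_mul]; exact hx4) h2
  · right
    rw [h]
    apply eq_inv_of_mul_eq_one_left
    rw [← pow_succ]; exact hx4

theorem exists_q8 {G : Type*} [Group G] [Finite G] (hn : ∀ H : Subgroup G, H.Normal)
    (hna : ∃ x y : G, ¬ Commute x y) :
    ∃ x y : G, orderOf x = 4 ∧ orderOf y = 4 ∧ x ^ 2 = y ^ 2 ∧ y * x * y⁻¹ = x⁻¹ := by
  classical
  have hex : ∃ n, ∃ x y : G, ¬ Commute x y ∧ orderOf x + orderOf y = n := by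
    obtain ⟨x, y, h⟩ := hna; exact ⟨_, x, y, h, rfl⟩
  obtain ⟨x0, y0, hxy0, hn0⟩ := Nat.find_spec hex
  have hmin0 : ∀ x' y' : G, ¬ Commute x' y' →
      orderOf x0 + orderOf y0 ≤ orderOf x' + orderOf y' := by
    intro x' y' h
    rw [hn0]
    exact Nat.find_min' hex ⟨x', y', h, rfl⟩
  obtain ⟨x, y, hxy, hle, hmin⟩ : ∃ x y : G, ¬ Commute x y ∧ orderOf y ≤ orderOf x ∧
      ∀ x' y' : G, ¬ Commute x' y' → orderOf x + orderOf y ≤ orderOf x' + orderOf y' := by
    rcases le_total (orderOf y0) (orderOf x0) with h | h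
    · exact ⟨x0, y0, hxy0, h, hmin0⟩
    · refine ⟨y0, x0, fun hc => hxy0 hc.symm, h, ?_⟩
      intro x' y' h'
      rw [add_comm]
      exact hmin0 x' y' h'
  obtain ⟨c, hc⟩ : ∃ c, c = x * y * x⁻¹ * y⁻¹ := ⟨_, rfl⟩
  have hc1 : c ≠ 1 := by
    intro h
    apply hxy
    rw [h] at hc
    show x * y = y * x
    calc x * y = (x * y * x⁻¹ * y⁻¹) * (y * x) := by group
      _ = y * x := by rw [← hc, one_mul]
  have hcx : c ∈ Subgroup.zpowers x := by
    have h1 : y * x⁻¹ * y⁻¹ ∈ Subgroup.zpowers x :=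
      (hn (Subgroup.zpowers x)).conj_mem _ (inv_mem (Subgroup.mem_zpowers x)) y
    have h2 : c = x * (y * x⁻¹ * y⁻¹) := by rw [hc]; group
    rw [h2]; exact mul_mem (Subgroup.mem_zpowers x) h1
  have hcy : c ∈ Subgroup.zpowers y := by
    have h1 : x * y * x⁻¹ ∈ Subgroup.zpowers y :=
      (hn (Subgroup.zpowers y)).conj_mem _ (Subgroup.mem_zpowers y) x
    rw [hc]; exact mul_mem h1 (inv_mem (Subgroup.mem_zpowers y))
  have hccx : Commute c x := by
    obtain ⟨k, hk⟩ := Subgroup.mem_zpowers_iff.1 hcx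
    rw [← hk]
    exact (Commute.refl x).zpow_left k
  have hccy : Commute c y := by
    obtain ⟨k, hk⟩ := Subgroup.mem_zpowers_iff.1 hcy
    rw [← hk]
    exact (Commute.refl y).zpow_left k
  have hyx : y * x * y⁻¹ = c⁻¹ * x := by rw [hc]; group
  have hxyc : x * y * x⁻¹ = c * y := by rw [hc]; group
  have hox : 0 < orderOf x := orderOf_pos x
  have hoy : 0 < orderOf y := orderOf_pos y
  have hX : ∀ q : ℕ, q.Prime → q ∣ orderOf x → Commute (x ^ q) y ∧ c ^ q = 1 := by
    intro q hq hqx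
    have h1 : orderOf (x ^ q) < orderOf x := by
      rw [orderOf_pow_of_dvd hq.ne_zero hqx]
      exact Nat.div_lt_self hox hq.one_lt
    have h2 : Commute (x ^ q) y := by
      by_contra h
      have := hmin _ _ h
      omega
    refine ⟨h2, ?_⟩
    have h3 : y * x ^ q * y⁻¹ = (c⁻¹) ^ q * x ^ q := by
      rw [← conj_pow, hyx, (hccx.inv_left).mul_pow]
    have h4 : y * x ^ q * y⁻¹ = x ^ q := by
      rw [← h2.eq, mul_assoc, mul_inv_cancel, mul_one]
    rw [h4] at h3
    simpa using h3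
  have hY : ∀ q : ℕ, q.Prime → q ∣ orderOf y → c ^ q = 1 := by
    intro q hq hqy
    have h1 : orderOf (y ^ q) < orderOf y := by
      rw [orderOf_pow_of_dvd hq.ne_zero hqy]
      exact Nat.div_lt_self hoy hq.one_lt
    have h2 : Commute x (y ^ q) := by
      by_contra h
      have := hmin _ _ h
      omega
    have h3 : x * y ^ q * x⁻¹ = c ^ q * y ^ q := by
      rw [← conj_pow, hxyc, hccy.mul_pow]
    have h4 : x * y ^ q * x⁻¹ = y ^ q := by
      rw [h2.eq, mul_assoc, mul_inv_cancel, mul_one]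
    rw [h4] at h3
    simpa using h3
  have hx1 : orderOf x ≠ 1 := by
    intro h; rw [orderOf_eq_one_iff] at h; apply hxy; rw [h]; exact Commute.one_left y
  have hy1 : orderOf y ≠ 1 := by
    intro h; rw [orderOf_eq_one_iff] at h; apply hxy; rw [h]; exact Commute.one_right x
  have hpx : ∀ q : ℕ, q.Prime → q ∣ orderOf x → q = orderOf c := by
    intro q hq hqx
    have := Fact.mk hq
    exact (orderOf_eq_prime (hX q hq hqx).2 hc1).symm
  have hpy : ∀ q : ℕ, q.Prime → q ∣ orderOf y → q = orderOf c := by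
    intro q hq hqy
    have := Fact.mk hq
    exact (orderOf_eq_prime (hY q hq hqy) hc1).symm
  obtain ⟨p, hp⟩ : ∃ p, p = orderOf c := ⟨_, rfl⟩
  have hpp : p.Prime := by
    have := hpx _ (Nat.minFac_prime hx1) (Nat.minFac_dvd _)
    rw [hp, ← this]; exact Nat.minFac_prime hx1
  have hpdx : p ∣ orderOf x := by
    have := hpx _ (Nat.minFac_prime hx1) (Nat.minFac_dvd _)
    rw [hp, ← this]; exact Nat.minFac_dvd _
  obtain ⟨a, ha⟩ : ∃ a, orderOf x = p ^ a := by
    refine ⟨_, Nat.eq_prime_pow_of_unique_prime_dvd hox.ne' ?_⟩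
    intro q hq hqx; rw [hp]; exact hpx q hq hqx
  obtain ⟨b, hb⟩ : ∃ b, orderOf y = p ^ b := by
    refine ⟨_, Nat.eq_prime_pow_of_unique_prime_dvd hoy.ne' ?_⟩
    intro q hq hqx; rw [hp]; exact hpy q hq hqx
  obtain ⟨b', rfl⟩ : ∃ b', b = b' + 1 := by
    cases b with
    | zero => exact absurd (by simpa using hb) hy1
    | succ b' => exact ⟨b', rfl⟩
  obtain ⟨e, rfl⟩ : ∃ e, a = b' + 1 + e := by
    have : b' + 1 ≤ a := by
      rw [ha, hb] at hle
      exact (Nat.pow_le_pow_iff_right hpp.one_lt).1 hle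
    exact ⟨a - (b'+1), by omega⟩
  have hcp : c ^ p = 1 := by rw [hp]; exact pow_orderOf_eq_one c
  -- y ^ n lies in zpowers c
  have h1 : y ^ (p ^ b') ∈ Subgroup.zpowers c := by
    refine mem_zpowers_of_mem p hpp.pos y _ c (Subgroup.npow_mem_zpowers y _) hcy hp.symm ?_
    rw [← pow_mul, ← pow_succ, ← hb]; exact pow_orderOf_eq_one y
  have h2 : c ∈ Subgroup.zpowers (x ^ (p ^ (b' + e))) := by
    refine mem_zpowers_of_mem p hpp.pos x _ _ hcx (Subgroup.npow_mem_zpowers x _) ?_ hcp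
    rw [orderOf_pow_of_dvd (pow_ne_zero _ hpp.ne_zero) (by rw [ha]; exact pow_dvd_pow _ (by omega)),
      ha]
    have : p ^ (b' + 1 + e) = p ^ (b' + e) * p := by rw [← pow_succ]; congr 1; omega
    rw [this, Nat.mul_div_cancel_left _ (pow_pos hpp.pos _)]
  have h3 : y ^ (p ^ b') ∈ Subgroup.zpowers (x ^ (p ^ (b' + e))) :=
    (Subgroup.zpowers_le.2 h2) h1
  obtain ⟨k, hk⟩ := Subgroup.mem_zpowers_iff.1 h3
  obtain ⟨w, hw⟩ : ∃ w, w = (x ^ (p ^ e)) ^ k := ⟨_, rfl⟩
  have hwn : w ^ (p ^ b') = y ^ (p ^ b') := by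
    rw [hw, ← hk, ← zpow_natCast, ← zpow_mul, mul_comm, zpow_mul, zpow_natCast, ← pow_mul,
      ← pow_add, add_comm e b']
  have hwx : w ∈ Subgroup.zpowers x := by
    rw [hw]; exact zpow_mem (Subgroup.npow_mem_zpowers x _) k
  obtain ⟨u, hu⟩ : ∃ u, u = w⁻¹ := ⟨_, rfl⟩
  have hux : u ∈ Subgroup.zpowers x := by rw [hu]; exact inv_mem hwx
  have hucx : Commute u x := by
    obtain ⟨j, hj⟩ := Subgroup.mem_zpowers_iff.1 hux
    rw [← hj]
    exact (Commute.refl x).zpow_left j
  obtain ⟨d, hd⟩ : ∃ d, d = (u * y)⁻¹ * (y * u) := ⟨_, rfl⟩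
  have hyu : y * u = u * y * d := by rw [hd]; group
  have hdc : d ∈ Subgroup.zpowers c := by
    obtain ⟨j, hj⟩ := Subgroup.mem_zpowers_iff.1 hux
    have e1 : y * u * y⁻¹ = (c⁻¹) ^ j * u := by
      rw [← hj, ← conj_zpow, hyx, (hccx.inv_left).mul_zpow]
    have e2 : y * u = (c⁻¹) ^ j * u * y := by
      rw [← e1]; group
    have e3 : Commute ((c⁻¹) ^ j) (u * y) := by
      apply Commute.zpow_left
      apply Commute.inv_left
      apply Commute.mul_right _ hccy
      rw [← hj]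
      exact hccx.zpow_right j
    have e4 : d = (c⁻¹) ^ j := by
      rw [hd, e2, mul_assoc, e3.eq]; group
    rw [e4]
    exact zpow_mem (inv_mem (Subgroup.mem_zpowers c)) j
  obtain ⟨i, hi⟩ := Subgroup.mem_zpowers_iff.1 hdc
  have hdu : Commute d u := by
    rw [← hi]
    apply Commute.zpow_left
    obtain ⟨j, hj⟩ := Subgroup.mem_zpowers_iff.1 hux
    rw [← hj]
    exact hccx.zpow_right j
  have hdy : Commute d y := by
    rw [← hi]
    exact hccy.zpow_left i
  have hdp : d ^ p = 1 := by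
    rw [← hi, ← zpow_natCast, ← zpow_mul, mul_comm, zpow_mul, zpow_natCast, hcp, one_zpow]
  have hzx : ¬ Commute x (u * y) := by
    intro h
    apply hxy
    have : y = u⁻¹ * (u * y) := by group
    rw [this]
    exact (hucx.symm.inv_right).mul_right h
  have hzo : orderOf y ≤ orderOf (u * y) := by
    have := hmin _ _ hzx
    omega
  have hzn : (u * y) ^ (p ^ b') = d ^ ((p ^ b').choose 2) := by
    rw [mul_pow_class2 u y d hyu hdu hdy, hu, inv_pow, hwn, inv_mul_cancel, one_mul]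
  have hdne : d ^ ((p ^ b').choose 2) ≠ 1 := by
    intro h
    rw [h] at hzn
    have h5 := Nat.le_of_dvd (pow_pos hpp.pos _) (orderOf_dvd_of_pow_eq_one hzn)
    have h6 : p ^ b' < p ^ (b' + 1) := Nat.pow_lt_pow_right hpp.one_lt (by omega)
    rw [hb] at hzo
    omega
  have hnd : ¬ p ∣ (p ^ b').choose 2 := by
    rintro ⟨r, hr⟩
    apply hdne
    rw [hr, pow_mul, hdp, one_pow]
  have hd1 : d ≠ 1 := by
    intro h
    apply hdne
    rw [h, one_pow]
  have hch : ∀ n : ℕ, n * (n - 1) = 2 * n.choose 2 := by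
    intro n
    rw [Nat.choose_two_right, Nat.two_mul_div_two_of_even (Nat.even_mul_pred_self n)]
  obtain ⟨b'', rfl⟩ : ∃ b'', b' = b'' + 1 := by
    cases b' with
    | zero => exact absurd (by simp) hdne
    | succ b'' => exact ⟨b'', rfl⟩
  have hp2 : p = 2 := by
    have h5 : p ∣ 2 * (p ^ (b'' + 1)).choose 2 := by
      rw [← hch]
      exact Dvd.dvd.mul_right (dvd_pow_self p (by omega)) _
    rcases (Nat.Prime.dvd_mul hpp).1 h5 with h | h
    · exact (Nat.prime_dvd_prime_iff_eq hpp Nat.prime_two).1 h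
    · exact absurd h hnd
  subst hp2
  have hb0 : b'' = 0 := by
    by_contra h
    apply hnd
    have h5 : 2 * 2 ∣ 2 * (2 ^ (b'' + 1)).choose 2 := by
      rw [← hch]
      apply Dvd.dvd.mul_right
      have : (2:ℕ) * 2 = 2 ^ 2 := by norm_num
      rw [this]
      exact pow_dvd_pow _ (by omega)
    exact Nat.dvd_of_mul_dvd_mul_left (by norm_num) h5
  subst hb0
  have he0 : e = 0 := by
    by_contra h
    apply hd1
    obtain ⟨e', rfl⟩ : ∃ e', e = e' + 1 := ⟨e - 1, by omega⟩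
    have h5 : Commute (x ^ 2) y := (hX 2 Nat.prime_two hpdx).1
    have h6 : Commute u y := by
      rw [hu, hw]
      apply Commute.inv_left
      apply Commute.zpow_left
      rw [pow_succ', pow_mul]
      exact h5.pow_left _
    rw [hd, h6.eq]; group
  subst he0
  have hx4 : orderOf x = 4 := by rw [ha]; norm_num
  have hy4 : orderOf y = 4 := by rw [hb]; norm_num
  have hc2 : c ^ 2 = 1 := hcp
  have hx2 : x ^ 2 = c := by
    have h5 : x ^ 2 ∈ Subgroup.zpowers c := by
      refine mem_zpowers_of_mem 2 (by norm_num) x _ c (Subgroup.npow_mem_zpowers x _) hcx hp.symm ?_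
      rw [← pow_mul]; show x ^ 4 = 1; rw [← hx4]; exact pow_orderOf_eq_one x
    rcases zpowers_two c _ hc2 h5 with h | h
    · have := orderOf_dvd_of_pow_eq_one h
      rw [hx4] at this
      norm_num at this
    · exact h
  have hy2 : y ^ 2 = c := by
    have h5 : y ^ 2 ∈ Subgroup.zpowers c := by
      refine mem_zpowers_of_mem 2 (by norm_num) y _ c (Subgroup.npow_mem_zpowers y _) hcy hp.symm ?_
      rw [← pow_mul]; show y ^ 4 = 1; rw [← hy4]; exact pow_orderOf_eq_one y
    rcases zpowers_two c _ hc2 h5 with h | h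
    · have := orderOf_dvd_of_pow_eq_one h
      rw [hy4] at this
      norm_num at this
    · exact h
  refine ⟨x, y, hx4, hy4, by rw [hx2, hy2], ?_⟩
  rw [hyx, ← hx2]; group

/-- A finite non-abelian group in which every subgroup is normal is the internal direct product of a subgroup isomorphic to the quaternion group of order `8`, an elementary abelian `2`-subgroup and an abelian subgroup of odd order. -/
theorem result {G : Type*} [Group G] [Finite G] (hna : ¬ IsMulCommutative G) (hn : ∀ H : Subgroup G, H.Normal) : ∃ Q E A : Subgroup G, Nonempty (Q ≃* QuaternionGroup 2) ∧ Cfsg.IsElementaryAbelian 2 E ∧ IsMulCommutative A ∧ Odd (Nat.card A) ∧ E ⊓ A = ⊥ ∧ Q ⊓ (E ⊔ A) = ⊥ ∧ Q ⊔ (E ⊔ A) = ⊤ := by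
  classical
  have hna' : ∃ x y : G, ¬ Commute x y := by
    by_contra h
    push Not at h
    exact hna ⟨⟨fun a b => (h a b).eq⟩⟩
  obtain ⟨x, y, hx4, hy4, hx2y2, hyx⟩ := exists_q8 hn hna'
  have hx44 : x ^ 4 = 1 := by rw [← hx4]; exact pow_orderOf_eq_one x
  have hy44 : y ^ 4 = 1 := by rw [← hy4]; exact pow_orderOf_eq_one y
  have hx2 : x ^ 2 ≠ 1 := by
    intro h
    have := orderOf_dvd_of_pow_eq_one h
    rw [hx4] at this
    norm_num at this
  have hy2 : y ^ 2 ≠ 1 := by rw [← hx2y2]; exact hx2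
  have hxyn : ¬ Commute y x := by
    intro h
    apply hx2
    rw [h.eq, mul_assoc, mul_inv_cancel, mul_one] at hyx
    calc x ^ 2 = x * x := pow_two x
      _ = x * x⁻¹ := by rw [← hyx]
      _ = 1 := mul_inv_cancel x
  -- x y x⁻¹ = y⁻¹
  have hxy : x * y * x⁻¹ = y⁻¹ := by
    rcases conj_order4 hn y x hy4 with h | h
    · exfalso
      apply hxyn
      show y * x = x * y
      calc y * x = (x * y * x⁻¹) * x := by rw [h]
        _ = x * y := by group
    · exact h
  obtain ⟨c, hc⟩ : ∃ c, c = x ^ 2 := ⟨_, rfl⟩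
  have hc1 : c ≠ 1 := by rw [hc]; exact hx2
  have hcy : c = y ^ 2 := by rw [hc, hx2y2]
  have hc2 : c ^ 2 = 1 := by rw [hc, ← pow_mul]; exact hx44
  obtain ⟨f, hfa, hfx⟩ := Cfsg.Agent.S4295.exists_lift 2 x y hx44
    (by rw [hx2y2, pow_two]) (by
      have h2 : x = y⁻¹ * x⁻¹ * y := by
        calc x = y⁻¹ * (y * x * y⁻¹) * y := by group
          _ = y⁻¹ * x⁻¹ * y := by rw [hyx]
      calc y⁻¹ * x * y = (y⁻¹ * x⁻¹ * y)⁻¹ := by group
        _ = x⁻¹ := by rw [← h2])
  have hfa2 : f (QuaternionGroup.a 2) = c := by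
    have : (QuaternionGroup.a 2 : QuaternionGroup 2) = QuaternionGroup.a 1 ^ 2 := by decide
    rw [this, map_pow, hfa, hc]
  have hinj : Function.Injective f := by
    rw [injective_iff_map_eq_one]
    intro g hg
    by_contra hg1
    have hdec : ∀ g : QuaternionGroup 2, g ≠ 1 → g ^ 2 = QuaternionGroup.a 2 ∨
        g = QuaternionGroup.a 2 := by decide
    rcases hdec g hg1 with h | h
    · apply hc1
      rw [← hfa2, ← h, map_pow, hg, one_pow]
    · apply hc1
      rw [← hfa2, ← h, hg]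
  obtain ⟨Q, hQ⟩ : ∃ Q : Subgroup G, Q = f.range := ⟨_, rfl⟩
  have hxQ : x ∈ Q := by rw [hQ]; exact ⟨_, hfa⟩
  have hyQ : y ∈ Q := by rw [hQ]; exact ⟨_, hfx⟩
  have hcQ : c ∈ Q := by rw [hc]; exact pow_mem hxQ 2
  obtain ⟨C, hC⟩ : ∃ C : Subgroup G, C = Subgroup.centralizer ({x, y} : Set G) := ⟨_, rfl⟩
  have hCmem : ∀ g, g ∈ C ↔ Commute g x ∧ Commute g y := by
    intro g
    rw [hC, Subgroup.mem_centralizer_iff]
    constructor
    · intro h
      exact ⟨(h x (by simp)).symm, (h y (by simp)).symm⟩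
    · rintro ⟨h1, h2⟩ z hz
      rcases hz with hz | hz
      · rw [hz]; exact h1.eq.symm
      · rw [Set.mem_singleton_iff.1 hz]; exact h2.eq.symm
  have hQC : ∀ g, g ∈ Q → g ∈ C → g = 1 ∨ g = c := by
    intro g hgQ hgC
    rw [hQ] at hgQ
    obtain ⟨q, rfl⟩ := hgQ
    have hdec : ∀ q : QuaternionGroup 2, q = 1 ∨ q = QuaternionGroup.a 2 ∨
        q * QuaternionGroup.a 1 ≠ QuaternionGroup.a 1 * q ∨
        q * QuaternionGroup.xa 0 ≠ QuaternionGroup.xa 0 * q := by decide
    obtain ⟨h1, h2⟩ := (hCmem _).1 hgC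
    rcases hdec q with h | h | h | h
    · left; rw [h, map_one]
    · right; rw [h, hfa2]
    · exfalso
      apply h
      apply hinj
      rw [map_mul, map_mul, hfa]
      exact h1.eq
    · exfalso
      apply h
      apply hinj
      rw [map_mul, map_mul, hfx]
      exact h2.eq
  -- G = Q C
  have hGQC : ∀ g : G, ∃ q ∈ Q, ∃ h ∈ C, g = q * h := by
    intro g
    have hA : ∃ q ∈ Q, Commute (q⁻¹ * g) x := by
      rcases conj_order4 hn x g hx4 with h | h
      · refine ⟨1, one_mem _, ?_⟩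
        rw [inv_one, one_mul]
        show g * x = x * g
        calc g * x = (g * x * g⁻¹) * g := by group
          _ = x * g := by rw [h]
      · refine ⟨y, hyQ, ?_⟩
        show y⁻¹ * g * x = x * (y⁻¹ * g)
        calc y⁻¹ * g * x = y⁻¹ * (g * x * g⁻¹) * g := by group
          _ = y⁻¹ * x⁻¹ * g := by rw [h]
          _ = y⁻¹ * (y * x * y⁻¹) * g := by rw [hyx]
          _ = x * (y⁻¹ * g) := by group
    obtain ⟨q1, hq1, hg1⟩ := hA
    obtain ⟨g1, hg1'⟩ : ∃ g1, g1 = q1⁻¹ * g := ⟨_, rfl⟩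
    rw [← hg1'] at hg1
    have hB : ∃ q ∈ Q, Commute (q⁻¹ * g1) x ∧ Commute (q⁻¹ * g1) y := by
      rcases conj_order4 hn y g1 hy4 with h | h
      · refine ⟨1, one_mem _, ?_⟩
        rw [inv_one, one_mul]
        refine ⟨hg1, ?_⟩
        show g1 * y = y * g1
        calc g1 * y = (g1 * y * g1⁻¹) * g1 := by group
          _ = y * g1 := by rw [h]
      · refine ⟨x, hxQ, ?_, ?_⟩
        · exact ((Commute.refl x).inv_left).mul_left hg1
        · show x⁻¹ * g1 * y = y * (x⁻¹ * g1)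
          calc x⁻¹ * g1 * y = x⁻¹ * (g1 * y * g1⁻¹) * g1 := by group
            _ = x⁻¹ * y⁻¹ * g1 := by rw [h]
            _ = x⁻¹ * (x * y * x⁻¹) * g1 := by rw [hxy]
            _ = y * (x⁻¹ * g1) := by group
    obtain ⟨q2, hq2, hg2⟩ := hB
    refine ⟨q1 * q2, mul_mem hq1 hq2, q2⁻¹ * g1, (hCmem _).2 hg2, ?_⟩
    rw [hg1']; group
  -- no elements of order 4 in C
  have hC4 : ∀ g ∈ C, g ^ 4 = 1 → g ^ 2 = 1 := by
    intro g hg hg4
    obtain ⟨hgx, hgy⟩ := (hCmem g).1 hg
    have hw4 : (g * y) ^ 4 = 1 := by rw [hgy.mul_pow, hg4, hy44, one_mul]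
    have h1 : x * (g * y) * x⁻¹ ∈ Subgroup.zpowers (g * y) :=
      (hn (Subgroup.zpowers (g * y))).conj_mem _ (Subgroup.mem_zpowers _) x
    have h2 : x * (g * y) * x⁻¹ = g * y⁻¹ := by
      calc x * (g * y) * x⁻¹ = (x * g) * y * x⁻¹ := by group
        _ = (g * x) * y * x⁻¹ := by rw [hgx.eq]
        _ = g * (x * y * x⁻¹) := by group
        _ = g * y⁻¹ := by rw [hxy]
    rw [h2] at h1
    rcases zpowers_four _ _ hw4 h1 with h | h | h | h
    · -- g = y
      exfalso
      apply hxyn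
      have : g = y := by
        calc g = (g * y⁻¹) * y := by group
          _ = y := by rw [h, one_mul]
      rw [← this]; exact hgx
    · exfalso
      apply hy2
      have h3 : y⁻¹ = y := mul_left_cancel h
      calc y ^ 2 = y * y := pow_two y
        _ = y⁻¹ * y := by rw [h3]
        _ = 1 := inv_mul_cancel y
    · exfalso
      rw [hgy.mul_pow] at h
      -- g y⁻¹ = g^2 y^2  → g = y⁻³ = y
      apply hxyn
      have h3 : y⁻¹ = g * y ^ 2 := by
        apply mul_left_cancel (a := g)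
        rw [h, pow_two g]; group
      have h4 : g = y := by
        calc g = (g * y ^ 2) * (y ^ 2)⁻¹ := by group
          _ = y⁻¹ * (y ^ 2)⁻¹ := by rw [← h3]
          _ = (y ^ 4)⁻¹ * y := by group
          _ = y := by rw [hy44, inv_one, one_mul]
      rw [← h4]; exact hgx
    · rw [hgy.mul_pow] at h
      have h3 : y ^ 3 = y⁻¹ := by
        apply eq_inv_of_mul_eq_one_left
        rw [← pow_succ]; exact hy44
      rw [h3] at h
      have h4 : g = g ^ 3 := mul_right_cancel h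
      have h5 : g * 1 = g * g ^ 2 := by
        rw [mul_one, ← pow_succ']; exact h4
      exact (mul_left_cancel h5).symm
  have hCab : ∀ g h : G, g ∈ C → h ∈ C → Commute g h := by
    intro g h hg hh
    by_contra hgh
    have hnC : ∀ H : Subgroup C, H.Normal := by
      intro H
      have h1 : (H.map C.subtype).Normal := hn _
      have h2 : H = (H.map C.subtype).comap C.subtype :=
        (Subgroup.comap_map_eq_self_of_injective C.subtype_injective H).symm
      rw [h2]
      exact h1.comap _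
    obtain ⟨x', y', hx', -, -, -⟩ := exists_q8 hnC ⟨⟨g, hg⟩, ⟨h, hh⟩, fun hc => hgh (by
      have := congrArg Subtype.val hc.eq
      exact this)⟩
    have h4 : (x' : G) ^ 4 = 1 := by
      have h5 : x' ^ 4 = 1 := by rw [← hx']; exact pow_orderOf_eq_one x'
      have h6 := congrArg Subtype.val h5
      simpa using h6
    have h2 := hC4 x' x'.2 h4
    have h7 : x' ^ 2 = 1 := Subtype.ext (by simpa using h2)
    have h8 := orderOf_dvd_of_pow_eq_one h7
    rw [hx'] at h8
    norm_num at h8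
  let T : ℕ → Subgroup G := fun k =>
    { carrier := {g | g ∈ C ∧ g ^ k = 1}
      mul_mem' := by
        rintro a b ⟨ha, ha'⟩ ⟨hb, hb'⟩
        exact ⟨mul_mem ha hb, by rw [(hCab a b ha hb).mul_pow, ha', hb', one_mul]⟩
      one_mem' := ⟨one_mem _, one_pow _⟩
      inv_mem' := by
        rintro a ⟨ha, ha'⟩
        exact ⟨inv_mem ha, by rw [inv_pow, ha', inv_one]⟩ }
  have hT : ∀ k g, g ∈ T k ↔ g ∈ C ∧ g ^ k = 1 := fun k g => Iff.rfl
  have hcC : c ∈ C := by
    rw [hCmem]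
    constructor
    · rw [hc]; exact (Commute.refl x).pow_left 2
    · rw [hcy]; exact (Commute.refl y).pow_left 2
  have hcT : c ∈ T 2 := (hT 2 c).2 ⟨hcC, hc2⟩
  obtain ⟨k, m, hm, hkm⟩ := Nat.exists_eq_two_pow_mul_odd (n := Nat.card G) Nat.card_pos.ne'
  obtain ⟨E, hE⟩ := (Set.toFinite {E : Subgroup G | E ≤ T 2 ∧ c ∉ E}).exists_maximal
    ⟨⊥, bot_le, by rw [Subgroup.mem_bot]; exact hc1⟩
  have hE1 : E ≤ T 2 := hE.prop.1
  have hE2 : c ∉ E := hE.prop.2
  have hE3 : ∀ g ∈ T 2, g ∈ E ∨ c * g ∈ E := by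
    intro g hg
    by_contra hcon
    push Not at hcon
    obtain ⟨hg1, hg2⟩ := hcon
    have hle : E ⊔ Subgroup.zpowers g ≤ T 2 := sup_le hE1 (by rwa [Subgroup.zpowers_le])
    have hcn : c ∉ E ⊔ Subgroup.zpowers g := by
      intro hcm
      have := hn (Subgroup.zpowers g)
      have h1 : c ∈ ((E ⊔ Subgroup.zpowers g : Subgroup G) : Set G) := hcm
      rw [Subgroup.mul_normal] at h1
      obtain ⟨e, he, z, hz, hez⟩ := Set.mem_mul.1 h1
      rcases zpowers_two g z ((hT 2 g).1 hg).2 hz with h | h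
      · apply hE2
        rw [← hez, h, mul_one]; exact he
      · apply hg2
        rw [← hez, h, mul_assoc, ← pow_two, ((hT 2 g).1 hg).2, mul_one]; exact he
    have h3 := hE.le_of_ge ⟨hle, hcn⟩ le_sup_left
    exact hg1 (h3 (Subgroup.mem_sup_right (Subgroup.mem_zpowers g)))
  have hcop : ∀ g : G, g ^ 2 = 1 → g ^ m = 1 → g = 1 := by
    intro g h2 hm'
    rw [← orderOf_eq_one_iff]
    exact Nat.eq_one_of_dvd_coprimes (Nat.coprime_two_left.2 hm) (orderOf_dvd_of_pow_eq_one h2)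
      (orderOf_dvd_of_pow_eq_one hm')
  have hpow2 : ∀ k : ℕ, ∀ g ∈ C, g ^ (2 ^ k) = 1 → g ^ 2 = 1 := by
    intro k
    induction k with
    | zero => intro g _ h; rw [pow_zero, pow_one] at h; rw [h, one_pow]
    | succ k ih =>
      intro g hg h
      cases k with
      | zero => simpa using h
      | succ k =>
        apply ih g hg
        have h1 : (g ^ (2 ^ k)) ^ 4 = 1 := by
          rw [← pow_mul, ← h]; congr 1; ring
        have h2 := hC4 (g ^ (2 ^ k)) (pow_mem hg _) h1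
        rw [← pow_mul] at h2
        rw [← h2]; congr 1
  have hEAC : E ⊔ T m ≤ C := sup_le (fun g hg => ((hT 2 g).1 (hE1 hg)).1)
    (fun g hg => ((hT m g).1 hg).1)
  refine ⟨Q, E, T m, ?_, ⟨?_, ?_⟩, ?_, ?_, ?_, ?_, ?_⟩
  · rw [hQ]
    exact ⟨(MonoidHom.ofInjective hinj).symm⟩
  · exact ⟨⟨fun a b => Subtype.ext (hCab a b ((hT 2 _).1 (hE1 a.2)).1 ((hT 2 _).1 (hE1 b.2)).1).eq⟩⟩
  · intro a ha
    exact ((hT 2 a).1 (hE1 ha)).2
  · exact ⟨⟨fun a b => Subtype.ext (hCab a b ((hT m _).1 a.2).1 ((hT m _).1 b.2).1).eq⟩⟩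
  · rw [← Nat.not_even_iff_odd]
    intro hev
    obtain ⟨g, hg⟩ := exists_prime_orderOf_dvd_card' (G := T m) 2 hev.two_dvd
    have h1 : g ^ m = 1 := Subtype.ext (by simpa using ((hT m _).1 g.2).2)
    have h2 := orderOf_dvd_of_pow_eq_one h1
    rw [hg] at h2
    exact (Nat.not_even_iff_odd.2 hm) (even_iff_two_dvd.2 h2)
  · rw [eq_bot_iff]
    intro g hg
    obtain ⟨h1, h2⟩ := Subgroup.mem_inf.1 hg
    rw [Subgroup.mem_bot]
    exact hcop g ((hT 2 g).1 (hE1 h1)).2 ((hT m g).1 h2).2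
  · rw [eq_bot_iff]
    intro g hg
    obtain ⟨h1, h2⟩ := Subgroup.mem_inf.1 hg
    rw [Subgroup.mem_bot]
    rcases hQC g h1 (hEAC h2) with h | h
    · exact h
    · exfalso
      rw [h] at h2
      have := hn (T m)
      have h3 : c ∈ ((E ⊔ T m : Subgroup G) : Set G) := h2
      rw [Subgroup.mul_normal] at h3
      obtain ⟨e, he, a, ha, hea⟩ := Set.mem_mul.1 h3
      have ha2 : a ∈ T 2 := by
        have : a = e⁻¹ * c := by rw [← hea]; group
        rw [this]
        exact mul_mem (inv_mem (hE1 he)) hcT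
      have ha1 : a = 1 := hcop a ((hT 2 a).1 ha2).2 ((hT m a).1 ha).2
      apply hE2
      rw [← hea, ha1, mul_one]; exact he
  · rw [eq_top_iff]
    intro g _
    obtain ⟨q, hq, h, hh, rfl⟩ := hGQC g
    have hQ' : Q ≤ Q ⊔ (E ⊔ T m) := le_sup_left
    have hE' : E ≤ Q ⊔ (E ⊔ T m) := le_sup_left.trans le_sup_right
    have hA' : T m ≤ Q ⊔ (E ⊔ T m) := le_sup_right.trans le_sup_right
    apply mul_mem (hQ' hq)
    have h1 : (h ^ m) ^ (2 ^ k) = 1 := by
      rw [← pow_mul, mul_comm, ← hkm]; exact pow_card_eq_one'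
    have h2 : (h ^ m) ^ 2 = 1 := hpow2 k _ (pow_mem hh m) h1
    have h3 : h ^ m ∈ T 2 := (hT 2 _).2 ⟨pow_mem hh m, h2⟩
    have h4 : h ^ 2 ∈ T m := (hT m _).2 ⟨pow_mem hh 2, by rw [← pow_mul, mul_comm, pow_mul]; exact h2⟩
    obtain ⟨j, hj⟩ := hm
    have h5 : h = ((h ^ 2) ^ j)⁻¹ * h ^ m := by
      rw [hj, pow_succ h (2 * j), pow_mul, inv_mul_cancel_left]
    rw [h5]
    apply mul_mem (hA' (inv_mem (pow_mem h4 j)))
    rcases hE3 _ h3 with h6 | h6
    · exact hE' h6
    · have h7 : h ^ m = c⁻¹ * (c * h ^ m) := by group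
      rw [h7]
      exact mul_mem (hQ' (inv_mem hcQ)) (hE' h6)

end Cfsg.Agent.S4211
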