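import Cfsg.Statements.S4666
import Cfsg.Agent.Lib.Helper24.BrauerFeit

set_option autoImplicit false
open Cfsg

namespace Cfsg.Agent.S4666

open Cfsg.Agent.Lib.Helper7 Cfsg.Agent.Lib.Helper24

theorem exists_int_defect {G : Type*} [Group G] [Fintype G] {p : ℕ} [Fact p.Prime]
    {M : Ideal Cfsg.AlgInt} (hM : Cfsg.IsPModular p M) {B : Set (Cfsg.IrrCharacter G)}
    (hB : Cfsg.IsPBlock M B) (χ ψ : IrrCharacter G) (hψ : ψ ∈ B) :
    ∃ k : ℤ, (p : ℂ) ^ blockDefect p B * classInner (regPart p (χ : G → ℂ)) (ψ : G → ℂ) = k := by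
  haveI := hM.2.1.isPrime
  obtain ⟨N, hN⟩ := exists_int_contrib (p := p) χ ψ
  have h1 := contrib_dvd hM χ ψ hN
  have h2 := sInf_le_of_mem p hψ
  have h3 := sInf_le_factorization_card hB p
  have h4 : ((p ^ ((Nat.card G).factorization p - blockDefect p B) : ℕ) : ℤ) ∣ N := by
    refine dvd_trans ?_ h1
    apply Int.natCast_dvd_natCast.2
    apply pow_dvd_pow
    rw [blockDefect]
    omega
  obtain ⟨k, hk⟩ := h4
  refine ⟨k, ?_⟩
  have hp0 : (p : ℂ) ≠ 0 := by exact_mod_cast hM.1.ne_zero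
  have h5 : (Nat.card G).factorization p
      = ((Nat.card G).factorization p - blockDefect p B) + blockDefect p B := by
    rw [blockDefect]; omega
  rw [h5, pow_add, mul_assoc, hk] at hN
  push_cast at hN
  exact mul_left_cancel₀ (pow_ne_zero _ hp0) hN


/-- Fix a prime p and a maximal ideal M of the algebraic integers containing p, and a p-block B of the finite group G of defect d. For every integer combination χ of the irreducible characters in B, p^d times the function that agrees with χ on p-regular elements and vanishes elsewhere is again an integer combination of the irreducible characters in B. -/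
theorem result {G : Type*} [Group G] [Fintype G] (p : ℕ) [Fact p.Prime] (M : Ideal Cfsg.AlgInt) (hM : Cfsg.IsPModular p M) (B : Set (Cfsg.IrrCharacter G)) (hB : Cfsg.IsPBlock M B) (χ : G → ℂ) (hχ : (∃ n : Cfsg.IrrCharacter G → ℤ, ∀ g : G, χ g = ∑ᶠ ψ ∈ B, (n ψ : ℂ) * (ψ : G → ℂ) g)) : (∃ n : Cfsg.IrrCharacter G → ℤ, ∀ g : G, (p ^ Cfsg.blockDefect p B : ℂ) * Cfsg.pRegularPart p χ g = ∑ᶠ ψ ∈ B, (n ψ : ℂ) * (ψ : G → ℂ) g) := by
  classical
  haveI := hM.2.1.isPrime
  haveI := Fintype.ofFinite (IrrCharacter G)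
  obtain ⟨n, hn⟩ := hχ
  have hex : ∀ χ₀ ψ : IrrCharacter G, ∃ k : ℤ, ψ ∈ B →
      (p : ℂ) ^ blockDefect p B * classInner (regPart p (χ₀ : G → ℂ)) (ψ : G → ℂ) = k := by
    intro χ₀ ψ
    by_cases hψ : ψ ∈ B
    · obtain ⟨k, hk⟩ := exists_int_defect hM hB χ₀ ψ hψ
      exact ⟨k, fun _ => hk⟩
    · exact ⟨0, fun h => absurd h hψ⟩
  choose k hk using hex
  refine ⟨fun ψ => ∑ χ₀ : IrrCharacter G, if χ₀ ∈ B then n χ₀ * k χ₀ ψ else 0, fun g => ?_⟩
  have hreg : ∀ (φ : G → ℂ), pRegularPart p φ g = regPart p φ g := by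
    intro φ
    by_cases hg : p ∣ orderOf g
    · have : ¬ IsPRegular p g := fun h => h hg
      simp [pRegularPart, regPart, hg, this]
    · have : IsPRegular p g := hg
      simp [pRegularPart, regPart, hg, this]
  have hexp : ∀ χ₀ ∈ B, (p : ℂ) ^ blockDefect p B * regPart p (χ₀ : G → ℂ) g
      = ∑ ψ : IrrCharacter G, B.indicator (fun ψ => (k χ₀ ψ : ℂ) * (ψ : G → ℂ) g) ψ := by
    intro χ₀ hχ₀
    have h1 := congrFun (classFunction_eq_sum
      (isClassFunction_regPart (p := p) (isClassFunction_irr χ₀))) g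
    simp only [Finset.sum_apply, Pi.smul_apply, smul_eq_mul] at h1
    rw [h1, Finset.mul_sum]
    apply Finset.sum_congr rfl
    intro ψ _
    by_cases hψ : ψ ∈ B
    · rw [Set.indicator_of_mem hψ, ← hk χ₀ ψ hψ, mul_assoc]
    · rw [Set.indicator_of_notMem hψ, contrib_eq_zero hM hB hχ₀ hψ, zero_mul, mul_zero]
  have hχreg : regPart p χ g
      = ∑ χ₀ : IrrCharacter G, B.indicator (fun χ₀ => (n χ₀ : ℂ) * regPart p (χ₀ : G → ℂ) g) χ₀ := by
    by_cases hg : p ∣ orderOf g
    · simp [regPart, hg]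
    · simp only [regPart, if_neg hg]
      rw [hn g, finsum_mem_eq_sum_indicator]
  rw [hreg, hχreg, finsum_mem_eq_sum_indicator, Finset.mul_sum]
  have e1 : ∀ χ₀ : IrrCharacter G, (p : ℂ) ^ blockDefect p B
      * B.indicator (fun χ₀ => (n χ₀ : ℂ) * regPart p (χ₀ : G → ℂ) g) χ₀
      = ∑ ψ : IrrCharacter G, B.indicator (fun ψ =>
          ((if χ₀ ∈ B then n χ₀ * k χ₀ ψ else 0 : ℤ) : ℂ) * (ψ : G → ℂ) g) ψ := by
    intro χ₀
    by_cases hχ₀ : χ₀ ∈ B
    · rw [Set.indicator_of_mem hχ₀, mul_left_comm, hexp χ₀ hχ₀, Finset.mul_sum]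
      apply Finset.sum_congr rfl
      intro ψ _
      by_cases hψ : ψ ∈ B
      · rw [Set.indicator_of_mem hψ, Set.indicator_of_mem hψ, if_pos hχ₀]
        push_cast
        ring
      · rw [Set.indicator_of_notMem hψ, Set.indicator_of_notMem hψ, mul_zero]
    · rw [Set.indicator_of_notMem hχ₀, mul_zero]
      symm
      apply Finset.sum_eq_zero
      intro ψ _
      by_cases hψ : ψ ∈ B
      · rw [Set.indicator_of_mem hψ, if_neg hχ₀]; simp
      · rw [Set.indicator_of_notMem hψ]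
  simp only [e1]
  rw [Finset.sum_comm]
  apply Finset.sum_congr rfl
  intro ψ _
  by_cases hψ : ψ ∈ B
  · simp only [Set.indicator_of_mem hψ]
    rw [← Finset.sum_mul]
    push_cast
    rfl
  · simp only [Set.indicator_of_notMem hψ, Finset.sum_const_zero]

end Cfsg.Agent.S4666
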