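import Cfsg.Statements.S4428
import Cfsg.Agent.Lib.Helper24.BrauerFeit
import Cfsg.Agent.Lib.Helper24.BlockBrDecomp

set_option autoImplicit false
open Cfsg

namespace Cfsg.Agent.S4428

open Cfsg.Agent.Lib.Helper7 Cfsg.Agent.Lib.Helper24
open scoped ComplexConjugate

theorem classInner_blockPart_regPart {H : Type*} [Group H] [Fintype H] {p : ℕ}
    {M : Ideal Cfsg.AlgInt} (hM : Cfsg.IsPModular p M) {b : Set (Cfsg.IrrCharacter H)}
    (hb : Cfsg.IsPBlock M b) {ξ₀ : Cfsg.IrrCharacter H} (hξ₀ : ξ₀ ∈ b) (f : H → ℂ) :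
    Cfsg.classInner (Cfsg.blockPart b f) (regPart p (ξ₀ : H → ℂ))
      = Cfsg.classInner f (regPart p (ξ₀ : H → ℂ)) := by
  classical
  haveI := Fintype.ofFinite (Cfsg.IrrCharacter H)
  have h1 := classFunction_eq_sum (isClassFunction_regPart (p := p) (isClassFunction_irr ξ₀))
  rw [h1, classInner_sum_right, classInner_sum_right]
  apply Finset.sum_congr rfl
  intro ξ _
  rw [classInner_smul_right, classInner_smul_right]
  by_cases hξ : ξ ∈ b
  · rw [classInner_blockPart_of_mem f hξ]
  · rw [contrib_eq_zero hM hb hξ₀ hξ, map_zero, zero_mul, zero_mul]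



/-- Let χ be an irreducible character of height zero in the p-block B of the finite group G (relative to a maximal ideal M of the algebraic integers containing p). Let x be a p-element of G with centralizer C, and let b be a block of C that induces B. Form the class function ϑ(c) = χ(x c) on C and its b-part (the sum over ψ ∈ b of the inner product of ϑ with ψ, times ψ). Then the b-part of ϑ does not vanish identically on the p-regular elements of C. (Compare the second main Theorem, which gives vanishing when b does not induce B.) -/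
theorem result {G : Type*} [Group G] [Finite G] (p : ℕ) [Fact p.Prime] (M : Ideal Cfsg.AlgInt) (hM : Cfsg.IsPModular p M) (B : Set (Cfsg.IrrCharacter G)) (hB : Cfsg.IsPBlock M B) (χ : Cfsg.IrrCharacter G) (hχ : χ ∈ B) (h0 : Cfsg.blockHeight p B (χ : G → ℂ) = 0) (x : G) (hx : ∃ k : ℕ, orderOf x = p ^ k) (b : Set (Cfsg.IrrCharacter (Subgroup.centralizer ({x} : Set G)))) (hb : Cfsg.IsInducedBlock M (Subgroup.centralizer ({x} : Set G)) b B) : ∃ y : Subgroup.centralizer ({x} : Set G), ¬ p ∣ orderOf y ∧ Cfsg.blockPart b (fun c : Subgroup.centralizer ({x} : Set G) => (χ : G → ℂ) (x * (c : G))) y ≠ 0 := by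
  classical
  haveI := hM.2.1.isPrime
  haveI := Fintype.ofFinite G
  haveI : Fintype (Subgroup.centralizer ({x} : Set G)) := Fintype.ofFinite _
  by_contra hcon
  have hvan : ∀ y : Subgroup.centralizer ({x} : Set G), ¬ p ∣ orderOf y →
      Cfsg.blockPart b (fun c : Subgroup.centralizer ({x} : Set G) =>
        (χ : G → ℂ) (x * (c : G))) y = 0 := by
    intro y hy
    by_contra h
    exact hcon ⟨y, hy, h⟩
  obtain ⟨ξ₀, hξ₀⟩ := isPBlock_nonempty hb.1
  set ϑ : Subgroup.centralizer ({x} : Set G) → ℂ := fun c => (χ : G → ℂ) (x * (c : G)) with hϑ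
  have hA := classInner_blockPart_regPart hM hb.1 hξ₀ ϑ
  have hB0 : Cfsg.classInner (Cfsg.blockPart b ϑ) (regPart p (ξ₀ : _ → ℂ)) = 0 := by
    rw [Cfsg.classInner]
    rw [Finset.sum_eq_zero, mul_zero]
    intro c _
    by_cases hc : p ∣ orderOf c
    · simp [regPart, hc]
    · rw [hvan c hc, zero_mul]
  rw [hB0] at hA
  set F : Subgroup.centralizer ({x} : Set G) → ℂ :=
    fun c => if p ∣ orderOf c then 0 else (χ : G → ℂ) (x * ((c⁻¹ : _) : G)) with hF
  have hsum : ∑ c, ϑ c * conj (regPart p (ξ₀ : _ → ℂ) c) = ∑ c, F c * (ξ₀ : _ → ℂ) c := by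
    apply Fintype.sum_equiv (Equiv.inv _)
    intro c
    simp only [Equiv.inv_apply, hF, hϑ, regPart, orderOf_inv, inv_inv]
    by_cases hc : p ∣ orderOf c
    · simp [hc]
    · simp only [if_neg hc]
      rw [char_inv_eq_conj (isCharacter_of_irr ξ₀.2)]
  have hOm0 : Om F ξ₀ = 0 := by
    rw [Cfsg.classInner, hsum] at hA
    have hcard : (Nat.card (Subgroup.centralizer ({x} : Set G)) : ℂ)⁻¹ ≠ 0 := by
      apply inv_ne_zero
      exact_mod_cast Nat.card_pos.ne'
    have := (mul_eq_zero.1 hA.symm).resolve_left hcard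
    rw [Om, this, zero_div]
  have hshift := isClassFunction_shift x χ
  have hFc : Cfsg.IsClassFunction _ F := by
    intro c k
    have h1 : orderOf (k * c * k⁻¹) = orderOf c := Cfsg.Agent.Lib.Helper7.orderOf_conj' c k
    have h2 : (k * c * k⁻¹)⁻¹ = k * c⁻¹ * k⁻¹ := by group
    simp only [hF, h1, h2]
    by_cases hc : p ∣ orderOf c
    · simp [hc]
    · simp only [if_neg hc]
      exact hshift c⁻¹ k
  have hRc : Cfsg.IsClassFunction _ (resH (Subgroup.centralizer ({x} : Set G))
      (regCoeff p (χ : G → ℂ))) :=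
    isClassFunction_resH _ (isClassFunction_regCoeff (isClassFunction_irr χ))
  have hδ : ∀ c, Cfsg.MemLocalIdeal M ((F - resH (Subgroup.centralizer ({x} : Set G))
      (regCoeff p (χ : G → ℂ))) c) := by
    intro c
    simp only [Pi.sub_apply, hF, resH, regCoeff, Subgroup.orderOf_coe]
    by_cases hc : p ∣ orderOf c
    · simp only [if_pos hc, sub_self]; exact memLocalIdeal_zero
    · simp only [if_neg hc]
      have hcomm : Commute x ((c⁻¹ : _) : G) := commute_of_mem_centralizer c⁻¹
      have := char_congr_mul hM (isCharacter_of_irr χ.2) hcomm hx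
        (by rw [Subgroup.orderOf_coe, orderOf_inv]; exact hc)
      simpa using this
  have h1 : Cfsg.MemLocalIdeal M (Om F ξ₀ - Om (resH (Subgroup.centralizer ({x} : Set G))
      (regCoeff p (χ : G → ℂ))) ξ₀) := by
    have := Om_memLocalIdeal (isClassFunction_sub' hFc hRc) hδ ξ₀
    rwa [Om_sub'] at this
  have h2 := induced_congr hb hξ₀ hχ (isClassFunction_regCoeff (p := p) (isClassFunction_irr χ))
    (memLocalRing_regCoeff (isCharacter_of_irr χ.2))
  have h3 := not_memLocalIdeal_Om_regCoeff hM hB hχ h0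
  have h4 := not_memLocalIdeal_of_sub h2 h3
  have h5 := not_memLocalIdeal_of_sub h1 h4
  apply h5
  rw [hOm0]
  exact memLocalIdeal_zero

end Cfsg.Agent.S4428
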