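import Cfsg.Statements.S5350
import Cfsg.Agent.Lib.Helper27.ThreeTrans3
open Cfsg.Agent.Lib.Helper27

set_option autoImplicit false
open Cfsg

namespace Cfsg.Agent.S5350

/-- Let D be a conjugacy class of 3-transpositions generating the finite group G, with at least two members, and d a member of D. Then the set of members w of D whose commuting partners in D (other than w) are exactly those of d (other than d) coincides with the set of members of D lying in the coset of d modulo the largest normal 3-subgroup of G, and also with the orbit of d under conjugation by that normal 3-subgroup. -/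
theorem result {G : Type*} [Group G] [Finite G] {D : Set G} (hD : Cfsg.IsThreeTranspositionClass D) (hD2 : ∃ a ∈ D, ∃ b ∈ D, a ≠ b) {d : G} (hd : d ∈ D) : {w : G | w ∈ D ∧ {y : G | y ∈ D ∧ y ≠ d ∧ Commute d y} = {y : G | y ∈ D ∧ y ≠ w ∧ Commute w y}} = {w : G | w ∈ D ∧ d⁻¹ * w ∈ Cfsg.pCore 3 G} ∧ {w : G | w ∈ D ∧ {y : G | y ∈ D ∧ y ≠ d ∧ Commute d y} = {y : G | y ∈ D ∧ y ≠ w ∧ Commute w y}} = {w : G | ∃ g ∈ Cfsg.pCore 3 G, w = g * d * g⁻¹} := by
  have hset := hD.1
  have hconj : ∀ g : G, ∀ x ∈ D, g * x * g⁻¹ ∈ D := fun g x hx => tt_class_conj_mem hD g hx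
  have : Fact (Nat.Prime 3) := ⟨Nat.prime_three⟩
  have hNn : (Cfsg.pCore 3 G).Normal := pCore_normal'
  have hNp : IsPGroup 3 (Cfsg.pCore 3 G) := pCore_isPGroup
  have hdd := tt_sq hset hd
  have hdi := tt_inv hset hd
  have hnot : ∀ a : G, a * a = 1 → a ∈ Cfsg.pCore 3 G → a = 1 := by
    intro a ha haN
    obtain ⟨k, hk⟩ := hNp ⟨a, haN⟩
    have hk' : a ^ 3 ^ k = 1 := congrArg Subtype.val hk
    have h1 : orderOf a ∣ 3 ^ k := orderOf_dvd_of_pow_eq_one hk'
    have h2 : orderOf a ∣ 2 := orderOf_dvd_of_pow_eq_one (by rw [pow_two, ha])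
    have h3 : orderOf a ∣ Nat.gcd (3 ^ k) 2 := Nat.dvd_gcd h1 h2
    have hcop : Nat.Coprime (3 ^ k) 2 := Nat.Coprime.pow_left _ (by norm_num)
    rw [hcop] at h3
    exact orderOf_eq_one_iff.1 (Nat.dvd_one.1 h3)
  have haux : ∀ a ∈ D, ∀ b ∈ D, a * b ∈ Cfsg.pCore 3 G → Dp D a ⊆ Dp D b := by
    intro a ha b hb hab y ⟨hy, hya, hc⟩
    have hay2 : (a * y) * (a * y) = 1 := by
      calc (a * y) * (a * y) = a * (y * a) * y := by group
        _ = a * (a * y) * y := by rw [hc.eq]
        _ = (a * a) * (y * y) := by group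
        _ = 1 := by rw [tt_sq hset ha, tt_sq hset hy, one_mul]
    have hay1 : a * y ≠ 1 := by
      intro h
      have := eq_inv_of_mul_eq_one_left h
      rw [tt_inv hset hy] at this
      exact hya this.symm
    have hba : b * a ∈ Cfsg.pCore 3 G := by
      have := inv_mem hab
      rwa [mul_inv_rev, tt_inv hset ha, tt_inv hset hb] at this
    refine ⟨hy, ?_, ?_⟩
    · rintro rfl
      exact hay1 (hnot _ hay2 hab)
    · rcases hset.2 b hb y hy with h | h
      · rcases tt_commute_or_braid hset hb hy with h' | h'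
        · exact h'
        · have hs : b * y * (b * y) = 1 := by rw [← pow_two]; exact h
          show b * y = y * b
          calc b * y = b * y * ((b * y) * (y * b)) := by
                have : (b * y) * (y * b) = 1 := by
                  calc (b * y) * (y * b) = b * (y * y) * b := by group
                    _ = 1 := by rw [tt_sq hset hy, mul_one, tt_sq hset hb]
                rw [this, mul_one]
            _ = (b * y * (b * y)) * (y * b) := by group
            _ = y * b := by rw [hs, one_mul]
      · exfalso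
        have hsq : (b * y) * (b * y) ∈ Cfsg.pCore 3 G := by
          have e1 : (b * y) * (b * y) = (b * a) * ((a * y) * (b * a) * (a * y)⁻¹) * ((a * y) * (a * y)) := by
            have : b * y = (b * a) * (a * y) := by
              calc b * y = b * (a * a) * y := by rw [tt_sq hset ha, mul_one]
                _ = (b * a) * (a * y) := by group
            rw [this]; group
          rw [e1, hay2, mul_one]
          exact mul_mem hba (hNn.conj_mem _ hba _)
        have hby : b * y ∈ Cfsg.pCore 3 G := by
          have e2 : b * y = ((b * y) * (b * y))⁻¹ := by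
            rw [eq_inv_iff_mul_eq_one]
            rw [← h]; simp only [pow_succ, pow_zero, one_mul, mul_assoc]
          rw [e2]
          exact inv_mem hsq
        apply hay1
        apply hnot _ hay2
        have e3 : a * y = (a * b) * (b * y) := by
          calc a * y = a * (b * b) * y := by rw [tt_sq hset hb, mul_one]
            _ = (a * b) * (b * y) := by group
        rw [e3]; exact mul_mem hab hby
  have hfirst : {w : G | w ∈ D ∧ {y : G | y ∈ D ∧ y ≠ d ∧ Commute d y} = {y : G | y ∈ D ∧ y ≠ w ∧ Commute w y}} =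
      {w : G | w ∈ D ∧ d⁻¹ * w ∈ Cfsg.pCore 3 G} := by
    ext w
    constructor
    · rintro ⟨hw, h⟩
      refine ⟨hw, ?_⟩
      rw [hdi]
      exact W_mul_mem_pCore hset hconj hd hw h
    · rintro ⟨hw, h⟩
      rw [hdi] at h
      refine ⟨hw, Set.Subset.antisymm (haux d hd w hw h) (haux w hw d hd ?_)⟩
      have := inv_mem h
      rwa [mul_inv_rev, hdi, tt_inv hset hw] at this
  refine ⟨hfirst, ?_⟩
  ext w
  constructor
  · rintro ⟨hw, h⟩
    by_cases hdw : d = w
    · exact ⟨1, one_mem _, by rw [← hdw]; group⟩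
    · have hnc : ¬ Commute d w := Dp_not_commute hw h hdw
      have hbr : d * w * d = w * d * w := (tt_commute_or_braid hset hd hw).resolve_left hnc
      exact ⟨d * w, W_mul_mem_pCore hset hconj hd hw h, (tt_conj_of_braid hdd (tt_sq hset hw) hbr).symm⟩
  · rintro ⟨g, hg, rfl⟩
    rw [hfirst]
    refine ⟨hconj g d hd, ?_⟩
    have e : d⁻¹ * (g * d * g⁻¹) = (d⁻¹ * g * d⁻¹⁻¹) * g⁻¹ := by group
    rw [e]
    exact mul_mem (hNn.conj_mem _ hg _) (inv_mem hg)

end Cfsg.Agent.S5350
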