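import Cfsg.Statements.S0682
-- import your own Cfsg.Agent.* helpers here
import Cfsg.Agent.Lib.Helper29.Sharp2
import Cfsg.Agent.Lib.Helper29.NearField

set_option autoImplicit false
open Cfsg

namespace Cfsg.Agent.S0682

open Cfsg.Agent.Lib.Helper29.Sharp2 Cfsg.Agent.Lib.Helper29.NF


/-- A finite near-field has prime-power order; its additive group is commutative of prime exponent. -/
theorem result {F : Type*} [Cfsg.NearField F] [Finite F] : ∃ p j : ℕ, p.Prime ∧ 1 ≤ j ∧ Nat.card F = p ^ j ∧ (∀ x y : F, x + y = y + x) ∧ ∀ x : F, p • x = 0 := by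
  classical
  have h2' : ∀ a b c d : F, a ≠ b → c ≠ d → ∃ g : affGroup F, g • a = c ∧ g • b = d :=
    fun a b c d hab hcd => affGroup_two_trans hab hcd
  have hsharp' : ∀ (g : affGroup F) (a b : F), a ≠ b → g • a = a → g • b = b → g = 1 :=
    fun g a b hab ha hb => affGroup_sharp hab g ha hb
  have hcard : 2 ≤ Nat.card F := by
    haveI : Nontrivial F := ⟨0, 1, NearField.zero_ne_one⟩
    exact Finite.one_lt_card
  obtain ⟨K, hK⟩ := exists_isKer h2' hsharp' hcard
  obtain ⟨hcomm, p, j, hp, hj, hcj, hexp⟩ := hK.structure h2' hcard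
  refine ⟨p, j, hp, hj, hcj, ?_, ?_⟩
  all_goals
    have ht : ∀ b : F, ∃ t : affGroup F, t ∈ K ∧ ∀ x : F, (t : Equiv.Perm F) x = x + b := by
      intro b
      refine ⟨⟨aff 1 1 b (one_mul 1) (one_mul 1), ⟨1, b, fun h => NearField.zero_ne_one h.symm, fun x => rfl⟩⟩, ?_, ?_⟩
      · rw [hK.mem_iff]
        by_cases hb : b = 0
        · left
          ext x
          change x * 1 + b = x
          rw [hb, mul_one, add_zero]
        · right
          intro x hx
          have hx' : x * 1 + b = x := hx
          rw [mul_one] at hx'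
          exact hb (left_eq_add.mp hx'.symm)
      · intro x
        change x * 1 + b = x + b
        rw [mul_one]
  · intro x y
    obtain ⟨t, htK, ht1⟩ := ht x
    obtain ⟨s, hsK, hs1⟩ := ht y
    have h := hcomm.is_comm.comm (⟨t, htK⟩ : K) ⟨s, hsK⟩
    have h' : t * s = s * t := congrArg Subtype.val h
    have h'' : ((t * s : affGroup F) : Equiv.Perm F) 0 = ((s * t : affGroup F) : Equiv.Perm F) 0 := by rw [h']
    rw [Subgroup.coe_mul, Subgroup.coe_mul, Equiv.Perm.mul_apply, Equiv.Perm.mul_apply, ht1, hs1, ht1, hs1,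
      zero_add, zero_add] at h''
    exact h''.symm
  · intro b
    obtain ⟨t, htK, ht1⟩ := ht b
    have hpow : ∀ (n : ℕ) (x : F), ((t ^ n : affGroup F) : Equiv.Perm F) x = x + n • b := by
      intro n
      induction n with
      | zero => intro x; simp
      | succ n ih =>
        intro x
        rw [pow_succ, Subgroup.coe_mul, Equiv.Perm.mul_apply, ih, ht1, succ_nsmul', add_assoc]
    have h := hpow p 0
    rw [hexp t htK, zero_add] at h
    exact h.symm

end Cfsg.Agent.S0682
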