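import Cfsg.Statements.S0683
-- import your own Cfsg.Agent.* helpers here
import Cfsg.Agent.Lib.Helper29.Sharp2

set_option autoImplicit false
open Cfsg

namespace Cfsg.Agent.S0683

open Cfsg.Agent.Lib.Helper29.Sharp2

theorem build {α : Type*} [Fintype α] [DecidableEq α] (H : Subgroup (Equiv.Perm α)) (K : Subgroup H)
    (hK : IsKer K α)
    (h2' : ∀ a b c d : α, a ≠ b → c ≠ d → ∃ g : H, g • a = c ∧ g • b = d)
    (hsharp' : ∀ (g : H) (a b : α), a ≠ b → g • a = a → g • b = b → g = 1)
    (o e : α) (hoe : o ≠ e) :
    ∃ _ : Cfsg.NearField α, ∀ σ : Equiv.Perm α, σ ∈ H ↔ ∃ a b : α, a ≠ 0 ∧ ∀ x : α, σ x = x * a + b := by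
  classical
  choose T hTK hT using fun x => hK.trans o x
  have hM : ∀ a : α, ∃ g : H, g • o = o ∧ (a ≠ o → g • e = a) := by
    intro a
    by_cases ha : a = o
    · exact ⟨1, one_smul _ _, fun h => absurd ha h⟩
    · obtain ⟨g, h1, h2⟩ := h2' o e o a hoe (Ne.symm ha)
      exact ⟨g, h1, fun _ => h2⟩
  choose M hMo hMe using hM
  have hTu : ∀ (k : H) (x : α), k ∈ K → k • o = x → k = T x := by
    intro k x hk hx
    exact hK.inj hk (hTK x) (a := o) (by rw [hx, hT])
  have hMu : ∀ (g : H) (a : α), a ≠ o → g • o = o → g • e = a → g = M a := by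
    intro g a ha h1 h2
    have : (M a)⁻¹ * g = 1 := by
      apply hsharp' _ o e hoe
      · rw [mul_smul, h1, inv_smul_eq_iff, hMo]
      · rw [mul_smul, h2, inv_smul_eq_iff, hMe a ha]
    exact (inv_mul_eq_one.mp this).symm
  have hMinvo : ∀ a, (M a)⁻¹ • o = o := fun a => by rw [inv_smul_eq_iff, hMo]
  have hMne : ∀ a x, x ≠ o → M a • x ≠ o := by
    intro a x hx h
    apply hx
    have : M a • x = M a • o := by rw [h, hMo]
    exact MulAction.injective _ this
  have hTo : T o = 1 := (hTu 1 o K.one_mem (one_smul _ _)).symm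
  have hMe1 : M e = 1 := (hMu 1 e hoe.symm (one_smul _ _) (one_smul _ _)).symm
  let ag : AddGroup α := @AddGroup.ofLeftAxioms α ⟨fun x y => T y • x⟩ ⟨fun x => (T x)⁻¹ • o⟩ ⟨o⟩
    (by
      intro x y z
      change T z • (T y • x) = T (T z • y) • x
      have : T z * T y = T (T z • y) := hTu _ _ (K.mul_mem (hTK z) (hTK y)) (by rw [mul_smul, hT])
      rw [← this, mul_smul])
    (by
      intro y
      exact hT y)
    (by
      intro x
      change T x • ((T x)⁻¹ • o) = o
      rw [smul_inv_smul])
  let mo : Monoid α :=
    { mul := fun x a => if a = o then o else M a • x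
      one := e
      mul_assoc := by
        intro x a b
        change (if b = o then o else M b • (if a = o then o else M a • x))
          = if (if b = o then o else M b • a) = o then o else M (if b = o then o else M b • a) • x
        by_cases hb : b = o
        · simp [hb]
        by_cases ha : a = o
        · simp [hb, ha, hMo]
        have h1 := hMne b a ha
        have h2 : M b * M a = M (M b • a) := hMu _ _ h1 (by rw [mul_smul, hMo, hMo]) (by rw [mul_smul, hMe a ha])
        simp only [hb, ha, h1, if_false]
        rw [← h2, mul_smul]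
      one_mul := by
        intro a
        change (if a = o then o else M a • e) = a
        by_cases ha : a = o
        · simp [ha]
        · simp [ha, hMe a ha]
      mul_one := by
        intro x
        change (if e = o then o else M e • x) = x
        rw [if_neg hoe.symm, hMe1, one_smul] }
  let inst : Cfsg.NearField α :=
    { toAddGroup := ag
      toMonoid := mo
      right_distrib := by
        intro a b c
        change (if c = o then o else M c • (T b • a))
          = T (if c = o then o else M c • b) • (if c = o then o else M c • a)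
        by_cases hc : c = o
        · simp [hc, hT]
        simp only [hc, if_false]
        have : M c * T b * (M c)⁻¹ = T (M c • b) :=
          hTu _ _ (hK.normal.conj_mem _ (hTK b) _) (by rw [mul_smul, mul_smul, hMinvo, hT])
        rw [← this, mul_smul, mul_smul, inv_smul_smul]
      mul_zero := by
        intro a
        change (if o = o then o else M o • a) = o
        rw [if_pos rfl]
      zero_ne_one := hoe
      exists_inv := by
        intro a ha
        have ha' : a ≠ o := ha
        have hb : (M a)⁻¹ • e ≠ o := by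
          intro h
          rw [inv_smul_eq_iff, hMo] at h
          exact hoe h.symm
        have hMb : (M a)⁻¹ = M ((M a)⁻¹ • e) := hMu _ _ hb (hMinvo a) rfl
        refine ⟨(M a)⁻¹ • e, ?_, ?_⟩
        · change (if (M a)⁻¹ • e = o then o else M ((M a)⁻¹ • e) • a) = e
          rw [if_neg hb, ← hMb, inv_smul_eq_iff, hMe a ha']
        · change (if a = o then o else M a • ((M a)⁻¹ • e)) = e
          rw [if_neg ha', smul_inv_smul] }
  refine ⟨inst, ?_⟩
  intro σ
  constructor
  · intro hσ
    have h1 : ((T (σ o))⁻¹ * ⟨σ, hσ⟩ : H) • o = o := by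
      rw [mul_smul, inv_smul_eq_iff, hT]; rfl
    have h2 : ((T (σ o))⁻¹ * ⟨σ, hσ⟩ : H) • e ≠ o := by
      intro h
      exact hoe (MulAction.injective _ (h.trans h1.symm)).symm
    have h3 := hMu _ _ h2 h1 rfl
    refine ⟨((T (σ o))⁻¹ * ⟨σ, hσ⟩ : H) • e, σ o, h2, ?_⟩
    intro x
    change σ x = T (σ o) • (if ((T (σ o))⁻¹ * ⟨σ, hσ⟩ : H) • e = o then o
      else M (((T (σ o))⁻¹ * ⟨σ, hσ⟩ : H) • e) • x)
    rw [if_neg h2, ← h3, mul_smul, smul_inv_smul]
    rfl
  · rintro ⟨a, b, ha, h⟩
    have ha' : a ≠ o := ha
    have : σ = ((T b * M a : H) : Equiv.Perm α) := by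
      ext x
      rw [h x]
      change T b • (if a = o then o else M a • x) = (T b * M a) • x
      rw [if_neg ha', mul_smul]
    rw [this]
    exact (T b * M a).2

/-- A finite sharply doubly transitive permutation group is the affine group of a near-field: the permuted set carries a near-field structure for which the group consists exactly of the maps `x ↦ x * a + b` with `a ≠ 0`. -/
theorem result {α : Type*} [Fintype α] [DecidableEq α] (H : Subgroup (Equiv.Perm α)) [MulAction.IsMultiplyPretransitive H α 2] (hsharp : ∀ x : Fin 2 ↪ α, MulAction.stabilizer H x = ⊥) (h2 : 2 ≤ Fintype.card α) : ∃ _ : Cfsg.NearField α, ∀ σ : Equiv.Perm α, σ ∈ H ↔ ∃ a b : α, a ≠ 0 ∧ ∀ x : α, σ x = x * a + b := by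
  classical
  have h2' : ∀ a b c d : α, a ≠ b → c ≠ d → ∃ g : H, g • a = c ∧ g • b = d := by
    intro a b c d hab hcd
    exact MulAction.is_two_pretransitive_iff.mp inferInstance hab hcd
  have hsharp' : ∀ (g : H) (a b : α), a ≠ b → g • a = a → g • b = b → g = 1 := by
    intro g a b hab ha hb
    have hinj : Function.Injective ![a, b] := by
      intro i j hij
      fin_cases i <;> fin_cases j <;> simp_all
    have hmem : g ∈ MulAction.stabilizer H (⟨![a, b], hinj⟩ : Fin 2 ↪ α) := by
      rw [MulAction.mem_stabilizer_iff]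
      ext i
      fin_cases i
      · exact ha
      · exact hb
    rw [hsharp] at hmem
    exact Subgroup.mem_bot.mp hmem
  have hcard : 2 ≤ Nat.card α := by rwa [Nat.card_eq_fintype_card]
  obtain ⟨K, hK⟩ := exists_isKer h2' hsharp' hcard
  obtain ⟨o, e, hoe⟩ := Fintype.exists_pair_of_one_lt_card (α := α) (by omega)
  exact build H K hK h2' hsharp' o e hoe

end Cfsg.Agent.S0683
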