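import Cfsg.Statements.S0910
import Cfsg.Agent.Lib.Helper7.BlockFirst3
import Cfsg.Agent.Lib.Helper2.CharBurn
import Cfsg.Agent.Lib.Helper10.Kazarin

set_option autoImplicit false
open Cfsg

namespace Cfsg.Agent.S0910

/-- Let G be a non-abelian finite simple group and p a prime. If an irreducible character χ lies in the principal block (relative to a maximal ideal of the algebraic integers containing p) and χ 1 is a power of p, then χ is the principal character. -/
theorem result {G : Type*} [Group G] [Finite G] (p : ℕ) [Fact p.Prime] (M : Ideal Cfsg.AlgInt) (hM : Cfsg.IsPModular p M) [IsSimpleGroup G] (hna : ∃ a b : G, a * b ≠ b * a) (χ : Cfsg.IrrCharacter G) (hχ : χ ∈ Cfsg.principalBlock M G) (k : ℕ) (hdeg : (χ : G → ℂ) 1 = (p : ℂ) ^ k) : (χ : G → ℂ) = fun _ => 1 := by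
  classical
  by_contra hne
  haveI := Cfsg.Agent.Lib.Helper7.IsPModular.isPrime hM
  obtain ⟨a0, b0, hab⟩ := hna
  obtain ⟨P⟩ : Nonempty (Sylow p G) := inferInstance
  -- an element with class size prime to `p`
  obtain ⟨g, hg1, hgP⟩ : ∃ g : G, g ≠ 1 ∧ (P : Subgroup G) ≤ Subgroup.centralizer ({g} : Set G) := by
    by_cases hP : (P : Subgroup G) = ⊥
    · obtain ⟨g, hg⟩ := exists_ne (1 : G)
      exact ⟨g, hg, by rw [hP]; exact bot_le⟩
    · obtain ⟨z, hz, hzo, hzc⟩ := Cfsg.Agent.Lib.Helper7.exists_central_order_p P.2 hP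
      refine ⟨z, ?_, ?_⟩
      · rintro rfl
        rw [orderOf_one] at hzo
        exact (Fact.out : p.Prime).one_lt.ne hzo
      · intro w hw
        rw [Subgroup.mem_centralizer_singleton_iff]
        exact (hzc w hw).symm
  have hidx : ¬ p ∣ (Subgroup.centralizer ({g} : Set G)).index := fun h =>
    P.not_dvd_index (h.trans (Subgroup.index_dvd_of_le hgP))
  obtain ⟨χf, n, ρ, hρ, rfl⟩ := χ
  simp only at hne hdeg hχ
  have hn : n = p ^ k := by
    have h1 : ρ.character 1 = (n : ℂ) := by
      rw [Representation.char_one, Module.finrank_fin_fun]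
    rw [h1] at hdeg
    exact_mod_cast hdeg
  have hcop : Nat.Coprime (Module.finrank ℂ (Fin n → ℂ))
      (Subgroup.centralizer ({g} : Set G)).index := by
    rw [Module.finrank_fin_fun, hn]
    exact Nat.Coprime.pow_left k ((Nat.Prime.coprime_iff_not_dvd Fact.out).2 hidx)
  rcases Cfsg.Agent.Lib.Helper2.burnside_coprime ρ g hcop with h | h
  · have h1 := (Cfsg.Agent.Lib.Helper7.mem_blockOf.1 hχ) g
    simp only [Cfsg.centralChar, h, mul_zero, zero_div, sub_zero, mul_one, div_one] at h1
    exact hidx ((Cfsg.Agent.Lib.Helper7.memLocalIdeal_natCast_iff hM _).1 h1)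
  · obtain ⟨ω, hω⟩ := (Cfsg.Agent.Lib.Helper2.norm_char_eq_iff ρ g).1 h
    rcases (MonoidHom.normal_ker ρ).eq_bot_or_eq_top with hker | hker
    · have hcen : g ∈ Subgroup.center G := by
        rw [Subgroup.mem_center_iff]
        intro x
        have h1 : x * g * x⁻¹ * g⁻¹ ∈ ρ.ker := by
          rw [MonoidHom.mem_ker, map_mul, map_mul, map_mul, hω]
          have h2 : ρ x * (ω • LinearMap.id) * ρ x⁻¹ = ω • LinearMap.id := by
            rw [mul_smul_comm, smul_mul_assoc]
            congr 1
            have : ρ x * LinearMap.id = ρ x := mul_one _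
            rw [this, ← map_mul, mul_inv_cancel, map_one]
            rfl
          rw [h2, ← hω, ← map_mul, mul_inv_cancel, map_one]
        rw [hker, Subgroup.mem_bot] at h1
        have h3 : x * g * x⁻¹ = g := mul_inv_eq_one.1 h1
        exact mul_inv_eq_iff_eq_mul.1 h3
      have htop : Subgroup.center G = ⊤ := by
        rcases (inferInstance : (Subgroup.center G).Normal).eq_bot_or_eq_top with h | h
        · rw [h, Subgroup.mem_bot] at hcen
          exact absurd hcen hg1
        · exact h
      apply hab
      have : b0 ∈ Subgroup.center G := by rw [htop]; trivial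
      exact (Subgroup.mem_center_iff.1 this a0)
    · exact hne (Cfsg.Agent.Lib.Helper10.char_eq_one_of_ker_eq_top n ρ hker)

end Cfsg.Agent.S0910
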