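import Cfsg.Statements.S0048
import Mathlib
import Cfsg.Agent.Lib.Helper1.Basic
import Cfsg.Agent.Lib.Helper4.Basic

set_option autoImplicit false
open Cfsg

namespace Cfsg.Agent.S0048


universe u

theorem aux : ∀ (n : ℕ) (G : Type u) [Group G] [Finite G] [Group.IsSolvable G], Nat.card G = n →
    ∀ M : Subgroup G, IsCoatom M → IsPrimePow M.index := by
  intro n
  induction n using Nat.strong_induction_on with
  | _ n ih =>
  intro G _ _ _ hn M hM
  have : Nontrivial G := by
    by_contra h
    rw [not_nontrivial_iff_subsingleton] at h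
    exact hM.1 (Subsingleton.elim _ _)
  obtain ⟨p, hp, N, hNc, hNp, hNne, -⟩ := Cfsg.Agent.Lib.Helper1.exists_char_pSubgroup_of_solvable G
  have := Fact.mk hp
  have hNn : N.Normal := inferInstance
  by_cases hNM : N ≤ M
  · have hf : Function.Surjective (QuotientGroup.mk' N) := QuotientGroup.mk'_surjective N
    have hker : (QuotientGroup.mk' N).ker = N := QuotientGroup.ker_mk' N
    have hcomap : (M.map (QuotientGroup.mk' N)).comap (QuotientGroup.mk' N) = M := by
      rw [Subgroup.comap_map_eq, hker, sup_eq_left.mpr hNM]
    have hco : IsCoatom (M.map (QuotientGroup.mk' N)) := by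
      constructor
      · intro e
        apply hM.1
        rw [← hcomap, e, Subgroup.comap_top]
      · intro K hK
        have h1 : M ≤ K.comap (QuotientGroup.mk' N) := by
          rw [← hcomap]; exact Subgroup.comap_mono hK.le
        have h2 : M ≠ K.comap (QuotientGroup.mk' N) := by
          intro e
          apply hK.ne
          rw [e, Subgroup.map_comap_eq_self_of_surjective hf]
        have h3 := hM.2 _ (lt_of_le_of_ne h1 h2)
        rw [← Subgroup.map_comap_eq_self_of_surjective hf K, h3, Subgroup.map_top_of_surjective _ hf]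
    have hcard : Nat.card (G ⧸ N) < n := by
      have h1 := N.index_mul_card
      have h2 : 2 ≤ Nat.card N := by
        have h3 : Nat.card N ≠ 1 := fun e => hNne (Subgroup.card_eq_one.mp e)
        have h4 : 0 < Nat.card N := Nat.card_pos
        omega
      have h5 : Nat.card (G ⧸ N) = N.index := rfl
      have h6 : 0 < N.index := Nat.pos_of_ne_zero Subgroup.index_ne_zero_of_finite
      rw [h5, ← hn, ← h1]
      nlinarith
    have := ih _ hcard (G ⧸ N) rfl _ hco
    rwa [Subgroup.index_map, hker, sup_eq_left.mpr hNM,
      (QuotientGroup.mk' N).range_eq_top_of_surjective hf, Subgroup.index_top, mul_one] at this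
  · have hsup : M ⊔ N = ⊤ :=
      hM.2 _ (lt_of_le_of_ne le_sup_left (fun e => hNM (by rw [e]; exact le_sup_right)))
    have h1 : M.index = M.relIndex N := by
      rw [Cfsg.Agent.Lib.Helper4.relIndex_eq_relIndex_sup, hsup, Subgroup.relIndex_top_right]
    obtain ⟨k, hk⟩ := (IsPGroup.iff_card).mp hNp
    have h2 : M.index ∣ p ^ k := by
      rw [h1, ← hk]; exact Subgroup.relIndex_dvd_card _ _
    obtain ⟨j, -, hj'⟩ := (Nat.dvd_prime_pow hp).mp h2
    have hj0 : j ≠ 0 := by
      rintro rfl
      rw [pow_zero, Subgroup.index_eq_one] at hj'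
      exact hM.1 hj'
    rw [hj']
    exact hp.isPrimePow.pow hj0

/-- In a finite solvable group every maximal subgroup has index a prime power. -/
theorem result {G : Type*} [Group G] [Finite G] [Group.IsSolvable G]
    (M : Subgroup G) (hM : IsCoatom M) : IsPrimePow M.index := by
  exact aux _ G rfl M hM

end Cfsg.Agent.S0048
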