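import Cfsg.Statements.S0079
import Mathlib
import Cfsg.Agent.S0071
-- import your own Cfsg.Agent.* helpers here

set_option autoImplicit false
open Cfsg

namespace Cfsg.Agent.S0079

open scoped commutatorElement

/-- If `H` is nilpotent and controls its own fusion, a `p'`-element normalizing a `p`-subgroup `Q`
of `H` centralizes it. -/
theorem frob_cond {G : Type*} [Group G] [Finite G] (H : Subgroup G) (hH : Group.IsNilpotent H)
    (hf : ∀ x ∈ H, ∀ y ∈ H, (∃ g : G, g * x * g⁻¹ = y) → ∃ h ∈ H, h * x * h⁻¹ = y)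
    (p : ℕ) [Fact p.Prime] (Q : Subgroup G) (hQH : Q ≤ H) (hQ : IsPGroup p Q) (g : G)
    (hg : g ∈ Subgroup.normalizer (Q : Set G)) (hgp : Nat.Coprime (orderOf g) p) :
    g ∈ Subgroup.centralizer (Q : Set G) := by
  obtain ⟨n, hn⟩ := (Subgroup.isNilpotent_iff_lowerCentralSeries H).mp hH
  have step : ∀ k, (∀ x ∈ Q, x ∈ H.lowerCentralSeries (k + 1) → g * x * g⁻¹ = x) →
      ∀ x ∈ Q, x ∈ H.lowerCentralSeries k → g * x * g⁻¹ = x := by
    intro k ih x hxQ hxk
    have hgx : g * x * g⁻¹ ∈ Q := (Subgroup.mem_normalizer_iff.mp hg x).mp hxQ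
    obtain ⟨h, hh, hhx⟩ := hf x (hQH hxQ) _ (hQH hgx) ⟨g, rfl⟩
    obtain ⟨z, hz⟩ : ∃ z, z = x⁻¹ * (g * x * g⁻¹) := ⟨_, rfl⟩
    have hzQ : z ∈ Q := by rw [hz]; exact Q.mul_mem (Q.inv_mem hxQ) hgx
    have hzk : z ∈ H.lowerCentralSeries (k + 1) := by
      have h1 : z = ⁅x⁻¹, h⁆ := by
        rw [hz, ← hhx, commutatorElement_def]; group
      rw [h1, Subgroup.lowerCentralSeries_succ]
      exact Subgroup.commutator_mem_commutator (Subgroup.inv_mem _ hxk) hh
    have hgz := ih z hzQ hzk
    have hgx' : g * x * g⁻¹ = x * z := by rw [hz, mul_inv_cancel_left]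
    have hpow : ∀ m : ℕ, g ^ m * x * (g ^ m)⁻¹ = x * z ^ m := by
      intro m
      induction m with
      | zero => simp
      | succ m ihm =>
        have h1 : g ^ (m + 1) * x * (g ^ (m + 1))⁻¹ = g * (g ^ m * x * (g ^ m)⁻¹) * g⁻¹ := by
          rw [pow_succ']; group
        have h2 : g * z ^ m * g⁻¹ = z ^ m := by
          rw [← conj_pow, hgz]
        rw [h1, ihm]
        calc g * (x * z ^ m) * g⁻¹ = (g * x * g⁻¹) * (g * z ^ m * g⁻¹) := by group
          _ = x * z * z ^ m := by rw [hgx', h2]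
          _ = x * z ^ (m + 1) := by rw [pow_succ', mul_assoc]
    have h3 := hpow (orderOf g)
    rw [pow_orderOf_eq_one, one_mul, inv_one, mul_one] at h3
    have h4 : z ^ orderOf g = 1 := by
      have := h3.symm
      rwa [mul_eq_left] at this
    obtain ⟨a, ha⟩ := (IsPGroup.iff_orderOf.mp hQ) ⟨z, hzQ⟩
    rw [Subgroup.orderOf_mk] at ha
    have h5 : orderOf z ∣ orderOf g := orderOf_dvd_of_pow_eq_one h4
    have h6 : Nat.Coprime (orderOf z) (orderOf g) := by
      rw [ha]; exact (Nat.Coprime.pow_left a hgp.symm)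
    have h7 : orderOf z = 1 := Nat.eq_one_of_dvd_coprimes h6 dvd_rfl h5
    rw [orderOf_eq_one_iff] at h7
    rw [hgx', h7, mul_one]
  have all : ∀ j, j ≤ n → ∀ x ∈ Q, x ∈ H.lowerCentralSeries (n - j) →
      g * x * g⁻¹ = x := by
    intro j
    induction j with
    | zero =>
      intro _ x _ hx
      rw [Nat.sub_zero, hn, Subgroup.mem_bot] at hx
      rw [hx]; group
    | succ j ih =>
      intro hj
      apply step
      have : n - (j + 1) + 1 = n - j := by omega
      rw [this]
      exact ih (by omega)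
  rw [Subgroup.mem_centralizer_iff]
  intro x hx
  have := all n le_rfl x hx (by
    rw [Nat.sub_self, Subgroup.lowerCentralSeries_zero]
    exact hQH hx)
  calc x * g = g * x * g⁻¹ * g := by rw [this]
    _ = g * x := by group

/-- A nilpotent Hall subgroup has a normal complement exactly when elements of it that are conjugate in the whole group are already conjugate inside it. -/
theorem result {G : Type*} [Group G] [Finite G] (H : Subgroup G) (hH : Group.IsNilpotent H) (hHall : Nat.Coprime (Nat.card H) H.index) : (∃ N : Subgroup G, N.Normal ∧ N.IsComplement' H) ↔ ∀ x ∈ H, ∀ y ∈ H, (∃ g : G, g * x * g⁻¹ = y) → ∃ h ∈ H, h * x * h⁻¹ = y := by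
  constructor
  · rintro ⟨N, hNn, hN⟩ x hx y hy ⟨g, hg⟩
    obtain ⟨⟨n, h⟩, hnh⟩ := (hN.existsUnique g).exists
    simp only at hnh
    refine ⟨h, h.2, ?_⟩
    have h1 : y * ((h : G) * x * (h : G)⁻¹)⁻¹ ∈ N := by
      have : y * ((h : G) * x * (h : G)⁻¹)⁻¹ =
          n * (((h : G) * x * (h : G)⁻¹) * (n : G)⁻¹ * ((h : G) * x * (h : G)⁻¹)⁻¹) := by
        rw [← hg, ← hnh]; group
      rw [this]
      exact N.mul_mem n.2 (hNn.conj_mem _ (N.inv_mem n.2) _)
    have h2 : y * ((h : G) * x * (h : G)⁻¹)⁻¹ ∈ H :=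
      H.mul_mem hy (H.inv_mem (H.mul_mem (H.mul_mem h.2 hx) (H.inv_mem h.2)))
    have h3 := Subgroup.disjoint_def.mp hN.disjoint h1 h2
    exact (mul_inv_eq_one.mp h3).symm
  · intro hf
    have hK : ∀ p : (Nat.card H).primeFactors, ∃ K : Subgroup G, K.Normal ∧
        K.index = (p : ℕ) ^ (Nat.card H).factorization p ∧ ¬ (p : ℕ) ∣ Nat.card K := by
      rintro ⟨p, hp⟩
      have hpp : p.Prime := Nat.prime_of_mem_primeFactors hp
      have : Fact p.Prime := ⟨hpp⟩
      have hpH : p ∣ Nat.card H := Nat.dvd_of_mem_primeFactors hp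
      obtain ⟨P0⟩ : Nonempty (Sylow p H) := inferInstance
      have hidx : ¬ p ∣ ((P0 : Subgroup H).map H.subtype).index := by
        rw [Subgroup.index_map_subtype, hpp.dvd_mul]
        rintro (h | h)
        · exact P0.not_dvd_index h
        · exact hpp.one_lt.ne' (Nat.eq_one_of_dvd_coprimes hHall hpH h)
      obtain ⟨P, hP⟩ : ∃ P : Sylow p G, (P : Subgroup G) = (P0 : Subgroup H).map H.subtype :=
        ⟨(P0.2.map H.subtype).toSylow hidx, IsPGroup.toSylow_coe _ _⟩
      have hPH : (P : Subgroup G) ≤ H := by rw [hP]; exact Subgroup.map_subtype_le _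
      obtain ⟨K, hKn, hKc⟩ := (Cfsg.Agent.S0071.result P).mpr (fun Q hQP g hg hgp =>
        frob_cond H hH hf p Q (hQP.trans hPH) (P.2.to_le hQP) g hg hgp)
      refine ⟨K, hKn, ?_, ?_⟩
      · rw [hKc.symm.index_eq_card, hP, Subgroup.card_map_of_injective H.subtype_injective,
          P0.card_eq_multiplicity]
      · rw [← hKc.index_eq_card]
        exact P.not_dvd_index
    choose K hKn hKi hKc using hK
    have hdisj : Disjoint (⨅ p, K p) H := by
      rw [Subgroup.disjoint_def]
      intro x hxN hxH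
      by_contra hx1
      have ho : orderOf x ≠ 1 := by rwa [Ne, orderOf_eq_one_iff]
      obtain ⟨p, hpp, hpx⟩ := Nat.exists_prime_and_dvd ho
      have h1 : orderOf x ∣ Nat.card H := by
        have := orderOf_dvd_natCard (⟨x, hxH⟩ : H)
        rwa [Subgroup.orderOf_mk] at this
      have hp : p ∈ (Nat.card H).primeFactors :=
        Nat.mem_primeFactors.mpr ⟨hpp, hpx.trans h1, Nat.card_pos.ne'⟩
      have hxK : x ∈ K ⟨p, hp⟩ := (Subgroup.mem_iInf.mp hxN) ⟨p, hp⟩
      have h2 : orderOf x ∣ Nat.card (K ⟨p, hp⟩) := by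
        have := orderOf_dvd_natCard (⟨x, hxK⟩ : K ⟨p, hp⟩)
        rwa [Subgroup.orderOf_mk] at this
      exact hKc ⟨p, hp⟩ (hpx.trans h2)
    refine ⟨⨅ p, K p, Subgroup.normal_iInf_normal hKn, ?_⟩
    apply Subgroup.isComplement'_of_card_mul_and_disjoint _ hdisj
    have hle : (⨅ p, K p).index ≤ Nat.card H := by
      refine (Subgroup.index_iInf_le K).trans (le_of_eq ?_)
      simp only [hKi]
      rw [Finset.prod_coe_sort (Nat.card H).primeFactors
        (fun p => p ^ (Nat.card H).factorization p)]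
      exact Nat.prod_factorization_pow_eq_self Nat.card_pos.ne'
    have h1 : Nat.card (⨅ p, K p : Subgroup G) * Nat.card H ≤ Nat.card G := by
      rw [← Nat.card_prod]
      exact Nat.card_le_card_of_injective _ (Subgroup.mul_injective_of_disjoint hdisj)
    have h2 := (⨅ p, K p).card_mul_index
    apply le_antisymm h1
    rw [← h2]
    exact Nat.mul_le_mul_left _ hle

end Cfsg.Agent.S0079
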