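import Cfsg.Statements.S0101
import Mathlib
import Cfsg.Agent.S0012
-- import your own Cfsg.Agent.* helpers here

set_option autoImplicit false
open Cfsg

namespace Cfsg.Agent.S0101

/-- a central element of a perfect finite group lying in a Sylow subgroup `P` lies in `P'`. -/
theorem central_mem_commutator {H : Type*} [Group H] [Finite H] (hH : commutator H = ⊤) {p : ℕ}
    [Fact p.Prime] (P : Sylow p H) (z : H) (hz : z ∈ Subgroup.center H) (hzP : z ∈ (P : Subgroup H)) :
    (⟨z, hzP⟩ : (P : Subgroup H)) ∈ commutator (P : Subgroup H) := by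
  let ϕ : (P : Subgroup H) →* Abelianization (P : Subgroup H) := Abelianization.of
  have h1 : MonoidHom.transfer ϕ z = 1 := by
    have : z ∈ (MonoidHom.transfer ϕ).ker :=
      Abelianization.commutator_subset_ker _ (by rw [hH]; trivial)
    exact this
  have key : ∀ (k : ℕ) (g₀ : H), g₀⁻¹ * z ^ k * g₀ ∈ (P : Subgroup H) → g₀⁻¹ * z ^ k * g₀ = z ^ k := by
    intro k g₀ _
    have hk : z ^ k ∈ Subgroup.center H := Subgroup.pow_mem _ hz k
    rw [mul_assoc, (Subgroup.mem_center_iff.mp hk g₀).symm, inv_mul_cancel_left]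
  rw [MonoidHom.transfer_eq_pow ϕ z key] at h1
  have h2 : (⟨z ^ (P : Subgroup H).index, MonoidHom.transfer_eq_pow_aux z key⟩ : (P : Subgroup H))
      ∈ commutator (P : Subgroup H) := by
    rw [← Abelianization.ker_of]
    exact h1
  set zP : (P : Subgroup H) := ⟨z, hzP⟩ with hzPdef
  have h3 : zP ^ (P : Subgroup H).index ∈ commutator (P : Subgroup H) := by
    have : zP ^ (P : Subgroup H).index = ⟨z ^ (P : Subgroup H).index, MonoidHom.transfer_eq_pow_aux z key⟩ :=
      Subtype.ext (by simp [hzPdef])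
    rw [this]; exact h2
  obtain ⟨j, hj⟩ := (IsPGroup.iff_orderOf.mp P.isPGroup') zP
  have hcop : Nat.Coprime (P : Subgroup H).index (orderOf zP) := by
    rw [hj]
    apply Nat.Coprime.pow_right
    exact ((Nat.Prime.coprime_iff_not_dvd Fact.out).mpr P.not_dvd_index).symm
  obtain ⟨m, hm⟩ := exists_pow_eq_self_of_coprime hcop
  rw [← hm]
  exact Subgroup.pow_mem _ h3 m

/-- In a perfect central extension, the kernel meets each Sylow p-subgroup P inside the Frattini subgroup of P. -/
theorem result {H : Type*} {G : Type*} [Group H] [Group G] [Finite H] (σ : H →* G) (hσ : Function.Surjective σ) (hc : σ.ker ≤ Subgroup.center H) (hH : commutator H = ⊤) {p : ℕ} [Fact p.Prime] (P : Sylow p H) : σ.ker ⊓ (P : Subgroup H) ≤ (frattini P).map (P : Subgroup H).subtype := by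
  intro z hz
  have hzP : z ∈ (P : Subgroup H) := hz.2
  have h := central_mem_commutator hH P z (hc hz.1) hzP
  exact ⟨⟨z, hzP⟩, (Cfsg.Agent.S0012.result p P.isPGroup').1 h, rfl⟩

end Cfsg.Agent.S0101
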