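import Cfsg.Statements.S0107
import Mathlib
import Cfsg.Agent.S0111
import Cfsg.Agent.Lib.Helper14.SylowConj
-- import your own Cfsg.Agent.* helpers here

set_option autoImplicit false
open Cfsg

namespace Cfsg.Agent.S0107

open DihedralGroup in
theorem r_invol_unique (n : ℕ) (hn : 1 ≤ n) (i : ZMod (2 ^ n)) (h : orderOf (r i) = 2) :
    i = ((2 ^ (n - 1) : ℕ) : ZMod (2 ^ n)) := by
  have : NeZero (2 ^ n) := ⟨by positivity⟩
  have h2 : (r i) ^ 2 = 1 := by
    have := pow_orderOf_eq_one (r i)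
    rwa [h] at this
  have h1 : r i ≠ 1 := by
    intro h1
    rw [h1, orderOf_one] at h
    omega
  rw [r_pow, one_def, r.injEq] at h2
  rw [one_def, Ne, r.injEq] at h1
  obtain ⟨m, rfl⟩ : ∃ m, n = m + 1 := ⟨n - 1, by omega⟩
  simp only [Nat.add_sub_cancel]
  have hv : ((i.val * 2 : ℕ) : ZMod (2 ^ (m + 1))) = 0 := by
    push_cast
    rw [ZMod.natCast_zmod_val]
    exact_mod_cast h2
  rw [ZMod.natCast_eq_zero_iff] at hv
  have hv' : 2 ^ m ∣ i.val := by
    have h3 : 2 ^ m * 2 ∣ i.val * 2 := by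
      have : 2 ^ m * 2 = 2 ^ (m + 1) := (pow_succ 2 m).symm
      rw [this]; exact hv
    exact Nat.dvd_of_mul_dvd_mul_right (by norm_num) h3
  obtain ⟨k, hk⟩ := hv'
  have hlt : i.val < 2 ^ (m + 1) := ZMod.val_lt i
  have hne : i.val ≠ 0 := by
    intro h0
    exact h1 ((ZMod.val_eq_zero i).mp h0)
  have hk1 : k = 1 := by
    have h4 : 2 ^ (m + 1) = 2 ^ m * 2 := pow_succ 2 m
    have hk2 : k < 2 := by
      by_contra hcon
      push Not at hcon
      have := Nat.mul_le_mul_left (2 ^ m) hcon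
      omega
    have hk0 : k ≠ 0 := by
      rintro rfl
      exact hne (by rw [hk, mul_zero])
    omega
  rw [hk1, mul_one] at hk
  rw [← hk, ZMod.natCast_zmod_val]

theorem no_index_two {G : Type*} [Group G] [Finite G] (hO : Cfsg.pResidual 2 G = ⊤) (M : Subgroup G)
    (hM : M.index = 2) : False := by
  have : Cfsg.pResidual 2 G ≤ M := by
    rw [Cfsg.pResidual, Subgroup.closure_le]
    intro g hg
    have hg' : Nat.Coprime 2 (orderOf g) := Nat.Coprime.symm hg
    obtain ⟨m, hm⟩ := exists_pow_eq_self_of_coprime hg'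
    rw [SetLike.mem_coe, ← hm]
    exact M.pow_mem (Subgroup.sq_mem_of_index_two hM g) m
  rw [hO, top_le_iff] at this
  rw [this, Subgroup.index_top] at hM
  omega

/-- A finite group with no nontrivial 2-group quotient and dihedral Sylow 2-subgroups of order at least 8 has a single class of involutions. -/
theorem result {G : Type*} [Group G] [Finite G] (T : Sylow 2 G) (n : ℕ) (hn : 2 ≤ n) (hT : Nonempty ((T : Subgroup G) ≃* DihedralGroup (2 ^ n))) (hO : Cfsg.pResidual 2 G = ⊤) (x y : G) (hx : orderOf x = 2) (hy : orderOf y = 2) : ∃ g : G, g * x * g⁻¹ = y := by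
  obtain ⟨e⟩ := hT
  let ι : DihedralGroup (2 ^ n) →* G := (T : Subgroup G).subtype.comp e.symm.toMonoidHom
  have hι : Function.Injective ι := by
    intro a b hab
    exact e.symm.injective (Subtype.ext hab)
  have hrange : ∀ t ∈ (T : Subgroup G), ∃ d, ι d = t := by
    intro t ht
    exact ⟨e ⟨t, ht⟩, by simp [ι]⟩
  have hmem : ∀ d, ι d ∈ (T : Subgroup G) := fun d => (e.symm d).2
  let C : Subgroup (DihedralGroup (2 ^ n)) := Subgroup.zpowers (DihedralGroup.r 1)
  let Q : Subgroup G := C.map ι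
  have hQT : Q ≤ (T : Subgroup G) := by
    rintro _ ⟨d, _, rfl⟩
    exact hmem d
  have hTmap : (T : Subgroup G) = (⊤ : Subgroup (DihedralGroup (2 ^ n))).map ι := by
    ext t
    constructor
    · intro ht
      obtain ⟨d, rfl⟩ := hrange t ht
      exact ⟨d, trivial, rfl⟩
    · rintro ⟨d, _, rfl⟩
      exact hmem d
  have hCi : C.index = 2 := by
    have h1 := Subgroup.card_mul_index C
    rw [Nat.card_zpowers, DihedralGroup.orderOf_r_one, DihedralGroup.nat_card, mul_comm] at h1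
    exact Nat.eq_of_mul_eq_mul_right (by positivity) h1
  have hQi : Q.relIndex (T : Subgroup G) = 2 := by
    rw [hTmap, Subgroup.relIndex_map_map_of_injective _ _ hι, Subgroup.relIndex_top_right, hCi]
  have hCmem : ∀ d ∈ C, ∃ i, d = DihedralGroup.r i := by
    rintro _ ⟨k, rfl⟩
    exact ⟨k, by simp⟩
  let z : G := ι (DihedralGroup.r ((2 ^ (n - 1) : ℕ) : ZMod (2 ^ n)))
  have hQz : ∀ t ∈ Q, orderOf t = 2 → t = z := by
    rintro _ ⟨d, hd, rfl⟩ ht
    obtain ⟨i, rfl⟩ := hCmem d hd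
    rw [orderOf_injective ι hι] at ht
    rw [r_invol_unique n (by omega) i ht]
  have key : ∀ x : G, orderOf x = 2 → ∃ g : G, g * x * g⁻¹ = z := by
    intro x hx
    have hp : IsPGroup 2 (Subgroup.zpowers x) :=
      Cfsg.Agent.Lib.Helper14.isPGroup_zpowers (k := 1) (by rw [pow_one, ← hx, pow_orderOf_eq_one])
    obtain ⟨g₁, hg₁⟩ := Cfsg.Agent.Lib.Helper14.exists_conj_mem_sylow T _ hp
    have ht := hg₁ x (Subgroup.mem_zpowers x)
    have hto : orderOf (g₁ * x * g₁⁻¹) = 2 := by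
      rw [← hx]
      exact orderOf_injective (MulAut.conj g₁).toMonoidHom (MulAut.conj g₁).injective x
    by_cases htQ : g₁ * x * g₁⁻¹ ∈ Q
    · exact ⟨g₁, hQz _ htQ hto⟩
    · rcases Cfsg.Agent.S0111.result T Q hQT hQi _ hto ht htQ with ⟨M, _, hM, _⟩ | ⟨g, hg⟩
      · exact (no_index_two hO M hM).elim
      · refine ⟨g * g₁, ?_⟩
        have hto' : orderOf (g * (g₁ * x * g₁⁻¹) * g⁻¹) = 2 := by
          rw [← hto]
          exact orderOf_injective (MulAut.conj g).toMonoidHom (MulAut.conj g).injective _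
        rw [← hQz _ hg hto']
        group
  obtain ⟨g, hg⟩ := key x hx
  obtain ⟨k, hk⟩ := key y hy
  refine ⟨k⁻¹ * g, ?_⟩
  have : y = k⁻¹ * z * k := by rw [← hk]; group
  rw [this, ← hg]
  group

end Cfsg.Agent.S0107
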