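import Cfsg.Statements.S0127
import Mathlib
import Cfsg.Agent.Lib.Helper14.Class2
-- import your own Cfsg.Agent.* helpers here

set_option autoImplicit false
open Cfsg

namespace Cfsg.Agent.S0127

open scoped commutatorElement

theorem nt {p : ℕ} [hpf : Fact p.Prime] (hp2 : p ≠ 2) (m k : ℕ) (hm : 1 ≤ m) (hk : 1 < k)
    (h : p ^ m ∣ k ^ p - 1) : p ∣ k - 1 ∧ p ^ (m - 1) ∣ k - 1 := by
  have hp : p.Prime := hpf.out
  have hodd : Odd p := hp.odd_of_ne_two hp2
  have h1 : p ∣ k ^ p - 1 := (dvd_pow_self p (by omega)).trans h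
  have hkp : 1 ≤ k ^ p := Nat.one_le_pow _ _ (by omega)
  have h2 : p ∣ k - 1 := by
    rw [← ZMod.natCast_eq_zero_iff] at h1 ⊢
    rw [Nat.cast_sub hkp] at h1
    rw [Nat.cast_sub hk.le]
    push_cast at h1 ⊢
    rwa [ZMod.pow_card] at h1
  have h3 : ¬ p ∣ k := by
    intro hd
    have h4 : p ∣ k ^ p := dvd_pow hd hp.ne_zero
    have h5 : p ∣ 1 := by
      have := (Nat.dvd_sub_iff_right hkp h4).mp h1
      exact this
    exact hp.one_lt.ne' (Nat.dvd_one.mp h5)
  refine ⟨h2, ?_⟩
  have hlte := padicValNat.pow_sub_pow hodd hk h2 h3 (n := p) hp.ne_zero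
  rw [one_pow, padicValNat_self] at hlte
  have hne : k ^ p - 1 ≠ 0 := by
    have : 1 < k ^ p := Nat.one_lt_pow hp.ne_zero hk
    omega
  have hne' : k - 1 ≠ 0 := by omega
  rw [padicValNat_dvd_iff_le hne, hlte] at h
  rw [padicValNat_dvd_iff_le hne']
  omega

/-- the centralizer of `a` modulo the normal subgroup `N`. -/
def centMod {R : Type*} [Group R] (N : Subgroup R) [N.Normal] (a : R) : Subgroup R :=
  (Subgroup.centralizer {QuotientGroup.mk' N a}).comap (QuotientGroup.mk' N)

theorem mem_centMod {R : Type*} [Group R] (N : Subgroup R) [N.Normal] (a g : R) :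
    g ∈ centMod N a ↔ ⁅a, g⁆ ∈ N := by
  rw [centMod, Subgroup.mem_comap, Subgroup.mem_centralizer_singleton_iff, ← QuotientGroup.eq_one_iff]
  have : ((⁅a, g⁆ : R) : R ⧸ N) = ⁅QuotientGroup.mk' N a, QuotientGroup.mk' N g⁆ :=
    map_commutatorElement (QuotientGroup.mk' N) a g
  rw [this, commutatorElement_eq_one_iff_mul_comm]
  exact eq_comm

/-- For odd p, in a non-cyclic p-group with a cyclic subgroup of index p, the elements of order dividing p generate an elementary abelian subgroup of order p^2. -/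
theorem result {R : Type*} [Group R] [Finite R] {p : ℕ} [Fact p.Prime] (hp : p ≠ 2) (hR : IsPGroup p R) (hnc : ¬ IsCyclic R) (C : Subgroup R) (hC : IsCyclic C) (hCi : C.index = p) : Cfsg.IsElementaryAbelian p (Subgroup.closure {x : R | x ^ p = 1}) ∧ Nat.card (Subgroup.closure {x : R | x ^ p = 1}) = p ^ 2 := by
  have hpp : p.Prime := Fact.out
  obtain ⟨⟨c, hcC⟩, hcgen⟩ := hC.exists_generator
  have hCc : C = Subgroup.zpowers c := by
    apply le_antisymm
    · intro y hy
      obtain ⟨k, hk⟩ := Subgroup.mem_zpowers_iff.mp (hcgen ⟨y, hy⟩)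
      have := congrArg Subtype.val hk
      exact ⟨k, by simpa using this⟩
    · rw [Subgroup.zpowers_le]; exact hcC
  subst hCc
  obtain ⟨m, hm⟩ := IsPGroup.iff_card.mp (hR.to_subgroup (Subgroup.zpowers c))
  have hord : orderOf c = p ^ m := by rw [← Nat.card_zpowers, hm]
  have hRcard : Nat.card R = p ^ (m + 1) := by
    rw [← Subgroup.card_mul_index (Subgroup.zpowers c), hm, hCi, pow_succ]
  have hm1 : 1 ≤ m := by
    by_contra hcon
    have : m = 0 := by omega
    subst this
    rw [zero_add, pow_one] at hRcard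
    exact hnc (isCyclic_of_prime_card hRcard)
  have hCn : (Subgroup.zpowers c).Normal := by
    apply Subgroup.normal_of_index_eq_minFac_card
    rw [hCi, hRcard, hpp.pow_minFac (by omega)]
  obtain ⟨x, hx⟩ : ∃ x, x ∉ Subgroup.zpowers c := by
    by_contra hcon
    push Not at hcon
    have : Subgroup.zpowers c = ⊤ := eq_top_iff.mpr (fun y _ => hcon y)
    rw [this, Subgroup.index_top] at hCi
    exact hpp.one_lt.ne hCi
  have htop : ∀ K : Subgroup R, c ∈ K → x ∈ K → K = ⊤ := by
    intro K hcK hxK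
    have hCK : Subgroup.zpowers c ≤ K := by rw [Subgroup.zpowers_le]; exact hcK
    have hd : K.index ∣ p := hCi ▸ Subgroup.index_dvd_of_le hCK
    rcases (Nat.dvd_prime hpp).mp hd with h1 | h1
    · exact Subgroup.index_eq_one.mp h1
    · exfalso
      apply hx
      have h2 := Subgroup.card_mul_index K
      have h3 := Subgroup.card_mul_index (Subgroup.zpowers c)
      rw [h1] at h2
      rw [hCi, ← h2] at h3
      have h4 := Nat.eq_of_mul_eq_mul_right hpp.pos h3
      rw [Subgroup.eq_of_le_of_card_ge hCK h4.ge]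
      exact hxK
  have hcpm : c ^ (p ^ m) = 1 := by rw [← hord, pow_orderOf_eq_one]
  obtain ⟨k, hk1, hk⟩ : ∃ k : ℕ, 1 < k ∧ c ^ k = x * c * x⁻¹ := by
    have h1 : x * c * x⁻¹ ∈ Subgroup.zpowers c := hCn.conj_mem c (Subgroup.mem_zpowers c) x
    rw [← mem_powers_iff_mem_zpowers] at h1
    obtain ⟨k₀, hk₀⟩ := h1
    refine ⟨k₀ + 2 * p ^ m, ?_, ?_⟩
    · have : 0 < p ^ m := pow_pos hpp.pos m
      omega
    · rw [pow_add, mul_comm 2, pow_mul, hcpm, one_pow, mul_one]
      exact hk₀
  have hconj : ∀ n : ℕ, x ^ n * c * (x ^ n)⁻¹ = c ^ (k ^ n) := by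
    intro n
    induction n with
    | zero => simp
    | succ n ih =>
      calc x ^ (n + 1) * c * (x ^ (n + 1))⁻¹ = x * (x ^ n * c * (x ^ n)⁻¹) * x⁻¹ := by
            rw [pow_succ']; group
        _ = x * c ^ (k ^ n) * x⁻¹ := by rw [ih]
        _ = (x * c * x⁻¹) ^ (k ^ n) := by rw [conj_pow]
        _ = c ^ (k ^ (n + 1)) := by rw [← hk, ← pow_mul, pow_succ']
  have hxp : x ^ p ∈ Subgroup.zpowers c := hCi ▸ Subgroup.pow_index_mem (Subgroup.zpowers c) x
  have hkp : c ^ (k ^ p) = c := by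
    rw [← hconj p]
    obtain ⟨j, hj⟩ := Subgroup.mem_zpowers_iff.mp hxp
    rw [← hj]
    group
  have hkp1 : 1 ≤ k ^ p := Nat.one_le_pow _ _ (by omega)
  have hdvd : p ^ m ∣ k ^ p - 1 := by
    rw [← hord]
    apply orderOf_dvd_of_pow_eq_one
    have : c ^ (k ^ p - 1) * c = c := by rw [← pow_succ, Nat.sub_add_cancel hkp1, hkp]
    exact mul_eq_right.mp this
  obtain ⟨hd1, hd2⟩ := nt hp m k hm1 hk1 hdvd
  set w := c ^ (k - 1) with hw
  have hwcomm : ⁅x, c⁆ = w := by
    rw [commutatorElement_def, ← hk, hw]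
    have : c ^ k = c ^ (k - 1) * c := by rw [← pow_succ, Nat.sub_add_cancel hk1.le]
    rw [this, mul_inv_cancel_right]
  have hpm : p ^ m = p ^ (m - 1) * p := by rw [← pow_succ, Nat.sub_add_cancel hm1]
  have hwp : w ^ p = 1 := by
    rw [hw, ← pow_mul]
    apply orderOf_dvd_iff_pow_eq_one.mp
    rw [hord, hpm]
    exact Nat.mul_dvd_mul_right hd2 p
  have hwc : w * c = c * w := by rw [hw, ← pow_succ, ← pow_succ']
  have hwx : w * x = x * w := by
    have h1 : x * w * x⁻¹ = w := by
      rw [hw, ← conj_pow, ← hk, ← pow_mul]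
      have h2 : k * (k - 1) = (k - 1) + (k - 1) * (k - 1) := by
        obtain ⟨j, rfl⟩ : ∃ j, k = j + 1 := ⟨k - 1, by omega⟩
        simp only [Nat.add_sub_cancel]; ring
      rw [h2, pow_add]
      have h3 : c ^ ((k - 1) * (k - 1)) = 1 := by
        apply orderOf_dvd_iff_pow_eq_one.mp
        rw [hord, hpm]
        exact Nat.mul_dvd_mul hd2 hd1
      rw [h3, mul_one]
    calc w * x = (x * w * x⁻¹) * x := by rw [h1]
      _ = x * w := by group
  have hwcen : w ∈ Subgroup.center R := by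
    have h1 := htop (Subgroup.centralizer {w})
      (Subgroup.mem_centralizer_singleton_iff.mpr hwc.symm)
      (Subgroup.mem_centralizer_singleton_iff.mpr hwx.symm)
    rw [Subgroup.mem_center_iff]
    intro g
    have : g ∈ Subgroup.centralizer {w} := h1 ▸ Subgroup.mem_top g
    exact Subgroup.mem_centralizer_singleton_iff.mp this
  set W₀ := Subgroup.zpowers w with hW₀
  have hWc : W₀ ≤ Subgroup.center R := by rw [hW₀, Subgroup.zpowers_le]; exact hwcen
  have hWn : W₀.Normal := by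
    refine ⟨fun y hy g => ?_⟩
    rw [Subgroup.mem_center_iff.mp (hWc hy) g, mul_inv_cancel_right]
    exact hy
  have hWp : ∀ y ∈ W₀, y ^ p = 1 := by
    rintro _ ⟨j, rfl⟩
    show (w ^ j) ^ p = 1
    rw [← zpow_natCast, ← zpow_mul, mul_comm, zpow_mul, zpow_natCast, hwp, one_zpow]
  have hwW : w ∈ W₀ := Subgroup.mem_zpowers w
  have hcK : c ∈ Subgroup.upperCentralSeriesStep W₀ := by
    intro g
    have h1 := htop (centMod W₀ c) ((mem_centMod W₀ c c).mpr (by simp))
      ((mem_centMod W₀ c x).mpr (by rw [← commutatorElement_inv, hwcomm]; exact W₀.inv_mem hwW))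
    exact (mem_centMod W₀ c g).mp (h1 ▸ Subgroup.mem_top g)
  have hxK : x ∈ Subgroup.upperCentralSeriesStep W₀ := by
    intro g
    have h1 := htop (centMod W₀ x) ((mem_centMod W₀ x c).mpr (by rw [hwcomm]; exact hwW))
      ((mem_centMod W₀ x x).mpr (by simp))
    exact (mem_centMod W₀ x g).mp (h1 ▸ Subgroup.mem_top g)
  have hKtop := htop _ hcK hxK
  have hcomW : ∀ a b : R, ⁅a, b⁆ ∈ W₀ := by
    intro a b
    have : a ∈ Subgroup.upperCentralSeriesStep W₀ := hKtop ▸ Subgroup.mem_top a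
    exact this b
  have hmul : ∀ a b : R, (a * b) ^ p = a ^ p * b ^ p := fun a b =>
    Cfsg.Agent.Lib.Helper14.mul_pow_prime_class2 hpp hp a b (hWc (hcomW b a)) (hWp _ (hcomW b a))
  let f : R →* R :=
    { toFun := fun y => y ^ p
      map_one' := one_pow p
      map_mul' := hmul }
  have hker : Subgroup.closure {y : R | y ^ p = 1} = f.ker := by
    apply le_antisymm
    · rw [Subgroup.closure_le]
      intro y hy
      exact hy
    · intro y hy
      exact Subgroup.subset_closure hy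
  have hcardkr : Nat.card f.ker * Nat.card f.range = p ^ (m + 1) := by
    rw [← Subgroup.index_ker, Subgroup.card_mul_index, hRcard]
  have hrC : f.range ≤ Subgroup.zpowers c := by
    rintro _ ⟨y, rfl⟩
    show y ^ p ∈ Subgroup.zpowers c
    exact hCi ▸ Subgroup.pow_index_mem (Subgroup.zpowers c) y
  obtain ⟨j, hjm, hj⟩ := (Nat.dvd_prime_pow hpp).mp (hm ▸ Subgroup.card_dvd_of_le hrC)
  have hjne : j ≠ m := by
    rintro rfl
    have heq : f.range = Subgroup.zpowers c := Subgroup.eq_of_le_of_card_ge hrC (by rw [hm, hj])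
    have hcr : c ∈ f.range := heq ▸ Subgroup.mem_zpowers c
    obtain ⟨y, hy⟩ := hcr
    have hy' : y ^ p = c := hy
    obtain ⟨i, hi, hi2⟩ := (Nat.dvd_prime_pow hpp).mp (hRcard ▸ orderOf_dvd_natCard y)
    have hi3 : i = j + 1 := by
      by_contra hcon
      have hij : i ≤ j := by omega
      have h1 : y ^ (p ^ j) = 1 := by
        apply orderOf_dvd_iff_pow_eq_one.mp
        rw [hi2]; exact pow_dvd_pow p hij
      have h2 : c ^ (p ^ (j - 1)) = 1 := by
        rw [← hy', ← pow_mul, ← pow_succ', Nat.sub_add_cancel hm1, h1]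
      have h3 := orderOf_dvd_of_pow_eq_one h2
      rw [hord] at h3
      have h4 := (Nat.pow_dvd_pow_iff_le_right hpp.one_lt).mp h3
      omega
    exact hnc (isCyclic_of_orderOf_eq_card y (by rw [hi2, hi3, hRcard]))
  have hjge : m - 1 ≤ j := by
    have h1 : Subgroup.zpowers (c ^ p) ≤ f.range := by
      rw [Subgroup.zpowers_le]; exact ⟨c, rfl⟩
    have h2 := Subgroup.card_le_of_le h1
    rw [Nat.card_zpowers, orderOf_pow_of_dvd hpp.ne_zero (by rw [hord]; exact dvd_pow_self p (by omega)),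
      hord, hj, hpm, Nat.mul_div_cancel _ hpp.pos] at h2
    exact (Nat.pow_le_pow_iff_right hpp.one_lt).mp h2
  have hjeq : j = m - 1 := by omega
  have hkcard : Nat.card f.ker = p ^ 2 := by
    rw [hj, hjeq] at hcardkr
    have h1 : p ^ (m + 1) = p ^ 2 * p ^ (m - 1) := by rw [← pow_add]; congr 1; omega
    rw [h1] at hcardkr
    exact Nat.eq_of_mul_eq_mul_right (pow_pos hpp.pos _) hcardkr
  rw [hker]
  exact ⟨⟨IsPGroup.isMulCommutative_of_card_eq_prime_sq hkcard, fun a ha => ha⟩, hkcard⟩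

end Cfsg.Agent.S0127
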