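import Cfsg.Statements.S0126
import Mathlib
import Cfsg.Agent.S0127
import Cfsg.Agent.S0130
import Cfsg.Agent.Lib.Helper14.NormalChain
-- import your own Cfsg.Agent.* helpers here

set_option autoImplicit false
open Cfsg

namespace Cfsg.Agent.S0126

universe u

/-- For odd `p`, a `p`-group all of whose elementary abelian subgroups have order at most `p` is
cyclic. -/
theorem cyclic_of_rank_one {p : ℕ} [Fact p.Prime] (hp : p ≠ 2) (n : ℕ) :
    ∀ (R : Type u) [Group R] [Finite R], Nat.card R = p ^ n →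
      (∀ E : Subgroup R, Cfsg.IsElementaryAbelian p E → Nat.card E ≤ p) → IsCyclic R := by
  have hpp : p.Prime := Fact.out
  induction n with
  | zero =>
    intro R _ _ hR _
    rw [pow_zero] at hR
    have : Subsingleton R := (Nat.card_eq_one_iff_unique.mp hR).1
    infer_instance
  | succ n ih =>
    intro R _ _ hR hE
    have hRp : IsPGroup p R := IsPGroup.of_card hR
    obtain ⟨M, hMn, -, hMc⟩ := Cfsg.Agent.Lib.Helper14.exists_normal_le_card p hRp ⊤ n (by
      rw [Subgroup.card_top, hR]; exact Nat.pow_le_pow_right hpp.pos (Nat.le_succ n))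
    have hMcyc : IsCyclic M := by
      apply ih M hMc
      intro E hEl
      have h1 : Cfsg.IsElementaryAbelian p (E.map M.subtype) := by
        refine ⟨⟨⟨?_⟩⟩, ?_⟩
        · rintro ⟨_, a, ha, rfl⟩ ⟨_, b, hb, rfl⟩
          apply Subtype.ext
          have := hEl.1.is_comm.comm ⟨a, ha⟩ ⟨b, hb⟩
          exact congrArg (fun t : E => ((t : M) : R)) this
        · rintro _ ⟨a, ha, rfl⟩
          have := hEl.2 a ha
          exact congrArg Subtype.val this
      have h2 := hE _ h1
      rwa [Subgroup.card_map_of_injective M.subtype_injective] at h2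
    have hMi : M.index = p := by
      have h1 := Subgroup.card_mul_index M
      rw [hMc, hR, pow_succ] at h1
      exact Nat.eq_of_mul_eq_mul_left (pow_pos hpp.pos n) h1
    by_contra hnc
    obtain ⟨h1, h2⟩ := Cfsg.Agent.S0127.result hp hRp hnc M hMcyc hMi
    have h3 := hE _ h1
    rw [h2] at h3
    have : p < p ^ 2 := by
      calc p = p ^ 1 := (pow_one p).symm
        _ < p ^ 2 := Nat.pow_lt_pow_right hpp.one_lt (by norm_num)
    omega

/-- For odd p, every non-cyclic p-group contains a normal elementary abelian subgroup of order p^2. -/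
theorem result {R : Type*} [Group R] [Finite R] {p : ℕ} [Fact p.Prime] (hp : p ≠ 2) (hR : IsPGroup p R) (hnc : ¬ IsCyclic R) : ∃ A : Subgroup R, A.Normal ∧ Cfsg.IsElementaryAbelian p A ∧ Nat.card A = p ^ 2 := by
  have hpp : p.Prime := Fact.out
  obtain ⟨A, -, hAmax⟩ := (Set.toFinite {A : Subgroup R | A.Normal ∧ IsMulCommutative A ∧ ∀ a ∈ A, a ^ p = 1}).exists_le_maximal
    (a := ⊥) ⟨inferInstance, inferInstance, by simp⟩
  obtain ⟨hAn, hAc, hAe⟩ := hAmax.prop
  have hAcomm : ∀ a ∈ A, ∀ b ∈ A, a * b = b * a := fun a ha b hb =>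
    congrArg Subtype.val (hAc.is_comm.comm ⟨a, ha⟩ ⟨b, hb⟩)
  by_cases h2 : p ^ 2 ≤ Nat.card A
  · obtain ⟨B, hBn, hBA, hBc⟩ := Cfsg.Agent.Lib.Helper14.exists_normal_le_card p hR A 2 h2
    exact ⟨B, hBn, ⟨⟨⟨fun x y => Subtype.ext (hAcomm x (hBA x.2) y (hBA y.2))⟩⟩,
      fun b hb => hAe b (hBA hb)⟩, hBc⟩
  · exfalso
    apply hnc
    obtain ⟨a, ha⟩ := IsPGroup.iff_card.mp (hR.to_subgroup A)
    have ha1 : a ≤ 1 := by
      by_contra hcon
      apply h2
      rw [ha]; exact Nat.pow_le_pow_right hpp.pos (by omega)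
    have hAle : Nat.card A ≤ p := by
      rw [ha]
      calc p ^ a ≤ p ^ 1 := Nat.pow_le_pow_right hpp.pos ha1
        _ = p := pow_one p
    have hAcen : A ≤ Subgroup.center R := by
      by_cases hbot : A = ⊥
      · rw [hbot]; exact bot_le
      · obtain ⟨z, hzA, hz1, hzc, hzp⟩ := Cfsg.Agent.Lib.Helper14.exists_central_order_p p hR A hbot
        have h3 : Subgroup.zpowers z = A := by
          apply Subgroup.eq_of_le_of_card_ge (by rw [Subgroup.zpowers_le]; exact hzA)
          rw [Nat.card_zpowers, orderOf_eq_prime hzp hz1]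
          exact hAle
        rw [← h3, Subgroup.zpowers_le]
        exact hzc
    have hΩ : ∀ x : R, x ^ p = 1 → x ∈ A := by
      intro x hxp
      apply Cfsg.Agent.S0130.result hR 1 (by rw [pow_one]; exact hp) A hAc
        (by intro a ha; rw [pow_one]; exact hAe a ha) _ x _ (by rw [pow_one]; exact hxp)
      · intro B hBn hBc hBe hAB
        exact (le_antisymm (hAmax.le_of_ge ⟨hBn, hBc, fun b hb => by simpa using hBe b hb⟩ hAB) hAB)
      · intro b hb
        exact (Subgroup.mem_center_iff.mp (hAcen hb) x).symm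
    obtain ⟨n, hn⟩ := IsPGroup.iff_card.mp hR
    apply cyclic_of_rank_one hp n R hn
    intro E hE
    exact (Subgroup.card_le_of_le (fun e he => hΩ e (hE.2 e he))).trans hAle

end Cfsg.Agent.S0126
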