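import Cfsg.Statements.S0132
import Cfsg.Agent.Lib.Helper2.GrpNil
import Cfsg.Agent.S0071

set_option autoImplicit false
open Cfsg

namespace Cfsg.Agent.S0132

/-- A minimal non-p-nilpotent finite group is a minimal non-nilpotent group with a normal Sylow p-subgroup. -/
theorem result {G : Type*} [Group G] [Finite G] {p : ℕ} [Fact p.Prime] (h1 : ¬ Cfsg.HasNormalPComplement p G) (h2 : ∀ H : Subgroup G, H ≠ ⊤ → Cfsg.HasNormalPComplement p H) : (∀ H : Subgroup G, H ≠ ⊤ → Group.IsNilpotent H) ∧ ¬ Group.IsNilpotent G ∧ ∀ P : Sylow p G, (P : Subgroup G).Normal := by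
  classical
  have hp : p.Prime := Fact.out
  obtain ⟨P⟩ : Nonempty (Sylow p G) := inferInstance
  have hF : ¬ ∀ Q : Subgroup G, Q ≤ (P : Subgroup G) → ∀ g ∈ Subgroup.normalizer (Q : Set G),
      Nat.Coprime (orderOf g) p → g ∈ Subgroup.centralizer (Q : Set G) := by
    intro h
    obtain ⟨N, hN, hc⟩ := (Cfsg.Agent.S0071.result P).2 h
    exact h1 ⟨P, N, hN, hc⟩
  push Not at hF
  obtain ⟨Q, hQP, g, hgN, hgo, hgC⟩ := hF
  have hQp : IsPGroup p Q := P.2.to_le hQP
  set K := Q ⊔ Subgroup.zpowers g with hKdef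
  have hQK : Q ≤ K := le_sup_left
  have hgK : g ∈ K := (le_sup_right : Subgroup.zpowers g ≤ K) (Subgroup.mem_zpowers g)
  have hK : K = ⊤ := by
    by_contra hne
    obtain ⟨PK, N, hN, hc⟩ := h2 K hne
    have hQ' : IsPGroup p (Q.subgroupOf K) := hQp.comap_subtype
    have hg' : (⟨g, hgK⟩ : K) ∈ Subgroup.normalizer ((Q.subgroupOf K : Subgroup K) : Set K) := by
      rw [Subgroup.mem_normalizer_iff]
      intro h
      rw [Subgroup.mem_subgroupOf, Subgroup.mem_subgroupOf]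
      exact Subgroup.mem_normalizer_iff.1 hgN h
    have hgo' : (orderOf (⟨g, hgK⟩ : K)).Coprime p := by
      rw [← Subgroup.orderOf_coe]; exact hgo
    have := Cfsg.Agent.Lib.Helper13.centralizes_of_npc N
      (Cfsg.Agent.Lib.Helper13.card_coprime_of_isComplement' hc)
      (Cfsg.Agent.Lib.Helper13.isPGroup_quotient_of_isComplement' hc) (Q.subgroupOf K) hQ' _ hg' hgo'
    apply hgC
    rw [Subgroup.mem_centralizer_iff] at this ⊢
    intro q hq
    have h3 := this ⟨q, hQK hq⟩ (by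
      show (⟨q, hQK hq⟩ : K) ∈ Q.subgroupOf K
      rw [Subgroup.mem_subgroupOf]; exact hq)
    exact congrArg Subtype.val h3
  have hQn : Q.Normal := by
    rw [← Subgroup.normalizer_eq_top_iff, eq_top_iff, ← hK]
    exact sup_le Subgroup.le_normalizer (Subgroup.zpowers_le.2 hgN)
  have hcyc : ∀ a : G, ∃ k : ℤ, QuotientGroup.mk' Q a = (QuotientGroup.mk' Q g) ^ k := by
    intro a
    have ha : a ∈ ((Q ⊔ Subgroup.zpowers g : Subgroup G) : Set G) := by
      show a ∈ K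
      rw [hK]; exact Subgroup.mem_top a
    rw [Subgroup.normal_mul] at ha
    obtain ⟨q, hq, b, hb, rfl⟩ := Set.mem_mul.1 ha
    obtain ⟨k, rfl⟩ := Subgroup.mem_zpowers_iff.1 hb
    refine ⟨k, ?_⟩
    have hq1 : QuotientGroup.mk' Q q = 1 := (QuotientGroup.eq_one_iff q).2 hq
    rw [map_mul, map_zpow, hq1, one_mul]
  have hab : ∀ a b : G, a * b * a⁻¹ * b⁻¹ ∈ Q := by
    intro a b
    rw [← QuotientGroup.eq_one_iff]
    show QuotientGroup.mk' Q (a * b * a⁻¹ * b⁻¹) = 1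
    obtain ⟨i, hi⟩ := hcyc a
    obtain ⟨j, hj⟩ := hcyc b
    rw [map_mul, map_mul, map_mul, map_inv, map_inv, hi, hj, ← zpow_add, add_comm, zpow_add,
      mul_inv_cancel_right, mul_inv_cancel]
  have hpQ : ∀ x : G, (∃ m : ℕ, x ^ p ^ m = 1) → x ∈ Q := by
    rintro x ⟨m, hm⟩
    rw [← QuotientGroup.eq_one_iff]
    show QuotientGroup.mk' Q x = 1
    obtain ⟨k, hk⟩ := hcyc x
    have h3 : orderOf (QuotientGroup.mk' Q x) ∣ p ^ m := by
      apply orderOf_dvd_of_pow_eq_one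
      rw [← map_pow, hm, map_one]
    have h4 : orderOf (QuotientGroup.mk' Q x) ∣ orderOf g := by
      apply orderOf_dvd_of_pow_eq_one
      rw [hk, ← zpow_natCast, ← zpow_mul, mul_comm, zpow_mul, zpow_natCast, ← map_pow,
        pow_orderOf_eq_one, map_one, one_zpow]
    have h5 := Nat.dvd_gcd h4 h3
    rw [Nat.Coprime.pow_right m hgo] at h5
    exact orderOf_eq_one_iff.1 (Nat.dvd_one.1 h5)
  refine ⟨?_, ?_, ?_⟩
  · intro H hH
    obtain ⟨PH, N, hN, hc⟩ := h2 H hH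
    have hq := Cfsg.Agent.Lib.Helper13.isPGroup_quotient_of_isComplement' hc
    have hNc := Cfsg.Agent.Lib.Helper13.card_coprime_of_isComplement' hc
    have hqn : Group.IsNilpotent (H ⧸ N) := hq.isNilpotent
    apply Subgroup.isNilpotent_of_ker_le_center (QuotientGroup.mk' N)
    rw [QuotientGroup.ker_mk']
    intro a ha
    rw [Subgroup.mem_center_iff]
    intro h
    have hcN : a * h * a⁻¹ * h⁻¹ ∈ N := by
      have : a * h * a⁻¹ * h⁻¹ = a * (h * a⁻¹ * h⁻¹) := by group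
      rw [this]
      exact N.mul_mem ha (hN.conj_mem _ (N.inv_mem ha) h)
    have hcQ : ((a * h * a⁻¹ * h⁻¹ : H) : G) ∈ Q := hab a h
    obtain ⟨m, hm⟩ := hQp ⟨_, hcQ⟩
    have hm' : (a * h * a⁻¹ * h⁻¹) ^ p ^ m = 1 := by
      have := congrArg Subtype.val hm
      exact Subtype.ext this
    have h3 : orderOf (a * h * a⁻¹ * h⁻¹) ∣ p ^ m := orderOf_dvd_of_pow_eq_one hm'
    have h4 : orderOf (a * h * a⁻¹ * h⁻¹) ∣ Nat.card N := by
      have := orderOf_dvd_natCard (⟨_, hcN⟩ : N)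
      rwa [← Subgroup.orderOf_coe] at this
    have h5 := Nat.dvd_gcd h4 h3
    rw [Nat.Coprime.pow_right m hNc] at h5
    have h6 := orderOf_eq_one_iff.1 (Nat.dvd_one.1 h5)
    calc h * a = (a * h * a⁻¹ * h⁻¹)⁻¹ * (a * h) := by group
      _ = a * h := by rw [h6]; group
  · intro hnil
    apply hgC
    rw [Subgroup.mem_centralizer_iff]
    intro q hq
    obtain ⟨m, hm⟩ := IsPGroup.iff_orderOf.1 hQp ⟨q, hq⟩
    rw [← Subgroup.orderOf_coe] at hm
    apply Cfsg.Agent.Lib.Helper2.commute_of_coprime_of_isNilpotent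
    show (orderOf q).Coprime (orderOf g)
    rw [hm]
    exact (Nat.Coprime.pow_right m hgo).symm
  · intro P'
    have h3 : (P' : Subgroup G) ≤ Q := by
      intro x hx
      obtain ⟨m, hm⟩ := P'.2 ⟨x, hx⟩
      exact hpQ x ⟨m, congrArg Subtype.val hm⟩
    have h4 := P'.3 hQp h3
    rw [← h4]; exact hQn

end Cfsg.Agent.S0132
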