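import Cfsg.Statements.S0201
import Cfsg.Agent.Lib.Lead.ZS10
import Cfsg.Agent.S0218

set_option autoImplicit false
open Cfsg

namespace Cfsg.Agent.S0201

theorem quat_central_sq (m : ℕ) (hm : 2 ≤ m) (x : QuaternionGroup m) (hx : ∀ y, x * y = y * x) :
    x * x = 1 := by
  rcases x with i | i
  · have h := hx (QuaternionGroup.xa 0)
    rw [QuaternionGroup.a_mul_xa, QuaternionGroup.xa_mul_a] at h
    have h2 : (0 : ZMod (2 * m)) - i = 0 + i := QuaternionGroup.xa.inj h
    rw [QuaternionGroup.a_mul_a, QuaternionGroup.one_def]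
    congr 1
    linear_combination -h2
  · exfalso
    have h := hx (QuaternionGroup.a 1)
    rw [QuaternionGroup.a_mul_xa, QuaternionGroup.xa_mul_a] at h
    have h2 : i + 1 = i - 1 := QuaternionGroup.xa.inj h
    have h3 : ((2 : ℕ) : ZMod (2 * m)) = 0 := by
      push_cast
      linear_combination h2
    rw [ZMod.natCast_eq_zero_iff] at h3
    have := Nat.le_of_dvd (by norm_num) h3
    omega

/-- Brauer–Suzuki Theorem: if a Sylow 2-subgroup of a finite group is generalized quaternion (of order at least 8) and the group has no nontrivial normal subgroup of odd order, then its centre has order 2. -/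
theorem result {G : Type*} [Group G] [Finite G] (S : Sylow 2 G) (n : ℕ) (e : (S : Subgroup G) ≃* QuaternionGroup (2 ^ (n + 1))) (hO : ∀ N : Subgroup G, N.Normal → Odd (Nat.card N) → N = ⊥) : Nat.card (Subgroup.center G) = 2 := by
  haveI : Fact (Nat.Prime 2) := ⟨Nat.prime_two⟩
  have hc1 := Cfsg.Agent.S0218.result n
  rw [Nat.card_eq_one_iff_unique] at hc1
  obtain ⟨hsub, ⟨⟨z0, hz0⟩⟩⟩ := hc1
  have huq : ∀ x : QuaternionGroup (2 ^ (n + 1)), orderOf x = 2 → x = z0 := by
    intro x hx
    have := hsub.elim (⟨x, hx⟩ : {x : QuaternionGroup (2 ^ (n + 1)) // orderOf x = 2}) ⟨z0, hz0⟩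
    exact congrArg Subtype.val this
  set z : G := ((e.symm z0 : (S : Subgroup G)) : G) with hz
  have hzS : z ∈ S := (e.symm z0).2
  have hzo : orderOf z = 2 := by
    rw [hz, Subgroup.orderOf_coe, MulEquiv.orderOf_eq, hz0]
  have huS : ∀ s : G, s ∈ S → orderOf s = 2 → s = z := by
    intro s hs hso
    have h1 : orderOf (e ⟨s, hs⟩) = 2 := by rw [MulEquiv.orderOf_eq, Subgroup.orderOf_mk, hso]
    have h2 := huq _ h1
    have h3 : (⟨s, hs⟩ : (S : Subgroup G)) = e.symm z0 := by rw [← h2, MulEquiv.symm_apply_apply]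
    exact congrArg Subtype.val h3
  have hiso : ∀ g : G, g * z * g⁻¹ ∈ S → g * z * g⁻¹ = z := by
    intro g hg
    apply huS _ hg
    have := (MulAut.conj g).orderOf_eq z
    rw [MulAut.conj_apply] at this
    rw [this, hzo]
  obtain ⟨N, hN, hodd, hcomm⟩ := Cfsg.Agent.Lib.Lead.zstar' (Cfsg.Agent.Lib.Lead.isoInv_of_sylow S z hzo hzS hiso)
  have hNbot := hO N hN hodd
  have hzc : z ∈ Subgroup.center G := by
    rw [Subgroup.mem_center_iff]
    intro g
    have := hcomm g
    rw [hNbot, Subgroup.mem_bot] at this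
    have h2 : z * g = g * z := by
      calc z * g = (z * g * z⁻¹ * g⁻¹) * (g * z) := by group
        _ = g * z := by rw [this, one_mul]
    exact h2.symm
  have hnorm : ∀ x : G, x ∈ Subgroup.center G → (Subgroup.zpowers x).Normal := by
    intro x hx
    refine ⟨?_⟩
    rintro _ ⟨k, rfl⟩ y
    have h1 : x ^ k ∈ Subgroup.center G := (Subgroup.center G).zpow_mem hx k
    have := (Subgroup.mem_center_iff.mp h1) y
    simp only
    rw [this, mul_assoc, mul_inv_cancel, mul_one]
    exact ⟨k, rfl⟩
  have hcen : ∀ x : G, x ∈ Subgroup.center G → x = 1 ∨ x = z := by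
    intro x hx
    -- x is a 2-element
    obtain ⟨k, r, hr, hkr⟩ := Nat.exists_eq_two_pow_mul_odd (orderOf_pos x).ne'
    have hy : x ^ 2 ^ k = 1 := by
      have h1 : x ^ 2 ^ k ∈ Subgroup.center G := (Subgroup.center G).pow_mem hx _
      have h2 : orderOf (x ^ 2 ^ k) = r := by
        rw [orderOf_pow_of_dvd (by positivity) (by rw [hkr]; exact Dvd.intro _ rfl), hkr]
        exact Nat.mul_div_cancel_left r (by positivity)
      have h3 := hO _ (hnorm _ h1) (by rw [Nat.card_zpowers, h2]; exact hr)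
      have : x ^ 2 ^ k ∈ Subgroup.zpowers (x ^ 2 ^ k) := Subgroup.mem_zpowers _
      rw [h3, Subgroup.mem_bot] at this
      exact this
    have hp : IsPGroup 2 (Subgroup.zpowers x) := by
      have hd : orderOf x ∣ 2 ^ k := orderOf_dvd_of_pow_eq_one hy
      obtain ⟨j, -, hj⟩ := (Nat.dvd_prime_pow Nat.prime_two).mp hd
      apply IsPGroup.of_card (n := j)
      rw [Nat.card_zpowers, hj]
    obtain ⟨Q, hQ⟩ := hp.exists_le_sylow
    obtain ⟨c, rfl⟩ := MulAction.exists_smul_eq G S Q
    have hxQ : x ∈ (c • S : Sylow 2 G) := hQ (Subgroup.mem_zpowers x)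
    rw [Cfsg.Agent.Lib.Lead.mem_sylow_smul_iff] at hxQ
    have hxS : x ∈ S := by
      have h1 := (Subgroup.mem_center_iff.mp hx) c
      have : c⁻¹ * x * c = x := by rw [mul_assoc, ← h1, ← mul_assoc, inv_mul_cancel, one_mul]
      rwa [this] at hxQ
    have hsq : e ⟨x, hxS⟩ * e ⟨x, hxS⟩ = 1 := by
      apply quat_central_sq (2 ^ (n + 1)) (by
        calc 2 = 2 ^ 1 := by norm_num
          _ ≤ 2 ^ (n + 1) := Nat.pow_le_pow_right (by norm_num) (by omega))
      intro y
      obtain ⟨w, rfl⟩ := e.surjective y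
      rw [← map_mul, ← map_mul]
      congr 1
      apply Subtype.ext
      exact ((Subgroup.mem_center_iff.mp hx) (w : G)).symm
    have hsq' : x * x = 1 := by
      rw [← map_mul] at hsq
      have h1 : (⟨x, hxS⟩ : (S : Subgroup G)) * ⟨x, hxS⟩ = 1 := by
        apply e.injective; rw [hsq, map_one]
      exact congrArg Subtype.val h1
    by_cases hx1 : x = 1
    · exact Or.inl hx1
    · exact Or.inr (huS x hxS (orderOf_eq_prime (by rw [pow_two, hsq']) hx1))
  have : Subgroup.center G = Subgroup.zpowers z := by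
    apply le_antisymm
    · intro x hx
      rcases hcen x hx with rfl | rfl
      · exact one_mem _
      · exact Subgroup.mem_zpowers _
    · rw [Subgroup.zpowers_le]; exact hzc
  rw [this, Nat.card_zpowers, hzo]

end Cfsg.Agent.S0201
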