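import Cfsg.Statements.S0254
import Mathlib
import Cfsg.Agent.Lib.Helper21.AltPres
import Cfsg.Agent.Lib.Helper27.PSL2Invol

set_option autoImplicit false
open Cfsg

namespace Cfsg.Agent.S0254

open Cfsg.Agent.S3335 Cfsg.Agent.Lib.Helper21.AltPres

abbrev K := QuadraticAlgebra (ZMod 3) (-1) 0

def M : Fin 4 → Matrix (Fin 2) (Fin 2) K :=
  ![!![⟨0, 0⟩, ⟨0, 1⟩; ⟨0, 1⟩, ⟨1, 0⟩],
    !![⟨0, 0⟩, ⟨0, 1⟩; ⟨0, 1⟩, ⟨0, 0⟩],
    !![⟨1, 0⟩, ⟨1, 1⟩; ⟨2, 1⟩, ⟨2, 0⟩],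
    !![⟨0, 0⟩, ⟨1, 0⟩; ⟨2, 0⟩, ⟨0, 0⟩]]

set_option maxRecDepth 100000 in
lemma Mdet : ∀ i : Fin 4, (M i).det = 1 := by decide

set_option maxRecDepth 100000 in
lemma M3 : ∀ i : Fin 4, i.val = 0 → (M i ^ 3 = 1 ∨ M i ^ 3 = -1) := by decide

set_option maxRecDepth 100000 in
lemma M2 : ∀ i : Fin 4, 1 ≤ i.val → (M i ^ 2 = 1 ∨ M i ^ 2 = -1) := by decide

set_option maxRecDepth 100000 in
lemma Mb : ∀ i j : Fin 4, j.val = i.val + 1 →
    ((M i * M j) ^ 3 = 1 ∨ (M i * M j) ^ 3 = -1) := by decide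

set_option maxRecDepth 100000 in
lemma Mc : ∀ i j : Fin 4, i.val + 1 < j.val →
    ((M i * M j) ^ 2 = 1 ∨ (M i * M j) ^ 2 = -1) := by decide

set_option maxRecDepth 100000 in
lemma Mnc1 : (M 0 * M 1) 0 1 = 0 := by decide

set_option maxRecDepth 100000 in
lemma Mnc2 : (M 1 * M 0) 0 1 * (M 1 * M 0) 0 1 = -1 := by decide

def f (i : Fin 4) : Matrix.SpecialLinearGroup (Fin 2) K := ⟨M i, Mdet i⟩

section
variable {F : Type*} [Field F] (ψ : K →+* F)

/-- the composite map to `PSL₂` -/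
noncomputable def Pi : Matrix.SpecialLinearGroup (Fin 2) K →*
    Matrix.ProjectiveSpecialLinearGroup (Fin 2) F :=
  (QuotientGroup.mk' (Subgroup.center (Matrix.SpecialLinearGroup (Fin 2) F))).comp
    (Matrix.SpecialLinearGroup.map ψ)

lemma Pi_eq_one (A : Matrix.SpecialLinearGroup (Fin 2) K) (h : A.1 = 1 ∨ A.1 = -1) :
    Pi ψ A = 1 := by
  show (QuotientGroup.mk' _) (Matrix.SpecialLinearGroup.map ψ A) = 1
  rw [QuotientGroup.mk'_apply, QuotientGroup.eq_one_iff, Subgroup.mem_center_iff]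
  intro g
  apply Subtype.ext
  show g.1 * (ψ.mapMatrix A.1) = (ψ.mapMatrix A.1) * g.1
  rcases h with h | h
  · rw [h, map_one, mul_one, one_mul]
  · rw [h, map_neg, map_one, mul_neg, mul_one, neg_mul, one_mul]

lemma sat_Pi : Sat 4 (fun i => Pi ψ (f i)) where
  h3 i hi := by
    rw [← map_pow]
    exact Pi_eq_one ψ _ (M3 i hi)
  h2 i hi := by
    rw [← map_pow]
    exact Pi_eq_one ψ _ (M2 i hi)
  hb i j hij := by
    rw [← map_mul, ← map_pow]
    exact Pi_eq_one ψ _ (Mb i j hij)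
  hc i j hij := by
    rw [← map_mul, ← map_pow]
    exact Pi_eq_one ψ _ (Mc i j hij)

lemma Pi_ne : Pi ψ (f 0) ≠ 1 := by
  intro h
  have h1 : Matrix.SpecialLinearGroup.map ψ (f 0) ∈
      Subgroup.center (Matrix.SpecialLinearGroup (Fin 2) F) :=
    (QuotientGroup.eq_one_iff _).mp h
  have h2 := Subgroup.mem_center_iff.mp h1 (Matrix.SpecialLinearGroup.map ψ (f 1))
  rw [← map_mul, ← map_mul] at h2
  have h3 : ψ ((M 1 * M 0) 0 1) = ψ ((M 0 * M 1) 0 1) :=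
    congrFun (congrFun (congrArg Subtype.val h2) 0) 1
  rw [Mnc1, map_zero] at h3
  have h4 := congrArg ψ Mnc2
  rw [map_mul, h3, mul_zero, map_neg, map_one] at h4
  have h5 : (1 : F) = 0 := by
    have := congrArg (fun t => -t) h4
    simpa using this.symm
  exact one_ne_zero h5

end


/-- PSL_2(9) is isomorphic to A_6. -/
theorem result {F : Type*} [Field F] [Fintype F] (hF : Fintype.card F = 9) : Nonempty (Matrix.ProjectiveSpecialLinearGroup (Fin 2) F ≃* alternatingGroup (Fin 6)) := by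
  obtain ⟨p, hp⟩ := CharP.exists F
  obtain ⟨n, hprime, hcard⟩ := FiniteField.card F p
  have hp3 : p = 3 := by
    rw [hF] at hcard
    have h1 : p ∣ 3 ^ 2 := by
      have : (3 : ℕ) ^ 2 = p ^ (n : ℕ) := by rw [← hcard]; norm_num
      rw [this]
      exact dvd_pow_self p n.ne_zero
    exact (Nat.prime_dvd_prime_iff_eq hprime Nat.prime_three).mp (hprime.dvd_of_dvd_pow h1)
  subst hp3
  letI : Algebra (ZMod 3) F := ZMod.algebra F 3
  obtain ⟨i, hi⟩ : IsSquare (-1 : F) := by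
    rw [FiniteField.isSquare_neg_one_iff, hF]
    norm_num
  obtain ⟨ψ⟩ : Nonempty (K →+* F) :=
    ⟨(QuadraticAlgebra.lift (R := ZMod 3) (a := -1) (b := 0) (A := F)
      ⟨i, by rw [← hi]; simp⟩).toRingHom⟩
  haveI : Finite (Matrix.ProjectiveSpecialLinearGroup (Fin 2) F) := by
    unfold Matrix.ProjectiveSpecialLinearGroup
    infer_instance
  refine alt_iso_of_sat 4 (by norm_num) _ (sat_Pi ψ) ⟨0, Pi_ne ψ⟩ ?_
  have h1 := Cfsg.Agent.Lib.Helper27.PSL2.two_mul_card_PSL2 (F := F) (by rw [hF])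
  rw [hF] at h1
  rw [nat_card_alternatingGroup]
  have h2 : Nat.card (Matrix.ProjectiveSpecialLinearGroup (Fin 2) F) * 2 = 9 * (9 ^ 2 - 1) := h1
  simp [Nat.factorial]
  omega

end Cfsg.Agent.S0254
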