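import Mathlib
import Cfsg.Statements.S0268

set_option autoImplicit false
open Cfsg

namespace Cfsg.Agent.S0268

/-- Over a finite field of odd order, the only involution of SL_2 is -1. -/
theorem result {F : Type*} [Field F] [Fintype F] (hF : Odd (Fintype.card F)) (g : Matrix.SpecialLinearGroup (Fin 2) F) (h1 : g ≠ 1) (h2 : g * g = 1) : (g : Matrix (Fin 2) (Fin 2) F) = -1 := by
  have h2F : (2 : F) ≠ 0 := by
    apply Ring.two_ne_zero
    intro hc
    have := FiniteField.even_card_of_char_two hc
    rcases hF with ⟨k, hk⟩
    omega
  have hdet := g.det_coe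
  rw [Matrix.det_fin_two] at hdet
  have hm : (g : Matrix (Fin 2) (Fin 2) F) * (g : Matrix (Fin 2) (Fin 2) F) = 1 := by
    have := congrArg (fun x : Matrix.SpecialLinearGroup (Fin 2) F => (x : Matrix (Fin 2) (Fin 2) F)) h2
    simpa using this
  have e00 := congrFun (congrFun hm 0) 0
  have e01 := congrFun (congrFun hm 0) 1
  have e10 := congrFun (congrFun hm 1) 0
  have e11 := congrFun (congrFun hm 1) 1
  simp only [Matrix.mul_apply, Fin.sum_univ_two, Matrix.one_apply_eq, Matrix.one_apply_ne, ne_eq,
    zero_ne_one, one_ne_zero, not_false_eq_true] at e00 e01 e10 e11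
  set a := (g : Matrix (Fin 2) (Fin 2) F) 0 0 with ha
  set b := (g : Matrix (Fin 2) (Fin 2) F) 0 1 with hb
  set c := (g : Matrix (Fin 2) (Fin 2) F) 1 0 with hc
  set d := (g : Matrix (Fin 2) (Fin 2) F) 1 1 with hd
  have hs : a + d ≠ 0 := by
    intro h
    have hd' : d = -a := by linear_combination h
    apply h2F
    rw [hd'] at hdet
    linear_combination (-1 : F) * e00 - hdet
  have hb0 : b = 0 := by
    have : b * (a + d) = 0 := by linear_combination e01
    rcases mul_eq_zero.mp this with h | h
    · exact h
    · exact absurd h hs
  have hc0 : c = 0 := by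
    have : c * (a + d) = 0 := by linear_combination e10
    rcases mul_eq_zero.mp this with h | h
    · exact h
    · exact absurd h hs
  have ha2 : (a - 1) * (a + 1) = 0 := by
    rw [hb0] at e00
    linear_combination e00
  have had : a = d := by
    rw [hb0] at hdet e00
    have : a * (a - d) = 0 := by linear_combination e00 - hdet
    rcases mul_eq_zero.mp this with h | h
    · rw [h] at hdet
      simp at hdet
    · linear_combination h
  rcases mul_eq_zero.mp ha2 with h | h
  · exfalso
    apply h1
    ext i j
    have ha1 : a = 1 := by linear_combination h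
    fin_cases i <;> fin_cases j
    · simpa using ha1
    · simpa using hb0
    · simpa using hc0
    · simpa using (had ▸ ha1 : d = 1)
  · have ha1 : a = -1 := by linear_combination h
    ext i j
    fin_cases i <;> fin_cases j
    · simpa using ha1
    · simpa using hb0
    · simpa using hc0
    · simpa using (had ▸ ha1 : d = -1)

end Cfsg.Agent.S0268
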