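import Cfsg.Statements.S3678
-- import your own Cfsg.Agent.* helpers here
import Cfsg.Agent.Lib.Helper20.SL2Char2

set_option autoImplicit false
open Cfsg

namespace Cfsg.Agent.S3678

open Cfsg.Agent.Lib.Helper20 Matrix

universe u v

/-- groups whose elements have orders dividing 4, 9 or 7 and whose order is divisible by 2, 3, 7 -/
def P237 (X : Type u) [Group X] : Prop :=
  (∀ x : X, x ^ 4 = 1 ∨ x ^ 9 = 1 ∨ x ^ 7 = 1) ∧ 2 ∣ Nat.card X ∧ 3 ∣ Nat.card X ∧ 7 ∣ Nat.card X

theorem P237.prime_dvd {X : Type u} [Group X] [Finite X] (h : P237 X) (r : ℕ) (hr : r.Prime) :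
    r ∣ Nat.card X ↔ (r = 2 ∨ r = 3 ∨ r = 7) := by
  constructor
  · intro hd
    have := Fact.mk hr
    obtain ⟨x, hx⟩ := exists_prime_orderOf_dvd_card' r hd
    rcases h.1 x with h1 | h1 | h1
    · have h2 := orderOf_dvd_of_pow_eq_one h1
      rw [hx] at h2
      left
      exact (Nat.prime_dvd_prime_iff_eq hr Nat.prime_two).1
        (hr.dvd_of_dvd_pow (show r ∣ 2 ^ 2 by norm_num; exact h2))
    · have h2 := orderOf_dvd_of_pow_eq_one h1
      rw [hx] at h2
      right; left
      exact (Nat.prime_dvd_prime_iff_eq hr Nat.prime_three).1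
        (hr.dvd_of_dvd_pow (show r ∣ 3 ^ 2 by norm_num; exact h2))
    · have h2 := orderOf_dvd_of_pow_eq_one h1
      rw [hx] at h2
      right; right
      exact (Nat.prime_dvd_prime_iff_eq hr (by norm_num)).1 h2
  · rintro (rfl | rfl | rfl)
    · exact h.2.1
    · exact h.2.2.1
    · exact h.2.2.2

theorem P237.no_edge {X : Type u} [Group X] (h : P237 X) (r s : ℕ) (hr : r.Prime) (hs : s.Prime)
    (hrs : r ≠ s) : ¬ ∃ x : X, orderOf x = r * s := by
  rintro ⟨x, hx⟩
  have key : ∀ q k : ℕ, q.Prime → r * s ∣ q ^ k → False := by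
    intro q k hq hd
    have h1 : r ∣ q ^ k := (Dvd.intro _ rfl).trans hd
    have h2 : s ∣ q ^ k := (Dvd.intro_left _ rfl).trans hd
    have h3 := (Nat.prime_dvd_prime_iff_eq hr hq).1 (hr.dvd_of_dvd_pow h1)
    have h4 := (Nat.prime_dvd_prime_iff_eq hs hq).1 (hs.dvd_of_dvd_pow h2)
    exact hrs (h3.trans h4.symm)
  rcases h.1 x with h1 | h1 | h1
  · have h2 := orderOf_dvd_of_pow_eq_one h1
    rw [hx] at h2
    exact key 2 2 Nat.prime_two (by norm_num; exact h2)
  · have h2 := orderOf_dvd_of_pow_eq_one h1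
    rw [hx] at h2
    exact key 3 2 Nat.prime_three (by norm_num; exact h2)
  · have h2 := orderOf_dvd_of_pow_eq_one h1
    rw [hx] at h2
    exact key 7 1 (by norm_num) (by norm_num; exact h2)

theorem P237.samePG {X : Type u} {Y : Type v} [Group X] [Group Y] [Finite X] [Finite Y]
    (hX : P237 X) (hY : P237 Y) : SamePG X Y :=
  ⟨fun r hr => (hX.prime_dvd r hr).trans (hY.prime_dvd r hr).symm,
   fun r s hr hs hrs => ⟨fun h => (hX.no_edge r s hr hs hrs h).elim,
     fun h => (hY.no_edge r s hr hs hrs h).elim⟩⟩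

theorem P237.of_mulEquiv {X : Type u} {Y : Type v} [Group X] [Group Y] (e : X ≃* Y)
    (hX : P237 X) : P237 Y := by
  refine ⟨fun y => ?_, ?_, ?_, ?_⟩
  · rcases hX.1 (e.symm y) with h | h | h
    · left; have := congrArg e h; simpa using this
    · right; left; have := congrArg e h; simpa using this
    · right; right; have := congrArg e h; simpa using this
  · rw [← Nat.card_congr e.toEquiv]; exact hX.2.1
  · rw [← Nat.card_congr e.toEquiv]; exact hX.2.2.1
  · rw [← Nat.card_congr e.toEquiv]; exact hX.2.2.2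

section mat
variable {K : Type u} [Field K]

theorem sl_pow_eq_one (g : SpecialLinearGroup (Fin 2) K) (n : ℕ)
    (h : (g : Matrix (Fin 2) (Fin 2) K) ^ n = 1) : g ^ n = 1 := by
  apply Matrix.SpecialLinearGroup.ext
  intro i j
  have h1 : ((g ^ n : SpecialLinearGroup (Fin 2) K) : Matrix (Fin 2) (Fin 2) K)
      = (g : Matrix (Fin 2) (Fin 2) K) ^ n := Matrix.SpecialLinearGroup.coe_pow g n
  rw [h1, h]
  rfl

theorem step (A : Matrix (Fin 2) (Fin 2) K) (t a b : K) (hA : A * A = t • A - 1) :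
    (a • A + b • (1 : Matrix (Fin 2) (Fin 2) K)) * A = (a * t + b) • A + (-a) • (1 : Matrix (Fin 2) (Fin 2) K) := by
  rw [add_mul, smul_mul_assoc, smul_mul_assoc, hA, one_mul]
  module

theorem sl2_CH (g : SpecialLinearGroup (Fin 2) K) :
    (g : Matrix (Fin 2) (Fin 2) K) * (g : Matrix (Fin 2) (Fin 2) K)
      = (g 0 0 + g 1 1) • (g : Matrix (Fin 2) (Fin 2) K) - 1 := by
  have hdet : g 0 0 * g 1 1 - g 0 1 * g 1 0 = 1 := by
    have := g.2
    rwa [Matrix.det_fin_two] at this
  ext i j
  fin_cases i <;> fin_cases j <;>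
    simp [Matrix.mul_apply, Fin.sum_univ_two]
  · linear_combination (-1 : K) * hdet
  · ring
  · ring
  · linear_combination (-1 : K) * hdet

/-- powers of a matrix satisfying `A² = tA - 1` -/
theorem pows (A : Matrix (Fin 2) (Fin 2) K) (t : K) (hA : A * A = t • A - 1) :
    A ^ 2 = t • A + (-1 : K) • (1 : Matrix (Fin 2) (Fin 2) K) ∧
    A ^ 3 = (t ^ 2 - 1) • A + (-t) • (1 : Matrix (Fin 2) (Fin 2) K) ∧
    A ^ 4 = (t ^ 3 - 2 * t) • A + (-(t ^ 2 - 1)) • (1 : Matrix (Fin 2) (Fin 2) K) ∧
    A ^ 7 = (t ^ 6 - 5 * t ^ 4 + 6 * t ^ 2 - 1) • A + (-(t ^ 5 - 4 * t ^ 3 + 3 * t)) • (1 : Matrix (Fin 2) (Fin 2) K) ∧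
    A ^ 9 = (t ^ 8 - 7 * t ^ 6 + 15 * t ^ 4 - 10 * t ^ 2 + 1) • A
      + (-(t ^ 7 - 6 * t ^ 5 + 10 * t ^ 3 - 4 * t)) • (1 : Matrix (Fin 2) (Fin 2) K) := by
  have h2 : A ^ 2 = t • A + (-1 : K) • (1 : Matrix (Fin 2) (Fin 2) K) := by
    rw [pow_two, hA]; module
  have h3 : A ^ 3 = (t ^ 2 - 1) • A + (-t) • (1 : Matrix (Fin 2) (Fin 2) K) := by
    rw [pow_succ, h2, step A t _ _ hA]; congr 2; ring
  have h4 : A ^ 4 = (t ^ 3 - 2 * t) • A + (-(t ^ 2 - 1)) • (1 : Matrix (Fin 2) (Fin 2) K) := by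
    rw [pow_succ, h3, step A t _ _ hA]; congr 2; ring
  have h5 : A ^ 5 = (t ^ 4 - 3 * t ^ 2 + 1) • A + (-(t ^ 3 - 2 * t)) • (1 : Matrix (Fin 2) (Fin 2) K) := by
    rw [pow_succ, h4, step A t _ _ hA]; congr 2; ring
  have h6 : A ^ 6 = (t ^ 5 - 4 * t ^ 3 + 3 * t) • A + (-(t ^ 4 - 3 * t ^ 2 + 1)) • (1 : Matrix (Fin 2) (Fin 2) K) := by
    rw [pow_succ, h5, step A t _ _ hA]; congr 2; ring
  have h7 : A ^ 7 = (t ^ 6 - 5 * t ^ 4 + 6 * t ^ 2 - 1) • A + (-(t ^ 5 - 4 * t ^ 3 + 3 * t)) • (1 : Matrix (Fin 2) (Fin 2) K) := by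
    rw [pow_succ, h6, step A t _ _ hA]; congr 2; ring
  have h8 : A ^ 8 = (t ^ 7 - 6 * t ^ 5 + 10 * t ^ 3 - 4 * t) • A + (-(t ^ 6 - 5 * t ^ 4 + 6 * t ^ 2 - 1)) • (1 : Matrix (Fin 2) (Fin 2) K) := by
    rw [pow_succ, h7, step A t _ _ hA]; congr 2; ring
  have h9 : A ^ 9 = (t ^ 8 - 7 * t ^ 6 + 15 * t ^ 4 - 10 * t ^ 2 + 1) • A
      + (-(t ^ 7 - 6 * t ^ 5 + 10 * t ^ 3 - 4 * t)) • (1 : Matrix (Fin 2) (Fin 2) K) := by
    rw [pow_succ, h8, step A t _ _ hA]; congr 2; ring
  exact ⟨h2, h3, h4, h7, h9⟩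

/-- an element of `SL₂` one of whose powers is a scalar matrix has trivial power in `PSL₂` -/
theorem mk_pow_eq_one (g : SpecialLinearGroup (Fin 2) K) (n : ℕ) (c : K)
    (h : (g : Matrix (Fin 2) (Fin 2) K) ^ n = c • (1 : Matrix (Fin 2) (Fin 2) K)) :
    (QuotientGroup.mk g : ProjectiveSpecialLinearGroup (Fin 2) K) ^ n = 1 := by
  rw [← QuotientGroup.mk_pow, QuotientGroup.eq_one_iff, Subgroup.mem_center_iff]
  intro B
  have h1 : ((g ^ n : SpecialLinearGroup (Fin 2) K) : Matrix (Fin 2) (Fin 2) K)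
      = (g : Matrix (Fin 2) (Fin 2) K) ^ n := Matrix.SpecialLinearGroup.coe_pow g n
  apply Subtype.ext
  show (B : Matrix (Fin 2) (Fin 2) K) * ((g ^ n : SpecialLinearGroup (Fin 2) K) : Matrix (Fin 2) (Fin 2) K)
    = ((g ^ n : SpecialLinearGroup (Fin 2) K) : Matrix (Fin 2) (Fin 2) K) * (B : Matrix (Fin 2) (Fin 2) K)
  rw [h1, h]
  simp

theorem mk_ne_one (g : SpecialLinearGroup (Fin 2) K) (h : g 0 1 ≠ 0) :
    (QuotientGroup.mk g : ProjectiveSpecialLinearGroup (Fin 2) K) ≠ 1 := by
  rw [Ne, QuotientGroup.eq_one_iff]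
  intro hc
  obtain ⟨r, _, hr⟩ := Matrix.SpecialLinearGroup.mem_center_iff.1 hc
  apply h
  rw [← hr]
  simp

end mat

theorem P237_PSL27 {F : Type u} [Field F] [Fintype F] (hF : Fintype.card F = 7) :
    P237 (ProjectiveSpecialLinearGroup (Fin 2) F) := by
  have h7 : (7 : F) = 0 := by
    have := FiniteField.cast_card_eq_zero F
    rw [hF] at this
    exact_mod_cast this
  refine ⟨?_, ?_, ?_, ?_⟩
  · intro x
    obtain ⟨g, rfl⟩ := QuotientGroup.mk_surjective x
    set t := g 0 0 + g 1 1 with ht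
    have hA := sl2_CH g
    rw [← ht] at hA
    obtain ⟨p2, p3, p4, p7, -⟩ := pows _ t hA
    have ht7 : t ^ 7 = t := by
      have := FiniteField.pow_card t
      rwa [hF] at this
    have hprod : t * ((t ^ 2 - 1) * ((t ^ 2 - 4) * (t ^ 2 - 2))) = 0 := by
      linear_combination ht7 - (t ^ 5 - 2 * t ^ 3 + t) * h7
    rcases mul_eq_zero.1 hprod with h | h
    · left
      have : (QuotientGroup.mk g : ProjectiveSpecialLinearGroup (Fin 2) F) ^ 2 = 1 := by
        apply mk_pow_eq_one g 2 (-1)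
        rw [p2, h]; simp
      rw [show 4 = 2 * 2 from rfl, pow_mul, this, one_pow]
    rcases mul_eq_zero.1 h with h | h
    · right; left
      have : (QuotientGroup.mk g : ProjectiveSpecialLinearGroup (Fin 2) F) ^ 3 = 1 := by
        apply mk_pow_eq_one g 3 (-t)
        rw [p3, h]; simp
      rw [show 9 = 3 * 3 from rfl, pow_mul, this, one_pow]
    rcases mul_eq_zero.1 h with h | h
    · right; right
      apply mk_pow_eq_one g 7 (-(t ^ 5 - 4 * t ^ 3 + 3 * t))
      have h0 : t ^ 6 - 5 * t ^ 4 + 6 * t ^ 2 - 1 = 0 := by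
        linear_combination (t ^ 4 - t ^ 2 + 2) * h + h7
      rw [p7, h0]; simp
    · left
      apply mk_pow_eq_one g 4 (-(t ^ 2 - 1))
      have h0 : t ^ 3 - 2 * t = 0 := by linear_combination t * h
      rw [p4, h0]; simp
  · -- order 2
    let g : SpecialLinearGroup (Fin 2) F := ⟨!![0, 1; -1, 0], by simp [Matrix.det_fin_two]⟩
    have ho : orderOf (QuotientGroup.mk g : ProjectiveSpecialLinearGroup (Fin 2) F) = 2 := by
      apply orderOf_eq_prime
      · apply mk_pow_eq_one g 2 (-1)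
        rw [pow_two]
        ext i j
        fin_cases i <;> fin_cases j <;> simp [g, Matrix.mul_apply, Fin.sum_univ_two]
      · apply mk_ne_one; simp [g]
    have h := orderOf_dvd_natCard (QuotientGroup.mk g : ProjectiveSpecialLinearGroup (Fin 2) F)
    rwa [ho] at h
  · let g : SpecialLinearGroup (Fin 2) F := ⟨!![0, 1; -1, 1], by simp [Matrix.det_fin_two]⟩
    have : Fact (Nat.Prime 3) := ⟨Nat.prime_three⟩
    have ho : orderOf (QuotientGroup.mk g : ProjectiveSpecialLinearGroup (Fin 2) F) = 3 := by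
      apply orderOf_eq_prime
      · apply mk_pow_eq_one g 3 (-1)
        rw [pow_succ, pow_two]
        ext i j
        fin_cases i <;> fin_cases j <;> simp [g, Matrix.mul_apply, Fin.sum_univ_two]
      · apply mk_ne_one; simp [g]
    have h := orderOf_dvd_natCard (QuotientGroup.mk g : ProjectiveSpecialLinearGroup (Fin 2) F)
    rwa [ho] at h
  · let g : SpecialLinearGroup (Fin 2) F := ⟨!![1, 1; 0, 1], by simp [Matrix.det_fin_two]⟩
    have : Fact (Nat.Prime 7) := ⟨by norm_num⟩
    have ho : orderOf (QuotientGroup.mk g : ProjectiveSpecialLinearGroup (Fin 2) F) = 7 := by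
      apply orderOf_eq_prime
      · apply mk_pow_eq_one g 7 1
        have hA := sl2_CH g
        obtain ⟨-, -, -, p7, -⟩ := pows _ _ hA
        rw [p7]
        have e : g 0 0 + g 1 1 = 2 := by simp [g]; norm_num
        rw [e]
        have c1 : ((2:F) ^ 6 - 5 * 2 ^ 4 + 6 * 2 ^ 2 - 1) = 0 := by linear_combination h7
        have c2 : (-((2:F) ^ 5 - 4 * 2 ^ 3 + 3 * 2)) = 1 := by linear_combination (-1 : F) * h7
        rw [c1, c2]; simp
      · apply mk_ne_one; simp [g]
    have h := orderOf_dvd_natCard (QuotientGroup.mk g : ProjectiveSpecialLinearGroup (Fin 2) F)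
    rwa [ho] at h

theorem P237_SL28 {K : Type u} [Field K] [Fintype K] [CharP K 2] (hK : Fintype.card K = 8) :
    P237 (SpecialLinearGroup (Fin 2) K) := by
  have h2 : (2 : K) = 0 := CharTwo.two_eq_zero
  refine ⟨?_, ?_, ?_, ?_⟩
  · intro g
    set t := g 0 0 + g 1 1 with ht
    have hA := sl2_CH g
    rw [← ht] at hA
    obtain ⟨p2, -, -, p7, p9⟩ := pows _ t hA
    have ht8 : t ^ 8 = t := by
      have := FiniteField.pow_card t
      rwa [hK] at this
    by_cases h0 : t = 0
    · left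
      have : g ^ 2 = 1 := by
        apply sl_pow_eq_one
        rw [p2, h0]
        ext i j
        simp [CharTwo.neg_eq]
      rw [show 4 = 2 * 2 from rfl, pow_mul, this, one_pow]
    have ht7 : t ^ 7 = 1 := by
      have : t * (t ^ 7 - 1) = 0 := by linear_combination ht8
      rcases mul_eq_zero.1 this with h | h
      · exact absurd h h0
      · linear_combination h
    set w := t ^ 6 + t ^ 4 + 1 with hw
    have hprod : w * (w + t) = 0 := by
      rw [hw]
      linear_combination (t ^ 5 + t + 1) * ht7 + (t ^ 10 + t ^ 6 + t ^ 4 + t ^ 5 + t + 1) * h2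
    rcases mul_eq_zero.1 hprod with h | h
    · right; right
      apply sl_pow_eq_one
      rw [p7]
      have c1 : t ^ 6 - 5 * t ^ 4 + 6 * t ^ 2 - 1 = 0 := by
        rw [hw] at h
        linear_combination h + (-3 * t ^ 4 + 3 * t ^ 2 - 1) * h2
      have c2 : -(t ^ 5 - 4 * t ^ 3 + 3 * t) = 1 := by
        rw [hw] at h
        linear_combination (-t) * h + ht7 + (2 * t ^ 3 - t) * h2
      rw [c1, c2]; simp
    · right; left
      apply sl_pow_eq_one
      rw [p9]
      have c1 : t ^ 8 - 7 * t ^ 6 + 15 * t ^ 4 - 10 * t ^ 2 + 1 = 0 := by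
        rw [hw] at h
        linear_combination h + ht8 + (-4 * t ^ 6 + 7 * t ^ 4 - 5 * t ^ 2) * h2
      have c2 : -(t ^ 7 - 6 * t ^ 5 + 10 * t ^ 3 - 4 * t) = 1 := by
        linear_combination (-1 : K) * ht7 + (3 * t ^ 5 - 5 * t ^ 3 + 2 * t - 1) * h2
      rw [c1, c2]; simp
  · have h := orderOf_dvd_natCard (sl2T K)
    rwa [orderOf_sl2T K] at h
  · let g : SpecialLinearGroup (Fin 2) K := ⟨!![0, 1; -1, 1], by simp [Matrix.det_fin_two]⟩
    have : Fact (Nat.Prime 3) := ⟨Nat.prime_three⟩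
    have ho : orderOf g = 3 := by
      apply orderOf_eq_prime
      · apply sl_pow_eq_one
        rw [pow_succ, pow_two]
        ext i j
        fin_cases i <;> fin_cases j <;>
          simp [g, Matrix.mul_apply, Fin.sum_univ_two, CharTwo.neg_eq, CharTwo.add_self_eq_zero]
      · intro h
        have := congrArg (fun A : SpecialLinearGroup (Fin 2) K => A 0 1) h
        simp [g] at this
    have h := orderOf_dvd_natCard g
    rwa [ho] at h
  · -- a diagonal element of order 7
    obtain ⟨l, hl0, hl1⟩ : ∃ l : K, l ≠ 0 ∧ l ≠ 1 := by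
      by_contra hcon
      push Not at hcon
      have : Fintype.card K ≤ 2 := by
        classical
        calc Fintype.card K = (Finset.univ : Finset K).card := rfl
          _ ≤ ({0, 1} : Finset K).card := by
              apply Finset.card_le_card
              intro x _
              by_cases hx : x = 0
              · simp [hx]
              · simp [hcon x hx]
          _ ≤ 2 := Finset.card_le_two
      omega
    have hl7 : l ^ 7 = 1 := by
      have h8 : l ^ 8 = l := by
        have := FiniteField.pow_card l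
        rwa [hK] at this
      have : l * (l ^ 7 - 1) = 0 := by linear_combination h8
      rcases mul_eq_zero.1 this with h | h
      · exact absurd h hl0
      · linear_combination h
    let g : SpecialLinearGroup (Fin 2) K := ⟨!![l, 0; 0, l⁻¹], by simp [Matrix.det_fin_two, hl0]⟩
    have : Fact (Nat.Prime 7) := ⟨by norm_num⟩
    have hpow : ∀ n : ℕ, (g : Matrix (Fin 2) (Fin 2) K) ^ n = !![l ^ n, 0; 0, l⁻¹ ^ n] := by
      intro n
      induction n with
      | zero => ext i j; fin_cases i <;> fin_cases j <;> simp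
      | succ n ih =>
        rw [pow_succ, ih]
        ext i j
        fin_cases i <;> fin_cases j <;> simp [g, Matrix.mul_apply, Fin.sum_univ_two, pow_succ]
    have ho : orderOf g = 7 := by
      apply orderOf_eq_prime
      · apply sl_pow_eq_one
        rw [hpow, inv_pow, hl7]
        ext i j
        fin_cases i <;> fin_cases j <;> simp
      · intro h
        have := congrArg (fun A : SpecialLinearGroup (Fin 2) K => A 0 0) h
        simp [g] at this
        exact hl1 this
    have h := orderOf_dvd_natCard g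
    rwa [ho] at h

/-- The prime graph of a finite group has the prime divisors of its order as vertices, two distinct primes p, q being joined when the group has an element of order pq; two groups have the same prime graph when they have the same prime divisors and the same joined pairs. Let F be the field with 7 elements. There are finite groups of arbitrarily large order with the same prime graph as PSL(2,F) (the graph on {2, 3, 7} with no edges, which is also the prime graph of PSL(2,8)). -/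
theorem result {F : Type*} [Field F] [Fintype F] (hF : Fintype.card F = 7) (N : ℕ) :
    ∃ (H : Type) (_ : Group H) (_ : Finite H), N < Nat.card H ∧
      ((∀ p : ℕ, p.Prime → (p ∣ Nat.card (Matrix.ProjectiveSpecialLinearGroup (Fin 2) F) ↔ p ∣ Nat.card H)) ∧
      (∀ p q : ℕ, p.Prime → q.Prime → p ≠ q → ((∃ g : (Matrix.ProjectiveSpecialLinearGroup (Fin 2) F), orderOf g = p * q) ↔ (∃ g : H, orderOf g = p * q)))) := by
  classical
  haveI : Fact (Nat.Prime 2) := ⟨Nat.prime_two⟩
  letI : Fintype (GaloisField 2 3) := Fintype.ofFinite _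
  have hK : Fintype.card (GaloisField 2 3) = 8 := by
    rw [← Nat.card_eq_fintype_card, GaloisField.card 2 3 (by norm_num)]
    norm_num
  obtain ⟨H, iG, iF, hN, hs⟩ := exists_large_samePG_PSL2 (GaloisField 2 3) N
  obtain ⟨e⟩ := psl2_equiv_sl2 (GaloisField 2 3)
  have h8 : P237 (Matrix.ProjectiveSpecialLinearGroup (Fin 2) (GaloisField 2 3)) :=
    (P237_SL28 hK).of_mulEquiv e.symm
  have h7 := P237_PSL27 hF
  refine ⟨H, iG, inferInstance, ?_, (h7.samePG h8).trans hs⟩
  rwa [Nat.card_eq_fintype_card]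

end Cfsg.Agent.S3678
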