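import Cfsg.Statements.S0276
-- import your own Cfsg.Agent.* helpers here
import Cfsg.Agent.S0243
import Cfsg.Agent.S3678

set_option autoImplicit false
open Cfsg

namespace Cfsg.Agent.S0276

open Matrix Cfsg.Agent.S3678

theorem sq_eq_one_of_pow_four {F : Type*} [Field F] (h2 : ¬ IsSquare (2 : F))
    (y : ProjectiveSpecialLinearGroup (Fin 2) F) (hy : y ^ 4 = 1) : y ^ 2 = 1 := by
  obtain ⟨g, rfl⟩ := QuotientGroup.mk_surjective y
  rw [← QuotientGroup.mk_pow, QuotientGroup.eq_one_iff] at hy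
  obtain ⟨r, -, hr⟩ := Matrix.SpecialLinearGroup.mem_center_iff.1 hy
  have hA := sl2_CH g
  obtain ⟨p2, -, p4, -, -⟩ := pows _ _ hA
  set t := g 0 0 + g 1 1 with ht
  set A : Matrix (Fin 2) (Fin 2) F := (g : Matrix (Fin 2) (Fin 2) F) with hAdef
  have h4 : A ^ 4 = r • (1 : Matrix (Fin 2) (Fin 2) F) := by
    have h1 : ((g ^ 4 : SpecialLinearGroup (Fin 2) F) : Matrix (Fin 2) (Fin 2) F) = A ^ 4 :=
      Matrix.SpecialLinearGroup.coe_pow g 4
    rw [← h1, ← hr]
    ext i j
    simp [Matrix.scalar_apply, Matrix.diagonal_apply, Matrix.one_apply]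
  by_cases hs : t ^ 3 - 2 * t = 0
  · have ht0 : t = 0 := by
      have h1 : t * (t ^ 2 - 2) = 0 := by linear_combination hs
      rcases mul_eq_zero.1 h1 with h | h
      · exact h
      · exfalso
        apply h2
        exact ⟨t, by linear_combination -h⟩
    apply mk_pow_eq_one g 2 (-1)
    rw [p2, ht0]
    simp
  · have h5 : (t ^ 3 - 2 * t) • A = (r + (t ^ 2 - 1)) • (1 : Matrix (Fin 2) (Fin 2) F) := by
      have h6 := p4.symm.trans h4
      have h7 : (t ^ 3 - 2 * t) • A = r • (1 : Matrix (Fin 2) (Fin 2) F)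
          - (-(t ^ 2 - 1)) • (1 : Matrix (Fin 2) (Fin 2) F) := by
        rw [← h6]; abel
      rw [h7]
      module
    have h6 : A = ((t ^ 3 - 2 * t)⁻¹ * (r + (t ^ 2 - 1))) • (1 : Matrix (Fin 2) (Fin 2) F) := by
      rw [mul_smul, ← h5, smul_smul, inv_mul_cancel₀ hs, one_smul]
    apply mk_pow_eq_one g 2 (((t ^ 3 - 2 * t)⁻¹ * (r + (t ^ 2 - 1))) ^ 2)
    show A ^ 2 = _
    conv_lhs => rw [h6]
    rw [smul_pow, one_pow]

/-- For q = 3 or 5 mod 8 the Sylow 2-subgroups of PSL_2(q) are elementary abelian of order 4. -/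
theorem result {F : Type*} [Field F] [Fintype F] {q : ℕ} (hF : Fintype.card F = q) (hq : q % 8 = 3 ∨ q % 8 = 5) (P : Sylow 2 (Matrix.ProjectiveSpecialLinearGroup (Fin 2) F)) : IsKleinFour (P : Subgroup (Matrix.ProjectiveSpecialLinearGroup (Fin 2) F)) := by
  classical
  have h2 : ¬ IsSquare (2 : F) := by
    rw [FiniteField.isSquare_two_iff, hF]
    omega
  have hcard := Cfsg.Agent.S0243.result hF 2 (le_refl 2)
  rw [Fin.prod_univ_two] at hcard
  simp only [Fin.val_zero, Fin.val_one, pow_zero, pow_one] at hcard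
  set N := Nat.card (Matrix.ProjectiveSpecialLinearGroup (Fin 2) F) with hN
  obtain ⟨m, hm, hNm⟩ : ∃ m : ℕ, ¬ 2 ∣ m ∧ N = 4 * m := by
    rcases hq with h | h
    · obtain ⟨k, rfl⟩ : ∃ k, q = 8 * k + 3 := ⟨q / 8, by omega⟩
      have hg : Nat.gcd 2 (8 * k + 3 - 1) = 2 := by
        have : 8 * k + 3 - 1 = 2 * (4 * k + 1) := by omega
        rw [this]; exact Nat.gcd_eq_left (Dvd.intro _ rfl)
      rw [hg] at hcard
      have e1 : 8 * k + 3 - 1 = 8 * k + 2 := by omega
      have e2 : (8 * k + 3) ^ 2 - 1 = (8 * k + 2) * (8 * k + 4) := by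
        have : (8 * k + 3) ^ 2 = (8 * k + 2) * (8 * k + 4) + 1 := by ring
        omega
      have e3 : (8 * k + 3) ^ 2 - (8 * k + 3) = (8 * k + 2) * (8 * k + 3) := by
        have : (8 * k + 3) ^ 2 = (8 * k + 2) * (8 * k + 3) + (8 * k + 3) := by ring
        omega
      rw [e1, e2, e3] at hcard
      refine ⟨(4 * k + 1) * (2 * k + 1) * (8 * k + 3), ?_, ?_⟩
      · intro hd
        rcases (Nat.prime_two.dvd_mul).1 hd with hd | hd
        · rcases (Nat.prime_two.dvd_mul).1 hd with hd | hd <;> omega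
        · omega
      · have hpos : 0 < 2 * (8 * k + 2) := by omega
        apply Nat.eq_of_mul_eq_mul_left hpos
        rw [mul_assoc, hcard]
        ring
    · obtain ⟨k, rfl⟩ : ∃ k, q = 8 * k + 5 := ⟨q / 8, by omega⟩
      have hg : Nat.gcd 2 (8 * k + 5 - 1) = 2 := by
        have : 8 * k + 5 - 1 = 2 * (4 * k + 2) := by omega
        rw [this]; exact Nat.gcd_eq_left (Dvd.intro _ rfl)
      rw [hg] at hcard
      have e1 : 8 * k + 5 - 1 = 8 * k + 4 := by omega
      have e2 : (8 * k + 5) ^ 2 - 1 = (8 * k + 4) * (8 * k + 6) := by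
        have : (8 * k + 5) ^ 2 = (8 * k + 4) * (8 * k + 6) + 1 := by ring
        omega
      have e3 : (8 * k + 5) ^ 2 - (8 * k + 5) = (8 * k + 4) * (8 * k + 5) := by
        have : (8 * k + 5) ^ 2 = (8 * k + 4) * (8 * k + 5) + (8 * k + 5) := by ring
        omega
      rw [e1, e2, e3] at hcard
      refine ⟨(2 * k + 1) * (4 * k + 3) * (8 * k + 5), ?_, ?_⟩
      · intro hd
        rcases (Nat.prime_two.dvd_mul).1 hd with hd | hd
        · rcases (Nat.prime_two.dvd_mul).1 hd with hd | hd <;> omega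
        · omega
      · have hpos : 0 < 2 * (8 * k + 4) := by omega
        apply Nat.eq_of_mul_eq_mul_left hpos
        rw [mul_assoc, hcard]
        ring
  have : Fact (Nat.Prime 2) := ⟨Nat.prime_two⟩
  have hP4 : Nat.card P = 4 := by
    rw [P.card_eq_multiplicity, ← hN, hNm]
    have hm0 : m ≠ 0 := by rintro rfl; exact hm (dvd_zero 2)
    rw [Nat.factorization_mul (by norm_num) hm0, Finsupp.add_apply,
      Nat.factorization_eq_zero_of_not_dvd hm, show (4 : ℕ) = 2 ^ 2 by norm_num,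
      Nat.Prime.factorization_pow Nat.prime_two]
    simp
  have hsq : ∀ x : (P : Subgroup (Matrix.ProjectiveSpecialLinearGroup (Fin 2) F)), x ^ 2 = 1 := by
    intro x
    have h4 : x ^ 4 = 1 := by
      rw [← hP4]; exact pow_card_eq_one'
    apply Subtype.ext
    have h5 : ((x : Matrix.ProjectiveSpecialLinearGroup (Fin 2) F)) ^ 4 = 1 := by
      have := congrArg Subtype.val h4
      simpa using this
    simpa using sq_eq_one_of_pow_four h2 _ h5
  refine ⟨hP4, ?_⟩
  have hd : Monoid.exponent (P : Subgroup (Matrix.ProjectiveSpecialLinearGroup (Fin 2) F)) ∣ 2 :=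
    Monoid.exponent_dvd_of_forall_pow_eq_one hsq
  rcases (Nat.dvd_prime Nat.prime_two).1 hd with h | h
  · exfalso
    rw [Monoid.exp_eq_one_iff] at h
    have : Nat.card P = 1 := Nat.card_eq_one_iff_unique.2 ⟨h, ⟨1⟩⟩
    omega
  · exact h

end Cfsg.Agent.S0276
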