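import Cfsg.Statements.S0339
-- import your own Cfsg.Agent.* helpers here
import Cfsg.Agent.Lib.Helper29.Zass2

set_option autoImplicit false
open Cfsg

namespace Cfsg.Agent.S0339

/-- A non-trivial normal subgroup of a Zassenhaus group is itself a Zassenhaus group on the same set. -/
theorem result {G Ω : Type*} [Group G] [MulAction G Ω] [Finite Ω]
    (hZ : Cfsg.IsZassenhausGroup G Ω) (N : Subgroup G) [N.Normal] (hN : N ≠ ⊥) :
    Cfsg.IsZassenhausGroup N Ω := by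
  have hNn : N.Normal := inferInstance
  refine ⟨?_, ?_, ?_, ?_, ?_⟩
  · have := hZ.1
    exact ⟨fun {n n'} h => Subtype.ext (FaithfulSMul.eq_of_smul_eq_smul (α := Ω) h)⟩
  · rw [MulAction.is_two_pretransitive_iff]
    intro x y z t hxy hzt
    obtain ⟨n₁, hn₁, h1⟩ := Cfsg.Agent.Lib.Helper29.Zass.normal_trans hZ N hN x z
    obtain ⟨K, hK⟩ := Cfsg.Agent.Lib.Helper29.Zass.exists_isKer hZ z
    have hKN := (Cfsg.Agent.Lib.Helper29.Zass.kernel_le hZ N hN hK).1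
    obtain ⟨k, hk, h2⟩ := hK.trans (c := n₁ • y) (d := t)
      (fun h => hxy (smul_left_cancel n₁ (h1.trans h.symm))) hzt.symm
    refine ⟨⟨k * n₁, N.mul_mem (hKN hk) hn₁⟩, ?_, ?_⟩
    · show (k * n₁) • x = z
      rw [mul_smul, h1, hK.fix hk]
    · show (k * n₁) • y = t
      rw [mul_smul, h2]
  · intro g a b c hab hbc hac h1 h2 h3
    exact Subtype.ext (Cfsg.Agent.Lib.Helper29.Zass.three_fix hZ hab hbc hac h1 h2 h3)
  · obtain ⟨-, -, a, -, -, -, -⟩ := hZ.2.2.2.1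
    obtain ⟨K, hK⟩ := Cfsg.Agent.Lib.Helper29.Zass.exists_isKer hZ a
    obtain ⟨x, hxN, hx1, hxa, b, hba, hxb⟩ := (Cfsg.Agent.Lib.Helper29.Zass.kernel_le hZ N hN hK).2
    exact ⟨⟨x, hxN⟩, fun h => hx1 (congrArg Subtype.val h), a, b, hba.symm, hxa, hxb⟩
  · intro M hM htrans
    by_contra hcon
    push Not at hcon
    apply Cfsg.Agent.Lib.Helper29.Zass.no_regular_sub hZ N hN (M.map N.subtype)
    · rintro _ ⟨m, -, rfl⟩
      exact m.2
    · rintro n hn _ ⟨m, hm, rfl⟩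
      exact ⟨⟨n, hn⟩ * m * ⟨n, hn⟩⁻¹, hM.conj_mem m hm _, rfl⟩
    · intro x y
      obtain ⟨m, hm⟩ := htrans.exists_smul_eq x y
      exact ⟨m.1.1, ⟨m.1, m.2, rfl⟩, hm⟩
    · rintro _ ⟨m, hm, rfl⟩ x hx
      have h1 : (⟨m, hm⟩ : M) ∈ MulAction.stabilizer M x := hx
      rw [hcon x, Subgroup.mem_bot] at h1
      have h2 : m = 1 := congrArg Subtype.val h1
      rw [h2]; rfl

end Cfsg.Agent.S0339
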