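import Cfsg.Statements.S0338
-- import your own Cfsg.Agent.* helpers here
import Cfsg.Agent.Lib.Helper29.Zass2
import Cfsg.Agent.S0339

set_option autoImplicit false
open Cfsg

namespace Cfsg.Agent.S0338

/-- A Zassenhaus group of odd degree is a simple group. -/
theorem result {G Ω : Type*} [Group G] [MulAction G Ω] [Fintype Ω]
    (hZ : Cfsg.IsZassenhausGroup G Ω) (hodd : Odd (Fintype.card Ω)) : IsSimpleGroup G := by
  have hfin := Cfsg.Agent.Lib.Helper29.Zass.finite_group hZ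
  have : Fact (Nat.Prime 2) := ⟨Nat.prime_two⟩
  obtain ⟨g₀, hg₀, a, b, hab, -, -⟩ := hZ.2.2.2.1
  have hnt : Nontrivial G := ⟨g₀, 1, hg₀⟩
  refine ⟨fun N hNn => ?_⟩
  by_cases hN : N = ⊥
  · exact Or.inl hN
  right
  -- an involution swapping `a` and `b`
  obtain ⟨t₀, ht₀⟩ := exists_prime_orderOf_dvd_card' 2 (Cfsg.Agent.Lib.Helper29.Zass.even_card hZ)
  have ht₀sq : t₀ * t₀ = 1 := by rw [← sq, ← ht₀, pow_orderOf_eq_one]
  have ht₀1 : t₀ ≠ 1 := by
    rintro rfl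
    rw [orderOf_one] at ht₀
    omega
  obtain ⟨x, hx1, hx2⟩ := Cfsg.Agent.Lib.Helper29.Zass.exists_conj_swap hZ ht₀1 ht₀sq hab
  set t := x * t₀ * x⁻¹ with ht
  have ht1 : t ≠ 1 := Cfsg.Agent.Lib.Helper29.Zass.conj_ne_one ht₀1
  have htsq : t * t = 1 := by
    have e : t * t = x * (t₀ * t₀) * x⁻¹ := by rw [ht]; group
    rw [e, ht₀sq]; group
  -- its unique fixed point
  have hcard1 : Nat.card (MulAction.fixedBy Ω t) = 1 := by
    have hmod := Cfsg.Agent.Lib.Helper29.Zass.card_fixedBy_modEq (Ω := Ω) htsq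
    have hle := Cfsg.Agent.Lib.Helper29.Zass.card_fixedBy_le hZ ht1
    rw [Nat.card_eq_fintype_card (α := Ω)] at hmod
    unfold Nat.ModEq at hmod
    rw [Nat.odd_iff] at hodd
    omega
  obtain ⟨⟨c, hc⟩, hcuniq⟩ := Nat.card_eq_one_iff_exists.1 hcard1
  have hc' : t • c = c := hc
  have huniq : ∀ d : Ω, t • d = d → d = c := fun d hd => congrArg Subtype.val (hcuniq ⟨d, hd⟩)
  have hca : c ≠ a := by
    rintro rfl
    exact hab (hc'.symm.trans hx1)
  have hcb : c ≠ b := by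
    rintro rfl
    exact hab (hx2.symm.trans hc')
  obtain ⟨K, hK⟩ := Cfsg.Agent.Lib.Helper29.Zass.exists_isKer hZ c
  have hKN := (Cfsg.Agent.Lib.Helper29.Zass.kernel_le hZ N hN hK).1
  have htN : t ∈ N := hKN ((hK.mem t).2 ⟨hc', Or.inr huniq⟩)
  -- the two point stabiliser lies in `N`
  have hE : MulAction.stabilizer G a ⊓ MulAction.stabilizer G b ≤ N := by
    let φ : (MulAction.stabilizer G a ⊓ MulAction.stabilizer G b : Subgroup G) →
        (MulAction.stabilizer G a ⊓ MulAction.stabilizer G b : Subgroup G) := fun h =>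
      ⟨t * h.1 * t⁻¹ * h.1⁻¹, Subgroup.mul_mem _
        (Cfsg.Agent.Lib.Helper29.Zass.conj_mem_two (Or.inr ⟨hx1, hx2⟩) h.2) (Subgroup.inv_mem _ h.2)⟩
    have hφ : Function.Injective φ := by
      intro h h' hh
      have h1 : t * h.1 * t⁻¹ * h.1⁻¹ = t * h'.1 * t⁻¹ * h'.1⁻¹ := congrArg Subtype.val hh
      have h2 : (h'.1⁻¹ * h.1) * t = t * (h'.1⁻¹ * h.1) := by
        have h3 : h.1 * t⁻¹ * h.1⁻¹ = h'.1 * t⁻¹ * h'.1⁻¹ := by
          have := congrArg (fun z => t⁻¹ * z) h1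
          simpa [mul_assoc] using this
        have h4 : (h'.1⁻¹ * h.1) * t⁻¹ = t⁻¹ * (h'.1⁻¹ * h.1) := by
          calc (h'.1⁻¹ * h.1) * t⁻¹ = h'.1⁻¹ * (h.1 * t⁻¹ * h.1⁻¹) * h.1 := by group
            _ = h'.1⁻¹ * (h'.1 * t⁻¹ * h'.1⁻¹) * h.1 := by rw [h3]
            _ = t⁻¹ * (h'.1⁻¹ * h.1) := by group
        have h5 : t⁻¹ = t := by rw [inv_eq_iff_mul_eq_one, htsq]
        rwa [h5] at h4
      have h6 : (h'.1⁻¹ * h.1) • c = c := by
        apply huniq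
        rw [← mul_smul, ← h2, mul_smul, hc']
      have hu := Subgroup.mul_mem _ (Subgroup.inv_mem _ h'.2) h.2
      have h7 := Cfsg.Agent.Lib.Helper29.Zass.three_fix hZ hab hcb.symm hca.symm hu.1 hu.2 h6
      rw [inv_mul_eq_one] at h7
      exact Subtype.ext h7.symm
    have hsurj := Finite.surjective_of_injective hφ
    intro h hh
    obtain ⟨h', hh'⟩ := hsurj ⟨h, hh⟩
    have h1 : t * h'.1 * t⁻¹ * h'.1⁻¹ = h := congrArg Subtype.val hh'
    rw [← h1]
    have e : t * h'.1 * t⁻¹ * h'.1⁻¹ = t * (h'.1 * t⁻¹ * h'.1⁻¹) := by group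
    rw [e]
    exact N.mul_mem htN (hNn.conj_mem _ (N.inv_mem htN) _)
  -- conclusion
  rw [eq_top_iff]
  intro g _
  have hZN := Cfsg.Agent.S0339.result hZ N hN
  obtain ⟨n, hn1, hn2⟩ := Cfsg.Agent.Lib.Helper29.Zass.two_trans hZN hab
    (fun h => hab (smul_left_cancel g h) : g • a ≠ g • b)
  have hn1' : n.1 • a = g • a := hn1
  have hn2' : n.1 • b = g • b := hn2
  have h1 : n.1⁻¹ * g ∈ MulAction.stabilizer G a ⊓ MulAction.stabilizer G b := by
    constructor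
    · show (n.1⁻¹ * g) • a = a
      rw [mul_smul, ← hn1', inv_smul_smul]
    · show (n.1⁻¹ * g) • b = b
      rw [mul_smul, ← hn2', inv_smul_smul]
  have h2 := N.mul_mem n.2 (hE h1)
  rwa [mul_inv_cancel_left] at h2

end Cfsg.Agent.S0338
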