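import Cfsg.Statements.S0415
-- import your own Cfsg.Agent.* helpers here
import Cfsg.Agent.Lib.Helper29.Sharp4b

set_option autoImplicit false
open Cfsg

namespace Cfsg.Agent.S0415

open Cfsg.Agent.Lib.Helper29.Sharp4


/-- Degrees of sharply 4-transitive permutation groups are 4, 5, 6, 11. -/
theorem result {α : Type*} [Fintype α] [DecidableEq α] (G : Subgroup (Equiv.Perm α)) (h4 : 4 ≤ Fintype.card α) [MulAction.IsMultiplyPretransitive G α 4] (hsharp : ∀ x : Fin 4 ↪ α, MulAction.stabilizer G x = ⊥) : Fintype.card α = 4 ∨ Fintype.card α = 5 ∨ Fintype.card α = 6 ∨ Fintype.card α = 11 := by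
  have h := isSharp4_of (G := G) (Ω := α) inferInstance hsharp
  obtain ⟨x₀⟩ : Nonempty (Fin 4 ↪ α) := Function.Embedding.nonempty_of_card_le (by simpa using h4)
  have hne' : ∀ i j : Fin 4, i ≠ j → x₀ i ≠ x₀ j := fun i j hij e => hij (x₀.injective e)
  have hD : D4 (x₀ 0) (x₀ 1) (x₀ 2) (x₀ 3) :=
    ⟨hne' _ _ (by decide), hne' _ _ (by decide), hne' _ _ (by decide), hne' _ _ (by decide), hne' _ _ (by decide),
      hne' _ _ (by decide)⟩
  have := h.card_mem hD
  rwa [Nat.card_eq_fintype_card] at this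

end Cfsg.Agent.S0415
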