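import Cfsg.Statements.S0436
import Mathlib

set_option autoImplicit false
open Cfsg

namespace Cfsg.Agent.S0436

theorem sq_of_order {G : Type*} [Group G] {d : G} (h : orderOf d = 2) : d * d = 1 := by
  have := pow_orderOf_eq_one d
  rwa [h, pow_two] at this

theorem comm_of_sq {G : Type*} [Group G] {x y : G} (hx : x * x = 1) (hy : y * y = 1)
    (h : (x * y) ^ 2 = 1) : Commute x y := by
  have h1 : x * y * (x * y) = 1 := by rwa [pow_two] at h
  have hx' : x⁻¹ = x := inv_eq_of_mul_eq_one_left hx
  have hy' : y⁻¹ = y := inv_eq_of_mul_eq_one_left hy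
  have h2 : x * y = (x * y)⁻¹ := (inv_eq_of_mul_eq_one_left h1).symm
  rw [mul_inv_rev, hx', hy'] at h2
  exact h2

theorem braid_of_cube {G : Type*} [Group G] {x y : G} (hx : x * x = 1) (hy : y * y = 1)
    (h : (x * y) ^ 3 = 1) : x * y * x = y * x * y := by
  have hx' : x⁻¹ = x := inv_eq_of_mul_eq_one_left hx
  have hy' : y⁻¹ = y := inv_eq_of_mul_eq_one_left hy
  have h1 : (x * y * x) * (y * x * y) = 1 := by
    have : (x * y) ^ 3 = (x * y * x) * (y * x * y) := by
      simp only [pow_succ, pow_zero, one_mul, mul_assoc]
    rw [← this]; exact h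
  have h2 : x * y * x = (y * x * y)⁻¹ := eq_inv_of_mul_eq_one_left h1
  rw [h2]
  simp only [mul_inv_rev, hx', hy', mul_assoc]

theorem aux {G : Type*} [Group G] {E : Set G} (hE : Cfsg.IsThreeTranspositionSet E) {a b e : G} (ha : a ∈ E) (hb : b ∈ E) (he : e ∈ E) (hab : a ≠ b) (hcomm : Commute a b) (h : Commute e (a * b)) : Commute e a ∧ Commute e b := by
  have a2 := sq_of_order (hE.1 a ha)
  have b2 := sq_of_order (hE.1 b hb)
  have e2 := sq_of_order (hE.1 e he)
  have key : a * e * a = b * e * b := by
    have h1 : e * (a * b) = a * b * e := h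
    calc a * e * a = a * (e * (a * b)) * b := by
            simp only [mul_assoc, b2, mul_one]
      _ = a * (a * b * e) * b := by rw [h1]
      _ = (a * a) * b * e * b := by simp only [mul_assoc]
      _ = b * e * b := by rw [a2, one_mul]
  have ca_of_cb : Commute e b → Commute e a := by
    intro hc
    have h1 : b * e * b = e := by
      rw [mul_assoc, hc.eq, ← mul_assoc, b2, one_mul]
    have h2 : a * e * a = e := by rw [key, h1]
    have : a * e = e * a := by
      calc a * e = a * e * (a * a) := by rw [a2, mul_one]
        _ = (a * e * a) * a := by simp only [mul_assoc]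
        _ = e * a := by rw [h2]
    exact this.symm
  have cb_of_ca : Commute e a → Commute e b := by
    intro hc
    have h1 : a * e * a = e := by
      rw [mul_assoc, hc.eq, ← mul_assoc, a2, one_mul]
    have h2 : b * e * b = e := by rw [← key, h1]
    have : b * e = e * b := by
      calc b * e = b * e * (b * b) := by rw [b2, mul_one]
        _ = (b * e * b) * b := by simp only [mul_assoc]
        _ = e * b := by rw [h2]
    exact this.symm
  rcases hE.2 e he a ha with h2 | h3
  · have := comm_of_sq e2 a2 h2
    exact ⟨this, cb_of_ca this⟩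
  · rcases hE.2 e he b hb with h2' | h3'
    · have := comm_of_sq e2 b2 h2'
      exact ⟨ca_of_cb this, this⟩
    · exfalso
      have h4 := braid_of_cube e2 a2 h3
      have h5 := braid_of_cube e2 b2 h3'
      have h6 : e * a * e = e * b * e := by rw [h4, h5, key]
      apply hab
      have h7 : e * a = e * b := mul_right_cancel h6
      exact mul_left_cancel h7

/-- For distinct commuting members a, b of a set of 3-transpositions E, a member e of E centralises the product a * b if and only if it centralises both a and b. -/
theorem result {G : Type*} [Group G] {E : Set G} (hE : Cfsg.IsThreeTranspositionSet E) {a b e : G} (ha : a ∈ E) (hb : b ∈ E) (he : e ∈ E) (hab : a ≠ b) (hcomm : Commute a b) : Commute e (a * b) ↔ (Commute e a ∧ Commute e b) := by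
  constructor
  · exact aux hE ha hb he hab hcomm
  · rintro ⟨h1, h2⟩
    exact h1.mul_right h2

end Cfsg.Agent.S0436
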