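import Cfsg.Statements.S0437
import Mathlib
import Cfsg.Agent.S0436

set_option autoImplicit false
open Cfsg

namespace Cfsg.Agent.S0437

/-- For three distinct, pairwise commuting members a, b, c of a set of 3-transpositions E, a member e of E centralises a * b * c if and only if it centralises each of a, b and c. -/
theorem result {G : Type*} [Group G] {E : Set G} (hE : Cfsg.IsThreeTranspositionSet E) {a b c e : G} (ha : a ∈ E) (hb : b ∈ E) (hc : c ∈ E) (he : e ∈ E) (hab : a ≠ b) (hac : a ≠ c) (hbc : b ≠ c) (h₁ : Commute a b) (h₂ : Commute a c) (h₃ : Commute b c) : Commute e (a * b * c) ↔ (Commute e a ∧ Commute e b ∧ Commute e c) := by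
  constructor
  swap
  · rintro ⟨k1, k2, k3⟩
    exact (k1.mul_right k2).mul_right k3
  intro h
  have a2 := S0436.sq_of_order (hE.1 a ha)
  have b2 := S0436.sq_of_order (hE.1 b hb)
  have c2 := S0436.sq_of_order (hE.1 c hc)
  have e2 := S0436.sq_of_order (hE.1 e he)
  have ha' : a⁻¹ = a := inv_eq_of_mul_eq_one_left a2
  have hb' : b⁻¹ = b := inv_eq_of_mul_eq_one_left b2
  have hc' : c⁻¹ = c := inv_eq_of_mul_eq_one_left c2
  -- if e commutes with one of them, we are done
  have caseA : Commute e a → (Commute e a ∧ Commute e b ∧ Commute e c) := by
    intro k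
    have kbc : Commute e (b * c) := by
      have h1 : Commute e (a⁻¹ * (a * b * c)) := (k.inv_right).mul_right h
      have h2 : a⁻¹ * (a * b * c) = b * c := by group
      rwa [h2] at h1
    exact ⟨k, S0436.aux hE hb hc he hbc h₃ kbc⟩
  have caseC : Commute e c → (Commute e a ∧ Commute e b ∧ Commute e c) := by
    intro k
    have hab' : Commute e (a * b) := by
      have h1 : Commute e ((a * b * c) * c⁻¹) := h.mul_right (k.inv_right)
      have h2 : (a * b * c) * c⁻¹ = a * b := by group
      rwa [h2] at h1
    have := S0436.aux hE ha hb he hab h₁ hab'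
    exact ⟨this.1, this.2, k⟩
  have caseB : Commute e b → (Commute e a ∧ Commute e b ∧ Commute e c) := by
    intro k
    have hac' : Commute e (a * c) := by
      have h1 : Commute e (b⁻¹ * (a * b * c)) := (k.inv_right).mul_right h
      have h2 : b⁻¹ * (a * b * c) = a * c := by
        rw [h₁.eq]; group
      rwa [h2] at h1
    have := S0436.aux hE ha hc he hac h₂ hac'
    exact ⟨this.1, k, this.2⟩
  rcases hE.2 e he a ha with ka | ka
  · exact caseA (S0436.comm_of_sq e2 a2 ka)
  rcases hE.2 e he b hb with kb | kb
  · exact caseB (S0436.comm_of_sq e2 b2 kb)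
  rcases hE.2 e he c hc with kc | kc
  · exact caseC (S0436.comm_of_sq e2 c2 kc)
  apply caseC
  have ba := S0436.braid_of_cube e2 a2 ka
  have bb := S0436.braid_of_cube e2 b2 kb
  have bc := S0436.braid_of_cube e2 c2 kc
  have hz : e * (a * b * c) = a * b * c * e := h
  -- a e a = b c e c b
  have s1 : a * e * a = b * c * e * c * b := by
    calc a * e * a = a * (e * (a * b * c)) * c * b := by
            have : a * (e * (a * b * c)) * c * b = a * e * a * (b * (c * c) * b) := by
              simp only [mul_assoc]
            rw [this, c2, mul_one, b2, mul_one]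
      _ = a * (a * b * c * e) * c * b := by rw [hz]
      _ = (a * a) * b * c * e * c * b := by simp only [mul_assoc]
      _ = b * c * e * c * b := by rw [a2, one_mul]
  -- e a e = (e b e) c (e b e)
  have s2 : e * a * e = (e * b * e) * c * (e * b * e) := by
    calc e * a * e = a * e * a := ba
      _ = b * (c * e * c) * b := by rw [s1]; simp only [mul_assoc]
      _ = b * (e * c * e) * b := by rw [bc]
      _ = (b * e * b) * (b * c * b) * (b * e * b) := by
            have : (b * e * b) * (b * c * b) * (b * e * b) = b * e * (b * b) * c * (b * b) * e * b := by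
              simp only [mul_assoc]
            rw [this, b2]; simp only [mul_assoc, mul_one]
      _ = (e * b * e) * c * (e * b * e) := by
            have : b * c * b = c := by rw [h₃.eq, mul_assoc, b2, mul_one]
            rw [this, bb]
  have s3 : a = b * (e * c * e) * b := by
    calc a = e * (e * a * e) * e := by
            have : e * (e * a * e) * e = (e * e) * a * (e * e) := by simp only [mul_assoc]
            rw [this, e2]; simp
      _ = e * ((e * b * e) * c * (e * b * e)) * e := by rw [s2]
      _ = (e * e) * b * (e * c * e) * b * (e * e) := by simp only [mul_assoc]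
      _ = b * (e * c * e) * b := by rw [e2]; simp
  have s4 : a = e * c * e := by
    calc a = b * a * b := by rw [← h₁.eq, mul_assoc, b2, mul_one]
      _ = b * (b * (e * c * e) * b) * b := by rw [← s3]
      _ = (b * b) * (e * c * e) * (b * b) := by simp only [mul_assoc]
      _ = e * c * e := by rw [b2]; simp
  -- a commutes with c
  have s5 : (e * c * e) * c = c * (e * c * e) := by rw [← s4]; exact h₂
  have s6 : c * e = e * c := by
    calc c * e = (c * e * c) * c := by rw [mul_assoc (c * e), c2, mul_one]
      _ = (e * c * e) * c := by rw [bc]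
      _ = c * (e * c * e) := s5
      _ = c * (c * e * c) := by rw [bc]
      _ = (c * c) * e * c := by simp only [mul_assoc]
      _ = e * c := by rw [c2, one_mul]
  exact s6.symm

end Cfsg.Agent.S0437
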