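import Cfsg.Statements.S0445
import Mathlib
import Cfsg.Agent.Lib.Helper12.GLCard

set_option autoImplicit false
open Cfsg

namespace Cfsg.Agent.S0445

open Matrix

theorem det_col0 {n : ℕ} (M : Matrix (Fin (n+1)) (Fin (n+1)) (ZMod 2))
    (h : ∀ i : Fin n, M i.succ 0 = 0) :
    M.det = M 0 0 * (M.submatrix Fin.succ Fin.succ).det := by
  rw [Matrix.det_succ_column_zero, Fin.sum_univ_succ]
  simp [h]

theorem det_row0 {n : ℕ} (M : Matrix (Fin (n+1)) (Fin (n+1)) (ZMod 2))
    (h : ∀ j : Fin n, M 0 j.succ = 0) :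
    M.det = M 0 0 * (M.submatrix Fin.succ Fin.succ).det := by
  rw [Matrix.det_succ_row_zero, Fin.sum_univ_succ]
  simp [h]

theorem zmod2_mul3 : ∀ a b c : ZMod 2, a * (b * c) = 1 → a = 1 ∧ b = 1 ∧ c = 1 := by decide

/-- shape predicate -/
def Shape (M : Matrix (Fin 5) (Fin 5) (ZMod 2)) : Prop :=
  (∀ i : Fin 4, M i.succ 0 = 0) ∧ (∀ j : Fin 3, M 1 j.succ.succ = 0) ∧ M 0 0 = M 1 1

theorem commute_iff_shape (M : Matrix (Fin 5) (Fin 5) (ZMod 2)) :
    M * Matrix.transvection 0 1 1 = Matrix.transvection 0 1 1 * M ↔ Shape M := by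
  unfold Shape
  rw [Matrix.transvection, mul_add, add_mul, mul_one, one_mul, add_right_inj]
  constructor
  · intro h
    refine ⟨fun i => ?_, fun j => ?_, ?_⟩
    · have := congrFun (congrFun h i.succ) 1
      simpa [Matrix.mul_apply, Matrix.single_apply, Fin.succ_ne_zero, (Fin.succ_ne_zero _).symm] using this
    · have := congrFun (congrFun h 0) j.succ.succ
      have h1 : (1 : Fin 5) ≠ j.succ.succ := by
        intro h; have := congrArg Fin.val h; simp at this
      simpa [Matrix.mul_apply, Matrix.single_apply, h1] using this.symm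
    · have := congrFun (congrFun h 0) 1
      simpa [Matrix.mul_apply, Matrix.single_apply] using this
  · rintro ⟨h1, h2, h3⟩
    have a1 : M 1 0 = 0 := h1 0
    have a2 : M 2 0 = 0 := h1 1
    have a3 : M 3 0 = 0 := h1 2
    have a4 : M 4 0 = 0 := h1 3
    have b2 : M 1 2 = 0 := h2 0
    have b3 : M 1 3 = 0 := h2 1
    have b4 : M 1 4 = 0 := h2 2
    ext i j
    have hL : (M * (Matrix.single 0 1 1 : Matrix (Fin 5) (Fin 5) (ZMod 2))) i j = if j = 1 then M i 0 else 0 := by
      by_cases hj : j = 1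
      · subst hj; simp [Matrix.mul_apply, Matrix.single_apply]
      · simp [Matrix.mul_apply, Matrix.single_apply, hj, Ne.symm hj]
    have hR : ((Matrix.single 0 1 1 : Matrix (Fin 5) (Fin 5) (ZMod 2)) * M) i j = if i = 0 then M 1 j else 0 := by
      by_cases hi : i = 0
      · subst hi; simp [Matrix.mul_apply, Matrix.single_apply]
      · simp [Matrix.mul_apply, Matrix.single_apply, hi, Ne.symm hi]
    rw [hL, hR]
    fin_cases i <;> fin_cases j <;> simp [*]

/-- the parametrised matrix -/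
def mkM (r : Fin 4 → ZMod 2) (c : Fin 3 → ZMod 2) (A : Matrix (Fin 3) (Fin 3) (ZMod 2)) :
    Matrix (Fin 5) (Fin 5) (ZMod 2) :=
  fun i j => Fin.cases (Fin.cases 1 r j)
    (fun i' => Fin.cases 0 (fun j' =>
      Fin.cases (Fin.cases 1 (fun _ => 0) j')
        (fun i'' => Fin.cases (c i'') (fun j'' => A i'' j'') j') i') j) i

theorem mkM_shape (r : Fin 4 → ZMod 2) (c : Fin 3 → ZMod 2) (A : Matrix (Fin 3) (Fin 3) (ZMod 2)) :
    Shape (mkM r c A) := by
  refine ⟨fun i => rfl, fun j => rfl, rfl⟩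

theorem det_of_shape (M : Matrix (Fin 5) (Fin 5) (ZMod 2)) (h : Shape M) :
    M.det = M 0 0 * (M 1 1 * (M.submatrix (fun i : Fin 3 => i.succ.succ)
      (fun i : Fin 3 => i.succ.succ)).det) := by
  rw [det_col0 M h.1, det_row0 (M.submatrix Fin.succ Fin.succ) (fun j => h.2.1 j)]
  rfl

theorem card_SL3 : Nat.card (Matrix.SpecialLinearGroup (Fin 3) (ZMod 2)) = 168 := by
  have h1 := Cfsg.Agent.Lib.Helper12.card_GL_eq_mul (F := ZMod 2) 3 (by norm_num)
  have h2 : Nat.card (ZMod 2)ˣ = 1 := by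
    rw [Cfsg.Agent.Lib.Helper12.card_units_eq, ZMod.card]
  rw [h2, one_mul, Matrix.card_GL_field] at h1
  rw [← h1]
  simp [Fin.prod_univ_succ, ZMod.card]

theorem shape_of_mem (s : Matrix.SpecialLinearGroup (Fin 5) (ZMod 2))
    (hs : (s : Matrix (Fin 5) (Fin 5) (ZMod 2)) = Matrix.transvection 0 1 1)
    (g : Subgroup.centralizer ({s} : Set (Matrix.SpecialLinearGroup (Fin 5) (ZMod 2)))) :
    Shape (g.1 : Matrix (Fin 5) (Fin 5) (ZMod 2)) := by
  rw [← commute_iff_shape, ← hs]
  have := Subgroup.mem_centralizer_singleton_iff.mp g.2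
  have h2 := congrArg (fun x : Matrix.SpecialLinearGroup (Fin 5) (ZMod 2) =>
    (x : Matrix (Fin 5) (Fin 5) (ZMod 2))) this
  simpa using h2

theorem eq_mkM (M : Matrix (Fin 5) (Fin 5) (ZMod 2)) (h : Shape M) (h0 : M 0 0 = 1)
    (h1 : M 1 1 = 1) :
    M = mkM (fun j => M 0 j.succ) (fun i => M i.succ.succ 1)
      (M.submatrix (fun i : Fin 3 => i.succ.succ) (fun i : Fin 3 => i.succ.succ)) := by
  ext i j
  refine Fin.cases ?_ (fun i' => ?_) i
  · refine Fin.cases ?_ (fun j' => ?_) j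
    · exact h0
    · rfl
  · refine Fin.cases ?_ (fun j' => ?_) j
    · exact h.1 i'
    · refine Fin.cases ?_ (fun i'' => ?_) i'
      · refine Fin.cases ?_ (fun j'' => ?_) j'
        · exact h1
        · exact h.2.1 j''
      · refine Fin.cases ?_ (fun j'' => ?_) j'
        · rfl
        · rfl

theorem det_mkM (r : Fin 4 → ZMod 2) (c : Fin 3 → ZMod 2)
    (A : Matrix.SpecialLinearGroup (Fin 3) (ZMod 2)) :
    (mkM r c (A : Matrix (Fin 3) (Fin 3) (ZMod 2))).det = 1 := by
  rw [det_of_shape _ (mkM_shape _ _ _)]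
  have : ((mkM r c (A : Matrix (Fin 3) (Fin 3) (ZMod 2))).submatrix
      (fun i : Fin 3 => i.succ.succ)
      (fun i : Fin 3 => i.succ.succ)) = (A : Matrix (Fin 3) (Fin 3) (ZMod 2)) := by
    ext i j; rfl
  rw [this, Matrix.SpecialLinearGroup.det_coe]
  show (1 : ZMod 2) * (1 * 1) = 1
  simp

/-- the parametrised element of `SL₅(2)` -/
def mkSL (r : Fin 4 → ZMod 2) (c : Fin 3 → ZMod 2)
    (A : Matrix.SpecialLinearGroup (Fin 3) (ZMod 2)) :
    Matrix.SpecialLinearGroup (Fin 5) (ZMod 2) :=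
  ⟨mkM r c (A : Matrix (Fin 3) (Fin 3) (ZMod 2)), det_mkM r c A⟩

theorem coe_mkSL (r : Fin 4 → ZMod 2) (c : Fin 3 → ZMod 2)
    (A : Matrix.SpecialLinearGroup (Fin 3) (ZMod 2)) :
    (mkSL r c A : Matrix (Fin 5) (Fin 5) (ZMod 2)) =
      mkM r c (A : Matrix (Fin 3) (Fin 3) (ZMod 2)) := rfl

/-- In the special linear group of dimension 5 over the field with two elements, the centraliser of a transvection has order 21504 = 2 ^ 7 · 168 (it is an extension of an extraspecial group of order 2 ^ 7 by the simple group of order 168). -/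
theorem result (s : Matrix.SpecialLinearGroup (Fin 5) (ZMod 2)) (hs : (s : Matrix (Fin 5) (Fin 5) (ZMod 2)) = Matrix.transvection 0 1 1) : Nat.card (Subgroup.centralizer ({s} : Set (Matrix.SpecialLinearGroup (Fin 5) (ZMod 2)))) = 21504 := by
  classical
  let P := (Fin 4 → ZMod 2) × (Fin 3 → ZMod 2) × Matrix.SpecialLinearGroup (Fin 3) (ZMod 2)
  have hmem : ∀ p : P, mkSL p.1 p.2.1 p.2.2 ∈
      Subgroup.centralizer ({s} : Set (Matrix.SpecialLinearGroup (Fin 5) (ZMod 2))) := by
    intro p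
    refine Subgroup.mem_centralizer_singleton_iff.mpr ?_
    apply Matrix.SpecialLinearGroup.ext
    intro i j
    have := (commute_iff_shape _).mpr (mkM_shape p.1 p.2.1 (p.2.2 : Matrix (Fin 3) (Fin 3) (ZMod 2)))
    have h2 := congrFun (congrFun this i) j
    rw [Matrix.SpecialLinearGroup.coe_mul, Matrix.SpecialLinearGroup.coe_mul, hs, coe_mkSL]
    exact h2
  let f : P → Subgroup.centralizer ({s} : Set (Matrix.SpecialLinearGroup (Fin 5) (ZMod 2))) :=
    fun p => ⟨mkSL p.1 p.2.1 p.2.2, hmem p⟩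
  have hf : Function.Bijective f := by
    constructor
    · intro p q hpq
      have h0 : mkSL p.1 p.2.1 p.2.2 = mkSL q.1 q.2.1 q.2.2 := congrArg Subtype.val hpq
      have h1 : mkM p.1 p.2.1 (p.2.2 : Matrix (Fin 3) (Fin 3) (ZMod 2)) =
          mkM q.1 q.2.1 (q.2.2 : Matrix (Fin 3) (Fin 3) (ZMod 2)) := by
        rw [← coe_mkSL, ← coe_mkSL, h0]
      refine Prod.ext ?_ (Prod.ext ?_ ?_)
      · funext j
        exact congrFun (congrFun h1 0) j.succ
      · funext i
        exact congrFun (congrFun h1 i.succ.succ) 1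
      · apply Matrix.SpecialLinearGroup.ext
        intro i j
        exact congrFun (congrFun h1 i.succ.succ) j.succ.succ
    · intro g
      have hsh := shape_of_mem s hs g
      have hd := det_of_shape _ hsh
      rw [Matrix.SpecialLinearGroup.det_coe] at hd
      obtain ⟨h0, h1, h2⟩ := zmod2_mul3 _ _ _ hd.symm
      refine ⟨(fun j => (g.1 : Matrix (Fin 5) (Fin 5) (ZMod 2)) 0 j.succ,
        fun i => (g.1 : Matrix (Fin 5) (Fin 5) (ZMod 2)) i.succ.succ 1,
        ⟨_, h2⟩), ?_⟩
      apply Subtype.ext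
      apply Matrix.SpecialLinearGroup.ext
      intro i j
      exact (congrFun (congrFun (eq_mkM _ hsh h0 h1) i) j).symm
  rw [← Nat.card_congr (Equiv.ofBijective f hf)]
  rw [Nat.card_prod, Nat.card_prod, card_SL3]
  simp [ZMod.card]


end Cfsg.Agent.S0445
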