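import Cfsg.Statements.S0519
import Mathlib
import Cfsg.Agent.S0126
import Cfsg.Agent.S0115
import Cfsg.Agent.Lib.Helper14.NormalCyclic
import Cfsg.Agent.Lib.Helper14.MaxClass2
import Cfsg.Agent.Lib.Helper14.AbIndexTwo
-- import your own Cfsg.Agent.* helpers here

set_option autoImplicit false
open Cfsg

namespace Cfsg.Agent.S0519

/-- Let P be a finite p-group in which every abelian normal subgroup is cyclic, but which has a non-cyclic abelian
subgroup. Then p = 2 and P is generalized quaternion, dihedral of order at least 16, or quasi-dihedral. -/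
theorem result {P : Type*} [Group P] [Finite P] (p : ℕ) [Fact p.Prime]
    (hP : IsPGroup p P) (hn : ∀ A : Subgroup P, A.Normal → IsMulCommutative A → IsCyclic A)
    (hm : ∃ B : Subgroup P, IsMulCommutative B ∧ ¬ IsCyclic B) :
    p = 2 ∧ ((∃ n : ℕ, Nonempty (P ≃* QuaternionGroup n)) ∨ (∃ n : ℕ, 8 ≤ n ∧ Nonempty (P ≃* DihedralGroup n)) ∨
      Cfsg.IsQuasiDihedral P) := by
  have hpp : p.Prime := Fact.out
  obtain ⟨B, hBc, hBnc⟩ := hm
  have hnc : ¬ IsCyclic P := fun h => hBnc inferInstance
  have hp2 : p = 2 := by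
    by_contra hp
    obtain ⟨A, hAn, hAe, hAc⟩ := Cfsg.Agent.S0126.result hp hP hnc
    have hcyc := hn A hAn hAe.1
    obtain ⟨g, hg⟩ := hcyc.exists_ofOrder_eq_natCard
    have h1 : orderOf g ∣ p := orderOf_dvd_of_pow_eq_one (Subtype.ext (hAe.2 g g.2))
    rw [hg, hAc] at h1
    have := Nat.le_of_dvd hpp.pos h1
    have h2 : p < p ^ 2 := by rw [pow_two]; nlinarith [hpp.one_lt]
    omega
  subst hp2
  refine ⟨rfl, ?_⟩
  obtain ⟨m, a, hm2, ha, hidx, hinv⟩ := Cfsg.Agent.Lib.Helper14.normal_cyclic_structure hP hn hnc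
  have hcardA : Nat.card (Subgroup.zpowers a) = 2 ^ m := by rw [Nat.card_zpowers, ha]
  have hcardP : Nat.card P = 2 ^ (m + 1) := by
    rw [← (Subgroup.zpowers a).card_mul_index, hcardA, hidx, pow_succ]
  have hnab : ¬ IsMulCommutative P := by
    intro h
    have h1 : IsMulCommutative (⊤ : Subgroup P) := ⟨⟨fun x y => Subtype.ext (h.is_comm.comm x.1 y.1)⟩⟩
    have h2 := hn ⊤ inferInstance h1
    exact hnc (isCyclic_of_surjective (Subgroup.topEquiv : _ ≃* P) Subgroup.topEquiv.surjective)
  have hm3 : 3 ≤ m := by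
    by_contra hcon
    have hm' : m = 2 := by omega
    subst hm'
    have hBd : Nat.card B ∣ 2 ^ 3 := hcardP ▸ Subgroup.card_subgroup_dvd_card B
    obtain ⟨k, hk, hkc⟩ := (Nat.dvd_prime_pow Nat.prime_two).mp hBd
    interval_cases k
    · apply hBnc
      rw [pow_zero, Subgroup.card_eq_one] at hkc
      rw [hkc]; infer_instance
    · exact hBnc (isCyclic_of_prime_card (p := 2) (by simpa using hkc))
    · have hi : B.index = 2 := by
        have := B.card_mul_index
        rw [hkc, hcardP] at this
        omega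
      exact hBnc (hn B (Subgroup.normal_of_index_eq_two hi) hBc)
    · have hBt : B = ⊤ := Subgroup.eq_top_of_card_eq B (by rw [hkc, hcardP])
      apply hnab
      subst hBt
      exact ⟨⟨fun x y => congrArg Subtype.val (hBc.is_comm.comm ⟨x, trivial⟩ ⟨y, trivial⟩)⟩⟩
  have hZcyc := hn (Subgroup.center P) inferInstance inferInstance
  have hZle : Nat.card (Subgroup.center P) ≤ 2 := by
    obtain ⟨g, hg⟩ := hZcyc.exists_generator
    rw [← orderOf_eq_card_of_forall_mem_zpowers hg]
    exact Nat.le_of_dvd (by norm_num) (orderOf_dvd_of_pow_eq_one (Subtype.ext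
      (Cfsg.Agent.Lib.Helper14.center_sq_of_structure m a hm2 ha hidx hinv g g.2)))
  have hZ2 : Nat.card (Subgroup.center P) = 2 := by
    have : Nontrivial P := by
      by_contra hcon
      rw [not_nontrivial_iff_subsingleton] at hcon
      exact hnc inferInstance
    have := hP.center_nontrivial
    have := Finite.one_lt_card (α := Subgroup.center P)
    omega
  have hcard := Cfsg.Agent.Lib.Helper14.card_abelian_index_two (Subgroup.zpowers a) inferInstance hidx hnab
  have hidx' : (commutator P).index = 4 := by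
    have h1 := (commutator P).card_mul_index
    rw [hcardP] at h1
    rw [hcardA, hZ2] at hcard
    have hc0 : 0 < Nat.card (commutator P) := Nat.card_pos
    have : Nat.card (commutator P) * (commutator P).index = Nat.card (commutator P) * 4 := by
      rw [h1, pow_succ, hcard]; ring
    exact Nat.eq_of_mul_eq_mul_left hc0 this
  have hclass := Cfsg.Agent.S0115.taussky (m + 1) (by omega) P hcardP hidx'
  rcases Cfsg.Agent.Lib.Helper14.maxclass2_classify (m + 1) (by omega) hcardP hclass with h | h | h
  · right; left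
    refine ⟨2 ^ (m + 1 - 1), ?_, h⟩
    calc 8 = 2 ^ 3 := by norm_num
      _ ≤ 2 ^ (m + 1 - 1) := Nat.pow_le_pow_right (by norm_num) (by omega)
  · right; right; exact h
  · left; exact ⟨_, h⟩

end Cfsg.Agent.S0519
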