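import Cfsg.Statements.S1396
import Cfsg.Agent.Lib.Helper18.Trans
import Cfsg.Agent.Lib.Helper1.Fitting
import Cfsg.Agent.Lib.Helper10.PCons
import Cfsg.Agent.Lib.Helper5.PConstrained
import Cfsg.Agent.Lib.Helper5.PPrimeQuot
import Cfsg.Agent.Lib.Helper13.Alperin
import Cfsg.Agent.S1302
import Mathlib

set_option autoImplicit false
open Cfsg

namespace Cfsg.Agent.S1396

theorem isPConstrained_of_isSolvable {X : Type*} [Group X] [Finite X] (p : ℕ) [Fact p.Prime]
    (h : Group.IsSolvable X) : Cfsg.IsPConstrained p X := by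
  rw [Cfsg.Agent.Lib.Helper5.isPConstrained_iff]
  have h1 : Group.IsSolvable (X ⧸ Cfsg.pPrimeCore p X) := inferInstance
  have h2 := Cfsg.Agent.Lib.Helper10.fitting_eq_pCore_of_pPrimeCore_eq_bot
    (X := X ⧸ Cfsg.pPrimeCore p X) p Cfsg.Agent.Lib.Helper5.pPrimeCore_quot_pPrimeCore
  rw [← h2]
  exact Cfsg.Agent.Lib.Helper1.centralizer_fitting_le

open Subgroup in
/-- `p`-elements centralizing a member of `SCN(P)` lie in it. -/
theorem mem_of_scn {G : Type*} [Group G] [Finite G] (p : ℕ) [Fact p.Prime] (P : Sylow p G)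
    (A : Subgroup G) (hA : Cfsg.IsSCN (P : Subgroup G) A) (x : G)
    (hx : x ∈ centralizer (A : Set G)) (hxp : IsPGroup p (zpowers x)) : x ∈ A := by
  obtain ⟨hAP, hPN, hPC⟩ := hA
  have hAp : IsPGroup p A := P.2.to_le hAP
  have hxN : zpowers x ≤ normalizer (A : Set G) :=
    zpowers_le.2 (centralizer_le_normalizer _ hx)
  have hBp : IsPGroup p (zpowers x ⊔ A : Subgroup G) := hxp.to_sup_of_normal_right' hAp hxN
  have hBN : zpowers x ⊔ A ≤ normalizer (A : Set G) := sup_le hxN le_normalizer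
  have hidx : ¬ p ∣ (P : Subgroup G).relIndex (normalizer (A : Set G)) := by
    intro h
    apply P.not_dvd_index
    rw [← relIndex_mul_index hPN]
    exact h.mul_right _
  obtain ⟨n, hn, hle⟩ := Cfsg.Agent.Lib.Helper13.exists_cj_le_of_sylow P.2 hidx hBN hBp
  have hy : n⁻¹ * x * n ∈ (P : Subgroup G) := by
    apply hle
    rw [Cfsg.Agent.Lib.Helper13.mem_cj]
    have : n * (n⁻¹ * x * n) * n⁻¹ = x := by group
    rw [this]
    exact mem_sup_left (mem_zpowers x)
  have hyC : n⁻¹ * x * n ∈ centralizer (A : Set G) := by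
    rw [mem_centralizer_iff]
    intro a ha
    have h1 : n * a * n⁻¹ ∈ A := le_normalizer_iff.1 (le_refl _) n hn a ha
    have h2 := (mem_centralizer_iff.1 hx) _ h1
    calc a * (n⁻¹ * x * n) = n⁻¹ * ((n * a * n⁻¹) * x) * n := by group
      _ = n⁻¹ * (x * (n * a * n⁻¹)) * n := by rw [h2]
      _ = n⁻¹ * x * n * a := by group
  have hyA : n⁻¹ * x * n ∈ A := hPC ▸ mem_inf.2 ⟨hy, hyC⟩
  have := le_normalizer_iff.1 (le_refl _) n hn _ hyA
  have e : n * (n⁻¹ * x * n) * n⁻¹ = x := by group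
  rwa [e] at this

/-- Let G be a minimal simple group of odd order, p a prime dividing the order of G and A an abelian p-subgroup. Suppose either (1) A consists exactly of the elements x of C_G(A) with x^p = 1, and every proper subgroup of G has p-length at most one, or (2) A is normal and self-centralizing in some Sylow p-subgroup of G and has rank at least 2. Then A satisfies the transitivity hypothesis. -/
theorem result {G : Type*} [Group G] [Finite G] (hG : Cfsg.IsMinSimpleOddOrder G)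
    (p : ℕ) [Fact p.Prime] (hp : p ∣ Nat.card G) (A : Subgroup G) (hAp : IsPGroup p A) (hAc : IsMulCommutative A)
    (h : (∀ x ∈ Subgroup.centralizer (A : Set G), x ^ p = 1 ↔ x ∈ A) ∧ (∀ H : Subgroup G, H ≠ ⊤ → Cfsg.PLengthLE p 1 H) ∨
      ∃ P : Sylow p G, Cfsg.IsSCN (P : Subgroup G) A ∧ ¬ Cfsg.PRankLE p 1 A) :
    Cfsg.TransitivityHypothesis A := by
  open Subgroup Cfsg.Agent.Lib.Helper18.Trans in
  have hpp : p.Prime := Fact.out
  have hp2 : p ≠ 2 := by
    rintro rfl
    exact (Nat.not_even_iff_odd.2 hG.1) (even_iff_two_dvd.2 hp)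
  have hΩ : ∀ x ∈ centralizer (A : Set G), orderOf x = p → x ∈ A := by
    intro x hx ho
    rcases h with ⟨h1, -⟩ | ⟨P, hP, -⟩
    · exact (h1 x hx).1 (by rw [← ho, pow_orderOf_eq_one])
    · apply mem_of_scn p P A hP x hx
      apply IsPGroup.of_card (n := 1)
      rw [Nat.card_zpowers, ho, pow_one]
  have hAbot : A ≠ ⊥ := by
    intro hA
    rcases h with ⟨h1, -⟩ | ⟨P, -, hr⟩
    · obtain ⟨x, hx⟩ := exists_prime_orderOf_dvd_card' p hp
      have h2 : x ∈ A := hΩ x (by
        rw [mem_centralizer_iff]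
        intro a ha
        have : a = 1 := by rw [hA] at ha; exact mem_bot.1 ha
        rw [this]; simp) hx
      rw [hA, mem_bot] at h2
      rw [h2, orderOf_one] at hx
      exact hpp.one_lt.ne hx
    · unfold Cfsg.PRankLE at hr
      push Not at hr
      obtain ⟨A₀, -, -, hA₀⟩ := hr
      have h2 : Nat.card A₀ ≤ Nat.card A := card_le_card_group _
      have h3 : Nat.card A = 1 := by rw [hA, card_bot]
      rw [h3] at h2
      have := hpp.one_lt
      rw [pow_one] at hA₀
      omega
  have hAtop : A ≠ ⊤ := by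
    intro hA
    apply hG.2.2.1
    refine ⟨⟨fun x y => ?_⟩⟩
    have := hAc.is_comm.comm (⟨x, hA ▸ mem_top x⟩ : A) ⟨y, hA ▸ mem_top y⟩
    exact congrArg Subtype.val this
  obtain ⟨n, hn⟩ := IsPGroup.iff_card.mp hAp
  have hn0 : n ≠ 0 := by
    rintro rfl
    rw [pow_zero] at hn
    exact hAbot (card_eq_one.1 hn)
  refine ⟨hAbot, hAtop, fun X hX hAX => le_antisymm (sSup_le ?_) (le_sSup ?_)⟩
  · rintro U ⟨hUX, hUπ, hAU⟩
    have hUp : ¬ p ∣ Nat.card U := fun hd => (hUπ p hpp hd).2 (hn ▸ dvd_pow_self p hn0)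
    have hc : IsMulCommutative (A.subgroupOf X) := inferInstance
    have key := Cfsg.Agent.S1302.result p hp2
      (isPConstrained_of_isSolvable p (hG.2.2.2 X hX)) (A.subgroupOf X) hc hAp.comap_subtype
      (by
        intro x hx ho
        rw [mem_subgroupOf]
        apply hΩ
        · rw [mem_centralizer_iff]
          intro e he
          have := (mem_centralizer_iff.1 hx) ⟨e, hAX he⟩ (mem_subgroupOf.2 he)
          exact congrArg Subtype.val this
        · rw [Subgroup.orderOf_coe]; exact ho)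
      (U.subgroupOf X) (by rwa [Cfsg.Agent.Lib.Helper1.card_subgroupOf_of_le hUX])
      (by
        rw [le_normalizer_iff]
        intro e he u hu
        rw [mem_subgroupOf] at he hu ⊢
        exact le_normalizer_iff.1 hAU _ he _ hu)
    have h3 : Cfsg.pPrimeCore p ↥X ≤ Cfsg.piCore (Cfsg.primesNotDvd (Nat.card A)) ↥X := by
      apply le_sSup
      refine ⟨inferInstance, fun r hr hd => ⟨hr, fun h4 => ?_⟩⟩
      rw [hn] at h4
      have h5 : r = p := (Nat.prime_dvd_prime_iff_eq hr hpp).1 (hr.dvd_of_dvd_pow h4)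
      rw [h5] at hd
      exact (Nat.Prime.coprime_iff_not_dvd hpp).1
        (Cfsg.Agent.Lib.Helper5.pPrimeCore_coprime (p := p) (G := ↥X)).symm hd
    intro u hu
    exact ⟨⟨u, hUX hu⟩, h3 (key (mem_subgroupOf.2 hu)), rfl⟩
  · exact ⟨piCoreOf_le _ _, piCoreOf_pi _ _, hAX.trans (le_normalizer_piCoreOf _ _)⟩

end Cfsg.Agent.S1396
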