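import Cfsg.Statements.S0522
import Cfsg.Agent.S1480
import Cfsg.Agent.S1396
import Mathlib

set_option autoImplicit false
open Cfsg

namespace Cfsg.Agent.S0522

/-- Transitivity Theorem (odd-order setting). Let X be a finite group of odd order in which the normalizer of every
nontrivial p-subgroup is solvable, P a Sylow p-subgroup, and B an abelian subgroup of P, normalized by P, with
C_P(B) = B and containing an elementary abelian subgroup of order p^3. Then for every prime q ≠ p, any two q-subgroups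
that are maximal among the q-subgroups normalized by B are conjugate by an element of the centralizer of B. -/
theorem result {X : Type*} [Group X] [Finite X] (hX : Odd (Nat.card X)) (p : ℕ)
    [Fact p.Prime] (hloc : ∀ T : Subgroup X, IsPGroup p T → T ≠ ⊥ → Group.IsSolvable (Subgroup.normalizer (T : Set X)))
    (P : Sylow p X) (B : Subgroup X) (hBP : B ≤ (P : Subgroup X))
    (hBn : ∀ x ∈ (P : Subgroup X), ∀ b ∈ B, x * b * x⁻¹ ∈ B) (hBa : IsMulCommutative B)
    (hBc : (P : Subgroup X) ⊓ Subgroup.centralizer (B : Set X) = B)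
    (hB3 : ∃ E : Subgroup X, E ≤ B ∧ (∀ e ∈ E, e ^ p = 1) ∧ p ^ 3 ≤ Nat.card E)
    (q : ℕ) [Fact q.Prime] (hqp : q ≠ p) (Q₁ Q₂ : Subgroup X)
    (h₁ : IsPGroup q Q₁ ∧ B ≤ Subgroup.normalizer (Q₁ : Set X) ∧
      ∀ R : Subgroup X, IsPGroup q R → B ≤ Subgroup.normalizer (R : Set X) → Q₁ ≤ R → R = Q₁)
    (h₂ : IsPGroup q Q₂ ∧ B ≤ Subgroup.normalizer (Q₂ : Set X) ∧
      ∀ R : Subgroup X, IsPGroup q R → B ≤ Subgroup.normalizer (R : Set X) → Q₂ ≤ R → R = Q₂) :
    ∃ c ∈ Subgroup.centralizer (B : Set X), Q₂ = Q₁.map (MulAut.conj c).toMonoidHom := by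
  open Subgroup in
  have hpp : p.Prime := Fact.out
  have hqq : q.Prime := Fact.out
  obtain ⟨E, hEB, hEe, hE3⟩ := hB3
  have hp2 : p ≠ 2 := by
    rintro rfl
    have h1 : Nat.card (P : Subgroup X) = 1 := by
      obtain ⟨n, hn⟩ := IsPGroup.iff_card.1 P.2
      have h2 : Nat.card (P : Subgroup X) ∣ Nat.card X := Subgroup.card_subgroup_dvd_card _
      rcases Nat.eq_zero_or_pos n with rfl | hn0
      · simpa using hn
      · exfalso
        have : 2 ∣ Nat.card X := (hn ▸ dvd_pow_self 2 hn0.ne').trans h2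
        exact (Nat.not_even_iff_odd.2 hX) (even_iff_two_dvd.2 this)
    have h3 : Nat.card E ≤ 1 := h1 ▸ Nat.le_of_dvd (by rw [h1]; norm_num)
      (Subgroup.card_dvd_of_le (hEB.trans hBP))
    omega
  have hscn : Cfsg.IsSCN (P : Subgroup X) B :=
    ⟨hBP, Subgroup.le_normalizer_iff.2 hBn, hBc⟩
  have hinv : ∀ Q : Subgroup X, (IsPGroup q Q ∧ B ≤ Subgroup.normalizer (Q : Set X) ∧
      ∀ R : Subgroup X, IsPGroup q R → B ≤ Subgroup.normalizer (R : Set X) → Q ≤ R → R = Q) →
      Q ∈ Cfsg.maxInvSubgroups ⊤ B {q} := by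
    rintro Q ⟨h1, h2, h3⟩
    refine ⟨⟨le_top, ?_, h2⟩, ?_⟩
    · intro r hr hrd
      obtain ⟨n, hn⟩ := IsPGroup.iff_card.1 h1
      rw [hn] at hrd
      exact (Nat.prime_dvd_prime_iff_eq hr hqq).1 (hr.dvd_of_dvd_pow hrd)
    · rintro R ⟨-, hR1, hR2⟩ hQR
      refine h3 R ?_ hR2 hQR
      refine IsPGroup.of_card (n := (Nat.card R).primeFactorsList.length) ?_
      exact Nat.eq_prime_pow_of_unique_prime_dvd Nat.card_pos.ne' (fun {r} hr hrd => hR1 r hr hrd)
  obtain ⟨k, hk, hk2⟩ := Cfsg.Agent.S1480.result p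
    (fun T hT hT1 => Cfsg.Agent.S1396.isPConstrained_of_isSolvable p (hloc T hT hT1))
    (fun h => absurd h hp2) B (P.2.to_le hBP) hBa
    (by
      intro h
      have h1 := h (E.subgroupOf B) ?_ ?_
      · rw [Nat.card_congr (Subgroup.subgroupOfEquivOfLe hEB).toEquiv] at h1
        have : p ^ 2 < p ^ 3 := Nat.pow_lt_pow_right hpp.one_lt (by norm_num)
        omega
      · exact ⟨⟨fun a b => Subtype.ext (Subtype.ext (by
          have := hBa.is_comm.comm a.1 b.1
          exact congrArg Subtype.val this))⟩⟩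
      · intro a ha
        exact Subtype.ext (hEe a.1 ha))
    (fun x hx hxp => Cfsg.Agent.S1396.mem_of_scn p P B hscn x hx hxp)
    q hqp Q₁ (hinv Q₁ h₁) Q₂ (hinv Q₂ h₂)
  refine ⟨k, ?_, hk2⟩
  obtain ⟨y, -, rfl⟩ := hk
  exact y.2

end Cfsg.Agent.S0522
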