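import Cfsg.Statements.S0671
-- import your own Cfsg.Agent.* helpers here
import Cfsg.Agent.Lib.Helper29.PermMod

set_option autoImplicit false
open Cfsg

namespace Cfsg.Agent.S0671

open Cfsg.Agent.Lib.Helper29.PermMod

/-- If the heart of the permutation module in characteristic `p` of a transitive action of degree `p ^ f` has no trivial composition factor, the action is doubly transitive. The hypothesis is phrased without composition series: no invariant subspaces `W < W'` between the constants and the sum-zero functions with trivial action on the quotient. -/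
theorem result {G : Type*} [Group G] [Finite G] {K : Type*} [Field K] {p f : ℕ} [Fact p.Prime] [CharP K p] {Ω : Type*} [Fintype Ω] [MulAction G Ω] [MulAction.IsPretransitive G Ω] (hf : 1 ≤ f) (hcard : Fintype.card Ω = p ^ f) (h : ∀ W W' : Subrepresentation (Cfsg.permRep K G Ω), (Cfsg.permConstants K G Ω).toSubmodule ≤ W.toSubmodule → W.toSubmodule < W'.toSubmodule → W'.toSubmodule ≤ (Cfsg.permSumZero K G Ω).toSubmodule → ∃ g : G, ∃ v ∈ W'.toSubmodule, Cfsg.permRep K G Ω g v - v ∉ W.toSubmodule) : MulAction.IsMultiplyPretransitive G Ω 2 := by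
  classical
  rw [MulAction.is_two_pretransitive_iff]
  intro a b c₀ d₀ hab hcd₀
  set R : Ω → Ω → Prop := fun x y => ∃ g : G, g • a = x ∧ g • b = y with hRdef
  have hR : ∀ (g : G) x y, R (g • x) (g • y) ↔ R x y := by
    intro g x y
    constructor
    · rintro ⟨k, h1, h2⟩
      exact ⟨g⁻¹ * k, by rw [mul_smul, h1, inv_smul_smul], by rw [mul_smul, h2, inv_smul_smul]⟩
    · rintro ⟨k, h1, h2⟩
      exact ⟨g * k, by rw [mul_smul, h1], by rw [mul_smul, h2]⟩
  have hRab : R a b := ⟨1, one_smul _ _, one_smul _ _⟩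
  have hRne : ∀ x, ¬ R x x := fun x ⟨g, h1, h2⟩ => hab (smul_left_cancel g (h1.trans h2.symm))
  suffices hall : ∀ y, y ≠ a → R a y by
    obtain ⟨g, hg⟩ := MulAction.exists_smul_eq G a c₀
    have h1 : R a (g⁻¹ • d₀) := hall _ (by intro h; apply hcd₀; rw [← hg, ← h, smul_inv_smul])
    have h2 := (hR g a (g⁻¹ • d₀)).mpr h1
    rwa [hg, smul_inv_smul] at h2
  set RT : Ω → Ω → Prop := fun x y => R y x with hRTdef
  have hRT : ∀ (g : G) x y, RT (g • x) (g • y) ↔ RT x y := fun g x y => hR g y x
  set one : Ω → K := fun _ => 1 with hone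
  set u := adj K RT one with hu
  have hua : ∀ x, u x = u a := by
    intro x
    obtain ⟨g, hg⟩ := MulAction.exists_smul_eq G x a
    have h1 := congrFun (adj_comm (K := K) hRT g one) a
    have h2 : Cfsg.permRep K G Ω g one = one := rfl
    rw [h2] at h1
    have h3 : Cfsg.permRep K G Ω g (adj K RT one) a = adj K RT one (g⁻¹ • a) := rfl
    rw [h3, ← hg, inv_smul_smul] at h1
    rw [hu, ← h1, hg]
  set d : K := u a with hd
  set ψ : (Ω → K) →ₗ[K] (Ω → K) := adj K R - d • LinearMap.id with hψ
  set ψT : (Ω → K) →ₗ[K] (Ω → K) := adj K RT - d • LinearMap.id with hψT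
  have hψcomm : ∀ g f, ψ (Cfsg.permRep K G Ω g f) = Cfsg.permRep K G Ω g (ψ f) := by
    intro g f
    simp only [hψ, LinearMap.sub_apply, LinearMap.smul_apply, LinearMap.id_apply, adj_comm hR, map_sub, map_smul]
  have hψTcomm : ∀ g f, ψT (Cfsg.permRep K G Ω g f) = Cfsg.permRep K G Ω g (ψT f) := by
    intro g f
    simp only [hψT, LinearMap.sub_apply, LinearMap.smul_apply, LinearMap.id_apply, adj_comm hRT, map_sub, map_smul]
  have hpair : ∀ f h : Ω → K, ∑ x, ψ f x * h x = ∑ y, f y * ψT h y := by
    intro f h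
    simp only [hψ, hψT, LinearMap.sub_apply, LinearMap.smul_apply, LinearMap.id_apply, Pi.sub_apply,
      Pi.smul_apply, smul_eq_mul, sub_mul, mul_sub, Finset.sum_sub_distrib]
    rw [adj_pair R f h]
    congr 1
    exact Finset.sum_congr rfl fun x _ => by ring
  have hsum : ∀ f, ∑ x, ψ f x = 0 := by
    intro f
    have h1 := hpair f one
    have h2 : ∀ y, ψT one y = 0 := by
      intro y
      simp only [hψT, LinearMap.sub_apply, LinearMap.smul_apply, LinearMap.id_apply, Pi.sub_apply,
        Pi.smul_apply, smul_eq_mul]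
      change u y - d * 1 = 0
      rw [hua y, mul_one, sub_self]
    simp only [h2, mul_zero, Finset.sum_const_zero] at h1
    simpa [hone] using h1
  let W' : Subrepresentation (Cfsg.permRep K G Ω) :=
    ⟨LinearMap.range ψ, by rintro g _ ⟨f, rfl⟩; exact ⟨Cfsg.permRep K G Ω g f, hψcomm g f⟩⟩
  let W : Subrepresentation (Cfsg.permRep K G Ω) :=
    ⟨(Cfsg.permSumZero K G Ω).toSubmodule.map ψ, by
      rintro g _ ⟨f, hf, rfl⟩
      exact ⟨Cfsg.permRep K G Ω g f, (Cfsg.permSumZero K G Ω).apply_mem_toSubmodule g hf, hψcomm g f⟩⟩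
  by_cases hW0 : W.toSubmodule = ⊥
  · have hz : ∀ y, ψ (Pi.single y 1) a = ψ (Pi.single a 1) a := by
      intro y
      have h1 : ψ (Pi.single y 1 - Pi.single a 1) ∈ W.toSubmodule := by
        refine ⟨_, ?_, rfl⟩
        change ∑ x, (Pi.single y 1 - Pi.single a 1 : Ω → K) x = 0
        simp [Finset.sum_sub_distrib]
      rw [hW0, Submodule.mem_bot, map_sub, sub_eq_zero] at h1
      rw [h1]
    have hval : ∀ y, y ≠ a → ψ (Pi.single y 1) a = if R a y then 1 else 0 := by
      intro y hy
      simp only [hψ, LinearMap.sub_apply, LinearMap.smul_apply, LinearMap.id_apply, Pi.sub_apply,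
        Pi.smul_apply, smul_eq_mul, adj_single]
      simp [Pi.single_apply, Ne.symm hy]
    intro y hy
    have h1 := hval y hy
    have h2 := hval b hab.symm
    rw [hz y] at h1
    rw [hz b, if_pos hRab] at h2
    rw [h2] at h1
    by_contra hcon
    rw [if_neg hcon] at h1
    exact one_ne_zero h1
  · exfalso
    have hC := const_le hcard W hW0
    have hWW' : W.toSubmodule ≤ W'.toSubmodule := by rintro _ ⟨f, _, rfl⟩; exact ⟨f, rfl⟩
    have hW'S : W'.toSubmodule ≤ (Cfsg.permSumZero K G Ω).toSubmodule := by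
      rintro _ ⟨f, rfl⟩; exact hsum f
    by_cases heq : W.toSubmodule = W'.toSubmodule
    · have h1 : ψ (Pi.single a 1) ∈ W.toSubmodule := by rw [heq]; exact ⟨_, rfl⟩
      obtain ⟨s, hs, hs'⟩ := h1
      have hs0 : ∑ x, s x = 0 := hs
      let WT : Subrepresentation (Cfsg.permRep K G Ω) :=
        ⟨LinearMap.range ψT, by rintro g _ ⟨f, rfl⟩; exact ⟨Cfsg.permRep K G Ω g f, hψTcomm g f⟩⟩
      by_cases hT : WT.toSubmodule = ⊥
      · have h2 : ψT (Pi.single a 1) ∈ WT.toSubmodule := ⟨_, rfl⟩
        rw [hT, Submodule.mem_bot] at h2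
        have h3 := congrFun h2 b
        simp only [hψT, LinearMap.sub_apply, LinearMap.smul_apply, LinearMap.id_apply, Pi.sub_apply,
          Pi.smul_apply, smul_eq_mul, adj_single] at h3
        have h4 : RT b a := hRab
        rw [if_pos h4] at h3
        simp [Pi.single_apply, hab.symm] at h3
      · have h2 := const_le hcard WT hT
        have h3 : one ∈ WT.toSubmodule := h2 (Submodule.mem_span_singleton_self _)
        obtain ⟨hh, hhh⟩ := h3
        have h4 := hpair (Pi.single a 1 - s) hh
        rw [map_sub, hs', sub_self, hhh] at h4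
        simp [hone, Finset.sum_sub_distrib, hs0] at h4
    · obtain ⟨g, v, hv, hnot⟩ := h W W' hC (lt_of_le_of_ne hWW' heq) hW'S
      obtain ⟨f, rfl⟩ := hv
      apply hnot
      refine ⟨Cfsg.permRep K G Ω g f - f, ?_, ?_⟩
      · change ∑ x, (f (g⁻¹ • x) - f x) = 0
        rw [Finset.sum_sub_distrib, sub_eq_zero]
        exact Fintype.sum_equiv (MulAction.toPerm g⁻¹) _ _ fun x => rfl
      · rw [map_sub, hψcomm]

end Cfsg.Agent.S0671
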