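import Cfsg.Statements.S0678
-- import your own Cfsg.Agent.* helpers here
import Mathlib
import Cfsg.Agent.Lib.Helper29.PrimeDeg3
import Cfsg.Agent.Lib.Helper29.Sharp3
import Cfsg.Agent.S0675
import Cfsg.Agent.S0676

set_option autoImplicit false
open Cfsg

namespace Cfsg.Agent.S0678

section aux
open MulAction

variable {α : Type*} [Fintype α] [DecidableEq α]

theorem supp_ge (G : Subgroup (Equiv.Perm α)) (hprim : IsPreprimitive G α)
    (hA : ¬ alternatingGroup α ≤ G) {g : Equiv.Perm α} (hg : g ∈ G) (h1 : g ≠ 1) :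
    4 ≤ g.support.card := by
  by_contra h
  push Not at h
  have h0 : g.support.card ≠ 0 := by
    rw [Ne, Equiv.Perm.card_support_eq_zero]; exact h1
  have h1' := Equiv.Perm.card_support_ne_one g
  have h2 : g.support.card ≠ 2 := by
    intro h2
    have := Equiv.Perm.subgroup_eq_top_of_isPreprimitive_of_isSwap_mem hprim g
      (Equiv.Perm.card_support_eq_two.mp h2) hg
    exact hA (this ▸ le_top)
  have h3 : g.support.card ≠ 3 := by
    intro h3
    exact hA (Equiv.Perm.alternatingGroup_le_of_isPreprimitive_of_isThreeCycle_mem hprim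
      (card_support_eq_three_iff.mp h3) hg)
  omega

theorem supp_le (g : Equiv.Perm α) (s : Finset α) (hs : ∀ x ∈ s, g x = x) :
    g.support.card + s.card ≤ Fintype.card α := by
  have hd : Disjoint g.support s := by
    rw [Finset.disjoint_left]
    intro x hx hxs
    exact (Equiv.Perm.mem_support.mp hx) (hs x hxs)
  rw [← Finset.card_union_of_disjoint hd]
  exact Finset.card_le_univ _

theorem card_le (hα : Fintype.card α = 7) (G : Subgroup (Equiv.Perm α))
    (hsupp : ∀ g ∈ G, g ≠ 1 → 4 ≤ g.support.card) : Nat.card G ≤ 840 := by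
  obtain ⟨x₀⟩ : Nonempty (Fin 4 ↪ α) := Function.Embedding.nonempty_of_card_le (by simp [hα])
  have hinj : Function.Injective (fun g : G => (g • x₀ : Fin 4 ↪ α)) := by
    intro g g' h
    by_contra hne
    have hk : ((g⁻¹ * g' : G) : Equiv.Perm α) ≠ 1 := by
      intro h1
      apply hne
      have : g⁻¹ * g' = 1 := Subtype.ext h1
      exact (inv_mul_eq_one.mp this)
    have h4 := hsupp _ (g⁻¹ * g').2 hk
    have h5 := supp_le ((g⁻¹ * g' : G) : Equiv.Perm α) (Finset.univ.map x₀) (by
      intro x hx
      obtain ⟨i, -, rfl⟩ := Finset.mem_map.mp hx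
      have hi : (g : Equiv.Perm α) (x₀ i) = (g' : Equiv.Perm α) (x₀ i) := DFunLike.congr_fun h i
      change (g : Equiv.Perm α)⁻¹ ((g' : Equiv.Perm α) (x₀ i)) = x₀ i
      rw [← hi]; simp)
    rw [Finset.card_map, Finset.card_univ, Fintype.card_fin, hα] at h5
    omega
  calc Nat.card G ≤ Nat.card (Fin 4 ↪ α) := Nat.card_le_card_of_injective _ hinj
    _ = 840 := by
      rw [Nat.card_eq_fintype_card, Fintype.card_embedding_eq, hα, Fintype.card_fin]
      rfl

/-- order-3 elements of `G` fix at most one point -/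
theorem no_three (hα : Fintype.card α = 7) (g : Equiv.Perm α) (h4 : 4 ≤ g.support.card)
    (ho : orderOf g = 3) {a b : α} (hab : a ≠ b) (ha : g a = a) (hb : g b = b) : False := by
  obtain ⟨n, hn⟩ := Equiv.Perm.cycleType_prime_order (σ := g) (by rw [ho]; norm_num)
  have h1 := Equiv.Perm.sum_cycleType g
  rw [hn, Multiset.sum_replicate, ho] at h1
  have h2 := supp_le g {a, b} (by
    intro x hx
    rcases Finset.mem_insert.mp hx with rfl | hx
    · exact ha
    · rw [Finset.mem_singleton.mp hx]; exact hb)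
  rw [Finset.card_pair hab, hα] at h2
  simp only [smul_eq_mul] at h1
  omega

theorem centralizer_card (hα : Fintype.card α = 7) (G : Subgroup (Equiv.Perm α))
    [IsPretransitive G α] [Fact (Nat.Prime 7)] (P : Sylow 7 G) :
    Nat.card (Subgroup.centralizer ((P : Subgroup G) : Set G)) = 7 := by
  have hP := Cfsg.Agent.Lib.Helper29.PrimeDeg.sylow_card hα G P
  haveI hcyc : IsCyclic (P : Subgroup G) := isCyclic_of_prime_card hP
  obtain ⟨c, hc⟩ := exists_prime_orderOf_dvd_card' (G := (P : Subgroup G)) 7 (by rw [hP])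
  set σ : Equiv.Perm α := ((c : G) : Equiv.Perm α) with hσ
  have ho : orderOf σ = 7 := by rw [hσ, Subgroup.orderOf_coe, Subgroup.orderOf_coe, hc]
  obtain ⟨n, hn⟩ := Equiv.Perm.cycleType_prime_order (σ := σ) (by rw [ho]; norm_num)
  have h1 := Equiv.Perm.sum_cycleType σ
  have h2 : σ.support.card ≤ 7 := hα ▸ Finset.card_le_univ _
  rw [hn, Multiset.sum_replicate, ho] at h1
  simp only [smul_eq_mul] at h1
  have hn0 : n = 0 := by omega
  rw [hn0, ho] at hn
  have h3 := Equiv.Perm.nat_card_centralizer σ
  rw [hn, hα] at h3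
  simp at h3
  have hinj : Function.Injective (fun g : Subgroup.centralizer ((P : Subgroup G) : Set G) =>
      (⟨((g : G) : Equiv.Perm α), by
        rw [Subgroup.mem_centralizer_singleton_iff]
        have := (Subgroup.mem_centralizer_iff.mp g.2) c c.2
        exact (congrArg Subtype.val this).symm⟩ : Subgroup.centralizer {σ})) := by
    intro g g' h
    apply Subtype.ext
    apply Subtype.ext
    exact congrArg (fun x : Subgroup.centralizer {σ} => (x : Equiv.Perm α)) h
  have h4 := Nat.card_le_card_of_injective _ hinj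
  have h5 : Nat.card (P : Subgroup G) ≤ Nat.card (Subgroup.centralizer ((P : Subgroup G) : Set G)) :=
    Subgroup.card_le_of_le (Subgroup.le_centralizer _)
  omega

theorem normalizer_card (hα : Fintype.card α = 7) (G : Subgroup (Equiv.Perm α))
    [IsPretransitive G α] [Fact (Nat.Prime 7)] (P : Sylow 7 G) :
    ∃ k, k ∣ 6 ∧ Nat.card (Subgroup.normalizer ((P : Subgroup G) : Set G)) = 7 * k := by
  have hP := Cfsg.Agent.Lib.Helper29.PrimeDeg.sylow_card hα G P
  haveI hcyc : IsCyclic (P : Subgroup G) := isCyclic_of_prime_card hP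
  have key := Subgroup.card_dvd_of_injective _
    (QuotientGroup.kerLift_injective (P : Subgroup G).normalizerMonoidHom)
  rw [Subgroup.normalizerMonoidHom_ker, ← Subgroup.index, ← Subgroup.relIndex, hcyc.card_mulAut,
    hP] at key
  refine ⟨_, key, ?_⟩
  have h1 := Subgroup.relIndex_mul_relIndex ⊥ _ _ bot_le
    (Subgroup.centralizer_le_normalizer ((P : Subgroup G) : Set G))
  rw [Subgroup.relIndex_bot_left, Subgroup.relIndex_bot_left, centralizer_card hα G P] at h1
  exact h1.symm

theorem dvd_of_trans (hα : Fintype.card α = 7) {K : Type*} [Group K] [MulAction K α]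
    [IsPretransitive K α] : 7 ∣ Nat.card K := by
  have hne : Nonempty α := by
    rw [← Fintype.card_pos_iff, hα]; norm_num
  obtain ⟨t⟩ := hne
  have h1 := MulAction.index_stabilizer_of_transitive K t
  rw [Nat.card_eq_fintype_card, hα] at h1
  rw [← h1]
  exact Subgroup.index_dvd_card _

theorem eq_bot_of_fixed (G : Subgroup (Equiv.Perm α)) (K : Subgroup G)
    (hfix : fixedPoints K α = Set.univ) : K = ⊥ := by
  rw [eq_bot_iff]
  intro g hg
  rw [Subgroup.mem_bot]
  apply Subtype.ext
  ext x
  have hx : x ∈ fixedPoints K α := hfix ▸ Set.mem_univ x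
  exact hx ⟨g, hg⟩

theorem normalizer_ne (hα : Fintype.card α = 7) (G : Subgroup (Equiv.Perm α))
    [IsPretransitive G α] (hprim : IsPreprimitive G α) [Fact (Nat.Prime 7)] (P : Sylow 7 G)
    (hN : Nat.card (Subgroup.normalizer ((P : Subgroup G) : Set G)) = 7) : Nat.card G = 7 := by
  have hP := Cfsg.Agent.Lib.Helper29.PrimeDeg.sylow_card hα G P
  have hC := centralizer_card hα G P
  have hle : Subgroup.normalizer ((P : Subgroup G) : Set G) ≤
      Subgroup.centralizer ((P : Subgroup G) : Set G) := by
    have := Subgroup.eq_of_le_of_card_ge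
      (Subgroup.centralizer_le_normalizer ((P : Subgroup G) : Set G)) (by rw [hN, hC])
    exact this.ge
  have hcomp := MonoidHom.ker_transferSylow_isComplement' P hle
  have hnd := MonoidHom.not_dvd_card_ker_transferSylow P hle
  have hcard := hcomp.card_mul_card
  by_cases hfix : fixedPoints (MonoidHom.transferSylow P hle).ker α = Set.univ
  · rw [eq_bot_of_fixed G _ hfix, Subgroup.card_bot, one_mul, hP] at hcard
    exact hcard.symm
  · haveI := IsQuasiPreprimitive.isPretransitive_of_normal
      (N := (MonoidHom.transferSylow P hle).ker) hfix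
    exact absurd (dvd_of_trans hα) hnd

theorem arith (h k n : ℕ) (h1 : h * 42 = 7 * k * n) (hk : k ∣ 6) (hn : n % 7 = 1)
    (hle : h * 42 ≤ 840) (hd : h * 42 ∣ 5040) (h3 : ¬ 3 ∣ h) :
    (h = 1 ∧ k = 6) ∨ (h = 4 ∧ k = 3) ∨ (h = 5 ∧ k = 2) ∨ (h = 8 ∧ k = 6) ∨ (h = 20 ∧ k = 1) := by
  have hh : h ≤ 20 := by omega
  have hk' : k ≤ 6 := Nat.le_of_dvd (by norm_num) hk
  interval_cases h <;> interval_cases k <;> omega

theorem card_emb (hα : Fintype.card α = 7) (G : Subgroup (Equiv.Perm α)) (m : ℕ)
    (hm : IsMultiplyPretransitive G α m) (x : Fin m ↪ α) :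
    Nat.card (stabilizer G x) * (7).descFactorial m = Nat.card G := by
  have h1 : (stabilizer G x).index = Nat.card (Fin m ↪ α) := by
    rw [MulAction.index_stabilizer, @MulAction.orbit_eq_univ _ _ _ _ hm, Set.ncard_univ]
  rw [Nat.card_eq_fintype_card, Fintype.card_embedding_eq, hα, Fintype.card_fin] at h1
  rw [← h1]
  exact Subgroup.card_mul_index _

theorem not_sharp3 (hα : Fintype.card α = 7) (G : Subgroup (Equiv.Perm α))
    (h3 : IsMultiplyPretransitive G α 3) (hc : Nat.card G = 210) : False := by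
  have hs : Cfsg.Agent.Lib.Helper29.Sharp3.IsSharp3 G := by
    apply Cfsg.Agent.Lib.Helper29.Sharp3.isSharp3_of h3
    intro x
    have := card_emb hα G 3 h3 x
    rw [hc] at this
    have h210 : (7).descFactorial 3 = 210 := rfl
    rw [h210] at this
    exact Subgroup.card_eq_one.mp (by omega)
  have hne : Nonempty α := by
    rw [← Fintype.card_pos_iff, hα]; norm_num
  obtain ⟨w⟩ := hne
  obtain ⟨K, _, c, -⟩ := Cfsg.Agent.Lib.Helper29.Sharp3.exists_coord hs (by rw [hα]; decide)
    (by rw [hα]; norm_num) w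
  haveI : Fintype K := Fintype.ofEquiv _ c
  have hK : Fintype.card K = 6 := by
    rw [← Fintype.card_congr c, Fintype.card_subtype_compl, Fintype.card_subtype_eq, hα]
  obtain ⟨p, _, n, hp, hpn⟩ := FiniteField.card' K
  rw [hK] at hpn
  have h2 : 2 ∣ p ^ (n : ℕ) := hpn ▸ (by norm_num)
  have h3 : 3 ∣ p ^ (n : ℕ) := hpn ▸ (by norm_num)
  have e2 := (Nat.prime_dvd_prime_iff_eq Nat.prime_two hp).mp (Nat.prime_two.dvd_of_dvd_pow h2)
  have e3 := (Nat.prime_dvd_prime_iff_eq Nat.prime_three hp).mp (Nat.prime_three.dvd_of_dvd_pow h3)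
  omega

theorem card_eq (hα : Fintype.card α = 7) (G : Subgroup (Equiv.Perm α)) [IsPretransitive G α]
    (hG : ¬ Group.IsSolvable G) (hA : ¬ alternatingGroup α ≤ G) [Fact (Nat.Prime 7)]
    (P : Sylow 7 G) :
    Nat.card G = 168 ∧ Nat.card (Subgroup.normalizer ((P : Subgroup G) : Set G)) = 21 := by
  have h2 : IsMultiplyPretransitive G α 2 :=
    (Cfsg.Agent.S0675.result (hα ▸ (by norm_num)) G).resolve_left hG
  have hprim : IsPreprimitive G α := isPreprimitive_of_is_two_pretransitive h2
  have hsupp : ∀ g ∈ G, g ≠ 1 → 4 ≤ g.support.card := fun g hg h1 => supp_ge G hprim hA hg h1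
  have hle := card_le hα G hsupp
  have hdvd : Nat.card G ∣ 5040 := by
    have := Subgroup.card_subgroup_dvd_card G
    rwa [Nat.card_eq_fintype_card (α := Equiv.Perm α), Fintype.card_perm, hα] at this
  obtain ⟨a, b, hab⟩ := Fintype.one_lt_card_iff.mp (by rw [hα]; norm_num : 1 < Fintype.card α)
  have hidx : (fixingSubgroup G ({a, b} : Set α)).index = 42 := by
    have := h2.index_of_fixingSubgroup_mul (s := {a, b}) (Set.ncard_pair hab)
    rw [Nat.card_eq_fintype_card, hα] at this
    have h5 : (7 - 2).factorial = 120 := rfl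
    have h7 : (7).factorial = 5040 := rfl
    rw [h5, h7] at this
    omega
  have hGH := (fixingSubgroup G ({a, b} : Set α)).card_mul_index
  rw [hidx] at hGH
  have h3 : ¬ 3 ∣ Nat.card (fixingSubgroup G ({a, b} : Set α)) := by
    intro h
    obtain ⟨g, hg⟩ := exists_prime_orderOf_dvd_card' (G := fixingSubgroup G ({a, b} : Set α)) 3 h
    have ho : orderOf ((g : G) : Equiv.Perm α) = 3 := by
      rw [Subgroup.orderOf_coe, Subgroup.orderOf_coe, hg]
    have hg1 : ((g : G) : Equiv.Perm α) ≠ 1 := by
      intro h1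
      rw [h1, orderOf_one] at ho
      norm_num at ho
    refine no_three hα _ (hsupp _ (g : G).2 hg1) ho hab ?_ ?_
    · exact (mem_fixingSubgroup_iff G).mp g.2 a (by simp)
    · exact (mem_fixingSubgroup_iff G).mp g.2 b (by simp)
  obtain ⟨k, hk6, hN⟩ := normalizer_card hα G P
  have hn7 := card_sylow_modEq_one 7 G
  rw [P.card_eq_index_normalizer] at hn7
  have hNG := (Subgroup.normalizer ((P : Subgroup G) : Set G)).card_mul_index
  rw [hN] at hNG
  have hev : Even k → IsMultiplyPretransitive G α 3 := by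
    intro hk
    apply Cfsg.Agent.S0676.result hα G hG P
    rw [hN]
    exact hk.mul_left 7
  obtain ⟨x₀⟩ : Nonempty (Fin 3 ↪ α) := Function.Embedding.nonempty_of_card_le (by simp [hα])
  have h210 : (7).descFactorial 3 = 210 := rfl
  rcases arith _ k _ (hGH.trans hNG.symm) hk6 hn7 (hGH ▸ hle) (hGH ▸ hdvd) h3 with
    ⟨e1, e2⟩ | ⟨e1, e2⟩ | ⟨e1, e2⟩ | ⟨e1, e2⟩ | ⟨e1, e2⟩
  · exfalso
    have := card_emb hα G 3 (hev (e2 ▸ by decide)) x₀
    rw [h210] at this
    omega
  · rw [hN, e2, ← hGH, e1]
    exact ⟨rfl, rfl⟩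
  · exfalso
    exact not_sharp3 hα G (hev (e2 ▸ by decide)) (by rw [← hGH, e1])
  · exfalso
    have := card_emb hα G 3 (hev (e2 ▸ by decide)) x₀
    rw [h210] at this
    omega
  · exfalso
    have := normalizer_ne hα G hprim P (by rw [hN, e2])
    omega

theorem simple (hα : Fintype.card α = 7) (G : Subgroup (Equiv.Perm α)) [IsPretransitive G α]
    (hG : ¬ Group.IsSolvable G) (hA : ¬ alternatingGroup α ≤ G) : IsSimpleGroup G := by
  haveI : Fact (Nat.Prime 7) := ⟨by norm_num⟩
  have h2 : IsMultiplyPretransitive G α 2 :=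
    (Cfsg.Agent.S0675.result (hα ▸ (by norm_num)) G).resolve_left hG
  haveI hprim : IsPreprimitive G α := isPreprimitive_of_is_two_pretransitive h2
  have hcard : Nat.card G = 168 := (card_eq hα G hG hA default).1
  haveI : Nontrivial G := by
    rw [← Finite.one_lt_card_iff_nontrivial, hcard]; norm_num
  refine ⟨fun N' hN' => ?_⟩
  by_contra hcon
  push Not at hcon
  obtain ⟨hbot, htop⟩ := hcon
  have hfix : fixedPoints N' α ≠ Set.univ := fun h => hbot (eq_bot_of_fixed G N' h)
  haveI htr : IsPretransitive N' α := IsQuasiPreprimitive.isPretransitive_of_normal hfix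
  obtain ⟨c, hc⟩ := exists_prime_orderOf_dvd_card' (G := N') 7 (dvd_of_trans hα)
  have hZc : Nat.card (Subgroup.zpowers (c : G)) = 7 := by
    rw [Nat.card_zpowers, Subgroup.orderOf_coe, hc]
  obtain ⟨P, hZP⟩ := IsPGroup.exists_le_sylow (p := 7)
    (IsPGroup.of_card (n := 1) (by rw [hZc, pow_one]) : IsPGroup 7 (Subgroup.zpowers (c : G)))
  have hP := Cfsg.Agent.Lib.Helper29.PrimeDeg.sylow_card hα G P
  have hZeq : Subgroup.zpowers (c : G) = P := Subgroup.eq_of_le_of_card_ge hZP (by rw [hZc, hP])
  have hPN : (P : Subgroup G) ≤ N' := by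
    rw [← hZeq, Subgroup.zpowers_le]
    exact c.2
  have hfr := Sylow.normalizer_sup_eq_top' P hPN
  have hM := (card_eq hα G hG hA P).2
  have h1 : N'.index = N'.relIndex (Subgroup.normalizer ((P : Subgroup G) : Set G)) := by
    rw [← Subgroup.relIndex_top_right, ← hfr, Subgroup.relIndex_sup_right]
    rfl
  have h3 := Subgroup.relIndex_mul_relIndex ⊥ _ _ bot_le
    (Subgroup.le_normalizer (H := (P : Subgroup G)))
  rw [Subgroup.relIndex_bot_left, Subgroup.relIndex_bot_left, hP, hM] at h3
  have h4 : (P : Subgroup G).relIndex (Subgroup.normalizer ((P : Subgroup G) : Set G)) = 3 := by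
    omega
  have h5 : N'.index ∣ 3 := by
    rw [h1, ← h4]
    exact Subgroup.relIndex_dvd_of_le_left _ hPN
  rcases (Nat.dvd_prime Nat.prime_three).mp h5 with h6 | h6
  · exact htop (Subgroup.index_eq_one.mp h6)
  · have h56 : Nat.card N' = 56 := by
      have := N'.card_mul_index
      rw [h6, hcard] at this
      omega
    apply hG
    rw [Group.isSolvable_iff_subgroup_quotient N']
    constructor
    · -- `N'` is solvable by Burnside
      haveI : IsPretransitive (N'.map G.subtype) α := by
        constructor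
        intro x y
        obtain ⟨g, hg⟩ := htr.exists_smul_eq x y
        exact ⟨⟨((g : G) : Equiv.Perm α), Subgroup.mem_map.mpr ⟨g, g.2, rfl⟩⟩, hg⟩
      have hc56 : Nat.card (N'.map G.subtype) = 56 := by
        rw [Subgroup.card_map_of_injective G.subtype_injective, h56]
      rcases Cfsg.Agent.S0675.result (hα ▸ (by norm_num)) (N'.map G.subtype) with hs | ht
      · exact Group.isSolvable_of_isSolvable_injective
          (f := (N'.equivMapOfInjective G.subtype G.subtype_injective).toMonoidHom)
          (N'.equivMapOfInjective G.subtype G.subtype_injective).injective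
      · exfalso
        obtain ⟨x₀⟩ : Nonempty (Fin 2 ↪ α) :=
          Function.Embedding.nonempty_of_card_le (by simp [hα])
        have := card_emb hα _ 2 ht x₀
        have h42 : (7).descFactorial 2 = 42 := rfl
        rw [h42, hc56] at this
        omega
    · have hq : Nat.card (G ⧸ N') = 3 := h6
      haveI : Fact (Nat.Prime 3) := ⟨Nat.prime_three⟩
      haveI := isCyclic_of_prime_card hq
      exact Group.isSolvable_of_comm (fun a b => IsCyclic.isMulCommutative.is_comm.comm a b)

end aux

/-- A non-solvable transitive permutation group on 7 points that does not contain the alternating group is a simple group of order 168. -/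
theorem result {α : Type*} [Fintype α] [DecidableEq α] (hα : Fintype.card α = 7) (G : Subgroup (Equiv.Perm α)) [MulAction.IsPretransitive G α] (hG : ¬ Group.IsSolvable G) (hA : ¬ alternatingGroup α ≤ G) : Nat.card G = 168 ∧ IsSimpleGroup G := by
  haveI : Fact (Nat.Prime 7) := ⟨by norm_num⟩
  exact ⟨(card_eq hα G hG hA default).1, simple hα G hG hA⟩

end Cfsg.Agent.S0678
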