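import Cfsg.Statements.S0680
-- import your own Cfsg.Agent.* helpers here
import Cfsg.Agent.Lib.Helper29.Sharp2

set_option autoImplicit false
open Cfsg

namespace Cfsg.Agent.S0680

open Cfsg.Agent.Lib.Helper29.Sharp2


/-- A finite sharply doubly transitive permutation group has degree a prime power `p ^ j`; a Sylow `p`-subgroup is normal, elementary abelian and regular, and consists of the identity together with the elements without fixed points. (Frobenius' Theorem is not needed.) -/
theorem result {α : Type*} [Fintype α] [DecidableEq α] (G : Subgroup (Equiv.Perm α)) [MulAction.IsMultiplyPretransitive G α 2] (hsharp : ∀ x : Fin 2 ↪ α, MulAction.stabilizer G x = ⊥) (h2 : 2 ≤ Fintype.card α) : ∃ p j : ℕ, p.Prime ∧ 1 ≤ j ∧ Fintype.card α = p ^ j ∧ ∀ (hp : Fact p.Prime) (P : Sylow p G), (P : Subgroup G).Normal ∧ IsMulCommutative (P : Subgroup G) ∧ (∀ x ∈ (P : Subgroup G), x ^ p = 1) ∧ MulAction.IsPretransitive (P : Subgroup G) α ∧ (∀ a : α, MulAction.stabilizer (P : Subgroup G) a = ⊥) ∧ ∀ g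 : G, g ∈ (P : Subgroup G) ↔ g = 1 ∨ ∀ a : α, g • a ≠ a := by
  classical
  have h2' : ∀ a b c d : α, a ≠ b → c ≠ d → ∃ g : G, g • a = c ∧ g • b = d := by
    intro a b c d hab hcd
    exact MulAction.is_two_pretransitive_iff.mp inferInstance hab hcd
  have hsharp' : ∀ (g : G) (a b : α), a ≠ b → g • a = a → g • b = b → g = 1 := by
    intro g a b hab ha hb
    have hinj : Function.Injective ![a, b] := by
      intro i j hij
      fin_cases i <;> fin_cases j <;> simp_all
    have hmem : g ∈ MulAction.stabilizer G (⟨![a, b], hinj⟩ : Fin 2 ↪ α) := by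
      rw [MulAction.mem_stabilizer_iff]
      ext i
      fin_cases i
      · exact ha
      · exact hb
    rw [hsharp] at hmem
    exact Subgroup.mem_bot.mp hmem
  have hcard : 2 ≤ Nat.card α := by rwa [Nat.card_eq_fintype_card]
  obtain ⟨K, hK⟩ := exists_isKer h2' hsharp' hcard
  obtain ⟨hcomm, p, j, hp, hj, hcj, hexp⟩ := hK.structure h2' hcard
  refine ⟨p, j, hp, hj, by rw [← Nat.card_eq_fintype_card, hcj], ?_⟩
  intro hpF P
  have hKp : IsPGroup p K := by
    intro k
    refine ⟨1, ?_⟩
    rw [pow_one]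
    exact Subtype.ext (by simpa using hexp k k.2)
  have hPK : (P : Subgroup G) ≤ K := by
    intro g hg
    rw [hK.mem_iff]
    by_cases hg1 : g = 1
    · exact Or.inl hg1
    right
    intro a hga
    have hz : IsPGroup p (Subgroup.zpowers g) := P.isPGroup'.to_le (Subgroup.zpowers_le.mpr hg)
    have hle : Subgroup.zpowers g ≤ MulAction.stabilizer G a := Subgroup.zpowers_le.mpr hga
    obtain ⟨b, hb, hab⟩ := hz.exists_fixed_point_of_prime_dvd_card_of_fixed_point α
      (by rw [hcj]; exact dvd_pow_self p (by omega)) (a := a) (fun h => hle h.2)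
    exact hg1 (hsharp' g a b hab hga (hb ⟨g, Subgroup.mem_zpowers g⟩))
  have hEq : (P : Subgroup G) = K := (P.is_maximal' hKp hPK).symm
  rw [hEq]
  refine ⟨hK.normal, hcomm, hexp, ⟨fun a b => ?_⟩, fun a => ?_, hK.mem_iff⟩
  · obtain ⟨k, hk, hkb⟩ := hK.trans a b
    exact ⟨⟨k, hk⟩, hkb⟩
  · rw [Subgroup.eq_bot_iff_forall]
    intro k hk
    exact Subtype.ext (hK.eq_one k.2 hk)

end Cfsg.Agent.S0680
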