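import Cfsg.Statements.S0699
-- import your own Cfsg.Agent.* helpers here
import Cfsg.Agent.Lib.Helper29.JordanN
import Cfsg.Agent.S0706

set_option autoImplicit false
open Cfsg

namespace Cfsg.Agent.S0699

open Cfsg.Agent.Lib.Helper29.JordanN Cfsg.Agent.Lib.Helper29.PermReg Cfsg.Agent.Lib.Helper29.MultTrans
open scoped Pointwise

theorem three_elem {H α : Type*} [Group H] [MulAction H α] (h : MulAction.IsMultiplyPretransitive H α 3)
    {a b c a' b' c' : α} (hab : a ≠ b) (hac : a ≠ c) (hbc : b ≠ c) (hab' : a' ≠ b') (hac' : a' ≠ c')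
    (hbc' : b' ≠ c') : ∃ g : H, g • a = a' ∧ g • b = b' ∧ g • c = c' := by
  have hinj : Function.Injective ![a, b, c] := by
    intro i j hij
    fin_cases i <;> fin_cases j <;> simp_all
  have hinj' : Function.Injective ![a', b', c'] := by
    intro i j hij
    fin_cases i <;> fin_cases j <;> simp_all
  obtain ⟨g, hg⟩ := h.exists_smul_eq (⟨![a, b, c], hinj⟩ : Fin 3 ↪ α) ⟨![a', b', c'], hinj'⟩
  exact ⟨g, DFunLike.congr_fun hg 0, DFunLike.congr_fun hg 1, DFunLike.congr_fun hg 2⟩

/-- a 2-element swapping two points of a set of odd size fixes a point -/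
theorem exists_swap_fix {α : Type*} [Fintype α] [DecidableEq α] (hodd : Odd (Fintype.card α))
    (M : Subgroup (Equiv.Perm α)) {a b : α} (t₀ : Equiv.Perm α) (ht₀ : t₀ ∈ M) (h1 : t₀ a = b) (h2 : t₀ b = a) :
    ∃ t ∈ M, t a = b ∧ t b = a ∧ ∃ c, t c = c := by
  obtain ⟨e, m, hm, hem⟩ := Nat.exists_eq_two_pow_mul_odd (n := orderOf t₀) (orderOf_pos t₀).ne'
  have hsw := (Cfsg.Agent.Lib.Helper29.Zass.pow_swap (G := Equiv.Perm α) (t := t₀) (a := a) (b := b) h1 h2 m).1 hm
  have hpow : (t₀ ^ m) ^ (2 ^ e) = 1 := by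
    rw [← pow_mul, mul_comm, ← hem, pow_orderOf_eq_one]
  have hP : IsPGroup 2 (Subgroup.zpowers (t₀ ^ m)) := by
    rintro ⟨g, hg⟩
    obtain ⟨j, rfl⟩ := Subgroup.mem_zpowers_iff.mp hg
    refine ⟨e, ?_⟩
    apply Subtype.ext
    change ((t₀ ^ m) ^ j) ^ (2 ^ e) = 1
    rw [← zpow_natCast, ← zpow_mul, mul_comm, zpow_mul, zpow_natCast, hpow, one_zpow]
  haveI : Fact (Nat.Prime 2) := ⟨Nat.prime_two⟩
  obtain ⟨c, hc⟩ := IsPGroup.nonempty_fixed_point_of_prime_not_dvd_card hP α (by
    rw [Nat.card_eq_fintype_card]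
    exact fun h => (Nat.not_even_iff_odd.mpr hodd) (even_iff_two_dvd.mpr h))
  exact ⟨t₀ ^ m, M.pow_mem ht₀ m, hsw.1, hsw.2, c, hc ⟨t₀ ^ m, Subgroup.mem_zpowers _⟩⟩

/-- Wagner's Theorem: a non-trivial normal subgroup of a triply transitive permutation group of odd degree at least 5 is triply transitive. -/
theorem result {α : Type*} [Fintype α] [DecidableEq α] (G : Subgroup (Equiv.Perm α)) (hodd : Odd (Fintype.card α)) (h5 : 5 ≤ Fintype.card α) (hG : MulAction.IsMultiplyPretransitive G α 3) (N : Subgroup G) [N.Normal] (hN : N ≠ ⊥) : MulAction.IsMultiplyPretransitive N α 3 := by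
  classical
  haveI : Fact (Nat.Prime 2) := ⟨Nat.prime_two⟩
  have hcN : Nat.card α = Fintype.card α := Nat.card_eq_fintype_card
  haveI := hG
  have h2tr : MulAction.IsMultiplyPretransitive G α 2 :=
    MulAction.isMultiplyPretransitive_of_le (n := 3) (by norm_num) (by omega)
  haveI hprim : MulAction.IsPreprimitive G α := MulAction.isPreprimitive_of_is_two_pretransitive h2tr
  have hNtr : MulAction.IsPretransitive N α := normal_trans N hN
  -- N is 2-transitive
  have hN2 : MulAction.IsMultiplyPretransitive N α 2 := by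
    rcases jordan 3 (by norm_num) (by omega) hG N hN with h | ⟨_, hreg, hsq⟩
    · exact h
    · exfalso
      obtain ⟨x⟩ : Nonempty α := by
        rw [← Fintype.card_pos_iff]; omega
      have hcard := card_reg N hNtr x (hreg x)
      have hp : IsPGroup 2 N := by
        intro g
        refine ⟨1, ?_⟩
        apply Subtype.ext
        simpa using hsq g g.2
      obtain ⟨m, hm⟩ := hp.exists_card_eq
      rw [hcard, hcN] at hm
      rcases Nat.eq_zero_or_pos m with h0 | h0
      · rw [h0] at hm; omega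
      · have : Even (Fintype.card α) := by rw [hm]; exact (Nat.even_pow.mpr ⟨even_two, by omega⟩)
        exact (Nat.not_even_iff_odd.mpr hodd) this
  set M : Subgroup (Equiv.Perm α) := N.map G.subtype with hM
  have hMmem : ∀ n : N, ((n : G) : Equiv.Perm α) ∈ M := fun n => ⟨n, n.2, rfl⟩
  have hnorm : ∀ g ∈ G, ∀ n ∈ M, g * n * g⁻¹ ∈ M := by
    rintro g hg _ ⟨n, hn, rfl⟩
    exact ⟨⟨g, hg⟩ * n * ⟨g, hg⟩⁻¹, ‹N.Normal›.conj_mem n hn _, rfl⟩
  have hM2 : ∀ a b c d : α, a ≠ b → c ≠ d → ∃ n ∈ M, n a = c ∧ n b = d := by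
    intro a b c d hab hcd
    obtain ⟨n, h1, h2⟩ := MulAction.is_two_pretransitive_iff.mp hN2 hab hcd
    exact ⟨_, hMmem n, h1, h2⟩
  have hG3 : ∀ a b c a' b' c' : α, a ≠ b → a ≠ c → b ≠ c → a' ≠ b' → a' ≠ c' → b' ≠ c' →
      ∃ g ∈ G, g a = a' ∧ g b = b' ∧ g c = c' := by
    intro a b c a' b' c' h1 h2 h3 h4 h5 h6
    obtain ⟨g, hg⟩ := three_elem hG h1 h2 h3 h4 h5 h6
    exact ⟨g, g.2, hg⟩
  have hinvapp : ∀ (g : Equiv.Perm α) (x y : α), g x = y → g⁻¹ y = x := by
    intro g x y h
    rw [← h, ← Equiv.Perm.mul_apply, inv_mul_cancel]; rfl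
  -- transpositions on 3-sets
  have hswap : ∀ a b c : α, a ≠ b → a ≠ c → b ≠ c → ∃ n ∈ M, n a = b ∧ n b = a ∧ n c = c := by
    intro a b c hab hac hbc
    obtain ⟨t₀, ht₀, h1, h2⟩ := hM2 a b b a hab hab.symm
    obtain ⟨t, htM, hta, htb, c₀, htc⟩ := exists_swap_fix hodd M t₀ ht₀ h1 h2
    have hac₀ : a ≠ c₀ := by
      intro h; rw [← h, hta] at htc; exact hab htc.symm
    have hbc₀ : b ≠ c₀ := by
      intro h; rw [← h, htb] at htc; exact hab htc
    obtain ⟨g, hgG, hga, hgb, hgc⟩ := hG3 a b c₀ a b c hab hac₀ hbc₀ hab hac hbc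
    refine ⟨g * t * g⁻¹, hnorm g hgG t htM, ?_, ?_, ?_⟩
    · rw [Equiv.Perm.mul_apply, Equiv.Perm.mul_apply, hinvapp g a a hga, hta, hgb]
    · rw [Equiv.Perm.mul_apply, Equiv.Perm.mul_apply, hinvapp g b b hgb, htb, hga]
    · rw [Equiv.Perm.mul_apply, Equiv.Perm.mul_apply, hinvapp g c₀ c hgc, htc, hgc]
  have hgen : ∀ s : Finset α, s.card = 2 + 1 → ∀ σ : Equiv.Perm ↥s, ∃ g ∈ M, ∀ x : ↥s, g (x : α) = σ x := by
    intro s hs σ
    induction σ using Equiv.Perm.swap_induction_on with
    | one => exact ⟨1, M.one_mem, fun x => rfl⟩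
    | swap_mul f x y hxy ih =>
      obtain ⟨g, hg, hgf⟩ := ih
      have hxy' : (x : α) ≠ y := fun h => hxy (Subtype.ext h)
      have hc1 : ((s.erase x).erase y).card = 1 := by
        rw [Finset.card_erase_of_mem (Finset.mem_erase.mpr ⟨hxy'.symm, y.2⟩), Finset.card_erase_of_mem x.2, hs]
      obtain ⟨z, hz⟩ := Finset.card_eq_one.mp hc1
      have hzmem : z ∈ (s.erase x).erase y := by rw [hz]; exact Finset.mem_singleton_self z
      rw [Finset.mem_erase, Finset.mem_erase] at hzmem
      obtain ⟨n, hn, hnx, hny, hnz⟩ := hswap x y z hxy' hzmem.2.1.symm hzmem.1.symm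
      refine ⟨n * g, M.mul_mem hn hg, fun w => ?_⟩
      rw [Equiv.Perm.mul_apply, hgf, Equiv.Perm.mul_apply]
      by_cases h1 : f w = x
      · rw [h1, Equiv.swap_apply_left, hnx]
      by_cases h2 : f w = y
      · rw [h2, Equiv.swap_apply_right, hny]
      rw [Equiv.swap_apply_of_ne_of_ne h1 h2]
      have : ((f w : ↥s) : α) ∈ (s.erase x).erase y := by
        rw [Finset.mem_erase, Finset.mem_erase]
        exact ⟨fun h => h2 (Subtype.ext h), fun h => h1 (Subtype.ext h), (f w).2⟩
      rw [hz, Finset.mem_singleton] at this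
      rw [this, hnz]
  -- the two point stabilizer is transitive on the rest
  have hkey : ∀ a b c d : α, a ≠ b → c ≠ a → c ≠ b → d ≠ a → d ≠ b → ∃ n ∈ M, n a = a ∧ n b = b ∧ n c = d := by
    intro a b c d hab hca hcb hda hdb
    set L := fixingSubgroup M (({a, b} : Finset α) : Set α) with hL
    have hLfix : ∀ l : L, ((l : M) : Equiv.Perm α) a = a ∧ ((l : M) : Equiv.Perm α) b = b := by
      intro l
      exact ⟨(mem_fixingSubgroup_iff M).mp l.2 a (by simp), (mem_fixingSubgroup_iff M).mp l.2 b (by simp)⟩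
    have hLmk : ∀ n ∈ M, n a = a → n b = b → ∀ x, n x ∈ MulAction.orbit L x := by
      intro n hn hna hnb x
      refine ⟨⟨⟨n, hn⟩, ?_⟩, rfl⟩
      rw [mem_fixingSubgroup_iff]
      intro y hy
      simp only [Finset.coe_insert, Finset.coe_singleton, Set.mem_insert_iff, Set.mem_singleton_iff] at hy
      rcases hy with rfl | rfl
      · exact hna
      · exact hnb
    by_contra hcon
    have hdc : d ∉ MulAction.orbit L c := by
      rintro ⟨l, hl⟩
      exact hcon ⟨_, (l : M).2, (hLfix l).1, (hLfix l).2, hl⟩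
    -- all orbits outside {a,b} have odd length
    obtain ⟨Q⟩ : Nonempty (Sylow 2 L) := inferInstance
    obtain ⟨e, heQ, hea, heb⟩ : ∃ e : α, e ∈ MulAction.fixedPoints (Q : Subgroup L) α ∧ e ≠ a ∧ e ≠ b := by
      by_contra hne
      push Not at hne
      have hset : MulAction.fixedPoints (Q : Subgroup L) α = (({a, b} : Finset α) : Set α) := by
        ext x
        simp only [Finset.coe_insert, Finset.coe_singleton, Set.mem_insert_iff, Set.mem_singleton_iff]
        constructor
        · intro hx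
          by_cases hxa : x = a
          · exact Or.inl hxa
          · exact Or.inr (hne x hx hxa)
        · rintro (rfl | rfl)
          · intro q; exact (hLfix q).1
          · intro q; exact (hLfix q).2
      have h1 := Q.isPGroup'.card_modEq_card_fixedPoints α
      rw [hset, Nat.card_coe_set_eq, Set.ncard_coe_finset, Finset.card_pair hab, hcN] at h1
      have h2 : Fintype.card α % 2 = 1 := Nat.odd_iff.mp hodd
      have h3 : Fintype.card α % 2 = 2 % 2 := h1
      omega
    have hodd_e : ¬ 2 ∣ Nat.card (MulAction.orbit L e) := by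
      rw [Nat.card_coe_set_eq, ← MulAction.index_stabilizer]
      intro h
      have hle : (Q : Subgroup L) ≤ MulAction.stabilizer L e := fun q hq => heQ ⟨q, hq⟩
      exact Q.not_dvd_index (h.trans (Subgroup.index_dvd_of_le hle))
    have hsame : ∀ x : α, x ≠ a → x ≠ b → Nat.card (MulAction.orbit L x) = Nat.card (MulAction.orbit L e) := by
      intro x hxa hxb
      obtain ⟨g, hgG, hga, hgb, hge⟩ := hG3 a b e a b x hab hea.symm heb.symm hab hxa.symm hxb.symm
      have himg : (MulAction.orbit L x : Set α) = g '' (MulAction.orbit L e) := by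
        ext y
        constructor
        · rintro ⟨l, rfl⟩
          refine ⟨g⁻¹ (((l : M) : Equiv.Perm α) x), ?_, ?_⟩
          · have h1 := hLmk (g⁻¹ * ((l : M) : Equiv.Perm α) * g) (by
              have := hnorm g⁻¹ (G.inv_mem hgG) _ (l : M).2
              rwa [inv_inv] at this) (by
              rw [Equiv.Perm.mul_apply, Equiv.Perm.mul_apply, hga, (hLfix l).1, hinvapp g a a hga]) (by
              rw [Equiv.Perm.mul_apply, Equiv.Perm.mul_apply, hgb, (hLfix l).2, hinvapp g b b hgb]) e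
            rw [Equiv.Perm.mul_apply, Equiv.Perm.mul_apply, hge] at h1
            exact h1
          · rw [← Equiv.Perm.mul_apply, mul_inv_cancel]; rfl
        · rintro ⟨_, ⟨l, rfl⟩, rfl⟩
          have h1 := hLmk (g * ((l : M) : Equiv.Perm α) * g⁻¹) (hnorm g hgG _ (l : M).2) (by
              rw [Equiv.Perm.mul_apply, Equiv.Perm.mul_apply, hinvapp g a a hga, (hLfix l).1, hga]) (by
              rw [Equiv.Perm.mul_apply, Equiv.Perm.mul_apply, hinvapp g b b hgb, (hLfix l).2, hgb]) x
          rw [Equiv.Perm.mul_apply, Equiv.Perm.mul_apply, hinvapp g e x hge] at h1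
          exact h1
      rw [Nat.card_coe_set_eq, Nat.card_coe_set_eq, himg, Set.ncard_image_of_injective _ g.injective]
    obtain ⟨i, hi⟩ := Cfsg.Agent.S0706.result M (k := 2) (by omega) hgen Nat.prime_two le_rfl ({a, b} : Finset α)
      (Finset.card_pair hab) ![c, d] (by
        intro i
        fin_cases i
        · simp [hca, hcb]
        · simp [hda, hdb]) (by
        intro i j hij
        fin_cases i <;> fin_cases j
        · exact absurd rfl hij
        · exact hdc
        · intro h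
          exact hdc (MulAction.mem_orbit_symm.mp h)
        · exact absurd rfl hij)
    fin_cases i
    · exact hodd_e (by rw [← hsame c hca hcb]; exact hi)
    · exact hodd_e (by rw [← hsame d hda hdb]; exact hi)
  refine ⟨fun x y => ?_⟩
  have hx01 : x 0 ≠ x 1 := fun h => by simpa using x.injective h
  have hx02 : x 0 ≠ x 2 := fun h => by simpa using x.injective h
  have hx12 : x 1 ≠ x 2 := fun h => by simpa using x.injective h
  have hy01 : y 0 ≠ y 1 := fun h => by simpa using y.injective h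
  have hy02 : y 0 ≠ y 2 := fun h => by simpa using y.injective h
  have hy12 : y 1 ≠ y 2 := fun h => by simpa using y.injective h
  obtain ⟨n₁, hn₁, h10, h11⟩ := hM2 (x 0) (x 1) (y 0) (y 1) hx01 hy01
  obtain ⟨n₂, hn₂, h20, h21, h22⟩ := hkey (y 0) (y 1) (n₁ (x 2)) (y 2) hy01
    (by rw [← h10]; exact fun h => hx02 (n₁.injective h).symm)
    (by rw [← h11]; exact fun h => hx12 (n₁.injective h).symm) hy02.symm hy12.symm
  obtain ⟨m, hm, hmeq⟩ := M.mul_mem hn₂ hn₁
  refine ⟨⟨m, hm⟩, ?_⟩
  ext i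
  change (G.subtype m) (x i) = y i
  rw [hmeq, Equiv.Perm.mul_apply]
  fin_cases i
  · change n₂ (n₁ (x 0)) = y 0
    rw [h10, h20]
  · change n₂ (n₁ (x 1)) = y 1
    rw [h11, h21]
  · exact h22

end Cfsg.Agent.S0699
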