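import Cfsg.Statements.S0708
-- import your own Cfsg.Agent.* helpers here
import Cfsg.Agent.Lib.Helper29.Sharp4b

set_option autoImplicit false
open Cfsg

namespace Cfsg.Agent.S0708

open Cfsg.Agent.Lib.Helper29.Sharp4


/-- Tits' argument: a sharply 4-transitive group (no finiteness assumed) has finite degree at most 11, and at most 6 when the degree is even. -/
theorem result {G : Type*} [Group G] {Ω : Type*} [MulAction G Ω] (h4 : MulAction.IsMultiplyPretransitive G Ω 4) (hsharp : ∀ x : Fin 4 ↪ Ω, MulAction.stabilizer G x = ⊥) (hne : Nonempty (Fin 4 ↪ Ω)) : Finite Ω ∧ Nat.card Ω ≤ 11 ∧ (Even (Nat.card Ω) → Nat.card Ω ≤ 6) := by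
  obtain ⟨x₀⟩ := hne
  have h := isSharp4_of h4 hsharp
  have hne' : ∀ i j : Fin 4, i ≠ j → x₀ i ≠ x₀ j := fun i j hij e => hij (x₀.injective e)
  have hD : D4 (x₀ 0) (x₀ 1) (x₀ 2) (x₀ 3) :=
    ⟨hne' _ _ (by decide), hne' _ _ (by decide), hne' _ _ (by decide), hne' _ _ (by decide), hne' _ _ (by decide),
      hne' _ _ (by decide)⟩
  obtain ⟨hfin, hcard⟩ := h.finite_card hD
  exact ⟨hfin, hcard, fun heven => h.even_card_le hD heven⟩

end Cfsg.Agent.S0708
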