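import Cfsg.Statements.S0718
import Cfsg.Agent.Lib.Helper25.CentRing2

set_option autoImplicit false
open Cfsg

namespace Cfsg.Agent.S0718

open Cfsg.Agent.Lib.Helper25 Cfsg.Agent.Lib

/-- Multiplicity-freeness of the permutation character is equivalent to commutativity of the centraliser ring, i.e. of the algebra of `G`-equivariant endomorphisms of the complex permutation module. -/
theorem result {G : Type*} [Group G] [Fintype G] {Ω : Type*} [Fintype Ω] [MulAction G Ω] : (∀ χ : G → ℂ, Cfsg.IsIrrCharacter G χ → Cfsg.classInner (fun g : G => (Nat.card (MulAction.fixedBy Ω g) : ℂ)) χ = 0 ∨ Cfsg.classInner (fun g : G => (Nat.card (MulAction.fixedBy Ω g) : ℂ)) χ = 1) ↔ ∀ S T : (Ω → ℂ) →ₗ[ℂ] (Ω → ℂ), S ∈ ((Cfsg.permRep ℂ G Ω).linHom (Cfsg.permRep ℂ G Ω)).invariants → T ∈ ((Cfsg.permRep ℂ G Ω).linHom (Cfsg.permRep ℂ G Ω)).invariants → S ∘ₗ T = T ∘ₗ S := by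
  classical
  constructor
  · intro hmf S T hS hT
    by_contra hne
    obtain ⟨x, hx⟩ : ∃ x, (S ∘ₗ T) x - (T ∘ₗ S) x ≠ 0 := by
      by_contra hcon
      push Not at hcon
      exact hne (LinearMap.ext fun x => sub_eq_zero.1 (hcon x))
    obtain ⟨n, ρ, hirr, F, hF, hFy⟩ := exists_sep (G := G) _ hx
    have hF0 : F ≠ 0 := by
      intro h
      rw [h] at hFy
      exact hFy rfl
    have hrank := finrank_inv_eq (Ω := Ω) ρ
    let F' : ((Cfsg.permRep ℂ G Ω).linHom ρ).invariants := ⟨F, hF⟩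
    have hF'0 : F' ≠ 0 := fun h => hF0 (congrArg Subtype.val h)
    have hnt : Nontrivial ((Cfsg.permRep ℂ G Ω).linHom ρ).invariants := ⟨⟨F', 0, hF'0⟩⟩
    have hpos : 0 < Module.finrank ℂ ((Cfsg.permRep ℂ G Ω).linHom ρ).invariants := by
      rw [Nat.pos_iff_ne_zero]
      intro h0
      rw [Submodule.finrank_eq_zero] at h0
      apply hF0
      have hm : F ∈ ((Cfsg.permRep ℂ G Ω).linHom ρ).invariants := hF
      rw [h0] at hm
      exact (Submodule.mem_bot ℂ).1 hm
    have hone : Module.finrank ℂ ((Cfsg.permRep ℂ G Ω).linHom ρ).invariants = 1 := by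
      rcases hmf ρ.character ⟨n, ρ, hirr, rfl⟩ with h | h
      · rw [h] at hrank
        have : Module.finrank ℂ ((Cfsg.permRep ℂ G Ω).linHom ρ).invariants = 0 := by
          exact_mod_cast hrank
        omega
      · rw [h] at hrank
        exact_mod_cast hrank
    have hspan := (finrank_eq_one_iff_of_nonzero' F' hF'0).1 hone
    obtain ⟨s, hs⟩ := hspan ⟨F ∘ₗ S, comp_mem_inv hF hS⟩
    obtain ⟨t, ht⟩ := hspan ⟨F ∘ₗ T, comp_mem_inv hF hT⟩
    have hs' : s • F = F ∘ₗ S := congrArg Subtype.val hs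
    have ht' : t • F = F ∘ₗ T := congrArg Subtype.val ht
    apply hFy
    rw [map_sub]
    have e1 : F ((S ∘ₗ T) x) = (s * t) • F x := by
      have : F ((S ∘ₗ T) x) = (F ∘ₗ S) (T x) := rfl
      rw [this, ← hs', LinearMap.smul_apply]
      have : F (T x) = (F ∘ₗ T) x := rfl
      rw [this, ← ht', LinearMap.smul_apply, smul_smul]
    have e2 : F ((T ∘ₗ S) x) = (s * t) • F x := by
      have : F ((T ∘ₗ S) x) = (F ∘ₗ T) (S x) := rfl
      rw [this, ← ht', LinearMap.smul_apply]
      have : F (S x) = (F ∘ₗ S) x := rfl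
      rw [this, ← hs', LinearMap.smul_apply, smul_smul, mul_comm]
    rw [e1, e2, sub_self]
  · intro hcomm χ hχ
    obtain ⟨n, ρ, hirr, rfl⟩ := hχ
    rw [← finrank_inv_eq (Ω := Ω) ρ]
    have hle : Module.finrank ℂ ((Cfsg.permRep ℂ G Ω).linHom ρ).invariants ≤ 1 := by
      by_cases hb : ∃ F : ((Cfsg.permRep ℂ G Ω).linHom ρ).invariants, F ≠ 0
      · obtain ⟨F, hF0⟩ := hb
        apply finrank_le_one F
        intro F'
        obtain ⟨c, hc⟩ := eq_smul_of_comm (Cfsg.permRep ℂ G Ω) ρ hcomm F.2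
          (fun h => hF0 (Subtype.ext h)) F'.2
        exact ⟨c, Subtype.ext hc⟩
      · push Not at hb
        have : Subsingleton ((Cfsg.permRep ℂ G Ω).linHom ρ).invariants :=
          ⟨fun a b => by rw [hb a, hb b]⟩
        rw [Module.finrank_zero_of_subsingleton]
        exact Nat.zero_le _
    rcases Nat.le_one_iff_eq_zero_or_eq_one.1 hle with h | h
    · left; rw [h, Nat.cast_zero]
    · right; rw [h, Nat.cast_one]

end Cfsg.Agent.S0718
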