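import Cfsg.Statements.S0738
-- import your own Cfsg.Agent.* helpers here
import Cfsg.Agent.Lib.Helper29.Zass2

set_option autoImplicit false
open Cfsg

namespace Cfsg.Agent.S0738

/-- Let a finite Zassenhaus group of degree `n + 1` have two-point stabilisers of order `d` with `2d ≥ n - 1`. Then a normal subgroup of a point stabiliser acting regularly on the remaining points is elementary abelian, and the degree is a prime power plus one. -/
theorem result {G Ω : Type*} [Group G] [Finite G] [MulAction G Ω] [Fintype Ω] (hZ : Cfsg.IsZassenhausGroup G Ω) {a b : Ω} (hab : a ≠ b) (hd : Fintype.card Ω - 2 ≤ 2 * Nat.card ↥(MulAction.stabilizer G a ⊓ MulAction.stabilizer G b)) (F : Subgroup G) (hFle : F ≤ MulAction.stabilizer G a) (hFn : (F.subgroupOf (MulAction.stabilizer G a)).Normal) (hreg : ∀ y z : Ω, y ≠ a → z ≠ a → ∃! u : F, (u : G) • y = z) : IsMulCommutative F ∧ ∃ p f : ℕ, p.Prime ∧ (∀ u ∈ F, u ^ p = 1) ∧ Fintype.card Ω = p ^ f + 1 := by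
  classical
  obtain ⟨K, hK⟩ := Cfsg.Agent.Lib.Helper29.Zass.exists_isKer hZ a
  -- `F` is the Frobenius kernel
  have hFK : F ≤ K := by
    intro u hu
    rw [hK.mem]
    refine ⟨hFle hu, ?_⟩
    by_cases hu1 : u = 1
    · exact Or.inl hu1
    right
    intro c hc
    by_contra hca
    obtain ⟨v, -, hv⟩ := hreg c c hca hca
    have h1 := hv ⟨u, hu⟩ hc
    have h2 := hv 1 (one_smul _ _)
    exact hu1 (congrArg Subtype.val (h1.trans h2.symm))
  have hKF : K ≤ F := by
    intro k hk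
    have hkb : k • b ≠ a := by
      intro h
      apply hab
      apply smul_left_cancel k
      rw [h, hK.fix hk]
    obtain ⟨u, hu, -⟩ := hreg b (k • b) hab.symm hkb
    have h1 : (u.1⁻¹ * k) • b = b := by rw [mul_smul, ← hu, inv_smul_smul]
    have h2 := hK.eq_one (K.mul_mem (K.inv_mem (hFK u.2)) hk) hab.symm h1
    rw [inv_mul_eq_one] at h2
    rw [← h2]; exact u.2
  obtain rfl : F = K := le_antisymm hFK hKF
  set E := MulAction.stabilizer G a ⊓ MulAction.stabilizer G b with hE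
  have hcardK := hK.card
  rw [Nat.card_eq_fintype_card (α := Ω)] at hcardK
  have hEa : ∀ e ∈ E, e ∈ MulAction.stabilizer G a := fun e he => he.1
  -- an element of `G_a` commuting with a non-identity element of `F` lies in `F`
  have hcent : ∀ g ∈ MulAction.stabilizer G a, ∀ x ∈ F, x ≠ 1 → g * x = x * g → g ∈ F := by
    intro g hg x hx hx1 hgx
    rw [hK.mem]
    refine ⟨hg, ?_⟩
    by_cases hg1 : g = 1
    · exact Or.inl hg1
    right
    intro c hc
    by_contra hca
    apply hg1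
    have h1 : g • (x • c) = x • c := by rw [← mul_smul, hgx, mul_smul, hc]
    have h2 : x • c ≠ c := fun h => hx1 (hK.eq_one hx hca h)
    have h3 : x • c ≠ a := by
      intro h
      apply hca
      apply smul_left_cancel x
      rw [h, hK.fix hx]
    exact Cfsg.Agent.Lib.Helper29.Zass.three_fix hZ (Ne.symm hca) h2.symm h3.symm hg hc h1
  have hFE : ∀ g ∈ F, g ∈ E → g = 1 := fun g hg hgE => hK.eq_one hg hab.symm hgE.2
  have hconjinj : ∀ x ∈ F, x ≠ 1 → ∀ e ∈ E, ∀ e' ∈ E, e * x * e⁻¹ = e' * x * e'⁻¹ → e = e' := by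
    intro x hx hx1 e he e' he' h
    have h1 : (e'⁻¹ * e) * x = x * (e'⁻¹ * e) := by
      calc (e'⁻¹ * e) * x = e'⁻¹ * (e * x * e⁻¹) * e := by group
        _ = e'⁻¹ * (e' * x * e'⁻¹) * e := by rw [h]
        _ = x * (e'⁻¹ * e) := by group
    have h2 : e'⁻¹ * e ∈ E := E.mul_mem (E.inv_mem he') he
    have h3 := hFE _ (hcent _ (hEa _ h2) x hx hx1 h1) h2
    rw [inv_mul_eq_one] at h3
    exact h3.symm
  -- irreducibility
  have hA : ∀ M : Subgroup G, M ≤ F → (∀ e ∈ E, ∀ m ∈ M, e * m * e⁻¹ ∈ M) → M ≠ ⊥ → M = F := by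
    intro M hMF hME hM
    by_contra hne
    obtain ⟨x, hx, hx1⟩ := (M.bot_or_exists_ne_one).resolve_left hM
    have h1 : Nat.card E + 1 ≤ Nat.card M := by
      rw [← Finite.card_option]
      apply Nat.card_le_card_of_injective (fun o : Option E =>
        (o.elim 1 (fun e => ⟨e.1 * x * e.1⁻¹, hME e.1 e.2 x hx⟩) : M))
      intro o o' h
      cases o with
      | none =>
        cases o' with
        | none => rfl
        | some e' =>
          exact absurd (congrArg Subtype.val h).symm (Cfsg.Agent.Lib.Helper29.Zass.conj_ne_one hx1)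
      | some e =>
        cases o' with
        | none =>
          exact absurd (congrArg Subtype.val h) (Cfsg.Agent.Lib.Helper29.Zass.conj_ne_one hx1)
        | some e' =>
          have := hconjinj x (hMF hx) hx1 e.1 e.2 e'.1 e'.2 (congrArg Subtype.val h)
          rw [Subtype.ext this]
    obtain ⟨c, hc⟩ := Subgroup.card_dvd_of_le hMF
    have hc1 : c ≠ 1 := by
      rintro rfl
      apply hne
      apply Subgroup.eq_of_le_of_card_ge hMF
      omega
    have hc0 : c ≠ 0 := by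
      rintro rfl
      have := Nat.card_pos (α := F)
      omega
    have hc2 : 2 ≤ c := by omega
    have h2 : Nat.card M * 2 ≤ Nat.card F := by
      rw [hc]; exact Nat.mul_le_mul_left _ hc2
    omega
  -- the centre of `F`, as a subgroup of `G`
  let Zc : Subgroup G := F ⊓ Subgroup.centralizer (F : Set G)
  have hZcE : ∀ e ∈ E, ∀ m ∈ Zc, e * m * e⁻¹ ∈ Zc := by
    intro e he m hm
    refine ⟨hK.norm e (hEa e he) m hm.1, ?_⟩
    show _ ∈ Subgroup.centralizer (F : Set G)
    rw [Subgroup.mem_centralizer_iff]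
    intro u hu
    have hu' : e⁻¹ * u * e⁻¹⁻¹ ∈ F := hK.norm e⁻¹ (inv_mem (hEa e he)) u hu
    have h1 := (Subgroup.mem_centralizer_iff.1 hm.2) _ hu'
    calc u * (e * m * e⁻¹) = e * ((e⁻¹ * u * e⁻¹⁻¹) * m) * e⁻¹ := by group
      _ = e * (m * (e⁻¹ * u * e⁻¹⁻¹)) * e⁻¹ := by rw [h1]
      _ = e * m * e⁻¹ * u := by group
  -- a prime and an element of this order
  obtain ⟨c₀, hc₀a, hc₀b⟩ := Cfsg.Agent.Lib.Helper29.Zass.exists_third hZ hab
  have hcard3 : 2 < Fintype.card Ω := by
    rw [Fintype.two_lt_card_iff]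
    exact ⟨a, b, c₀, hab, hc₀a.symm, hc₀b.symm⟩
  obtain ⟨p, hp, hpdvd⟩ := Nat.exists_prime_and_dvd (n := Nat.card F) (by omega)
  have : Fact p.Prime := ⟨hp⟩
  obtain ⟨x, hx⟩ := exists_prime_orderOf_dvd_card' p hpdvd
  have hxo : orderOf x.1 = p := by rw [← hx]; exact Subgroup.orderOf_coe x
  have hx1 : x.1 ≠ 1 := by
    intro h
    rw [h, orderOf_one] at hxo
    exact hp.one_lt.ne hxo
  have hxZ : x.1 ∈ Zc := by
    refine ⟨x.2, ?_⟩
    show _ ∈ Subgroup.centralizer (F : Set G)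
    rw [Subgroup.mem_centralizer_iff]
    intro y hy
    by_contra hyx
    -- two orbits
    have hx' : y * x.1 * y⁻¹ ∈ F := F.mul_mem (F.mul_mem hy x.2) (F.inv_mem hy)
    have hx'1 : y * x.1 * y⁻¹ ≠ 1 := Cfsg.Agent.Lib.Helper29.Zass.conj_ne_one hx1
    let ψ : E ⊕ E → {u : F // u ≠ 1} := fun o => o.elim
      (fun e => ⟨⟨e.1 * x.1 * e.1⁻¹, hK.norm e.1 (hEa _ e.2) _ x.2⟩,
        fun h => Cfsg.Agent.Lib.Helper29.Zass.conj_ne_one hx1 (congrArg Subtype.val h)⟩)
      (fun e => ⟨⟨e.1 * (y * x.1 * y⁻¹) * e.1⁻¹, hK.norm e.1 (hEa _ e.2) _ hx'⟩,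
        fun h => Cfsg.Agent.Lib.Helper29.Zass.conj_ne_one hx'1 (congrArg Subtype.val h)⟩)
    have hcross : ∀ e ∈ E, ∀ e' ∈ E, e * x.1 * e⁻¹ ≠ e' * (y * x.1 * y⁻¹) * e'⁻¹ := by
      intro e he e' he' h
      have h1 : (e⁻¹ * e' * y) * x.1 = x.1 * (e⁻¹ * e' * y) := by
        calc (e⁻¹ * e' * y) * x.1 = e⁻¹ * (e' * (y * x.1 * y⁻¹) * e'⁻¹) * (e' * y) := by group
          _ = e⁻¹ * (e * x.1 * e⁻¹) * (e' * y) := by rw [h]
          _ = x.1 * (e⁻¹ * e' * y) := by group
      have h2 : e⁻¹ * e' ∈ E := E.mul_mem (E.inv_mem he) he'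
      have h3 : e⁻¹ * e' * y ∈ F :=
        hcent _ (mul_mem (hEa _ h2) (hK.le hy)) x.1 x.2 hx1 h1
      have h4 : e⁻¹ * e' ∈ F := by
        have := F.mul_mem h3 (F.inv_mem hy)
        rwa [mul_inv_cancel_right] at this
      have h5 := hFE _ h4 h2
      rw [h5, one_mul] at h1
      exact hyx h1
    have hψ : Function.Injective ψ := by
      intro o o' h
      have h' : (ψ o).1.1 = (ψ o').1.1 := by rw [h]
      cases o with
      | inl e =>
        cases o' with
        | inl e' => rw [Subtype.ext (hconjinj x.1 x.2 hx1 e.1 e.2 e'.1 e'.2 h')]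
        | inr e' => exact absurd h' (hcross e.1 e.2 e'.1 e'.2)
      | inr e =>
        cases o' with
        | inl e' => exact absurd h'.symm (hcross e'.1 e'.2 e.1 e.2)
        | inr e' => rw [Subtype.ext (hconjinj _ hx' hx'1 e.1 e.2 e'.1 e'.2 h')]
    have hcardT : Nat.card {u : F // u ≠ 1} + 1 = Nat.card F := by
      have := Fintype.ofFinite F
      rw [Nat.card_eq_fintype_card, Nat.card_eq_fintype_card, Fintype.card_subtype_compl,
        Fintype.card_subtype_eq]
      have : 0 < Fintype.card F := Fintype.card_pos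
      omega
    have hbij := hψ.bijective_of_nat_card_le (by
      rw [Nat.card_sum]
      omega)
    have hord : ∀ u : F, u ≠ 1 → orderOf u.1 = p := by
      intro u hu
      obtain ⟨o, ho⟩ := hbij.2 ⟨u, hu⟩
      have ho' : (ψ o).1.1 = u.1 := by rw [ho]
      rw [← ho']
      cases o with
      | inl e =>
        show orderOf (e.1 * x.1 * e.1⁻¹) = p
        rw [Cfsg.Agent.Lib.Helper29.Zass.orderOf_conj, hxo]
      | inr e =>
        show orderOf (e.1 * (y * x.1 * y⁻¹) * e.1⁻¹) = p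
        rw [Cfsg.Agent.Lib.Helper29.Zass.orderOf_conj, Cfsg.Agent.Lib.Helper29.Zass.orderOf_conj, hxo]
    have hpF : IsPGroup p F := by
      intro u
      refine ⟨1, ?_⟩
      by_cases hu : u = 1
      · rw [hu, one_pow]
      · apply Subtype.ext
        show u.1 ^ p ^ 1 = 1
        rw [pow_one, ← hord u hu, pow_orderOf_eq_one]
    have hntF : Nontrivial F := ⟨x, 1, fun h => hx1 (congrArg Subtype.val h)⟩
    obtain ⟨z, hz⟩ := (Subgroup.nontrivial_iff_exists_ne_one _).1 hpF.center_nontrivial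
    obtain ⟨hzc, hz1⟩ := hz
    have hzZc : z.1 ∈ Zc := by
      refine ⟨z.2, ?_⟩
      show _ ∈ Subgroup.centralizer (F : Set G)
      rw [Subgroup.mem_centralizer_iff]
      intro u hu
      exact congrArg Subtype.val ((Subgroup.mem_center_iff.1 hzc) ⟨u, hu⟩)
    have hZcF := hA Zc inf_le_left hZcE (fun h => hz1 (by
      rw [h, Subgroup.mem_bot] at hzZc
      exact Subtype.ext hzZc))
    have hxZc : x.1 ∈ Zc := by rw [hZcF]; exact x.2
    exact hyx ((Subgroup.mem_centralizer_iff.1 hxZc.2) y hy)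
  have hZcF := hA Zc inf_le_left hZcE (fun h => hx1 (by
    rw [h, Subgroup.mem_bot] at hxZ
    exact hxZ))
  have hcomm : ∀ u ∈ F, ∀ v ∈ F, u * v = v * u := by
    intro u hu v hv
    have hv' : v ∈ Zc := by rw [hZcF]; exact hv
    exact (Subgroup.mem_centralizer_iff.1 hv'.2) u hu
  let Fp : Subgroup G :=
    { carrier := {u | u ∈ F ∧ u ^ p = 1}
      one_mem' := ⟨F.one_mem, one_pow _⟩
      mul_mem' := by
        rintro u v ⟨hu, hu'⟩ ⟨hv, hv'⟩
        refine ⟨F.mul_mem hu hv, ?_⟩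
        have : Commute u v := hcomm u hu v hv
        rw [this.mul_pow, hu', hv', one_mul]
      inv_mem' := by
        rintro u ⟨hu, hu'⟩
        exact ⟨F.inv_mem hu, by rw [inv_pow, hu', inv_one]⟩ }
  have hFpF := hA Fp (fun u hu => hu.1) (by
    rintro e he m ⟨hm, hm'⟩
    refine ⟨hK.norm e (hEa e he) m hm, ?_⟩
    rw [conj_pow, hm']
    group) (fun h => hx1 (by
      have : x.1 ∈ Fp := ⟨x.2, by rw [← hxo, pow_orderOf_eq_one]⟩
      rw [h, Subgroup.mem_bot] at this
      exact this))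
  have hexp : ∀ u ∈ F, u ^ p = 1 := by
    intro u hu
    have : u ∈ Fp := by rw [hFpF]; exact hu
    exact this.2
  refine ⟨⟨⟨fun u v => Subtype.ext (hcomm u.1 u.2 v.1 v.2)⟩⟩, p, ?_⟩
  have hpF : IsPGroup p F := fun u => ⟨1, Subtype.ext (by
    show u.1 ^ p ^ 1 = 1
    rw [pow_one]; exact hexp u.1 u.2)⟩
  obtain ⟨f, hf⟩ := hpF.exists_card_eq
  exact ⟨f, hp, hexp, by omega⟩

end Cfsg.Agent.S0738
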