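import Cfsg.Statements.S0740
-- import your own Cfsg.Agent.* helpers here
import Cfsg.Agent.Lib.Helper29.Zass

set_option autoImplicit false
open Cfsg

namespace Cfsg.Agent.S0740

/-- In a finite Zassenhaus group any two points `a ≠ b` are swapped by an involution; every such involution has exactly one fixed point when the degree is odd and 0 or 2 fixed points when the degree is even; and if the two-point stabiliser has even order, some such involution has exactly 2 fixed points. -/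
theorem result {G Ω : Type*} [Group G] [Finite G] [MulAction G Ω] [Fintype Ω] (hZ : Cfsg.IsZassenhausGroup G Ω) {a b : Ω} (hab : a ≠ b) : (∃ s : G, orderOf s = 2 ∧ s • a = b ∧ s • b = a) ∧ (∀ s : G, orderOf s = 2 → s • a = b → s • b = a → (Odd (Fintype.card Ω) → Nat.card (MulAction.fixedBy Ω s) = 1) ∧ (Even (Fintype.card Ω) → Nat.card (MulAction.fixedBy Ω s) = 0 ∨ Nat.card (MulAction.fixedBy Ω s) = 2)) ∧ (Even (Fintype.card Ω) → Even (Nat.card ↥(MulAction.stabilizer G a ⊓ MulAction.stabilizer G b)) → ∃ s : G, orderOf s = 2 ∧ s • a = b ∧ s • b = a ∧ Nat.card (MulAction.fixedBy Ω s) = 2) := by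
  have : Fact (Nat.Prime 2) := ⟨Nat.prime_two⟩
  have hsq : ∀ {s : G}, orderOf s = 2 → s * s = 1 ∧ s ≠ 1 := by
    intro s hs
    refine ⟨?_, ?_⟩
    · rw [← sq, ← hs, pow_orderOf_eq_one]
    · rintro rfl
      rw [orderOf_one] at hs
      omega
  have hsecond : ∀ s : G, orderOf s = 2 →
      (Odd (Fintype.card Ω) → Nat.card (MulAction.fixedBy Ω s) = 1) ∧
      (Even (Fintype.card Ω) → Nat.card (MulAction.fixedBy Ω s) = 0 ∨ Nat.card (MulAction.fixedBy Ω s) = 2) := by
    intro s hs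
    obtain ⟨h1, h2⟩ := hsq hs
    have hmod := Cfsg.Agent.Lib.Helper29.Zass.card_fixedBy_modEq (Ω := Ω) h1
    have hle := Cfsg.Agent.Lib.Helper29.Zass.card_fixedBy_le hZ h2
    rw [Nat.card_eq_fintype_card (α := Ω)] at hmod
    unfold Nat.ModEq at hmod
    constructor
    · intro hodd
      rw [Nat.odd_iff] at hodd
      omega
    · intro hev
      rw [Nat.even_iff] at hev
      omega
  refine ⟨?_, fun s hs _ _ => hsecond s hs, ?_⟩
  · obtain ⟨t, ht⟩ := exists_prime_orderOf_dvd_card' 2 (Cfsg.Agent.Lib.Helper29.Zass.even_card hZ)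
    obtain ⟨h1, h2⟩ := hsq ht
    obtain ⟨x, hx1, hx2⟩ := Cfsg.Agent.Lib.Helper29.Zass.exists_conj_swap hZ h2 h1 hab
    exact ⟨x * t * x⁻¹, by rw [Cfsg.Agent.Lib.Helper29.Zass.orderOf_conj, ht], hx1, hx2⟩
  · intro hev hE
    obtain ⟨z, hz⟩ := exists_prime_orderOf_dvd_card' 2 (even_iff_two_dvd.1 hE)
    have hz' : orderOf z.1 = 2 := by rw [← hz]; exact (Subgroup.orderOf_coe z)
    obtain ⟨h1, h2⟩ := hsq hz'
    obtain ⟨x, hx1, hx2⟩ := Cfsg.Agent.Lib.Helper29.Zass.exists_conj_swap hZ h2 h1 hab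
    have ho : orderOf (x * z.1 * x⁻¹) = 2 := by rw [Cfsg.Agent.Lib.Helper29.Zass.orderOf_conj, hz']
    refine ⟨x * z.1 * x⁻¹, ho, hx1, hx2, ?_⟩
    rcases (hsecond _ ho).2 hev with h | h
    · exfalso
      have hza : z.1 • a = a := z.2.1
      have hmem : x • a ∈ MulAction.fixedBy Ω (x * z.1 * x⁻¹) := by
        show (x * z.1 * x⁻¹) • x • a = x • a
        rw [mul_smul, mul_smul, inv_smul_smul, hza]
      have : Nonempty (MulAction.fixedBy Ω (x * z.1 * x⁻¹)) := ⟨⟨_, hmem⟩⟩
      have := Nat.card_pos (α := MulAction.fixedBy Ω (x * z.1 * x⁻¹))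
      omega
    · exact h

end Cfsg.Agent.S0740
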