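import Cfsg.Statements.S0741
-- import your own Cfsg.Agent.* helpers here
import Cfsg.Agent.Lib.Helper29.Zass2

set_option autoImplicit false
open Cfsg

namespace Cfsg.Agent.S0741

/-- a fixed-point-free involutory "automorphism" (conjugation by `z`) inverts a finite subgroup -/
theorem inverts_of_fpf {G : Type*} [Group G] (K : Subgroup G) [Finite K] {z : G} (hz : z * z = 1)
    (hnorm : ∀ k ∈ K, z * k * z⁻¹ ∈ K) (hfpf : ∀ k ∈ K, z * k * z⁻¹ = k → k = 1) :
    ∀ k ∈ K, z * k * z⁻¹ = k⁻¹ := by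
  let f : K → K := fun k => ⟨k.1⁻¹ * (z * k.1 * z⁻¹), K.mul_mem (K.inv_mem k.2) (hnorm k.1 k.2)⟩
  have hf : Function.Injective f := by
    intro k k' h
    have h1 : k.1⁻¹ * (z * k.1 * z⁻¹) = k'.1⁻¹ * (z * k'.1 * z⁻¹) := congrArg Subtype.val h
    have h2 : z * (k.1 * k'.1⁻¹) * z⁻¹ = k.1 * k'.1⁻¹ := by
      calc z * (k.1 * k'.1⁻¹) * z⁻¹ = k.1 * (k.1⁻¹ * (z * k.1 * z⁻¹)) * (z * k'.1 * z⁻¹)⁻¹ := by group
        _ = k.1 * (k'.1⁻¹ * (z * k'.1 * z⁻¹)) * (z * k'.1 * z⁻¹)⁻¹ := by rw [h1]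
        _ = k.1 * k'.1⁻¹ := by group
    have h3 := hfpf _ (K.mul_mem k.2 (K.inv_mem k'.2)) h2
    rw [mul_inv_eq_one] at h3
    exact Subtype.ext h3
  intro k hk
  obtain ⟨k', hk'⟩ := Finite.surjective_of_injective hf ⟨k, hk⟩
  have h1 : k'.1⁻¹ * (z * k'.1 * z⁻¹) = k := congrArg Subtype.val hk'
  rw [← h1]
  calc z * (k'.1⁻¹ * (z * k'.1 * z⁻¹)) * z⁻¹
      = (z * k'.1⁻¹ * z⁻¹) * ((z * z) * k'.1 * (z * z)⁻¹) := by group
    _ = (z * k'.1⁻¹ * z⁻¹) * k'.1 := by rw [hz]; group
    _ = (k'.1⁻¹ * (z * k'.1 * z⁻¹))⁻¹ := by group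

/-- If the two-point stabilisers of a finite Zassenhaus group of degree `n + 1` have even order `d`, then `2d ≥ n - 1`. -/
theorem result {G Ω : Type*} [Group G] [Finite G] [MulAction G Ω] [Fintype Ω] (hZ : Cfsg.IsZassenhausGroup G Ω) {a b : Ω} (hab : a ≠ b) (heven : Even (Nat.card ↥(MulAction.stabilizer G a ⊓ MulAction.stabilizer G b))) : Fintype.card Ω - 2 ≤ 2 * Nat.card ↥(MulAction.stabilizer G a ⊓ MulAction.stabilizer G b) := by
  classical
  have : Fact (Nat.Prime 2) := ⟨Nat.prime_two⟩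
  obtain ⟨z, hz⟩ := exists_prime_orderOf_dvd_card' 2 (even_iff_two_dvd.1 heven)
  have hz' : orderOf z.1 = 2 := by rw [← hz]; exact (Subgroup.orderOf_coe z)
  have hzsq : z.1 * z.1 = 1 := by rw [← sq, ← hz', pow_orderOf_eq_one]
  have hz1 : z.1 ≠ 1 := by
    intro h
    rw [h, orderOf_one] at hz'
    omega
  have hza : z.1 • a = a := z.2.1
  have hzb : z.1 • b = b := z.2.2
  -- for each further point an involution fixing it and swapping `a` and `b`
  have hex : ∀ c : Ω, c ≠ a → c ≠ b → ∃ s : G, s • a = b ∧ s • b = a ∧ s • c = c := by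
    intro c hca hcb
    obtain ⟨g, hga, hgb⟩ := Cfsg.Agent.Lib.Helper29.Zass.two_trans hZ hab hca
    set z' := g * z.1 * g⁻¹ with hz'def
    have hz'sq : z' * z' = 1 := by
      have e : z' * z' = g * (z.1 * z.1) * g⁻¹ := by rw [hz'def]; group
      rw [e, hzsq]; group
    have hz'1 : z' ≠ 1 := Cfsg.Agent.Lib.Helper29.Zass.conj_ne_one hz1
    have hz'c : z' • c = c := by
      rw [← hga, hz'def, mul_smul, mul_smul, inv_smul_smul, hza]
    have hz'a : z' • a = a := by
      rw [← hgb, hz'def, mul_smul, mul_smul, inv_smul_smul, hzb]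
    obtain ⟨K, hK⟩ := Cfsg.Agent.Lib.Helper29.Zass.exists_isKer hZ c
    obtain ⟨k, hk, hka⟩ := hK.trans (c := a) (d := b) hca.symm hcb.symm
    have hinv := inverts_of_fpf K hz'sq (fun k hk => hK.norm z' hz'c k hk) (by
      intro k hk hcomm
      have h1 : z' • (k • a) = k • a := by
        have h2 : z' * k = k * z' := by
          have := congrArg (fun t => t * z') hcomm
          simpa [mul_assoc] using this
        rw [← mul_smul, h2, mul_smul, hz'a]
      rcases Cfsg.Agent.Lib.Helper29.Zass.fix_two hZ hz'1 hca hz'c hz'a h1 with h | h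
      · exfalso
        apply hca.symm
        apply smul_left_cancel k
        rw [h, hK.fix hk]
      · exact hK.eq_one hk hca.symm h) k hk
    have hzi : z'⁻¹ = z' := by rw [inv_eq_iff_mul_eq_one, hz'sq]
    have hsq : (k * z') * (k * z') = 1 := by
      have e : (k * z') * (k * z') = k * (z' * k * z'⁻¹) * (z' * z') := by group
      rw [e, hinv, hz'sq]; group
    refine ⟨k * z', ?_, ?_, ?_⟩
    · rw [mul_smul, hz'a, hka]
    · have h1 : (k * z') • a = b := by rw [mul_smul, hz'a, hka]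
      rw [← h1, ← mul_smul, hsq, one_smul]
    · rw [mul_smul, hz'c, hK.fix hk]
  choose! s hs1 hs2 hs3 using hex
  obtain ⟨t, hta, htb⟩ := Cfsg.Agent.Lib.Helper29.Zass.two_trans hZ hab hab.symm
  have := Fintype.ofFinite G
  -- the elements swapping `a` and `b`
  let X : Finset G := Finset.univ.filter (fun g => g • a = b ∧ g • b = a)
  have hX : X.card ≤ Nat.card ↥(MulAction.stabilizer G a ⊓ MulAction.stabilizer G b) := by
    rw [← Nat.card_eq_finsetCard]
    apply Nat.card_le_card_of_injective (fun g : X => (⟨t⁻¹ * g.1, by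
      have hg := (Finset.mem_filter.1 g.2).2
      constructor
      · show (t⁻¹ * g.1) • a = a
        rw [mul_smul, hg.1, inv_smul_eq_iff, hta]
      · show (t⁻¹ * g.1) • b = b
        rw [mul_smul, hg.2, inv_smul_eq_iff, htb]⟩ :
      ↥(MulAction.stabilizer G a ⊓ MulAction.stabilizer G b)))
    intro g g' h
    have h1 : t⁻¹ * g.1 = t⁻¹ * g'.1 := congrArg Subtype.val h
    exact Subtype.ext (mul_left_cancel h1)
  let Y : Finset Ω := Finset.univ.filter (fun c => c ≠ a ∧ c ≠ b)
  have hY : Y.card = Fintype.card Ω - 2 := by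
    have h1 : Y = Finset.univ \ {a, b} := by
      ext c
      simp [Y]
    rw [h1, Finset.card_sdiff_of_subset (Finset.subset_univ _), Finset.card_univ, Finset.card_pair hab]
  have himg : Y.image s ⊆ X := by
    intro g hg
    obtain ⟨c, hc, rfl⟩ := Finset.mem_image.1 hg
    have hc' := (Finset.mem_filter.1 hc).2
    exact Finset.mem_filter.2 ⟨Finset.mem_univ _, hs1 c hc'.1 hc'.2, hs2 c hc'.1 hc'.2⟩
  have hmain := Finset.card_le_mul_card_image (f := s) Y 2 (by
    intro g hg
    have hgX := (Finset.mem_filter.1 (himg hg)).2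
    have hg1 : g ≠ 1 := by
      rintro rfl
      rw [one_smul] at hgX
      exact hab hgX.1
    have hle := Cfsg.Agent.Lib.Helper29.Zass.card_fixedBy_le hZ hg1
    refine le_trans ?_ hle
    rw [← Nat.card_eq_finsetCard]
    apply Nat.card_le_card_of_injective (fun c : (Y.filter (fun x => s x = g)) =>
      (⟨c.1, by
        have hc := Finset.mem_filter.1 c.2
        have hc' := (Finset.mem_filter.1 hc.1).2
        have h3 := hs3 c.1 hc'.1 hc'.2
        rw [hc.2] at h3
        exact h3⟩ : MulAction.fixedBy Ω g))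
    intro c c' h
    have h1 : c.1 = c'.1 := congrArg (fun x : MulAction.fixedBy Ω g => x.1) h
    exact Subtype.ext h1)
  rw [hY] at hmain
  calc Fintype.card Ω - 2 ≤ 2 * (Y.image s).card := hmain
    _ ≤ 2 * X.card := Nat.mul_le_mul_left _ (Finset.card_le_card himg)
    _ ≤ _ := Nat.mul_le_mul_left _ hX

end Cfsg.Agent.S0741
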