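import Cfsg.Statements.S0819

set_option autoImplicit false
open Cfsg

namespace Cfsg.Agent.S0819

open Matrix Polynomial

theorem c00 {R : Type*} [CommRing R] (x w : R) (h2 : (2 : R) = 0) (hw : w ^ 2 = w + 1) :
    x ^ 12 - 1 = (1 + 1 * x ^ 3 + 1 * x ^ 6 + 1 * x ^ 9) * (x ^ 3 - 0 * x ^ 2 - 0 * x - 1) := by
  linear_combination (0) * hw + (0) * h2

theorem c01 {R : Type*} [CommRing R] (x w : R) (h2 : (2 : R) = 0) (hw : w ^ 2 = w + 1) :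
    x ^ 63 - 1 = (1 + 1 * x + 1 * x ^ 2 + 1 * x ^ 4 + 1 * x ^ 7 + 1 * x ^ 8 + 1 * x ^ 9 + 1 * x ^ 11 + 1 * x ^ 14 + 1 * x ^ 15 + 1 * x ^ 16 + 1 * x ^ 18 + 1 * x ^ 21 + 1 * x ^ 22 + 1 * x ^ 23 + 1 * x ^ 25 + 1 * x ^ 28 + 1 * x ^ 29 + 1 * x ^ 30 + 1 * x ^ 32 + 1 * x ^ 35 + 1 * x ^ 36 + 1 * x ^ 37 + 1 * x ^ 39 + 1 * x ^ 42 + 1 * x ^ 43 + 1 * x ^ 44 + 1 * x ^ 46 + 1 * x ^ 49 + 1 * x ^ 50 + 1 * x ^ 51 + 1 * x ^ 53 + 1 * x ^ 56 + 1 * x ^ 57 + 1 * x ^ 58 + 1 * x ^ 60) * (x ^ 3 - 0 * x ^ 2 - 1 * x - 1) := by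
  linear_combination (0) * hw + (1 * x + 1 * x ^ 2 + 1 * x ^ 8 + 1 * x ^ 9 + 1 * x ^ 15 + 1 * x ^ 16 + 1 * x ^ 22 + 1 * x ^ 23 + 1 * x ^ 29 + 1 * x ^ 30 + 1 * x ^ 36 + 1 * x ^ 37 + 1 * x ^ 43 + 1 * x ^ 44 + 1 * x ^ 50 + 1 * x ^ 51 + 1 * x ^ 57 + 1 * x ^ 58) * h2

theorem c02 {R : Type*} [CommRing R] (x w : R) (h2 : (2 : R) = 0) (hw : w ^ 2 = w + 1) :
    x ^ 63 - 1 = (1 + 1 * w * x + 1 * x ^ 2 + 1 * w * x ^ 2 + 1 * w * x ^ 4 + 1 * w * x ^ 7 + 1 * x ^ 8 + 1 * w * x ^ 8 + 1 * x ^ 9 + 1 * x ^ 11 + 1 * w * x ^ 11 + 1 * x ^ 14 + 1 * w * x ^ 14 + 1 * x ^ 15 + 1 * w * x ^ 16 + 1 * x ^ 18 + 1 * x ^ 21 + 1 * w * x ^ 22 + 1 * x ^ 23 + 1 * w * x ^ 23 + 1 * w * x ^ 25 + 1 * w * x ^ 28 + 1 * x ^ 29 + 1 * w * x ^ 29 + 1 * x ^ 30 + 1 * x ^ 32 + 1 * w * x ^ 32 + 1 * x ^ 35 + 1 * w * x ^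 35 + 1 * x ^ 36 + 1 * w * x ^ 37 + 1 * x ^ 39 + 1 * x ^ 42 + 1 * w * x ^ 43 + 1 * x ^ 44 + 1 * w * x ^ 44 + 1 * w * x ^ 46 + 1 * w * x ^ 49 + 1 * x ^ 50 + 1 * w * x ^ 50 + 1 * x ^ 51 + 1 * x ^ 53 + 1 * w * x ^ 53 + 1 * x ^ 56 + 1 * w * x ^ 56 + 1 * x ^ 57 + 1 * w * x ^ 58 + 1 * x ^ 60) * (x ^ 3 - 0 * x ^ 2 - w * x - 1) := by
  linear_combination (1 * x ^ 2 + 1 * x ^ 3 + 1 * x ^ 5 + 1 * x ^ 8 + 1 * x ^ 9 + 1 * x ^ 12 + 1 * x ^ 15 + 1 * x ^ 17 + 1 * x ^ 23 + 1 * x ^ 24 + 1 * x ^ 26 + 1 * x ^ 29 + 1 * x ^ 30 + 1 * x ^ 33 + 1 * x ^ 36 + 1 * x ^ 38 + 1 * x ^ 44 + 1 * x ^ 45 + 1 * x ^ 47 + 1 * x ^ 50 + 1 * x ^ 51 + 1 * x ^ 54 + 1 * x ^ 57 + 1 * x ^ 59) * hw + (1 * w * x + 1 * x ^ 2 + 1 * w * x ^ 2 + 1 * w * x ^ 3 + 1 * x ^ 8 + 1 * w * x ^ 8 + 1 * x ^ 9 + 1 * w * x ^ 9 + 1 * w *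 x ^ 12 + 1 * x ^ 15 + 1 * w * x ^ 15 + 1 * w * x ^ 16 + 1 * w * x ^ 22 + 1 * x ^ 23 + 1 * w * x ^ 23 + 1 * w * x ^ 24 + 1 * x ^ 29 + 1 * w * x ^ 29 + 1 * x ^ 30 + 1 * w * x ^ 30 + 1 * w * x ^ 33 + 1 * x ^ 36 + 1 * w * x ^ 36 + 1 * w * x ^ 37 + 1 * w * x ^ 43 + 1 * x ^ 44 + 1 * w * x ^ 44 + 1 * w * x ^ 45 + 1 * x ^ 50 + 1 * w * x ^ 50 + 1 * x ^ 51 + 1 * w * x ^ 51 + 1 * w * x ^ 54 + 1 * x ^ 57 + 1 * w * x ^ 57 + 1 * w * x ^ 58) * h2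

theorem c03 {R : Type*} [CommRing R] (x w : R) (h2 : (2 : R) = 0) (hw : w ^ 2 = w + 1) :
    x ^ 63 - 1 = (1 + 1 * x + 1 * w * x + 1 * w * x ^ 2 + 1 * x ^ 4 + 1 * w * x ^ 4 + 1 * x ^ 7 + 1 * w * x ^ 7 + 1 * w * x ^ 8 + 1 * x ^ 9 + 1 * w * x ^ 11 + 1 * w * x ^ 14 + 1 * x ^ 15 + 1 * x ^ 16 + 1 * w * x ^ 16 + 1 * x ^ 18 + 1 * x ^ 21 + 1 * x ^ 22 + 1 * w * x ^ 22 + 1 * w * x ^ 23 + 1 * x ^ 25 + 1 * w * x ^ 25 + 1 * x ^ 28 + 1 * w * x ^ 28 + 1 * w * x ^ 29 + 1 * x ^ 30 + 1 * w * x ^ 32 + 1 * w * x ^ 35 + 1 * x ^ 36 + 1 * x ^ 37 + 1 * w * x ^ 37 + 1 * x ^ 39 + 1 * x ^ 42 + 1 * x ^ 43 + 1 * w * x ^ 43 + 1 * w * x ^ 44 + 1 * x ^ 46 + 1 * w * x ^ 46 + 1 * x ^ 49 + 1 * w * x ^ 49 + 1 * w * x ^ 50 + 1 * x ^ 51 + 1 * w * x ^ 53 + 1 * w * x ^ 56 + 1 * x ^ 57 + 1 * x ^ 58 + 1 * w * x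 ^ 58 + 1 * x ^ 60) * (x ^ 3 - 0 * x ^ 2 - (w + 1) * x - 1) := by
  linear_combination (1 * x ^ 2 + 1 * x ^ 3 + 1 * x ^ 5 + 1 * x ^ 8 + 1 * x ^ 9 + 1 * x ^ 12 + 1 * x ^ 15 + 1 * x ^ 17 + 1 * x ^ 23 + 1 * x ^ 24 + 1 * x ^ 26 + 1 * x ^ 29 + 1 * x ^ 30 + 1 * x ^ 33 + 1 * x ^ 36 + 1 * x ^ 38 + 1 * x ^ 44 + 1 * x ^ 45 + 1 * x ^ 47 + 1 * x ^ 50 + 1 * x ^ 51 + 1 * x ^ 54 + 1 * x ^ 57 + 1 * x ^ 59) * hw + (1 * x + 1 * w * x + 1 * x ^ 2 + 2 * w * x ^ 2 + 1 * w * x ^ 3 + 1 * x ^ 5 + 1 * w * x ^ 5 + 1 * x ^ 8 + 2 * w * x ^ 8 + 1 * x ^ 9 + 1 * w * x ^ 9 + 1 * w * x ^ 12 + 1 * x ^ 15 + 1 * w * x ^ 15 + 1 * x ^ 16 + 1 * w * x ^ 16 + 1 * x ^ 17 + 1 * w * x ^ 17 + 1 * x ^ 22 + 1 * w * x ^ 22 + 1 * x ^ 23 + 2 * w * x ^ 23 + 1 * w * x ^ 24 + 1 * x ^ 26 + 1 * w * x ^ 26 + 1 * x ^ 29 + 2 * w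 * x ^ 29 + 1 * x ^ 30 + 1 * w * x ^ 30 + 1 * w * x ^ 33 + 1 * x ^ 36 + 1 * w * x ^ 36 + 1 * x ^ 37 + 1 * w * x ^ 37 + 1 * x ^ 38 + 1 * w * x ^ 38 + 1 * x ^ 43 + 1 * w * x ^ 43 + 1 * x ^ 44 + 2 * w * x ^ 44 + 1 * w * x ^ 45 + 1 * x ^ 47 + 1 * w * x ^ 47 + 1 * x ^ 50 + 2 * w * x ^ 50 + 1 * x ^ 51 + 1 * w * x ^ 51 + 1 * w * x ^ 54 + 1 * x ^ 57 + 1 * w * x ^ 57 + 1 * x ^ 58 + 1 * w * x ^ 58 + 1 * x ^ 59 + 1 * w * x ^ 59) * h2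

theorem c10 {R : Type*} [CommRing R] (x w : R) (h2 : (2 : R) = 0) (hw : w ^ 2 = w + 1) :
    x ^ 63 - 1 = (1 + 1 * x ^ 2 + 1 * x ^ 3 + 1 * x ^ 4 + 1 * x ^ 7 + 1 * x ^ 9 + 1 * x ^ 10 + 1 * x ^ 11 + 1 * x ^ 14 + 1 * x ^ 16 + 1 * x ^ 17 + 1 * x ^ 18 + 1 * x ^ 21 + 1 * x ^ 23 + 1 * x ^ 24 + 1 * x ^ 25 + 1 * x ^ 28 + 1 * x ^ 30 + 1 * x ^ 31 + 1 * x ^ 32 + 1 * x ^ 35 + 1 * x ^ 37 + 1 * x ^ 38 + 1 * x ^ 39 + 1 * x ^ 42 + 1 * x ^ 44 + 1 * x ^ 45 + 1 * x ^ 46 + 1 * x ^ 49 + 1 * x ^ 51 + 1 * x ^ 52 + 1 * x ^ 53 + 1 * x ^ 56 + 1 * x ^ 58 + 1 * x ^ 59 + 1 * x ^ 60) * (x ^ 3 - 1 * x ^ 2 - 0 * x - 1) := by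
  linear_combination (0) * hw + (1 * x ^ 2 + 1 * x ^ 4 + 1 * x ^ 9 + 1 * x ^ 11 + 1 * x ^ 16 + 1 * x ^ 18 + 1 * x ^ 23 + 1 * x ^ 25 + 1 * x ^ 30 + 1 * x ^ 32 + 1 * x ^ 37 + 1 * x ^ 39 + 1 * x ^ 44 + 1 * x ^ 46 + 1 * x ^ 51 + 1 * x ^ 53 + 1 * x ^ 58 + 1 * x ^ 60) * h2

theorem c11 {R : Type*} [CommRing R] (x w : R) (h2 : (2 : R) = 0) (hw : w ^ 2 = w + 1) :
    x ^ 12 - 1 = (1 + 1 * x + 1 * x ^ 4 + 1 * x ^ 5 + 1 * x ^ 8 + 1 * x ^ 9) * (x ^ 3 - 1 * x ^ 2 - 1 * x - 1) := by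
  linear_combination (0) * hw + (1 * x + 1 * x ^ 2 + 1 * x ^ 5 + 1 * x ^ 6 + 1 * x ^ 9 + 1 * x ^ 10) * h2

theorem c12 {R : Type*} [CommRing R] (x w : R) (h2 : (2 : R) = 0) (hw : w ^ 2 = w + 1) :
    x ^ 5 - (w + 1) = (1 + 1 * w + 1 * x + 1 * x ^ 2) * (x ^ 3 - 1 * x ^ 2 - w * x - 1) := by
  linear_combination (1 * x) * hw + (1 * x + 1 * w * x + 1 * x ^ 2 + 1 * w * x ^ 2) * h2

theorem c13 {R : Type*} [CommRing R] (x w : R) (h2 : (2 : R) = 0) (hw : w ^ 2 = w + 1) :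
    x ^ 5 - w = (1 * w + 1 * x + 1 * x ^ 2) * (x ^ 3 - 1 * x ^ 2 - (w + 1) * x - 1) := by
  linear_combination (1 * x) * hw + (1 * x + 1 * w * x + 1 * x ^ 2 + 1 * w * x ^ 2 + 1 * x ^ 3) * h2

theorem c20 {R : Type*} [CommRing R] (x w : R) (h2 : (2 : R) = 0) (hw : w ^ 2 = w + 1) :
    x ^ 63 - 1 = (1 + 1 * w * x ^ 2 + 1 * x ^ 3 + 1 * x ^ 4 + 1 * w * x ^ 4 + 1 * x ^ 7 + 1 * w * x ^ 7 + 1 * x ^ 9 + 1 * x ^ 10 + 1 * w * x ^ 10 + 1 * w * x ^ 11 + 1 * w * x ^ 14 + 1 * x ^ 16 + 1 * w * x ^ 16 + 1 * w * x ^ 17 + 1 * x ^ 18 + 1 * x ^ 21 + 1 * w * x ^ 23 + 1 * x ^ 24 + 1 * x ^ 25 + 1 * w * x ^ 25 + 1 * x ^ 28 + 1 * w * x ^ 28 + 1 * x ^ 30 + 1 * x ^ 31 + 1 * w * x ^ 31 + 1 * w * x ^ 32 + 1 * w * x ^ 35 + 1 * x ^ 37 + 1 * w * x ^ 37 + 1 * w * x ^ 38 + 1 * x ^ 39 + 1 * x ^ 42 + 1 * w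 * x ^ 44 + 1 * x ^ 45 + 1 * x ^ 46 + 1 * w * x ^ 46 + 1 * x ^ 49 + 1 * w * x ^ 49 + 1 * x ^ 51 + 1 * x ^ 52 + 1 * w * x ^ 52 + 1 * w * x ^ 53 + 1 * w * x ^ 56 + 1 * x ^ 58 + 1 * w * x ^ 58 + 1 * w * x ^ 59 + 1 * x ^ 60) * (x ^ 3 - w * x ^ 2 - 0 * x - 1) := by
  linear_combination (1 * x ^ 4 + 1 * x ^ 6 + 1 * x ^ 9 + 1 * x ^ 12 + 1 * x ^ 13 + 1 * x ^ 16 + 1 * x ^ 18 + 1 * x ^ 19 + 1 * x ^ 25 + 1 * x ^ 27 + 1 * x ^ 30 + 1 * x ^ 33 + 1 * x ^ 34 + 1 * x ^ 37 + 1 * x ^ 39 + 1 * x ^ 40 + 1 * x ^ 46 + 1 * x ^ 48 + 1 * x ^ 51 + 1 * x ^ 54 + 1 * x ^ 55 + 1 * x ^ 58 + 1 * x ^ 60 + 1 * x ^ 61) * hw + (1 * w * x ^ 2 + 1 * x ^ 4 + 1 * w * x ^ 4 + 1 * w * x ^ 6 + 1 * x ^ 9 + 1 * w * x ^ 9 + 1 * w * x ^ 11 + 1 * w * x ^ 12 + 1 * x ^ 16 + 1 * w * x ^ 16 + 1 * x ^ 18 + 1 * w * x ^ 18 + 1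 * w * x ^ 23 + 1 * x ^ 25 + 1 * w * x ^ 25 + 1 * w * x ^ 27 + 1 * x ^ 30 + 1 * w * x ^ 30 + 1 * w * x ^ 32 + 1 * w * x ^ 33 + 1 * x ^ 37 + 1 * w * x ^ 37 + 1 * x ^ 39 + 1 * w * x ^ 39 + 1 * w * x ^ 44 + 1 * x ^ 46 + 1 * w * x ^ 46 + 1 * w * x ^ 48 + 1 * x ^ 51 + 1 * w * x ^ 51 + 1 * w * x ^ 53 + 1 * w * x ^ 54 + 1 * x ^ 58 + 1 * w * x ^ 58 + 1 * x ^ 60 + 1 * w * x ^ 60) * h2

theorem c21 {R : Type*} [CommRing R] (x w : R) (h2 : (2 : R) = 0) (hw : w ^ 2 = w + 1) :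
    x ^ 5 - w = (1 * w + 1 * w * x + 1 * x ^ 2) * (x ^ 3 - w * x ^ 2 - 1 * x - 1) := by
  linear_combination (1 * x ^ 2 + 1 * x ^ 3) * hw + (1 * w * x + 1 * x ^ 2 + 1 * w * x ^ 2 + 1 * x ^ 3) * h2

theorem c22 {R : Type*} [CommRing R] (x w : R) (h2 : (2 : R) = 0) (hw : w ^ 2 = w + 1) :
    x ^ 5 - 1 = (1 + 1 * w * x + 1 * x ^ 2) * (x ^ 3 - w * x ^ 2 - w * x - 1) := by
  linear_combination (1 * x ^ 2 + 1 * x ^ 3) * hw + (1 * w * x + 1 * x ^ 2 + 1 * w * x ^ 2 + 1 * w * x ^ 3) * h2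

theorem c23 {R : Type*} [CommRing R] (x w : R) (h2 : (2 : R) = 0) (hw : w ^ 2 = w + 1) :
    x ^ 12 - 1 = (1 + 1 * x + 1 * w * x + 1 * x ^ 4 + 1 * w * x ^ 4 + 1 * w * x ^ 5 + 1 * w * x ^ 8 + 1 * x ^ 9) * (x ^ 3 - w * x ^ 2 - (w + 1) * x - 1) := by
  linear_combination (1 * x ^ 2 + 1 * x ^ 3 + 1 * x ^ 5 + 2 * x ^ 6 + 1 * x ^ 7 + 1 * x ^ 9 + 1 * x ^ 10) * hw + (1 * x + 1 * w * x + 1 * x ^ 2 + 2 * w * x ^ 2 + 1 * w * x ^ 3 + 1 * x ^ 5 + 2 * w * x ^ 5 + 1 * x ^ 6 + 2 * w * x ^ 6 + 1 * x ^ 9 + 1 * w * x ^ 9 + 1 * x ^ 10 + 1 * w * x ^ 10) * h2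

theorem c30 {R : Type*} [CommRing R] (x w : R) (h2 : (2 : R) = 0) (hw : w ^ 2 = w + 1) :
    x ^ 63 - 1 = (1 + 1 * x ^ 2 + 1 * w * x ^ 2 + 1 * x ^ 3 + 1 * w * x ^ 4 + 1 * w * x ^ 7 + 1 * x ^ 9 + 1 * w * x ^ 10 + 1 * x ^ 11 + 1 * w * x ^ 11 + 1 * x ^ 14 + 1 * w * x ^ 14 + 1 * w * x ^ 16 + 1 * x ^ 17 + 1 * w * x ^ 17 + 1 * x ^ 18 + 1 * x ^ 21 + 1 * x ^ 23 + 1 * w * x ^ 23 + 1 * x ^ 24 + 1 * w * x ^ 25 + 1 * w * x ^ 28 + 1 * x ^ 30 + 1 * w * x ^ 31 + 1 * x ^ 32 + 1 * w * x ^ 32 + 1 * x ^ 35 + 1 * w * x ^ 35 + 1 * w * x ^ 37 + 1 * x ^ 38 + 1 * w * x ^ 38 + 1 * x ^ 39 + 1 * x ^ 42 + 1 * x ^ 44 + 1 * w * x ^ 44 + 1 * x ^ 45 + 1 * w * x ^ 46 + 1 * w * x ^ 49 + 1 * x ^ 51 + 1 * w * x ^ 52 + 1 * x ^ 53 + 1 * w * x ^ 53 + 1 * x ^ 56 + 1 * w * x ^ 56 + 1 * w * x ^ 58 + 1 * x ^ 59 +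 1 * w * x ^ 59 + 1 * x ^ 60) * (x ^ 3 - (w + 1) * x ^ 2 - 0 * x - 1) := by
  linear_combination (1 * x ^ 4 + 1 * x ^ 6 + 1 * x ^ 9 + 1 * x ^ 12 + 1 * x ^ 13 + 1 * x ^ 16 + 1 * x ^ 18 + 1 * x ^ 19 + 1 * x ^ 25 + 1 * x ^ 27 + 1 * x ^ 30 + 1 * x ^ 33 + 1 * x ^ 34 + 1 * x ^ 37 + 1 * x ^ 39 + 1 * x ^ 40 + 1 * x ^ 46 + 1 * x ^ 48 + 1 * x ^ 51 + 1 * x ^ 54 + 1 * x ^ 55 + 1 * x ^ 58 + 1 * x ^ 60 + 1 * x ^ 61) * hw + (1 * x ^ 2 + 1 * w * x ^ 2 + 1 * x ^ 4 + 2 * w * x ^ 4 + 1 * w * x ^ 6 + 1 * x ^ 9 + 1 * w * x ^ 9 + 1 * x ^ 11 + 1 * w * x ^ 11 + 1 * w * x ^ 12 + 1 * x ^ 13 + 1 * w * x ^ 13 + 1 * x ^ 16 + 2 * w * x ^ 16 + 1 * x ^ 18 + 1 * w * x ^ 18 + 1 * x ^ 19 + 1 * w * x ^ 19 + 1 * x ^ 23 + 1 * w * x ^ 23 + 1 * x ^ 25 + 2 * w * x ^ 25 + 1 * w * x ^ 27 + 1 * x ^ 30 + 1 * w * x ^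 30 + 1 * x ^ 32 + 1 * w * x ^ 32 + 1 * w * x ^ 33 + 1 * x ^ 34 + 1 * w * x ^ 34 + 1 * x ^ 37 + 2 * w * x ^ 37 + 1 * x ^ 39 + 1 * w * x ^ 39 + 1 * x ^ 40 + 1 * w * x ^ 40 + 1 * x ^ 44 + 1 * w * x ^ 44 + 1 * x ^ 46 + 2 * w * x ^ 46 + 1 * w * x ^ 48 + 1 * x ^ 51 + 1 * w * x ^ 51 + 1 * x ^ 53 + 1 * w * x ^ 53 + 1 * w * x ^ 54 + 1 * x ^ 55 + 1 * w * x ^ 55 + 1 * x ^ 58 + 2 * w * x ^ 58 + 1 * x ^ 60 + 1 * w * x ^ 60 + 1 * x ^ 61 + 1 * w * x ^ 61) * h2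

theorem c31 {R : Type*} [CommRing R] (x w : R) (h2 : (2 : R) = 0) (hw : w ^ 2 = w + 1) :
    x ^ 5 - (w + 1) = (1 + 1 * w + 1 * x + 1 * w * x + 1 * x ^ 2) * (x ^ 3 - (w + 1) * x ^ 2 - 1 * x - 1) := by
  linear_combination (1 * x ^ 2 + 1 * x ^ 3) * hw + (1 * x + 1 * w * x + 2 * x ^ 2 + 2 * w * x ^ 2 + 1 * x ^ 3 + 1 * w * x ^ 3) * h2

theorem c32 {R : Type*} [CommRing R] (x w : R) (h2 : (2 : R) = 0) (hw : w ^ 2 = w + 1) :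
    x ^ 12 - 1 = (1 + 1 * w * x + 1 * w * x ^ 4 + 1 * x ^ 5 + 1 * w * x ^ 5 + 1 * x ^ 8 + 1 * w * x ^ 8 + 1 * x ^ 9) * (x ^ 3 - (w + 1) * x ^ 2 - w * x - 1) := by
  linear_combination (1 * x ^ 2 + 1 * x ^ 3 + 1 * x ^ 5 + 2 * x ^ 6 + 1 * x ^ 7 + 1 * x ^ 9 + 1 * x ^ 10) * hw + (1 * w * x + 1 * x ^ 2 + 1 * w * x ^ 2 + 1 * w * x ^ 3 + 1 * x ^ 5 + 1 * w * x ^ 5 + 1 * x ^ 6 + 2 * w * x ^ 6 + 1 * x ^ 7 + 1 * w * x ^ 7 + 1 * x ^ 9 + 1 * w * x ^ 9 + 1 * x ^ 10 + 2 * w * x ^ 10) * h2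

theorem c33 {R : Type*} [CommRing R] (x w : R) (h2 : (2 : R) = 0) (hw : w ^ 2 = w + 1) :
    x ^ 5 - 1 = (1 + 1 * x + 1 * w * x + 1 * x ^ 2) * (x ^ 3 - (w + 1) * x ^ 2 - (w + 1) * x - 1) := by
  linear_combination (1 * x ^ 2 + 1 * x ^ 3) * hw + (1 * x + 1 * w * x + 2 * x ^ 2 + 2 * w * x ^ 2 + 1 * x ^ 3 + 2 * w * x ^ 3) * h2

theorem key {R : Type*} [CommRing R] (x w t s : R) (h2 : (2 : R) = 0) (hw : w ^ 2 = w + 1)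
    (ht : t = 0 ∨ t = 1 ∨ t = w ∨ t = w + 1) (hs : s = 0 ∨ s = 1 ∨ s = w ∨ s = w + 1) :
    (∃ Q, x ^ 63 - 1 = Q * (x ^ 3 - t * x ^ 2 - s * x - 1)) ∨
    (∃ Q, x ^ 12 - 1 = Q * (x ^ 3 - t * x ^ 2 - s * x - 1)) ∨
    (∃ c Q, (c = 1 ∨ c = w ∨ c = w + 1) ∧ x ^ 5 - c = Q * (x ^ 3 - t * x ^ 2 - s * x - 1)) := by
  rcases ht with ht | ht | ht | ht <;> rcases hs with hs | hs | hs | hs <;> rw [ht, hs]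
  · exact Or.inr (Or.inl ⟨_, c00 x w h2 hw⟩)
  · exact Or.inl ⟨_, c01 x w h2 hw⟩
  · exact Or.inl ⟨_, c02 x w h2 hw⟩
  · exact Or.inl ⟨_, c03 x w h2 hw⟩
  · exact Or.inl ⟨_, c10 x w h2 hw⟩
  · exact Or.inr (Or.inl ⟨_, c11 x w h2 hw⟩)
  · exact Or.inr (Or.inr ⟨_, _, Or.inr (Or.inr rfl), c12 x w h2 hw⟩)
  · exact Or.inr (Or.inr ⟨_, _, Or.inr (Or.inl rfl), c13 x w h2 hw⟩)
  · exact Or.inl ⟨_, c20 x w h2 hw⟩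
  · exact Or.inr (Or.inr ⟨_, _, Or.inr (Or.inl rfl), c21 x w h2 hw⟩)
  · exact Or.inr (Or.inr ⟨_, _, Or.inl rfl, c22 x w h2 hw⟩)
  · exact Or.inr (Or.inl ⟨_, c23 x w h2 hw⟩)
  · exact Or.inl ⟨_, c30 x w h2 hw⟩
  · exact Or.inr (Or.inr ⟨_, _, Or.inr (Or.inr rfl), c31 x w h2 hw⟩)
  · exact Or.inr (Or.inl ⟨_, c32 x w h2 hw⟩)
  · exact Or.inr (Or.inr ⟨_, _, Or.inl rfl, c33 x w h2 hw⟩)

theorem f4 {F : Type*} [Field F] [Fintype F] (hF : Fintype.card F = 4) :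
    (2 : F) = 0 ∧ ∃ ω : F, ω ^ 2 = ω + 1 ∧ ∀ a : F, a = 0 ∨ a = 1 ∨ a = ω ∨ a = ω + 1 := by
  classical
  have hchar : ringChar F = 2 := by
    rw [FiniteField.even_card_iff_char_two, hF]
  have : CharP F 2 := by
    rw [← hchar]; exact ringChar.charP F
  have h2 : (2 : F) = 0 := CharP.cast_eq_zero F 2
  refine ⟨h2, ?_⟩
  have h4 : ∀ a : F, a = 0 ∨ a = 1 ∨ a ^ 2 + a + 1 = 0 := by
    intro a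
    have h := FiniteField.pow_card a
    rw [hF] at h
    have h' : a * ((a - 1) * (a ^ 2 + a + 1)) = 0 := by linear_combination h
    rcases mul_eq_zero.mp h' with h | h
    · exact Or.inl h
    rcases mul_eq_zero.mp h with h | h
    · exact Or.inr (Or.inl (by linear_combination h))
    · exact Or.inr (Or.inr h)
  obtain ⟨ω, hω⟩ : ∃ ω : F, ω ∉ ({0, 1} : Finset F) := by
    by_contra hcon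
    push Not at hcon
    have : Fintype.card F ≤ ({0, 1} : Finset F).card := by
      rw [← Finset.card_univ]
      exact Finset.card_le_card (fun a _ => hcon a)
    have h3 : ({0, 1} : Finset F).card ≤ 2 := Finset.card_le_two
    omega
  simp only [Finset.mem_insert, Finset.mem_singleton, not_or] at hω
  have hω2 : ω ^ 2 + ω + 1 = 0 := by
    rcases h4 ω with h | h | h
    · exact absurd h hω.1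
    · exact absurd h hω.2
    · exact h
  refine ⟨ω, by linear_combination hω2 - (ω + 1) * h2, ?_⟩
  intro a
  rcases h4 a with h | h | h
  · exact Or.inl h
  · exact Or.inr (Or.inl h)
  · have h' : (a - ω) * (a + ω + 1) = 0 := by linear_combination h - hω2
    rcases mul_eq_zero.mp h' with h | h
    · exact Or.inr (Or.inr (Or.inl (by linear_combination h)))
    · exact Or.inr (Or.inr (Or.inr (by linear_combination h - (ω + 1) * h2)))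

theorem charpoly_form {F : Type*} [Field F] (M : Matrix (Fin 3) (Fin 3) F) (hM : M.det = 1) :
    ∃ t s : F, M.charpoly = X ^ 3 - C t * X ^ 2 - C s * X - 1 := by
  have hdeg : M.charpoly.natDegree = 3 := by
    rw [Matrix.charpoly_natDegree_eq_dim]; rfl
  have hmon : M.charpoly.coeff 3 = 1 := by
    have := (Matrix.charpoly_monic M).coeff_natDegree
    rwa [hdeg] at this
  have h0 : M.charpoly.coeff 0 = -1 := by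
    have := Matrix.det_eq_sign_charpoly_coeff M
    rw [hM] at this
    simp only [Fintype.card_fin] at this
    linear_combination this
  refine ⟨-M.charpoly.coeff 2, -M.charpoly.coeff 1, ?_⟩
  conv_lhs => rw [Polynomial.as_sum_range' M.charpoly 4 (by rw [hdeg]; norm_num)]
  simp only [Finset.sum_range_succ, Finset.sum_range_zero, hmon, h0, ← Polynomial.C_mul_X_pow_eq_monomial]
  simp
  ring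

theorem result {F : Type*} [Field F] [Fintype F] (hF : Fintype.card F = 4) (g : Matrix.ProjectiveSpecialLinearGroup (Fin 3) F) : orderOf g ≠ 15 := by
  classical
  obtain ⟨h2, ω, hω, hall⟩ := f4 hF
  obtain ⟨A, rfl⟩ := QuotientGroup.mk_surjective g
  obtain ⟨t, s, hp⟩ := charpoly_form (A : Matrix (Fin 3) (Fin 3) F) A.2
  have hC : ∀ a : F, (C a : F[X]) = 0 ∨ (C a : F[X]) = 1 ∨ (C a : F[X]) = C ω ∨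
      (C a : F[X]) = C ω + 1 := by
    intro a
    rcases hall a with rfl | rfl | rfl | rfl
    · left; simp
    · right; left; simp
    · right; right; left; rfl
    · right; right; right; simp
  have hCH := Matrix.aeval_self_charpoly (A : Matrix (Fin 3) (Fin 3) F)
  have h2' : (2 : F[X]) = 0 := by
    calc (2 : F[X]) = C (2 : F) := (map_ofNat C 2).symm
      _ = 0 := by rw [h2, C_0]
  have hw' : (C ω : F[X]) ^ 2 = C ω + 1 := by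
    rw [← C_pow, hω, C_add, C_1]
  have fin : ∀ N : ℕ, ¬ 15 ∣ N → (A ^ N ∈ Subgroup.center (Matrix.SpecialLinearGroup (Fin 3) F)) →
      orderOf (QuotientGroup.mk A : Matrix.ProjectiveSpecialLinearGroup (Fin 3) F) ≠ 15 := by
    intro N hN hmem h15
    apply hN
    rw [← h15]
    apply orderOf_dvd_of_pow_eq_one
    rw [← QuotientGroup.mk_pow]
    exact (QuotientGroup.eq_one_iff _).mpr hmem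
  have one : ∀ N : ℕ, (∃ Q : F[X], X ^ N - 1 = Q * (X ^ 3 - C t * X ^ 2 - C s * X - 1)) →
      A ^ N ∈ Subgroup.center (Matrix.SpecialLinearGroup (Fin 3) F) := by
    rintro N ⟨Q, hQ⟩
    rw [← hp] at hQ
    have h := congrArg (aeval (A : Matrix (Fin 3) (Fin 3) F)) hQ
    rw [map_mul, hCH, mul_zero] at h
    simp only [map_sub, map_pow, aeval_X, map_one] at h
    have : A ^ N = 1 := by
      apply Subtype.ext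
      rw [Matrix.SpecialLinearGroup.coe_pow, Matrix.SpecialLinearGroup.coe_one]
      exact sub_eq_zero.mp h
    rw [this]
    exact Subgroup.one_mem _
  rcases key (X : F[X]) (C ω) (C t) (C s) h2' hw' (hC t) (hC s) with h | h | ⟨c, Q, hc, hQ⟩
  · exact fin 63 (by norm_num) (one 63 h)
  · exact fin 12 (by norm_num) (one 12 h)
  · apply fin 5 (by norm_num)
    obtain ⟨c₀, rfl, hc₀⟩ : ∃ c₀ : F, c = C c₀ ∧ c₀ ^ 3 = 1 := by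
      rcases hc with rfl | rfl | rfl
      · exact ⟨1, by simp, by ring⟩
      · exact ⟨ω, rfl, by linear_combination (ω + 1) * hω + ω * h2⟩
      · exact ⟨ω + 1, by simp, by linear_combination (ω + 4) * hω + (4 * ω + 2) * h2⟩
    rw [← hp] at hQ
    have h := congrArg (aeval (A : Matrix (Fin 3) (Fin 3) F)) hQ
    rw [map_mul, hCH, mul_zero] at h
    simp only [map_sub, map_pow, aeval_X, aeval_C] at h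
    rw [Matrix.SpecialLinearGroup.mem_center_iff]
    refine ⟨c₀, by simpa using hc₀, ?_⟩
    rw [Matrix.SpecialLinearGroup.coe_pow]
    exact (sub_eq_zero.mp h).symm

end Cfsg.Agent.S0819
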