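import Cfsg.Statements.S0827
import Cfsg.Agent.S0819
import Cfsg.Agent.Lib.Helper12.UnitarySU
import Cfsg.Agent.Lib.Helper6.Grp72

set_option autoImplicit false
set_option linter.unusedSectionVars false
open Cfsg

namespace Cfsg.Agent.S0827

open Matrix Cfsg.Agent.Lib.Helper12

section
variable {F : Type*} [Field F]

def mW (ω : F) : Matrix (Fin 3) (Fin 3) F := !![1, 1, 1; 1, ω, ω + 1; 1, ω + 1, ω]
def mB (ω : F) : Matrix (Fin 3) (Fin 3) F := !![1, ω, ω; ω + 1, ω, ω + 1; ω + 1, ω + 1, ω]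
def mX (ω : F) : Matrix (Fin 3) (Fin 3) F := !![1, 0, 0; 0, ω, 0; 0, 0, ω + 1]
def mY : Matrix (Fin 3) (Fin 3) F := !![0, 0, 1; 1, 0, 0; 0, 1, 0]
def mZ (ω : F) : Matrix (Fin 3) (Fin 3) F := !![ω, 0, 0; 0, ω, 0; 0, 0, ω]

variable (ω : F) (h2 : (2 : F) = 0) (hω : ω ^ 2 = ω + 1)
include h2 hω

theorem detW : (mW ω).det = 1 := by
  rw [Matrix.det_fin_three]; simp [mW]; grind
theorem detB : (mB ω).det = 1 := by
  rw [Matrix.det_fin_three]; simp [mB]; grind
theorem detX : (mX ω).det = 1 := by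
  rw [Matrix.det_fin_three]; simp [mX]; grind
theorem detZ : (mZ ω).det = 1 := by
  rw [Matrix.det_fin_three]; simp [mZ]; grind
omit h2 hω in
theorem detY : (mY : Matrix (Fin 3) (Fin 3) F).det = 1 := by
  rw [Matrix.det_fin_three]; simp [mY]

theorem presW : HPres 2 3 (mW ω) := by
  intro u v
  simp [hermForm, Fin.sum_univ_three, Matrix.mulVec, dotProduct, mW]
  grind
theorem presB : HPres 2 3 (mB ω) := by
  intro u v
  simp [hermForm, Fin.sum_univ_three, Matrix.mulVec, dotProduct, mB]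
  grind
theorem presX : HPres 2 3 (mX ω) := by
  intro u v
  simp [hermForm, Fin.sum_univ_three, Matrix.mulVec, dotProduct, mX]
  grind
theorem presZ : HPres 2 3 (mZ ω) := by
  intro u v
  simp [hermForm, Fin.sum_univ_three, Matrix.mulVec, dotProduct, mZ]
  grind
omit h2 hω in
theorem presY : HPres 2 3 (mY : Matrix (Fin 3) (Fin 3) F) := by
  intro u v
  simp [hermForm, Fin.sum_univ_three, Matrix.mulVec, dotProduct, mY]
  ring

theorem r1 : mY * (mW ω * mX ω) = mW ω := by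
  ext i j
  fin_cases i <;> fin_cases j <;> simp [Matrix.mul_apply, Fin.sum_univ_three, mY, mW, mX] <;> grind
theorem r2 : mW ω * mY = mX ω * mW ω := by
  ext i j
  fin_cases i <;> fin_cases j <;> simp [Matrix.mul_apply, Fin.sum_univ_three, mY, mW, mX] <;> grind
theorem r3 : mW ω * mW ω * (mW ω * mW ω) = 1 := by
  ext i j
  fin_cases i <;> fin_cases j <;> simp [Matrix.mul_apply, Fin.sum_univ_three, mW] <;> grind
theorem r4 : mB ω * mB ω = mW ω * mW ω := by
  ext i j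
  fin_cases i <;> fin_cases j <;> simp [Matrix.mul_apply, Fin.sum_univ_three, mW, mB] <;> grind
theorem r5 : mW ω * (mB ω * mW ω) = mB ω := by
  ext i j
  fin_cases i <;> fin_cases j <;> simp [Matrix.mul_apply, Fin.sum_univ_three, mW, mB] <;> grind
theorem r6 : mX ω * mY = mZ ω * (mY * mX ω) := by
  ext i j
  fin_cases i <;> fin_cases j <;> simp [Matrix.mul_apply, Fin.sum_univ_three, mX, mY, mZ] <;> grind
theorem r7 : mX ω * mX ω * mX ω = 1 := by
  ext i j
  fin_cases i <;> fin_cases j <;> simp [Matrix.mul_apply, Fin.sum_univ_three, mX] <;> grind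
omit h2 hω in
theorem r8 : (mY : Matrix (Fin 3) (Fin 3) F) * mY * mY = 1 := by
  ext i j
  fin_cases i <;> fin_cases j <;> simp [Matrix.mul_apply, Fin.sum_univ_three, mY]

theorem r9 : mW ω * mW ω * mX ω ≠ mX ω * (mW ω * mW ω) := by
  intro h
  have := congrFun (congrFun h 1) 2
  simp [Matrix.mul_apply, Fin.sum_univ_three, mW, mX] at this
  grind
theorem r10 : mX ω * mY ≠ mY * mX ω := by
  intro h
  have := congrFun (congrFun h 1) 0
  simp [Matrix.mul_apply, Fin.sum_univ_three, mY, mX] at this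
  grind
omit h2 hω in
theorem mZ_eq : mZ ω = ω • (1 : Matrix (Fin 3) (Fin 3) F) := by
  ext i j
  fin_cases i <;> fin_cases j <;> simp [mZ]

end

theorem card_PSU {F : Type*} [Field F] [Fintype F] (hF : Fintype.card F = 4) :
    Nat.card (PSU 3 F 2) = 72 := by
  have hF' : Fintype.card F = 2 ^ 2 := by rw [hF]; norm_num
  have h1 := card_GU hF' 3
  have h2 := card_GU_eq_mul_SU hF' 3 (by norm_num)
  have h3 := card_center_SU hF' 3 (by norm_num)
  have h4 := Subgroup.card_eq_card_quotient_mul_card_subgroup (Subgroup.center (SU 3 F 2))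
  simp [Finset.prod_range_succ] at h1
  norm_num at h1 h2 h3
  rw [h3] at h4
  show Nat.card (SU 3 F 2 ⧸ Subgroup.center (SU 3 F 2)) = 72
  omega

/-- U_3(2) ≅ 3².Q_8: PSU_3(2) (form over the field with 4 elements) has a normal subgroup N which is elementary abelian of order 9 such that the quotient by N is isomorphic to the quaternion group of order 8. -/
theorem result {F : Type*} [Field F] [Fintype F] (hF : Fintype.card F = 4) : ∃ (N : Subgroup (Cfsg.PSU 3 F 2)) (_ : N.Normal), Nat.card N = 9 ∧ (∀ x ∈ N, x ^ 3 = 1) ∧ Nonempty (Cfsg.PSU 3 F 2 ⧸ N ≃* QuaternionGroup 2) := by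
  classical
  obtain ⟨h2, ω, hω, -⟩ := Cfsg.Agent.S0819.f4 hF
  have hcard := card_PSU hF
  have hfin : Finite (PSU 3 F 2) := Nat.finite_of_card_ne_zero (by rw [hcard]; norm_num)
  obtain ⟨W, hW⟩ := exists_SU_of (detW ω h2 hω) (presW ω h2 hω)
  obtain ⟨B, hB⟩ := exists_SU_of (detB ω h2 hω) (presB ω h2 hω)
  obtain ⟨X, hX⟩ := exists_SU_of (detX ω h2 hω) (presX ω h2 hω)
  obtain ⟨Y, hY⟩ := exists_SU_of (q := 2) (detY (F := F)) presY
  obtain ⟨Z, hZ⟩ := exists_SU_of (detZ ω h2 hω) (presZ ω h2 hω)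
  have ext' : ∀ g h : SU 3 F 2, g.1.1 = h.1.1 → g = h := fun g h e =>
    Subtype.ext (Subtype.ext e)
  have e1 : Y * (W * X) = W := ext' _ _ (by
    show Y.1.1 * (W.1.1 * X.1.1) = W.1.1
    rw [hY, hW, hX]; exact r1 ω h2 hω)
  have e2 : W * Y = X * W := ext' _ _ (by
    show W.1.1 * Y.1.1 = X.1.1 * W.1.1
    rw [hY, hW, hX]; exact r2 ω h2 hω)
  have e3 : W * W * (W * W) = 1 := ext' _ _ (by
    show W.1.1 * W.1.1 * (W.1.1 * W.1.1) = 1
    rw [hW]; exact r3 ω h2 hω)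
  have e4 : B * B = W * W := ext' _ _ (by
    show B.1.1 * B.1.1 = W.1.1 * W.1.1
    rw [hW, hB]; exact r4 ω h2 hω)
  have e5 : W * (B * W) = B := ext' _ _ (by
    show W.1.1 * (B.1.1 * W.1.1) = B.1.1
    rw [hW, hB]; exact r5 ω h2 hω)
  have e6 : X * Y = Z * (Y * X) := ext' _ _ (by
    show X.1.1 * Y.1.1 = Z.1.1 * (Y.1.1 * X.1.1)
    rw [hX, hY, hZ]; exact r6 ω h2 hω)
  have e7 : X * X * X = 1 := ext' _ _ (by
    show X.1.1 * X.1.1 * X.1.1 = 1
    rw [hX]; exact r7 ω h2 hω)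
  have e8 : Y * Y * Y = 1 := ext' _ _ (by
    show Y.1.1 * Y.1.1 * Y.1.1 = 1
    rw [hY]; exact r8)
  have e9 : W * W * X ≠ X * (W * W) := by
    intro h
    apply r9 ω h2 hω
    have := congrArg (fun g : SU 3 F 2 => g.1.1) h
    rw [← hW, ← hX]
    exact this
  have e10 : X * Y ≠ Y * X := by
    intro h
    apply r10 ω h2 hω
    have := congrArg (fun g : SU 3 F 2 => g.1.1) h
    rw [← hY, ← hX]
    exact this
  have hZc : Z ∈ Subgroup.center (SU 3 F 2) := by
    rw [Subgroup.mem_center_iff]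
    intro g
    apply ext'
    show g.1.1 * Z.1.1 = Z.1.1 * g.1.1
    rw [hZ, mZ_eq, Matrix.mul_smul, Matrix.smul_mul, mul_one, one_mul]
  have mk1 : ∀ g : SU 3 F 2, (QuotientGroup.mk g : PSU 3 F 2) = 1 ↔
      g ∈ Subgroup.center (SU 3 F 2) := fun g => QuotientGroup.eq_one_iff g
  refine Cfsg.Agent.Lib.Helper6.grp72 hcard (QuotientGroup.mk X) (QuotientGroup.mk Y)
    (QuotientGroup.mk W) (QuotientGroup.mk B) ?_ ?_ ?_ ?_ ?_ ?_ ?_ ?_ ?_ ?_ ?_
  · show (QuotientGroup.mk (X ^ 3) : PSU 3 F 2) = 1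
    have : X ^ 3 = X * X * X := by rw [pow_succ, pow_two]
    rw [this, e7]; rfl
  · show (QuotientGroup.mk (Y ^ 3) : PSU 3 F 2) = 1
    have : Y ^ 3 = Y * Y * Y := by rw [pow_succ, pow_two]
    rw [this, e8]; rfl
  · show (QuotientGroup.mk (X * Y) : PSU 3 F 2) = QuotientGroup.mk (Y * X)
    rw [e6]
    show (QuotientGroup.mk Z : PSU 3 F 2) * QuotientGroup.mk (Y * X) = _
    rw [(mk1 Z).mpr hZc, one_mul]
  · intro h
    have := Subgroup.mem_center_iff.mp ((mk1 X).mp h) Y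
    exact e10 this.symm
  · intro h
    obtain ⟨k, hk⟩ := Subgroup.mem_zpowers_iff.mp h
    have hk' : (QuotientGroup.mk (X ^ k) : PSU 3 F 2) = QuotientGroup.mk Y := hk
    have hc := Subgroup.mem_center_iff.mp (QuotientGroup.eq.mp hk') X
    apply e10
    have hcm : X * (X ^ k)⁻¹ = (X ^ k)⁻¹ * X :=
      (((Commute.refl X).zpow_right k).inv_right).eq
    have h3 : (X ^ k)⁻¹ * (X * Y) = (X ^ k)⁻¹ * (Y * X) := by
      rw [← mul_assoc, ← hcm, mul_assoc, hc, mul_assoc]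
    exact mul_left_cancel h3
  · show (QuotientGroup.mk (W * X * W⁻¹) : PSU 3 F 2) = QuotientGroup.mk Y⁻¹
    congr 1
    rw [mul_inv_eq_iff_eq_mul, eq_inv_mul_iff_mul_eq]
    exact e1
  · show (QuotientGroup.mk (W * Y * W⁻¹) : PSU 3 F 2) = QuotientGroup.mk X
    congr 1
    rw [mul_inv_eq_iff_eq_mul]
    exact e2
  · show (QuotientGroup.mk (W ^ 4) : PSU 3 F 2) = 1
    have : W ^ 4 = W * W * (W * W) := by rw [show (4 : ℕ) = 2 + 2 from rfl, pow_add, pow_two]
    rw [this, e3]; rfl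
  · intro h
    have h' : (QuotientGroup.mk (W ^ 2) : PSU 3 F 2) = 1 := h
    have := Subgroup.mem_center_iff.mp ((mk1 _).mp h') X
    apply e9
    rw [pow_two] at this
    exact this.symm
  · show (QuotientGroup.mk (B * B) : PSU 3 F 2) = QuotientGroup.mk (W ^ 2)
    rw [e4, pow_two]
  · show (QuotientGroup.mk (B * W * B⁻¹) : PSU 3 F 2) = QuotientGroup.mk W⁻¹
    congr 1
    rw [mul_inv_eq_iff_eq_mul, eq_inv_mul_iff_mul_eq]
    exact e5

end Cfsg.Agent.S0827
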