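import Cfsg.Statements.S4558
import Cfsg.Agent.Lib.Helper25.Glaub5
import Cfsg.Agent.Lib.Helper25.Codegree
import Cfsg.Agent.Lib.Helper2.CharEigen

set_option autoImplicit false
open Cfsg

namespace Cfsg.Agent.S4558

open Cfsg.Agent.Lib.Helper25

/-- Let χ be a character of the finite group G and g an element of p-power order for the prime p. If χ g = 0, then p divides the degree of χ. -/
theorem result {G : Type*} [Group G] [Finite G] (p : ℕ) [Fact p.Prime] (χ : G → ℂ) (hχ : Cfsg.IsCharacter G χ) (g : G) (hg : ∃ j : ℕ, orderOf g = p ^ j) (h0 : χ g = 0) : p ∣ Cfsg.charDegree χ := by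
  obtain ⟨j, hj⟩ := hg
  obtain ⟨n, ρ, rfl⟩ := hχ
  obtain ⟨ι, _, b, μ, h1, h2, -, -⟩ := Cfsg.Agent.Lib.Helper2.exists_rep_eigenbasis ρ g
  have htr : ρ.character g = ∑ i, μ i := Cfsg.Agent.Lib.Helper2.trace_of_diag b _ _ h1
  have h3 := (modp_of_roots (a := j) (Fact.out : p.Prime) (fun _ : ι => 1) μ
    (fun i => by rw [← hj]; exact h2 i)).1 (by simpa [htr] using h0)
  have h4 : Cfsg.charDegree ρ.character = Fintype.card ι := by
    apply charDegree_eq
    rw [Representation.char_one, Module.finrank_eq_card_basis b]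
  rw [h4]
  simpa using h3

end Cfsg.Agent.S4558
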