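import Cfsg.Statements.S0861
import Cfsg.Agent.S4558
import Cfsg.Agent.Lib.Helper25.PRes3
import Cfsg.Agent.Lib.Helper25.Ito
import Cfsg.Agent.Lib.Helper25.GalSum
import Cfsg.Agent.Lib.Helper25.NotPerfect

set_option autoImplicit false
open Cfsg

namespace Cfsg.Agent.S0861

open Cfsg.Agent.Lib.Helper25

/-- Let P be a normal abelian Sylow p-subgroup of the finite group G and suppose some element g of P has centralizer exactly P. Then the number of irreducible characters of G is at most the order of P, and if equality holds then G / P is abelian (the commutator subgroup lies in P). -/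
theorem result {G : Type*} [Group G] [Finite G] (p : ℕ) [Fact p.Prime] (P : Sylow p G) [(P : Subgroup G).Normal] (hab : ∀ a ∈ P, ∀ b ∈ P, a * b = b * a) (g : G) (hg : g ∈ P) (hC : Subgroup.centralizer ({g} : Set G) = P) : Nat.card (Cfsg.IrrCharacter G) ≤ Nat.card P ∧ (Nat.card (Cfsg.IrrCharacter G) = Nat.card P → commutator G ≤ P) := by
  classical
  cases nonempty_fintype G
  have := Cfsg.Agent.Lib.Helper2.finite_irrCharacter (G := G)
  cases nonempty_fintype (Cfsg.IrrCharacter G)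
  have hp : p.Prime := Fact.out
  set S : Finset G := Finset.univ.filter
    (fun s : G => s ∈ P ∧ Subgroup.centralizer ({s} : Set G) = P) with hS
  have hgS : g ∈ S := Finset.mem_filter.2 ⟨Finset.mem_univ _, hg, hC⟩
  have hScard : (0 : ℝ) < S.card := by exact_mod_cast Finset.card_pos.2 ⟨g, hgS⟩
  have hclosed : ∀ s ∈ S, ∀ m : ℕ, m.Coprime (Nat.card G) → s ^ m ∈ S := by
    intro s hs m hm
    obtain ⟨-, hsP, hsC⟩ := Finset.mem_filter.1 hs
    have hsm : s ^ m ∈ (P : Subgroup G) := Subgroup.pow_mem _ hsP m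
    obtain ⟨z, hz⟩ : ∃ z : ℤ, (s ^ m) ^ z = s := ⟨_, (powCoprime hm.symm).left_inv s⟩
    refine Finset.mem_filter.2 ⟨Finset.mem_univ _, hsm, le_antisymm ?_ ?_⟩
    · intro x hx
      rw [← hsC, Subgroup.mem_centralizer_singleton_iff]
      rw [Subgroup.mem_centralizer_singleton_iff] at hx
      have hc : Commute x (s ^ m) := hx
      have := (hc.zpow_right z).eq
      rwa [hz] at this
    · intro x hx
      rw [Subgroup.mem_centralizer_singleton_iff]
      exact hab x hx _ hsm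
  have hne : ∀ χ : Cfsg.IrrCharacter G, ∀ s ∈ S, (χ : G → ℂ) s ≠ 0 := by
    intro χ s hs h0
    obtain ⟨-, hsP, -⟩ := Finset.mem_filter.1 hs
    have hord : ∃ j : ℕ, orderOf s = p ^ j := by
      obtain ⟨j, hj⟩ := P.2 ⟨s, hsP⟩
      have h1 : s ^ p ^ j = 1 := congrArg Subtype.val hj
      obtain ⟨i, -, hi⟩ := (Nat.dvd_prime_pow hp).1 (orderOf_dvd_of_pow_eq_one h1)
      exact ⟨i, hi⟩
    have h1 := Cfsg.Agent.S4558.result p χ (Cfsg.Agent.Lib.Helper7.isCharacter_of_irr χ.2) s hord h0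
    obtain ⟨d, hd, hdvd⟩ := ito_aux _ G rfl (P : Subgroup G) hab χ χ.2
    rw [charDegree_eq hd] at h1
    exact P.not_dvd_index (h1.trans hdvd)
  have hterm : ∀ χ : Cfsg.IrrCharacter G, (S.card : ℝ) ≤ ∑ s ∈ S, ‖(χ : G → ℂ) s‖ ^ 2 := fun χ =>
    card_le_sum_norm_sq (Cfsg.Agent.Lib.Helper7.isCharacter_of_irr χ.2) S hclosed (hne χ)
  have hcol : ∀ s ∈ S, ∑ χ : Cfsg.IrrCharacter G, ‖(χ : G → ℂ) s‖ ^ 2 = (Nat.card P : ℝ) := by
    intro s hs
    obtain ⟨-, -, hsC⟩ := Finset.mem_filter.1 hs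
    have h1 := Cfsg.Agent.Lib.Helper7.column_orthogonality_self (G := G) s
    simp only [Complex.mul_conj, Complex.normSq_eq_norm_sq] at h1
    rw [hsC] at h1
    exact_mod_cast h1
  have htotal : ∑ χ : Cfsg.IrrCharacter G, ∑ s ∈ S, ‖(χ : G → ℂ) s‖ ^ 2
      = (S.card : ℝ) * Nat.card P := by
    rw [Finset.sum_comm, Finset.sum_congr rfl hcol, Finset.sum_const, nsmul_eq_mul]
  have hk : (Nat.card (Cfsg.IrrCharacter G) : ℝ) * S.card
      = ∑ _χ : Cfsg.IrrCharacter G, (S.card : ℝ) := by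
    rw [Finset.sum_const, Finset.card_univ, nsmul_eq_mul, Nat.card_eq_fintype_card]
  constructor
  · have h1 : (Nat.card (Cfsg.IrrCharacter G) : ℝ) * S.card ≤ (S.card : ℝ) * Nat.card P := by
      rw [hk, ← htotal]
      exact Finset.sum_le_sum fun χ _ => hterm χ
    have h2 : (Nat.card (Cfsg.IrrCharacter G) : ℝ) ≤ Nat.card P := by
      rw [mul_comm] at h1
      exact le_of_mul_le_mul_left h1 hScard
    exact_mod_cast h2
  · intro heq
    have h1 : ∑ _χ : Cfsg.IrrCharacter G, (S.card : ℝ)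
        = ∑ χ : Cfsg.IrrCharacter G, ∑ s ∈ S, ‖(χ : G → ℂ) s‖ ^ 2 := by
      rw [← hk, htotal, heq, mul_comm]
    have h2 := (Finset.sum_eq_sum_iff_of_le (fun χ _ => hterm χ)).1 h1
    have hlin : ∀ χ : Cfsg.IrrCharacter (G ⧸ (P : Subgroup G)),
        (χ : G ⧸ (P : Subgroup G) → ℂ) 1 = 1 := by
      intro χ
      have hirr := isIrrCharacter_comp_surjective (QuotientGroup.mk' (P : Subgroup G))
        (QuotientGroup.mk'_surjective _) χ.2
      have h3 := h2 ⟨_, hirr⟩ (Finset.mem_univ _)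
      have h4 : ∀ s ∈ S, ‖(χ : G ⧸ (P : Subgroup G) → ℂ) (QuotientGroup.mk' (P : Subgroup G) s)‖ ^ 2
          = ‖(χ : G ⧸ (P : Subgroup G) → ℂ) 1‖ ^ 2 := by
        intro s hs
        obtain ⟨-, hsP, -⟩ := Finset.mem_filter.1 hs
        have : QuotientGroup.mk' (P : Subgroup G) s = 1 := (QuotientGroup.eq_one_iff s).2 hsP
        rw [this]
      simp only at h3
      rw [Finset.sum_congr rfl h4, Finset.sum_const, nsmul_eq_mul] at h3
      obtain ⟨d, hd0, hd⟩ := Cfsg.Agent.Lib.Helper7.irr_apply_one χ.2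
      rw [hd, Complex.norm_natCast] at h3
      have h5 : (d : ℝ) ^ 2 = 1 := by
        have : (S.card : ℝ) * 1 = S.card * (d : ℝ) ^ 2 := by rw [mul_one]; exact h3
        exact (mul_left_cancel₀ hScard.ne' this).symm
      have h6 : d ^ 2 = 1 := by exact_mod_cast h5
      have h7 : d = 1 := by
        rcases Nat.pow_eq_one.1 h6 with h | h
        · exact h
        · omega
      rw [hd, h7, Nat.cast_one]
    have hcomm := comm_of_forall_linear hlin
    have h8 := commutator_le_ker_of_comm (QuotientGroup.mk' (P : Subgroup G))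
      (fun a b => hcomm _ _)
    rwa [QuotientGroup.ker_mk'] at h8

end Cfsg.Agent.S0861
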