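import Cfsg.Statements.S0868
import Cfsg.Agent.Lib.Helper25.Gallagher
import Cfsg.Agent.Lib.Helper25.Kernel2

set_option autoImplicit false
open scoped ComplexConjugate
open Cfsg

namespace Cfsg.Agent.S0868

/-- Let N be a normal subgroup of the finite group G, χ an irreducible character of G whose restriction ϑ to N is irreducible, and ψ an irreducible character of G. Define η on G by η g = (1 / order of N) * Σ over n in N of ψ (n * g) * conj (χ (n * g)). Then: if the restriction of ψ to N has nonzero inner product with ϑ, η is an irreducible character of G; if that inner product is zero, η vanishes identically; and if ψ = χ then η is identically 1. -/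
theorem result {G : Type*} [Group G] [Fintype G] (N : Subgroup G) [N.Normal] [Fintype N] (χ : G → ℂ) (hχ : Cfsg.IsIrrCharacter G χ) (hχN : Cfsg.IsIrrCharacter N (fun n : N => χ n)) (ψ : G → ℂ) (hψ : Cfsg.IsIrrCharacter G ψ) (η : G → ℂ) (hη : η = fun g => (Nat.card N : ℂ)⁻¹ * ∑ n : N, ψ ((n : G) * g) * conj (χ ((n : G) * g))) : (Cfsg.classInner (fun n : N => ψ n) (fun n : N => χ n) ≠ 0 → Cfsg.IsIrrCharacter G η) ∧ (Cfsg.classInner (fun n : N => ψ n) (fun n : N => χ n) = 0 → η = 0) ∧ (ψ = χ → η = fun _ => 1) := by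
  classical
  have : Fintype (Cfsg.IrrCharacter G) := Fintype.ofFinite _
  have hχc := Cfsg.Agent.Lib.Helper7.isCharacter_of_irr hχ
  have hψc := Cfsg.Agent.Lib.Helper7.isCharacter_of_irr hψ
  have hcfχ := Cfsg.Agent.Lib.Helper7.isClassFunction_of_isCharacter hχc
  have hcfψ := Cfsg.Agent.Lib.Helper7.isClassFunction_of_isCharacter hψc
  have hNc : (Nat.card N : ℂ) ≠ 0 := by exact_mod_cast Nat.card_pos.ne'
  -- Gallagher with the trivial character
  have hone : ((fun _ => 1 : N → ℂ) * fun n : N => χ n) = fun n : N => χ n := by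
    funext n
    simp
  obtain ⟨g1, g2, g3⟩ := Cfsg.Agent.Lib.Helper25.gallagher_core N
    (φ := fun _ => 1) (ϑ := fun n : N => χ n) Cfsg.Agent.Lib.Helper7.isIrrCharacter_one
    (fun g => rfl) (fun g => Cfsg.Agent.Lib.Helper25.conjFun_restrict N hcfχ g)
    (by rw [hone]; exact hχN) hχ (fun n => rfl)
  rw [hone] at g1 g3
  have hker : ∀ ξ : G → ℂ, Cfsg.IsIrrCharacter G ξ →
      ((∀ n ∈ N, ξ n = ξ 1) ↔ Cfsg.classInner (Cfsg.indFun N (fun _ => 1)) ξ ≠ 0) := by
    intro ξ hξ
    have hcfξ := Cfsg.Agent.Lib.Helper7.isClassFunction_of_isCharacter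
      (Cfsg.Agent.Lib.Helper7.isCharacter_of_irr hξ)
    rw [Cfsg.Agent.Lib.Helper25.frobenius_reciprocity N _ ξ hcfξ]
    have h1 := Cfsg.Agent.Lib.Helper25.avg_normal N hξ 1
    simp only [mul_one] at h1
    have h2 : Cfsg.classInner (fun _ : N => (1 : ℂ)) (fun h : N => ξ h)
        = conj ((Nat.card N : ℂ)⁻¹ * ∑ n : N, ξ (n : G)) := by
      unfold Cfsg.classInner
      simp [map_sum]
    rw [h2, h1]
    split_ifs with h
    · exact ⟨fun _ => by simpa using Cfsg.Agent.Lib.Helper7.irr_apply_one_ne_zero hξ, fun _ => h⟩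
    · exact ⟨fun h' => absurd h' h, fun h' => absurd (map_zero _) h'⟩
  -- the formula for η
  have hΘ : Cfsg.IsClassFunction G (fun g => ψ g * conj (χ g)) := by
    intro a b
    simp only [hcfψ a b, hcfχ a b]
  have hdec := Cfsg.Agent.Lib.Helper7.classFunction_apply_eq_sum hΘ
  have hcoef : ∀ ξ : Cfsg.IrrCharacter G,
      Cfsg.classInner (fun g => ψ g * conj (χ g)) (ξ : G → ℂ)
        = Cfsg.classInner ψ ((ξ : G → ℂ) * χ) := by
    intro ξ
    unfold Cfsg.classInner
    congr 1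
    apply Finset.sum_congr rfl
    intro g _
    rw [Pi.mul_apply, map_mul]
    ring
  have hform : ∀ g : G, η g = ∑ ξ : Cfsg.IrrCharacter G,
      Cfsg.classInner ψ ((ξ : G → ℂ) * χ) *
        (if (∀ n ∈ N, (ξ : G → ℂ) n = (ξ : G → ℂ) 1) then (ξ : G → ℂ) g else 0) := by
    intro g
    rw [hη]
    simp only
    have hdec' : ∀ g : G, ψ g * conj (χ g) = ∑ ξ : Cfsg.IrrCharacter G,
        Cfsg.classInner ψ ((ξ : G → ℂ) * χ) * (ξ : G → ℂ) g := by
      intro g
      have h5 := hdec g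
      simp only [hcoef] at h5
      exact h5
    simp_rw [hdec']
    rw [Finset.sum_comm, Finset.mul_sum]
    apply Finset.sum_congr rfl
    intro ξ _
    rw [← Finset.mul_sum, ← Cfsg.Agent.Lib.Helper25.avg_normal N ξ.2 g]
    ring
  have caseA : ∀ ξ₀ : G → ℂ, Cfsg.IsIrrCharacter G ξ₀ → (∀ n ∈ N, ξ₀ n = ξ₀ 1) → ξ₀ * χ = ψ →
      η = ξ₀ := by
    intro ξ₀ hξ₀ hk hmul
    funext g
    rw [hform, Finset.sum_eq_single (⟨ξ₀, hξ₀⟩ : Cfsg.IrrCharacter G)]
    · rw [if_pos hk, hmul, Cfsg.Agent.Lib.Helper7.classInner_irr_self hψ, one_mul]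
    · intro ξ _ hne
      split_ifs with hk'
      · rw [← hmul, g2 ξ₀ ξ hξ₀ ξ.2 ((hker ξ₀ hξ₀).mp hk) ((hker ξ ξ.2).mp hk')
          (fun h => hne (Subtype.ext h.symm)), zero_mul]
      · rw [mul_zero]
    · intro h
      exact absurd (Finset.mem_univ _) h
  have hfrob : Cfsg.classInner (Cfsg.indFun N (fun n : N => χ n)) ψ
      = conj (Cfsg.classInner (fun n : N => ψ n) (fun n : N => χ n)) := by
    rw [Cfsg.Agent.Lib.Helper25.frobenius_reciprocity N _ ψ hcfψ,
      Cfsg.Agent.Lib.Helper7.classInner_conj_symm]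
  refine ⟨?_, ?_, ?_⟩
  · intro hne
    obtain ⟨β, hβ, hβne, hmul⟩ := g3 ψ hψ (by rw [hfrob]; simpa using hne)
    rw [caseA β hβ ((hker β hβ).mpr hβne) hmul]
    exact hβ
  · intro h0
    funext g
    rw [hform]
    apply Finset.sum_eq_zero
    intro ξ _
    split_ifs with hk
    · have hirr := (g1 ξ ξ.2 ((hker ξ ξ.2).mp hk)).1
      have hne : ψ ≠ (ξ : G → ℂ) * χ := by
        intro he
        have h1 := (g1 ξ ξ.2 ((hker ξ ξ.2).mp hk)).2
        rw [← he, hfrob, h0, map_zero] at h1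
        exact ((hker ξ ξ.2).mp hk) h1.symm
      rw [Cfsg.Agent.Lib.Helper7.classInner_irr_ne hψ hirr hne, zero_mul]
    · rw [mul_zero]
  · intro he
    apply caseA _ Cfsg.Agent.Lib.Helper7.isIrrCharacter_one (fun _ _ => rfl)
    rw [he]
    funext g
    simp

end Cfsg.Agent.S0868
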