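import Cfsg.Statements.S0875
import Cfsg.Agent.Lib.Helper2.RGen

set_option autoImplicit false
open Cfsg

namespace Cfsg.Agent.S0875

open Cfsg.Agent.Lib.Helper2

/-- Let G be a finite group of order m * n with m and n coprime, and g an element whose order is coprime to m. Every x in G factors uniquely as x = u * v with u, v commuting, the order of u coprime to n and the order of v coprime to m; let ϑ be the function on G equal to n at those x whose factor v is conjugate to g and equal to 0 elsewhere. Then ϑ is a linear combination of the irreducible characters of G with algebraic-integer coefficients. -/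
theorem result {G : Type*} [Group G] [Fintype G] (m n : ℕ) (hmn : Nat.card G = m * n) (hcop : Nat.Coprime m n) (g : G) (hg : Nat.Coprime (orderOf g) m) (ϑ : G → ℂ) (hϑ1 : ∀ x : G, (∃ v : G, IsConj v g ∧ (∃ u : G, x = u * v ∧ Commute u v ∧ Nat.Coprime (orderOf u) n ∧ Nat.Coprime (orderOf v) m)) → ϑ x = n) (hϑ0 : ∀ x : G, (¬ ∃ v : G, IsConj v g ∧ (∃ u : G, x = u * v ∧ Commute u v ∧ Nat.Coprime (orderOf u) n ∧ Nat.Coprime (orderOf v) m)) → ϑ x = 0) : ∃ c : Cfsg.IrrCharacter G → ℂ, (∀ χ, c χ ∈ Cfsg.AlgInt) ∧ ϑ = ∑ᶠ χ : Cfsg.IrrCharacter G, c χ • (χ : G → ℂ) := by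
  classical
  haveI : Finite (Cfsg.IrrCharacter G) := finite_irrCharacter
  haveI : Fintype (Cfsg.IrrCharacter G) := Fintype.ofFinite _
  have hco : IsCoprime (n : ℤ) (m : ℤ) := Nat.isCoprime_iff_coprime.2 hcop.symm
  obtain ⟨s, t, hst⟩ := hco
  let h : G → ℂ := fun v => if IsConj v g then 1 else 0
  have hh : Cfsg.IsClassFunction G h := by
    intro a b
    have e : IsConj (b * a * b⁻¹) g ↔ IsConj a g := by
      constructor
      · intro h1
        exact (isConj_iff.2 ⟨b, rfl⟩ : IsConj a (b * a * b⁻¹)).trans h1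
      · intro h1
        exact ((isConj_iff.2 ⟨b, rfl⟩ : IsConj a (b * a * b⁻¹)).symm).trans h1
    simp only [h, e]
  have hint : ∀ v, IsIntegral ℤ (h v) := by
    intro v
    simp only [h]
    split_ifs
    · exact isIntegral_one
    · exact isIntegral_zero
  have hpow : ∀ x : G, x ^ (m * n) = 1 := by
    intro x
    rw [← hmn]; exact pow_card_eq_one'
  have hdvd : ∀ (w : G) (a b : ℕ), a * b = m * n → Nat.Coprime (orderOf w) b → w ^ a = 1 := by
    intro w a b hab hw
    have h1 : orderOf w ∣ a * b := by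
      rw [hab]; exact orderOf_dvd_of_pow_eq_one (hpow w)
    exact orderOf_dvd_iff_pow_eq_one.1 (Nat.Coprime.dvd_of_dvd_mul_right hw h1)
  have hϑ : ϑ = fun x => (n : ℂ) * h (x ^ (t * m)) := by
    funext x
    by_cases hx : IsConj (x ^ (t * (m : ℤ))) g
    · have h1 : h (x ^ (t * (m : ℤ))) = 1 := by simp only [h, if_pos hx]
      rw [h1, mul_one]
      apply hϑ1
      refine ⟨x ^ (t * (m : ℤ)), hx, x ^ (s * (n : ℤ)), ?_, ?_, ?_, ?_⟩
      · rw [← zpow_add, hst, zpow_one]
      · exact ((Commute.refl x).zpow_left _).zpow_right _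
      · have h2 : (x ^ (s * (n : ℤ))) ^ m = 1 := by
          rw [← zpow_natCast, ← zpow_mul]
          have : s * (n : ℤ) * m = ((m * n : ℕ) : ℤ) * s := by push_cast; ring
          rw [this, zpow_mul, zpow_natCast, hpow, one_zpow]
        exact Nat.Coprime.coprime_dvd_left (orderOf_dvd_of_pow_eq_one h2) hcop
      · have h2 : (x ^ (t * (m : ℤ))) ^ n = 1 := by
          rw [← zpow_natCast, ← zpow_mul]
          have : t * (m : ℤ) * n = ((m * n : ℕ) : ℤ) * t := by push_cast; ring
          rw [this, zpow_mul, zpow_natCast, hpow, one_zpow]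
        exact Nat.Coprime.coprime_dvd_left (orderOf_dvd_of_pow_eq_one h2) hcop.symm
    · have h1 : h (x ^ (t * (m : ℤ))) = 0 := by simp only [h, if_neg hx]
      rw [h1, mul_zero]
      apply hϑ0
      rintro ⟨v, hv, u, hxu, hc, hu, hvm⟩
      apply hx
      have hu1 : u ^ m = 1 := hdvd u m n rfl hu
      have hv1 : v ^ n = 1 := hdvd v n m (mul_comm _ _) hvm
      have h2 : x ^ (t * (m : ℤ)) = v := by
        rw [hxu, hc.mul_zpow]
        have e1 : u ^ (t * (m : ℤ)) = 1 := by
          rw [mul_comm, zpow_mul, zpow_natCast, hu1, one_zpow]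
        have e2 : v ^ (t * (m : ℤ)) = v := by
          have : t * (m : ℤ) = 1 - (n : ℤ) * s := by linarith
          rw [this, zpow_sub, zpow_one, zpow_mul, zpow_natCast, hv1, one_zpow, inv_one, mul_one]
        rw [e1, e2, one_mul]
      rw [h2]; exact hv
  have hcf : Cfsg.IsClassFunction G ϑ := by
    rw [hϑ]
    intro a b
    simp only [conj_zpow]
    rw [hh]
  refine ⟨fun χ => Cfsg.classInner ϑ χ, ?_, ?_⟩
  · intro χ
    show IsIntegral ℤ (Cfsg.classInner ϑ χ)
    rw [hϑ]
    exact isIntegral_classInner_hallPart hmn hcop s t hst hh hint (IsIrrCharacter.isCharacter χ.2)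
  · rw [finsum_eq_sum_of_fintype]
    exact IsClassFunction.eq_sum_irr hcf

end Cfsg.Agent.S0875
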