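import Cfsg.Statements.S0876
import Cfsg.Agent.Lib.Helper2.RGen
import Cfsg.Agent.S0875
import Cfsg.Agent.Lib.Helper7.BlockHeight

set_option autoImplicit false
open Cfsg

namespace Cfsg.Agent.S0876

open Cfsg.Agent.Lib.Helper2

/-- Let G be a finite group, p a prime and M a maximal ideal of the ring of algebraic integers containing p. Let x, y be elements with p-parts a and b (so a⁻¹ * x and b⁻¹ * y are their p-regular parts). Then a⁻¹ * x and b⁻¹ * y are conjugate in G if and only if, for every irreducible character χ, the difference χ x - χ y lies in the local ideal at M. -/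
theorem result {G : Type*} [Group G] [Finite G] (p : ℕ) (M : Ideal Cfsg.AlgInt) (hM : Cfsg.IsPModular p M) (x y a b : G) (ha : Cfsg.IsPPart p x a) (hb : Cfsg.IsPPart p y b) : IsConj (a⁻¹ * x) (b⁻¹ * y) ↔ ∀ χ : Cfsg.IrrCharacter G, Cfsg.MemLocalIdeal M ((χ : G → ℂ) x - (χ : G → ℂ) y) := by
  classical
  haveI := hM.2.1.isPrime
  cases nonempty_fintype G
  haveI : Finite (Cfsg.IrrCharacter G) := finite_irrCharacter
  haveI : Fintype (Cfsg.IrrCharacter G) := Fintype.ofFinite _
  have hp : p.Prime := hM.1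
  obtain ⟨x', hx1, hx2, hx3, hx4⟩ := ha
  obtain ⟨y', hy1, hy2, hy3, hy4⟩ := hb
  have ex : a⁻¹ * x = x' := by rw [← hx1]; group
  have ey : b⁻¹ * y = y' := by rw [← hy1]; group
  rw [ex, ey]
  constructor
  · intro hc χ
    have hχ := IsIrrCharacter.isCharacter χ.2
    have h1 := Cfsg.Agent.Lib.Helper7.char_congr_mul hM hχ hx2 hx3 hx4
    have h2 := Cfsg.Agent.Lib.Helper7.char_congr_mul hM hχ hy2 hy3 hy4
    have h3 : (χ : G → ℂ) x' = (χ : G → ℂ) y' := by
      obtain ⟨c, hc⟩ := isConj_iff.1 hc
      rw [← hc]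
      exact ((IsCharacter.isClassFunction hχ) x' c).symm
    have h4 := Cfsg.Agent.Lib.Helper7.memLocalIdeal_sub h1 h2
    rw [hx1, hy1, h3] at h4
    have e : (χ : G → ℂ) x - (χ : G → ℂ) y' - ((χ : G → ℂ) y - (χ : G → ℂ) y') =
        (χ : G → ℂ) x - (χ : G → ℂ) y := by ring
    rwa [e] at h4
  · intro hall
    have hG0 : Nat.card G ≠ 0 := Nat.card_pos.ne'
    set m := ordProj[p] (Nat.card G) with hm
    set n := ordCompl[p] (Nat.card G) with hn
    have hmn : Nat.card G = m * n := (Nat.ordProj_mul_ordCompl_eq_self _ _).symm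
    have hcop : Nat.Coprime m n := Nat.Coprime.pow_left _ (Nat.coprime_ordCompl hp hG0)
    have hpn : ¬ p ∣ n := Nat.not_dvd_ordCompl hp hG0
    have hcopm : ∀ w : G, ¬ p ∣ orderOf w → Nat.Coprime (orderOf w) m := by
      intro w hw
      exact Nat.Coprime.pow_right _ ((Nat.Prime.coprime_iff_not_dvd hp).2 hw).symm
    let Q : G → Prop := fun z => ∃ v : G, IsConj v x' ∧ (∃ u : G, z = u * v ∧ Commute u v ∧
      Nat.Coprime (orderOf u) n ∧ Nat.Coprime (orderOf v) m)
    let ϑ : G → ℂ := fun z => if Q z then (n : ℂ) else 0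
    obtain ⟨c, hc1, hc2⟩ := Cfsg.Agent.S0875.result m n hmn hcop x' (hcopm x' hx4) ϑ
      (fun z hz => by simp only [ϑ]; rw [if_pos hz]) (fun z hz => by simp only [ϑ]; rw [if_neg hz])
    rw [finsum_eq_sum_of_fintype] at hc2
    have hQx : Q x := by
      refine ⟨x', IsConj.refl _, a, hx1.symm, hx2, ?_, hcopm x' hx4⟩
      obtain ⟨k, hk⟩ := hx3
      rw [hk]
      exact Nat.Coprime.pow_left _ ((Nat.Prime.coprime_iff_not_dvd hp).2 hpn)
    have hdiff : Cfsg.MemLocalIdeal M (ϑ x - ϑ y) := by
      rw [hc2]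
      simp only [Finset.sum_apply, Pi.smul_apply, smul_eq_mul]
      rw [← Finset.sum_sub_distrib]
      apply Cfsg.Agent.Lib.Helper7.memLocalIdeal_sum
      intro χ _
      rw [← mul_sub]
      exact Cfsg.Agent.Lib.Helper7.memLocalIdeal_mul_left
        (Cfsg.Agent.Lib.Helper7.memLocalRing_of_isIntegral (hc1 χ)) (hall χ)
    by_cases hQy : Q y
    · obtain ⟨v, hv, u, hyu, hcuv, hu, hvm⟩ := hQy
      have hpu : Cfsg.IsPPart p y u := by
        refine ⟨v, hyu.symm, hcuv, ?_, ?_⟩
        · have h1 : orderOf u ∣ m * n := by rw [← hmn]; exact orderOf_dvd_natCard u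
          have h2 : orderOf u ∣ m := Nat.Coprime.dvd_of_dvd_mul_right hu h1
          obtain ⟨k, _, hk⟩ := (Nat.dvd_prime_pow hp).1 h2
          exact ⟨k, hk⟩
        · intro hpv
          have h1 : p ∣ Nat.card G := dvd_trans hpv (orderOf_dvd_natCard v)
          have h2 : p ∣ m := by
            rw [hm]
            apply dvd_pow_self
            intro h0
            have := (Nat.factorization_eq_zero_iff _ _).1 h0
            rcases this with h | h | h
            · exact h hp
            · exact h h1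
            · exact hG0 h
          have h3 := Nat.Coprime.eq_one_of_dvd (Nat.Coprime.coprime_dvd_left hpv hvm) h2
          exact hp.one_lt.ne' h3
      have hub : u = b := Cfsg.Agent.Lib.Helper7.isPPart_unique hp hpu ⟨y', hy1, hy2, hy3, hy4⟩
      have hvy : v = y' := by
        have : u * v = b * y' := by rw [← hyu, hy1]
        rw [hub] at this
        exact mul_left_cancel this
      rw [← hvy]
      exact hv.symm
    · exfalso
      simp only [ϑ] at hdiff
      rw [if_pos hQx, if_neg hQy, sub_zero] at hdiff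
      exact hpn ((Cfsg.Agent.Lib.Helper7.memLocalIdeal_natCast_iff hM n).1 hdiff)

end Cfsg.Agent.S0876
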