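import Cfsg.Statements.S0878
-- import your own Cfsg.Agent.* helpers here
import Cfsg.Agent.Lib.Helper29.Zass

set_option autoImplicit false
open Cfsg

namespace Cfsg.Agent.S0878

/-- Let G be a Zassenhaus group on the finite set Ω, a a point, and let H be the subgroup of the stabilizer of a consisting of the identity and the elements fixing no point other than a (given here as a subgroup of the stabilizer of order one less than the number of points whose non-identity elements fix only a; it is the Frobenius kernel of the stabilizer). Then an element outside the stabilizer of a conjugates no non-identity element of H into H, and the normalizer of H is exactly the stabilizer of a. -/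
theorem result {G Ω : Type*} [Group G] [Finite G] [MulAction G Ω] [Fintype Ω] (hZ : Cfsg.IsZassenhausGroup G Ω) (a : Ω) (H : Subgroup G) (hHa : H ≤ MulAction.stabilizer G a) (hHcard : Nat.card H + 1 = Fintype.card Ω) (hHfix : ∀ u ∈ H, u ≠ 1 → ∀ c : Ω, u • c = c → c = a) : (∀ g : G, g ∉ MulAction.stabilizer G a → ∀ u ∈ H, g * u * g⁻¹ ∈ H → u = 1) ∧ Subgroup.normalizer (H : Set G) = MulAction.stabilizer G a := by
  have hfirst : ∀ g : G, g ∉ MulAction.stabilizer G a → ∀ u ∈ H, g * u * g⁻¹ ∈ H → u = 1 := by
    intro g hg u hu hgu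
    by_contra hu1
    apply hg
    have h1 : g * u * g⁻¹ ≠ 1 := by
      intro h
      apply hu1
      have := congrArg (fun z => g⁻¹ * z * g) h
      simpa [mul_assoc] using this
    have hua : u • a = a := hHa hu
    exact hHfix _ hgu h1 (g • a) (by rw [mul_smul, mul_smul, inv_smul_smul, hua])
  refine ⟨hfirst, ?_⟩
  obtain ⟨K, hKle, hKn, hK, hKc⟩ := Cfsg.Agent.Lib.Helper29.Zass.exists_kernel hZ a
  have hHK : H = K := by
    apply Subgroup.eq_of_le_of_card_ge
    · intro u hu
      rw [hK]
      refine ⟨hHa hu, ?_⟩
      by_cases hu1 : u = 1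
      · exact Or.inl hu1
      · exact Or.inr (hHfix u hu hu1)
    · rw [Nat.card_eq_fintype_card (α := Ω)] at hKc
      omega
  obtain ⟨b, hba⟩ := Cfsg.Agent.Lib.Helper29.Zass.exists_ne hZ a
  obtain ⟨c, hca, hcb⟩ := Cfsg.Agent.Lib.Helper29.Zass.exists_third hZ hba.symm
  have hcard3 : 2 < Fintype.card Ω := by
    rw [Fintype.two_lt_card_iff]
    exact ⟨a, b, c, hba.symm, hca.symm, hcb.symm⟩
  obtain ⟨u, hu, hu1⟩ : ∃ u ∈ H, u ≠ 1 := by
    rcases H.bot_or_exists_ne_one with h | h
    · rw [h, Subgroup.card_bot] at hHcard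
      omega
    · exact h
  ext g
  constructor
  · intro hg
    by_contra hga
    exact hu1 (hfirst g hga u hu ((Subgroup.mem_normalizer_iff.1 hg u).1 hu))
  · intro hg
    rw [Subgroup.mem_normalizer_iff, hHK]
    intro h
    constructor
    · exact hKn g hg h
    · intro hh
      have := hKn g⁻¹ (inv_mem hg) _ hh
      have e : g⁻¹ * (g * h * g⁻¹) * g⁻¹⁻¹ = h := by group
      rwa [e] at this

end Cfsg.Agent.S0878
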