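import Cfsg.Statements.S0879
-- import your own Cfsg.Agent.* helpers here
import Cfsg.Agent.Lib.Helper29.Zass

set_option autoImplicit false
open Cfsg

namespace Cfsg.Agent.S0879

/-- Let G be a Zassenhaus group on the finite set Ω and E the stabilizer of two distinct points a, b. Then an element outside the normalizer of E conjugates no non-identity element of E into E, and E has index 2 in its normalizer. -/
theorem result {G Ω : Type*} [Group G] [Finite G] [MulAction G Ω] [Fintype Ω] (hZ : Cfsg.IsZassenhausGroup G Ω) {a b : Ω} (hab : a ≠ b) : (∀ g : G, g ∉ Subgroup.normalizer ((MulAction.stabilizer G a ⊓ MulAction.stabilizer G b : Subgroup G) : Set G) → ∀ x ∈ (MulAction.stabilizer G a ⊓ MulAction.stabilizer G b : Subgroup G), g * x * g⁻¹ ∈ (MulAction.stabilizer G a ⊓ MulAction.stabilizer G b : Subgroup G) → x = 1) ∧ ((MulAction.stabilizer G a ⊓ MulAction.stabilizer G b : Subgroup G).subgroupOf (Subgroup.normalizer ((MulAction.stabilizer G a ⊓ MulAction.stabilizer G b : Subgroup G)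 : Set G))).index = 2 := by
  constructor
  · intro g hg x hx hgx
    by_contra hx1
    apply hg
    rw [Cfsg.Agent.Lib.Helper29.Zass.mem_normalizer_two_iff hZ hab]
    have hy1 : g * x * g⁻¹ ≠ 1 := by
      intro h
      apply hx1
      have := congrArg (fun z => g⁻¹ * z * g) h
      simpa [mul_assoc] using this
    have hxa : x • a = a := hx.1
    have hxb : x • b = b := hx.2
    exact Cfsg.Agent.Lib.Helper29.Zass.perm_pair hZ hy1 hab hgx.1 hgx.2
      (by rw [mul_smul, mul_smul, inv_smul_smul, hxa]) (by rw [mul_smul, mul_smul, inv_smul_smul, hxb])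
  · obtain ⟨t, hta, htb⟩ := Cfsg.Agent.Lib.Helper29.Zass.two_trans hZ hab hab.symm
    rw [Subgroup.index_eq_two_iff]
    refine ⟨⟨t, (Cfsg.Agent.Lib.Helper29.Zass.mem_normalizer_two_iff hZ hab t).2 (Or.inr ⟨hta, htb⟩)⟩, ?_⟩
    rintro ⟨g, hg⟩
    have hg' := (Cfsg.Agent.Lib.Helper29.Zass.mem_normalizer_two_iff hZ hab g).1 hg
    rw [Subgroup.mem_subgroupOf, Subgroup.mem_subgroupOf]
    show Xor' (g * t ∈ _) (g ∈ _)
    rw [Subgroup.mem_inf, Subgroup.mem_inf, MulAction.mem_stabilizer_iff, MulAction.mem_stabilizer_iff,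
      MulAction.mem_stabilizer_iff, MulAction.mem_stabilizer_iff, mul_smul, mul_smul, hta, htb]
    rcases hg' with ⟨e1, e2⟩ | ⟨e1, e2⟩
    · right
      refine ⟨⟨e1, e2⟩, ?_⟩
      rintro ⟨h1, -⟩
      exact hab (h1.symm.trans e2)
    · left
      refine ⟨⟨e2, e1⟩, ?_⟩
      rintro ⟨h1, -⟩
      exact hab (h1.symm.trans e1)

end Cfsg.Agent.S0879
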