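import Cfsg.Statements.S0880
import Cfsg.Agent.Lib.Helper24.Zass3
import Cfsg.Agent.Lib.Lead.Count

set_option autoImplicit false
open Cfsg

namespace Cfsg.Agent.S0880

open Cfsg.Agent.Lib.Helper29.Zass Cfsg.Agent.Lib.Helper24.Zass3

theorem arith (n e c d g : ℤ) (hn : 3 ≤ n) (he : 3 ≤ e) (hc : 0 ≤ c) (h1 : d * c = g)
    (h2 : g = (n - 1) * (n - 2) + 2 * d) (h3 : g = n * (n - 1) * e) : False := by
  have key : (n - 1) * (n * e * c - (n - 2) * c - 2 * n * e) = 0 := by
    linear_combination (-(c - 2)) * h3 + c * h2 + 2 * h1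
  have hn1 : n - 1 ≠ 0 := by omega
  have k2 : n * e * c - (n - 2) * c - 2 * n * e = 0 := (mul_eq_zero.mp key).resolve_left hn1
  have hne : 0 < n * e := by positivity
  by_cases hc3 : 3 ≤ c
  · have h5 : 0 ≤ n * (c - 2) * (e - 3) :=
      mul_nonneg (mul_nonneg (by omega) (by omega)) (by omega)
    nlinarith
  · have h6 : c = 0 ∨ c = 1 ∨ c = 2 := by omega
    rcases h6 with rfl | rfl | rfl
    · nlinarith
    · nlinarith
    · nlinarith


/-- Let G be a finite simple Zassenhaus group on Ω with n points whose two-point stabilizer E has odd order less than n - 2. Then there are two elements of G, each fixing no point of Ω, that are not conjugate. -/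
theorem result {G Ω : Type*} [Group G] [Finite G] [MulAction G Ω] [Fintype Ω] (hZ : Cfsg.IsZassenhausGroup G Ω) {a b : Ω} (hab : a ≠ b) [IsSimpleGroup G] (hodd : Odd (Nat.card ↥(MulAction.stabilizer G a ⊓ MulAction.stabilizer G b : Subgroup G))) (hlt : Nat.card ↥(MulAction.stabilizer G a ⊓ MulAction.stabilizer G b : Subgroup G) < Fintype.card Ω - 2) : ∃ x y : G, (∀ c : Ω, x • c ≠ c) ∧ (∀ c : Ω, y • c ≠ c) ∧ ¬ IsConj x y := by
  classical
  have := Fintype.ofFinite G
  by_contra hcon
  push Not at hcon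
  have hcount := count_fpf hZ hab
  have hcard := card_group hZ hab
  have hn3 : 3 ≤ Fintype.card Ω := by
    obtain ⟨c, hca, hcb⟩ := exists_third hZ hab
    exact Fintype.two_lt_card_iff.mpr ⟨a, b, c, hab, hca.symm, hcb.symm⟩
  have he1 : Nat.card ↥(MulAction.stabilizer G a ⊓ MulAction.stabilizer G b : Subgroup G) ≠ 1 := by
    intro h
    obtain ⟨g, hg, h1, h2⟩ := exists_two_fix hZ hab
    have h3 := Subgroup.card_eq_one.mp h
    have hgE : g ∈ (MulAction.stabilizer G a ⊓ MulAction.stabilizer G b : Subgroup G) :=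
      Subgroup.mem_inf.mpr ⟨h1, h2⟩
    rw [h3, Subgroup.mem_bot] at hgE
    exact hg hgE
  have he3 : 3 ≤ Nat.card ↥(MulAction.stabilizer G a ⊓ MulAction.stabilizer G b : Subgroup G) := by
    obtain ⟨k, hk⟩ := hodd
    omega
  have hcard' : (Nat.card G : ℤ) = (Fintype.card Ω : ℤ) * ((Fintype.card Ω : ℤ) - 1) *
      (Nat.card ↥(MulAction.stabilizer G a ⊓ MulAction.stabilizer G b : Subgroup G) : ℤ) := by
    rw [hcard]
    push_cast [Nat.cast_sub (show 1 ≤ Fintype.card Ω by omega)]
    ring
  rcases (Finset.univ.filter (fun g : G => ∀ c : Ω, g • c ≠ c)).eq_empty_or_nonempty with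
    hDe | ⟨x₀, hx₀⟩
  · rw [hDe, Finset.card_empty] at hcount
    have h3 : (3 : ℤ) ≤ (Fintype.card Ω : ℤ) := by exact_mod_cast hn3
    have h4 : (3 : ℤ) ≤
        (Nat.card ↥(MulAction.stabilizer G a ⊓ MulAction.stabilizer G b : Subgroup G) : ℤ) := by
      exact_mod_cast he3
    rw [hcard'] at hcount
    have h5 : 0 ≤ (Fintype.card Ω : ℤ) * ((Fintype.card Ω : ℤ) - 1) *
        ((Nat.card ↥(MulAction.stabilizer G a ⊓ MulAction.stabilizer G b : Subgroup G) : ℤ) - 3) :=
      mul_nonneg (mul_nonneg (by omega) (by omega)) (by omega)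
    push_cast at hcount
    nlinarith
  · have hx₀' : ∀ c : Ω, x₀ • c ≠ c := (Finset.mem_filter.mp hx₀).2
    have hDcard : (Finset.univ.filter (fun g : G => ∀ c : Ω, g • c ≠ c)).card =
        Nat.card {u : G // IsConj x₀ u} := by
      rw [Nat.card_eq_fintype_card, Fintype.card_subtype]
      congr 1
      ext u
      simp only [Finset.mem_filter, Finset.mem_univ, true_and]
      constructor
      · intro hu
        exact hcon x₀ u hx₀' hu
      · intro hu c hc
        obtain ⟨g, hg⟩ := isConj_iff.mp hu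
        apply hx₀' (g⁻¹ • c)
        rw [← hg, mul_smul, mul_smul] at hc
        exact (smul_eq_iff_eq_inv_smul g).mp hc
    have hcl := Cfsg.Agent.Lib.Lead.card_conj_mul_card_centralizer x₀
    rw [← hDcard] at hcl
    exact arith _ _ (Nat.card (Subgroup.centralizer ({x₀} : Set G)) : ℤ) _ _
      (by exact_mod_cast hn3) (by exact_mod_cast he3) (by positivity) (by exact_mod_cast hcl)
      hcount hcard'

end Cfsg.Agent.S0880
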