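import Cfsg.Statements.S0881
import Cfsg.Agent.Lib.Helper24.Zass4
import Cfsg.Agent.Lib.Helper25.Ind
import Cfsg.Agent.Lib.Helper25.IndChar
import Cfsg.Agent.Lib.Helper25.Monomial
import Cfsg.Agent.Lib.Helper7.CharBasic
import Cfsg.Agent.Lib.Helper7.CharComplete

set_option autoImplicit false
open Cfsg

namespace Cfsg.Agent.S0881

open Cfsg.Agent.Lib.Helper29.Zass Cfsg.Agent.Lib.Helper24.Zass3 Cfsg.Agent.Lib.Helper24.Zass4
open Cfsg.Agent.Lib.Helper25 Cfsg.Agent.Lib.Helper7
open scoped ComplexConjugate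

theorem ind_norm {G : Type*} [Group G] [Fintype G] (N : Subgroup G) [Fintype N] (f : N →* ℂˣ)
    (h : ∀ x : G, x ∉ N → ∃ y₀ : N, ∃ hy : x⁻¹ * (y₀ : G) * x ∈ N,
      f y₀ ≠ f ⟨x⁻¹ * (y₀ : G) * x, hy⟩) :
    classInner (indFun N (fun y => (f y : ℂ))) (indFun N (fun y => (f y : ℂ))) = 1 := by
  classical
  obtain ⟨μ, hμ⟩ : ∃ μ : N → ℂ, μ = fun y => (f y : ℂ) := ⟨_, rfl⟩
  rw [← hμ]
  have hmul : ∀ y z : N, μ (y * z) = μ y * μ z := by
    intro y z
    rw [hμ]
    simp
  rw [frobenius_reciprocity N μ (indFun N μ) (indFun_isClassFunction N μ)]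
  unfold classInner
  have hN0 : (Nat.card N : ℂ) ≠ 0 := by exact_mod_cast Nat.card_pos.ne'
  have hnorm : ∀ y : N, μ y * conj (μ y) = 1 := by
    intro y
    have h1 : ‖μ y‖ = 1 := by
      rw [hμ]
      apply Complex.norm_eq_one_of_pow_eq_one (n := orderOf y) _ (orderOf_pos y).ne'
      rw [← Units.val_pow_eq_pow_val, ← map_pow, pow_orderOf_eq_one, map_one, Units.val_one]
    rw [Complex.mul_conj, Complex.normSq_eq_norm_sq, h1]
    simp
  have hT1 : ∀ x ∈ N, ∑ y : N, μ y * conj (extendByZero N μ (x⁻¹ * (y : G) * x)) =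
      (Nat.card N : ℂ) := by
    intro x hx
    have h2 : ∀ y : N, μ y * conj (extendByZero N μ (x⁻¹ * (y : G) * x)) = 1 := by
      intro y
      have e : x⁻¹ * (y : G) * x = (((⟨x, hx⟩ : N)⁻¹ * y * ⟨x, hx⟩ : N) : G) := rfl
      rw [e, extendByZero_coe]
      have h3 : μ ((⟨x, hx⟩ : N)⁻¹ * y * ⟨x, hx⟩) = μ y := by
        rw [hμ]
        simp only
        rw [map_mul, map_mul, map_inv, mul_comm, mul_inv_cancel_left]
      rw [h3, hnorm]
    simp only [h2]
    rw [Finset.sum_const, Finset.card_univ, nsmul_eq_mul, mul_one, Nat.card_eq_fintype_card]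
  have hT0 : ∀ x, x ∉ N → ∑ y : N, μ y * conj (extendByZero N μ (x⁻¹ * (y : G) * x)) = 0 := by
    intro x hx
    obtain ⟨y₀, hy, hne⟩ := h x hx
    obtain ⟨T, hT⟩ : ∃ T, T = ∑ y : N, μ y * conj (extendByZero N μ (x⁻¹ * (y : G) * x)) :=
      ⟨_, rfl⟩
    rw [← hT]
    have hshift : T = (μ y₀ * conj (μ ⟨x⁻¹ * (y₀ : G) * x, hy⟩)) * T := by
      rw [hT, Finset.mul_sum]
      rw [← Equiv.sum_comp (Equiv.mulLeft y₀)]
      apply Finset.sum_congr rfl
      intro y _
      have e2 : extendByZero N μ (x⁻¹ * ((y₀ * y : N) : G) * x) =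
          μ ⟨x⁻¹ * (y₀ : G) * x, hy⟩ * extendByZero N μ (x⁻¹ * (y : G) * x) := by
        have e3 : x⁻¹ * ((y₀ * y : N) : G) * x = (x⁻¹ * (y₀ : G) * x) * (x⁻¹ * (y : G) * x) := by
          rw [Subgroup.coe_mul]
          group
        rw [e3]
        by_cases hm : x⁻¹ * (y : G) * x ∈ N
        · rw [extendByZero_mem N μ hm, extendByZero_mem N μ (N.mul_mem hy hm)]
          exact hmul ⟨_, hy⟩ ⟨_, hm⟩
        · rw [extendByZero_not_mem N μ hm, mul_zero, extendByZero_not_mem]
          intro hcon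
          exact hm ((Subgroup.mul_mem_cancel_left N hy).mp hcon)
      simp only [Equiv.coe_mulLeft]
      rw [hmul, e2, map_mul]
      ring
    have hc : μ y₀ * conj (μ ⟨x⁻¹ * (y₀ : G) * x, hy⟩) ≠ 1 := by
      intro h1
      apply hne
      have h2 := hnorm ⟨x⁻¹ * (y₀ : G) * x, hy⟩
      have h3 : conj (μ ⟨x⁻¹ * (y₀ : G) * x, hy⟩) ≠ 0 := right_ne_zero_of_mul_eq_one h2
      have h4 : μ y₀ = μ ⟨x⁻¹ * (y₀ : G) * x, hy⟩ := mul_right_cancel₀ h3 (h1.trans h2.symm)
      rw [hμ] at h4
      exact Units.ext h4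
    have h5 : (1 - μ y₀ * conj (μ ⟨x⁻¹ * (y₀ : G) * x, hy⟩)) * T = 0 := by
      rw [sub_mul, one_mul, ← hshift, sub_self]
    exact (mul_eq_zero.mp h5).resolve_left (sub_ne_zero.mpr hc.symm)
  have hsum : ∑ y : N, μ y * conj (indFun N μ y) = (Nat.card N : ℂ) := by
    simp only [indFun_apply, map_mul, map_inv₀, Complex.conj_natCast, map_sum]
    have h4 : ∀ y : N, μ y * ((Nat.card N : ℂ)⁻¹ *
        ∑ x : G, conj (extendByZero N μ (x⁻¹ * (y : G) * x))) =
        (Nat.card N : ℂ)⁻¹ * ∑ x : G, μ y * conj (extendByZero N μ (x⁻¹ * (y : G) * x)) := by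
      intro y
      rw [Finset.mul_sum, Finset.mul_sum, Finset.mul_sum]
      apply Finset.sum_congr rfl
      intros
      ring
    simp only [h4]
    rw [← Finset.mul_sum, Finset.sum_comm]
    have h5 : ∀ x : G, ∑ y : N, μ y * conj (extendByZero N μ (x⁻¹ * (y : G) * x)) =
        if x ∈ N then (Nat.card N : ℂ) else 0 := by
      intro x
      split_ifs with hx
      · exact hT1 x hx
      · exact hT0 x hx
    simp only [h5]
    rw [Finset.sum_ite, Finset.sum_const, Finset.sum_const_zero, add_zero, nsmul_eq_mul]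
    have h6 : ((Finset.univ.filter (fun x : G => x ∈ N)).card : ℂ) = (Nat.card N : ℂ) := by
      rw [Nat.card_eq_fintype_card, Fintype.card_subtype]
    rw [h6]
    field_simp
  rw [hsum]
  field_simp

theorem ind_value {G : Type*} [Group G] [Fintype G] (N : Subgroup G) (f : N →* ℂˣ) (u : N)
    (h : ∀ x : G, x ∉ N → x⁻¹ * (u : G) * x ∉ N) :
    indFun N (fun y => (f y : ℂ)) u = (f u : ℂ) := by
  classical
  have hN0 : (Nat.card N : ℂ) ≠ 0 := by exact_mod_cast Nat.card_pos.ne'
  rw [indFun_apply]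
  have h5 : ∀ x : G, extendByZero N (fun y => (f y : ℂ)) (x⁻¹ * (u : G) * x) =
      if x ∈ N then (f u : ℂ) else 0 := by
    intro x
    split_ifs with hx
    · have e : x⁻¹ * (u : G) * x = (((⟨x, hx⟩ : N)⁻¹ * u * ⟨x, hx⟩ : N) : G) := rfl
      rw [e, extendByZero_coe]
      rw [map_mul, map_mul, map_inv, mul_comm, mul_inv_cancel_left]
    · exact extendByZero_not_mem N _ (h x hx)
  simp only [h5]
  rw [Finset.sum_ite, Finset.sum_const, Finset.sum_const_zero, add_zero, nsmul_eq_mul]
  have h6 : ((Finset.univ.filter (fun x : G => x ∈ N)).card : ℂ) = (Nat.card N : ℂ) := by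
    rw [Nat.card_eq_fintype_card, Fintype.card_subtype]
  rw [h6]
  field_simp


/-- Let G be a finite simple Zassenhaus group on Ω with n points, a ≠ b points with two-point stabilizer E of odd order less than n - 2, and let H be the subgroup of the stabilizer of a consisting of the identity and the elements fixing no point other than a (given here as a subgroup of the stabilizer of order one less than the number of points whose non-identity elements fix only a; it is the Frobenius kernel of the stabilizer). Let μ be a character of degree 1 of the stabilizer of a that is identically 1 on H but not identically 1. Then the function induced from μ to G is an irreducible character of G, and it takes the value 1 at every non-identity element of H. -/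
theorem result {G Ω : Type*} [Group G] [Fintype G] [MulAction G Ω] [Fintype Ω] (hZ : Cfsg.IsZassenhausGroup G Ω) {a b : Ω} (hab : a ≠ b) [IsSimpleGroup G] (hodd : Odd (Nat.card ↥(MulAction.stabilizer G a ⊓ MulAction.stabilizer G b : Subgroup G))) (hlt : Nat.card ↥(MulAction.stabilizer G a ⊓ MulAction.stabilizer G b : Subgroup G) < Fintype.card Ω - 2) (H : Subgroup G) (hHa : H ≤ MulAction.stabilizer G a) (hHcard : Nat.card H + 1 = Fintype.card Ω) (hHfix : ∀ u ∈ H, u ≠ 1 → ∀ c : Ω, u • c = c → c = a) (μ : MulAction.stabilizer G a → ℂ) (hμ : Cfsg.IsCharacter (MulAction.stabilizer G a) μ ∧ μ 1 = 1) (hμH : ∀ u : MulAction.stabilizer G a, (u : G) ∈ H → μ u = 1) (hμne : μ ≠ fun _ => 1) : Cfsg.IsIrrCharacter G (Cfsg.indFun (MulAction.stabilizer G a) μ) ∧ ∀ u ∈ H, u ≠ 1 → Cfsg.indFun (MulAction.stabilizer G a) μ u = 1 := by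
  classical
  have : Fintype (MulAction.stabilizer G a) := Fintype.ofFinite _
  obtain ⟨f, hf⟩ := exists_hom_of_linear hμ.1 hμ.2
  have hμf : μ = fun y => (f y : ℂ) := funext hf
  obtain ⟨K, hKa, hKn, hKm, hKc⟩ := exists_kernel hZ a
  have hHK : H = K := by
    apply Subgroup.eq_of_le_of_card_ge
    · intro g hg
      rw [hKm]
      refine ⟨hHa hg, ?_⟩
      by_cases h1 : g = 1
      · left; exact h1
      · right; exact hHfix g hg h1
    · rw [Nat.card_eq_fintype_card (α := Ω)] at hKc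
      omega
  subst hHK
  have hker : Cfsg.Agent.Lib.Helper29.Zass.IsKer H a := ⟨hKa, hKn, hKm, hKc⟩
  have hfH : ∀ u : MulAction.stabilizer G a, (u : G) ∈ H → f u = 1 := by
    intro u hu
    apply Units.ext
    rw [← hf, hμH u hu, Units.val_one]
  have claim : ∀ x : G, x ∉ MulAction.stabilizer G a → ∃ y₀ : MulAction.stabilizer G a,
      ∃ hy : x⁻¹ * (y₀ : G) * x ∈ MulAction.stabilizer G a, f y₀ ≠ f ⟨x⁻¹ * (y₀ : G) * x, hy⟩ := by
    intro x hx
    by_contra hcon
    push Not at hcon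
    have hca : x • a ≠ a := hx
    have hodd' : Odd (Nat.card ↥(MulAction.stabilizer G a ⊓ MulAction.stabilizer G (x • a) :
        Subgroup G)) := by
      rw [card_two_eq hZ hab hca.symm]
      exact hodd
    have hT := no_invariant_hom hZ hca.symm hodd'
      (f.comp (Subgroup.inclusion (inf_le_left :
        (MulAction.stabilizer G a ⊓ MulAction.stabilizer G (x • a) : Subgroup G) ≤
          MulAction.stabilizer G a))) (by
      intro g hg1 hg2 y hy
      have hm : g⁻¹ * x ∈ MulAction.stabilizer G a := by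
        show (g⁻¹ * x) • a = a
        rw [mul_smul, inv_smul_eq_iff, hg1]
      have hyN : (y : G) ∈ MulAction.stabilizer G a := y.2.1
      have hxy : x⁻¹ * (y : G) * x ∈ MulAction.stabilizer G a := by
        show (x⁻¹ * (y : G) * x) • a = a
        rw [mul_smul, mul_smul, inv_smul_eq_iff]
        exact y.2.2
      have h1 := hcon ⟨y, hyN⟩ hxy
      have e1 : (⟨x⁻¹ * (y : G) * x, hxy⟩ : MulAction.stabilizer G a) =
          (⟨g⁻¹ * x, hm⟩ : MulAction.stabilizer G a)⁻¹ * ⟨g⁻¹ * (y : G) * g, hy.1⟩ *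
            ⟨g⁻¹ * x, hm⟩ := by
        apply Subtype.ext
        show x⁻¹ * (y : G) * x = (g⁻¹ * x)⁻¹ * (g⁻¹ * (y : G) * g) * (g⁻¹ * x)
        group
      rw [e1, map_mul, map_mul, map_inv, mul_comm, mul_inv_cancel_left] at h1
      exact h1.symm)
    apply hμne
    funext k
    rw [hf]
    have hkc : (k : G) • (x • a) ≠ a := by
      intro h
      apply hca
      have h2 : (k : G) • (x • a) = (k : G) • a := by rw [h]; exact (k.2 : (k : G) • a = a).symm
      exact smul_left_cancel _ h2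
    obtain ⟨u, hu, huk⟩ := hker.trans hkc hca
    have huN : u ∈ MulAction.stabilizer G a := hHa hu
    have hmem : u * (k : G) ∈ (MulAction.stabilizer G a ⊓ MulAction.stabilizer G (x • a) :
        Subgroup G) := by
      refine Subgroup.mem_inf.mpr ⟨(MulAction.stabilizer G a).mul_mem huN k.2, ?_⟩
      show (u * (k : G)) • (x • a) = x • a
      rw [mul_smul, huk]
    have h3 := hT ⟨u * (k : G), hmem⟩
    have h4 : f ((⟨u, huN⟩ : MulAction.stabilizer G a) * k) = 1 := h3
    rw [map_mul, hfH ⟨u, huN⟩ hu, one_mul] at h4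
    rw [h4, Units.val_one]
  rw [hμf]
  refine ⟨isIrrCharacter_of_classInner_self_eq_one
    (isCharacter_indFun _ _ (hμf ▸ hμ.1)) (ind_norm _ f claim), ?_⟩
  intro u hu hu1
  have h1 := ind_value (MulAction.stabilizer G a) f ⟨u, hHa hu⟩ (by
    intro x hx hcon
    apply hx
    have h2 : (x⁻¹ * u * x) • a = a := hcon
    rw [mul_smul, mul_smul, inv_smul_eq_iff] at h2
    exact hHfix u hu hu1 _ h2)
  rw [hfH ⟨u, hHa hu⟩ hu, Units.val_one] at h1
  exact h1

end Cfsg.Agent.S0881
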