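import Cfsg.Statements.S0904
import Cfsg.Agent.Lib.Lead.PQR

set_option autoImplicit false
open Cfsg

namespace Cfsg.Agent.S0904

/-- Let G be a finite simple group of order p ^ a * q ^ b * r with p, q, r distinct primes. Then every Sylow r-subgroup S of G satisfies C_G(S) = S. -/
theorem result {G : Type*} [Group G] [Finite G] [IsSimpleGroup G] (p q r a b : ℕ) (hp : p.Prime) (hq : q.Prime) [Fact r.Prime] (hpq : p ≠ q) (hpr : p ≠ r) (hqr : q ≠ r) (hcard : Nat.card G = p ^ a * q ^ b * r) (S : Sylow r G) : Subgroup.centralizer (S : Set G) = (S : Subgroup G) := by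
  classical
  have hr : r.Prime := Fact.out
  have hcardS : Nat.card (S : Subgroup G) = r := by
    rw [S.card_eq_multiplicity, hcard]
    have h1 : (p ^ a * q ^ b * r).factorization r = 1 := by
      rw [Nat.factorization_mul (mul_ne_zero (pow_ne_zero _ hp.ne_zero) (pow_ne_zero _ hq.ne_zero)) hr.ne_zero,
        Nat.factorization_mul (pow_ne_zero _ hp.ne_zero) (pow_ne_zero _ hq.ne_zero)]
      simp [Nat.Prime.factorization_pow hp, Nat.Prime.factorization_pow hq,
        Nat.Prime.factorization hr, Finsupp.single_apply, hpr, hqr]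
    rw [h1, pow_one]
  by_cases hab : ∀ x y : G, x * y = y * x
  · -- abelian case
    have hn : (S : Subgroup G).Normal :=
      ⟨fun n hn g => by rw [hab g n, mul_inv_cancel_right]; exact hn⟩
    have htop : (S : Subgroup G) = ⊤ := by
      rcases hn.eq_bot_or_eq_top with h | h
      · rw [h, Subgroup.card_bot] at hcardS
        exact absurd hcardS.symm hr.one_lt.ne'
      · exact h
    rw [htop]
    ext x
    simp only [Subgroup.mem_top, iff_true]
    rw [Subgroup.mem_centralizer_iff]
    intro y _
    exact hab y x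
  · push Not at hab
    obtain ⟨x0, y0, hxy⟩ := hab
    have hna : ∃ a b : G, a * b ≠ b * a := ⟨x0, y0, hxy⟩
    have hcyc : IsCyclic (S : Subgroup G) := isCyclic_of_prime_card (p := r) hcardS
    have hSC : (S : Subgroup G) ≤ Subgroup.centralizer (S : Set G) := by
      intro x hx
      rw [Subgroup.mem_centralizer_iff]
      intro y hy
      letI := IsCyclic.commGroup (α := (S : Subgroup G))
      have := mul_comm (⟨y, hy⟩ : (S : Subgroup G)) ⟨x, hx⟩
      exact congrArg Subtype.val this
    by_contra hne
    set C := Subgroup.centralizer (S : Set G) with hC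
    obtain ⟨m, hm⟩ := Subgroup.card_dvd_of_le hSC
    rw [hcardS] at hm
    have hm1 : m ≠ 1 := by
      rintro rfl
      apply hne
      symm
      apply Subgroup.eq_of_le_of_card_ge hSC
      rw [hm, hcardS, mul_one]
    have hCG : Nat.card C ∣ Nat.card G := Subgroup.card_subgroup_dvd_card C
    rw [hm, hcard, mul_comm r m] at hCG
    have hmd : m ∣ p ^ a * q ^ b := Nat.dvd_of_mul_dvd_mul_right hr.pos hCG
    set s := m.minFac with hs
    have hsp : s.Prime := Nat.minFac_prime hm1
    have hsm : s ∣ m := Nat.minFac_dvd m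
    haveI : Fact s.Prime := ⟨hsp⟩
    obtain ⟨c, hc⟩ := exists_prime_orderOf_dvd_card' (G := C) s (by rw [hm]; exact hsm.mul_left r)
    obtain ⟨y, hy⟩ := exists_prime_orderOf_dvd_card' (G := (S : Subgroup G)) r (by rw [hcardS])
    rw [← Subgroup.orderOf_coe] at hc hy
    have hcomm : Commute (c : G) (y : G) := by
      have := (Subgroup.mem_centralizer_iff.1 c.2) y y.2
      exact this.symm
    have hsr : s ≠ r := by
      intro h
      have h1 : r ∣ p ^ a * q ^ b := h ▸ hsm.trans hmd
      rcases (Nat.Prime.dvd_mul hr).1 h1 with h | h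
      · exact hpr ((Nat.prime_dvd_prime_iff_eq hr hp).1 (hr.dvd_of_dvd_pow h)).symm
      · exact hqr ((Nat.prime_dvd_prime_iff_eq hr hq).1 (hr.dvd_of_dvd_pow h)).symm
    have hord : orderOf ((c : G) * y) = s * r := by
      rw [hcomm.orderOf_mul_eq_mul_orderOf_of_coprime (by
        rw [hc, hy]; exact (Nat.coprime_primes hsp hr).2 hsr), hc, hy]
    rcases (Nat.Prime.dvd_mul hsp).1 (hsm.trans hmd) with h | h
    · have hsp' : s = p := (Nat.prime_dvd_prime_iff_eq hsp hp).1 (hsp.dvd_of_dvd_pow h)
      exact Cfsg.Agent.Lib.Lead.PQR.no_sr_element hna p q r a b hp hq hr hpr hqr hcard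
        ((c : G) * y) (by rw [hord, hsp']; exact dvd_mul_right _ _)
        (by rw [hord]; exact dvd_mul_left _ _)
    · have hsq' : s = q := (Nat.prime_dvd_prime_iff_eq hsp hq).1 (hsp.dvd_of_dvd_pow h)
      exact Cfsg.Agent.Lib.Lead.PQR.no_sr_element hna q p r b a hq hp hr hqr hpr
        (by rw [hcard]; ring)
        ((c : G) * y) (by rw [hord, hsq']; exact dvd_mul_right _ _)
        (by rw [hord]; exact dvd_mul_left _ _)

end Cfsg.Agent.S0904
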