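import Cfsg.Statements.S0976
import Cfsg.Agent.Lib.Helper22.BrauerInv2
import Cfsg.Agent.S0904

set_option autoImplicit false
open Cfsg

namespace Cfsg.Agent.S0976

open Cfsg.Agent.Lib.Helper22 in

/-- No finite simple group has order 4032 = 2^6 * 3^2 * 7. -/
theorem result {G : Type*} [Group G] [Finite G] [IsSimpleGroup G] : Nat.card G ≠ 4032 := by
  intro h
  haveI : Fact (Nat.Prime 7) := ⟨by norm_num⟩
  obtain ⟨P⟩ : Nonempty (Sylow 7 G) := inferInstance
  have hC := Cfsg.Agent.S0904.result 2 3 7 6 2 Nat.prime_two Nat.prime_three (by norm_num)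
    (by norm_num) (by norm_num) (by rw [h]; norm_num) P
  have hP := (sylow_data_of_simple (p := 7) 576 h (by norm_num) (by norm_num) P).1
  obtain ⟨k, m, hkm, hk, hm, hm1, hidx⟩ :=
    sylow_data_self_centralizing (p := 7) 576 h (by norm_num) (by norm_num) P hC
  have hm6 : m ≤ 7 - 1 := Nat.le_of_dvd (by norm_num) hm
  have hm2 : m = 2 := by
    interval_cases m <;> omega
  rw [hm2] at hidx
  obtain ⟨χ, η, a, ε, w, hχ1, ha, hε, hdvd, hdeg, hw⟩ :=
    brauer_inv_square P hP (le_refl 7) hC hidx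
  have hnp : ¬ (Nat.card G).Prime := by rw [h]; norm_num
  have hf1 := one_lt_charDegree_of_simple hnp χ hχ1
  have hfd : Cfsg.charDegree (χ : G → ℂ) ∣ 4032 := h ▸ Cfsg.Agent.Lib.Helper7.charDegree_dvd_card χ
  have hed : Cfsg.charDegree (η : G → ℂ) ∣ 4032 := h ▸ Cfsg.Agent.Lib.Helper7.charDegree_dvd_card η
  have key : ∀ f ∈ Nat.divisors 4032, 1 < f → ∀ a ∈ ({1, -1} : Finset ℤ),
      ((f : ℤ) - a) % 7 = 0 → (1 + a * (f : ℤ)).natAbs ∣ 4032 → f = 8 ∧ a = 1 := by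
    decide +kernel
  have hnat : (1 + a * (Cfsg.charDegree (χ : G → ℂ) : ℤ)).natAbs = Cfsg.charDegree (η : G → ℂ) := by
    rw [hdeg]
    rcases hε with h0 | h0 <;> rw [h0] <;> simp
  obtain ⟨hf8, ha1⟩ := key _ (Nat.mem_divisors.2 ⟨hfd, by norm_num⟩) hf1 a
    (by rcases ha with h0 | h0 <;> rw [h0] <;> simp) (Int.emod_eq_zero_of_dvd hdvd)
    (by rw [hnat]; exact hed)
  rw [hf8, ha1, h] at hw
  have hw2 : w.natAbs * w.natAbs = 2032128 := by
    have h1 : (w.natAbs : ℤ) * (w.natAbs : ℤ) = 2032128 := by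
      rw [Int.natAbs_mul_self' w, ← pow_two, hw]
      norm_num
    exact_mod_cast h1
  rcases le_or_gt w.natAbs 1425 with h1 | h1
  · have h2 : w.natAbs * w.natAbs ≤ 1425 * 1425 := Nat.mul_le_mul h1 h1
    omega
  · have h2 : 1426 * 1426 ≤ w.natAbs * w.natAbs := Nat.mul_le_mul h1 h1
    omega

end Cfsg.Agent.S0976
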