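import Cfsg.Statements.S3031
import Cfsg.Agent.Lib.Helper23.HSub

set_option autoImplicit false
open Cfsg

namespace Cfsg.Agent.S3031

/-- Let G be a finite group, p the smallest prime dividing |G| and P a Sylow p-subgroup. Suppose that P is cyclic, or that P has a subgroup D with 1 < |D| < |P| such that every subgroup E of P of order |D|, and also every subgroup E of P of order 4 when |D| = 2, satisfies g E g⁻¹ ∩ N_G(E) ≤ E for all g ∈ G (E is strongly closed in its normalizer with respect to G). Then G has a normal p-complement. -/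
theorem result {G : Type*} [Group G] [Finite G] {p : ℕ} [Fact p.Prime] (hdiv : p ∣ Nat.card G)
    (hmin : ∀ q : ℕ, q.Prime → q ∣ Nat.card G → p ≤ q) (P : Sylow p G)
    (h : IsCyclic ↥(P : Subgroup G) ∨ ∃ D : Subgroup G, D ≤ (P : Subgroup G) ∧ 1 < Nat.card D ∧ Nat.card D < Nat.card (P : Subgroup G) ∧
      ∀ E : Subgroup G, E ≤ (P : Subgroup G) → (Nat.card E = Nat.card D ∨ (Nat.card D = 2 ∧ Nat.card E = 4)) →
        ∀ g : G, E.map (MulAut.conj g).toMonoidHom ⊓ Subgroup.normalizer (E : Set G) ≤ E) :
    Cfsg.HasNormalPComplement p G := by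
  have hp : p.Prime := Fact.out
  rcases h with hcyc | ⟨D, hDP, hD1, hD2, hfam⟩
  · have hminFac : (Nat.card G).minFac = p := by
      have hne : Nat.card G ≠ 1 := by
        intro h1
        rw [h1] at hdiv
        exact hp.one_lt.ne' (Nat.dvd_one.mp hdiv)
      apply le_antisymm
      · exact Nat.minFac_le_of_dvd hp.two_le hdiv
      · exact hmin _ (Nat.minFac_prime hne) (Nat.minFac_dvd _)
    exact ⟨P, _, inferInstance, IsCyclic.isComplement' hminFac hcyc⟩
  · obtain ⟨d, hd⟩ := (P.2.to_le hDP).exists_card_eq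
    have hd1 : 1 ≤ d := by
      rcases Nat.eq_zero_or_pos d with rfl | h0
      · rw [hd, pow_zero] at hD1
        exact absurd hD1 (lt_irrefl 1)
      · exact h0
    rw [hd] at hD2 hfam
    apply Cfsg.Agent.Lib.Helper23.HSub.hasNormalPComplement_of_fam hmin P d hd1 hD2
    intro E hEP hE
    exact Cfsg.Agent.Lib.Helper23.HSub.strongly_closed_of_H P.2 hEP (hfam E hEP hE)

end Cfsg.Agent.S3031
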