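import Cfsg.Statements.S0987
import Cfsg.Agent.S3031

set_option autoImplicit false
open Cfsg

namespace Cfsg.Agent.S0987

/-- If a finite group has order pqr for primes p < q < r, then its Sylow r-subgroups are normal. -/
theorem result {G : Type*} [Group G] [Finite G] (p q r : ℕ) (hp : p.Prime) (hq : q.Prime) [Fact r.Prime] (hpq : p < q) (hqr : q < r) (hG : Nat.card G = p * q * r) (R : Sylow r G) : (R : Subgroup G).Normal := by
  haveI : Fact p.Prime := ⟨hp⟩
  haveI : Fact q.Prime := ⟨hq⟩
  have hr : r.Prime := Fact.out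
  have hpr : p < r := lt_trans hpq hqr
  -- smallest prime
  have hdiv : p ∣ Nat.card G := by rw [hG, mul_assoc]; exact Dvd.intro _ rfl
  have hmin : ∀ s : ℕ, s.Prime → s ∣ Nat.card G → p ≤ s := by
    intro s hs hsd
    rw [hG] at hsd
    rcases (Nat.Prime.dvd_mul hs).1 hsd with h | h
    · rcases (Nat.Prime.dvd_mul hs).1 h with h | h
      · exact le_of_eq ((Nat.prime_dvd_prime_iff_eq hs hp).1 h).symm
      · exact le_of_lt (((Nat.prime_dvd_prime_iff_eq hs hq).1 h).symm ▸ hpq)
    · exact le_of_lt (((Nat.prime_dvd_prime_iff_eq hs hr).1 h).symm ▸ hpr)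
  obtain ⟨P0⟩ : Nonempty (Sylow p G) := inferInstance
  have hfp : (Nat.card G).factorization p = 1 := by
    rw [hG, Nat.factorization_mul (Nat.mul_ne_zero hp.ne_zero hq.ne_zero) hr.ne_zero,
      Nat.factorization_mul hp.ne_zero hq.ne_zero]
    simp [hp.factorization, hq.factorization, hr.factorization, Finsupp.single_apply, hpq.ne', hpr.ne']
  have hP0 : Nat.card (P0 : Subgroup G) = p := by
    rw [Sylow.card_eq_multiplicity, hfp, pow_one]
  have hcyc : IsCyclic ↥(P0 : Subgroup G) := isCyclic_of_prime_card hP0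
  obtain ⟨P, N, hN, hc⟩ := Cfsg.Agent.S3031.result hdiv hmin P0 (Or.inl hcyc)
  have hP : Nat.card (P : Subgroup G) = p := by
    rw [Sylow.card_eq_multiplicity, hfp, pow_one]
  have hNc : Nat.card N = q * r := by
    have h1 := hc.card_mul_card
    rw [hP, hG] at h1
    have : p * Nat.card N = p * (q * r) := by rw [mul_comm, h1]; ring
    exact Nat.eq_of_mul_eq_mul_left hp.pos this
  -- Sylow r of N
  obtain ⟨RN⟩ : Nonempty (Sylow r N) := inferInstance
  have hfr : (Nat.card N).factorization r = 1 := by
    rw [hNc, Nat.factorization_mul hq.ne_zero hr.ne_zero]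
    simp [hq.factorization, hr.factorization, Finsupp.single_apply, hqr.ne]
  have hRN : Nat.card (RN : Subgroup N) = r := by
    rw [Sylow.card_eq_multiplicity, hfr, pow_one]
  have hidx : (RN : Subgroup N).index = q := by
    have h1 := (RN : Subgroup N).card_mul_index
    rw [hRN, hNc] at h1
    have : r * (RN : Subgroup N).index = r * q := by rw [h1]; ring
    exact Nat.eq_of_mul_eq_mul_left hr.pos this
  have hn1 : Nat.card (Sylow r N) = 1 := by
    have hd : Nat.card (Sylow r N) ∣ q := hidx ▸ RN.card_dvd_index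
    have hm : Nat.card (Sylow r N) ≡ 1 [MOD r] := card_sylow_modEq_one r N
    rcases (Nat.dvd_prime hq).1 hd with h | h
    · exact h
    · exfalso
      rw [h] at hm
      have h2 : q % r = 1 % r := hm
      rw [Nat.mod_eq_of_lt hqr, Nat.mod_eq_of_lt hr.one_lt] at h2
      exact hq.one_lt.ne' h2
  haveI : Subsingleton (Sylow r N) := (Nat.card_eq_one_iff_unique.1 hn1).1
  haveI hch : (RN : Subgroup N).Characteristic := Sylow.characteristic_of_subsingleton RN
  have hK : ((RN : Subgroup N).map N.subtype).Normal := ConjAct.normal_of_characteristic_of_normal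
  have hKc : Nat.card ((RN : Subgroup N).map N.subtype) = r := by
    rw [Subgroup.card_map_of_injective N.subtype_injective, hRN]
  have hKp : IsPGroup r ((RN : Subgroup N).map N.subtype) := IsPGroup.of_card (n := 1) (by rw [hKc, pow_one])
  obtain ⟨R', hR'⟩ := hKp.exists_le_sylow
  have hfrG : (Nat.card G).factorization r = 1 := by
    rw [hG, Nat.factorization_mul (Nat.mul_ne_zero hp.ne_zero hq.ne_zero) hr.ne_zero,
      Nat.factorization_mul hp.ne_zero hq.ne_zero]
    simp [hp.factorization, hq.factorization, hr.factorization, Finsupp.single_apply, hqr.ne, hpr.ne]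
  have hR'c : Nat.card (R' : Subgroup G) = r := by
    rw [Sylow.card_eq_multiplicity, hfrG, pow_one]
  have hEq : (RN : Subgroup N).map N.subtype = (R' : Subgroup G) :=
    Subgroup.eq_of_le_of_card_ge hR' (by rw [hKc, hR'c])
  have hR'n : (R' : Subgroup G).Normal := hEq ▸ hK
  haveI := Sylow.unique_of_normal R' hR'n
  have : R = R' := Subsingleton.elim _ _
  rw [this]; exact hR'n

end Cfsg.Agent.S0987
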