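import Cfsg.Statements.S1010
import Mathlib
import Cfsg.Agent.Lib.Helper21.SylowNum
import Cfsg.Agent.S0215

set_option autoImplicit false
open Cfsg
open Cfsg.Agent.Lib.Helper21
open Subgroup

namespace Cfsg.Agent.S1010

section aux

variable {G : Type*} [Group G] [Finite G]

lemma sign_even {p : ℕ} [Fact p.Prime] [IsSimpleGroup G] (hn1 : Nat.card (Sylow p G) ≠ 1)
    (hbig : 2 < Nat.card G) (k : G) (hk2 : orderOf k = 2) :
    Even ((Nat.card (Sylow p G) - Nat.card {Q : Sylow p G // k • Q = Q}) / 2) := by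
  classical
  have := Fintype.ofFinite (Sylow p G)
  have hinj : Function.Injective (MulAction.toPermHom G (Sylow p G)) := by
    rw [injective_iff_map_eq_one]
    intro g hg
    apply sn_faithful (p := p) hn1 g
    intro Q
    have h3 := congrArg (fun f => f Q) hg
    simpa using h3
  set σ := MulAction.toPermHom G (Sylow p G) k with hσ
  have ho : orderOf σ = 2 := by rw [hσ, orderOf_injective _ hinj, hk2]
  obtain ⟨n, hn2⟩ := Equiv.Perm.cycleType_prime_order (σ := σ) (by rw [ho]; exact Nat.prime_two)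
  rw [ho] at hn2
  have hrep : σ.cycleType = Multiset.replicate (Multiset.card σ.cycleType) 2 := by
    rw [hn2, Multiset.card_replicate]
  have hs := Equiv.Perm.sign_of_cycleType_eq_replicate (by norm_num : 0 < 2) hrep
  have hfix : Fintype.card (Function.fixedPoints σ) =
      Nat.card {Q : Sylow p G // k • Q = Q} := by
    rw [← Nat.card_eq_fintype_card]
    apply Nat.card_congr
    apply Equiv.subtypeEquivRight
    intro Q
    exact Iff.rfl
  rw [hfix, ← Nat.card_eq_fintype_card, if_neg (by decide)] at hs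
  have hK := IsSimpleGroup.eq_bot_or_eq_top_of_normal
    ((Equiv.Perm.sign).comp (MulAction.toPermHom G (Sylow p G))).ker inferInstance
  rcases hK with h | h
  · exfalso
    have hinj2 : Function.Injective ((Equiv.Perm.sign).comp (MulAction.toPermHom G (Sylow p G))) :=
      (MonoidHom.ker_eq_bot_iff _).mp h
    have h5 := Nat.card_le_card_of_injective _ hinj2
    rw [Nat.card_eq_fintype_card (α := ℤˣ), Fintype.card_units_int] at h5
    omega
  · have h5 : k ∈ ((Equiv.Perm.sign).comp (MulAction.toPermHom G (Sylow p G))).ker :=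
      h ▸ Subgroup.mem_top k
    rw [MonoidHom.mem_ker, MonoidHom.comp_apply, ← hσ, hs] at h5
    by_contra hne
    rw [Nat.not_even_iff_odd] at hne
    rw [hne.neg_one_pow] at h5
    exact absurd h5 (by decide)

lemma zstar_kill {p : ℕ} [Fact p.Prime] [IsSimpleGroup G] (hn1 : Nat.card (Sylow p G) ≠ 1)
    (T : Sylow 2 G) (u : G) (hu : orderOf u = 2) (huT : u ∈ T)
    (hiso : ∀ g : G, g * u * g⁻¹ ∈ T → g * u * g⁻¹ = u) : False := by
  obtain ⟨N, hN, hodd, hcomm⟩ := Cfsg.Agent.S0215.result T u hu huT hiso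
  have hu1 : u ≠ 1 := by
    intro h
    rw [h, orderOf_one] at hu
    omega
  rcases IsSimpleGroup.eq_bot_or_eq_top_of_normal N hN with h | h
  · apply hu1
    apply sn_faithful (p := p) hn1 u
    intro Q
    rw [Sylow.smul_eq_iff_mem_normalizer]
    have hc : ∀ g, u * g = g * u := by
      intro g
      have h1 := hcomm g
      rw [h, Subgroup.mem_bot] at h1
      have h2 : u * g * u⁻¹ * g⁻¹ * (g * u) = g * u := by rw [h1, one_mul]
      rw [← h2]
      group
    have hmem : u ∈ normalizer ((Q : Subgroup G) : Set G) := by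
      rw [Subgroup.mem_normalizer_iff]
      intro x
      rw [hc x, mul_inv_cancel_right]
    exact hmem
  · rw [h, Subgroup.card_top] at hodd
    have h2 : 2 ∣ Nat.card G := hu ▸ orderOf_dvd_natCard u
    exact (Nat.not_even_iff_odd.mpr hodd) (even_iff_two_dvd.mpr h2)

lemma zpowers_eq {p : ℕ} [Fact p.Prime] (P : Sylow p G) (hP : Nat.card P = p) (x : G)
    (hx : x ∈ P) (hx1 : x ≠ 1) : zpowers x = (P : Subgroup G) ∧ orderOf x = p := by
  have hp : p.Prime := Fact.out
  have h1 : x ^ p = 1 := by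
    have h := pow_card_eq_one' (x := (⟨x, hx⟩ : (P : Subgroup G)))
    rw [hP] at h
    simpa using congrArg Subtype.val h
  have h2 : orderOf x = p := by
    rcases (Nat.dvd_prime hp).mp (orderOf_dvd_of_pow_eq_one h1) with h | h
    · exact absurd (orderOf_eq_one_iff.mp h) hx1
    · exact h
  refine ⟨?_, h2⟩
  apply Subgroup.eq_of_le_of_card_ge (zpowers_le.mpr hx)
  rw [Nat.card_zpowers, h2, hP]

lemma fix_trivial {p : ℕ} [Fact p.Prime] (P : Sylow p G) (hP : Nat.card P = p) (x : G)
    (hx : x ∈ P) (Q : Sylow p G) (hQ : x • Q = Q) (hne : Q ≠ P) : x = 1 := by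
  by_contra hx1
  obtain ⟨hz, ho⟩ := zpowers_eq P hP x hx hx1
  have h1 : x ∈ (P : Subgroup G) ⊓ (Q : Subgroup G) := by
    rw [← P.2.inf_normalizer_sylow Q]
    exact ⟨hx, Sylow.smul_eq_iff_mem_normalizer.mp hQ⟩
  have h2 : (P : Subgroup G) ≤ Q := by
    rw [← hz, zpowers_le]
    exact h1.2
  exact hne (Sylow.ext (P.3 Q.2 h2))

lemma fix_lt {p : ℕ} [Fact p.Prime] [IsSimpleGroup G] (hn1 : Nat.card (Sylow p G) ≠ 1) (k : G)
    (hk : k ≠ 1) : Nat.card {Q : Sylow p G // k • Q = Q} < Nat.card (Sylow p G) := by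
  by_contra hlt
  push Not at hlt
  have hb := Function.Injective.bijective_of_nat_card_le
    (f := (Subtype.val : {Q : Sylow p G // k • Q = Q} → Sylow p G)) Subtype.val_injective hlt
  apply hk
  apply sn_faithful (p := p) hn1 k
  intro Q
  obtain ⟨⟨Q', hQ'⟩, rfl⟩ := hb.2 Q
  exact hQ'

lemma fix_conj {p : ℕ} (t g : G) :
    Nat.card {Q : Sylow p G // (g * t * g⁻¹) • Q = Q} = Nat.card {Q : Sylow p G // t • Q = Q} := by
  symm
  apply Nat.card_congr
  refine (MulAction.toPerm g).subtypeEquiv ?_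
  intro Q
  rw [MulAction.toPerm_apply, smul_smul, inv_mul_cancel_right, mul_smul, smul_left_cancel_iff]

lemma exists_invol (T : Sylow 2 G) (g : G) (hg : g ∈ T) (hg1 : g ≠ 1) :
    ∃ n : ℕ, orderOf (g ^ n) = 2 := by
  haveI : Fact (Nat.Prime 2) := ⟨Nat.prime_two⟩
  obtain ⟨k, hk⟩ := (IsPGroup.iff_orderOf.mp T.2) ⟨g, hg⟩
  rw [Subgroup.orderOf_mk] at hk
  have hk0 : k ≠ 0 := by
    rintro rfl
    rw [pow_zero, orderOf_eq_one_iff] at hk
    exact hg1 hk
  obtain ⟨j, rfl⟩ := Nat.exists_eq_succ_of_ne_zero hk0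
  refine ⟨2 ^ j, ?_⟩
  rw [orderOf_pow_of_dvd (by positivity) (by rw [hk]; exact pow_dvd_pow 2 (Nat.le_succ j)), hk,
    Nat.succ_eq_add_one, pow_succ, Nat.mul_div_cancel_left _ (by positivity)]

variable [Fact (Nat.Prime 5)]

lemma fix_central [IsSimpleGroup G] (hn : Nat.card (Sylow 5 G) = 21) (hbig : 2 < Nat.card G)
    (P : Sylow 5 G) (k : G) (hk : k ∈ centralizer ((P : Subgroup G) : Set G))
    (hk2 : orderOf k = 2) : Nat.card {Q : Sylow 5 G // k • Q = Q} = 1 := by
  have h1 := sn_fixed_count P k hk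
  have h2 := sign_even (p := 5) (by rw [hn]; norm_num) hbig k hk2
  have h3 := fix_lt (p := 5) (by rw [hn]; norm_num) k
    (by intro h; rw [h, orderOf_one] at hk2; omega)
  haveI : Fact (Nat.Prime 2) := ⟨Nat.prime_two⟩
  have h4 := sn_fixed_count2 (p := 5) k 2 hk2
  rw [hn] at h2 h3 h4
  rw [Nat.even_iff] at h2
  unfold Nat.ModEq at h1 h4
  omega

lemma inverts (P : Sylow 5 G) (hP : Nat.card P = 5) (t : G) (ht2 : orderOf t = 2)
    (htN : t • P = P) (htC : t ∉ centralizer ((P : Subgroup G) : Set G)) :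
    ∀ x ∈ P, t * x * t⁻¹ = x⁻¹ := by
  classical
  rw [mem_centralizer_iff] at htC
  push Not at htC
  obtain ⟨x0, hx0, hne⟩ := htC
  have hx0' : x0 ∈ P := hx0
  have hx1 : x0 ≠ 1 := by
    rintro rfl
    simp at hne
  obtain ⟨hz, ho⟩ := zpowers_eq P hP x0 hx0' hx1
  have htn : t ∈ normalizer ((P : Subgroup G) : Set G) := Sylow.smul_eq_iff_mem_normalizer.mp htN
  have h1 : t * x0 * t⁻¹ ∈ (P : Subgroup G) := (mem_normalizer_iff.mp htn x0).mp hx0'
  rw [← hz, mem_zpowers_iff_mem_range_orderOf, ho] at h1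
  obtain ⟨a, ha, hax⟩ := Finset.mem_image.mp h1
  rw [Finset.mem_range] at ha
  have hax' : x0 ^ a = t * x0 * t⁻¹ := hax
  have htt : t * t = 1 := by rw [← pow_two, ← ht2, pow_orderOf_eq_one]
  have h2 : x0 ^ (a * a) = x0 ^ 1 := by
    calc x0 ^ (a * a) = (x0 ^ a) ^ a := pow_mul _ _ _
      _ = (t * x0 * t⁻¹) ^ a := by rw [hax']
      _ = t * x0 ^ a * t⁻¹ := conj_pow
      _ = t * (t * x0 * t⁻¹) * t⁻¹ := by rw [hax']
      _ = (t * t) * x0 * (t * t)⁻¹ := by group
      _ = x0 ^ 1 := by rw [htt]; simp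
  have h3 := pow_eq_pow_iff_modEq.mp h2
  rw [ho] at h3
  unfold Nat.ModEq at h3
  have h5 : x0 ^ 5 = 1 := by rw [← ho, pow_orderOf_eq_one]
  have hinv0 : t * x0 * t⁻¹ = x0⁻¹ := by
    interval_cases a
    · omega
    · exfalso
      apply hne
      rw [pow_one] at hax'
      calc x0 * t = t * x0 * t⁻¹ * t := by rw [← hax']
        _ = t * x0 := by group
    · omega
    · omega
    · rw [← hax']
      apply eq_inv_of_mul_eq_one_left
      rw [← pow_succ, h5]
  intro x hx
  have hx' : x ∈ zpowers x0 := by rw [hz]; exact hx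
  obtain ⟨j, rfl⟩ := mem_zpowers_iff.mp hx'
  rw [← conj_zpow, hinv0, inv_zpow]

lemma phi_inj (P : Sylow 5 G) (hP : Nat.card P = 5) (t : G)
    (hinv : ∀ x ∈ P, t * x * t⁻¹ = x⁻¹) :
    Function.Injective
      (fun o : Option (↥(P : Subgroup G) × {Q : Sylow 5 G // t • Q = Q ∧ Q ≠ P}) =>
        o.elim P (fun y => (y.1 : G) • y.2.1)) := by
  have hPfix : ∀ x ∈ P, x • P = P := fun x hx =>
    Sylow.smul_eq_iff_mem_normalizer.mpr (le_normalizer hx)
  rintro (_ | ⟨x, β⟩) (_ | ⟨y, γ⟩) h
  · rfl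
  · exfalso
    simp only [Option.elim] at h
    apply γ.2.2
    have h1 : (y : G)⁻¹ • P = γ.1 := inv_smul_eq_iff.mpr h
    rw [← h1]
    exact hPfix _ (inv_mem y.2)
  · exfalso
    simp only [Option.elim] at h
    apply β.2.2
    have h1 : (x : G)⁻¹ • P = β.1 := inv_smul_eq_iff.mpr h.symm
    rw [← h1]
    exact hPfix _ (inv_mem x.2)
  · simp only [Option.elim] at h
    set z : G := (y : G)⁻¹ * x with hz
    have hzP : z ∈ P := mul_mem (inv_mem y.2) x.2
    have h1 : z • β.1 = γ.1 := by rw [hz, mul_smul, h, inv_smul_smul]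
    have h2 : t * z = z⁻¹ * t := by
      rw [← hinv z hzP]
      group
    have h3 : z⁻¹ • β.1 = z • β.1 := by
      have h4 : t • (z • β.1) = z⁻¹ • β.1 := by rw [smul_smul, h2, mul_smul, β.2.1]
      rw [← h4, h1, γ.2.1]
    have h4 : (z * z) • β.1 = β.1 := by
      rw [mul_smul, ← h3, smul_inv_smul]
    have h5 : z * z = 1 := fix_trivial P hP (z * z) (mul_mem hzP hzP) β.1 h4 β.2.2
    have h6 : z = 1 := by
      by_contra hz1
      obtain ⟨_, ho⟩ := zpowers_eq P hP z hzP hz1
      have h7 : orderOf z ∣ 2 := orderOf_dvd_of_pow_eq_one (by rw [pow_two, h5])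
      rw [ho] at h7
      omega
    have hxy : x = y := by
      apply Subtype.ext
      exact (inv_mul_eq_one.mp h6).symm
    subst hxy
    have hbg : β = γ := Subtype.ext (by rw [← h1, h6, one_smul])
    rw [hbg]

lemma card_fix_eq (P : Sylow 5 G) (t : G) (htP : t • P = P) :
    Nat.card {Q : Sylow 5 G // t • Q = Q} =
      Nat.card {Q : Sylow 5 G // t • Q = Q ∧ Q ≠ P} + 1 := by
  classical
  rw [← Finite.card_option]
  apply Nat.card_congr
  exact
    { toFun := fun Q => if h : Q.1 = P then none else some ⟨Q.1, Q.2, h⟩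
      invFun := fun o => o.elim ⟨P, htP⟩ (fun Q => ⟨Q.1, Q.2.1⟩)
      left_inv := by
        intro Q
        by_cases h : Q.1 = P
        · simp only [h, dite_true, Option.elim]
          exact Subtype.ext h.symm
        · simp only [h, dite_false, Option.elim]
      right_inv := by
        rintro (_ | Q)
        · simp
        · simp [Q.2.2] }

lemma fix_le (hn : Nat.card (Sylow 5 G) = 21) (P : Sylow 5 G) (hP : Nat.card P = 5) (t : G)
    (hinv : ∀ x ∈ P, t * x * t⁻¹ = x⁻¹) :
    5 * Nat.card {Q : Sylow 5 G // t • Q = Q ∧ Q ≠ P} + 1 ≤ 21 := by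
  have h := Nat.card_le_card_of_injective _ (phi_inj P hP t hinv)
  rw [Finite.card_option, Nat.card_prod, hP, hn] at h
  exact h

lemma orbit_rep (hn : Nat.card (Sylow 5 G) = 21) (P : Sylow 5 G) (hP : Nat.card P = 5) (t : G)
    (htP : t • P = P) (hinv : ∀ x ∈ P, t * x * t⁻¹ = x⁻¹)
    (hf : Nat.card {Q : Sylow 5 G // t • Q = Q} = 5) (γ : Sylow 5 G) :
    ∃ x ∈ P, t • γ = x • γ := by
  have hinj := phi_inj P hP t hinv
  have hcard : Nat.card (Sylow 5 G) ≤
      Nat.card (Option (↥(P : Subgroup G) × {Q : Sylow 5 G // t • Q = Q ∧ Q ≠ P})) := by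
    rw [Finite.card_option, Nat.card_prod, hP, hn]
    have := card_fix_eq P t htP
    omega
  have hb := hinj.bijective_of_nat_card_le hcard
  obtain ⟨o, ho⟩ := hb.2 γ
  rcases o with _ | ⟨y, β⟩
  · simp only [Option.elim] at ho
    exact ⟨1, one_mem _, by rw [← ho, htP, one_smul]⟩
  · simp only [Option.elim] at ho
    refine ⟨(y : G)⁻¹ * (y : G)⁻¹, mul_mem (inv_mem y.2) (inv_mem y.2), ?_⟩
    have h2 : t * (y : G) = (y : G)⁻¹ * t := by
      rw [← hinv y y.2]
      group
    rw [← ho, smul_smul, h2, mul_smul, β.2.1, smul_smul, mul_assoc, inv_mul_cancel, mul_one]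

lemma prod_central (P : Sylow 5 G) (t t' : G) (hinv : ∀ x ∈ P, t * x * t⁻¹ = x⁻¹)
    (hinv' : ∀ x ∈ P, t' * x * t'⁻¹ = x⁻¹) : ∀ x ∈ P, x * (t * t') = (t * t') * x := by
  intro x hx
  have h1 : t' * x = x⁻¹ * t' := by
    rw [← hinv' x hx]
    group
  have h2 : t * x⁻¹ = x * t := by
    have h3 := hinv x⁻¹ (inv_mem hx)
    rw [inv_inv] at h3
    calc t * x⁻¹ = (t * x⁻¹ * t⁻¹) * t := by group
      _ = x * t := by rw [h3]
  calc x * (t * t') = (x * t) * t' := by group
    _ = (t * x⁻¹) * t' := by rw [h2]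
    _ = t * (x⁻¹ * t') := by group
    _ = t * (t' * x) := by rw [h1]
    _ = t * t' * x := by group

theorem no_simple [IsSimpleGroup G] (hn : Nat.card (Sylow 5 G) = 21)
    (hPc : ∀ P : Sylow 5 G, Nat.card P = 5) : False := by
  haveI : Fact (Nat.Prime 2) := ⟨Nat.prime_two⟩
  haveI : Fact (Nat.Prime 3) := ⟨Nat.prime_three⟩
  have hn1 : Nat.card (Sylow 5 G) ≠ 1 := by rw [hn]; norm_num
  obtain ⟨T⟩ : Nonempty (Sylow 2 G) := inferInstance
  obtain ⟨P, hPT⟩ := T.2.nonempty_fixed_point_of_prime_not_dvd_card (Sylow 5 G)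
    (by rw [hn]; norm_num)
  have hTfix : ∀ g ∈ T, g • P = P := fun g hg => hPT ⟨g, hg⟩
  have hP := hPc P
  have h21 : 21 ∣ Nat.card G := by
    rw [← hn, P.card_eq_index_normalizer]
    exact Subgroup.index_dvd_card _
  have hbig : 2 < Nat.card G := by
    have := Nat.le_of_dvd Nat.card_pos h21
    omega
  set C := centralizer ((P : Subgroup G) : Set G) with hC
  have hinvol : ∀ t : G, orderOf t = 2 → t⁻¹ = t := by
    intro t ht2
    have htt : t * t = 1 := by rw [← pow_two, ← ht2, pow_orderOf_eq_one]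
    exact inv_eq_of_mul_eq_one_left htt
  -- Step 0
  have step0 : ∃ u ∈ T, u ∉ C := by
    by_contra hcon
    push Not at hcon
    have hTC : (T : Subgroup G) ≤ C := hcon
    have h1 := relIndex_centralizer_dvd_totient P (isCyclic_of_prime_card hP)
    rw [hP, Nat.totient_prime (by norm_num : Nat.Prime 5)] at h1
    have h2 : C.relIndex (normalizer ((P : Subgroup G) : Set G)) ∣ (T : Subgroup G).index := by
      have h3 := Subgroup.relIndex_mul_index
        (Subgroup.centralizer_le_normalizer ((P : Subgroup G) : Set G))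
      exact (Dvd.intro _ h3).trans (Subgroup.index_dvd_of_le hTC)
    have h4 : ¬ 2 ∣ (T : Subgroup G).index := T.not_dvd_index
    have h5 : C.relIndex (normalizer ((P : Subgroup G) : Set G)) = 1 := by
      generalize C.relIndex (normalizer ((P : Subgroup G) : Set G)) = d at h1 h2
      have hd : d ≤ 4 := Nat.le_of_dvd (by norm_num) h1
      interval_cases d
      · omega
      · rfl
      · exact absurd h2 h4
      · omega
      · exact absurd ((by norm_num : 2 ∣ 4).trans h2) h4
    rw [Subgroup.relIndex_eq_one] at h5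
    exact sn_kill (p := 3) P (hP ▸ Subgroup.card_subgroup_dvd_card _) (by norm_num)
      ((by norm_num : 3 ∣ 21).trans h21) h5
  obtain ⟨u, huT, huC⟩ := step0
  have hf15 : ∀ t ∈ T, orderOf t = 2 → Nat.card {Q : Sylow 5 G // t • Q = Q} = 1 ∨
      (t ∉ C ∧ Nat.card {Q : Sylow 5 G // t • Q = Q} = 5) := by
    intro t ht ht2
    by_cases htC : t ∈ C
    · left
      exact fix_central hn hbig P t htC ht2
    · have hinv := inverts P hP t ht2 (hTfix t ht) htC
      have h1 := fix_le hn P hP t hinv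
      have h2 := card_fix_eq P t (hTfix t ht)
      have h3 := sign_even (p := 5) hn1 hbig t ht2
      have h4 := sn_fixed_count2 (p := 5) t 2 ht2
      rw [hn] at h3 h4
      rw [Nat.even_iff] at h3
      unfold Nat.ModEq at h4
      have h5 : Nat.card {Q : Sylow 5 G // t • Q = Q} = 1 ∨
          Nat.card {Q : Sylow 5 G // t • Q = Q} = 5 := by omega
      rcases h5 with h5 | h5
      · left; exact h5
      · right; exact ⟨htC, h5⟩
  have hconj2 : ∀ (t g : G), orderOf t = 2 → orderOf (g * t * g⁻¹) = 2 := by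
    intro t g ht2
    have h := (MulAut.conj g).orderOf_eq t
    rw [MulAut.conj_apply] at h
    rw [h, ht2]
  by_cases hA : ∃ t ∈ T, orderOf t = 2 ∧ Nat.card {Q : Sylow 5 G // t • Q = Q} = 5
  · obtain ⟨t, htT, ht2, htf⟩ := hA
    apply zstar_kill (p := 5) hn1 T t ht2 htT
    intro g hg
    set t' := g * t * g⁻¹ with ht'
    have ht'2 : orderOf t' = 2 := hconj2 t g ht2
    have htf' : Nat.card {Q : Sylow 5 G // t' • Q = Q} = 5 := by rw [ht', fix_conj, htf]
    have htC : t ∉ C := by
      rcases hf15 t htT ht2 with h | h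
      · omega
      · exact h.1
    have htC' : t' ∉ C := by
      rcases hf15 t' hg ht'2 with h | h
      · omega
      · exact h.1
    have hinv := inverts P hP t ht2 (hTfix t htT) htC
    have hinv' := inverts P hP t' ht'2 (hTfix t' hg) htC'
    have hcC := prod_central P t t' hinv hinv'
    set c := t * t' with hc
    have hcT : c ∈ T := mul_mem htT hg
    have key : ∀ γ : Sylow 5 G, ∃ x ∈ P, c • γ = x • γ := by
      intro γ
      obtain ⟨x1, hx1, h1⟩ := orbit_rep hn P hP t' (hTfix t' hg) hinv' htf' γ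
      obtain ⟨x2, hx2, h2⟩ := orbit_rep hn P hP t (hTfix t htT) hinv htf (x1 • γ)
      exact ⟨x2 * x1, mul_mem hx2 hx1, by rw [hc, mul_smul, h1, h2, mul_smul]⟩
    have hc5 : c ^ 5 = 1 := by
      apply sn_faithful (p := 5) hn1
      intro γ
      obtain ⟨x, hx, h⟩ := key γ
      have hpow : ∀ n : ℕ, c ^ n • γ = x ^ n • γ := by
        intro n
        induction n with
        | zero => simp
        | succ n ih =>
          rw [pow_succ' c, mul_smul, ih, smul_smul, ← hcC (x ^ n) (pow_mem hx n), mul_smul, h,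
            smul_smul, ← pow_succ]
      rw [hpow 5]
      have hx5 : x ^ 5 = 1 := by
        have h := pow_card_eq_one' (x := (⟨x, hx⟩ : (P : Subgroup G)))
        rw [hP] at h
        simpa using congrArg Subtype.val h
      rw [hx5, one_smul]
    have hc1 : c = 1 := by
      obtain ⟨k, hk⟩ := (IsPGroup.iff_orderOf.mp T.2) ⟨c, hcT⟩
      rw [Subgroup.orderOf_mk] at hk
      have h1 : orderOf c ∣ 5 := orderOf_dvd_of_pow_eq_one hc5
      rw [hk] at h1
      have h2 : 2 ^ k = 1 :=
        Nat.Coprime.eq_one_of_dvd (Nat.Coprime.pow_left k (by norm_num : Nat.Coprime 2 5)) h1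
      rw [h2] at hk
      exact orderOf_eq_one_iff.mp hk
    have h3 : t' = t⁻¹ := eq_inv_of_mul_eq_one_right hc1
    rw [h3, hinvol t ht2]
  · push Not at hA
    have hf1 : ∀ t ∈ T, orderOf t = 2 → Nat.card {Q : Sylow 5 G // t • Q = Q} = 1 := by
      intro t ht ht2
      rcases hf15 t ht ht2 with h | ⟨_, h⟩
      · exact h
      · exact absurd h (hA t ht ht2)
    have huniq : ∀ t ∈ T, orderOf t = 2 → ∀ Q : Sylow 5 G, t • Q = Q → Q = P := by
      intro t ht ht2 Q hQ
      have h1 := hf1 t ht ht2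
      rw [Nat.card_eq_one_iff_unique] at h1
      have h2 := h1.1.elim (⟨Q, hQ⟩ : {Q : Sylow 5 G // t • Q = Q}) ⟨P, hTfix t ht⟩
      exact congrArg Subtype.val h2
    have hfree : ∀ g ∈ T, g ≠ 1 → ∀ Q : Sylow 5 G, g • Q = Q → Q = P := by
      intro g hg hg1 Q hQ
      obtain ⟨n, hn2⟩ := exists_invol T g hg hg1
      apply huniq _ (pow_mem hg n) hn2 Q
      have h1 : g ∈ MulAction.stabilizer G Q := hQ
      exact pow_mem h1 n
    have hT20 : Nat.card T ∣ 20 := by
      classical
      let X : SubMulAction (T : Subgroup G) (Sylow 5 G) :=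
        { carrier := {Q | Q ≠ P}
          smul_mem' := by
            intro g Q hQ h
            apply hQ
            have h0 : (g : G) • Q = P := h
            have h1 : (g : G)⁻¹ • ((g : G) • Q) = (g : G)⁻¹ • P := by rw [h0]
            rw [inv_smul_smul] at h1
            rw [h1]
            exact hTfix _ (inv_mem g.2) }
      have hstab : ∀ b : X, MulAction.stabilizer (T : Subgroup G) b = ⊥ := by
        intro b
        rw [eq_bot_iff]
        intro g hg
        rw [Subgroup.mem_bot]
        by_contra hg1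
        have h1 : (g : G) • b.1 = b.1 := congrArg Subtype.val (MulAction.mem_stabilizer_iff.mp hg)
        exact b.2 (hfree g g.2 (fun h => hg1 (Subtype.ext h)) b.1 h1)
      have h1 := Nat.card_congr (MulAction.selfEquivOrbitsQuotientProd hstab)
      rw [Nat.card_prod] at h1
      have h2 : Nat.card X = 20 := by
        have h3 := Nat.card_congr (Equiv.optionSubtypeNe P)
        rw [Finite.card_option, hn] at h3
        have h4 : Nat.card X = Nat.card {b : Sylow 5 G // b ≠ P} := rfl
        omega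
      exact ⟨_, by rw [← h2, h1, mul_comm]⟩
    have hT4 : Nat.card T = 1 ∨ Nat.card T = 2 ∨ Nat.card T = 4 := by
      obtain ⟨k, hk⟩ := T.2.exists_card_eq
      rw [hk] at hT20 ⊢
      have hk3 : k < 3 := by
        by_contra hk3
        push Not at hk3
        have h8 : 2 ^ 3 ∣ 20 := (pow_dvd_pow 2 hk3).trans hT20
        omega
      interval_cases k <;> simp
    have hu1 : u ≠ 1 := by
      rintro rfl
      exact huC (one_mem _)
    by_cases hT0 : (T : Subgroup G) ⊓ C = ⊥
    · obtain ⟨n, hn2⟩ := exists_invol T u huT hu1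
      set t := u ^ n with ht
      have htT : t ∈ T := pow_mem huT n
      have hnotC : ∀ s ∈ T, orderOf s = 2 → s ∉ C := by
        intro s hs hs2 hsC
        have h1 : s ∈ (T : Subgroup G) ⊓ C := ⟨hs, hsC⟩
        rw [hT0, Subgroup.mem_bot] at h1
        rw [h1, orderOf_one] at hs2
        omega
      apply zstar_kill (p := 5) hn1 T t hn2 htT
      intro g hg
      set t' := g * t * g⁻¹ with ht'
      have ht'2 : orderOf t' = 2 := hconj2 t g hn2
      have hinv := inverts P hP t hn2 (hTfix t htT) (hnotC t htT hn2)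
      have hinv' := inverts P hP t' ht'2 (hTfix t' hg) (hnotC t' hg ht'2)
      have hcC := prod_central P t t' hinv hinv'
      have h1 : t * t' ∈ (T : Subgroup G) ⊓ C :=
        ⟨mul_mem htT hg, mem_centralizer_iff.mpr (fun x hx => hcC x hx)⟩
      rw [hT0, Subgroup.mem_bot] at h1
      have h3 : t' = t⁻¹ := eq_inv_of_mul_eq_one_right h1
      rw [h3, hinvol t hn2]
    · have hle : (T : Subgroup G) ⊓ C ≤ T := inf_le_left
      have hd : Nat.card ((T : Subgroup G) ⊓ C : Subgroup G) ∣ Nat.card T :=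
        Subgroup.card_dvd_of_le hle
      have hne1 : Nat.card ((T : Subgroup G) ⊓ C : Subgroup G) ≠ 1 := by
        intro h
        exact hT0 (Subgroup.card_eq_one.mp h)
      have hneT : Nat.card ((T : Subgroup G) ⊓ C : Subgroup G) ≠ Nat.card T := by
        intro h
        have h1 := Subgroup.eq_of_le_of_card_ge hle (le_of_eq h.symm)
        have h2 : u ∈ (T : Subgroup G) ⊓ C := by rw [h1]; exact huT
        exact huC h2.2
      have hc2 : Nat.card ((T : Subgroup G) ⊓ C : Subgroup G) = 2 := by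
        generalize Nat.card ((T : Subgroup G) ⊓ C : Subgroup G) = d at hd hne1 hneT
        rcases hT4 with h | h | h <;> rw [h] at hd hneT
        · have := Nat.le_of_dvd (by norm_num) hd
          interval_cases d <;> omega
        · have := Nat.le_of_dvd (by norm_num) hd
          interval_cases d <;> omega
        · have := Nat.le_of_dvd (by norm_num) hd
          interval_cases d <;> omega
      obtain ⟨⟨v, hv⟩, hv1⟩ := (Subgroup.ne_bot_iff_exists_ne_one).mp hT0
      have hv1' : v ≠ 1 := fun h => hv1 (Subtype.ext h)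
      have hv2 : orderOf v = 2 := by
        have h1 : orderOf (⟨v, hv⟩ : ((T : Subgroup G) ⊓ C : Subgroup G)) ∣ 2 :=
          (_root_.orderOf_dvd_natCard _).trans (dvd_of_eq hc2)
        rw [Subgroup.orderOf_mk] at h1
        rcases (Nat.dvd_prime Nat.prime_two).mp h1 with h | h
        · exact absurd (orderOf_eq_one_iff.mp h) hv1'
        · exact h
      apply zstar_kill (p := 5) hn1 T v hv2 hv.1
      intro g hg
      have h1 : v • (g⁻¹ • P) = g⁻¹ • P := by
        have h2 := hTfix _ hg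
        calc v • (g⁻¹ • P) = g⁻¹ • ((g * v * g⁻¹) • P) := by
              rw [smul_smul, smul_smul]
              congr 1
              group
          _ = g⁻¹ • P := by rw [h2]
      have h2 : g⁻¹ • P = P := huniq v hv.1 hv2 _ h1
      have hgn : g⁻¹ ∈ normalizer ((P : Subgroup G) : Set G) :=
        Sylow.smul_eq_iff_mem_normalizer.mp h2
      have h3 : g * v * g⁻¹ ∈ C := by
        rw [hC, mem_centralizer_iff]
        intro h hh
        have hh' : g⁻¹ * h * g⁻¹⁻¹ ∈ (P : Subgroup G) := (mem_normalizer_iff.mp hgn h).mp hh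
        have h4 := mem_centralizer_iff.mp hv.2 _ hh'
        calc h * (g * v * g⁻¹) = g * ((g⁻¹ * h * g⁻¹⁻¹) * v) * g⁻¹ := by group
          _ = g * (v * (g⁻¹ * h * g⁻¹⁻¹)) * g⁻¹ := by rw [h4]
          _ = g * v * g⁻¹ * h := by group
      obtain ⟨w, hw, hwu⟩ :=
        (Nat.card_eq_two_iff' (1 : ((T : Subgroup G) ⊓ C : Subgroup G))).mp hc2
      have e1 := hwu ⟨v, hv⟩ hv1
      have e2 := hwu ⟨g * v * g⁻¹, hg, h3⟩ (by
        intro h
        have h5 : g * v * g⁻¹ = 1 := congrArg Subtype.val h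
        exact hv1' (conj_eq_one_iff.mp h5))
      have e3 := e2.trans e1.symm
      exact congrArg Subtype.val e3

end aux

/-- No finite group has exactly twenty-one Sylow 5-subgroups. -/
theorem result {G : Type*} [Group G] [Finite G] : Nat.card (Sylow 5 G) ≠ 21 := by
  intro hn
  haveI : Fact (Nat.Prime 5) := ⟨by norm_num⟩
  obtain ⟨S, _, _, hS, hnS, hP⟩ := exists_simple_of_sylow_num (G := G) 5 21 hn
    (by
      intro m hm h5
      have hle : m ≤ 21 := Nat.le_of_dvd (by norm_num) hm
      interval_cases m <;> omega)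
    (by norm_num)
    (not_isPrimePow_of_two_primes (a := 3) (b := 7) (by norm_num) (by norm_num) (by norm_num)
      (by norm_num) (by norm_num))
    (by norm_num)
  exact no_simple hnS hP

end Cfsg.Agent.S1010
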