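import Cfsg.Statements.S1225
import Cfsg.Agent.Lib.Helper9.StrEmb

set_option autoImplicit false
open Cfsg

namespace Cfsg.Agent.S1225

/-- Let H be a strongly embedded subgroup of the finite group G, u an involution outside H and D = H ∩ uHu⁻¹. Then any two involutions of H are conjugate by an element of D, and any two involutions of G are conjugate in G. -/
theorem result {G : Type*} [Group G] [Finite G] (H : Subgroup G) (hH : Cfsg.IsStronglyEmbedded H) (u : G) (hu : orderOf u = 2) (huH : u ∉ H) (s t : G) (hs : orderOf s = 2) (hsH : s ∈ H) (ht : orderOf t = 2) (htH : t ∈ H) : (∃ d ∈ (H ⊓ H.map (MulAut.conj u).toMonoidHom), d * s * d⁻¹ = t) ∧ ∀ a b : G, orderOf a = 2 → orderOf b = 2 → IsConj a b := by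
  open Cfsg.Agent.Lib.Helper9 in
  constructor
  · set x : G ⧸ H := QuotientGroup.mk 1 with hx
    set y : G ⧸ H := QuotientGroup.mk u with hy
    have hxy : x ≠ y := by
      intro h
      rw [hx, hy, QuotientGroup.eq] at h
      apply huH; simpa using h
    have hux : u • x = y := smul_mk_one u
    have huu := mul_self_of_orderOf_two hu
    have huy : u • y = x := by rw [← hux, ← mul_smul, huu, one_smul]
    have hsx : s • x = x := (smul_mk_one_eq_iff s).2 hsH
    have htx : t • x = x := (smul_mk_one_eq_iff t).2 htH
    -- an involution fixing y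
    have hr : orderOf (u * s * u⁻¹) = 2 := by
      have : u * s * u⁻¹ = MulAut.conj u s := by simp [MulAut.conj_apply]
      rw [this, MulEquiv.orderOf_eq]; exact hs
    have hry : (u * s * u⁻¹) • y = y := by
      rw [inv_eq_self_of_mul_self huu, mul_smul, mul_smul, huy, hsx, hux]
    obtain ⟨i, hi, hic, hix⟩ := se_conj hH hs hr hsx hry hxy
    obtain ⟨i', hi', hic', hix'⟩ := se_conj hH ht hr htx hry hxy
    have hii := mul_self_of_orderOf_two hi
    have hii' := mul_self_of_orderOf_two hi'
    have hiy : i • y = x := by rw [← hix, ← mul_smul, hii, one_smul]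
    have hiy' : i' • y = x := by rw [← hix', ← mul_smul, hii', one_smul]
    have hinv' := inv_eq_self_of_mul_self hii'
    refine ⟨i'⁻¹ * i, ?_, ?_⟩
    · refine Subgroup.mem_inf.2 ⟨?_, ?_⟩
      · rw [← smul_mk_one_eq_iff (H := H), hinv', mul_smul]
        change i' • i • x = x
        rw [hix, hiy']
      · rw [mem_map_conj_iff, ← smul_mk_eq_iff (H := H), hinv', mul_smul]
        change i' • i • y = y
        rw [hiy, hix']
    · have : i'⁻¹ * (i * s * i⁻¹) * i' = t := by
        rw [hic, ← hic']; simp [mul_assoc]
      rw [← this]; simp [mul_assoc]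
  · intro a b ha hb
    obtain ⟨xa, hxa⟩ := se_fix_exists hH ha
    obtain ⟨xb, hxb⟩ := se_fix_exists hH hb
    have key : ∀ (a b : G) (xa xb : G ⧸ H), orderOf a = 2 → orderOf b = 2 → a • xa = xa → b • xb = xb →
        xa ≠ xb → IsConj a b := by
      intro a b xa xb ha hb hxa hxb hne
      obtain ⟨i, -, hic, -⟩ := se_conj hH ha hb hxa hxb hne
      exact isConj_iff.2 ⟨i, hic⟩
    by_cases hne : xa = xb
    · subst hne
      -- find an involution with another fixed point
      have hex : ∃ (c : G) (xc : G ⧸ H), orderOf c = 2 ∧ c • xc = xc ∧ xc ≠ xa := by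
        by_cases h1 : xa = QuotientGroup.mk 1
        · refine ⟨u * s * u⁻¹, QuotientGroup.mk u, ?_, ?_, ?_⟩
          · have : u * s * u⁻¹ = MulAut.conj u s := by simp [MulAut.conj_apply]
            rw [this, MulEquiv.orderOf_eq]; exact hs
          · rw [smul_mk_eq_iff]; simpa [mul_assoc] using hsH
          · rw [h1]
            intro h
            rw [eq_comm, QuotientGroup.eq] at h
            apply huH; simpa using h
        · exact ⟨s, QuotientGroup.mk 1, hs, (smul_mk_one_eq_iff s).2 hsH, fun h => h1 h.symm⟩
      obtain ⟨c, xc, hc, hxc, hne⟩ := hex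
      exact (key a c xa xc ha hc hxa hxc hne.symm).trans (key c b xc xa hc hb hxc hxb hne)
    · exact key a b xa xb ha hb hxa hxb hne

end Cfsg.Agent.S1225
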