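import Cfsg.Statements.S1312
import Cfsg.Agent.Lib.Helper17.Bender

set_option autoImplicit false
open Cfsg

namespace Cfsg.Agent.S1312

/-- Let G be a non-abelian finite simple group and M ≠ N maximal subgroups of G with F*(M) ≤ N and F*(N) ≤ M. Then there is a prime p such that F*(M) and F*(N) are both p-groups. -/
theorem result {G : Type*} [Group G] [Finite G] [IsSimpleGroup G] (hna : ¬ IsMulCommutative G) (M N : Subgroup G) (hM : IsCoatom M) (hN : IsCoatom N) (hMN : M ≠ N) (h1 : (Cfsg.generalizedFittingSubgroup ↥M).map M.subtype ≤ N) (h2 : (Cfsg.generalizedFittingSubgroup ↥N).map N.subtype ≤ M) : ∃ p : ℕ, p.Prime ∧ IsPGroup p ↥(Cfsg.generalizedFittingSubgroup ↥M) ∧ IsPGroup p ↥(Cfsg.generalizedFittingSubgroup ↥N) := by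
  have hP : Cfsg.Agent.Lib.Helper17.PrimPair M N := by
    intro A hA hle
    have hAtop : Subgroup.normalizer (A : Set G) ≠ ⊤ := by
      intro h
      have hn : A.Normal := Subgroup.normalizer_eq_top_iff.mp h
      rcases hn.eq_bot_or_eq_top with h | h
      · exact hA h
      · exact hM.1 (top_le_iff.mp (h ▸ hle.trans inf_le_left))
    have key : ∀ L : Subgroup G, IsCoatom L → L ≤ Subgroup.normalizer (A : Set G) →
        Subgroup.normalizer (A : Set G) = L := by
      intro L hL h
      by_contra hne
      exact hAtop (hL.2 _ (lt_of_le_of_ne h (fun e => hne e.symm)))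
    constructor
    · intro h
      rw [key M hM h, inf_comm]
    · intro h
      rw [key N hN h]
  obtain ⟨p, hp, a1, a2⟩ := Cfsg.Agent.Lib.Helper17.bender_pair hMN hP h1 h2
  refine ⟨p, hp, ?_, ?_⟩
  · exact Cfsg.Agent.Lib.Helper17.pCore_isPGroup.to_le
      ((Subgroup.map_le_map_iff_of_injective M.subtype_injective).mp a1)
  · exact Cfsg.Agent.Lib.Helper17.pCore_isPGroup.to_le
      ((Subgroup.map_le_map_iff_of_injective N.subtype_injective).mp a2)

end Cfsg.Agent.S1312
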