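import Cfsg.Statements.S1313
import Cfsg.Agent.Lib.Helper10.Components

set_option autoImplicit false
open Cfsg
open Cfsg.Agent.Lib.Helper10

namespace Cfsg.Agent.S1313

/-- For a finite group H, |H| ≤ |F*(H)|!. -/
theorem result {H : Type*} [Group H] [Finite H] : Nat.card H ≤ Nat.factorial (Nat.card ↥(Cfsg.generalizedFittingSubgroup H)) := by
  set Fs := Cfsg.generalizedFittingSubgroup H with hFs
  have hFn : Fs.Normal := genFitting_normal H
  let φ : H →* MulAut Fs := MulAut.conjNormal
  have hker : ∀ c ∈ φ.ker, c ∈ Fs := by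
    intro c hc
    apply centralizer_genFitting_le H
    rw [Subgroup.mem_centralizer_iff]
    intro y hy
    have h1 : φ c ⟨y, hy⟩ = ⟨y, hy⟩ := by
      rw [MonoidHom.mem_ker.mp hc]; rfl
    have h2 : c * y * c⁻¹ = y := by
      have := congrArg Subtype.val h1
      rwa [MulAut.conjNormal_apply] at this
    calc y * c = (c * y * c⁻¹) * c := by rw [h2]
      _ = c * y := by group
  have hfin : Finite (MulAut Fs) := Finite.of_injective (fun α : MulAut Fs => (α : Fs → Fs))
    (fun a b h => MulEquiv.ext (congrFun h))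
  have h1 : Nat.card H = Nat.card (H ⧸ φ.ker) * Nat.card φ.ker :=
    Subgroup.card_eq_card_quotient_mul_card_subgroup _
  have h2 : Nat.card (H ⧸ φ.ker) ≤ Nat.card (MulAut Fs) :=
    Nat.card_le_card_of_injective (QuotientGroup.kerLift φ) (QuotientGroup.kerLift_injective φ)
  let ψ : MulAut Fs × φ.ker → Equiv.Perm Fs := fun p =>
    p.1.toEquiv.trans (Equiv.mulLeft (⟨p.2, hker _ p.2.2⟩ : Fs))
  have hψ : Function.Injective ψ := by
    rintro ⟨α, c⟩ ⟨β, d⟩ h
    have hx : ∀ x : Fs, (⟨c, hker _ c.2⟩ : Fs) * α x = (⟨d, hker _ d.2⟩ : Fs) * β x := by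
      intro x
      exact congrArg (fun e : Equiv.Perm Fs => e x) h
    have hcd : c = d := by
      have := hx 1
      rw [map_one, map_one, mul_one, mul_one] at this
      exact Subtype.ext (congrArg (fun z : Fs => (z : H)) this)
    subst hcd
    have hαβ : α = β := MulEquiv.ext fun x => mul_left_cancel (hx x)
    rw [hαβ]
  have h3 : Nat.card (MulAut Fs × φ.ker) ≤ Nat.card (Equiv.Perm Fs) :=
    Nat.card_le_card_of_injective ψ hψ
  rw [Nat.card_prod, Nat.card_perm] at h3
  calc Nat.card H = Nat.card (H ⧸ φ.ker) * Nat.card φ.ker := h1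
    _ ≤ Nat.card (MulAut Fs) * Nat.card φ.ker := Nat.mul_le_mul_right _ h2
    _ ≤ _ := h3

end Cfsg.Agent.S1313
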