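import Cfsg.Statements.S1326
import Cfsg.Agent.Lib.Helper10.Components

set_option autoImplicit false
open Cfsg
open Cfsg.Agent.Lib.Helper10

namespace Cfsg.Agent.S1326

/-- For a finite group X: the Fitting subgroup contains its centralizer if and only if the layer of X is trivial. -/
theorem result {X : Type*} [Group X] [Finite X] : Subgroup.centralizer (Cfsg.fittingSubgroup X : Set X) ≤ Cfsg.fittingSubgroup X ↔ Cfsg.layer X = ⊥ := by
  constructor
  · intro h
    have h1 : Cfsg.layer X ≤ Cfsg.fittingSubgroup X := by
      refine le_trans ?_ h
      rw [← Subgroup.commutator_eq_bot_iff_le_centralizer]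
      exact layer_commutator_fitting X
    unfold Cfsg.layer
    rw [sSup_eq_bot]
    intro L hL
    exfalso
    apply qs_not_isNilpotent hL.2
    have := fittingSubgroup_isNilpotent X
    have h2 : L ≤ Cfsg.fittingSubgroup X := (component_le_layer hL).trans h1
    exact isNilpotent_of_le h2 this
  · intro h
    have h1 := centralizer_genFitting_le X
    unfold Cfsg.generalizedFittingSubgroup at h1
    rw [h, bot_sup_eq] at h1
    exact h1

end Cfsg.Agent.S1326
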