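import Cfsg.Statements.S1349
import Mathlib
import Cfsg.Agent.Lib.Helper21.ThDih
import Cfsg.Agent.Lib.Helper1.Fitting
import Cfsg.Agent.Lib.Helper10.Fitting
import Cfsg.Agent.S0206

set_option autoImplicit false
open Cfsg

namespace Cfsg.Agent.S1349

open Subgroup in
theorem dih_key {G : Type*} [Group G] [Finite G] (a x : G) (haa : a * a = 1)
    (hinv : a * x * a⁻¹ = x⁻¹) (hxx : x * x ≠ 1) :
    Nonempty (↥(zpowers a ⊔ zpowers x) ≃* DihedralGroup (orderOf x)) := by
  have ha1 : a ≠ 1 := by
    rintro rfl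
    apply hxx
    have h : x = x⁻¹ := by simpa using hinv
    calc x * x = x⁻¹ * x := by rw [← h]
      _ = 1 := inv_mul_cancel x
  haveI : Fact (Nat.Prime 2) := ⟨Nat.prime_two⟩
  have hoa : orderOf a = 2 := orderOf_eq_prime (by rw [pow_two]; exact haa) ha1
  have hax2 : (a * x) * (a * x) = 1 := by
    calc (a * x) * (a * x) = (a * x * a⁻¹) * (a * a) * x := by group
      _ = 1 := by rw [hinv, haa]; group
  have hax1 : a * x ≠ 1 := by
    intro h
    apply hxx
    have h1 : x = a⁻¹ := eq_inv_of_mul_eq_one_right h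
    rw [h1, ← mul_inv_rev, haa, inv_one]
  have hoax : orderOf (a * x) = 2 := orderOf_eq_prime (by rw [pow_two]; exact hax2) hax1
  have hne : a ≠ a * x := by
    intro h
    apply hxx
    have h1 : x = 1 := by
      have h2 : a * 1 = a * x := by rw [mul_one]; exact h
      exact (mul_left_cancel h2).symm
    rw [h1, mul_one]
  obtain ⟨e⟩ := Cfsg.Agent.S0206.result a (a * x) hoa hoax hne
  have h1 : a * (a * x) = x := by rw [← mul_assoc, haa, one_mul]
  rw [h1] at e
  have h2 : closure ({a, a * x} : Set G) = zpowers a ⊔ zpowers x := by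
    apply le_antisymm
    · rw [closure_le]
      intro y hy
      rcases hy with rfl | hy
      · exact (le_sup_left : zpowers y ≤ _) (mem_zpowers y)
      · rw [Set.mem_singleton_iff] at hy
        rw [hy]
        exact mul_mem ((le_sup_left : zpowers a ≤ _) (mem_zpowers a))
          ((le_sup_right : zpowers x ≤ zpowers a ⊔ zpowers x) (mem_zpowers x))
    · apply sup_le
      · rw [zpowers_le]
        exact subset_closure (by simp)
      · rw [zpowers_le]
        have h3 : x = a⁻¹ * (a * x) := by group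
        rw [h3]
        exact mul_mem (inv_mem (subset_closure (by simp))) (subset_closure (by simp))
  exact ⟨(MulEquiv.subgroupCongr h2.symm).trans e⟩

open Subgroup in
theorem comm_sup {G : Type*} [Group G] (u v g : G) (hu : u * g = g * u) (hv : v * g = g * v) :
    ∀ h ∈ zpowers u ⊔ zpowers v, h * g = g * h := by
  intro h hh
  have h1 : zpowers u ⊔ zpowers v ≤ centralizer ({g} : Set G) :=
    sup_le (zpowers_le.2 (mem_centralizer_singleton_iff.2 hu))
      (zpowers_le.2 (mem_centralizer_singleton_iff.2 hv))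
  exact mem_centralizer_singleton_iff.1 (h1 hh)

/-- Let G be finite, L ≤ G solvable of odd order, and A an elementary abelian 2-subgroup of order 2^d (d ≥ 1) normalizing L with C_A(L) = 1. Then there are subgroups A_1, …, A_d of A of order 2 generating A and subgroups L_1, …, L_d of L such that each A_i ⊔ L_i is dihedral of order 2 n_i with n_i odd and at least 3, and A_i ⊔ L_i commutes elementwise with A_j ⊔ L_j for i ≠ j. -/
theorem result {G : Type*} [Group G] [Finite G] (L A : Subgroup G) (hLs : Group.IsSolvable ↥L) (hLodd : Odd (Nat.card ↥L)) (hA : Cfsg.IsElementaryAbelian 2 A) (d : ℕ) (hd : 1 ≤ d) (hAd : Nat.card ↥A = 2 ^ d) (hAL : A ≤ Subgroup.normalizer (L : Set G)) (hfaith : A ⊓ Subgroup.centralizer (L : Set G) = ⊥) : ∃ (Ai : Fin d → Subgroup G) (Li : Fin d → Subgroup G) (n : Fin d → ℕ), (∀ i, Ai i ≤ A ∧ Nat.card ↥(Ai i) = 2 ∧ Li i ≤ L ∧ Odd (n i) ∧ 3 ≤ n i ∧ Nonempty (↥(Ai i ⊔ Li i) ≃* DihedralGroup (n i))) ∧ (⨆ i, Ai i) = A ∧ ∀ i j, i ≠ j → ∀ x ∈ Ai i ⊔ Li i, ∀ y ∈ Ai j ⊔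 Li j, x * y = y * x := by
  classical
  haveI := hLs
  obtain ⟨F0, hF0⟩ : ∃ F0, F0 = Cfsg.fittingSubgroup ↥L := ⟨_, rfl⟩
  have hF0n : F0.Normal := by rw [hF0]; exact Cfsg.Agent.Lib.Helper1.fitting_normal
  have hF0nil : Group.IsNilpotent ↥F0 := by rw [hF0]; exact Cfsg.Agent.Lib.Helper1.fitting_nilpotent
  have hF0char : F0.Characteristic := by
    rw [hF0]; exact Cfsg.Agent.Lib.Helper10.fittingSubgroup_characteristic ↥L
  have hF0c : Subgroup.centralizer (F0 : Set ↥L) ≤ F0 := by
    rw [hF0]; exact Cfsg.Agent.Lib.Helper1.centralizer_fitting_le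
  obtain ⟨F, hFdef⟩ : ∃ F, F = F0.map L.subtype := ⟨_, rfl⟩
  have hFL : F ≤ L := by rw [hFdef]; exact Subgroup.map_subtype_le F0
  have hFmem : ∀ (l : G) (hl : l ∈ L), l ∈ F ↔ (⟨l, hl⟩ : ↥L) ∈ F0 := by
    intro l hl
    rw [hFdef, Subgroup.mem_map]
    constructor
    · rintro ⟨y, hy, rfl⟩
      exact hy
    · intro h
      exact ⟨_, h, rfl⟩
  have hFn : Group.IsNilpotent ↥F := by
    haveI := hF0nil
    rw [hFdef]
    exact Group.nilpotent_of_mulEquiv (F0.equivMapOfInjective L.subtype L.subtype_injective)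
  have hodd : Odd (Nat.card ↥F) := Odd.of_dvd_nat hLodd (Subgroup.card_dvd_of_le hFL)
  have hA2 : ∀ a ∈ A, a * a = 1 := fun a ha => by
    have := hA.2 a ha
    rwa [pow_two] at this
  have hAc := Cfsg.Agent.Lib.Helper21.td_comm A hA2
  have hAF : A ≤ Subgroup.normalizer (F : Set G) := by
    apply Cfsg.Agent.Lib.Helper21.td_le_normalizer
    intro a ha y hy
    have hyL := hFL hy
    let φ : ↥L ≃* ↥L :=
      { toFun := fun l => ⟨a * l * a⁻¹, Cfsg.Agent.Lib.Helper21.td_conj_mem hAL ha l.2⟩
        invFun := fun l => ⟨a⁻¹ * l * a⁻¹⁻¹,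
          Cfsg.Agent.Lib.Helper21.td_conj_mem hAL (A.inv_mem ha) l.2⟩
        left_inv := fun l => Subtype.ext (by simp [mul_assoc])
        right_inv := fun l => Subtype.ext (by simp [mul_assoc])
        map_mul' := fun l m => Subtype.ext (by simp [mul_assoc]) }
    have h1 : (⟨y, hyL⟩ : ↥L) ∈ F0.comap φ.toMonoidHom :=
      (Subgroup.characteristic_iff_le_comap.1 hF0char φ) ((hFmem y hyL).1 hy)
    exact (hFmem _ (Cfsg.Agent.Lib.Helper21.td_conj_mem hAL ha hyL)).2 h1
  have hLF : L ≤ Subgroup.normalizer (F : Set G) := by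
    apply Cfsg.Agent.Lib.Helper21.td_le_normalizer
    intro l hl y hy
    have hyL := hFL hy
    have h1 := hF0n.conj_mem _ ((hFmem y hyL).1 hy) ⟨l, hl⟩
    exact (hFmem _ (L.mul_mem (L.mul_mem hl hyL) (L.inv_mem hl))).2 h1
  have hCF : L ⊓ Subgroup.centralizer (F : Set G) ≤ F := by
    intro l hl
    obtain ⟨hl1, hl2⟩ := Subgroup.mem_inf.1 hl
    rw [hFmem l hl1]
    apply hF0c
    rw [Subgroup.mem_centralizer_iff]
    intro y hy
    apply Subtype.ext
    exact Subgroup.mem_centralizer_iff.1 hl2 y ((hFmem y y.2).2 hy)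
  have hfaithF : ∀ t ∈ A, (∀ f ∈ F, t * f = f * t) → t = 1 := by
    intro t ht htF
    have h1 := Cfsg.Agent.Lib.Helper21.td_centralizes L F hLodd hLF hCF t (hA2 t ht)
      (fun f hf => Cfsg.Agent.Lib.Helper21.td_conj_mem hAL ht hf) htF
    have h2 : t ∈ A ⊓ Subgroup.centralizer (L : Set G) :=
      Subgroup.mem_inf.2 ⟨ht, Subgroup.mem_centralizer_iff.2 (fun l hl => (h1 l hl).symm)⟩
    rw [hfaith, Subgroup.mem_bot] at h2
    exact h2
  obtain ⟨x, h1, h2, h3, h4, _, h6⟩ :=
    Cfsg.Agent.Lib.Helper21.td_main F A hFn hodd hA2 hAF hfaithF d hAd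
  have hxx : ∀ i, x i * x i ≠ 1 := by
    intro i h
    have h7 := Cfsg.Agent.Lib.Helper21.td_eq_one_of_sq F hodd (h1 i) h
    have h8 := h2 i
    rw [h7, orderOf_one] at h8
    exact Nat.not_prime_one h8
  -- product of two non-commuting elements commutes
  have hprod : ∀ i, ∀ a ∈ A, ∀ b ∈ A, ¬ a * x i = x i * a → ¬ b * x i = x i * b →
      (a * b) * x i = x i * (a * b) := by
    intro i a ha b hb hna hnb
    have ha' : a * x i * a⁻¹ = (x i)⁻¹ := by
      rcases h4 i a ha with h | h
      · exact absurd (mul_inv_eq_iff_eq_mul.1 h) hna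
      · exact h
    have hb' : b * x i * b⁻¹ = (x i)⁻¹ := by
      rcases h4 i b hb with h | h
      · exact absurd (mul_inv_eq_iff_eq_mul.1 h) hnb
      · exact h
    apply mul_inv_eq_iff_eq_mul.1
    calc a * b * x i * (a * b)⁻¹ = a * (b * x i * b⁻¹) * a⁻¹ := by group
      _ = (a * x i * a⁻¹)⁻¹ := by rw [hb']; group
      _ = x i := by rw [ha', inv_inv]
  have hprod' : ∀ i, ∀ a b : G, a * x i = x i * a → b * x i = x i * b →
      (a * b) * x i = x i * (a * b) := by
    intro i a b ha hb
    rw [mul_assoc, hb, ← mul_assoc, ha, mul_assoc]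
  let Φ : ↥A → (Fin d → Bool) := fun a i => decide ((a : G) * x i = x i * a)
  have hΦinj : Function.Injective Φ := by
    intro a b hab
    have h7 : (a : G) * b = 1 := by
      apply h6 _ (A.mul_mem a.2 b.2)
      intro i
      have h8 : decide ((a : G) * x i = x i * a) = decide ((b : G) * x i = x i * b) :=
        congrFun hab i
      by_cases hc : (a : G) * x i = x i * a
      · have hc' : (b : G) * x i = x i * b := by
          by_contra hcon
          simp [hc, hcon] at h8
        exact hprod' i _ _ hc hc'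
      · have hc' : ¬ (b : G) * x i = x i * b := by
          intro hcon
          simp [hc, hcon] at h8
        exact hprod i _ a.2 _ b.2 hc hc'
    apply Subtype.ext
    have h9 : (b : G) * b = 1 := hA2 _ b.2
    calc (a : G) = a * (b * b) := by rw [h9, mul_one]
      _ = (a * b) * b := by group
      _ = b := by rw [h7, one_mul]
  have hΦbij : Function.Bijective Φ := by
    apply hΦinj.bijective_of_nat_card_le
    rw [hAd]
    simp
  have hex : ∀ i : Fin d, ∃ a : ↥A, ∀ j, ((a : G) * x j = x j * a ↔ j ≠ i) := by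
    intro i
    obtain ⟨a, ha⟩ := hΦbij.2 (fun j => decide (j ≠ i))
    refine ⟨a, fun j => ?_⟩
    have h7 : decide ((a : G) * x j = x j * a) = decide (j ≠ i) := congrFun ha j
    exact decide_eq_decide.1 h7
  choose a ha using hex
  have hinv : ∀ i, (a i : G) * x i * (a i : G)⁻¹ = (x i)⁻¹ := by
    intro i
    rcases h4 i _ (a i).2 with h | h
    · exact absurd (mul_inv_eq_iff_eq_mul.1 h) (fun hc => ((ha i i).1 hc) rfl)
    · exact h
  have hgen : ∀ s : Finset (Fin d), ∀ b ∈ A, (∀ i, i ∉ s → b * x i = x i * b) →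
      b ∈ ⨆ i, Subgroup.zpowers (a i : G) := by
    intro s
    induction s using Finset.induction_on with
    | empty =>
      intro b hb h
      rw [h6 b hb (fun i => h i (by simp))]
      exact Subgroup.one_mem _
    | insert i s his ih =>
      intro b hb h
      by_cases hc : b * x i = x i * b
      · apply ih b hb
        intro j hj
        by_cases hji : j = i
        · rw [hji]; exact hc
        · exact h j (by simp [hji, hj])
      · have h7 : b * (a i : G) ∈ ⨆ i, Subgroup.zpowers (a i : G) := by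
          apply ih _ (A.mul_mem hb (a i).2)
          intro j hj
          by_cases hji : j = i
          · rw [hji]
            exact hprod i b hb _ (a i).2 hc (fun hc' => ((ha i i).1 hc') rfl)
          · exact hprod' j _ _ (h j (by simp [hji, hj])) ((ha i j).2 hji)
        have h8 : (a i : G) ∈ ⨆ i, Subgroup.zpowers (a i : G) :=
          (le_iSup (fun i => Subgroup.zpowers (a i : G)) i) (Subgroup.mem_zpowers _)
        have h9 : b = b * (a i : G) * (a i : G)⁻¹ := by group
        rw [h9]
        exact Subgroup.mul_mem _ h7 (Subgroup.inv_mem _ h8)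
  refine ⟨fun i => Subgroup.zpowers (a i : G), fun i => Subgroup.zpowers (x i),
    fun i => orderOf (x i), ?_, ?_, ?_⟩
  · intro i
    have hoddi : Odd (orderOf (x i)) := by
      apply Odd.of_dvd_nat hodd
      have := orderOf_dvd_natCard (⟨x i, h1 i⟩ : ↥F)
      rwa [Subgroup.orderOf_mk] at this
    refine ⟨Subgroup.zpowers_le.2 (a i).2, ?_, Subgroup.zpowers_le.2 (hFL (h1 i)), hoddi, ?_,
      dih_key _ _ (hA2 _ (a i).2) (hinv i) (hxx i)⟩
    · rw [Nat.card_zpowers]
      haveI : Fact (Nat.Prime 2) := ⟨Nat.prime_two⟩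
      apply orderOf_eq_prime
      · rw [pow_two]; exact hA2 _ (a i).2
      · intro h
        have h7 := (ha i i).1 (by rw [h, one_mul, mul_one])
        exact h7 rfl
    · have h7 := (h2 i).two_le
      obtain ⟨k, hk⟩ := hoddi
      show 3 ≤ orderOf (x i)
      omega
  · apply le_antisymm
    · apply iSup_le
      intro i
      exact Subgroup.zpowers_le.2 (a i).2
    · intro b hb
      exact hgen Finset.univ b hb (fun i hi => absurd (Finset.mem_univ i) hi)
  · intro i j hij u hu v hv
    have e1 : ∀ h ∈ Subgroup.zpowers (a i : G) ⊔ Subgroup.zpowers (x i),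
        h * (a j : G) = (a j : G) * h :=
      comm_sup _ _ _ (hAc _ (a i).2 _ (a j).2) ((ha j i).2 hij).symm
    have e2 : ∀ h ∈ Subgroup.zpowers (a i : G) ⊔ Subgroup.zpowers (x i),
        h * x j = x j * h :=
      comm_sup _ _ _ ((ha i j).2 (Ne.symm hij)) (h3 i j)
    exact (comm_sup _ _ u (e1 u hu).symm (e2 u hu).symm v hv).symm

end Cfsg.Agent.S1349
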