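import Cfsg.Statements.S1393
import Cfsg.Agent.Lib.Helper18.Trans
import Mathlib

set_option autoImplicit false
open Cfsg

namespace Cfsg.Agent.S1393

/-- Let G be a minimal simple group of odd order, A a subgroup satisfying the transitivity hypothesis whose centre has rank at least 3, K = O_{π(A)'}(C_G(A)), and q a prime not dividing the order of A. Then any two maximal A-invariant q-subgroups of G are conjugate by an element of K. -/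
theorem result {G : Type*} [Group G] [Finite G] (hG : Cfsg.IsMinSimpleOddOrder G)
    (A : Subgroup G) (hA : Cfsg.TransitivityHypothesis A) (hZ : ¬ Cfsg.RankLE 2 ↥(A ⊓ Subgroup.centralizer (A : Set G)))
    (q : ℕ) (hq : q.Prime) (hqA : ¬ q ∣ Nat.card A) :
    ∀ Q₁ ∈ Cfsg.maxInvSubgroups ⊤ A {q}, ∀ Q₂ ∈ Cfsg.maxInvSubgroups ⊤ A {q}, ∃ k ∈ Cfsg.piCoreOf (Cfsg.primesNotDvd (Nat.card A)) (Subgroup.centralizer (A : Set G)), Q₂ = Q₁.map (MulAut.conj k).toMonoidHom := by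
  open Subgroup Cfsg.Agent.Lib.Helper18.Trans Cfsg.Agent.S1480 in
  have := Fact.mk hq
  obtain ⟨p, hp, E₀, hE₀Z, hE₀el, hE₀3⟩ := exists_elem_of_not_rankLE hZ
  have := Fact.mk hp
  have hqp : q ≠ p := by
    rintro rfl
    apply hqA
    have h1 : Nat.card E₀ ∣ Nat.card A := card_dvd_of_le (hE₀Z.trans inf_le_left)
    have hpg : IsPGroup q E₀ := fun a => ⟨1, by
      apply Subtype.ext
      simpa using hE₀el.2 a a.2⟩
    obtain ⟨n, hn⟩ := IsPGroup.iff_card.mp hpg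
    rw [hn] at hE₀3 h1
    have hn0 : n ≠ 0 := by
      rintro rfl
      have : 1 < q ^ (2 + 1) := Nat.one_lt_pow (by norm_num) hq.one_lt
      rw [pow_zero] at hE₀3
      omega
    exact (dvd_pow_self q hn0).trans h1
  intro Q₁ hQ₁ Q₂ hQ₂
  by_cases hQQ : Q₁ = Q₂
  · rw [hQQ]; exact Rel.refl _ _
  obtain ⟨hq₁, hE₁⟩ := (inv_iff A q Q₁).1 hQ₁.1
  obtain ⟨hq₂, hE₂⟩ := (inv_iff A q Q₂).1 hQ₂.1
  have hD₁ : Q₁ ⊓ Q₂ ≠ Q₁ := fun h => hQQ (hQ₁.2 Q₂ hQ₂.1 (inf_eq_left.1 h)).symm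
  have hD₂ : Q₁ ⊓ Q₂ ≠ Q₂ := fun h => hQQ (hQ₂.2 Q₁ hQ₁.1 (inf_eq_right.1 h))
  have hE₀A : E₀ ≤ A := hE₀Z.trans inf_le_left
  obtain ⟨a, haE₀, ha1, hU₁, hU₂⟩ := Cfsg.Agent.S1282.result p E₀ hE₀el hE₀3 q hqp Q₁ Q₂ hq₁ hq₂
    (hE₀A.trans hE₁) (hE₀A.trans hE₂) hD₁ hD₂
  have hAH : A ≤ centralizer ({a} : Set G) := by
    intro x hx
    rw [mem_centralizer_iff]
    rintro _ rfl
    exact ((mem_centralizer_iff.1 (hE₀Z haE₀).2) x hx).symm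
  have hne : ∀ Q : Subgroup G, ¬ (normalizer ((Q₁ ⊓ Q₂ : Subgroup G) : Set G) ⊓ Q ⊓
      centralizer ({a} : Set G) ≤ Q₁ ⊓ Q₂) → centralizer ({a} : Set G) ⊓ Q ≠ ⊥ := by
    intro Q hU hbot
    apply hU
    intro x hx
    have : x ∈ centralizer ({a} : Set G) ⊓ Q := mem_inf.2 ⟨hx.2, hx.1.2⟩
    rw [hbot, mem_bot] at this
    rw [this]; exact one_mem _
  exact rel_of_overgroup hG hA hqA hQ₁ hQ₂ (centralizer_singleton_ne_top hG ha1) hAH
    (hne Q₁ hU₁) (hne Q₂ hU₂)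

end Cfsg.Agent.S1393
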