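import Cfsg.Statements.S1394
import Cfsg.Agent.Lib.Helper18.Trans
import Mathlib

set_option autoImplicit false
open Cfsg

namespace Cfsg.Agent.S1394

/-- Let G be a minimal simple group of odd order, A a subgroup satisfying the transitivity hypothesis whose centre has rank at least 2, K = O_{π(A)'}(C_G(A)), and q a prime dividing the order of C_G(A) but not that of A. Then any two maximal A-invariant q-subgroups of G are conjugate by an element of K. -/
theorem result {G : Type*} [Group G] [Finite G] (hG : Cfsg.IsMinSimpleOddOrder G)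
    (A : Subgroup G) (hA : Cfsg.TransitivityHypothesis A) (hZ : ¬ Cfsg.RankLE 1 ↥(A ⊓ Subgroup.centralizer (A : Set G)))
    (q : ℕ) (hq : q.Prime) (hqA : ¬ q ∣ Nat.card A) (hqC : q ∣ Nat.card (Subgroup.centralizer (A : Set G))) :
    ∀ Q₁ ∈ Cfsg.maxInvSubgroups ⊤ A {q}, ∀ Q₂ ∈ Cfsg.maxInvSubgroups ⊤ A {q}, ∃ k ∈ Cfsg.piCoreOf (Cfsg.primesNotDvd (Nat.card A)) (Subgroup.centralizer (A : Set G)), Q₂ = Q₁.map (MulAut.conj k).toMonoidHom := by
  open Subgroup Cfsg.Agent.Lib.Helper18.Trans Cfsg.Agent.S1480 in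
  have := Fact.mk hq
  obtain ⟨p, hp, E₀, hE₀Z, hE₀el, hE₀2⟩ := exists_elem_of_not_rankLE hZ
  have := Fact.mk hp
  have hE₀A : E₀ ≤ A := hE₀Z.trans inf_le_left
  have hpA : p ∣ Nat.card A := by
    have h1 : Nat.card E₀ ∣ Nat.card A := card_dvd_of_le hE₀A
    have hpg : IsPGroup p E₀ := fun a => ⟨1, by
      apply Subtype.ext
      simpa using hE₀el.2 a a.2⟩
    obtain ⟨n, hn⟩ := IsPGroup.iff_card.mp hpg
    rw [hn] at hE₀2 h1
    have hn0 : n ≠ 0 := by
      rintro rfl
      have : 1 < p ^ (1 + 1) := Nat.one_lt_pow (by norm_num) hp.one_lt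
      rw [pow_zero] at hE₀2
      omega
    exact (dvd_pow_self p hn0).trans h1
  have hqp : q ≠ p := by rintro rfl; exact hqA hpA
  -- a nontrivial q-subgroup of C(A)
  obtain ⟨S⟩ : Nonempty (Sylow q (centralizer (A : Set G))) := inferInstance
  set X₀ := (S : Subgroup (centralizer (A : Set G))).map (centralizer (A : Set G)).subtype with hX₀
  have hX₀q : IsPGroup q X₀ := S.2.map _
  have hX₀C : X₀ ≤ centralizer (A : Set G) := map_subtype_le _
  have hX₀ne : X₀ ≠ ⊥ := by
    intro h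
    have h1 : Nat.card X₀ = 1 := by rw [h, card_bot]
    rw [hX₀, card_map_of_injective (subtype_injective _)] at h1
    have h2 : (S : Subgroup (centralizer (A : Set G))) = ⊥ := card_eq_one.1 h1
    have h3 := S.not_dvd_index
    rw [h2, index_bot] at h3
    exact h3 hqC
  have hAX₀ : A ≤ normalizer (X₀ : Set G) :=
    (le_centralizer_iff.1 hX₀C).trans (centralizer_le_normalizer _)
  obtain ⟨Qs, hQs, hXQs⟩ := exists_max A q ((inv_iff A q X₀).2 ⟨hX₀q, hAX₀⟩)
  have key : ∀ Q ∈ Cfsg.maxInvSubgroups ⊤ A {q},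
      Rel (Cfsg.piCoreOf (Cfsg.primesNotDvd (Nat.card A)) (centralizer (A : Set G))) Q Qs := by
    intro Q hQ
    obtain ⟨hQq, hEQ⟩ := (inv_iff A q Q).1 hQ.1
    have hQne : ¬ Q ≤ ⊥ := by
      intro h
      have h1 : Q = ⊥ := le_bot_iff.1 h
      have h2 := hQ.2 X₀ ((inv_iff A q X₀).2 ⟨hX₀q, hAX₀⟩) (h1 ▸ bot_le)
      exact hX₀ne (h2.trans h1)
    obtain ⟨B, hBE, hBi, hB⟩ := Cfsg.Agent.S1282.exists_hyperplane p E₀ hE₀el hE₀2 Q ⊥
      (Cfsg.Agent.Lib.Helper9.not_dvd_card_of_isPGroup hp hq hqp hQq) (hE₀A.trans hEQ) hQne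
    have hBne : B ≠ ⊥ := by
      rintro rfl
      rw [relIndex_bot_left] at hBi
      have : p < p ^ (1 + 1) := by
        calc p = p ^ 1 := (pow_one p).symm
          _ < p ^ (1 + 1) := Nat.pow_lt_pow_right hp.one_lt (by norm_num)
      omega
    obtain ⟨a, haB, ha1⟩ := (bot_or_exists_ne_one B).resolve_left hBne
    have haZ := hE₀Z (hBE haB)
    have hAH : A ≤ centralizer ({a} : Set G) := by
      intro x hx
      rw [mem_centralizer_iff]
      rintro _ rfl
      exact ((mem_centralizer_iff.1 haZ.2) x hx).symm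
    have hCB : centralizer (B : Set G) ≤ centralizer ({a} : Set G) := by
      apply centralizer_le
      intro x hx
      rw [Set.mem_singleton_iff.1 hx]; exact haB
    refine rel_of_overgroup hG hA hqA hQ hQs (centralizer_singleton_ne_top hG ha1) hAH ?_ ?_
    · intro hbot
      apply hB
      rw [← hbot]
      exact le_inf (inf_le_right.trans hCB) inf_le_left
    · intro hbot
      apply hX₀ne
      rw [← le_bot_iff, ← hbot]
      refine le_inf ?_ hXQs
      intro x hx
      rw [mem_centralizer_iff]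
      intro y hy
      rw [Set.mem_singleton_iff.1 hy]
      exact (mem_centralizer_iff.1 (hX₀C hx)) a haZ.1
  intro Q₁ hQ₁ Q₂ hQ₂
  exact (key Q₁ hQ₁).trans (key Q₂ hQ₂).symm

end Cfsg.Agent.S1394
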