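import Cfsg.Statements.S1395
import Cfsg.Agent.Lib.Helper18.Trans2
import Mathlib

set_option autoImplicit false
open Cfsg

namespace Cfsg.Agent.S1395

open Subgroup Cfsg.Agent.Lib.Helper18.Trans Cfsg.Agent.S1480 Cfsg.Agent.Lib.Helper9
open scoped commutatorElement

/-- parts (b) and (c) -/
theorem bc {G : Type*} [Group G] [Finite G] (hG : Cfsg.IsMinSimpleOddOrder G)
    (A : Subgroup G) (hA : Cfsg.TransitivityHypothesis A) (q : ℕ) [Fact q.Prime]
    (hqA : ¬ q ∣ Nat.card A)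
    (P : Subgroup G) (hP : P ≠ ⊤) (hPπ : (∀ r : ℕ, r.Prime → r ∣ Nat.card P → r ∣ Nat.card A))
    (hAP : A ≤ P) (hsn : (A.subgroupOf P).IsSubnormal)
    (htr : ∀ Q₁ ∈ Cfsg.maxInvSubgroups ⊤ A {q}, ∀ Q₂ ∈ Cfsg.maxInvSubgroups ⊤ A {q},
      Rel (Cfsg.piCoreOf (Cfsg.primesNotDvd (Nat.card A)) (centralizer (A : Set G))) Q₁ Q₂) :
    (∀ Q₁ ∈ Cfsg.maxInvSubgroups ⊤ P {q}, ∀ Q₂ ∈ Cfsg.maxInvSubgroups ⊤ P {q},
      Rel (Cfsg.piCoreOf (Cfsg.primesNotDvd (Nat.card A)) (centralizer (P : Set G))) Q₁ Q₂) ∧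
    Cfsg.maxInvSubgroups ⊤ P {q} ⊆ Cfsg.maxInvSubgroups ⊤ A {q} := by
  obtain ⟨n, f, hmono, hnorm, hf0, hfn⟩ := hsn.exists_chain
  set F : ℕ → Subgroup G := fun i => (f i).map P.subtype with hF
  have hFP : ∀ i, F i ≤ P := fun i => map_subtype_le _
  have hF0 : F 0 = A := by
    show (f 0).map P.subtype = A
    rw [hf0, map_subgroupOf_eq_of_le hAP]
  have hFn : F n = P := by
    show (f n).map P.subtype = P
    rw [hfn, ← MonoidHom.range_eq_map, range_subtype]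
  have hFmono : Monotone F := fun i j hij => map_mono (hmono hij)
  have hAF : ∀ i, A ≤ F i := fun i => hF0 ▸ hFmono (Nat.zero_le i)
  have hFπ : ∀ i, ∀ r : ℕ, r.Prime → r ∣ Nat.card (F i) → r ∣ Nat.card A := fun i r hr hd =>
    hPπ r hr (hd.trans (card_dvd_of_le (hFP i)))
  have hFtop : ∀ i, F i ≠ ⊤ := fun i h => hP (top_le_iff.1 (h ▸ hFP i))
  have hFnorm : ∀ i, F (i + 1) ≤ normalizer (F i : Set G) := by
    intro i
    have h1 := (normal_subgroupOf_iff_le_normalizer (hmono (Nat.le_succ i))).1 (hnorm i)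
    rw [le_normalizer_iff] at h1 ⊢
    rintro _ ⟨g, hg, rfl⟩ _ ⟨x, hx, rfl⟩
    exact ⟨_, h1 g hg x hx, rfl⟩
  have key : ∀ i, (∀ Q₁ ∈ Cfsg.maxInvSubgroups ⊤ (F i) {q},
      ∀ Q₂ ∈ Cfsg.maxInvSubgroups ⊤ (F i) {q},
      Rel (Cfsg.piCoreOf (Cfsg.primesNotDvd (Nat.card A)) (centralizer (F i : Set G))) Q₁ Q₂) ∧
      Cfsg.maxInvSubgroups ⊤ (F i) {q} ⊆ Cfsg.maxInvSubgroups ⊤ A {q} := by
    intro i
    induction i with
    | zero => rw [hF0]; exact ⟨htr, subset_rfl⟩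
    | succ i ih =>
      have hset := primesNotDvd_eq (hAF i) (hFπ i)
      have hyp := hyp_of_le hA (hAF i) (hFtop i) (hFπ i)
      have h1 := normal_case hG hyp (q := q)
        (fun hd => hqA (hFπ i q Fact.out hd))
        (P := F (i + 1))
        (fun r hr hd => (hFπ (i + 1) r hr hd).trans (card_dvd_of_le (hAF i)))
        (hFmono (Nat.le_succ i)) (hFnorm i) (by rw [hset]; exact ih.1)
      rw [hset] at h1
      exact ⟨h1.1, h1.2.trans ih.2⟩
  have := key n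
  rwa [hFn] at this

theorem comm_decomp {G : Type*} [Group G] (k₁ l₁ k₂ l₂ : G) :
    ⁅k₁ * l₁, k₂ * l₂⁆ = k₁ * (l₁ * k₂ * l₁⁻¹) * ((l₁ * l₂ * l₁⁻¹) * k₁⁻¹ * (l₁ * l₂ * l₁⁻¹)⁻¹) *
      (⁅l₁, l₂⁆ * k₂⁻¹ * ⁅l₁, l₂⁆⁻¹) * ⁅l₁, l₂⁆ := by
  simp only [commutatorElement_def]; group

/-- If `N = K L` with `K` normalized by `N`, `x ∈ L ∩ N'` has order coprime to `|K|`, then
`x ∈ L'`. -/
theorem mem_commutator_of_coprime {G : Type*} [Group G] [Finite G] {N K L : Subgroup G}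
    (hKN : K ≤ N) (hLN : L ≤ N) (hnorm : N ≤ normalizer (K : Set G))
    (hdec : ∀ g ∈ N, ∃ k ∈ K, ∃ l ∈ L, g = k * l) {x : G} (hxL : x ∈ L) (hxN : x ∈ ⁅N, N⁆)
    (hcop : (orderOf x).Coprime (Nat.card K)) : x ∈ ⁅L, L⁆ := by
  have hLL : ⁅L, L⁆ ≤ L := commutator_le_self L
  have hcj : ∀ g ∈ N, ∀ k ∈ K, g * k * g⁻¹ ∈ K := le_normalizer_iff.1 hnorm
  -- `N' ≤ K L'`
  have h1 : ∀ y ∈ ⁅N, N⁆, ∃ k ∈ K, ∃ l ∈ ⁅L, L⁆, y = k * l := by
    have hle : ⁅N, N⁆ ≤ K ⊔ ⁅L, L⁆ := by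
      rw [commutator_le]
      intro g₁ hg₁ g₂ hg₂
      obtain ⟨k₁, hk₁, l₁, hl₁, rfl⟩ := hdec g₁ hg₁
      obtain ⟨k₂, hk₂, l₂, hl₂, rfl⟩ := hdec g₂ hg₂
      rw [comm_decomp]
      have hc : ⁅l₁, l₂⁆ ∈ ⁅L, L⁆ := commutator_mem_commutator hl₁ hl₂
      refine mul_mem (mem_sup_left ?_) (mem_sup_right hc)
      refine mul_mem (mul_mem (mul_mem hk₁ (hcj _ (hLN hl₁) _ hk₂)) (hcj _ ?_ _ (inv_mem hk₁)))
        (hcj _ (hLN (hLL hc)) _ (inv_mem hk₂))
      exact hLN (mul_mem (mul_mem hl₁ hl₂) (inv_mem hl₁))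
    intro y hy
    have h2 := hle hy
    rw [Cfsg.Agent.Lib.Helper9.mem_sup_of_le_normalizer ((hLL.trans hLN).trans hnorm)] at h2
    obtain ⟨k, hk, l, hl, h3⟩ := h2
    exact ⟨k, hk, l, hl, h3.symm⟩
  obtain ⟨k, hk, l, hl, hxkl⟩ := h1 x hxN
  have hmap : (commutator ↥L).map L.subtype = ⁅L, L⁆ := by
    rw [commutator_def, map_commutator, ← MonoidHom.range_eq_map, range_subtype]
  have hkL : k ∈ L := by
    have : k = x * l⁻¹ := by rw [hxkl]; group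
    rw [this]
    exact mul_mem hxL (inv_mem (hLL hl))
  rw [← hmap] at hl
  obtain ⟨l', hl', rfl⟩ := hl
  set φ := Abelianization.of (G := ↥L) with hφ
  have hφl : φ l' = 1 := by
    have : l' ∈ φ.ker := by rw [hφ, Abelianization.ker_of]; exact hl'
    exact this
  have hφx : φ ⟨x, hxL⟩ = φ ⟨k, hkL⟩ := by
    have : (⟨x, hxL⟩ : L) = ⟨k, hkL⟩ * l' := Subtype.ext hxkl
    rw [this, map_mul, hφl, mul_one]
  have e1 : φ ⟨x, hxL⟩ ^ Nat.card K = 1 := by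
    rw [hφx, ← map_pow]
    have : (⟨k, hkL⟩ : L) ^ Nat.card K = 1 := by
      apply Subtype.ext
      have h5 := pow_card_eq_one' (G := K) (x := ⟨k, hk⟩)
      have h6 : k ^ Nat.card K = 1 := congrArg (fun z : K => (z : G)) h5
      exact h6
    rw [this, map_one]
  have e2 : φ ⟨x, hxL⟩ ^ orderOf x = 1 := by
    rw [← map_pow]
    have : (⟨x, hxL⟩ : L) ^ orderOf x = 1 := by
      apply Subtype.ext
      simp [pow_orderOf_eq_one]
    rw [this, map_one]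
  have e3 : φ ⟨x, hxL⟩ = 1 :=
    orderOf_eq_one_iff.1 (Nat.eq_one_of_dvd_coprimes hcop (orderOf_dvd_of_pow_eq_one e2)
      (orderOf_dvd_of_pow_eq_one e1))
  have e4 : (⟨x, hxL⟩ : L) ∈ commutator ↥L := by
    rw [← Abelianization.ker_of]; exact e3
  rw [← hmap]
  exact ⟨_, e4, rfl⟩

/-- Let G be a minimal simple group of odd order, A a subgroup satisfying the transitivity hypothesis with K = O_{π(A)'}(C_G(A)), q a prime not dividing the order of A, and P a proper subgroup all of whose prime divisors divide the order of A, containing A as a subnormal subgroup, such that any two maximal A-invariant q-subgroups are conjugate under K. Then (a) K ∩ C_G(P) = O_{π(A)'}(C_G(P)); (b) any two maximal P-invariant q-subgroups are conjugate under O_{π(A)'}(C_G(P)); (c) every maximal P-invariant q-subgroup is a maximal A-invariant q-subgroup; (d) for every maximal P-invariant q-subgroup Q, P ∩ N_G(P)'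 ≤ N_G(Q)' and N_G(P) is generated by O_{π(A)'}(C_G(P)) and N_G(P) ∩ N_G(Q). -/
theorem result {G : Type*} [Group G] [Finite G] (hG : Cfsg.IsMinSimpleOddOrder G)
    (A : Subgroup G) (hA : Cfsg.TransitivityHypothesis A) (q : ℕ) (hq : q.Prime) (hqA : ¬ q ∣ Nat.card A)
    (P : Subgroup G) (hP : P ≠ ⊤) (hPπ : (∀ r : ℕ, r.Prime → r ∣ Nat.card P → r ∣ Nat.card A)) (hAP : A ≤ P) (hsn : (A.subgroupOf P).IsSubnormal)
    (htr : ∀ Q₁ ∈ Cfsg.maxInvSubgroups ⊤ A {q}, ∀ Q₂ ∈ Cfsg.maxInvSubgroups ⊤ A {q}, ∃ k ∈ Cfsg.piCoreOf (Cfsg.primesNotDvd (Nat.card A)) (Subgroup.centralizer (A : Set G)), Q₂ = Q₁.map (MulAut.conj k).toMonoidHom) :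
    Cfsg.piCoreOf (Cfsg.primesNotDvd (Nat.card A)) (Subgroup.centralizer (A : Set G)) ⊓ Subgroup.centralizer (P : Set G) = Cfsg.piCoreOf (Cfsg.primesNotDvd (Nat.card A)) (Subgroup.centralizer (P : Set G)) ∧
      (∀ Q₁ ∈ Cfsg.maxInvSubgroups ⊤ P {q}, ∀ Q₂ ∈ Cfsg.maxInvSubgroups ⊤ P {q}, ∃ k ∈ Cfsg.piCoreOf (Cfsg.primesNotDvd (Nat.card A)) (Subgroup.centralizer (P : Set G)), Q₂ = Q₁.map (MulAut.conj k).toMonoidHom) ∧
      Cfsg.maxInvSubgroups ⊤ P {q} ⊆ Cfsg.maxInvSubgroups ⊤ A {q} ∧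
      ∀ Q ∈ Cfsg.maxInvSubgroups ⊤ P {q},
        P ⊓ ⁅Subgroup.normalizer (P : Set G), Subgroup.normalizer (P : Set G)⁆ ≤ ⁅Subgroup.normalizer (Q : Set G), Subgroup.normalizer (Q : Set G)⁆ ∧
        Subgroup.normalizer (P : Set G) = Cfsg.piCoreOf (Cfsg.primesNotDvd (Nat.card A)) (Subgroup.centralizer (P : Set G)) ⊔ (Subgroup.normalizer (P : Set G) ⊓ Subgroup.normalizer (Q : Set G)) := by
  have := Fact.mk hq
  set π := Cfsg.primesNotDvd (Nat.card A) with hπ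
  obtain ⟨hb, hc⟩ := bc hG A hA q hqA P hP hPπ hAP hsn htr
  refine ⟨K_inf_centralizer hG hA hAP, hb, hc, ?_⟩
  intro Q hQ
  set KP := Cfsg.piCoreOf π (Subgroup.centralizer (P : Set G)) with hKP
  set N := Subgroup.normalizer (P : Set G) with hN
  set L := N ⊓ Subgroup.normalizer (Q : Set G) with hL
  have hKPN : KP ≤ N := (piCoreOf_le _ _).trans (centralizer_le_normalizer _)
  have hPQ : P ≤ Subgroup.normalizer (Q : Set G) := ((inv_iff P q Q).1 hQ.1).2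
  have hdec : ∀ g ∈ N, ∃ k ∈ KP, ∃ l ∈ L, g = k * l := by
    intro g hg
    obtain ⟨k, hk, hkQ⟩ := hb Q hQ _ (maxInv_cj_normalizer P q hg hQ)
    refine ⟨k, hk, k⁻¹ * g, ?_, by group⟩
    refine mem_inf.2 ⟨mul_mem (inv_mem (hKPN hk)) hg, ?_⟩
    have h1 : Q.map (MulAut.conj (k⁻¹ * g)).toMonoidHom = Q := by
      rw [← cj_cj, hkQ, cj_cj, inv_mul_cancel, cj_one]
    rw [mem_normalizer_iff]
    intro y
    constructor
    · intro hy
      rw [← h1]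
      exact ⟨y, hy, rfl⟩
    · intro hy
      rw [← h1, mem_cj] at hy
      have e : (k⁻¹ * g)⁻¹ * (k⁻¹ * g * y * (k⁻¹ * g)⁻¹) * (k⁻¹ * g) = y := by group
      rwa [e] at hy
  have hyp := hyp_of_le hA hAP hP hPπ
  have hset := primesNotDvd_eq hAP hPπ
  have hnorm : N ≤ Subgroup.normalizer (KP : Set G) := by
    have := normalizer_le_normalizer_K hG hyp
    rwa [hset] at this
  constructor
  · rintro x ⟨hxP, hxN⟩
    have hxL : x ∈ L := mem_inf.2 ⟨le_normalizer hxP, hPQ hxP⟩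
    have hcop : (orderOf x).Coprime (Nat.card KP) := by
      have h1 : orderOf x ∣ Nat.card P := by
        have := orderOf_dvd_natCard (⟨x, hxP⟩ : P)
        rwa [Subgroup.orderOf_mk] at this
      exact Nat.Coprime.coprime_dvd_left h1 (coprime_card_of_pi hPπ (piCoreOf_pi _ _))
    exact commutator_mono inf_le_right inf_le_right
      (mem_commutator_of_coprime hKPN inf_le_left hnorm hdec hxL hxN hcop)
  · apply le_antisymm
    · intro g hg
      obtain ⟨k, hk, l, hl, rfl⟩ := hdec g hg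
      exact mul_mem (mem_sup_left hk) (mem_sup_right hl)
    · exact sup_le hKPN inf_le_left

end Cfsg.Agent.S1395
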