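import Cfsg.Statements.S1481
import Cfsg.Agent.Lib.Helper18.PCentCore
import Cfsg.Agent.Lib.Helper1.Fitting
import Cfsg.Agent.Lib.Helper1.CoprimeSylow
import Cfsg.Agent.Lib.Helper10.Components2
import Cfsg.Agent.Lib.Helper9.SupNorm
import Cfsg.Agent.Lib.Helper9.PGrp
import Cfsg.Agent.S1442
import Cfsg.Agent.Lib.Lead.NormAux
import Mathlib

set_option autoImplicit false
open Cfsg

namespace Cfsg.Agent.S1481

section aux

set_option linter.unusedSectionVars false

open Subgroup Cfsg.Agent.Lib.Helper1 Cfsg.Agent.Lib.Helper18.PCentCore Cfsg.Agent.Lib.Helper18.Trans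

variable {G : Type*} [Group G] [Finite G]

/-- `O_p(H)` inside `G`. -/
def Tp (H : Subgroup G) (p : ℕ) : Subgroup G := (Cfsg.pCore p H).map H.subtype

theorem le_normalizer_map (H : Subgroup G) (N : Subgroup H) (hN : N.Normal) :
    H ≤ normalizer ((N.map H.subtype : Subgroup G) : Set G) := by
  rw [le_normalizer_iff]
  rintro h hh _ ⟨y, hy, rfl⟩
  exact ⟨⟨h, hh⟩ * y * ⟨h, hh⟩⁻¹, hN.conj_mem y hy _, rfl⟩

theorem Tp_le_F (H : Subgroup G) (p : ℕ) [Fact p.Prime] : Tp H p ≤ Cfsg.fittingOf H :=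
  map_mono (le_fitting (Cfsg.pCore_normal p _) (pCore_isPGroup p).isNilpotent)

theorem Tp_isPGroup (H : Subgroup G) (p : ℕ) [Fact p.Prime] : IsPGroup p (Tp H p) :=
  (pCore_isPGroup p).map _

theorem le_normalizer_Tp (H : Subgroup G) (p : ℕ) : H ≤ normalizer (Tp H p : Set G) :=
  le_normalizer_map H _ (Cfsg.pCore_normal p _)

theorem le_normalizer_F (H : Subgroup G) : H ≤ normalizer (Cfsg.fittingOf H : Set G) :=
  le_normalizer_map H _ fitting_normal

theorem F_le (H : Subgroup G) : Cfsg.fittingOf H ≤ H := map_subtype_le _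

theorem F_nil (H : Subgroup G) : Group.IsNilpotent (Cfsg.fittingOf H) := by
  have := fitting_nilpotent (G := H)
  exact Group.nilpotent_of_mulEquiv
    ((Cfsg.fittingSubgroup H).equivMapOfInjective H.subtype H.subtype_injective)

theorem Tp_ne_bot (H : Subgroup G) (p : ℕ) [Fact p.Prime] (hp : p ∣ Nat.card (Cfsg.fittingOf H)) :
    Tp H p ≠ ⊥ := by
  intro hb
  have hb' : Cfsg.pCore p H = ⊥ := (map_eq_bot_iff_of_injective _ H.subtype_injective).1 hb
  have hp' : p ∣ Nat.card (Cfsg.fittingSubgroup H) := by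
    unfold Cfsg.fittingOf at hp
    rwa [card_map_of_injective H.subtype_injective] at hp
  have := fitting_nilpotent (G := H)
  have : (Cfsg.fittingSubgroup H).Normal := fitting_normal
  let P : Sylow p (Cfsg.fittingSubgroup H) := default
  have hn : (P : Subgroup (Cfsg.fittingSubgroup H)).Normal := inferInstance
  have := Sylow.characteristic_of_normal P hn
  have h1 : (P : Subgroup (Cfsg.fittingSubgroup H)).map (Cfsg.fittingSubgroup H).subtype ≤
      Cfsg.pCore p H := le_pCore ConjAct.normal_of_characteristic_of_normal (P.2.map _)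
  rw [hb', le_bot_iff, map_eq_bot_iff_of_injective _ (Subgroup.subtype_injective _)] at h1
  have h2 := P.dvd_card_of_dvd_card hp'
  rw [h1, card_bot] at h2
  exact (Fact.out : p.Prime).one_lt.ne' (Nat.dvd_one.1 h2)

theorem Tp_comm (H : Subgroup G) (p r : ℕ) [Fact p.Prime] [Fact r.Prime] (hpr : p ≠ r) :
    Tp H p ≤ centralizer (Tp H r : Set G) :=
  Cfsg.Agent.Lib.Lead.NormAux.le_centralizer_of_norm _ _
    (((Tp_le_F H r).trans (F_le H)).trans (le_normalizer_Tp H p))
    (((Tp_le_F H p).trans (F_le H)).trans (le_normalizer_Tp H r))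
    (IsPGroup.disjoint_of_ne p r hpr _ _ (Tp_isPGroup H p) (Tp_isPGroup H r)).eq_bot

theorem F_eq_iSup (H : Subgroup G) : Cfsg.fittingOf H = ⨆ p : Nat.Primes, Tp H p := by
  unfold Cfsg.fittingOf Tp
  rw [fitting_eq_iSup_pCore, Subgroup.map_iSup]

/-- the `p`-part of `Z(F(H))`. -/
def Zp (H : Subgroup G) (p : ℕ) : Subgroup G := Tp H p ⊓ centralizer (Cfsg.fittingOf H : Set G)

theorem Zp_ne_bot (H : Subgroup G) (p : ℕ) [Fact p.Prime] (hp : p ∣ Nat.card (Cfsg.fittingOf H)) :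
    Zp H p ≠ ⊥ := by
  have hT := Tp_ne_bot H p hp
  have : Nontrivial (Tp H p) := (nontrivial_iff_ne_bot _).2 hT
  have hc := (Tp_isPGroup H p).center_nontrivial
  obtain ⟨z, hz⟩ := exists_ne (1 : center (Tp H p))
  have hX : Tp H p ⊓ centralizer (Tp H p : Set G) ≤ centralizer (Cfsg.fittingOf H : Set G) := by
    rw [le_centralizer_iff, F_eq_iSup]
    apply iSup_le
    intro r
    have := Fact.mk r.2
    by_cases hr : (r : ℕ) = p
    · rw [hr]
      exact le_centralizer_iff.1 inf_le_right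
    · exact (Tp_comm H r p hr).trans (centralizer_le inf_le_left)
  have hz1 : (z.1.1 : G) ∈ Tp H p ⊓ centralizer (Tp H p : Set G) := by
    refine mem_inf.2 ⟨z.1.2, ?_⟩
    rw [mem_centralizer_iff]
    intro y hy
    exact congrArg Subtype.val (mem_center_iff.1 z.2 ⟨y, hy⟩)
  intro hb
  have h2 : (z.1.1 : G) ∈ Zp H p := mem_inf.2 ⟨z.1.2, hX hz1⟩
  rw [hb, mem_bot] at h2
  exact hz (Subtype.ext (Subtype.ext h2))

theorem normalizer_Zp (H : Subgroup G)
    (hHmax : ∀ L : Subgroup G, Cfsg.IsLocalSubgroup L → H ≤ L → L = H)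
    (p : ℕ) [Fact p.Prime] (hp : p ∣ Nat.card (Cfsg.fittingOf H)) :
    normalizer (Zp H p : Set G) = H := by
  apply hHmax
  · exact ⟨p, Zp H p, Fact.out, (Tp_isPGroup H p).to_le inf_le_left, Zp_ne_bot H p hp, rfl⟩
  · exact Cfsg.Agent.Lib.Helper9.le_normalizer_inf (le_normalizer_Tp H p)
      ((le_normalizer_F H).trans (normalizer_le_normalizer_centralizer _))

theorem cent_le (H : Subgroup G)
    (hHmax : ∀ L : Subgroup G, Cfsg.IsLocalSubgroup L → H ≤ L → L = H)
    (M : Subgroup G) (hM : M ≤ Cfsg.fittingOf H)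
    (hCM : Cfsg.fittingOf H ⊓ centralizer (M : Set G) ≤ M)
    (p : ℕ) [Fact p.Prime] (hp : p ∣ Nat.card (Cfsg.fittingOf H)) :
    centralizer ((M ⊓ Tp H p : Subgroup G) : Set G) ≤ H := by
  have h1 : Zp H p ≤ M ⊓ Tp H p := by
    refine le_inf ?_ inf_le_left
    refine le_trans ?_ hCM
    exact le_inf (inf_le_left.trans (Tp_le_F H p)) (inf_le_right.trans (centralizer_le hM))
  calc centralizer ((M ⊓ Tp H p : Subgroup G) : Set G) ≤ centralizer (Zp H p : Set G) :=
        centralizer_le h1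
    _ ≤ normalizer (Zp H p : Set G) := centralizer_le_normalizer _
    _ = H := normalizer_Zp H hHmax p hp

theorem claimB (H R : Subgroup G) (hR : Group.IsSolvable R)
    (hXR : H ⊓ centralizer (Cfsg.fittingOf H : Set G) ≤ normalizer (R : Set G)) :
    H ⊓ centralizer (Cfsg.fittingOf H : Set G) ⊓ R ≤ Cfsg.fittingOf H := by
  set X := H ⊓ centralizer (Cfsg.fittingOf H : Set G) with hX
  have hXH : X ≤ H := inf_le_left
  have hBn : (X.subgroupOf H).Normal := by
    rw [normal_subgroupOf_iff_le_normalizer hXH]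
    exact Cfsg.Agent.Lib.Helper9.le_normalizer_inf le_normalizer
      ((le_normalizer_F H).trans (normalizer_le_normalizer_centralizer _))
  have hAB : (X ⊓ R).subgroupOf H ≤ X.subgroupOf H := by
    intro a ha
    exact (mem_inf.1 ha).1
  have hAn : (((X ⊓ R).subgroupOf H).subgroupOf (X.subgroupOf H)).Normal := by
    rw [normal_subgroupOf_iff_le_normalizer hAB, le_normalizer_iff]
    intro x hx a ha
    have hx' : x.1 ∈ X := hx
    have ha' : a.1 ∈ X ⊓ R := ha
    show x.1 * a.1 * x.1⁻¹ ∈ X ⊓ R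
    exact mem_inf.2 ⟨mul_mem (mul_mem hx' (mem_inf.1 ha').1) (inv_mem hx'),
      le_normalizer_iff.1 hXR x.1 hx' a.1 (mem_inf.1 ha').2⟩
  have hsn : ((X ⊓ R).subgroupOf H).IsSubnormal := hAn.isSubnormal.trans hAB hBn.isSubnormal
  have h := Cfsg.Agent.Lib.Helper10.solvable_subnormal_le_fitting ((X ⊓ R).subgroupOf H) hsn
    (by
      intro n hn
      have hn' : n.1 ∈ X ⊓ R := hn
      rw [mem_centralizer_iff]
      intro f hf
      exact Subtype.ext (mem_centralizer_iff.1 (mem_inf.1 (mem_inf.1 hn').1).2 f.1 ⟨f, hf, rfl⟩))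
    (isSolvable_subgroupOf _ _ (isSolvable_of_le inf_le_right hR))
  intro y hy
  exact ⟨⟨y, hXH (mem_inf.1 hy).1⟩, h hy, rfl⟩

theorem fpf (H : Subgroup G)
    (hHmax : ∀ L : Subgroup G, Cfsg.IsLocalSubgroup L → H ≤ L → L = H)
    (M : Subgroup G) (hM : M ≤ Cfsg.fittingOf H)
    (hCM : Cfsg.fittingOf H ⊓ centralizer (M : Set G) ≤ M)
    (R : Subgroup G) (hR : Group.IsSolvable R)
    (hXR : H ⊓ centralizer (Cfsg.fittingOf H : Set G) ≤ normalizer (R : Set G))
    (p : ℕ) [Fact p.Prime] (hp : p ∣ Nat.card (Cfsg.fittingOf H))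
    (Y : Subgroup G) (hYR : Y ≤ R) (hMY : M ≤ normalizer (Y : Set G))
    (hcop : (Nat.card Y).Coprime (Nat.card (Cfsg.fittingOf H))) :
    Y ⊓ centralizer ((M ⊓ Tp H p : Subgroup G) : Set G) = ⊥ := by
  set F := Cfsg.fittingOf H with hF
  set D := Y ⊓ centralizer ((M ⊓ Tp H p : Subgroup G) : Set G) with hD
  have hDH : D ≤ H := inf_le_right.trans (cent_le H hHmax M hM hCM p hp)
  have hMH : M ≤ H := hM.trans (F_le H)
  have hMD : M ≤ normalizer (D : Set G) :=
    Cfsg.Agent.Lib.Helper9.le_normalizer_inf hMY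
      ((Cfsg.Agent.Lib.Helper9.le_normalizer_inf le_normalizer
        (hMH.trans (le_normalizer_Tp H p))).trans (normalizer_le_normalizer_centralizer _))
  have hDcop : (Nat.card D).Coprime (Nat.card F) :=
    Nat.Coprime.coprime_dvd_left (card_dvd_of_le inf_le_left) hcop
  have hDF : D ⊓ F = ⊥ := (disjoint_of_coprime_natCard hDcop).eq_bot
  have hDNF : D ≤ normalizer (F : Set G) := hDH.trans (le_normalizer_F H)
  have hDM : D ≤ centralizer (M : Set G) := by
    intro d hd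
    rw [mem_centralizer_iff]
    intro m hm
    have e1 : d * m * d⁻¹ * m⁻¹ ∈ F :=
      mul_mem (le_normalizer_iff.1 hDNF d hd m (hM hm)) (inv_mem (hM hm))
    have e2 : d * m * d⁻¹ * m⁻¹ ∈ D := by
      have : d * m * d⁻¹ * m⁻¹ = d * (m * d⁻¹ * m⁻¹) := by group
      rw [this]
      exact mul_mem hd (le_normalizer_iff.1 hMD m hm d⁻¹ (inv_mem hd))
    have e3 : d * m * d⁻¹ * m⁻¹ ∈ D ⊓ F := mem_inf.2 ⟨e2, e1⟩
    rw [hDF, mem_bot] at e3
    calc m * d = (d * m * d⁻¹ * m⁻¹)⁻¹ * (d * m) := by group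
      _ = d * m := by rw [e3]; simp
  have hMle : M ≤ F ⊓ centralizer (D : Set G) := le_inf hM (le_centralizer_iff.1 hDM)
  have hDCF : D ≤ centralizer (F : Set G) :=
    Cfsg.Agent.S1442.result F D (F_nil H) hDNF hDcop
      ((le_inf inf_le_left (inf_le_right.trans (centralizer_le hMle))).trans (hCM.trans hMle))
  have h1 : D ≤ F := by
    refine le_trans ?_ (claimB H R hR hXR)
    exact le_inf (le_inf hDH hDCF) (inf_le_left.trans hYR)
  rw [← le_bot_iff, ← hDF]
  exact le_inf le_rfl h1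

theorem Mr_le (H : Subgroup G)
    (hHmax : ∀ L : Subgroup G, Cfsg.IsLocalSubgroup L → H ≤ L → L = H)
    (M : Subgroup G) (hM : M ≤ Cfsg.fittingOf H)
    (hCM : Cfsg.fittingOf H ⊓ centralizer (M : Set G) ≤ M)
    (R : Subgroup G) (hR : Group.IsSolvable R) (hMR : M ≤ normalizer (R : Set G))
    (p r : ℕ) [Fact p.Prime] [Fact r.Prime] (hp : p ∣ Nat.card (Cfsg.fittingOf H)) (hpr : p ≠ r) :
    M ⊓ Tp H r ≤ (Cfsg.pPrimeCore p ↥(R ⊔ M)).map (R ⊔ M).subtype := by
  set Y := R ⊔ M with hY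
  have hMnil : Group.IsNilpotent M := by
    have := F_nil H
    exact Group.nilpotent_of_mulEquiv (subgroupOfEquivOfLe hM)
  have hYs : Group.IsSolvable Y := Cfsg.Agent.Lib.Helper9.sup_solvable hMR hR inferInstance
  set E := Y ⊓ centralizer ((M ⊓ Tp H p : Subgroup G) : Set G) with hE
  have hEH : E ≤ H := inf_le_right.trans (cent_le H hHmax M hM hCM p hp)
  have h := le_pPrimeCoreOf p Y hYs (M ⊓ Tp H p) (inf_le_left.trans le_sup_right)
    ((Tp_isPGroup H p).to_le inf_le_right) (Tp H r ⊓ E) (inf_le_right.trans inf_le_left)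
    (inf_le_right.trans inf_le_right)
    (by
      obtain ⟨n, hn⟩ := IsPGroup.iff_card.1 ((Tp_isPGroup H r).to_le
        (inf_le_left : Tp H r ⊓ E ≤ Tp H r))
      rw [hn]
      exact Nat.Coprime.pow_left n ((Nat.coprime_primes Fact.out Fact.out).2 hpr.symm))
    (Cfsg.Agent.Lib.Helper9.le_normalizer_inf (hEH.trans (le_normalizer_Tp H r)) le_normalizer)
  refine le_trans ?_ h
  refine le_inf inf_le_right (le_inf (inf_le_left.trans le_sup_right) ?_)
  exact (inf_le_right.trans (Tp_comm H r p hpr.symm)).trans (centralizer_le inf_le_right)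

theorem Q_le_Np (H : Subgroup G)
    (hHmax : ∀ L : Subgroup G, Cfsg.IsLocalSubgroup L → H ≤ L → L = H)
    (hF2 : 2 ≤ (Nat.card (Cfsg.fittingOf H)).primeFactors.card)
    (M : Subgroup G) (hM : M ≤ Cfsg.fittingOf H)
    (hCM : Cfsg.fittingOf H ⊓ centralizer (M : Set G) ≤ M)
    (R : Subgroup G) (hR : Group.IsSolvable R) (hMR : M ≤ normalizer (R : Set G))
    (hXR : H ⊓ centralizer (Cfsg.fittingOf H : Set G) ≤ normalizer (R : Set G))
    (p : ℕ) [Fact p.Prime] (hp : p ∣ Nat.card (Cfsg.fittingOf H))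
    (Q : Subgroup G) (hQR : Q ≤ R) (hMQ : M ≤ normalizer (Q : Set G))
    (hcop : (Nat.card Q).Coprime (Nat.card (Cfsg.fittingOf H))) :
    Q ≤ (Cfsg.pPrimeCore p ↥(R ⊔ M)).map (R ⊔ M).subtype := by
  obtain ⟨r, hr, hrp⟩ : ∃ r ∈ (Nat.card (Cfsg.fittingOf H)).primeFactors, r ≠ p := by
    by_contra hcon
    push Not at hcon
    have : (Nat.card (Cfsg.fittingOf H)).primeFactors ⊆ {p} := by
      intro x hx
      rw [Finset.mem_singleton]
      exact hcon x hx
    have := Finset.card_le_card this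
    simp at this
    omega
  have := Fact.mk (Nat.prime_of_mem_primeFactors hr)
  have hrd : r ∣ Nat.card (Cfsg.fittingOf H) := Nat.dvd_of_mem_primeFactors hr
  set A := M ⊓ Tp H r with hA
  have hAQ : A ≤ normalizer (Q : Set G) := inf_le_left.trans hMQ
  have h1 := coprime_factor A Q hAQ
    (Nat.Coprime.coprime_dvd_left (card_dvd_of_le (inf_le_left.trans hM)) hcop.symm)
    (Or.inl (isSolvable_of_isPGroup ((Tp_isPGroup H r).to_le inf_le_right)))
  rw [fpf H hHmax M hM hCM R hR hXR r hrd Q hQR hMQ hcop, sup_bot_eq] at h1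
  rw [← h1]
  set Np := (Cfsg.pPrimeCore p ↥(R ⊔ M)).map (R ⊔ M).subtype with hNp
  have hAN : A ≤ Np := Mr_le H hHmax M hM hCM R hR hMR p r hp hrp.symm
  have hYN : R ⊔ M ≤ normalizer (Np : Set G) := le_normalizer_map _ _ (Cfsg.pPrimeCore_normal p _)
  rw [commutator_le]
  intro x hx a ha
  rw [commutatorElement_def]
  have : x * a * x⁻¹ * a⁻¹ = (x * a * x⁻¹) * a⁻¹ := by group
  rw [this]
  exact mul_mem (le_normalizer_iff.1 hYN x (le_sup_left (a := R) (hQR hx)) a (hAN ha))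
    (inv_mem (hAN ha))

theorem Q_le_K (H : Subgroup G)
    (hHmax : ∀ L : Subgroup G, Cfsg.IsLocalSubgroup L → H ≤ L → L = H)
    (hF2 : 2 ≤ (Nat.card (Cfsg.fittingOf H)).primeFactors.card)
    (M : Subgroup G) (hM : M ≤ Cfsg.fittingOf H)
    (hCM : Cfsg.fittingOf H ⊓ centralizer (M : Set G) ≤ M)
    (R : Subgroup G) (hR : Group.IsSolvable R) (hMR : M ≤ normalizer (R : Set G))
    (hXR : H ⊓ centralizer (Cfsg.fittingOf H : Set G) ≤ normalizer (R : Set G))
    (Q : Subgroup G) (hQR : Q ≤ R) (hMQ : M ≤ normalizer (Q : Set G))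
    (hcop : (Nat.card Q).Coprime (Nat.card (Cfsg.fittingOf H))) :
    Q ≤ Cfsg.piCoreOf (Cfsg.primesNotDvd (Nat.card (Cfsg.fittingOf H))) R := by
  set W : Subgroup G := R ⊓ ⨅ p : {p : ℕ // p.Prime ∧ p ∣ Nat.card (Cfsg.fittingOf H)},
    (Cfsg.pPrimeCore p.1 ↥(R ⊔ M)).map (R ⊔ M).subtype with hW
  have hQW : Q ≤ W := by
    refine le_inf hQR (le_iInf ?_)
    rintro ⟨p, hp, hpd⟩
    have := Fact.mk hp
    exact Q_le_Np H hHmax hF2 M hM hCM R hR hMR hXR p hpd Q hQR hMQ hcop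
  refine hQW.trans (le_piCoreOf _ inf_le_left ?_ ?_)
  · apply Cfsg.Agent.Lib.Helper9.le_normalizer_inf le_normalizer
    rw [le_normalizer_iff]
    intro x hx y hy
    rw [mem_iInf] at hy ⊢
    intro p
    exact le_normalizer_iff.1 (le_normalizer_map _ _ (Cfsg.pPrimeCore_normal p.1 _)) x
      (le_sup_left (a := R) hx) y (hy p)
  · intro r hr hrd
    refine ⟨hr, fun hrF => ?_⟩
    have h1 : W ≤ (Cfsg.pPrimeCore r ↥(R ⊔ M)).map (R ⊔ M).subtype :=
      inf_le_right.trans (iInf_le _ (⟨r, hr, hrF⟩ :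
        {p : ℕ // p.Prime ∧ p ∣ Nat.card (Cfsg.fittingOf H)}))
    have h2 := hrd.trans (card_dvd_of_le h1)
    rw [card_map_of_injective (Subgroup.subtype_injective _)] at h2
    have h3 := pPrimeCore_coprime (G := ↥(R ⊔ M)) r
    exact hr.one_lt.ne' (Nat.dvd_one.1 (h3 ▸ Nat.dvd_gcd h2 dvd_rfl))

end aux

/-- Let G be a finite group and H a local subgroup (the normalizer of a nontrivial subgroup of prime-power order) not properly contained in any local subgroup; let F = F(H), suppose at least two primes divide #F, put X = H ∩ C_G(F), let M ≤ F with F ∩ C_G(M) ≤ M, and let R be a solvable subgroup normalized by M and by X. Then for every prime q not dividing #F there is exactly one maximal M-invariant q-subgroup of R, and it is a Sylow q-subgroup of the largest normal subgroup of R of order coprime to #F. -/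
theorem result {G : Type*} [Group G] [Finite G] (H : Subgroup G) (hH : Cfsg.IsLocalSubgroup H) (hHmax : ∀ L : Subgroup G, Cfsg.IsLocalSubgroup L → H ≤ L → L = H)
    (hF2 : 2 ≤ (Nat.card (Cfsg.fittingOf H)).primeFactors.card)
    (M : Subgroup G) (hM : M ≤ Cfsg.fittingOf H) (hCM : Cfsg.fittingOf H ⊓ Subgroup.centralizer (M : Set G) ≤ M)
    (R : Subgroup G) (hR : Group.IsSolvable R) (hMR : M ≤ Subgroup.normalizer (R : Set G))
    (hXR : H ⊓ Subgroup.centralizer (Cfsg.fittingOf H : Set G) ≤ Subgroup.normalizer (R : Set G))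
    (q : ℕ) [Fact q.Prime] (hq : ¬ q ∣ Nat.card (Cfsg.fittingOf H)) :
    ∃! Q : Subgroup G, Q ∈ Cfsg.maxInvSubgroups R M {q} ∧
      (∀ Q' : Subgroup G, Q' ∈ Cfsg.maxInvSubgroups R M {q} →
        Q' ≤ Cfsg.piCoreOf (Cfsg.primesNotDvd (Nat.card (Cfsg.fittingOf H))) R ∧
        ¬ q ∣ Q'.relIndex (Cfsg.piCoreOf (Cfsg.primesNotDvd (Nat.card (Cfsg.fittingOf H))) R)) := by
  open Subgroup Cfsg.Agent.Lib.Helper1 Cfsg.Agent.Lib.Helper18.PCentCore
    Cfsg.Agent.Lib.Helper18.Trans in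
  have hqq : q.Prime := Fact.out
  set F := Cfsg.fittingOf H with hF
  set π' := Cfsg.primesNotDvd (Nat.card F) with hπ'
  set K := Cfsg.piCoreOf π' R with hK
  have hKR : K ≤ R := piCoreOf_le _ _
  have hMK : M ≤ normalizer (K : Set G) := hMR.trans (normalizer_le_normalizer_piCoreOf _ _)
  have hKcop : (Nat.card K).Coprime (Nat.card F) := (coprime_of_pi (piCoreOf_pi π' R)).symm
  have hMKcop : (Nat.card M).Coprime (Nat.card K) :=
    Nat.Coprime.coprime_dvd_left (card_dvd_of_le hM) hKcop.symm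
  have hMnil : Group.IsNilpotent M := by
    have := F_nil H
    exact Group.nilpotent_of_mulEquiv (subgroupOfEquivOfLe hM)
  have hMsol : Group.IsSolvable M := inferInstance
  -- a prime dividing `#F`
  obtain ⟨p, hp⟩ : ∃ p, p ∈ (Nat.card F).primeFactors := by
    apply Finset.card_pos.1
    omega
  have := Fact.mk (Nat.prime_of_mem_primeFactors hp)
  have hpd : p ∣ Nat.card F := Nat.dvd_of_mem_primeFactors hp
  have hCK : K ⊓ centralizer (M : Set G) = ⊥ := by
    rw [← le_bot_iff, ← fpf H hHmax M hM hCM R hR hXR p hpd K hKR hMK hKcop]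
    exact le_inf inf_le_left (inf_le_right.trans (centralizer_le inf_le_left))
  obtain ⟨⟨P, hP⟩, hconj⟩ := invariant_sylow M K hMK hMKcop (Or.inl hMsol) q
  set Q₀ := (P : Subgroup K).map K.subtype with hQ₀
  have hpg : ∀ Y : Subgroup G, (∀ r : ℕ, r.Prime → r ∣ Nat.card Y → r ∈ ({q} : Set ℕ)) →
      IsPGroup q Y := by
    intro Y hY
    refine IsPGroup.of_card (n := (Nat.card Y).primeFactorsList.length) ?_
    exact Nat.eq_prime_pow_of_unique_prime_dvd Nat.card_pos.ne' (fun {r} hr hrd => hY r hr hrd)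
  have hle : ∀ Y ∈ Cfsg.invSubgroups R M {q}, Y ≤ Q₀ := by
    rintro Y ⟨hYR, hYq, hMY⟩
    have hYp : IsPGroup q Y := hpg Y hYq
    have hYcop : (Nat.card Y).Coprime (Nat.card F) := by
      obtain ⟨n, hn⟩ := IsPGroup.iff_card.1 hYp
      rw [hn]
      exact Nat.Coprime.pow_left n ((Nat.Prime.coprime_iff_not_dvd hqq).2 hq)
    have hYK : Y ≤ K := Q_le_K H hHmax hF2 M hM hCM R hR hMR hXR Y hYR hMY hYcop
    obtain ⟨P', hYP', hMP'⟩ := invariant_sylow_ge M K hMK hMKcop (Or.inl hMsol) q _ Y rfl hYK hYp hMY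
    obtain ⟨c, hc, hcP⟩ := hconj P' P hMP' hP
    have hc1 : (c : G) ∈ K ⊓ centralizer (M : Set G) := mem_inf.2 ⟨c.2, hc⟩
    rw [hCK, mem_bot] at hc1
    have hc2 : c = 1 := Subtype.ext hc1
    rw [hc2, map_one, one_smul] at hcP
    rw [hQ₀, ← hcP]
    exact hYP'
  have hQ₀inv : Q₀ ∈ Cfsg.invSubgroups R M {q} := by
    refine ⟨(map_subtype_le _).trans hKR, ?_, hP⟩
    intro r hr hrd
    obtain ⟨n, hn⟩ := IsPGroup.iff_card.1 (P.2.map K.subtype)
    rw [hn] at hrd
    exact (Nat.prime_dvd_prime_iff_eq hr hqq).1 (hr.dvd_of_dvd_pow hrd)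
  have hQ₀max : Q₀ ∈ Cfsg.maxInvSubgroups R M {q} :=
    ⟨hQ₀inv, fun Y hY hQY => le_antisymm (hle Y hY) hQY⟩
  have huniq : ∀ Y ∈ Cfsg.maxInvSubgroups R M {q}, Y = Q₀ :=
    fun Y hY => (hY.2 Q₀ hQ₀inv (hle Y hY.1)).symm
  refine ⟨Q₀, ⟨hQ₀max, ?_⟩, fun Y hY => huniq Y hY.1⟩
  intro Y hY
  rw [huniq Y hY]
  refine ⟨map_subtype_le _, ?_⟩
  have h1 : Q₀.relIndex K = (P : Subgroup K).index := by
    unfold relIndex subgroupOf
    rw [hQ₀, comap_map_eq_self_of_injective K.subtype_injective]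
  rw [h1]
  exact P.not_dvd_index

end Cfsg.Agent.S1481
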