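import Cfsg.Statements.S1696
import Cfsg.Agent.Lib.Helper19.OrdFi22.Main
import Cfsg.Agent.Lib.Helper19.OrdFi22.Z
import Cfsg.Agent.Lib.Helper19.OrdFi22.NX

set_option autoImplicit false
set_option maxRecDepth 1000000
open Cfsg

namespace Cfsg.Agent.S1696

open Cfsg.Agent.Lib.Helper19.TCS (evn evn_rot evn_rev evn_pair AllS forall_of_allS lift_rels mk_eq_lift cox_swap shapeI prod_rep index_of_equiv orbit_ncard orbit_image ncard_interval fix_of_closure RC)
open Cfsg.Agent.Lib.Helper19.TC2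
open Cfsg.Spor Cfsg.Agent.Lib.Helper19.PresFi22
open Cfsg.Spor.Fi22
open Cfsg.Agent.Lib.Helper19 Cfsg.Agent.Lib.Helper19.OrdFi22

theorem faith : ∀ x : Cfsg.Spor.Fi22, Fi22c.ψ x = 1 → x = 1 :=
  faithful_of_two' Fi22c.ψ Fi22b.ψ Fi22b.z Fi22b.HH Fi22b.hfix CY.trans CY.coatom (fun x hX hY => joint x hX hY)
    ⟨1, by decide⟩ ⟨0, by decide⟩ (trans2 _ _ CX.trans _ _) (by rw [HH_eq]; exact NX.nontrans)

theorem hlt : ∀ k < 9, ∀ i < Fi22c.cB.N, fB Fi22c.cB k i < Fi22c.cB.N := fB_lt Fi22c.hOK gen num_gen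

theorem hA : ∀ i < Fi22c.cB.N, app Fi22c.cB [0] i = Z.fT i := Z.tA

theorem cm0 : evn el [0] * evn el [0] = evn el [0] * evn el [0] :=
  (evn_append el _ _).symm.trans ((eq_of_app (L := 9) Fi22c.ψ Fi22c.hψ faith _ _ (by decide) (by decide)
    (comm_tableW Z.fT [0] [0] hA (app_lt _ (fun k hk => hlt k (by revert k; decide))) (loop_beq2 Z.tB0))).trans
      (evn_append el _ _))

theorem cm1 : evn el [2] * evn el [0] = evn el [0] * evn el [2] :=
  (evn_append el _ _).symm.trans ((eq_of_app (L := 9) Fi22c.ψ Fi22c.hψ faith _ _ (by decide) (by decide)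
    (comm_tableW Z.fT [0] [2] hA (app_lt _ (fun k hk => hlt k (by revert k; decide))) (loop_beq2 Z.tB1))).trans
      (evn_append el _ _))

theorem cm2 : evn el [3] * evn el [0] = evn el [0] * evn el [3] :=
  (evn_append el _ _).symm.trans ((eq_of_app (L := 9) Fi22c.ψ Fi22c.hψ faith _ _ (by decide) (by decide)
    (comm_tableW Z.fT [0] [3] hA (app_lt _ (fun k hk => hlt k (by revert k; decide))) (loop_beq2 Z.tB2))).trans
      (evn_append el _ _))

theorem cm3 : evn el [4] * evn el [0] = evn el [0] * evn el [4] :=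
  (evn_append el _ _).symm.trans ((eq_of_app (L := 9) Fi22c.ψ Fi22c.hψ faith _ _ (by decide) (by decide)
    (comm_tableW Z.fT [0] [4] hA (app_lt _ (fun k hk => hlt k (by revert k; decide))) (loop_beq2 Z.tB3))).trans
      (evn_append el _ _))

theorem cm4 : evn el [5] * evn el [0] = evn el [0] * evn el [5] :=
  (evn_append el _ _).symm.trans ((eq_of_app (L := 9) Fi22c.ψ Fi22c.hψ faith _ _ (by decide) (by decide)
    (comm_tableW Z.fT [0] [5] hA (app_lt _ (fun k hk => hlt k (by revert k; decide))) (loop_beq2 Z.tB4))).trans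
      (evn_append el _ _))

theorem cm5 : evn el [6] * evn el [0] = evn el [0] * evn el [6] :=
  (evn_append el _ _).symm.trans ((eq_of_app (L := 9) Fi22c.ψ Fi22c.hψ faith _ _ (by decide) (by decide)
    (comm_tableW Z.fT [0] [6] hA (app_lt _ (fun k hk => hlt k (by revert k; decide))) (loop_beq2 Z.tB5))).trans
      (evn_append el _ _))

theorem cm6 : evn el [7] * evn el [0] = evn el [0] * evn el [7] :=
  (evn_append el _ _).symm.trans ((eq_of_app (L := 9) Fi22c.ψ Fi22c.hψ faith _ _ (by decide) (by decide)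
    (comm_tableW Z.fT [0] [7] hA (app_lt _ (fun k hk => hlt k (by revert k; decide))) (loop_beq2 Z.tB6))).trans
      (evn_append el _ _))

theorem cm7 : evn el [8] * evn el [0] = evn el [0] * evn el [8] :=
  (evn_append el _ _).symm.trans ((eq_of_app (L := 9) Fi22c.ψ Fi22c.hψ faith _ _ (by decide) (by decide)
    (comm_tableW Z.fT [0] [8] hA (app_lt _ (fun k hk => hlt k (by revert k; decide))) (loop_beq2 Z.tB7))).trans
      (evn_append el _ _))

theorem cm8 : evn el [0, 1, 2, 3, 4, 7, 0, 1, 2, 3, 4, 7, 0, 1, 2, 3, 4, 7, 0, 1, 2, 3, 4, 7, 0, 1, 2, 3, 4, 7] * evn el [0] = evn el [0] * evn el [0, 1, 2, 3, 4, 7, 0, 1, 2, 3, 4, 7, 0, 1, 2, 3, 4, 7, 0, 1, 2, 3, 4, 7, 0, 1, 2, 3, 4, 7] :=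
  (evn_append el _ _).symm.trans ((eq_of_app (L := 9) Fi22c.ψ Fi22c.hψ faith _ _ (by decide) (by decide)
    (comm_tableW Z.fT [0] [0, 1, 2, 3, 4, 7, 0, 1, 2, 3, 4, 7, 0, 1, 2, 3, 4, 7, 0, 1, 2, 3, 4, 7, 0, 1, 2, 3, 4, 7] hA (app_lt _ (fun k hk => hlt k (by revert k; decide))) (loop_beq2 Z.tB8))).trans
      (evn_append el _ _))

theorem cmAll : ∀ w ∈ Fi22c.sgw, evn el w * evn el [0] = evn el [0] * evn el w :=
  forall_of_allS (l := Fi22c.sgw) ⟨cm0, cm1, cm2, cm3, cm4, cm5, cm6, cm7, cm8, trivial⟩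

theorem hAn : ∀ h ∈ Fi22c.HH, ∀ a ∈ Subgroup.zpowers (evn el [0]), h * a * h⁻¹ ∈ Subgroup.zpowers (evn el [0]) := by
  rw [Fi22c.hH]
  apply normalizes_of_comm
  intro s hs
  obtain ⟨w, hw, rfl⟩ := Fi22c.h1 s hs
  exact cmAll w hw

theorem hC : ∀ i < Fi22c.cB.N, Z.fT (app Fi22c.cB [] i) = app Fi22c.cB ([] ++ [0]) i := loop_beq2 Z.tC

theorem hconj : evn el [0] * evn el [] = evn el [] * el 0 := by
  have h := (evn_append el _ _).symm.trans ((eq_of_app (L := 9) Fi22c.ψ Fi22c.hψ faith ([0] ++ []) ([] ++ [0]) (by decide) (by decide)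
    (conj_tableW Z.fT [0] [] _ hA (app_lt _ (fun k hk => hlt k (by revert k; decide))) hC)).trans
      (evn_append el _ _))
  rwa [evn_single] at h

theorem hcox (x y : ℕ) : (el x * el y) ^ coxLabel edges (gen x) (gen y) = 1 :=
  TCS.of_cox edges extra (node _) (node _)

theorem hgenN (N : Subgroup Cfsg.Spor.Fi22) [N.Normal] (h : el 0 ∈ N) : N = ⊤ := by
  have n0 := h
  have n1 : el 1 ∈ N := mem_normal_of_odd N (el_sq 1) 1 (hcox 0 1) n0
  have n2 : el 2 ∈ N := mem_normal_of_odd N (el_sq 2) 1 (hcox 1 2) n1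
  have n3 : el 3 ∈ N := mem_normal_of_odd N (el_sq 3) 1 (hcox 2 3) n2
  have n4 : el 4 ∈ N := mem_normal_of_odd N (el_sq 4) 1 (hcox 3 4) n3
  have n7 : el 7 ∈ N := mem_normal_of_odd N (el_sq 7) 1 (hcox 3 7) n3
  have n5 : el 5 ∈ N := mem_normal_of_odd N (el_sq 5) 1 (hcox 4 5) n4
  have n8 : el 8 ∈ N := mem_normal_of_odd N (el_sq 8) 1 (hcox 7 8) n7
  have n6 : el 6 ∈ N := mem_normal_of_odd N (el_sq 6) 1 (hcox 5 6) n5
  apply top_of_gens N _ (PresentedGroup.closure_range_of _)
  rintro _ ⟨x, rfl⟩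
  cases x
  · exact n0
  · exact n1
  · exact n2
  · exact n3
  · exact n4
  · exact n5
  · exact n6
  · exact n7
  · exact n8

theorem hgen : Subgroup.normalClosure (Subgroup.zpowers (evn el [0]) : Set Cfsg.Spor.Fi22) = ⊤ := by
  apply hgenN
  exact mem_of_conj _ (Subgroup.subset_normalClosure (Subgroup.mem_zpowers _)) hconj

theorem hperf : commutator Cfsg.Spor.Fi22 = ⊤ := by
  have sq : ∀ k, Abelianization.of (el k) * Abelianization.of (el k) = 1 := fun k => by
    rw [← map_mul, el_sq, map_one]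
  have e0 : Abelianization.of (el 0) = Abelianization.of (el 0) := rfl
  have e1 : Abelianization.of (el 1) = Abelianization.of (el 0) :=
    (ab_eq_of_odd (sq 1) (sq 0) 1 (by rw [← map_mul, ← map_pow]; exact (congrArg _ (hcox 1 0)).trans (map_one _))).trans e0
  have e2 : Abelianization.of (el 2) = Abelianization.of (el 0) :=
    (ab_eq_of_odd (sq 2) (sq 1) 1 (by rw [← map_mul, ← map_pow]; exact (congrArg _ (hcox 2 1)).trans (map_one _))).trans e1
  have e3 : Abelianization.of (el 3) = Abelianization.of (el 0) :=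
    (ab_eq_of_odd (sq 3) (sq 2) 1 (by rw [← map_mul, ← map_pow]; exact (congrArg _ (hcox 3 2)).trans (map_one _))).trans e2
  have e4 : Abelianization.of (el 4) = Abelianization.of (el 0) :=
    (ab_eq_of_odd (sq 4) (sq 3) 1 (by rw [← map_mul, ← map_pow]; exact (congrArg _ (hcox 4 3)).trans (map_one _))).trans e3
  have e7 : Abelianization.of (el 7) = Abelianization.of (el 0) :=
    (ab_eq_of_odd (sq 7) (sq 3) 1 (by rw [← map_mul, ← map_pow]; exact (congrArg _ (hcox 7 3)).trans (map_one _))).trans e3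
  have e5 : Abelianization.of (el 5) = Abelianization.of (el 0) :=
    (ab_eq_of_odd (sq 5) (sq 4) 1 (by rw [← map_mul, ← map_pow]; exact (congrArg _ (hcox 5 4)).trans (map_one _))).trans e4
  have e8 : Abelianization.of (el 8) = Abelianization.of (el 0) :=
    (ab_eq_of_odd (sq 8) (sq 7) 1 (by rw [← map_mul, ← map_pow]; exact (congrArg _ (hcox 8 7)).trans (map_one _))).trans e7
  have e6 : Abelianization.of (el 6) = Abelianization.of (el 0) :=
    (ab_eq_of_odd (sq 6) (sq 5) 1 (by rw [← map_mul, ← map_pow]; exact (congrArg _ (hcox 6 5)).trans (map_one _))).trans e5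
  have all : ∀ k < 9, Abelianization.of (el k) = Abelianization.of (el 0) := by
    intro k hk
    interval_cases k
    · exact e0
    · exact e1
    · exact e2
    · exact e3
    · exact e4
    · exact e5
    · exact e6
    · exact e7
    · exact e8
  have h1 : Abelianization.of (el 0) = 1 := by
    have h2 := congrArg Abelianization.of xg1_one
    rw [evn_hom, map_one, evn_const _ (Abelianization.of (el 0)) _
      (fun k hk => all k (by revert k; decide))] at h2
    exact one_of_odd_pow (sq 0) 31 h2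
  apply perfect_of_gens _ (PresentedGroup.closure_range_of _)
  rintro _ ⟨x, rfl⟩
  have := all (num x) (num_lt x)
  rw [h1] at this
  simpa [el, gen_num] using this

theorem simple : IsSimpleGroup Cfsg.Spor.Fi22 :=
  haveI := nontrivial_of_card card_eq (by decide)
  simple_of_iwasawa Fi22c.ψ Fi22c.z faith CX.trans Fi22c.HH (Subgroup.zpowers (evn el [0])) Fi22c.hfix CX.coatom
    inferInstance hAn hgen hperf

/-- The presented Fischer group Fi22 is simple of the expected order (that is, it is a simple group of the order of the Fischer group Fi₂₂). -/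
theorem result : Cfsg.IsFi22 Cfsg.Spor.Fi22 := by
  exact ⟨simple, card_eq⟩

end Cfsg.Agent.S1696
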