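import Cfsg.Statements.S1784
import Cfsg.Agent.Lib.Helper10.Components

set_option autoImplicit false
open Cfsg

namespace Cfsg.Agent.S1784


variable {G : Type*} [Group G]

/-- commutator pairing -/
def bb (u v : G) : G := u * v * u⁻¹ * v⁻¹

structure Dat (Q : Subgroup G) (z : G) : Prop where
  z_ne : z ≠ 1
  z_sq : z * z = 1
  z_mem : z ∈ Q
  cen : ∀ x ∈ Q, x * z = z * x
  comm : ∀ x ∈ Q, ∀ y ∈ Q, bb x y = 1 ∨ bb x y = z
  cq : ∀ c ∈ Q, (∀ x ∈ Q, bb c x = 1) → c = 1 ∨ c = z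

structure Act (Q : Subgroup G) (z α : G) : Prop where
  sq : α * α = 1
  cz : α * z = z * α
  nrm : ∀ q ∈ Q, α * q * α⁻¹ ∈ Q
  nc : ∃ q ∈ Q, bb α q ≠ 1

theorem bb_eq_one_iff (u v : G) : bb u v = 1 ↔ u * v = v * u := by
  unfold bb
  constructor
  · intro h
    calc u * v = (u * v * u⁻¹ * v⁻¹) * (v * u) := by group
      _ = v * u := by rw [h, one_mul]
  · intro h
    calc u * v * u⁻¹ * v⁻¹ = (u * v) * u⁻¹ * v⁻¹ := by group
      _ = 1 := by rw [h]; group

variable {Q : Subgroup G} {z α : G}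

theorem Dat.z_inv (h : Dat Q z) : z⁻¹ = z := inv_eq_of_mul_eq_one_left h.z_sq

theorem Dat.bmem (_h : Dat Q z) {u v : G} (hu : u ∈ Q) (hv : v ∈ Q) : bb u v ∈ Q :=
  Q.mul_mem (Q.mul_mem (Q.mul_mem hu hv) (Q.inv_mem hu)) (Q.inv_mem hv)

theorem Dat.bl (h : Dat Q z) {u v w : G} (hu : u ∈ Q) (hv : v ∈ Q) (hw : w ∈ Q) :
    bb (u * v) w = bb u w * bb v w := by
  have e : bb (u * v) w = u * bb v w * u⁻¹ * bb u w := by unfold bb; group
  rw [e]
  rcases h.comm v hv w hw with e1 | e1 <;> rw [e1]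
  · simp
  · rw [h.cen u hu]
    rcases h.comm u hu w hw with e2 | e2 <;> rw [e2] <;> simp

theorem Dat.br (h : Dat Q z) {u v w : G} (hu : u ∈ Q) (hv : v ∈ Q) (hw : w ∈ Q) :
    bb u (v * w) = bb u v * bb u w := by
  have e : bb u (v * w) = bb u v * (v * bb u w * v⁻¹) := by unfold bb; group
  rw [e]
  rcases h.comm u hu w hw with e1 | e1 <;> rw [e1]
  · simp
  · rw [h.cen v hv]; simp

theorem Dat.bsq (h : Dat Q z) {u v : G} (hu : u ∈ Q) (hv : v ∈ Q) : bb u v * bb u v = 1 := by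
  rcases h.comm u hu v hv with e1 | e1 <;> rw [e1]
  · simp
  · exact h.z_sq

theorem Dat.bsymm (h : Dat Q z) {u v : G} (hu : u ∈ Q) (hv : v ∈ Q) : bb v u = bb u v := by
  have e : bb v u = (bb u v)⁻¹ := by unfold bb; group
  rw [e]
  exact inv_eq_of_mul_eq_one_left (h.bsq hu hv)

theorem Dat.binvl (h : Dat Q z) {u v : G} (hu : u ∈ Q) (hv : v ∈ Q) : bb u⁻¹ v = bb u v := by
  have e := h.bl (Q.inv_mem hu) hu hv
  have e1 : bb (u⁻¹ * u) v = 1 := by unfold bb; group
  rw [e1] at e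
  have e2 := h.bsq hu hv
  calc bb u⁻¹ v = bb u⁻¹ v * (bb u v * bb u v) := by rw [e2, mul_one]
    _ = (bb u⁻¹ v * bb u v) * bb u v := by group
    _ = bb u v := by rw [← e, one_mul]

theorem Dat.binvr (h : Dat Q z) {u v : G} (hu : u ∈ Q) (hv : v ∈ Q) : bb u v⁻¹ = bb u v := by
  rw [h.bsymm (Q.inv_mem hv) hu, h.binvl hv hu, h.bsymm hu hv]

theorem Dat.bz (h : Dat Q z) {u : G} (hu : u ∈ Q) : bb u z = 1 :=
  (bb_eq_one_iff _ _).2 (h.cen u hu)

theorem Act.inv (a : Act Q z α) : α⁻¹ = α := inv_eq_of_mul_eq_one_left a.sq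

theorem Act.bα (a : Act Q z α) (h : Dat Q z) {u v : G} (hu : u ∈ Q) (hv : v ∈ Q) :
    bb (α * u * α⁻¹) (α * v * α⁻¹) = bb u v := by
  have e : bb (α * u * α⁻¹) (α * v * α⁻¹) = α * bb u v * α⁻¹ := by unfold bb; group
  rw [e]
  rcases h.comm u hu v hv with e1 | e1 <;> rw [e1]
  · simp
  · rw [a.cz]; simp

theorem mem_zp (h : Dat Q z) (x : G) : x ∈ Subgroup.zpowers z ↔ x = 1 ∨ x = z := by
  constructor
  · rintro ⟨k, rfl⟩
    have h2 : z ^ (2 : ℤ) = 1 := by
      rw [show (2 : ℤ) = 1 + 1 from rfl, zpow_add, zpow_one]; exact h.z_sq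
    rcases Int.even_or_odd' k with ⟨m, rfl | rfl⟩
    · left; show z ^ (2 * m) = 1; rw [zpow_mul, h2, one_zpow]
    · right; show z ^ (2 * m + 1) = z; rw [zpow_add, zpow_mul, h2, one_zpow, zpow_one, one_mul]
  · rintro (rfl | rfl)
    · exact one_mem _
    · exact Subgroup.mem_zpowers _

theorem mem_cent_iff (S : Subgroup G) (x : G) :
    x ∈ Subgroup.centralizer (S : Set G) ↔ S ≤ Subgroup.centralizer {x} := by
  constructor
  · intro hx s hs
    rw [Subgroup.mem_centralizer_singleton_iff]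
    exact (hx s hs)
  · intro hS s hs
    have := hS hs
    rw [Subgroup.mem_centralizer_singleton_iff] at this
    exact this

theorem card_le_two_mul [Finite G] (h : Dat Q z) (X : Subgroup G) (hX : X ≤ Q) {d : G}
    (hd : d ∈ Q) :
    Nat.card X ≤ 2 * Nat.card (X ⊓ Subgroup.centralizer {d} : Subgroup G) := by
  by_cases hall : X ≤ Subgroup.centralizer {d}
  · rw [inf_eq_left.2 hall]; omega
  · obtain ⟨a, haX, haC⟩ : ∃ a ∈ X, a ∉ Subgroup.centralizer {d} := by
      by_contra hcon; push Not at hcon; exact hall hcon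
    have hmem : ∀ b ∈ X, (b ∈ Subgroup.centralizer {d} ↔ bb b d = 1) := by
      intro b _
      rw [Subgroup.mem_centralizer_singleton_iff, bb_eq_one_iff]
    have ha : bb a d = z := by
      rcases h.comm a (hX haX) d hd with e | e
      · exact absurd ((hmem a haX).2 e) haC
      · exact e
    have h2 : (Subgroup.centralizer {d}).relIndex X = 2 := by
      rw [Subgroup.relIndex_eq_two_iff]
      refine ⟨a, haX, fun b hb => ?_⟩
      rw [hmem b hb, hmem (b * a) (X.mul_mem hb haX), h.bl (hX hb) (hX haX) hd, ha]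
      rcases h.comm b (hX hb) d hd with e | e <;> rw [e]
      · right; simp [h.z_ne]
      · left; simp [h.z_sq, h.z_ne]
    have h3 := Subgroup.relIndex_mul_relIndex ⊥ (X ⊓ Subgroup.centralizer {d}) X bot_le inf_le_left
    rw [Subgroup.relIndex_bot_left, Subgroup.relIndex_bot_left, Subgroup.inf_relIndex_left, h2] at h3
    omega

theorem mono_card [Finite G] (h : Dat Q z) (D : Subgroup G) (hD : D ≤ Q) :
    ∀ (n : ℕ) (A : Subgroup G), A ≤ D → Nat.card D - Nat.card A ≤ n →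
      Nat.card (Q ⊓ Subgroup.centralizer (A : Set G) : Subgroup G) * Nat.card A ≤
      Nat.card (Q ⊓ Subgroup.centralizer (D : Set G) : Subgroup G) * Nat.card D := by
  intro n
  induction n with
  | zero =>
    intro A hA hn
    have : A = D := Subgroup.eq_of_le_of_card_ge hA (by omega)
    rw [this]
  | succ n ih =>
    intro A hA hn
    by_cases hAD : A = D
    · rw [hAD]
    · obtain ⟨d, hdD, hdA⟩ : ∃ d ∈ D, d ∉ A := by
        by_contra hcon; push Not at hcon; exact hAD (le_antisymm hA hcon)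
      obtain ⟨A', hA'⟩ : ∃ A', A' = A ⊔ Subgroup.zpowers d := ⟨_, rfl⟩
      have hAA' : A ≤ A' := hA' ▸ le_sup_left
      have hdA' : d ∈ A' :=
        hA' ▸ (le_sup_right : Subgroup.zpowers d ≤ A ⊔ Subgroup.zpowers d) (Subgroup.mem_zpowers d)
      have hA'D : A' ≤ D := hA' ▸ sup_le hA (by rw [Subgroup.zpowers_le]; exact hdD)
      have hcard : 2 * Nat.card A ≤ Nat.card A' := by
        obtain ⟨k, hk⟩ := Subgroup.card_dvd_of_le hAA'
        have hne : Nat.card A ≠ Nat.card A' := fun e =>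
          hdA ((Subgroup.eq_of_le_of_card_ge hAA' e.ge) ▸ hdA')
        have hpos : 0 < Nat.card A' := Nat.card_pos
        have hposA : 0 < Nat.card A := Nat.card_pos
        rcases k with _ | _ | k
        · simp at hk; omega
        · simp at hk; omega
        · rw [hk]; nlinarith
      have hcen : Q ⊓ Subgroup.centralizer (A' : Set G) =
          (Q ⊓ Subgroup.centralizer (A : Set G)) ⊓ Subgroup.centralizer {d} := by
        ext x
        simp only [Subgroup.mem_inf, mem_cent_iff, hA', sup_le_iff, Subgroup.zpowers_le,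
          Subgroup.mem_centralizer_singleton_iff]
        constructor
        · rintro ⟨h1, h2, h3⟩; exact ⟨⟨h1, h2⟩, h3.symm⟩
        · rintro ⟨⟨h1, h2⟩, h3⟩; exact ⟨h1, h2, h3.symm⟩
      have h2 := card_le_two_mul h (Q ⊓ Subgroup.centralizer (A : Set G)) inf_le_left (hD hdD)
      have hposA : 0 < Nat.card A := Nat.card_pos
      have ih' := ih A' hA'D (by omega)
      rw [← hcen] at h2
      calc _ ≤ (2 * Nat.card (Q ⊓ Subgroup.centralizer (A' : Set G) : Subgroup G)) * Nat.card A :=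
            Nat.mul_le_mul_right _ h2
        _ = Nat.card (Q ⊓ Subgroup.centralizer (A' : Set G) : Subgroup G) * (2 * Nat.card A) := by
            ring
        _ ≤ Nat.card (Q ⊓ Subgroup.centralizer (A' : Set G) : Subgroup G) * Nat.card A' :=
            Nat.mul_le_mul_left _ hcard
        _ ≤ _ := ih'


theorem main [Finite G] (h : Dat Q z) (a : Act Q z α) (Q₀ : Subgroup G)
    (hQ₀ : ∀ q, q ∈ Q₀ ↔ q ∈ Q ∧ bb α q ∈ Subgroup.zpowers z) :
    Subgroup.closure ((fun q => bb α q) '' (Q : Set G)) =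
      Q₀ ⊓ Subgroup.centralizer (Q₀ : Set G) := by
  obtain ⟨D, hD⟩ : ∃ D, D = Subgroup.closure ((fun q => bb α q) '' (Q : Set G)) := ⟨_, rfl⟩
  rw [← hD]
  have hbQ : ∀ q ∈ Q, bb α q ∈ Q := fun q hq => Q.mul_mem (a.nrm q hq) (Q.inv_mem hq)
  have hsplit : ∀ q, bb α q = (α * q * α⁻¹) * q⁻¹ := fun q => rfl
  have hDQ : D ≤ Q := by
    rw [hD, Subgroup.closure_le]
    rintro _ ⟨q, hq, rfl⟩
    exact hbQ q hq
  have hgen : ∀ q ∈ Q, bb α q ∈ D := fun q hq => hD ▸ Subgroup.subset_closure ⟨q, hq, rfl⟩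
  have hQ₀Q : Q₀ ≤ Q := fun q hq => ((hQ₀ q).1 hq).1
  have hzD : z ∈ D := by
    obtain ⟨q, hq, hne⟩ := a.nc
    by_cases hc : ∀ x ∈ Q, bb (bb α q) x = 1
    · rcases h.cq _ (hbQ q hq) hc with e | e
      · exact absurd e hne
      · exact e ▸ hgen q hq
    · push Not at hc
      obtain ⟨x, hx, hxne⟩ := hc
      have e : bb (bb α q) x = z := by
        rcases h.comm _ (hbQ q hq) x hx with e | e
        · exact absurd e hxne
        · exact e
      have e2 : bb (bb α q) x = bb α q * ((bb α x)⁻¹ * bb α (x * q))⁻¹ := by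
        unfold bb; group
      rw [← e, e2]
      exact D.mul_mem (hgen q hq) (D.inv_mem (D.mul_mem (D.inv_mem (hgen x hx))
        (hgen _ (Q.mul_mem hx hq))))
  have hDcent : D ≤ Subgroup.centralizer (Q₀ : Set G) := by
    rw [hD, Subgroup.closure_le]
    rintro _ ⟨q, hq, rfl⟩
    intro w hw
    obtain ⟨hwQ, hwz⟩ := (hQ₀ w).1 hw
    have hq' : q ∈ Q := hq
    have hr := a.nrm q hq'
    have e1 : bb (bb α q) w = 1 := by
      rw [hsplit, h.bl hr (Q.inv_mem hq') hwQ, h.binvl hq' hwQ]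
      have e3 : bb (α * q * α⁻¹) (α * w * α⁻¹) = bb q w := a.bα h hq' hwQ
      have e4 : α * w * α⁻¹ = bb α w * w := by unfold bb; group
      rw [e4, h.br hr (hbQ w hwQ) hwQ] at e3
      have e5 : bb (α * q * α⁻¹) (bb α w) = 1 := by
        rcases (mem_zp h _).1 hwz with e | e <;> rw [e]
        · unfold bb; group
        · exact h.bz hr
      rw [e5, one_mul] at e3
      rw [e3]
      exact h.bsq hq' hwQ
    exact ((bb_eq_one_iff _ _).1 e1).symm
  have hDQ₀ : D ≤ Q₀ := by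
    rw [hD, Subgroup.closure_le]
    rintro _ ⟨q, hq, rfl⟩
    have hq' : q ∈ Q := hq
    show bb α q ∈ Q₀
    rw [hQ₀]
    refine ⟨hbQ q hq', ?_⟩
    have e1 : bb α (bb α q) = (α * α) * q * α⁻¹ * q⁻¹ * α⁻¹ * (bb α q)⁻¹ := by
      unfold bb; group
    have e2 : (bb α q)⁻¹ = q * (α * α) * α⁻¹ * q⁻¹ * α⁻¹ := by unfold bb; group
    have e3 : bb α (bb α q) = (bb α q)⁻¹ * (bb α q)⁻¹ := by
      rw [e1]
      conv_rhs => rw [e2]
      rw [e2, a.sq]; group
    rw [e3, mem_zp h]
    have hc := Q.inv_mem (hbQ q hq')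
    refine h.cq _ (Q.mul_mem hc hc) fun x hx => ?_
    rw [h.bl hc hc hx]
    exact h.bsq hc hx
  have hCD : Q ⊓ Subgroup.centralizer (D : Set G) ≤ Q₀ := by
    rintro q ⟨hq, hqD⟩
    have hq' : q ∈ Q := hq
    rw [hQ₀]
    refine ⟨hq', ?_⟩
    rw [mem_zp h]
    refine h.cq _ (hbQ q hq') fun x hx => ?_
    have hr := a.nrm q hq'
    have hx' := a.nrm x hx
    rw [hsplit, h.bl hr (Q.inv_mem hq') hx, h.binvl hq' hx]
    have e3 : bb (α * q * α⁻¹) (α * (α * x * α⁻¹) * α⁻¹) = bb q (α * x * α⁻¹) := a.bα h hq' hx'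
    have e4 : α * (α * x * α⁻¹) * α⁻¹ = x := by
      calc α * (α * x * α⁻¹) * α⁻¹ = (α * α) * x * (α * α)⁻¹ := by group
        _ = x := by rw [a.sq]; group
    rw [e4] at e3
    rw [e3, ← h.binvr hq' hx, ← h.br hq' hx' (Q.inv_mem hx), ← hsplit, bb_eq_one_iff]
    exact (hqD _ (hgen x hx)).symm
  have hz2 : Nat.card (Subgroup.zpowers z) = 2 := by
    rw [Nat.card_zpowers]
    exact orderOf_eq_prime (by rw [pow_two]; exact h.z_sq) h.z_ne
  have M1 := mono_card h Q le_rfl _ Q₀ hQ₀Q le_rfl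
  have M2 := mono_card h D hDQ _ (Subgroup.zpowers z) (by rw [Subgroup.zpowers_le]; exact hzD) le_rfl
  have c1 : Nat.card (Q ⊓ Subgroup.centralizer (Q : Set G) : Subgroup G) ≤ 2 := by
    rw [← hz2]
    apply Subgroup.card_le_of_le
    rintro c ⟨hc, hcQ⟩
    rw [mem_zp h]
    exact h.cq c hc fun x hx => (bb_eq_one_iff _ _).2 (hcQ x hx).symm
  have c2 : Q ⊓ Subgroup.centralizer ((Subgroup.zpowers z : Subgroup G) : Set G) = Q := by
    rw [inf_eq_left]
    intro x hx
    rw [mem_cent_iff, Subgroup.zpowers_le, Subgroup.mem_centralizer_singleton_iff]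
    exact (h.cen x hx).symm
  have c3 := Subgroup.card_le_of_le hCD
  rw [c2, hz2] at M2
  have hpos : 0 < Nat.card Q₀ := Nat.card_pos
  have c4 : Nat.card (Q ⊓ Subgroup.centralizer (Q₀ : Set G) : Subgroup G) ≤ Nat.card D := by
    have : Nat.card (Q ⊓ Subgroup.centralizer (Q₀ : Set G) : Subgroup G) * Nat.card Q₀ ≤
        Nat.card D * Nat.card Q₀ := by
      calc _ ≤ _ := M1
        _ ≤ 2 * Nat.card Q := Nat.mul_le_mul_right _ c1
        _ = Nat.card Q * 2 := by ring
        _ ≤ _ := M2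
        _ ≤ Nat.card Q₀ * Nat.card D := Nat.mul_le_mul_right _ c3
        _ = _ := by ring
    exact Nat.le_of_mul_le_mul_right this hpos
  have c5 : D = Q ⊓ Subgroup.centralizer (Q₀ : Set G) :=
    Subgroup.eq_of_le_of_card_ge (le_inf hDQ hDcent) c4
  apply le_antisymm (le_inf hDQ₀ hDcent)
  rw [c5]
  exact inf_le_inf_right _ hQ₀Q


open scoped commutatorElement in
theorem dat_of_extraspecial {P : Type*} [Group P] (hP : IsExtraspecial 2 P) (φ : P →* G)
    (hφ : Function.Injective φ) (z₀ : P) (hz₀ : z₀ ∈ Subgroup.center P) (hne : z₀ ≠ 1) :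
    Dat φ.range (φ z₀) := by
  have hcen : ∀ y ∈ Subgroup.center P, y = 1 ∨ y = z₀ := by
    intro y hy
    obtain ⟨w, hw1, hw⟩ := (Nat.card_eq_two_iff' (1 : Subgroup.center P)).mp hP.2
    by_cases h1 : y = 1
    · left; exact h1
    · right
      have e1 := hw ⟨y, hy⟩ (fun e => h1 (congrArg Subtype.val e))
      have e2 := hw ⟨z₀, hz₀⟩ (fun e => hne (congrArg Subtype.val e))
      exact congrArg Subtype.val (e1.trans e2.symm)
  have hsq : z₀ * z₀ = 1 := by
    rcases hcen (z₀ * z₀) (mul_mem hz₀ hz₀) with e | e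
    · exact e
    · exact absurd (by simpa using e) hne
  refine ⟨?_, ?_, ⟨z₀, rfl⟩, ?_, ?_, ?_⟩
  · intro e; exact hne (hφ (by rw [e, map_one]))
  · rw [← map_mul, hsq, map_one]
  · rintro _ ⟨x, rfl⟩; rw [← map_mul, ← map_mul, Subgroup.mem_center_iff.mp hz₀ x]
  · rintro _ ⟨x, rfl⟩ _ ⟨y, rfl⟩
    have h1 : ⁅x, y⁆ ∈ Subgroup.center P := by
      rw [← hP.1.2.2]
      exact Subgroup.commutator_mem_commutator (Subgroup.mem_top _) (Subgroup.mem_top _)
    have e : bb (φ x) (φ y) = φ ⁅x, y⁆ := by simp [bb, commutatorElement_def]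
    rw [e]
    rcases hcen _ h1 with e1 | e1 <;> rw [e1]
    · left; exact map_one _
    · right; rfl
  · rintro _ ⟨c, rfl⟩ hc
    have : c ∈ Subgroup.center P := by
      rw [Subgroup.mem_center_iff]; intro x
      have := (bb_eq_one_iff _ _).1 (hc (φ x) ⟨x, rfl⟩)
      apply hφ; rw [map_mul, map_mul, this]
    rcases hcen c this with e | e <;> rw [e]
    · left; exact map_one _
    · right; rfl

theorem center_map_eq (Q₀ : Subgroup G) :
    (Subgroup.center ↥Q₀).map Q₀.subtype = Q₀ ⊓ Subgroup.centralizer (Q₀ : Set G) := by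
  ext x
  constructor
  · rintro ⟨y, hy, rfl⟩
    exact ⟨y.2, fun w hw => congrArg Subtype.val (Subgroup.mem_center_iff.mp hy ⟨w, hw⟩)⟩
  · rintro ⟨hx, hc⟩
    exact ⟨⟨x, hx⟩, Subgroup.mem_center_iff.mpr (fun w => Subtype.ext (hc w w.2)), rfl⟩

open Cfsg.Agent.Lib in

/-- Let G be a finite group and let z be an involution of G such that Q, the generalized Fitting subgroup of the centralizer C of z, is a 2-group of symplectic type (every characteristic abelian subgroup of Q is cyclic); suppose Q is extraspecial, and view Q inside G. Let α be an involution of C that is not in Q, and let Q₀ be the subgroup of those q ∈ Q whose commutator with α lies in the subgroup generated by z. Then (a) the subgroup generated by the commutators α q α⁻¹ q⁻¹, q ∈ Q, equals the centre of Q₀; and (b) if Q₀ is not contained in the product of the centralizer of α in Q with the subgroup generated by z, then some element of Q conjugates α to α z. -/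
theorem result {G : Type*} [Group G] [Finite G] (z : G) (hz : orderOf z = 2) (hQ : Cfsg.IsOfSymplecticType ↥(Cfsg.generalizedFittingSubgroup ↥(Subgroup.centralizer ({z} : Set G)))) (hE : Cfsg.IsExtraspecial 2 ↥(Cfsg.generalizedFittingSubgroup ↥(Subgroup.centralizer ({z} : Set G))))
    (α : G) (hα : orderOf α = 2) (hαC : α ∈ Subgroup.centralizer ({z} : Set G)) (hαQ : α ∉ (Cfsg.generalizedFittingSubgroup ↥(Subgroup.centralizer ({z} : Set G))).map (Subgroup.centralizer ({z} : Set G)).subtype)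
    (Q₀ : Subgroup G) (hQ₀ : ∀ q : G, q ∈ Q₀ ↔ (q ∈ (Cfsg.generalizedFittingSubgroup ↥(Subgroup.centralizer ({z} : Set G))).map (Subgroup.centralizer ({z} : Set G)).subtype ∧ α * q * α⁻¹ * q⁻¹ ∈ Subgroup.zpowers z)) :
    Subgroup.closure ((fun q : G => α * q * α⁻¹ * q⁻¹) '' ((Cfsg.generalizedFittingSubgroup ↥(Subgroup.centralizer ({z} : Set G))).map (Subgroup.centralizer ({z} : Set G)).subtype : Set G)) = (Subgroup.center ↥Q₀).map Q₀.subtype ∧
      (¬ Q₀ ≤ ((Cfsg.generalizedFittingSubgroup ↥(Subgroup.centralizer ({z} : Set G))).map (Subgroup.centralizer ({z} : Set G)).subtype ⊓ Subgroup.centralizer ({α} : Set G)) ⊔ Subgroup.zpowers z →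
        ∃ q ∈ (Cfsg.generalizedFittingSubgroup ↥(Subgroup.centralizer ({z} : Set G))).map (Subgroup.centralizer ({z} : Set G)).subtype, q * α * q⁻¹ = α * z) := by
  obtain ⟨C, hC⟩ : ∃ C, C = Subgroup.centralizer ({z} : Set G) := ⟨_, rfl⟩
  rw [← hC] at hQ hE hαC hαQ hQ₀ ⊢
  obtain ⟨F, hF⟩ : ∃ F, F = Cfsg.generalizedFittingSubgroup ↥C := ⟨_, rfl⟩
  rw [← hF] at hQ hE hαQ hQ₀ ⊢
  have hFn : F.Normal := hF ▸ Helper10.genFitting_normal ↥C
  have hBender : Subgroup.centralizer (F : Set ↥C) ≤ F := hF ▸ Helper10.centralizer_genFitting_le ↥C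
  have hCmem : ∀ x, x ∈ C ↔ x * z = z * x := by
    intro x; rw [hC, Subgroup.mem_centralizer_singleton_iff]
  have hzC : z ∈ C := (hCmem z).2 rfl
  have hzF : (⟨z, hzC⟩ : ↥C) ∈ F := by
    apply hBender
    intro f _
    apply Subtype.ext
    exact (hCmem f).1 f.2
  have hz1 : z ≠ 1 := by
    intro e; rw [e, orderOf_one] at hz; omega
  have hrange : (C.subtype.comp F.subtype).range = F.map C.subtype := by
    rw [MonoidHom.range_comp, Subgroup.range_subtype]
  have hdat : Dat (F.map C.subtype) z := by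
    have := dat_of_extraspecial hE (C.subtype.comp F.subtype)
      (fun a b hab => Subtype.ext (Subtype.ext hab)) ⟨⟨z, hzC⟩, hzF⟩ (by
        rw [Subgroup.mem_center_iff]
        intro f
        apply Subtype.ext; apply Subtype.ext
        exact (hCmem f).1 f.1.2) (fun e => hz1 (congrArg (fun t : ↥F => ((t : ↥C) : G)) e))
    rw [hrange] at this
    exact this
  have hact : Act (F.map C.subtype) z α := by
    refine ⟨?_, (hCmem α).1 hαC, ?_, ?_⟩
    · have := pow_orderOf_eq_one α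
      rwa [hα, pow_two] at this
    · rintro _ ⟨q, hq, rfl⟩
      exact ⟨⟨α, hαC⟩ * q * ⟨α, hαC⟩⁻¹, hFn.conj_mem q hq _, rfl⟩
    · by_contra hcon
      push Not at hcon
      apply hαQ
      refine ⟨⟨α, hαC⟩, hBender ?_, rfl⟩
      intro f hf
      apply Subtype.ext
      exact ((bb_eq_one_iff _ _).1 (hcon f ⟨f, hf, rfl⟩)).symm
  refine ⟨?_, ?_⟩
  · rw [center_map_eq]
    exact main hdat hact Q₀ hQ₀
  · intro hnot
    obtain ⟨q, hq, hqn⟩ : ∃ q ∈ Q₀, q ∉ (F.map C.subtype ⊓ Subgroup.centralizer ({α} : Set G)) ⊔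
        Subgroup.zpowers z := by
      by_contra hcon; push Not at hcon; exact hnot hcon
    obtain ⟨hqQ, hqz⟩ := (hQ₀ q).1 hq
    refine ⟨q, hqQ, ?_⟩
    rcases (mem_zp hdat _).1 hqz with e | e
    · exfalso
      apply hqn
      apply (le_sup_left : _ ≤ (F.map C.subtype ⊓ Subgroup.centralizer ({α} : Set G)) ⊔
        Subgroup.zpowers z)
      refine ⟨hqQ, ?_⟩
      show q ∈ Subgroup.centralizer ({α} : Set G)
      rw [Subgroup.mem_centralizer_singleton_iff]
      exact ((bb_eq_one_iff α q).1 e).symm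
    · calc q * α * q⁻¹ = (α⁻¹ * (α * q * α⁻¹ * q⁻¹))⁻¹ := by group
        _ = (α⁻¹ * z)⁻¹ := by rw [e]
        _ = z⁻¹ * α := by group
        _ = z * α := by rw [hdat.z_inv]
        _ = α * z := hact.cz.symm

end Cfsg.Agent.S1784
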