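import Cfsg.Statements.S1892
-- import your own Cfsg.Agent.* helpers here
import Mathlib
import Cfsg.Agent.Lib.Helper5.PSolv
import Cfsg.Agent.Lib.Helper17.Core
import Cfsg.Agent.Lib.Helper13.TransferLG

set_option autoImplicit false
open Cfsg

namespace Cfsg.Agent.S1892

open scoped commutatorElement
open Cfsg.Agent.Lib.Helper13

/-- Let S be a finite p-solvable group with no nontrivial normal subgroup of order prime to p, A a p-subgroup of S, and Q a nontrivial A-invariant subgroup of order prime to p with [A, Q] = Q. Then the commutator [O_p(S), A, Q] is nontrivial. -/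
theorem result {S : Type*} [Group S] [Finite S] {p : ℕ} [Fact p.Prime]
    (hS : Cfsg.IsPSolvable p S) (hred : Cfsg.pPrimeCore p S = ⊥)
    (A Q : Subgroup S) (hA : IsPGroup p A) (hQ : ¬ p ∣ Nat.card Q) (hQ1 : Q ≠ ⊥)
    (hinv : ∀ a ∈ A, ∀ x ∈ Q, a * x * a⁻¹ ∈ Q) (hAQ : ⁅A, Q⁆ = Q) :
    ⁅⁅Cfsg.pCore p S, A⁆, Q⁆ ≠ ⊥ := by
  classical
  intro hbot
  set R := Cfsg.pCore p S with hR
  have hRn : R.Normal := Cfsg.pCore_normal p S
  have hRp : IsPGroup p R := Cfsg.Agent.Lib.Helper5.pCore_isPGroup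
  have hHH : Subgroup.centralizer (R : Set S) ≤ R := Cfsg.Agent.Lib.Helper5.centralizer_pCore_le hS hred
  set R1 := ⁅R, A⁆ with hR1
  have hR1R : R1 ≤ R := Subgroup.commutator_le_left R A
  have hcen : R1 ≤ Subgroup.centralizer (Q : Set S) :=
    Subgroup.commutator_eq_bot_iff_le_centralizer.mp hbot
  have hcomm : ∀ y ∈ Q, ∀ z ∈ R1, y * z * y⁻¹ = z := by
    intro y hy z hz
    have := (Subgroup.mem_centralizer_iff.mp (hcen hz)) y hy
    rw [this, mul_inv_cancel_right]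
  let K : Subgroup S :=
    { carrier := {g | g ∈ Subgroup.normalizer (R1 : Set S) ∧ ∀ r ∈ R, ⁅r, g⁆ ∈ R1}
      one_mem' := ⟨one_mem _, fun r _ => by simp⟩
      mul_mem' := by
        rintro g h ⟨hg1, hg2⟩ ⟨hh1, hh2⟩
        refine ⟨mul_mem hg1 hh1, fun r hr => ?_⟩
        have e : ⁅r, g * h⁆ = ⁅r, g⁆ * (g * ⁅r, h⁆ * g⁻¹) := by
          simp only [commutatorElement_def]; group
        rw [e]
        exact R1.mul_mem (hg2 r hr) ((Subgroup.mem_normalizer_iff.mp hg1 _).mp (hh2 r hr))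
      inv_mem' := by
        rintro g ⟨hg1, hg2⟩
        refine ⟨inv_mem hg1, fun r hr => ?_⟩
        have e : ⁅r, g⁻¹⁆ = g⁻¹ * (⁅r, g⁆)⁻¹ * (g⁻¹)⁻¹ := by
          simp only [commutatorElement_def]; group
        rw [e]
        exact (Subgroup.mem_normalizer_iff.mp (inv_mem hg1) _).mp (R1.inv_mem (hg2 r hr)) }
  have hAN : A ≤ Subgroup.normalizer (R1 : Set S) := by
    intro a ha
    rw [mem_normalizer_iff_cj, hR1, cj_commutator, cj_eq_self_of_mem ha]
    congr 1
    exact mem_normalizer_iff_cj.mp (by rw [Subgroup.normalizer_eq_top]; trivial)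
  have hAK : A ≤ K := fun a ha =>
    ⟨hAN ha, fun r hr => Subgroup.commutator_mem_commutator hr ha⟩
  have hQN : Q ≤ Subgroup.normalizer (R1 : Set S) := by
    intro y hy
    rw [Subgroup.mem_normalizer_iff]
    intro z
    constructor
    · intro hz; rw [hcomm y hy z hz]; exact hz
    · intro hz
      have := hcomm y⁻¹ (Q.inv_mem hy) _ hz
      have e : y⁻¹ * (y * z * y⁻¹) * y⁻¹⁻¹ = z := by group
      rw [e] at this
      rw [this]; exact hz
  have hconjK : ∀ y ∈ Q, ∀ a ∈ A, y * a * y⁻¹ ∈ K := by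
    intro y hy a ha
    refine ⟨mul_mem (mul_mem (hQN hy) (hAN ha)) (inv_mem (hQN hy)), fun r hr => ?_⟩
    have e : ⁅r, y * a * y⁻¹⁆ = y * ⁅y⁻¹ * r * y⁻¹⁻¹, a⁆ * y⁻¹ := by
      simp only [commutatorElement_def]; group
    have hm : ⁅y⁻¹ * r * y⁻¹⁻¹, a⁆ ∈ R1 :=
      Subgroup.commutator_mem_commutator (hRn.conj_mem r hr y⁻¹) ha
    rw [e, hcomm y hy _ hm]
    exact hm
  have hQK : Q ≤ K := by
    rw [← hAQ, Subgroup.commutator_le]
    intro a ha y hy
    have e : ⁅a, y⁆ = a * (y * a⁻¹ * y⁻¹) := by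
      simp only [commutatorElement_def]; group
    rw [e]
    exact K.mul_mem (hAK ha) (hconjK y hy a⁻¹ (A.inv_mem ha))
  have h1 : ⁅R, Q⁆ ≤ R1 := by
    rw [Subgroup.commutator_le]
    intro r hr y hy
    exact (hQK hy).2 r hr
  have hQp : IsPGroup p Q :=
    Cfsg.Agent.Lib.Helper17.isPGroup_of_stab_two hRp hR1R h1 hbot
      (hRp.to_le (inf_le_right.trans hHH))
  apply hQ1
  obtain ⟨k, hk⟩ := IsPGroup.iff_card.mp hQp
  rcases Nat.eq_zero_or_pos k with rfl | hk0
  · rw [pow_zero] at hk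
    exact Subgroup.card_eq_one.mp hk
  · exact absurd (hk ▸ dvd_pow_self p hk0.ne') hQ

end Cfsg.Agent.S1892
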