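import Cfsg.Statements.S1894
-- import your own Cfsg.Agent.* helpers here
import Mathlib
import Cfsg.Agent.Lib.Helper14.PGroupRel

set_option autoImplicit false
open Cfsg

namespace Cfsg.Agent.S1894

open scoped commutatorElement

/-- Let P be a finite p-group, A a normal subgroup of P and B an abelian subgroup of A that is normal in P. Then some subgroup C of A containing B is normal in P and is self-centralizing and normal in A (C ∈ SCN(A)). -/
theorem result {P : Type*} [Group P] [Finite P] {p : ℕ} [Fact p.Prime] (hP : IsPGroup p P)
    (A : Subgroup P) [A.Normal] (B : Subgroup P) [B.Normal] (hBA : B ≤ A) (hB : IsMulCommutative B) :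
    ∃ C : Subgroup P, C.Normal ∧ B ≤ C ∧ Cfsg.IsSCN A C := by
  classical
  -- the family
  let F : Set (Subgroup P) := {C | C.Normal ∧ B ≤ C ∧ C ≤ A ∧ C ≤ Subgroup.centralizer (C : Set P)}
  have hBF : B ∈ F := by
    refine ⟨inferInstance, le_rfl, hBA, ?_⟩
    intro x hx
    rw [Subgroup.mem_centralizer_iff]
    intro y hy
    have := hB.is_comm.comm ⟨y, hy⟩ ⟨x, hx⟩
    exact congrArg Subtype.val this
  obtain ⟨C, hBC, hCmax⟩ := (Set.toFinite F).exists_le_maximal hBF
  obtain ⟨hCn, hBC', hCA, hCab⟩ := hCmax.prop
  refine ⟨C, hCn, hBC', hCA, ?_, ?_⟩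
  · rw [Subgroup.normalizer_eq_top]; exact le_top
  · apply le_antisymm _ (le_inf hCA hCab)
    by_contra hQC
    have hQn : (A ⊓ Subgroup.centralizer (C : Set P)).Normal := inferInstance
    obtain ⟨x, hxQ, hxC, -, hxg⟩ :=
      Cfsg.Agent.Lib.Helper14.exists_rel_central_order_p p hP C (A ⊓ Subgroup.centralizer (C : Set P)) hQC
    have hDF : C ⊔ Subgroup.zpowers x ∈ F := by
      refine ⟨?_, hBC'.trans le_sup_left, sup_le hCA (Subgroup.zpowers_le.mpr hxQ.1), ?_⟩
      · -- normal
        rw [← Subgroup.normalizer_eq_top_iff, eq_top_iff]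
        intro g _
        have key : ∀ g : P, ∀ y ∈ C ⊔ Subgroup.zpowers x, g * y * g⁻¹ ∈ C ⊔ Subgroup.zpowers x := by
          intro g y hy
          have hle : C ⊔ Subgroup.zpowers x ≤ (C ⊔ Subgroup.zpowers x).comap (MulAut.conj g).toMonoidHom := by
            refine sup_le ?_ ?_
            · intro c hc
              exact Subgroup.mem_sup_left (hCn.conj_mem c hc g)
            · rw [Subgroup.zpowers_le]
              change g * x * g⁻¹ ∈ C ⊔ Subgroup.zpowers x
              have e : g * x * g⁻¹ = (⁅x, g⁆)⁻¹ * x := by
                rw [commutatorElement_def]; group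
              rw [e]
              exact Subgroup.mul_mem _ (Subgroup.mem_sup_left (C.inv_mem (hxg g)))
                (Subgroup.mem_sup_right (Subgroup.mem_zpowers x))
          exact hle hy
        rw [Subgroup.mem_normalizer_iff]
        intro y
        constructor
        · exact key g y
        · intro h
          have := key g⁻¹ _ h
          simpa [mul_assoc] using this
      · -- abelian
        rw [sup_le_iff]
        have hxc : x ∈ Subgroup.centralizer (C : Set P) := hxQ.2
        constructor
        · rw [Subgroup.le_centralizer_iff]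
          exact sup_le hCab (Subgroup.zpowers_le.mpr hxc)
        · rw [Subgroup.le_centralizer_iff]
          refine sup_le ?_ ?_
          · rw [Subgroup.le_centralizer_iff]; exact Subgroup.zpowers_le.mpr hxc
          · rw [Subgroup.zpowers_le, Subgroup.mem_centralizer_iff]
            intro y hy
            obtain ⟨k, rfl⟩ := Subgroup.mem_zpowers_iff.mp hy
            exact (Commute.zpow_left (Commute.refl x) k)
    have := hCmax.le_of_ge hDF le_sup_left
    exact hxC (this (Subgroup.mem_sup_right (Subgroup.mem_zpowers x)))

end Cfsg.Agent.S1894
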