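import Cfsg.Statements.S1897
import Mathlib
import Cfsg.Agent.Lib.Helper15.U33f
import Cfsg.Agent.S0495
import Cfsg.Agent.S0279

set_option autoImplicit false
open Cfsg

namespace Cfsg.Agent.S1897

/-- The projective special unitary group PSU₃(3) (realised over the field with 9 elements) has a subgroup isomorphic to PSL₂(7). -/
theorem result {F : Type*} [Field F] [Fintype F] (hF : Fintype.card F = 9)
    {K : Type*} [Field K] [Fintype K] (hK : Fintype.card K = 7) :
    ∃ H : Subgroup (Cfsg.PSU 3 F 3), Nonempty (H ≃* Matrix.ProjectiveSpecialLinearGroup (Fin 2) K) := by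
  obtain ⟨H, hc, hp⟩ := Cfsg.Agent.Lib.Helper15.U33.su33_has_168 hF
  have hs : IsSimpleGroup H := Cfsg.Agent.Lib.Helper15.U33.simple_of_perfect168 hc hp
  obtain ⟨e⟩ := Cfsg.Agent.S0495.result (G := H) hc hK
  have hF' : Fintype.card F = 3 ^ 2 := by rw [hF]; norm_num
  have hcen : Subgroup.center (Cfsg.SU 3 F 3) = ⊥ := by
    have h := Cfsg.Agent.S0279.result hF' 3 le_rfl
    have h1 : Nat.card (Subgroup.center (Cfsg.SU 3 F 3)) = 1 := by rw [h]; rfl
    exact Subgroup.card_eq_one.1 h1
  have hinj : Function.Injective (QuotientGroup.mk' (Subgroup.center (Cfsg.SU 3 F 3))) := by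
    rw [← MonoidHom.ker_eq_bot_iff, QuotientGroup.ker_mk', hcen]
  exact ⟨H.map (QuotientGroup.mk' _), ⟨(H.equivMapOfInjective _ hinj).symm.trans e⟩⟩

end Cfsg.Agent.S1897
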