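import Cfsg.Statements.S1898
-- import your own Cfsg.Agent.* helpers here
import Mathlib

set_option autoImplicit false
open Cfsg

namespace Cfsg.Agent.S1898

open scoped commutatorElement

/-- Let X be a finite 2-group whose derived subgroup is elementary abelian and central. Then the subgroup generated by the elements of order dividing 4 has exponent dividing 4, and every automorphism of X fixing each element of order dividing 4 has 2-power order. -/
theorem result {X : Type*} [Group X] [Finite X] (hX : IsPGroup 2 X)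
    (hel : Cfsg.IsElementaryAbelian 2 (commutator X)) (hcen : commutator X ≤ Subgroup.center X) :
    (∀ x ∈ Subgroup.closure {g : X | g ^ 4 = 1}, x ^ 4 = 1) ∧
      ∀ φ : MulAut X, (∀ g : X, g ^ 4 = 1 → φ g = g) → ∃ k : ℕ, φ ^ (2 ^ k) = 1 := by
  classical
  -- commutators are central involutions
  have hc : ∀ a b : X, ⁅a, b⁆ ∈ Subgroup.center X := fun a b =>
    hcen (Subgroup.commutator_mem_commutator (Subgroup.mem_top a) (Subgroup.mem_top b))
  have hc2 : ∀ a b : X, ⁅a, b⁆ ^ 2 = 1 := fun a b =>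
    hel.2 _ (Subgroup.commutator_mem_commutator (Subgroup.mem_top a) (Subgroup.mem_top b))
  -- (x y)^2 = x^2 y^2 [y,x]
  have hsq : ∀ x y : X, (x * y) ^ 2 = x ^ 2 * y ^ 2 * ⁅y, x⁆ := by
    intro x y
    have h1 : y * x = x * y * ⁅y, x⁆ := by
      have hcm := (Subgroup.mem_center_iff.mp (hc y x)) (x * y)
      rw [hcm, commutatorElement_def]; group
    calc (x * y) ^ 2 = x * (y * x) * y := by rw [pow_two]; group
      _ = x * (x * y * ⁅y, x⁆) * y := by rw [h1]
      _ = x * x * y * (⁅y, x⁆ * y) := by group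
      _ = x * x * y * (y * ⁅y, x⁆) := by rw [(Subgroup.mem_center_iff.mp (hc y x)) y]
      _ = x ^ 2 * y ^ 2 * ⁅y, x⁆ := by rw [pow_two, pow_two]; group
  -- squares commute modulo... : [y^2, x^2] trivial; we need (x y)^4 = x^4 y^4
  have hcomm_sq : ∀ x y : X, y ^ 2 * x = x * y ^ 2 := by
    intro x y
    -- y x = x y c, c central, c^2 = 1
    have h1 : y * x = x * y * ⁅y, x⁆ := by
      have hcm := (Subgroup.mem_center_iff.mp (hc y x)) (x * y)
      rw [hcm, commutatorElement_def]; group
    calc y ^ 2 * x = y * (y * x) := by rw [pow_two]; group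
      _ = y * (x * y * ⁅y, x⁆) := by rw [h1]
      _ = (y * x) * y * ⁅y, x⁆ := by group
      _ = (x * y * ⁅y, x⁆) * y * ⁅y, x⁆ := by rw [h1]
      _ = x * y * (⁅y, x⁆ * y) * ⁅y, x⁆ := by group
      _ = x * y * (y * ⁅y, x⁆) * ⁅y, x⁆ := by rw [(Subgroup.mem_center_iff.mp (hc y x)) y]
      _ = x * y ^ 2 * ⁅y, x⁆ ^ 2 := by rw [pow_two, pow_two]; group
      _ = x * y ^ 2 := by rw [hc2, mul_one]
  have h4 : ∀ x y : X, (x * y) ^ 4 = x ^ 4 * y ^ 4 := by
    intro x y
    have e : (x * y) ^ 4 = ((x * y) ^ 2) ^ 2 := by rw [← pow_mul]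
    rw [e, hsq]
    have hcm : Commute (x ^ 2 * y ^ 2) ⁅y, x⁆ :=
      ((Subgroup.mem_center_iff.mp (hc y x)) (x ^ 2 * y ^ 2))
    rw [hcm.mul_pow, hc2, mul_one]
    have hcm2 : Commute (x ^ 2) (y ^ 2) := (hcomm_sq (x ^ 2) y).symm
    rw [hcm2.mul_pow, ← pow_mul, ← pow_mul]
  constructor
  · intro x hx
    induction hx using Subgroup.closure_induction with
    | mem x hx => exact hx
    | one => simp
    | mul x y _ _ hx hy => rw [h4, hx, hy, one_mul]
    | inv x _ hx => rw [inv_pow, hx, inv_one]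
  · intro φ hφ
    -- key step
    have key : ∀ ψ : MulAut X, (∀ g : X, g ^ 4 = 1 → ψ g = g) → ∀ x : X, ψ (x ^ 2) = x ^ 2 →
        (ψ ^ 4) x = x := by
      intro ψ hψ x hx
      obtain ⟨z, hz⟩ : ∃ z, z = x⁻¹ * ψ x := ⟨_, rfl⟩
      have hxz : ψ x = x * z := by rw [hz]; group
      have h1 : (x * z) ^ 2 = x ^ 2 := by rw [← hxz, ← map_pow, hx]
      rw [hsq, mul_assoc, mul_eq_left] at h1
      have hz2 : z ^ 2 = ⁅z, x⁆⁻¹ := eq_inv_of_mul_eq_one_left h1
      have hz4 : z ^ 4 = 1 := by
        have e : z ^ 4 = (z ^ 2) ^ 2 := by rw [← pow_mul]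
        rw [e, hz2, inv_pow, hc2, inv_one]
      have hzf : ψ z = z := hψ z hz4
      have hk : ∀ k : ℕ, (ψ ^ k) x = x * z ^ k := by
        intro k
        induction k with
        | zero => simp
        | succ k ih =>
          rw [pow_succ', MulAut.mul_apply, ih, map_mul, map_pow, hzf, hxz, pow_succ', mul_assoc]
      rw [hk, hz4, mul_one]
    have main : ∀ k : ℕ, ∀ x : X, x ^ (2 ^ (k + 2)) = 1 → (φ ^ (4 ^ k)) x = x := by
      intro k
      induction k with
      | zero =>
        intro x hx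
        simpa using hφ x (by simpa using hx)
      | succ k ih =>
        intro x hx
        have e : φ ^ (4 ^ (k + 1)) = (φ ^ (4 ^ k)) ^ 4 := by rw [← pow_mul, pow_succ]
        rw [e]
        apply key
        · intro g hg
          have : ∀ j : ℕ, (φ ^ j) g = g := by
            intro j
            induction j with
            | zero => simp
            | succ j ihj => rw [pow_succ, MulAut.mul_apply, hφ g hg, ihj]
          exact this _
        · apply ih
          rw [← pow_mul, ← pow_succ']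
          exact hx
    obtain ⟨K, hK⟩ := IsPGroup.iff_card.mp hX
    refine ⟨2 * K, ?_⟩
    ext x
    have e : (2 : ℕ) ^ (2 * K) = 4 ^ K := by rw [pow_mul]; norm_num
    rw [e, MulAut.one_apply]
    apply main
    rw [pow_add, pow_mul, ← hK, pow_card_eq_one', one_pow]

end Cfsg.Agent.S1898
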