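import Cfsg.Statements.S1899
-- import your own Cfsg.Agent.* helpers here
import Mathlib

set_option autoImplicit false
open Cfsg

namespace Cfsg.Agent.S1899

/-- Let a dihedral group of order 2n, n odd and n > 1, act on a finite abelian 2-group A through automorphisms d and t with d^n = 1, t² = 1 and t d t⁻¹ = d⁻¹, and suppose that d fixes only the identity. Then A is the internal direct product of C_A(t) and its image under d. -/
theorem result {A : Type*} [CommGroup A] [Finite A] (hA : IsPGroup 2 A)
    {n : ℕ} (hn : Odd n) (hn1 : 1 < n) (d t : MulAut A) (hd : d ^ n = 1) (ht : t ^ 2 = 1) (hdt : t * d * t⁻¹ = d⁻¹)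
    (hfix : ∀ a : A, d a = a → a = 1) :
    (MulEquiv.toMonoidHom t).eqLocus (MonoidHom.id A) ⊓ ((MulEquiv.toMonoidHom t).eqLocus (MonoidHom.id A)).map d.toMonoidHom = ⊥ ∧
      (MulEquiv.toMonoidHom t).eqLocus (MonoidHom.id A) ⊔ ((MulEquiv.toMonoidHom t).eqLocus (MonoidHom.id A)).map d.toMonoidHom = ⊤ := by
  classical
  -- basic relations
  have htt : ∀ a : A, t (t a) = a := by
    intro a
    have := congrArg (fun f : MulAut A => f a) ht
    simpa [pow_two, MulAut.mul_apply] using this
  have htd : ∀ a : A, t (d a) = d⁻¹ (t a) := by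
    intro a
    have h1 : t * d = d⁻¹ * t := by
      rw [← hdt]; group
    have := congrArg (fun f : MulAut A => f a) h1
    simpa [MulAut.mul_apply] using this
  have htd' : ∀ a : A, t (d⁻¹ a) = d (t a) := by
    intro a
    have h1 : t * d⁻¹ = d * t := by
      have : d = t * d⁻¹ * t⁻¹ := by
        have h2 := congrArg (fun f => f⁻¹) hdt
        simp only [mul_inv_rev, inv_inv] at h2
        rw [mul_assoc]; exact h2.symm
      calc t * d⁻¹ = (t * d⁻¹ * t⁻¹) * t := by group
        _ = d * t := by rw [← this]
    have := congrArg (fun f : MulAut A => f a) h1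
    simpa [MulAut.mul_apply] using this
  have hdd : ∀ a : A, d (d a) = a → a = 1 := by
    intro a ha
    apply hfix
    obtain ⟨m, rfl⟩ := hn
    have h1 : ∀ k : ℕ, ((d ^ 2) ^ k) a = a := by
      intro k
      induction k with
      | zero => simp
      | succ k ih =>
        rw [pow_succ, MulAut.mul_apply]
        have : (d ^ 2) a = a := by simpa [pow_two, MulAut.mul_apply] using ha
        rw [this, ih]
    have h2 : (d ^ 2) ^ (m + 1) = d := by
      rw [← pow_mul]
      have : 2 * (m + 1) = (2 * m + 1) + 1 := by ring
      rw [this, pow_succ, hd, one_mul]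
    have := h1 (m + 1)
    rwa [h2] at this
  constructor
  · rw [eq_bot_iff]
    intro x hx
    obtain ⟨hx1, hx2⟩ := hx
    rw [Subgroup.mem_bot]
    have hx1' : t x = x := hx1
    obtain ⟨c, hc, rfl⟩ := hx2
    have hc' : t c = c := hc
    change t (d c) = d c at hx1'
    rw [htd, hc'] at hx1'
    -- d⁻¹ c = d c
    have : d (d c) = c := by
      rw [← hx1']; simp
    have hc1 := hdd c this
    subst hc1
    simp
  · rw [eq_top_iff]
    intro x _
    -- surjectivity of a ↦ a * (d (d a))⁻¹
    let f : A →* A :=
      { toFun := fun a => a * (d (d a))⁻¹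
        map_one' := by simp
        map_mul' := by
          intro a b
          simp only [map_mul, mul_inv_rev]
          rw [mul_comm (d (d b))⁻¹, mul_mul_mul_comm] }
    have hinj : Function.Injective f := by
      rw [injective_iff_map_eq_one]
      intro a ha
      apply hdd
      have : a * (d (d a))⁻¹ = 1 := ha
      rw [mul_inv_eq_one] at this
      exact this.symm
    have hsurj : Function.Surjective f := Finite.surjective_of_injective hinj
    obtain ⟨b, hb⟩ := hsurj x
    -- b = t a
    set a := t b with ha
    have hb' : t a = b := by rw [ha, htt]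
    have hx : x = (a * t a) * (d (d⁻¹ a * d (t a)))⁻¹ := by
      rw [← hb]
      change b * (d (d b))⁻¹ = _
      rw [hb']
      simp only [map_mul, MulAut.apply_inv_self, mul_inv_rev]
      rw [mul_comm a b, mul_assoc, mul_comm (d (d b))⁻¹, mul_inv_cancel_left]
    rw [hx]
    apply Subgroup.mul_mem
    · apply Subgroup.mem_sup_left
      change t (a * t a) = a * t a
      rw [map_mul, htt, mul_comm]
    · apply Subgroup.inv_mem
      apply Subgroup.mem_sup_right
      refine ⟨d⁻¹ a * d (t a), ?_, rfl⟩
      change t (d⁻¹ a * d (t a)) = d⁻¹ a * d (t a)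
      rw [map_mul, htd', htd, htt, mul_comm]

end Cfsg.Agent.S1899
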