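import Cfsg.Statements.S1900
-- import your own Cfsg.Agent.* helpers here
import Mathlib
import Cfsg.Agent.S0058
import Cfsg.Agent.Lib.Helper1.Coprime
import Cfsg.Agent.Lib.Helper1.CoprimeAbelian
import Cfsg.Agent.Lib.Helper1.ThreeSub

set_option autoImplicit false
open Cfsg

namespace Cfsg.Agent.S1900


open Subgroup
open scoped commutatorElement

variable {S : Type*} [Group S]

theorem cent_zpowers (a : S) : centralizer ({a} : Set S) = centralizer (zpowers a : Set S) := by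
  apply le_antisymm
  · intro g hg
    rw [mem_centralizer_singleton_iff] at hg
    rw [mem_centralizer_iff]
    intro h hh
    obtain ⟨k, rfl⟩ := mem_zpowers_iff.mp hh
    exact ((show Commute g a from hg).zpow_right k).eq.symm
  · apply centralizer_le
    intro x hx
    rw [Set.mem_singleton_iff] at hx
    rw [hx]
    exact mem_zpowers a

theorem zpowers_eq_of_prime [Finite S] {q : ℕ} [hq : Fact q.Prime] (X : Subgroup S)
    (hX : Nat.card X = q) (a : S) (ha : a ∈ X) (ha1 : a ≠ 1) : zpowers a = X := by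
  apply eq_of_le_of_card_ge (zpowers_le.mpr ha)
  rw [hX, Nat.card_zpowers]
  have h1 : orderOf a ∣ q := by
    rw [← hX]
    have := orderOf_dvd_natCard (⟨a, ha⟩ : X)
    rwa [Subgroup.orderOf_mk] at this
  rcases (Nat.dvd_prime hq.out).mp h1 with h | h
  · exact absurd (orderOf_eq_one_iff.mp h) ha1
  · exact h.ge

/-- the quotient argument -/
theorem cent_le [Finite S] (W W₀ A : Subgroup S) [hW : W.Normal] [hW₀ : W₀.Normal]
    (hcomm : ⁅W, W⁆ ≤ W₀) (hcop : (Nat.card A).Coprime (Nat.card W))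
    (hgen : W ≤ ⁅W, A⁆ ⊔ W₀) : W ⊓ centralizer (A : Set S) ≤ W₀ := by
  have hc : IsMulCommutative (W.map (QuotientGroup.mk' W₀)) := by
    refine ⟨⟨?_⟩⟩
    rintro ⟨_, x, hx, rfl⟩ ⟨_, y, hy, rfl⟩
    apply Subtype.ext
    change (QuotientGroup.mk' W₀) x * (QuotientGroup.mk' W₀) y =
      (QuotientGroup.mk' W₀) y * (QuotientGroup.mk' W₀) x
    rw [← map_mul, ← map_mul]
    apply QuotientGroup.eq.mpr
    have h1 : ⁅y⁻¹, x⁻¹⁆ ∈ W₀ :=
      hcomm (commutator_mem_commutator (W.inv_mem hy) (W.inv_mem hx))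
    have h2 : (x * y)⁻¹ * (y * x) = ⁅y⁻¹, x⁻¹⁆ := by
      simp only [commutatorElement_def]; group
    rw [h2]; exact h1
  have hn : (W.map (QuotientGroup.mk' W₀)).Normal := hW.map _ (QuotientGroup.mk'_surjective W₀)
  have hAV : A.map (QuotientGroup.mk' W₀) ≤
      normalizer ((W.map (QuotientGroup.mk' W₀) : Subgroup (S ⧸ W₀)) : Set (S ⧸ W₀)) := by
    rw [normalizer_eq_top]; exact le_top
  have hcop' : (Nat.card (A.map (QuotientGroup.mk' W₀))).Coprime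
      (Nat.card (W.map (QuotientGroup.mk' W₀))) :=
    Nat.Coprime.coprime_dvd_left (Subgroup.card_map_dvd _ _)
      (Nat.Coprime.coprime_dvd_right (Subgroup.card_map_dvd _ _) hcop)
  have h1 := Cfsg.Agent.Lib.Helper1.coprime_abelian_inf (A.map (QuotientGroup.mk' W₀))
    (W.map (QuotientGroup.mk' W₀)) hAV hcop'
  have h2 : W.map (QuotientGroup.mk' W₀) ≤
      ⁅W.map (QuotientGroup.mk' W₀), A.map (QuotientGroup.mk' W₀)⁆ := by
    rw [← map_commutator]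
    calc W.map (QuotientGroup.mk' W₀) ≤ (⁅W, A⁆ ⊔ W₀).map (QuotientGroup.mk' W₀) := map_mono hgen
      _ = _ := by rw [Subgroup.map_sup, QuotientGroup.map_mk'_self, sup_bot_eq]
  intro c hc'
  obtain ⟨hcW, hcA⟩ := mem_inf.mp hc'
  have h3 : (QuotientGroup.mk' W₀) c ∈ (W.map (QuotientGroup.mk' W₀) ⊓
      centralizer ((A.map (QuotientGroup.mk' W₀) : Subgroup (S ⧸ W₀)) : Set (S ⧸ W₀))) ⊓
      ⁅W.map (QuotientGroup.mk' W₀), A.map (QuotientGroup.mk' W₀)⁆ := by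
    refine mem_inf.mpr ⟨mem_inf.mpr ⟨mem_map_of_mem _ hcW, ?_⟩, h2 (mem_map_of_mem _ hcW)⟩
    rw [mem_centralizer_iff]
    rintro _ ⟨a, ha, rfl⟩
    rw [← map_mul, ← map_mul, mem_centralizer_iff.mp hcA a ha]
  rw [h1, mem_bot] at h3
  exact (QuotientGroup.eq_one_iff c).mp h3

/-- three subgroups step -/
theorem three_step (C₁ C₂ Xa N : Subgroup S) (h1 : ⁅Xa, C₁⁆ = ⊥) (h2 : ⁅C₂, Xa⁆ = C₂)
    (n1 : C₁ ≤ normalizer (N : Set S)) (n2 : C₂ ≤ normalizer (N : Set S))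
    (n3 : Xa ≤ normalizer (N : Set S)) (h3 : ⁅⁅C₁, C₂⁆, Xa⁆ ≤ N) : ⁅C₂, C₁⁆ ≤ N := by
  have := Cfsg.Agent.Lib.Helper1.commutator_commutator_le_of_rotate' C₂ Xa C₁ N n2 n3 n1
    (by rw [h1, commutator_bot_left]; exact bot_le) h3
  rwa [h2] at this

/-- Let S = PQ be a finite group with P a normal Sylow p-subgroup and Q elementary abelian of order q², q a prime different from p. If exactly two subgroups X₁, X₂ of order q in Q have a nontrivial centralizer in P, then P is the internal direct product of C_P(X₁) and C_P(X₂): they commute elementwise, meet trivially and generate P. -/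
theorem result {S : Type*} [Group S] [Finite S] {p q : ℕ} [Fact p.Prime] [Fact q.Prime] (hpq : p ≠ q)
    (P : Sylow p S) [(P : Subgroup S).Normal] (Q : Subgroup S) (hQ : Cfsg.IsElementaryAbelian q Q) (hQc : Nat.card Q = q ^ 2)
    (hS : (P : Subgroup S) ⊔ Q = ⊤)
    (X₁ X₂ : Subgroup S) (h₁ : X₁ ≤ Q) (h₂ : X₂ ≤ Q) (h₁₂ : X₁ ≠ X₂) (hc₁ : Nat.card X₁ = q) (hc₂ : Nat.card X₂ = q)
    (hf₁ : (P : Subgroup S) ⊓ Subgroup.centralizer (X₁ : Set S) ≠ ⊥)
    (hf₂ : (P : Subgroup S) ⊓ Subgroup.centralizer (X₂ : Set S) ≠ ⊥)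
    (honly : ∀ X : Subgroup S, X ≤ Q → Nat.card X = q →
      (P : Subgroup S) ⊓ Subgroup.centralizer (X : Set S) ≠ ⊥ → X = X₁ ∨ X = X₂) :
    ⁅(P : Subgroup S) ⊓ Subgroup.centralizer (X₁ : Set S), (P : Subgroup S) ⊓ Subgroup.centralizer (X₂ : Set S)⁆ = ⊥ ∧
      ((P : Subgroup S) ⊓ Subgroup.centralizer (X₁ : Set S)) ⊓ ((P : Subgroup S) ⊓ Subgroup.centralizer (X₂ : Set S)) = ⊥ ∧
      ((P : Subgroup S) ⊓ Subgroup.centralizer (X₁ : Set S)) ⊔ ((P : Subgroup S) ⊓ Subgroup.centralizer (X₂ : Set S)) = P := by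
  classical
  have hp : p.Prime := Fact.out
  have hq : q.Prime := Fact.out
  have hPn : (P : Subgroup S).Normal := inferInstance
  have hQc' : IsMulCommutative Q := hQ.1
  have hQcomm : ∀ a ∈ Q, ∀ b ∈ Q, a * b = b * a := fun a ha b hb =>
    congrArg Subtype.val (hQ.1.is_comm.comm ⟨a, ha⟩ ⟨b, hb⟩)
  -- coprimality
  have hcopQ : (Nat.card Q).Coprime p := by
    rw [hQc]
    exact Nat.Coprime.pow_left _ ((Nat.coprime_primes hq hp).mpr (Ne.symm hpq))
  have cop : ∀ A K : Subgroup S, A ≤ Q → K ≤ (P : Subgroup S) →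
      (Nat.card A).Coprime (Nat.card K) := by
    intro A K hA hK
    exact Cfsg.Agent.Lib.Helper1.coprime_card_of_isPGroup
      (Nat.Coprime.coprime_dvd_left (Subgroup.card_dvd_of_le hA) hcopQ) (P.2.to_le hK)
  have solv : ∀ K : Subgroup S, K ≤ (P : Subgroup S) → Group.IsSolvable K := fun K hK =>
    Cfsg.Agent.Lib.Helper1.isSolvable_of_isPGroup (P.2.to_le hK)
  -- Q is not cyclic
  have hQnc : ¬ IsCyclic Q := by
    intro hcyc
    obtain ⟨g, hg⟩ := hcyc.exists_generator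
    have h1 : orderOf g = Nat.card Q := orderOf_eq_card_of_forall_mem_zpowers hg
    have h2 : g ^ q = 1 := Subtype.ext (by simpa using hQ.2 g g.2)
    have h3 := orderOf_le_of_pow_eq_one hq.pos h2
    rw [h1, hQc] at h3
    nlinarith [hq.one_lt]
  -- order q
  have hzq : ∀ a ∈ Q, a ≠ 1 → Nat.card (Subgroup.zpowers a) = q := by
    intro a ha ha1
    rw [Nat.card_zpowers]
    exact orderOf_eq_prime (hQ.2 a ha) ha1
  have hgenK : ∀ K : Subgroup S, K ≤ (P : Subgroup S) → Q ≤ Subgroup.normalizer (K : Set S) →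
      (⨆ a ∈ {a : S | a ∈ Q ∧ a ≠ 1}, K ⊓ Subgroup.centralizer {a}) = K := fun K hK hQK =>
    Cfsg.Agent.S0058.result Q K hQnc hQK (cop Q K le_rfl hK)
  have htriv : ∀ a ∈ Q, a ≠ 1 → Subgroup.zpowers a ≠ X₁ → Subgroup.zpowers a ≠ X₂ →
      (P : Subgroup S) ⊓ Subgroup.centralizer {a} = ⊥ := by
    intro a ha ha1 h1 h2
    by_contra hne
    rw [cent_zpowers] at hne
    rcases honly _ (Subgroup.zpowers_le.mpr ha) (hzq a ha ha1) hne with h | h
    · exact h1 h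
    · exact h2 h
  have hQP : Q ≤ Subgroup.normalizer ((P : Subgroup S) : Set S) := by
    rw [Subgroup.normalizer_eq_top]; exact le_top
  -- generation
  have hgen : ((P : Subgroup S) ⊓ Subgroup.centralizer (X₁ : Set S)) ⊔
      ((P : Subgroup S) ⊓ Subgroup.centralizer (X₂ : Set S)) = P := by
    apply le_antisymm (sup_le inf_le_left inf_le_left)
    conv_lhs => rw [← hgenK P le_rfl hQP]
    apply iSup₂_le
    rintro a ⟨ha, ha1⟩
    by_cases h1 : Subgroup.zpowers a = X₁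
    · rw [cent_zpowers, h1]; exact le_sup_left
    · by_cases h2 : Subgroup.zpowers a = X₂
      · rw [cent_zpowers, h2]; exact le_sup_right
      · rw [htriv a ha ha1 h1 h2]; exact bot_le
  -- generators
  obtain ⟨x₁, hx₁, hx₁1⟩ : ∃ x ∈ X₁, x ≠ 1 := by
    by_contra hcon
    push Not at hcon
    have : X₁ = ⊥ := (Subgroup.eq_bot_iff_forall _).mpr hcon
    rw [this] at hc₁
    simp only [Subgroup.card_bot] at hc₁
    exact hq.one_lt.ne hc₁
  obtain ⟨x₂, hx₂, hx₂1⟩ : ∃ x ∈ X₂, x ≠ 1 := by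
    by_contra hcon
    push Not at hcon
    have : X₂ = ⊥ := (Subgroup.eq_bot_iff_forall _).mpr hcon
    rw [this] at hc₂
    simp only [Subgroup.card_bot] at hc₂
    exact hq.one_lt.ne hc₂
  have hX₁ := zpowers_eq_of_prime X₁ hc₁ x₁ hx₁ hx₁1
  have hX₂ := zpowers_eq_of_prime X₂ hc₂ x₂ hx₂ hx₂1
  have hx₂X₁ : x₂ ∉ X₁ := fun h => h₁₂ ((zpowers_eq_of_prime X₁ hc₁ x₂ h hx₂1).symm.trans hX₂)
  have hx₁X₂ : x₁ ∉ X₂ := fun h => h₁₂ (hX₁.symm.trans (zpowers_eq_of_prime X₂ hc₂ x₁ h hx₁1))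
  -- trivial intersection
  have hint : ((P : Subgroup S) ⊓ Subgroup.centralizer (X₁ : Set S)) ⊓
      ((P : Subgroup S) ⊓ Subgroup.centralizer (X₂ : Set S)) = ⊥ := by
    have hx3Q : x₁ * x₂ ∈ Q := Q.mul_mem (h₁ hx₁) (h₂ hx₂)
    have hx31 : x₁ * x₂ ≠ 1 := by
      intro h
      apply hx₂X₁
      have : x₂ = x₁⁻¹ := eq_inv_of_mul_eq_one_right h
      rw [this]; exact X₁.inv_mem hx₁
    have h3 := htriv (x₁ * x₂) hx3Q hx31 (by
      intro h
      apply hx₂X₁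
      have h4 : x₁ * x₂ ∈ X₁ := by rw [← h]; exact Subgroup.mem_zpowers _
      have : x₂ = x₁⁻¹ * (x₁ * x₂) := by group
      rw [this]; exact X₁.mul_mem (X₁.inv_mem hx₁) h4) (by
      intro h
      apply hx₁X₂
      have h4 : x₁ * x₂ ∈ X₂ := by rw [← h]; exact Subgroup.mem_zpowers _
      have : x₁ = (x₁ * x₂) * x₂⁻¹ := by group
      rw [this]; exact X₂.mul_mem h4 (X₂.inv_mem hx₂))
    rw [eq_bot_iff, ← h3]
    intro g hg
    obtain ⟨hg1, hg2⟩ := Subgroup.mem_inf.mp hg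
    obtain ⟨hgP, hgc1⟩ := Subgroup.mem_inf.mp hg1
    obtain ⟨-, hgc2⟩ := Subgroup.mem_inf.mp hg2
    refine Subgroup.mem_inf.mpr ⟨hgP, ?_⟩
    rw [Subgroup.mem_centralizer_singleton_iff]
    have e1 := Subgroup.mem_centralizer_iff.mp hgc1 x₁ hx₁
    have e2 := Subgroup.mem_centralizer_iff.mp hgc2 x₂ hx₂
    calc g * (x₁ * x₂) = (g * x₁) * x₂ := by group
      _ = (x₁ * g) * x₂ := by rw [e1]
      _ = x₁ * (g * x₂) := by group
      _ = x₁ * (x₂ * g) := by rw [e2]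
      _ = _ := by group
  refine ⟨?_, hint, hgen⟩
  -- commuting
  set C₁ := (P : Subgroup S) ⊓ Subgroup.centralizer (X₁ : Set S) with hC₁
  set C₂ := (P : Subgroup S) ⊓ Subgroup.centralizer (X₂ : Set S) with hC₂
  by_contra hWne
  have hQC : ∀ X : Subgroup S, X ≤ Q →
      Q ≤ Subgroup.normalizer (((P : Subgroup S) ⊓ Subgroup.centralizer (X : Set S) : Subgroup S) : Set S) := by
    intro X hX
    rw [Subgroup.le_normalizer_iff]
    intro g hg k hk
    obtain ⟨hkP, hkc⟩ := Subgroup.mem_inf.mp hk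
    refine Subgroup.mem_inf.mpr ⟨hPn.conj_mem k hkP g, ?_⟩
    rw [Subgroup.mem_centralizer_iff]
    intro x hx
    have e1 := Subgroup.mem_centralizer_iff.mp hkc x hx
    have e2 := hQcomm g hg x (hX hx)
    calc x * (g * k * g⁻¹) = (x * g) * k * g⁻¹ := by group
      _ = (g * x) * k * g⁻¹ := by rw [e2]
      _ = g * (x * k) * g⁻¹ := by group
      _ = g * (k * x) * g⁻¹ := by rw [e1]
      _ = g * k * (g⁻¹ * (g * x) * g⁻¹) := by group
      _ = g * k * (g⁻¹ * (x * g) * g⁻¹) := by rw [e2]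
      _ = _ := by group
  have hWP : ⁅C₁, C₂⁆ ≤ (P : Subgroup S) :=
    (Subgroup.commutator_mono inf_le_left inf_le_left).trans (Subgroup.commutator_le_left _ _)
  have hWn : (⁅C₁, C₂⁆ : Subgroup S).Normal := by
    rw [← Subgroup.normalizer_eq_top_iff, eq_top_iff, ← hS, ← hgen]
    refine sup_le (sup_le (Subgroup.normalizer_commutator_ge_left _ _)
      (Subgroup.normalizer_commutator_ge_right _ _)) ?_
    exact Cfsg.Agent.Lib.Helper1.le_normalizer_commutator (hQC X₁ h₁) (hQC X₂ h₂)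
  have hW₀n : (⁅⁅C₁, C₂⁆, (P : Subgroup S)⁆ : Subgroup S).Normal := inferInstance
  have hlt : ⁅⁅C₁, C₂⁆, (P : Subgroup S)⁆ < ⁅C₁, C₂⁆ :=
    Cfsg.Agent.Lib.Helper1.commutator_lt_of_isPGroup (P.2.to_le hWP) P.2
      (by rw [Subgroup.normalizer_eq_top]; exact le_top) hWne
  -- normalizer facts for N
  have hNnorm : ∀ Xa : Subgroup S, (P : Subgroup S) ≤ Subgroup.normalizer
      ((⁅⁅C₁, C₂⁆, Xa⁆ ⊔ ⁅⁅C₁, C₂⁆, (P : Subgroup S)⁆ : Subgroup S) : Set S) := by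
    intro Xa
    rw [Subgroup.le_normalizer_iff]
    intro g hg n hn
    have hnW : n ∈ ⁅C₁, C₂⁆ :=
      (sup_le (Subgroup.commutator_le_left _ _) hlt.le) hn
    have e : g * n * g⁻¹ = (⁅n, g⁆)⁻¹ * n := by
      simp only [commutatorElement_def]; group
    rw [e]
    exact Subgroup.mul_mem _ (Subgroup.inv_mem _ (Subgroup.mem_sup_right
      (Subgroup.commutator_mem_commutator hnW hg))) hn
  have hNnorm' : ∀ Xa : Subgroup S, Xa ≤ Subgroup.normalizer
      ((⁅⁅C₁, C₂⁆, Xa⁆ ⊔ ⁅⁅C₁, C₂⁆, (P : Subgroup S)⁆ : Subgroup S) : Set S) := by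
    intro Xa
    refine le_trans ?_ (Subgroup.normalizer_inf_normalizer_le_normalizer_sup _ _)
    refine le_inf (Subgroup.normalizer_commutator_ge_right _ _) ?_
    rw [Subgroup.normalizer_eq_top]; exact le_top
  have hfix : ∀ (Ca Cb Xa : Subgroup S), Xa ≤ Q → Ca = (P : Subgroup S) ⊓ Subgroup.centralizer (Xa : Set S) →
      Cb ≤ (P : Subgroup S) → Q ≤ Subgroup.normalizer (Cb : Set S) → Ca ⊓ Cb = ⊥ → ⁅Cb, Xa⁆ = Cb := by
    intro Ca Cb Xa hXa hCa hCb hQCb hdis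
    have h1 := Cfsg.Agent.Lib.Helper1.coprime_factor Xa Cb (hXa.trans hQCb) (cop Xa Cb hXa hCb)
      (Or.inr (solv Cb hCb))
    have h2 : Cb ⊓ Subgroup.centralizer (Xa : Set S) = ⊥ := by
      rw [eq_bot_iff, ← hdis, hCa]
      exact le_inf (le_inf (inf_le_left.trans hCb) inf_le_right) inf_le_left
    rwa [h2, sup_bot_eq] at h1
  have hcentX : ∀ Xa : Subgroup S, ⁅Xa, (P : Subgroup S) ⊓ Subgroup.centralizer (Xa : Set S)⁆ = ⊥ := by
    intro Xa
    rw [Subgroup.commutator_eq_bot_iff_le_centralizer, Subgroup.le_centralizer_iff]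
    exact inf_le_right
  have hWa : ∀ a ∈ Q, a ≠ 1 →
      ⁅C₁, C₂⁆ ≤ ⁅⁅C₁, C₂⁆, Subgroup.zpowers a⁆ ⊔ ⁅⁅C₁, C₂⁆, (P : Subgroup S)⁆ := by
    intro a ha ha1
    by_cases h1 : Subgroup.zpowers a = X₁
    · rw [h1]
      conv_lhs => rw [Subgroup.commutator_comm]
      exact three_step C₁ C₂ X₁ _ (hcentX X₁)
        (hfix C₁ C₂ X₁ h₁ rfl inf_le_left (hQC X₂ h₂) hint)
        (inf_le_left.trans (hNnorm X₁)) (inf_le_left.trans (hNnorm X₁)) (hNnorm' X₁) le_sup_left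
    · by_cases h2 : Subgroup.zpowers a = X₂
      · rw [h2]
        have := three_step C₂ C₁ X₂ (⁅⁅C₁, C₂⁆, X₂⁆ ⊔ ⁅⁅C₁, C₂⁆, (P : Subgroup S)⁆) (hcentX X₂)
          (hfix C₂ C₁ X₂ h₂ rfl inf_le_left (hQC X₁ h₁) (by rw [inf_comm]; exact hint))
          (inf_le_left.trans (hNnorm X₂)) (inf_le_left.trans (hNnorm X₂)) (hNnorm' X₂)
          (by rw [Subgroup.commutator_comm C₂ C₁]; exact le_sup_left)
        exact this
      · have h3 := Cfsg.Agent.Lib.Helper1.coprime_factor (Subgroup.zpowers a) ⁅C₁, C₂⁆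
          (by rw [Subgroup.normalizer_eq_top]; exact le_top)
          (cop _ _ (Subgroup.zpowers_le.mpr ha) hWP) (Or.inr (solv _ hWP))
        have h4 : ⁅C₁, C₂⁆ ⊓ Subgroup.centralizer (Subgroup.zpowers a : Set S) = ⊥ := by
          rw [eq_bot_iff, ← htriv a ha ha1 h1 h2, cent_zpowers]
          exact inf_le_inf_right _ hWP
        rw [h4, sup_bot_eq] at h3
        rw [h3]; exact le_sup_left
  have hcomm : ⁅⁅C₁, C₂⁆, ⁅C₁, C₂⁆⁆ ≤ ⁅⁅C₁, C₂⁆, (P : Subgroup S)⁆ :=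
    Subgroup.commutator_mono le_rfl hWP
  have hfin : ⁅C₁, C₂⁆ ≤ ⁅⁅C₁, C₂⁆, (P : Subgroup S)⁆ := by
    conv_lhs => rw [← hgenK ⁅C₁, C₂⁆ hWP (by rw [Subgroup.normalizer_eq_top]; exact le_top)]
    apply iSup₂_le
    rintro a ⟨ha, ha1⟩
    rw [cent_zpowers]
    exact cent_le ⁅C₁, C₂⁆ ⁅⁅C₁, C₂⁆, (P : Subgroup S)⁆ (Subgroup.zpowers a) hcomm
      (cop _ _ (Subgroup.zpowers_le.mpr ha) hWP) (hWa a ha ha1)
  exact absurd hfin (not_le_of_gt hlt)

end Cfsg.Agent.S1900
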