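import Cfsg.Statements.S1901
-- import your own Cfsg.Agent.* helpers here
import Mathlib
import Cfsg.Agent.Lib.Helper5.PSolv
import Cfsg.Agent.Lib.Helper13.Centric

set_option autoImplicit false
open Cfsg

namespace Cfsg.Agent.S1901

open scoped commutatorElement
open Cfsg.Agent.Lib.Helper13

universe u

theorem exists_normal_of_isPSolvable {G : Type u} [Group G] [Finite G] {p : ℕ} [Fact p.Prime]
    (hG : Cfsg.IsPSolvable p G) :
    (⊤ : Subgroup G) = ⊥ ∨ ∃ M : Subgroup G, M.Normal ∧ M ≠ ⊥ ∧ (IsPGroup p M ∨ (Nat.card M).Coprime p) := by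
  obtain ⟨n, H, h0, hn, hmono, hnorm, hfac⟩ := hG
  have key : ∀ i : Fin (n + 1), H i = ⊥ ∨
      ∃ M : Subgroup G, M.Normal ∧ M ≠ ⊥ ∧ (IsPGroup p M ∨ (Nat.card M).Coprime p) := by
    intro i
    induction i using Fin.induction with
    | zero => exact Or.inl h0
    | succ i ih =>
      rcases ih with ih | ih
      · by_cases hb : H i.succ = ⊥
        · exact Or.inl hb
        · right
          refine ⟨H i.succ, hnorm _, hb, ?_⟩
          have := hfac i
          rw [ih, Subgroup.relIndex_bot_left] at this
          rcases this with ⟨m, hm⟩ | hc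
          · exact Or.inl (IsPGroup.of_card hm)
          · exact Or.inr hc
      · exact Or.inr ih
  have := key (Fin.last n)
  rwa [hn] at this

theorem key (p : ℕ) [Fact p.Prime] : ∀ (n : ℕ) (G : Type u) [Group G] [Finite G], Nat.card G = n →
    Cfsg.IsPSolvable p G → ∀ (P Q : Subgroup G), IsPGroup p P → ¬ p ∣ P.index → ¬ p ∣ Nat.card Q →
    Q ≤ Subgroup.normalizer (P : Set G) → ∀ x ∈ Subgroup.normalizer (Q : Set G), (∃ k : ℕ, x ^ (p ^ k) = 1) →
    x ∈ Subgroup.centralizer (Q : Set G) := by
  intro n
  induction n using Nat.strong_induction_on with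
  | _ n ih =>
    intro G _ _ hcard hG P Q hP hPi hQ hQP x hx ⟨k, hk⟩
    have hpp : p.Prime := Fact.out
    have hQcop : (Nat.card Q).Coprime p := ((Nat.Prime.coprime_iff_not_dvd hpp).mpr hQ).symm
    rcases exists_normal_of_isPSolvable hG with htriv | ⟨M, hMn, hMne, hM⟩
    · have : Subsingleton G := by
        rw [← Subgroup.subsingleton_iff] 
        exact subsingleton_of_bot_eq_top htriv.symm
      rw [Subgroup.mem_centralizer_iff]
      intro y _
      exact Subsingleton.elim _ _
    · set π := QuotientGroup.mk' M with hπ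
      have hπs : Function.Surjective π := QuotientGroup.mk'_surjective M
      have hlt : Nat.card (G ⧸ M) < n := by
        rw [← hcard, Subgroup.card_eq_card_quotient_mul_card_subgroup M]
        have h1 : 1 < Nat.card M := by
          rw [Finite.one_lt_card_iff_nontrivial]
          exact (Subgroup.nontrivial_iff_ne_bot M).mpr hMne
        have h2 : 0 < Nat.card (G ⧸ M) := Nat.card_pos
        nlinarith
      have hbar := ih _ hlt (G ⧸ M) rfl (Cfsg.Agent.Lib.Helper5.isPSolvable_of_surjective π hπs hG)
        (P.map π) (Q.map π) (hP.map π) (fun h => hPi (h.trans (Subgroup.index_map_dvd P hπs)))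
        (fun h => hQ (h.trans (Subgroup.card_map_dvd Q π)))
        ((Subgroup.map_mono hQP).trans (Subgroup.le_normalizer_map π))
        (π x) (Subgroup.le_normalizer_map π ⟨x, hx, rfl⟩) ⟨k, by rw [← map_pow, hk, map_one]⟩
      have hcM : ∀ y ∈ Q, ⁅x, y⁆ ∈ M := by
        intro y hy
        have := (Subgroup.mem_centralizer_iff.mp hbar) (π y) ⟨y, hy, rfl⟩
        apply (QuotientGroup.eq_one_iff _).mp
        change π ⁅x, y⁆ = 1
        rw [map_commutatorElement, commutatorElement_eq_one_iff_mul_comm]
        exact this.symm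
      have hcQ : ∀ y ∈ Q, ⁅x, y⁆ ∈ Q := by
        intro y hy
        rw [commutatorElement_def]
        exact Q.mul_mem ((Subgroup.mem_normalizer_iff.mp hx y).mp hy) (Q.inv_mem hy)
      have hfin : (∀ y ∈ Q, ⁅x, y⁆ = 1) → x ∈ Subgroup.centralizer (Q : Set G) := by
        intro h
        rw [Subgroup.mem_centralizer_iff]
        intro y hy
        exact (commutatorElement_eq_one_iff_mul_comm.mp (h y hy)).symm
      apply hfin
      rcases hM with hMp | hMc
      · -- M a p-group
        have hdisj : Q ⊓ M = ⊥ := by
          obtain ⟨j, hj⟩ := IsPGroup.iff_card.mp hMp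
          have : (Nat.card Q).Coprime (Nat.card M) := by
            rw [hj]; exact Nat.Coprime.pow_right j hQcop
          exact (Subgroup.disjoint_of_coprime_natCard this).eq_bot
        intro y hy
        have : ⁅x, y⁆ ∈ Q ⊓ M := ⟨hcQ y hy, hcM y hy⟩
        rwa [hdisj, Subgroup.mem_bot] at this
      · -- M a p'-group
        set Q₁ := Q ⊓ M with hQ₁
        have hPM : P ⊓ M = ⊥ := by
          obtain ⟨j, hj⟩ := IsPGroup.iff_card.mp hP
          have : (Nat.card P).Coprime (Nat.card M) := by
            rw [hj]; exact (Nat.Coprime.pow_right j hMc).symm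
          exact (Subgroup.disjoint_of_coprime_natCard this).eq_bot
        have h1 : P ≤ Subgroup.centralizer (Q₁ : Set G) := by
          intro u hu
          rw [Subgroup.mem_centralizer_iff]
          intro y hy
          have hyP : y ∈ Subgroup.normalizer (P : Set G) := hQP hy.1
          have hm : ⁅y, u⁆ ∈ P ⊓ M := by
            constructor
            · rw [commutatorElement_def]
              exact P.mul_mem ((Subgroup.mem_normalizer_iff.mp hyP u).mp hu) (P.inv_mem hu)
            · rw [commutatorElement_def, mul_assoc, mul_assoc, ← mul_assoc u]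
              exact M.mul_mem hy.2 (hMn.conj_mem _ (M.inv_mem hy.2) u)
          rw [hPM, Subgroup.mem_bot] at hm
          exact commutatorElement_eq_one_iff_mul_comm.mp hm
        have h2 : x ∈ Subgroup.normalizer (Q₁ : Set G) := by
          rw [mem_normalizer_iff_cj, hQ₁, cj_inf, mem_normalizer_iff_cj.mp hx]
          congr 1
          exact mem_normalizer_iff_cj.mp (by rw [Subgroup.normalizer_eq_top]; trivial)
        have h3 : x ∈ Subgroup.centralizer (Q₁ : Set G) := by
          have hPN : P ≤ Subgroup.normalizer (Q₁ : Set G) := h1.trans (centralizer_le_normalizer'' Q₁)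
          have hxp : IsPGroup p (Subgroup.zpowers x) := by
            rintro ⟨z, hz⟩
            obtain ⟨j, rfl⟩ := Subgroup.mem_zpowers_iff.mp hz
            refine ⟨k, ?_⟩
            apply Subtype.ext
            change (x ^ j) ^ (p ^ k) = 1
            rw [← zpow_natCast, ← zpow_mul, mul_comm, zpow_mul, zpow_natCast, hk, one_zpow]
          obtain ⟨m, hm, hle⟩ := exists_cj_le_of_sylow (H := Subgroup.normalizer (Q₁ : Set G)) hP
            (fun h => hPi (h.trans (Subgroup.relIndex_dvd_index_of_le hPN)))
            (Subgroup.zpowers_le.mpr h2) hxp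
          have h4 : m⁻¹ * x * m ∈ Subgroup.centralizer (Q₁ : Set G) :=
            h1 (hle (conj_mem_cj (Subgroup.mem_zpowers x)))
          have h5 : x ∈ cj (Subgroup.centralizer (Q₁ : Set G)) m⁻¹ := by
            rw [mem_cj, inv_inv]; exact h4
          rwa [cj_centralizer, mem_normalizer_iff_cj.mp (inv_mem hm)] at h5
        intro y hy
        set z := ⁅x, y⁆ with hz
        have hzQ₁ : z ∈ Q₁ := ⟨hcQ y hy, hcM y hy⟩
        have hxz : x * z * x⁻¹ = z := by
          have := (Subgroup.mem_centralizer_iff.mp h3) z hzQ₁
          rw [← this, mul_inv_cancel_right]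
        have hxy : x * y * x⁻¹ = z * y := by
          rw [hz, commutatorElement_def]; group
        have hpow : ∀ j : ℕ, x ^ j * y * (x ^ j)⁻¹ = z ^ j * y := by
          intro j
          induction j with
          | zero => simp
          | succ j ihj =>
            have hxzj : x * z ^ j * x⁻¹ = z ^ j := by
              rw [← conj_pow, hxz]
            calc x ^ (j + 1) * y * (x ^ (j + 1))⁻¹ = x * (x ^ j * y * (x ^ j)⁻¹) * x⁻¹ := by
                  rw [pow_succ']; group
              _ = x * (z ^ j * y) * x⁻¹ := by rw [ihj]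
              _ = (x * z ^ j * x⁻¹) * (x * y * x⁻¹) := by group
              _ = z ^ j * (z * y) := by rw [hxzj, hxy]
              _ = z ^ (j + 1) * y := by rw [pow_succ]; group
        have hzk : z ^ (p ^ k) = 1 := by
          have := hpow (p ^ k)
          rw [hk] at this
          simpa using this.symm
        have hzc : z ^ (Nat.card Q) = 1 := by
          have : (⟨z, hzQ₁.1⟩ : Q) ^ Nat.card Q = 1 := pow_card_eq_one'
          exact congrArg Subtype.val this
        have hd1 := orderOf_dvd_of_pow_eq_one hzk
        have hd2 := orderOf_dvd_of_pow_eq_one hzc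
        have hcop : (p ^ k).Coprime (Nat.card Q) := (Nat.Coprime.pow_right k hQcop).symm
        have := Nat.eq_one_of_dvd_coprimes hcop hd1 hd2
        exact orderOf_eq_one_iff.mp this

/-- Let G be a finite p-solvable group and Q a subgroup of order prime to p such that p divides the index of C_G(Q) in N_G(Q). Then Q normalizes no Sylow p-subgroup of G. -/
theorem result {G : Type*} [Group G] [Finite G] {p : ℕ} [Fact p.Prime]
    (hG : Cfsg.IsPSolvable p G) (Q : Subgroup G) (hQ : ¬ p ∣ Nat.card Q)
    (hA : p ∣ (Subgroup.centralizer (Q : Set G)).relIndex (Subgroup.normalizer (Q : Set G)))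
    (P : Sylow p G) : ¬ Q ≤ Subgroup.normalizer ((P : Subgroup G) : Set G) := by
  intro hQP
  classical
  obtain ⟨T⟩ : Nonempty (Sylow p (Subgroup.normalizer (Q : Set G))) := inferInstance
  have hle : (T : Subgroup (Subgroup.normalizer (Q : Set G))) ≤
      (Subgroup.centralizer (Q : Set G)).subgroupOf (Subgroup.normalizer (Q : Set G)) := by
    rintro ⟨x, hx⟩ hxT
    rw [Subgroup.mem_subgroupOf]
    obtain ⟨k, hk⟩ := T.2 ⟨⟨x, hx⟩, hxT⟩
    exact key p _ G rfl hG P Q P.2 P.not_dvd_index hQ hQP x hx
      ⟨k, by
        have h1 := congrArg Subtype.val hk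
        have h2 := congrArg Subtype.val h1
        simpa using h2⟩
  exact T.not_dvd_index (hA.trans (Subgroup.index_dvd_of_le hle))

end Cfsg.Agent.S1901
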