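import Cfsg.Statements.S1905
-- import your own Cfsg.Agent.* helpers here
import Mathlib
import Cfsg.Agent.S1225
import Cfsg.Agent.S0208
import Cfsg.Agent.S0209
import Cfsg.Agent.Lib.Helper13.Control

set_option autoImplicit false
open Cfsg

namespace Cfsg.Agent.S1905

open Cfsg.Agent.Lib.Helper13

theorem orderOf_conj' {G : Type*} [Group G] (g x : G) : orderOf (g * x * g⁻¹) = orderOf x := by
  have hs : SemiconjBy g x (g * x * g⁻¹) := by unfold SemiconjBy; group
  exact hs.orderOf_eq.symm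

theorem exists_involution_of_even {G : Type*} [Group G] [Finite G] (H : Subgroup G) (h : Even (Nat.card H)) :
    ∃ i ∈ H, orderOf i = 2 := by
  have : Fact (Nat.Prime 2) := ⟨Nat.prime_two⟩
  obtain ⟨x, hx⟩ := exists_prime_orderOf_dvd_card' (G := H) 2 (even_iff_two_dvd.mp h)
  exact ⟨x, x.2, by rw [← hx]; exact (Subgroup.orderOf_coe x)⟩

theorem not_mem_of_odd {G : Type*} [Group G] [Finite G] (H : Subgroup G) (h : Odd (Nat.card H)) (i : G)
    (hi : orderOf i = 2) : i ∉ H := by
  intro hiH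
  have h1 : orderOf (⟨i, hiH⟩ : H) ∣ Nat.card H := orderOf_dvd_natCard _
  rw [Subgroup.orderOf_mk, hi] at h1
  exact (Nat.not_even_iff_odd.mpr h) (even_iff_two_dvd.mpr h1)

/-- Let M be a subgroup of even order of a finite group S such that M contains the centralizer in S of each of its involutions and the normal core of M in S has odd order. Then all involutions of S are conjugate. If moreover N_S(X) ≤ M for a Sylow 2-subgroup X of M and I is an involution in the centre of X, then all involutions of M are conjugate in M and M = M₀ C_M(I) for some subgroup M₀ of M of odd order. -/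
theorem result {S : Type*} [Group S] [Finite S] (M : Subgroup S) (hM : Even (Nat.card M))
    (hC : ∀ i ∈ M, orderOf i = 2 → Subgroup.centralizer ({i} : Set S) ≤ M) (hcore : Odd (Nat.card M.normalCore)) :
    (∀ x y : S, orderOf x = 2 → orderOf y = 2 → IsConj x y) ∧
      ∀ (X : Sylow 2 M) (I : M), I ∈ (Subgroup.center ↥(X : Subgroup ↥M)).map (X : Subgroup ↥M).subtype → orderOf I = 2 →
        Subgroup.normalizer (((X : Subgroup M).map M.subtype : Subgroup S) : Set S) ≤ M →
        (∀ x y : M, orderOf x = 2 → orderOf y = 2 → IsConj x y) ∧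
          ∃ M₀ : Subgroup M, Odd (Nat.card M₀) ∧
            ∀ m : M, ∃ a ∈ M₀, ∃ c ∈ Subgroup.centralizer ({I} : Set M), m = a * c := by
  classical
  obtain ⟨i, hiM, hi⟩ := exists_involution_of_even M hM
  -- every involution is conjugate to `i`
  have hconj : ∀ j : S, orderOf j = 2 → IsConj i j := by
    intro j hj
    by_contra hnc
    apply not_mem_of_odd _ hcore j hj
    rw [Subgroup.normalCore, Subgroup.mem_mk]
    intro s
    change s * j * s⁻¹ ∈ M
    -- work with j' = s j s⁻¹
    set j' := s * j * s⁻¹ with hj'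
    have hj'o : orderOf j' = 2 := by rw [hj', orderOf_conj', hj]
    have heven : Even (orderOf (i * j')) := by
      by_contra hodd
      rw [Nat.not_even_iff_odd] at hodd
      obtain ⟨d, -, hd⟩ := Cfsg.Agent.S0208.result i j' hi hj'o hodd
      apply hnc
      rw [isConj_iff]
      refine ⟨s⁻¹ * d, ?_⟩
      calc s⁻¹ * d * i * (s⁻¹ * d)⁻¹ = s⁻¹ * (d * i * d⁻¹) * s := by group
        _ = s⁻¹ * j' * s := by rw [hd]
        _ = j := by rw [hj']; group
    obtain ⟨hk, hki, hkj⟩ := Cfsg.Agent.S0209.result i j' hi hj'o heven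
    set k := (i * j') ^ (orderOf (i * j') / 2) with hkdef
    have hkM : k ∈ M := hC i hiM hi (Subgroup.mem_centralizer_singleton_iff.mpr hki.eq)
    exact hC k hkM hk (Subgroup.mem_centralizer_singleton_iff.mpr hkj.eq.symm)
  refine ⟨fun x y hx hy => (hconj x hx).symm.trans (hconj y hy), ?_⟩
  intro X I hI hIo hN
  have : Fact (Nat.Prime 2) := ⟨Nat.prime_two⟩
  set X' := (X : Subgroup M).map M.subtype with hX'
  have hX'M : X' ≤ M := Subgroup.map_subtype_le _
  have hX'p : IsPGroup 2 X' := X.2.map _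
  have hX'i : ¬ 2 ∣ X'.relIndex M := by
    have : X'.relIndex M = (X : Subgroup M).index := by
      rw [Subgroup.relIndex, hX', Subgroup.subgroupOf, Subgroup.comap_map_eq_self_of_injective M.subtype_injective]
    rw [this]; exact X.not_dvd_index
  have hIo' : orderOf (I : S) = 2 := by rw [Subgroup.orderOf_coe, hIo]
  obtain ⟨⟨I₀, hI₀X⟩, hI₀c, hI₀⟩ := hI
  have hIX' : (I : S) ∈ X' := ⟨I, by rw [← hI₀]; exact hI₀X, rfl⟩
  have hIcen : ∀ x ∈ X', x * (I : S) = (I : S) * x := by
    rintro _ ⟨x, hx, rfl⟩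
    have h1 := (Subgroup.mem_center_iff.mp hI₀c) ⟨x, hx⟩
    have h2 := congrArg (fun z : (X : Subgroup M) => ((z : M) : S)) h1
    have h3 : I₀ = I := hI₀
    simp only [Subgroup.coe_mul] at h2
    rw [h3] at h2
    exact h2
  -- strongly embedded
  have hkey : ∀ g : S, ∀ k ∈ M, orderOf k = 2 → g⁻¹ * k * g ∈ M → g ∈ M := by
    intro g k hkM hk hkg
    have hzp : IsPGroup 2 (Subgroup.zpowers (g⁻¹ * k * g)) := by
      apply IsPGroup.of_card (n := 1)
      have : g⁻¹ * k * g = g⁻¹ * k * g⁻¹⁻¹ := by rw [inv_inv]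
      rw [Nat.card_zpowers, this, orderOf_conj', hk, pow_one]
    obtain ⟨m, hm, hle⟩ := exists_cj_le_of_sylow hX'p hX'i (Subgroup.zpowers_le.mpr hkg) hzp
    -- m⁻¹ g⁻¹ k g m ∈ X'
    have h1 : m⁻¹ * (g⁻¹ * k * g) * m ∈ X' := hle (conj_mem_cj (Subgroup.mem_zpowers _))
    set a := g * m with ha
    have h1' : a⁻¹ * k * a ∈ X' := by
      have e : a⁻¹ * k * a = m⁻¹ * (g⁻¹ * k * g) * m := by rw [ha]; group
      rw [e]; exact h1
    set z := a * (I : S) * a⁻¹ with hz
    have hzo : orderOf z = 2 := by rw [hz, orderOf_conj', hIo']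
    have hzk : z * k = k * z := by
      have h2 := hIcen _ h1'
      calc z * k = a * ((I : S) * (a⁻¹ * k * a)) * a⁻¹ := by rw [hz]; group
        _ = a * ((a⁻¹ * k * a) * (I : S)) * a⁻¹ := by rw [h2]
        _ = k * z := by rw [hz]; group
    have hzM : z ∈ M := hC k hkM hk (Subgroup.mem_centralizer_singleton_iff.mpr hzk)
    have hX2 : cj X' a⁻¹ ≤ M := by
      intro x hx
      rw [mem_cj, inv_inv] at hx
      apply hC z hzM hzo
      rw [Subgroup.mem_centralizer_singleton_iff]
      have h2 := hIcen _ hx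
      calc x * z = a * ((a⁻¹ * x * a) * (I : S)) * a⁻¹ := by rw [hz]; group
        _ = a * ((I : S) * (a⁻¹ * x * a)) * a⁻¹ := by rw [h2]
        _ = z * x := by rw [hz]; group
    obtain ⟨m', hm', hle'⟩ := exists_cj_le_of_sylow hX'p hX'i hX2 (isPGroup_cj hX'p _)
    rw [cj_cj] at hle'
    have h3 : a⁻¹ * m' ∈ Subgroup.normalizer (X' : Set S) :=
      mem_normalizer_iff_cj.mpr (cj_eq_of_le_of_finite hle')
    have h4 := hN h3
    have h5 : a ∈ M := by
      have := M.mul_mem hm' (M.inv_mem h4)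
      have e : m' * (a⁻¹ * m')⁻¹ = a := by group
      rwa [e] at this
    have := M.mul_mem h5 (M.inv_mem hm)
    rwa [ha, mul_inv_cancel_right] at this
  have hMtop : M ≠ ⊤ := by
    intro h
    apply not_mem_of_odd _ hcore i hi
    rw [h, Subgroup.normalCore_eq_self]
    trivial
  have hSE : Cfsg.IsStronglyEmbedded M := by
    refine ⟨hMtop, hM, fun g hg => ?_⟩
    by_contra hodd
    rw [Nat.not_odd_iff_even] at hodd
    obtain ⟨k, hk, hko⟩ := exists_involution_of_even _ hodd
    apply hg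
    apply hkey g k hk.1 hko
    obtain ⟨y, hy, e⟩ := hk.2
    rw [← e]
    change g⁻¹ * (g * y * g⁻¹) * g ∈ M
    have e2 : g⁻¹ * (g * y * g⁻¹) * g = y := by group
    rw [e2]; exact hy
  -- an involution outside `M`
  obtain ⟨u, hu, huM⟩ : ∃ u : S, orderOf u = 2 ∧ u ∉ M := by
    by_contra hcon
    push Not at hcon
    apply not_mem_of_odd _ hcore i hi
    rw [Subgroup.normalCore, Subgroup.mem_mk]
    intro s
    exact hcon _ (by rw [orderOf_conj', hi])
  set D := M ⊓ M.map (MulAut.conj u).toMonoidHom with hD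
  have htrans : ∀ s t : M, orderOf s = 2 → orderOf t = 2 → ∃ d : M, d ∈ D.subgroupOf M ∧ d * s * d⁻¹ = t := by
    intro s t hs ht
    obtain ⟨d, hd, e⟩ := (Cfsg.Agent.S1225.result M hSE u hu huM s t (by rw [Subgroup.orderOf_coe, hs]) s.2
      (by rw [Subgroup.orderOf_coe, ht]) t.2).1
    exact ⟨⟨d, hd.1⟩, Subgroup.mem_subgroupOf.mpr hd, Subtype.ext e⟩
  refine ⟨fun x y hx hy => ?_, D.subgroupOf M, ?_, fun m => ?_⟩
  · obtain ⟨d, -, e⟩ := htrans x y hx hy
    exact isConj_iff.mpr ⟨d, e⟩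
  · rw [Nat.card_congr (Subgroup.subgroupOfEquivOfLe (inf_le_left : D ≤ M)).toEquiv]
    exact hSE.2.2 u huM
  · obtain ⟨d, hd, e⟩ := htrans I (m * I * m⁻¹) hIo (by rw [orderOf_conj', hIo])
    refine ⟨d, hd, d⁻¹ * m, ?_, by group⟩
    rw [Subgroup.mem_centralizer_singleton_iff]
    calc d⁻¹ * m * I = d⁻¹ * (m * I * m⁻¹) * m := by group
      _ = d⁻¹ * (d * I * d⁻¹) * m := by rw [e]
      _ = I * (d⁻¹ * m) := by group

end Cfsg.Agent.S1905
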