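import Cfsg.Statements.S1907
-- import your own Cfsg.Agent.* helpers here
import Mathlib
import Cfsg.Agent.Lib.Helper13.PPrimeP

set_option autoImplicit false
open Cfsg

namespace Cfsg.Agent.S1907

open Cfsg.Agent.Lib.Helper13
open scoped commutatorElement

theorem partA {G : Type*} [Group G] [Finite G] {p : ℕ} [Fact p.Prime] (H : Subgroup G) (hHp : IsPGroup p H) :
    ∀ y ∈ Subgroup.normalizer (H : Set G), (∃ k : ℕ, orderOf y = p ^ k) →
      ∀ d ∈ Cfsg.pPrimeCore p G, d⁻¹ * y * d ∈ Subgroup.normalizer (H : Set G) →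
        ∃ d₁ ∈ Cfsg.pPrimeCore p G ⊓ Subgroup.centralizer ({y} : Set G),
          ∃ d₂ ∈ Cfsg.pPrimeCore p G ⊓ Subgroup.centralizer (H : Set G), d = d₁ * d₂ := by
  classical
  intro y hy ⟨k, hk⟩ d hd hyd
  set D := Cfsg.pPrimeCore p G with hD
  have hDn : D.Normal := inferInstance
  have hDc : (Nat.card D).Coprime p := Cfsg.Agent.Lib.Helper5.pPrimeCore_coprime
  have hnD : ∀ K : Subgroup G, K ≤ Subgroup.normalizer (D : Set G) := by
    intro K; rw [Subgroup.normalizer_eq_top]; exact le_top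
  have hzp : ∀ z : G, orderOf z = p ^ k → IsPGroup p (Subgroup.zpowers z) := by
    intro z hz
    apply IsPGroup.of_card (n := k)
    rw [Nat.card_zpowers, hz]
  have hord : orderOf (d⁻¹ * y * d) = p ^ k := by
    have hs : SemiconjBy d⁻¹ y (d⁻¹ * y * d) := by
      unfold SemiconjBy; group
    rw [← hs.orderOf_eq, hk]
  set Y := H ⊔ Subgroup.zpowers y with hY
  set Y' := H ⊔ Subgroup.zpowers (d⁻¹ * y * d) with hY'
  have hYp : IsPGroup p Y := hHp.to_sup_of_normal_left' (hzp y hk) (Subgroup.zpowers_le.mpr hy)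
  have hY'p : IsPGroup p Y' := hHp.to_sup_of_normal_left' (hzp _ hord) (Subgroup.zpowers_le.mpr hyd)
  have hYN : Y ≤ Subgroup.normalizer (H : Set G) := sup_le Subgroup.le_normalizer (Subgroup.zpowers_le.mpr hy)
  have hY'N : Y' ≤ Subgroup.normalizer (H : Set G) :=
    sup_le Subgroup.le_normalizer (Subgroup.zpowers_le.mpr hyd)
  set X := D ⊔ Y with hX
  have hyY : y ∈ Y := Subgroup.mem_sup_right (Subgroup.mem_zpowers y)
  have hY'X : Y' ≤ X := by
    refine sup_le (le_sup_left.trans le_sup_right) (Subgroup.zpowers_le.mpr ?_)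
    exact X.mul_mem (X.mul_mem (X.inv_mem (Subgroup.mem_sup_left hd)) (Subgroup.mem_sup_right hyY))
      (Subgroup.mem_sup_left hd)
  have hsyl : ¬ p ∣ Y.relIndex X := by
    have h1 : Y.relIndex X = Y.relIndex D := by
      rw [hX, sup_comm]; exact (relIndex_eq_relIndex_sup' Y D).symm
    rw [h1, ← Subgroup.inf_relIndex_right]
    intro h
    have h2 : (Y ⊓ D).relIndex D ∣ Nat.card D := Subgroup.relIndex_dvd_card _ _
    exact (Nat.Prime.coprime_iff_not_dvd Fact.out).mp hDc.symm (h.trans h2)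
  have hsyl2 : ¬ p ∣ Y.relIndex (X ⊓ Subgroup.normalizer (H : Set G)) := by
    intro h
    apply hsyl
    rw [← Subgroup.relIndex_mul_relIndex Y (X ⊓ Subgroup.normalizer (H : Set G)) X
      (le_inf le_sup_right hYN) inf_le_left]
    exact h.mul_right _
  obtain ⟨u, hu, hle⟩ := exists_cj_le_of_sylow hYp hsyl2 (le_inf hY'X hY'N) hY'p
  have huX : u ∈ D ⊔ Y := hu.1
  rw [Cfsg.Agent.Lib.Helper9.mem_sup_of_le_normalizer (hnD _)] at huX
  obtain ⟨e, he, t, ht, rfl⟩ := huX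
  have hle2 : cj Y' e ≤ Y := by
    have h1 := cj_mono hle t⁻¹
    rw [cj_cj, cj_eq_self_of_mem (Y.inv_mem ht)] at h1
    have e1 : e * t * t⁻¹ = e := by group
    rwa [e1] at h1
  have heN : e ∈ Subgroup.normalizer (H : Set G) := by
    have hu2 : e * t ∈ Subgroup.normalizer (H : Set G) := hu.2
    have := mul_mem hu2 (inv_mem (hYN ht))
    rwa [mul_inv_cancel_right] at this
  have heC : e ∈ Subgroup.centralizer (H : Set G) := pp_normalizer_le_centralizer hHp ⟨he, heN⟩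
  have h1 : e⁻¹ * (d⁻¹ * y * d) * e ∈ Y :=
    hle2 (conj_mem_cj (Subgroup.mem_sup_right (Subgroup.mem_zpowers _)))
  have hf : y⁻¹ * (e⁻¹ * (d⁻¹ * y * d) * e) ∈ Y ⊓ D := by
    refine ⟨Y.mul_mem (Y.inv_mem hyY) h1, ?_⟩
    have e2 : y⁻¹ * (e⁻¹ * (d⁻¹ * y * d) * e) = (y⁻¹ * (d * e)⁻¹ * y⁻¹⁻¹) * (d * e) := by group
    rw [e2]
    exact D.mul_mem (hDn.conj_mem _ (D.inv_mem (D.mul_mem hd he)) _) (D.mul_mem hd he)
  rw [disjoint_pGroup_coprime hYp hDc, Subgroup.mem_bot] at hf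
  refine ⟨d * e, ⟨D.mul_mem hd he, ?_⟩, e⁻¹, ⟨D.inv_mem he, (Subgroup.centralizer (H : Set G)).inv_mem heC⟩,
    by group⟩
  change d * e ∈ Subgroup.centralizer ({y} : Set G)
  rw [Subgroup.mem_centralizer_singleton_iff]
  have h3 : e⁻¹ * (d⁻¹ * y * d) * e = y := by
    have := inv_mul_eq_one.mp hf
    exact this.symm
  calc d * e * y = d * e * (e⁻¹ * (d⁻¹ * y * d) * e) := by rw [h3]
    _ = y * (d * e) := by group

/-- Let P be a Sylow p-subgroup of a finite group G, H = P ∩ O_{p',p}(G), N = N_G(H) and D = O_{p'}(G). (a) If y is an element of p-power order of N and d ∈ D with d⁻¹ y d ∈ N, then d = d₁ d₂ with d₁ ∈ C_D(y) and d₂ ∈ C_D(H). (b) Two elements of P that are conjugate in G are conjugate in N. -/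
theorem result {G : Type*} [Group G] [Finite G] {p : ℕ} [Fact p.Prime] (P : Sylow p G) :
    (∀ y ∈ Subgroup.normalizer (((P : Subgroup G) ⊓ Cfsg.pPrimePCore p G : Subgroup G) : Set G), (∃ k : ℕ, orderOf y = p ^ k) →
      ∀ d ∈ Cfsg.pPrimeCore p G, d⁻¹ * y * d ∈ Subgroup.normalizer (((P : Subgroup G) ⊓ Cfsg.pPrimePCore p G : Subgroup G) : Set G) →
        ∃ d₁ ∈ Cfsg.pPrimeCore p G ⊓ Subgroup.centralizer ({y} : Set G),
          ∃ d₂ ∈ Cfsg.pPrimeCore p G ⊓ Subgroup.centralizer (((P : Subgroup G) ⊓ Cfsg.pPrimePCore p G : Subgroup G) : Set G), d = d₁ * d₂) ∧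
    ∀ x y : G, x ∈ (P : Subgroup G) → y ∈ (P : Subgroup G) → IsConj x y →
      ∃ n ∈ Subgroup.normalizer (((P : Subgroup G) ⊓ Cfsg.pPrimePCore p G : Subgroup G) : Set G), n * x * n⁻¹ = y := by
  classical
  set H := (P : Subgroup G) ⊓ Cfsg.pPrimePCore p G with hH
  have hHp : IsPGroup p H := P.2.to_le inf_le_left
  refine ⟨partA H hHp, ?_⟩
  intro x y hx hy hxy
  obtain ⟨g, hg⟩ := isConj_iff.mp hxy
  have hLn := Cfsg.Agent.Lib.Helper10.pPrimePCore_normal (X := G) p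
  have hPN : (P : Subgroup G) ≤ Subgroup.normalizer (H : Set G) := by
    intro s hs
    rw [mem_normalizer_iff_cj, hH, cj_inf, cj_eq_self_of_mem hs]
    congr 1
    exact mem_normalizer_iff_cj.mp (by rw [Subgroup.normalizer_eq_top]; trivial)
  obtain ⟨d, hd, hgd⟩ := pp_frattini P g
  -- g = (g d) d⁻¹
  have h1 : d⁻¹ * x * d ∈ Subgroup.normalizer (H : Set G) := by
    have e : d⁻¹ * x * d = (g * d)⁻¹ * y * (g * d) := by rw [← hg]; group
    rw [e]
    exact mul_mem (mul_mem (inv_mem hgd) (hPN hy)) hgd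
  obtain ⟨k, hk⟩ := (IsPGroup.iff_orderOf.mp P.2) ⟨x, hx⟩
  have hk' : orderOf x = p ^ k := by
    rw [← hk]; exact (Subgroup.orderOf_mk x hx).symm
  obtain ⟨d₁, hd₁, d₂, hd₂, e⟩ := partA H hHp x (hPN hx) ⟨k, hk'⟩ d hd h1
  refine ⟨g * d * d₂⁻¹, mul_mem hgd (inv_mem (centralizer_le_normalizer'' H hd₂.2)), ?_⟩
  have hc : d₁ * x = x * d₁ := Subgroup.mem_centralizer_singleton_iff.mp hd₁.2
  have e2 : g * d * d₂⁻¹ = g * d₁ := by rw [e]; group
  rw [e2, ← hg]
  calc g * d₁ * x * (g * d₁)⁻¹ = g * (d₁ * x) * d₁⁻¹ * g⁻¹ := by group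
    _ = g * (x * d₁) * d₁⁻¹ * g⁻¹ := by rw [hc]
    _ = g * x * g⁻¹ := by group

end Cfsg.Agent.S1907
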