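import Cfsg.Statements.S1924
-- import your own Cfsg.Agent.* helpers here
import Cfsg.Agent.Lib.Helper17.Syl
import Mathlib

set_option autoImplicit false
open Cfsg

namespace Cfsg.Agent.S1924

open Subgroup Cfsg.Agent.Lib.Helper17

universe u

theorem sign_semireg {α : Type*} [Fintype α] [DecidableEq α] (σ : Equiv.Perm α) (k m : ℕ)
    (hm : Odd m) (hpow : σ ^ (2 ^ (k + 1)) = 1) (hfix : ∀ x, (σ ^ (2 ^ k)) x ≠ x)
    (hcard : Fintype.card α = m * 2 ^ (k + 1)) : Equiv.Perm.sign σ = -1 := by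
  have hall : ∀ n ∈ σ.cycleType, n = 2 ^ (k + 1) := by
    intro n hn
    have hd : n ∣ 2 ^ (k + 1) :=
      (Equiv.Perm.dvd_of_mem_cycleType hn).trans (orderOf_dvd_of_pow_eq_one hpow)
    obtain ⟨a, ha, rfl⟩ := (Nat.dvd_prime_pow Nat.prime_two).mp hd
    by_contra hne
    have ha' : a ≤ k := by
      rcases Nat.lt_or_ge k a with h | h
      · exfalso
        apply hne
        congr 1
        omega
      · exact h
    rw [Equiv.Perm.cycleType_def, Multiset.mem_map] at hn
    obtain ⟨c, hc, hcard'⟩ := hn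
    have hc' : c ∈ σ.cycleFactorsFinset := hc
    obtain ⟨hcyc, hagree⟩ := Equiv.Perm.mem_cycleFactorsFinset_iff.mp hc'
    obtain ⟨x, hx⟩ := hcyc.nonempty_support
    have hceq := Equiv.Perm.cycle_is_cycleOf hx hc'
    have hord : orderOf c = 2 ^ a := by rw [hcyc.orderOf]; exact hcard'
    have h1 : (c ^ (2 ^ a)) = 1 := by rw [← hord]; exact pow_orderOf_eq_one c
    have h2 : (σ ^ (2 ^ a)) x = x := by
      rw [← Equiv.Perm.cycleOf_pow_apply_self, ← hceq, h1]
      rfl
    apply hfix x
    have h3 : σ ^ (2 ^ k) = (σ ^ (2 ^ a)) ^ (2 ^ (k - a)) := by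
      rw [← pow_mul, ← pow_add]
      congr 2
      omega
    rw [h3]
    exact Equiv.Perm.pow_apply_eq_self_of_apply_eq_self h2 _
  have hrep : σ.cycleType = Multiset.replicate (Multiset.card σ.cycleType) (2 ^ (k + 1)) :=
    Multiset.eq_replicate_card.mpr hall
  have hsupp : σ.support = Finset.univ := by
    ext x
    simp only [Equiv.Perm.mem_support, Finset.mem_univ, iff_true]
    intro hx
    exact hfix x (Equiv.Perm.pow_apply_eq_self_of_apply_eq_self hx _)
  have hsum := Equiv.Perm.sum_cycleType σ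
  rw [hsupp, Finset.card_univ, hcard] at hsum
  have hs2 : σ.cycleType.sum = Multiset.card σ.cycleType * 2 ^ (k + 1) := by
    conv_lhs => rw [hrep]
    rw [Multiset.sum_replicate, smul_eq_mul]
  have hr : Multiset.card σ.cycleType = m :=
    Nat.eq_of_mul_eq_mul_right (by positivity) (hs2.symm.trans hsum)
  rw [Equiv.Perm.sign_of_cycleType, hsum, hr]
  have hodd : Odd (m * 2 ^ (k + 1) + m) :=
    Even.add_odd (Even.mul_left (Nat.even_pow.mpr ⟨even_two, by omega⟩) m) hm
  exact hodd.neg_one_pow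

/-- sign of the action on cosets -/
noncomputable def sgn {H : Type*} [Group H] [Finite H] (Q : Subgroup H) : H →* ℤˣ :=
  letI := Classical.decEq (H ⧸ Q)
  letI := Fintype.ofFinite (H ⧸ Q)
  Equiv.Perm.sign.comp (MulAction.toPermHom H (H ⧸ Q))

theorem sgn_eq {H : Type*} [Group H] [Finite H] (Q : Subgroup H) (c : H) (k m : ℕ) (hm : Odd m)
    (hc : orderOf c = 2 ^ (k + 1)) (hnf : ∀ h : H, h * c ^ (2 ^ k) * h⁻¹ ∉ Q)
    (hcard : Nat.card H = m * Nat.card Q * 2 ^ (k + 1)) : sgn Q c = -1 := by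
  let _ := Classical.decEq (H ⧸ Q)
  let _ := Fintype.ofFinite (H ⧸ Q)
  change Equiv.Perm.sign (MulAction.toPermHom H (H ⧸ Q) c) = -1
  apply sign_semireg _ k m hm
  · rw [← map_pow, ← hc, pow_orderOf_eq_one, map_one]
  · intro x
    rw [← map_pow]
    induction x using QuotientGroup.induction_on with
    | H g =>
      intro h
      apply hnf g⁻¹
      have h1 : ((c ^ (2 ^ k) * g : H) : H ⧸ Q) = (g : H ⧸ Q) := h
      rw [QuotientGroup.eq] at h1
      have h2 := Q.inv_mem h1
      simpa [mul_assoc] using h2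
  · rw [← Nat.card_eq_fintype_card]
    have h1 : Q.index * Nat.card Q = Nat.card H := Subgroup.index_mul_card Q
    have h2 : 0 < Nat.card Q := Nat.card_pos
    have h3 : Q.index * Nat.card Q = (m * 2 ^ (k + 1)) * Nat.card Q := by
      rw [h1, hcard]; ring
    exact Nat.eq_of_mul_eq_mul_right h2 h3

theorem odd_mem_ker {H : Type*} [Group H] (ψ : H →* ℤˣ) (g : H) (hg : (orderOf g).Coprime 2) :
    g ∈ ψ.ker := by
  rw [MonoidHom.mem_ker]
  have h1 : ψ g ^ orderOf g = 1 := by rw [← map_pow, pow_orderOf_eq_one, map_one]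
  have h2 : ψ g ^ 2 = 1 := Int.units_sq _
  have h3 := pow_gcd_eq_one.mpr ⟨h1, h2⟩
  have h4 : (orderOf g).gcd 2 = 1 := hg
  rwa [h4, pow_one] at h3

theorem res_le_ker {H : Type*} [Group H] (ψ : H →* ℤˣ) : pResidual 2 H ≤ ψ.ker :=
  pResidual_le_iff.mpr (odd_mem_ker ψ)

theorem ker_res {H : Type*} [Group H] (ψ : H →* ℤˣ) :
    (pResidual 2 ψ.ker).map ψ.ker.subtype = pResidual 2 H := by
  rw [pResidual_map_subtype]
  unfold pResidual
  congr 1
  ext g
  exact ⟨fun h => h.2, fun h => ⟨odd_mem_ker ψ g h, h⟩⟩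

theorem ker_card {H : Type*} [Group H] [Finite H] (ψ : H →* ℤˣ) (h : ∃ c, ψ c = -1) :
    Nat.card ψ.ker * 2 = Nat.card H := by
  obtain ⟨c, hc⟩ := h
  have hidx : ψ.ker.index = 2 := by
    rw [Subgroup.index_ker]
    have hr : ψ.range = ⊤ := by
      rw [eq_top_iff]
      intro x _
      rcases Int.units_eq_one_or x with rfl | rfl
      · exact one_mem _
      · exact ⟨c, hc⟩
    rw [hr]
    simp
  rw [← hidx]
  exact Subgroup.card_mul_index _

theorem desc : ∀ (k : ℕ) (H : Type u) [Group H] [Finite H] (T : Subgroup H) (c : H) (m : ℕ),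
    Odd m → orderOf c = 2 ^ k → Nat.card H = m * Nat.card T * 2 ^ k → T ≤ pResidual 2 H →
    (∀ j, k = j + 1 → ∀ h : H, h * c ^ (2 ^ j) * h⁻¹ ∉ T) →
    Nat.card (pResidual 2 H) ∣ m * Nat.card T := by
  intro k
  induction k with
  | zero =>
    intro H _ _ T c m hm hc hcard hT _
    rw [pow_zero, mul_one] at hcard
    rw [← hcard]
    exact Subgroup.card_subgroup_dvd_card _
  | succ k ih =>
    intro H _ _ T c m hm hc hcard hT hnf
    have hs : sgn T c = -1 := sgn_eq T c k m hm hc (hnf k rfl) hcard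
    have hres := ker_res (sgn T)
    have hcardH₁ := ker_card (sgn T) ⟨c, hs⟩
    have hc2 : c ^ 2 ∈ (sgn T).ker := by
      rw [MonoidHom.mem_ker, map_pow, hs]
      simp
    have hTH₁ : T ≤ (sgn T).ker := hT.trans (res_le_ker (sgn T))
    have hcT : Nat.card (T.subgroupOf (sgn T).ker) = Nat.card T :=
      Nat.card_congr (Subgroup.subgroupOfEquivOfLe hTH₁).toEquiv
    have h5 := ih (sgn T).ker (T.subgroupOf (sgn T).ker) ⟨c ^ 2, hc2⟩ m hm
      (by
        rw [Subgroup.orderOf_mk, orderOf_pow_of_dvd (by norm_num) (by rw [hc]; exact Dvd.intro_left _ rfl),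
          hc, pow_succ]
        simp)
      (by
        rw [hcT]
        have h6 : Nat.card (sgn T).ker * 2 = (m * Nat.card T * 2 ^ k) * 2 := by
          rw [hcardH₁, hcard]; ring
        exact Nat.eq_of_mul_eq_mul_right (by norm_num) h6)
      (by
        intro y hy
        have h7 : (y : H) ∈ pResidual 2 H := hT (mem_subgroupOf.mp hy)
        rw [← hres] at h7
        obtain ⟨z, hz, hzy⟩ := h7
        have : z = y := Subtype.ext hzy
        exact this ▸ hz)
      (by
        intro j hj h hmem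
        subst hj
        apply hnf (j + 1) rfl (h : H)
        have h8 := mem_subgroupOf.mp hmem
        have h9 : c ^ 2 ^ (j + 1) = (c ^ 2) ^ 2 ^ j := by
          rw [← pow_mul, pow_succ']
        rw [h9]
        simpa using h8)
    rw [← hres, Subgroup.card_map_of_injective (sgn T).ker.subtype_injective]
    rwa [hcT] at h5

theorem dih_outside {n : ℕ} (C : Subgroup (DihedralGroup n)) (hC : IsCyclic C)
    (hi : C.index = 2) (d : DihedralGroup n) (hd : d ∉ C) : orderOf d = 2 := by
  cases d with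
  | sr i => exact DihedralGroup.orderOf_sr i
  | r i =>
    have hex : ∃ j, DihedralGroup.sr j ∈ C := by
      by_cases h0 : DihedralGroup.sr (0 : ZMod n) ∈ C
      · exact ⟨0, h0⟩
      · refine ⟨0 - i, ?_⟩
        have h3 := (Subgroup.mul_mem_iff_of_index_two hi (a := DihedralGroup.r i)
          (b := DihedralGroup.sr 0)).mpr (by simp [hd, h0])
        rwa [DihedralGroup.r_mul_sr] at h3
    obtain ⟨j, hj⟩ := hex
    obtain ⟨g, hg⟩ := hC.exists_generator
    have hcardC : Nat.card C * 2 = 2 * n := by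
      have h4 := Subgroup.card_mul_index C
      rwa [hi, DihedralGroup.nat_card] at h4
    rcases hgv : (g : DihedralGroup n) with a | b
    · exfalso
      obtain ⟨z, hz⟩ := Subgroup.mem_zpowers_iff.mp (hg ⟨_, hj⟩)
      have h5 := congrArg Subtype.val hz
      rw [Subgroup.coe_zpow, hgv, DihedralGroup.r_zpow] at h5
      simp at h5
    · have ho : orderOf g = 2 := by
        rw [← Subgroup.orderOf_coe, hgv]
        exact DihedralGroup.orderOf_sr b
      have h6 : orderOf g = Nat.card C := orderOf_eq_card_of_forall_mem_zpowers hg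
      have hn2 : n = 2 := by omega
      subst hn2
      apply orderOf_eq_prime
      · rw [sq, DihedralGroup.r_mul_r, CharTwo.add_self_eq_zero, DihedralGroup.r_zero]
      · intro h
        exact hd (h ▸ one_mem C)

theorem dih_outside' {D₀ : Type*} [Group D₀] {n : ℕ} (e : D₀ ≃* DihedralGroup n)
    (C₀ : Subgroup D₀) (hC : IsCyclic C₀) (hi : C₀.index = 2) (d : D₀) (hd : d ∉ C₀) :
    orderOf d = 2 := by
  have h1 := dih_outside (C₀.map (e : D₀ →* DihedralGroup n))
    (isCyclic_of_surjective (C₀.equivMapOfInjective (e : D₀ →* DihedralGroup n) e.injective)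
      (C₀.equivMapOfInjective (e : D₀ →* DihedralGroup n) e.injective).surjective)
    (by rw [Subgroup.index_map_equiv]; exact hi) (e d) (by
      rintro ⟨y, hy, hyd⟩
      have : y = d := e.injective hyd
      exact hd (this ▸ hy))
  rwa [MulEquiv.orderOf_eq] at h1

theorem card_lt' {G : Type*} [Group G] [Finite G] {A B : Subgroup G} (h : A ≤ B) (x : G)
    (hx : x ∈ B) (hx' : x ∉ A) : Nat.card A < Nat.card B := by
  by_contra hc
  push Not at hc
  have := Subgroup.eq_of_le_of_card_ge h hc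
  exact hx' (this ▸ hx)

theorem relIndex_mul_card' {G : Type*} [Group G] {A B : Subgroup G} (h : A ≤ B) :
    A.relIndex B * Nat.card A = Nat.card B := by
  have h1 := (A.subgroupOf B).index_mul_card
  rwa [Nat.card_congr (Subgroup.subgroupOfEquivOfLe h).toEquiv] at h1

/-- A consequence of Thompson's transfer lemma. Let G be a finite group, L a subgroup with O²(L) = L, T a Sylow 2-subgroup of L and S a Sylow 2-subgroup of G containing T. Suppose D ≤ S is a dihedral subgroup of order at least 4 (the four-group counts) with D ∩ T = 1 and S = TD as a set of products (so |S| = |T|·|D|), and C ≤ D is cyclic of index 2 in D. If no involution of D outside C is G-conjugate to an involution of the subgroup generated by T and C, and the involution of C is not G-conjugate to any involution of T, then G has a normal subgroup K, containing every Sylow 2-subgroup of L as a Sylow 2-subgroup, with G = KD. -/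
theorem result {G : Type*} [Group G] [Finite G] (L T S D C : Subgroup G) (hL : Cfsg.pResidual 2 ↥L = ⊤)
    (hTL : T ≤ L) (hT2 : IsPGroup 2 T) (hTsyl : ¬ 2 ∣ T.relIndex L)
    (hS2 : IsPGroup 2 S) (hSsyl : ¬ 2 ∣ S.index) (hTS : T ≤ S)
    (hDS : D ≤ S) (hDih : ∃ n : ℕ, 2 ≤ n ∧ Nonempty (↥D ≃* DihedralGroup n)) (hDT : D ⊓ T = ⊥) (hTD : T ⊔ D = S) (hTDc : Nat.card T * Nat.card D = Nat.card S)
    (hCD : C ≤ D) (hC : IsCyclic ↥C) (hCi : C.relIndex D = 2)
    (h1 : ∀ x ∈ D, x ∉ C → orderOf x = 2 → ∀ g : G, g * x * g⁻¹ ∈ T ⊔ C → False)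
    (h2 : ∀ c ∈ C, orderOf c = 2 → ∀ g : G, g * c * g⁻¹ ∈ T → False) :
    ∃ K : Subgroup G, K.Normal ∧ K ⊔ D = ⊤ ∧
      ∀ T' : Subgroup G, T' ≤ L → IsPGroup 2 T' → ¬ 2 ∣ T'.relIndex L → T' ≤ K ∧ ¬ 2 ∣ T'.relIndex K := by
  obtain ⟨n, hn, ⟨e⟩⟩ := hDih
  have hinv : ∀ d ∈ D, d ∉ C → orderOf d = 2 := by
    intro d hd hdC
    have hcyc : IsCyclic (C.subgroupOf D) :=
      isCyclic_of_surjective (subgroupOfEquivOfLe hCD).symm (subgroupOfEquivOfLe hCD).symm.surjective
    have h3 := dih_outside' e (C.subgroupOf D) hcyc hCi ⟨d, hd⟩ (by rwa [mem_subgroupOf])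
    rwa [Subgroup.orderOf_mk] at h3
  obtain ⟨x, hxD, hxC⟩ : ∃ x ∈ D, x ∉ C := by
    by_contra hcon
    push Not at hcon
    have h3 : D ≤ C := hcon
    rw [relIndex_eq_one.mpr h3] at hCi
    omega
  have hx2 := hinv x hxD hxC
  have hxQ : x ∉ T ⊔ C := fun h => h1 x hxD hxC hx2 1 (by simpa using h)
  have hQS : T ⊔ C ≤ S := sup_le hTS (hCD.trans hDS)
  have hcardD : Nat.card D = 2 * Nat.card C := by
    have h3 := relIndex_mul_card' hCD
    rw [hCi] at h3
    omega
  have hTC : T ⊓ C = ⊥ := by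
    rw [← le_bot_iff, ← hDT, inf_comm]
    exact inf_le_inf_right T hCD
  have hposT : 0 < Nat.card T := Nat.card_pos
  have hposC : 0 < Nat.card C := Nat.card_pos
  have hQge : Nat.card T * Nat.card C ≤ Nat.card (T ⊔ C : Subgroup G) := by
    have h3 : T.relIndex C = Nat.card C := by rw [← inf_relIndex_right, hTC, relIndex_bot_left]
    have h5 : T.relIndex (T ⊔ C) * Nat.card T = Nat.card (T ⊔ C : Subgroup G) :=
      relIndex_mul_card' le_sup_left
    have h6 : T.relIndex (T ⊔ C) ≠ 0 := by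
      intro h0
      rw [h0, zero_mul] at h5
      exact (Nat.card_pos (α := (T ⊔ C : Subgroup G))).ne h5
    have h4 : T.relIndex C ≤ T.relIndex (T ⊔ C) := relIndex_le_of_le_right le_sup_right h6
    rw [← h5, mul_comm, ← h3]
    exact Nat.mul_le_mul_right _ h4
  have hQlt : Nat.card (T ⊔ C : Subgroup G) < Nat.card S := card_lt' hQS x (hDS hxD) hxQ
  have hQcard : Nat.card (T ⊔ C : Subgroup G) = Nat.card T * Nat.card C := by
    obtain ⟨r, hr⟩ := card_dvd_of_le hQS
    have hr2 : 2 ≤ r := by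
      by_contra hlt
      have : r = 0 ∨ r = 1 := by omega
      rcases this with rfl | rfl
      · rw [mul_zero] at hr; omega
      · rw [mul_one] at hr; omega
    have h7 : Nat.card S = 2 * (Nat.card T * Nat.card C) := by
      rw [← hTDc, hcardD]; ring
    have h8 : Nat.card (T ⊔ C : Subgroup G) * 2 ≤ Nat.card (T ⊔ C : Subgroup G) * r :=
      Nat.mul_le_mul_left _ hr2
    omega
  have hm : Odd S.index := Nat.odd_iff.mpr (by omega)
  have hcardG : Nat.card G = S.index * Nat.card (T ⊔ C : Subgroup G) * 2 ^ (0 + 1) := by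
    rw [← S.index_mul_card, ← hTDc, hcardD, hQcard]; ring
  have hψ : ∀ y ∈ D, y ∉ C → sgn (T ⊔ C) y = -1 := by
    intro y hyD hyC
    have hy2 := hinv y hyD hyC
    exact sgn_eq (T ⊔ C) y 0 S.index hm (by simpa using hy2)
      (fun h hmem => h1 y hyD hyC hy2 h (by simpa using hmem)) hcardG
  obtain ⟨c0, hc0⟩ := hC.exists_generator
  have hc0ord : orderOf (c0 : G) = Nat.card C := by
    rw [Subgroup.orderOf_coe]
    exact orderOf_eq_card_of_forall_mem_zpowers hc0
  obtain ⟨k, hk⟩ := IsPGroup.iff_card.mp (hS2.to_le (hCD.trans hDS))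
  have hcker : (c0 : G) ∈ (sgn (T ⊔ C)).ker := by
    rw [MonoidHom.mem_ker]
    have h3 : (c0 : G) = x * (x⁻¹ * c0) := by group
    have h4 : x⁻¹ * (c0 : G) ∉ C := by
      intro h
      apply hxC
      have := C.mul_mem c0.2 (C.inv_mem h)
      simpa using this
    rw [h3, map_mul, hψ x hxD hxC, hψ _ (D.mul_mem (D.inv_mem hxD) (hCD c0.2)) h4]
    simp
  have hLK : L ≤ pResidual 2 G := by
    have h3 : (pResidual 2 L).map L.subtype ≤ pResidual 2 G :=
      pResidual_map_subtype_le_iff.mpr (fun g _ hc => mem_pResidual_of_coprime hc)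
    rwa [hL, ← MonoidHom.range_eq_map, L.range_subtype] at h3
  have hTK : T ≤ pResidual 2 G := hTL.trans hLK
  have hres := ker_res (sgn (T ⊔ C))
  have hcardG₁ := ker_card (sgn (T ⊔ C)) ⟨x, hψ x hxD hxC⟩
  have hTG₁ : T ≤ (sgn (T ⊔ C)).ker := hTK.trans (res_le_ker _)
  have hcT : Nat.card (T.subgroupOf (sgn (T ⊔ C)).ker) = Nat.card T :=
    Nat.card_congr (Subgroup.subgroupOfEquivOfLe hTG₁).toEquiv
  have h5 := desc k (sgn (T ⊔ C)).ker (T.subgroupOf (sgn (T ⊔ C)).ker) ⟨c0, hcker⟩ S.index hm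
    (by rw [Subgroup.orderOf_mk, hc0ord, hk])
    (by
      rw [hcT, ← hk]
      have h6 : Nat.card (sgn (T ⊔ C)).ker * 2 = (S.index * Nat.card T * Nat.card C) * 2 := by
        rw [hcardG₁, hcardG, hQcard]; ring
      exact Nat.eq_of_mul_eq_mul_right (by norm_num) h6)
    (by
      intro y hy
      have h7 : (y : G) ∈ pResidual 2 G := hTK (mem_subgroupOf.mp hy)
      rw [← hres] at h7
      obtain ⟨z, hz, hzy⟩ := h7
      have : z = y := Subtype.ext hzy
      exact this ▸ hz)
    (by
      intro j hj h hmem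
      have h8 := mem_subgroupOf.mp hmem
      have h9 : orderOf ((c0 : G) ^ 2 ^ j) = 2 := by
        rw [orderOf_pow_of_dvd (by positivity) (by
          rw [hc0ord, hk, hj]; exact pow_dvd_pow 2 (by omega)), hc0ord, hk, hj, pow_succ]
        exact Nat.mul_div_cancel_left 2 (by positivity)
      exact h2 _ (C.pow_mem c0.2 _) h9 (h : G) (by simpa using h8))
  rw [hcT] at h5
  have hcardK : Nat.card (pResidual 2 G) ∣ S.index * Nat.card T := by
    rw [← hres, Subgroup.card_map_of_injective (sgn (T ⊔ C)).ker.subtype_injective]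
    exact h5
  have hodd : ∀ T' : Subgroup G, T' ≤ pResidual 2 G → Nat.card T' = Nat.card T →
      ¬ 2 ∣ T'.relIndex (pResidual 2 G) := by
    intro T' hT' hc' hdvd
    have h6 := relIndex_mul_card' hT'
    rw [← h6, hc'] at hcardK
    have h7 : T'.relIndex (pResidual 2 G) ∣ S.index := Nat.dvd_of_mul_dvd_mul_right hposT hcardK
    exact hSsyl (hdvd.trans h7)
  refine ⟨pResidual 2 G, inferInstance, ?_, ?_⟩
  · have h6 : pResidual 2 G ⊔ S = ⊤ := by
      rw [← Subgroup.index_eq_one]
      have d1 : (pResidual 2 G ⊔ S).index ∣ (pResidual 2 G).index := index_dvd_of_le le_sup_left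
      have d2 : (pResidual 2 G ⊔ S).index ∣ S.index := index_dvd_of_le le_sup_right
      obtain ⟨a, ha⟩ := IsPGroup.iff_card.mp (pResidual_quotient_isPGroup (G := G) (p := 2))
      have ha' : (pResidual 2 G).index = 2 ^ a := ha
      rw [ha'] at d1
      obtain ⟨b, -, hb⟩ := (Nat.dvd_prime_pow Nat.prime_two).mp d1
      rcases Nat.eq_zero_or_pos b with rfl | hbpos
      · simpa using hb
      · exfalso
        apply hSsyl
        refine Dvd.dvd.trans ?_ d2
        rw [hb]
        exact dvd_pow_self 2 (by omega)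
    rw [← hTD, ← sup_assoc, sup_eq_left.mpr hTK] at h6
    exact h6
  · intro T' hT'L hT'2 hT'syl
    have s1 : IsSyl 2 T L := isSyl_of_not_dvd_relIndex hTL hT2 hTsyl
    have s2 : IsSyl 2 T' L := isSyl_of_not_dvd_relIndex hT'L hT'2 hT'syl
    exact ⟨hT'L.trans hLK, hodd T' (hT'L.trans hLK) (s1.card_eq s2)⟩

end Cfsg.Agent.S1924
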