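import Cfsg.Statements.S1939
-- import your own Cfsg.Agent.* helpers here

set_option autoImplicit false
open Cfsg

namespace Cfsg.Agent.S1939

/-- Let S be a Sylow p-subgroup of the finite group G and a an element of S that is the only G-conjugate of a lying in S. Then every power of a has the same property: for every n, the only G-conjugate of a^n lying in S is a^n. -/
theorem result {G : Type*} [Group G] [Finite G] {p : ℕ} [Fact p.Prime] (S : Sylow p G) (a : G)
    (haS : a ∈ (S : Subgroup G)) (hwc : ∀ g : G, g * a * g⁻¹ ∈ (S : Subgroup G) → g * a * g⁻¹ = a) (n : ℕ) :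
    ∀ g : G, g * a ^ n * g⁻¹ ∈ (S : Subgroup G) → g * a ^ n * g⁻¹ = a ^ n := by
  intro g hg
  have hcomm : ∀ s ∈ (S : Subgroup G), s * a = a * s := by
    intro s hs
    have h1 := hwc s ((S : Subgroup G).mul_mem ((S : Subgroup G).mul_mem hs haS) ((S : Subgroup G).inv_mem hs))
    calc s * a = (s * a * s⁻¹) * s := by group
      _ = a * s := by rw [h1]
  have hcommn : ∀ s ∈ (S : Subgroup G), s * a ^ n = a ^ n * s := by
    intro s hs
    exact ((show Commute s a from hcomm s hs).pow_right n).eq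
  obtain ⟨c, hc⟩ : ∃ c, c = g * a ^ n * g⁻¹ := ⟨_, rfl⟩
  rw [← hc] at hg ⊢
  have haC : a ∈ Subgroup.centralizer ({c} : Set G) := by
    rw [Subgroup.mem_centralizer_singleton_iff]
    exact (hcomm c hg).symm
  have h2 : ↑(g • S) ≤ Subgroup.centralizer ({c} : Set G) := by
    rintro - ⟨z, hz, rfl⟩
    rw [Subgroup.mem_centralizer_singleton_iff]
    have h3 := hcommn z hz
    simp only [MulDistribMulAction.toMonoidEnd_apply, MulDistribMulAction.toMonoidHom_apply, MulAut.smul_def, MulAut.conj_apply]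
    rw [hc]
    calc g * z * g⁻¹ * (g * a ^ n * g⁻¹) = g * (z * a ^ n) * g⁻¹ := by group
      _ = g * (a ^ n * z) * g⁻¹ := by rw [h3]
      _ = g * a ^ n * g⁻¹ * (g * z * g⁻¹) := by group
  have hpa : IsPGroup p ((Subgroup.zpowers a).subgroupOf (Subgroup.centralizer ({c} : Set G))) := by
    have h4 : IsPGroup p (Subgroup.zpowers a) :=
      S.2.to_le (by rw [Subgroup.zpowers_le]; exact haS)
    exact h4.comap_subtype
  obtain ⟨Q, hQ⟩ := hpa.exists_le_sylow
  obtain ⟨h, hh⟩ := MulAction.exists_smul_eq (Subgroup.centralizer ({c} : Set G)) ((g • S).subtype h2) Q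
  have haQ : (⟨a, haC⟩ : Subgroup.centralizer ({c} : Set G)) ∈ Q := by
    apply hQ
    rw [Subgroup.mem_subgroupOf]
    exact Subgroup.mem_zpowers a
  rw [← hh, Sylow.smul_subtype] at haQ
  have haQ' : a ∈ ((h • g • S : Sylow p G) : Subgroup G) := by
    have := haQ
    rw [← SetLike.mem_coe, ← Sylow.coe_coe, Sylow.coe_subtype] at this
    exact this
  rw [Subgroup.smul_def, smul_smul] at haQ'
  obtain ⟨z, hz, hza⟩ := haQ'
  simp only [MulDistribMulAction.toMonoidEnd_apply, MulDistribMulAction.toMonoidHom_apply, MulAut.smul_def, MulAut.conj_apply] at hza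
  have hz' : z = ((h : G) * g)⁻¹ * a * (((h : G) * g)⁻¹)⁻¹ := by rw [← hza]; group
  have hz2 := hwc (((h : G) * g)⁻¹) (by rw [← hz']; exact hz)
  have hcm : Commute ((h : G) * g) a := by
    show (h : G) * g * a = a * ((h : G) * g)
    calc (h : G) * g * a = (h : G) * g * (((h : G) * g)⁻¹ * a * (((h : G) * g)⁻¹)⁻¹) := by rw [hz2]
      _ = a * ((h : G) * g) := by group
  have hcm2 : (h : G) * g * a ^ n = a ^ n * ((h : G) * g) := (hcm.pow_right n).eq
  have hhc : (h : G) * c = c * h := by
    have := h.2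
    rw [Subgroup.mem_centralizer_singleton_iff] at this
    exact this
  obtain ⟨h', hh'⟩ : ∃ h' : G, h' = (h : G) := ⟨_, rfl⟩
  rw [← hh'] at hcm2 hhc
  calc c = h' * c * h'⁻¹ := by rw [hhc]; group
    _ = (h' * g * a ^ n) * g⁻¹ * h'⁻¹ := by rw [hc]; group
    _ = a ^ n := by rw [hcm2]; group

end Cfsg.Agent.S1939
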