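import Cfsg.Statements.S1940
-- import your own Cfsg.Agent.* helpers here
import Mathlib

set_option autoImplicit false
open Cfsg

namespace Cfsg.Agent.S1940

/-- Let the finite group L act by automorphisms on the finite abelian group M, and let N be an L-invariant subgroup of M such that M/N is a p-group on which L acts trivially (every l • m lies in the coset mN). If every element of M is a product of an element of N and an element fixed by a Sylow p-subgroup T of L, then every element of M is a product of an element of N and an element fixed by all of L. -/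
theorem result {L : Type*} [Group L] [Finite L] {M : Type*} [CommGroup M] [Finite M] [MulDistribMulAction L M]
    {p : ℕ} [Fact p.Prime] (N : Subgroup M) (hN : ∀ (l : L) (m : M), m ∈ N → l • m ∈ N)
    (hquot : IsPGroup p (M ⧸ N)) (htriv : ∀ (l : L) (m : M), (l • m) * m⁻¹ ∈ N) (T : Sylow p L)
    (hT : ∀ m : M, ∃ n ∈ N, ∃ c : M, (∀ t ∈ (T : Subgroup L), t • c = c) ∧ m = n * c) :
    ∀ m : M, ∃ n ∈ N, ∃ c : M, (∀ l : L, l • c = c) ∧ m = n * c := by
  classical
  intro m
  obtain ⟨n, hn, c, hc, rfl⟩ := hT m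
  -- the orbit product
  have := Fintype.ofFinite M
  let O : Finset M := (MulAction.orbit L c).toFinset
  let P : M := ∏ x ∈ O, x
  have hmemO : ∀ x, x ∈ O ↔ x ∈ MulAction.orbit L c := by
    intro x; simp only [O, Set.mem_toFinset]
  have hOsmul : ∀ (l : L) (x : M), x ∈ O → l • x ∈ O := by
    intro l x hx
    rw [hmemO] at hx ⊢
    obtain ⟨g, rfl⟩ := hx
    exact ⟨l * g, by simp [mul_smul]⟩
  have hPfix : ∀ l : L, l • P = P := by
    intro l
    change l • (∏ x ∈ O, x) = ∏ x ∈ O, x
    rw [Finset.smul_prod']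
    refine Finset.prod_bij' (fun x _ => l • x) (fun x _ => l⁻¹ • x) ?_ ?_ ?_ ?_ ?_
    · intro x hx; exact hOsmul l x hx
    · intro x hx; exact hOsmul l⁻¹ x hx
    · intro x _; simp
    · intro x _; simp
    · intro x _; rfl
  -- P ≡ c ^ |O| mod N
  have hPc : ∀ s : Finset M, (∀ x ∈ s, x * c⁻¹ ∈ N) → (∏ x ∈ s, x) * (c ^ s.card)⁻¹ ∈ N := by
    intro s
    induction s using Finset.induction_on with
    | empty => intro _; simp
    | insert a s ha ih =>
      intro h
      rw [Finset.prod_insert ha, Finset.card_insert_of_notMem ha, pow_succ']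
      have h1 := h a (Finset.mem_insert_self _ _)
      have h2 := ih (fun x hx => h x (Finset.mem_insert_of_mem hx))
      have := N.mul_mem h1 h2
      have e : a * (∏ x ∈ s, x) * (c * c ^ s.card)⁻¹ = a * c⁻¹ * ((∏ x ∈ s, x) * (c ^ s.card)⁻¹) := by
        rw [mul_inv, mul_mul_mul_comm]
      rw [e]; exact this
  have hP : P * (c ^ O.card)⁻¹ ∈ N := by
    apply hPc
    intro x hx
    rw [hmemO] at hx
    obtain ⟨g, rfl⟩ := hx
    exact htriv g c
  -- |O| is prime to p
  have hcop : ¬ p ∣ O.card := by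
    have h1 : (MulAction.stabilizer L c).index = O.card := by
      rw [MulAction.index_stabilizer, Set.ncard_eq_toFinset_card']
    rw [← h1]
    have h2 : (T : Subgroup L) ≤ MulAction.stabilizer L c := fun t ht => hc t ht
    intro h
    exact T.not_dvd_index (h.trans (Subgroup.index_dvd_of_le h2))
  -- exponent of c mod N
  obtain ⟨k, hk⟩ := hquot (c : M ⧸ N)
  have hck : c ^ (p ^ k) ∈ N := by
    rw [← QuotientGroup.eq_one_iff]; exact_mod_cast hk
  have hcop2 : Nat.Coprime (p ^ k) O.card :=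
    Nat.Coprime.pow_left _ ((Nat.Prime.coprime_iff_not_dvd Fact.out).mpr hcop)
  -- Bezout
  have hbez : ((p ^ k : ℕ) : ℤ) * Nat.gcdA (p ^ k) O.card + (O.card : ℤ) * Nat.gcdB (p ^ k) O.card = 1 := by
    have := Nat.gcd_eq_gcd_ab (p ^ k) O.card
    rw [hcop2] at this
    exact_mod_cast this.symm
  set u := Nat.gcdA (p ^ k) O.card
  set v := Nat.gcdB (p ^ k) O.card
  refine ⟨n * (c * (P ^ v)⁻¹), N.mul_mem hn ?_, P ^ v, ?_, ?_⟩
  · -- c * P^{-v} = c^{p^k u} * (c^{|O|} P⁻¹)^v
    have e : c * (P ^ v)⁻¹ = (c ^ (p ^ k)) ^ u * ((P * (c ^ O.card)⁻¹) ^ v)⁻¹ := by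
      have h1 : c = (c ^ (p ^ k)) ^ u * (c ^ O.card) ^ v := by
        rw [← zpow_natCast, ← zpow_natCast, ← zpow_mul, ← zpow_mul, ← zpow_add, hbez, zpow_one]
      rw [mul_zpow, inv_zpow]
      nth_rewrite 1 [h1]
      rw [mul_inv, inv_inv, mul_assoc, mul_comm (P ^ v)⁻¹]
    rw [e]
    exact N.mul_mem (N.zpow_mem hck _) (N.inv_mem (N.zpow_mem hP _))
  · intro l
    rw [smul_zpow', hPfix]
  · rw [mul_assoc, mul_assoc, inv_mul_cancel, mul_one]

end Cfsg.Agent.S1940
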