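import Cfsg.Statements.S1941
-- import your own Cfsg.Agent.* helpers here
import Mathlib
import Cfsg.Agent.Lib.Helper10.Components
import Cfsg.Agent.Lib.Helper10.PCons
import Cfsg.Agent.Lib.Helper5.PCore

set_option autoImplicit false
open Cfsg

namespace Cfsg.Agent.S1941

/-- Let G be a finite group with no nontrivial normal subgroup of order prime to p, T a Sylow p-subgroup of G and E(G) the layer of G (the subgroup generated by its components). An automorphism of G of p-power order that fixes T and E(G) elementwise is inner. -/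
theorem result {G : Type*} [Group G] [Finite G] {p : ℕ} [Fact p.Prime] (hcore : Cfsg.pPrimeCore p G = ⊥)
    (T : Sylow p G) (α : MulAut G) (hα : ∃ j : ℕ, orderOf α = p ^ j) (hfixT : ∀ x ∈ (T : Subgroup G), α x = x)
    (hfixE : ∀ x ∈ Cfsg.layer G, α x = x) : ∃ g : G, ∀ x : G, α x = g * x * g⁻¹ := by
  classical
  set Fs := Cfsg.generalizedFittingSubgroup G with hFs
  have hFsn : Fs.Normal := Cfsg.Agent.Lib.Helper10.genFitting_normal G
  have hfit : Cfsg.fittingSubgroup G = Cfsg.pCore p G :=
    Cfsg.Agent.Lib.Helper10.fitting_eq_pCore_of_pPrimeCore_eq_bot p hcore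
  have hpT : Cfsg.pCore p G ≤ (T : Subgroup G) := Cfsg.Agent.Lib.Helper5.pCore_le_sylow T
  -- α fixes Fs
  have hfixF : ∀ x ∈ Fs, α x = x := by
    have hle : Fs ≤ (α.toMonoidHom).eqLocus (MonoidHom.id G) := by
      rw [hFs]
      unfold Cfsg.generalizedFittingSubgroup
      refine sup_le (fun x hx => hfixE x hx) ?_
      rw [hfit]
      exact fun x hx => hfixT x (hpT hx)
    exact fun x hx => hle hx
  set Z := Subgroup.centralizer (Fs : Set G) with hZ
  have hZn : Z.Normal := inferInstance
  have hZF : Z ≤ Fs := Cfsg.Agent.Lib.Helper10.centralizer_genFitting_le G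
  have hZcomm : ∀ a ∈ Z, ∀ b ∈ Z, a * b = b * a := by
    intro a ha b hb
    exact (Subgroup.mem_centralizer_iff.mp hb) a (hZF ha)
  have hZp : IsPGroup p Z := by
    have hnil : Group.IsNilpotent Z := by
      have : IsMulCommutative Z := ⟨⟨fun a b => Subtype.ext (hZcomm a a.2 b b.2)⟩⟩
      exact Cfsg.Agent.Lib.Helper10.isNilpotent_of_isMulCommutative this
    have h1 : Z ≤ Cfsg.fittingSubgroup G := Cfsg.Agent.Lib.Helper10.le_fittingSubgroup hZn hnil
    rw [hfit] at h1
    exact Cfsg.Agent.Lib.Helper5.pCore_isPGroup.to_le h1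
  let _ : CommGroup Z := { (inferInstance : Group Z) with
    mul_comm := fun a b => Subtype.ext (hZcomm a a.2 b b.2) }
  have heZ : ∀ g : G, α g * g⁻¹ ∈ Z := by
    intro g
    rw [hZ, Subgroup.mem_centralizer_iff]
    intro f hf
    have h1 : α (g⁻¹ * f * g) = g⁻¹ * f * g := by
      apply hfixF
      have := hFsn.conj_mem f hf g⁻¹
      rwa [inv_inv] at this
    rw [map_mul, map_mul, map_inv, hfixF f hf] at h1
    calc f * (α g * g⁻¹) = α g * ((α g)⁻¹ * f * α g) * g⁻¹ := by group
      _ = α g * (g⁻¹ * f * g) * g⁻¹ := by rw [h1]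
      _ = α g * g⁻¹ * f := by group
  let e : G → Z := fun g => ⟨α g * g⁻¹, heZ g⟩
  let c : G → (Z →* Z) := fun x =>
    { toFun := fun z => ⟨x * z * x⁻¹, hZn.conj_mem z z.2 x⟩
      map_one' := by apply Subtype.ext; simp
      map_mul' := by intro a b; apply Subtype.ext; simp }
  have he_mul : ∀ x g : G, e (x * g) = e x * c x (e g) := by
    intro x g
    apply Subtype.ext
    change α (x * g) * (x * g)⁻¹ = α x * x⁻¹ * (x * (α g * g⁻¹) * x⁻¹)
    rw [map_mul]; group
  have he_T : ∀ g : G, ∀ t ∈ (T : Subgroup G), e (g * t) = e g := by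
    intro g t ht
    apply Subtype.ext
    change α (g * t) * (g * t)⁻¹ = α g * g⁻¹
    rw [map_mul, hfixT t ht]; group
  have := Fintype.ofFinite (G ⧸ (T : Subgroup G))
  let w : Z := ∏ q : G ⧸ (T : Subgroup G), e q.out
  set m := Fintype.card (G ⧸ (T : Subgroup G)) with hm
  have key : ∀ x : G, e x ^ m * c x w = w := by
    intro x
    have h1 : ∏ q : G ⧸ (T : Subgroup G), e (x * q.out) = e x ^ m * c x w := by
      simp only [he_mul]
      rw [Finset.prod_mul_distrib, Finset.prod_const, Finset.card_univ, map_prod]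
    have h2 : ∀ q : G ⧸ (T : Subgroup G), e (x * q.out) = e ((x • q).out) := by
      intro q
      have h3 : ((x * q.out : G) : G ⧸ (T : Subgroup G)) = (((x • q).out : G) : G ⧸ (T : Subgroup G)) := by
        rw [QuotientGroup.out_eq']
        conv_rhs => rw [← QuotientGroup.out_eq' q]
        rfl
      rw [QuotientGroup.eq] at h3
      have := he_T (x * q.out) _ h3
      rw [← this]
      congr 1
      group
    rw [← h1]
    simp only [h2]
    exact Equiv.prod_comp (MulAction.toPerm x) (fun q : G ⧸ (T : Subgroup G) => e q.out)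
  -- Bezout
  have hmcop : Nat.Coprime m (Nat.card Z) := by
    obtain ⟨k, hk⟩ := IsPGroup.iff_card.mp hZp
    rw [hk]
    apply Nat.Coprime.pow_right
    have h1 : m = (T : Subgroup G).index := by
      rw [hm, Subgroup.index, Nat.card_eq_fintype_card]
    rw [h1]
    exact ((Nat.Prime.coprime_iff_not_dvd Fact.out).mpr T.not_dvd_index).symm
  have hbez := Nat.gcd_eq_gcd_ab m (Nat.card Z)
  rw [hmcop] at hbez
  set u := Nat.gcdA m (Nat.card Z) with hu
  have hroot : ∀ z : Z, (z ^ m) ^ u = z := by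
    intro z
    have h2 : z ^ ((1 : ℕ) : ℤ) = z ^ ((m : ℤ) * u + ((Nat.card Z : ℕ) : ℤ) * Nat.gcdB m (Nat.card Z)) := by
      rw [hbez]
    rw [zpow_add, zpow_mul, zpow_mul, zpow_natCast, zpow_natCast, zpow_natCast, pow_card_eq_one',
      one_zpow, mul_one, pow_one] at h2
    exact h2.symm
  let v : Z := w ^ u
  refine ⟨v, fun x => ?_⟩
  have h1 : e x ^ m = w * (c x w)⁻¹ := eq_mul_inv_of_mul_eq (key x)
  have h2 : e x = v * (c x v)⁻¹ := by
    rw [← hroot (e x), h1, mul_zpow, inv_zpow, ← map_zpow]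
  have h3 := congrArg Subtype.val h2
  change α x * x⁻¹ = (v : G) * ((x * (v : G) * x⁻¹))⁻¹ at h3
  calc α x = (α x * x⁻¹) * x := by group
    _ = ((v : G) * ((x * (v : G) * x⁻¹))⁻¹) * x := by rw [h3]
    _ = v * x * (v : G)⁻¹ := by group

end Cfsg.Agent.S1941
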