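import Cfsg.Statements.S1944
-- import your own Cfsg.Agent.* helpers here
import Cfsg.Agent.Lib.Helper13.WeakClosedFactor
import Cfsg.Agent.Lib.Helper13.PPrimeP

set_option autoImplicit false
open Cfsg

namespace Cfsg.Agent.S1944

open Cfsg.Agent.Lib.Helper13

/-- Let S be a Sylow p-subgroup of the finite group G and suppose that the centre Z(S) lies in O_{p',p}(G). The elements of S each of which is its only G-conjugate in S form a subgroup W of Z(S); W is then a direct factor of Z(S): there is a subgroup K of Z(S) with W ∩ K = 1 and WK = Z(S). -/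
theorem result {G : Type*} [Group G] [Finite G] {p : ℕ} [Fact p.Prime] (S : Sylow p G)
    (hZ : ((S : Subgroup G) ⊓ Subgroup.centralizer ((S : Subgroup G) : Set G)) ≤ Cfsg.pPrimePCore p G) :
    ∃ W K : Subgroup G, (∀ x : G, x ∈ W ↔ (x ∈ (S : Subgroup G) ∧ ∀ g : G, g * x * g⁻¹ ∈ (S : Subgroup G) → g * x * g⁻¹ = x)) ∧
      K ≤ ((S : Subgroup G) ⊓ Subgroup.centralizer ((S : Subgroup G) : Set G)) ∧ W ⊓ K = ⊥ ∧ W ⊔ K = ((S : Subgroup G) ⊓ Subgroup.centralizer ((S : Subgroup G) : Set G)) := by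
  have hLn := Cfsg.Agent.Lib.Helper10.pPrimePCore_normal (X := G) p
  have hDn : (Cfsg.pPrimeCore p G).Normal := inferInstance
  refine weakly_closed_direct_factor S
    (Subgroup.normalizer (((S : Subgroup G) ⊓ Cfsg.pPrimePCore p G : Subgroup G) : Set G))
    ((S : Subgroup G) ⊓ Cfsg.pPrimePCore p G) ?_ inf_le_left le_rfl (le_inf inf_le_left hZ) ?_
  · intro s hs
    rw [mem_normalizer_iff_cj, cj_inf, mem_normalizer_iff_cj.mp (Subgroup.le_normalizer hs),
      mem_normalizer_iff_cj.mp (by rw [Subgroup.normalizer_eq_top]; trivial)]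
  · intro x hx g hg
    obtain ⟨hxS, hxC⟩ := Subgroup.mem_inf.mp hx
    obtain ⟨d, hd, hn⟩ := pp_frattini S g⁻¹
    have hcomm := (Subgroup.mem_centralizer_iff.mp hxC) _ hn
    have e : g * x * g⁻¹ = d * x * d⁻¹ := by
      calc g * x * g⁻¹ = d * ((g⁻¹ * d)⁻¹ * (x * (g⁻¹ * d))) * d⁻¹ := by group
        _ = d * ((g⁻¹ * d)⁻¹ * ((g⁻¹ * d) * x)) * d⁻¹ := by rw [hcomm]
        _ = d * x * d⁻¹ := by group
    rw [e] at hg ⊢
    have h1 : d * x * d⁻¹ * x⁻¹ ∈ (S : Subgroup G) ⊓ Cfsg.pPrimeCore p G := by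
      refine Subgroup.mem_inf.mpr ⟨Subgroup.mul_mem _ hg (Subgroup.inv_mem _ hxS), ?_⟩
      have : d * x * d⁻¹ * x⁻¹ = d * (x * d⁻¹ * x⁻¹) := by group
      rw [this]
      exact Subgroup.mul_mem _ hd (hDn.conj_mem _ (Subgroup.inv_mem _ hd) x)
    rw [disjoint_pGroup_coprime S.2 Cfsg.Agent.Lib.Helper5.pPrimeCore_coprime, Subgroup.mem_bot] at h1
    exact mul_inv_eq_one.mp h1

end Cfsg.Agent.S1944
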