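import Cfsg.Statements.S1945
-- import your own Cfsg.Agent.* helpers here
import Cfsg.Agent.Lib.Helper13.WCKInf2
import Cfsg.Agent.Lib.Helper13.WeakClosedFactor
import Cfsg.Agent.Lib.Helper13.Balance
import Cfsg.Agent.S1944

set_option autoImplicit false
open Cfsg

namespace Cfsg.Agent.S1945

open Cfsg.Agent.Lib.Helper13

/-- Let S be a Sylow p-subgroup of the finite group G, and assume that p is odd or that G is solvable. The elements of S each of which is its only G-conjugate in S form a subgroup W of Z(S); W is then a direct factor of Z(S): there is a subgroup K of Z(S) with W ∩ K = 1 and WK = Z(S). (For p = 2 and G not solvable this can fail.) -/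
theorem result {G : Type*} [Group G] [Finite G] {p : ℕ} [Fact p.Prime] (S : Sylow p G) (h : p ≠ 2 ∨ Group.IsSolvable G) :
    ∃ W K : Subgroup G, (∀ x : G, x ∈ W ↔ (x ∈ (S : Subgroup G) ∧ ∀ g : G, g * x * g⁻¹ ∈ (S : Subgroup G) → g * x * g⁻¹ = x)) ∧
      K ≤ ((S : Subgroup G) ⊓ Subgroup.centralizer ((S : Subgroup G) : Set G)) ∧ W ⊓ K = ⊥ ∧ W ⊔ K = ((S : Subgroup G) ⊓ Subgroup.centralizer ((S : Subgroup G) : Set G)) := by
  rcases h with hp | hsol
  · exact weakly_closed_direct_factor S
      (Subgroup.normalizer ((Cfsg.inducedFunctor Cfsg.kInfLower (S : Subgroup G) : Subgroup G) : Set G))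
      (Cfsg.inducedFunctor Cfsg.kInfLower (S : Subgroup G))
      (Subgroup.le_normalizer.trans (normalizer_le_normalizer_functor
        (induced_isConjugacyFunctor (kInfLower_isChar p)) S.2))
      (induced_le _) le_rfl (kInfLower_center_le _ S.2) (kInfLower_weak_closure hp S)
  · apply Cfsg.Agent.S1944.result S
    intro z hz
    obtain ⟨hz1, hz2⟩ := Subgroup.mem_inf.mp hz
    show QuotientGroup.mk' (Cfsg.pPrimeCore p G) z ∈ Cfsg.pCore p (G ⧸ Cfsg.pPrimeCore p G)
    apply constrained_of_solvable G p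
    rw [Subgroup.mem_centralizer_iff]
    intro y hy
    have hs := QuotientGroup.mk'_surjective (Cfsg.pPrimeCore p G)
    have h1 : y ∈ ((S.mapSurjective hs : Sylow p (G ⧸ Cfsg.pPrimeCore p G)) :
        Subgroup (G ⧸ Cfsg.pPrimeCore p G)) :=
      Cfsg.Agent.Lib.Helper17.pCore_le_sylow _ hy
    obtain ⟨s, hs', rfl⟩ := h1
    rw [← map_mul, ← map_mul, (Subgroup.mem_centralizer_iff.mp hz2) s hs']

end Cfsg.Agent.S1945
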