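import Cfsg.Statements.S1946
import Cfsg.Agent.Lib.Helper27.FusionSmallExp
import Cfsg.Agent.S0071
open Cfsg.Agent.Lib.Helper27 Cfsg.Agent.Lib Cfsg.FusionSystem

set_option autoImplicit false
open Cfsg

namespace Cfsg.Agent.S1946

/-- Let P be a Sylow p-subgroup of the finite group G. Then G has a normal p-complement if and only if P controls the fusion of its elements of order dividing p (dividing 4 when p = 2): whenever such an element a of P has a G-conjugate g a g⁻¹ in P, that conjugate is already x a x⁻¹ for some x in P. -/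
theorem result {G : Type*} [Group G] [Finite G] {p : ℕ} [Fact p.Prime] (P : Sylow p G) :
    Cfsg.HasNormalPComplement p G ↔
      ∀ a ∈ (P : Subgroup G), (a ^ p = 1 ∨ (p = 2 ∧ a ^ 4 = 1)) → ∀ g : G, g * a * g⁻¹ ∈ (P : Subgroup G) →
        ∃ x ∈ (P : Subgroup G), g * a * g⁻¹ = x * a * x⁻¹ := by
  have hPp : IsPGroup p (P : Subgroup G) := P.2
  constructor
  · rintro ⟨P₀, N, hN, hc⟩ a ha _ g hg
    have hcardP : Nat.card (P : Subgroup G) = Nat.card (P₀ : Subgroup G) := by
      rw [P.card_eq_multiplicity, P₀.card_eq_multiplicity]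
    have hco : Nat.Coprime (Nat.card N) (Nat.card (P : Subgroup G)) := by
      rw [P.card_eq_multiplicity]
      apply Nat.Coprime.pow_right
      rw [← hc.index_eq_card]
      exact ((Nat.Prime.coprime_iff_not_dvd Fact.out).mpr P₀.not_dvd_index).symm
    have hc' : N.IsComplement' (P : Subgroup G) :=
      Subgroup.isComplement'_of_coprime (by rw [hcardP]; exact hc.card_mul_card) hco
    obtain ⟨⟨n, x⟩, hnx, -⟩ := hc'.existsUnique g
    have hnx' : (n : G) * x = g := hnx
    refine ⟨x, x.2, ?_⟩
    have hb : (x : G) * a * (x : G)⁻¹ ∈ (P : Subgroup G) := mul_mem (mul_mem x.2 ha) (inv_mem x.2)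
    set b := (x : G) * a * (x : G)⁻¹ with hbdef
    have e : g * a * g⁻¹ = n * b * (n : G)⁻¹ := by rw [← hnx', hbdef]; group
    have h1 : (n : G) * b * (n : G)⁻¹ * b⁻¹ ∈ N := by
      have := N.mul_mem n.2 (hN.conj_mem _ (N.inv_mem n.2) b)
      simpa [mul_assoc] using this
    have h2 : (n : G) * b * (n : G)⁻¹ * b⁻¹ ∈ (P : Subgroup G) := by
      rw [← e]; exact mul_mem hg (inv_mem hb)
    have h3 := Subgroup.disjoint_def.mp hc'.disjoint h1 h2
    rw [e]
    exact mul_inv_eq_one.mp h3
  · intro h
    refine ⟨P, (Cfsg.Agent.S0071.result P).mpr ?_⟩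
    intro Q hQ g hgN hgco
    have finP : Finite (P : Subgroup G) := inferInstance
    have finQ : Finite Q := inferInstance
    set F := Cfsg.groupFusionSystem (P : Subgroup G) with hF
    obtain ⟨D, hDP, -, hDinv, hDexp, hDf, -⟩ := exists_small_exp_fusion hPp F hQ
    have hβ : conjAut Q g hgN ∈ F.autGroup Q := by
      rw [mem_autGroup_iff F hQ]
      exact ⟨hQ, fun x => hQ (conjAut Q g hgN x).2, g, fun x => rfl⟩
    have hpw : ∀ k : ℕ, ∀ x : Q, ((((conjAut Q g hgN) ^ k) x : Q) : G) = g ^ k * x * (g ^ k)⁻¹ := by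
      intro k
      induction k with
      | zero => intro x; simp
      | succ k ih =>
        intro x
        rw [pow_succ', MulAut.mul_apply, conjAut_apply, ih, pow_succ']
        group
    have hpow : (conjAut Q g hgN) ^ (orderOf g) = 1 := by
      ext x
      rw [hpw, pow_orderOf_eq_one]
      simp
    have hco : (orderOf (conjAut Q g hgN)).Coprime p :=
      Nat.Coprime.coprime_dvd_left (orderOf_dvd_of_pow_eq_one hpow) hgco
    have chain : ∀ i, ∀ x : Q, (x : G) ∈ D → (x : G) ∈ Helper26.ucs (P : Subgroup G) i →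
        conjAut Q g hgN x = x := by
      intro i
      induction i with
      | zero =>
        intro x _ hx
        rw [Helper26.ucs_zero, Subgroup.mem_bot] at hx
        have : x = 1 := Subtype.ext hx
        rw [this, map_one]
      | succ i ih =>
        intro x hxD hx
        apply eq_of_pow_eq_one_of_fixed (hPp.to_le hQ) hgco _ hpow
        apply ih
        · exact D.mul_mem (D.inv_mem hxD) (hDinv _ hβ x hxD)
        · obtain ⟨s, hs, hsx⟩ := h x (hQ x.2) (hDexp _ hxD) g (hQ (conjAut Q g hgN x).2)
          show (x : G)⁻¹ * (g * x * g⁻¹) ∈ Helper26.ucs (P : Subgroup G) i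
          rw [hsx]
          exact inv_mul_conj_mem_ucs hs hx
    obtain ⟨n, hn⟩ := Helper26.exists_ucs_eq hPp
    have h1 : conjAut Q g hgN = 1 :=
      hDf _ hβ hco (fun x hx => chain n x hx (by rw [hn]; exact hQ x.2))
    rw [Subgroup.mem_centralizer_iff]
    intro x hx
    have h2 := congrArg (fun b : MulAut Q => ((b ⟨x, hx⟩ : Q) : G)) h1
    have h3 : g * x * g⁻¹ = x := h2
    calc x * g = (g * x * g⁻¹) * g := by rw [h3]
      _ = g * x := by group

end Cfsg.Agent.S1946
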