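import Cfsg.Statements.S1947
-- import your own Cfsg.Agent.* helpers here
import Mathlib
import Cfsg.Agent.Lib.Helper13.Omega
import Cfsg.Agent.S0071

set_option autoImplicit false
open Cfsg

namespace Cfsg.Agent.S1947

open Cfsg.Agent.Lib.Helper13
open scoped commutatorElement

/-- a `p'`-element `y` normalizing a `p`-group `U` and with `[b, y, y] = 1` satisfies `[b, y] = 1` -/
theorem comm_eq_one_of_comm_comm {G : Type*} [Group G] {p : ℕ} (y b : G) (hy : Nat.Coprime (orderOf y) p)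
    (k : ℕ) (hc : ⁅b, y⁆ ^ (p ^ k) = 1) (h : ⁅⁅b, y⁆, y⁆ = 1) : ⁅b, y⁆ = 1 := by
  set c := ⁅b, y⁆ with hcdef
  have hcy : c * y = y * c := commutatorElement_eq_one_iff_mul_comm.mp h
  -- y b⁻¹ y⁻¹ = b⁻¹ c
  have h1 : y * b⁻¹ * y⁻¹ = b⁻¹ * c := by rw [hcdef, commutatorElement_def]; group
  have hyc : y * c * y⁻¹ = c := by rw [← hcy, mul_inv_cancel_right]
  have hpow : ∀ j : ℕ, y ^ j * b⁻¹ * (y ^ j)⁻¹ = b⁻¹ * c ^ j := by
    intro j
    induction j with
    | zero => simp
    | succ j ih =>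
      have hycj : y * c ^ j * y⁻¹ = c ^ j := by rw [← conj_pow, hyc]
      calc y ^ (j + 1) * b⁻¹ * (y ^ (j + 1))⁻¹ = y * (y ^ j * b⁻¹ * (y ^ j)⁻¹) * y⁻¹ := by
            rw [pow_succ']; group
        _ = y * (b⁻¹ * c ^ j) * y⁻¹ := by rw [ih]
        _ = (y * b⁻¹ * y⁻¹) * (y * c ^ j * y⁻¹) := by group
        _ = b⁻¹ * c * c ^ j := by rw [h1, hycj]
        _ = b⁻¹ * c ^ (j + 1) := by rw [pow_succ', mul_assoc]
  have h2 := hpow (orderOf y)
  rw [pow_orderOf_eq_one] at h2
  have h3 : c ^ orderOf y = 1 := by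
    have : b⁻¹ = b⁻¹ * c ^ orderOf y := by simpa using h2
    exact (mul_eq_left.mp this.symm)
  have hd1 := orderOf_dvd_of_pow_eq_one h3
  have hd2 := orderOf_dvd_of_pow_eq_one hc
  exact orderOf_eq_one_iff.mp (Nat.eq_one_of_dvd_coprimes (Nat.Coprime.pow_right k hy) hd1 hd2)

/-- Let G be a finite group and p a prime. If every element of G of order dividing p (dividing 4 when p = 2) lies in some fixed term Z_n(G) of the upper central series, then G has a normal p-complement. -/
theorem result {G : Type*} [Group G] [Finite G] {p : ℕ} [Fact p.Prime] (n : ℕ)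
    (h : ∀ a : G, (a ^ p = 1 ∨ (p = 2 ∧ a ^ 4 = 1)) → a ∈ Subgroup.upperCentralSeries G n) : Cfsg.HasNormalPComplement p G := by
  classical
  obtain ⟨P⟩ : Nonempty (Sylow p G) := inferInstance
  refine ⟨P, (Cfsg.Agent.S0071.result P).mpr ?_⟩
  intro Q hQP g hg hcop
  have hQp : IsPGroup p Q := P.2.to_le hQP
  -- hypercentral elements of Q are centralized by g
  have hyper : ∀ m : ℕ, ∀ b ∈ Q, b ∈ Subgroup.upperCentralSeries G m → ⁅b, g⁆ = 1 := by
    intro m
    induction m with
    | zero =>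
      intro b _ hb
      rw [Subgroup.upperCentralSeries_zero, Subgroup.mem_bot] at hb
      rw [hb]; simp
    | succ m ih =>
      intro b hbQ hb
      have h1 : ⁅b, g⁆ ∈ Subgroup.upperCentralSeries G m := Subgroup.mem_upperCentralSeries_succ_iff.mp hb g
      have h2 : ⁅b, g⁆ ∈ Q := by
        rw [commutatorElement_def, mul_assoc, mul_assoc, ← mul_assoc g]
        exact Q.mul_mem hbQ ((Subgroup.mem_normalizer_iff.mp hg _).mp (Q.inv_mem hbQ))
      obtain ⟨k, hk⟩ := hQp ⟨_, h2⟩
      exact comm_eq_one_of_comm_comm g b hcop k (congrArg Subtype.val hk) (ih _ h2 h1)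
  let α : MulAut Q := Q.normalizerMonoidHom ⟨g, hg⟩
  have hα : ∀ x : Q, ((α x : Q) : G) = g * x * g⁻¹ := fun x => rfl
  have hαord : Nat.Coprime (orderOf α) p := by
    have h1 : orderOf α ∣ orderOf (⟨g, hg⟩ : Subgroup.normalizer (Q : Set G)) := orderOf_map_dvd _ _
    rw [Subgroup.orderOf_mk] at h1
    exact Nat.Coprime.coprime_dvd_left h1 hcop
  have hfix : ∀ x : Q, ((x : G) ^ p = 1 ∨ (p = 2 ∧ (x : G) ^ 4 = 1)) → α x = x := by
    intro x hx
    apply Subtype.ext
    rw [hα]
    have := hyper n x x.2 (h x hx)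
    rw [commutatorElement_eq_one_iff_mul_comm] at this
    rw [← this, mul_inv_cancel_right]
  have hα1 : α = 1 := by
    by_cases hp2 : p = 2
    · subst hp2
      apply aut_trivial_of_fix_four hQp α hαord
      intro x hx
      exact hfix x (Or.inr ⟨rfl, congrArg Subtype.val hx⟩)
    · apply Cfsg.Agent.S0120.result hp2 hQp α hαord
      intro x hx
      exact hfix x (Or.inl (congrArg Subtype.val hx))
  rw [Subgroup.mem_centralizer_iff]
  intro x hx
  have h1 := hα ⟨x, hx⟩
  rw [hα1, MulAut.one_apply] at h1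
  change x = g * x * g⁻¹ at h1
  calc x * g = (g * x * g⁻¹) * g := by rw [← h1]
    _ = g * x := by group

end Cfsg.Agent.S1947
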