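import Cfsg.Statements.S1948
import Cfsg.Agent.Lib.Helper10.PCons
import Cfsg.Agent.Lib.Helper5.SylowMore
import Cfsg.Agent.Lib.Helper17.Core
import Mathlib

set_option autoImplicit false
open Cfsg

namespace Cfsg.Agent.S1948

open Subgroup Cfsg.Agent.Lib.Helper10 in
theorem selfcent {X : Type*} [Group X] [Finite X] {p : ℕ} [hp : Fact p.Prime] (T : Sylow p X)
    (hT : (T : Subgroup X).Normal) (hO : Cfsg.pPrimeCore p X = ⊥) :
    centralizer (Cfsg.pCore p X : Set X) ≤ Cfsg.pCore p X := by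
  have hTO : (T : Subgroup X) ≤ Cfsg.pCore p X := Cfsg.Agent.Lib.Helper17.le_pCore hT T.2
  have hn : (Cfsg.pCore p X).Normal := Cfsg.Agent.Lib.Helper23.pCore_normal' p X
  have hCn : (centralizer (Cfsg.pCore p X : Set X)).Normal := inferInstance
  obtain ⟨P⟩ : Nonempty (Sylow p (centralizer (Cfsg.pCore p X : Set X))) := inferInstance
  have hsub : ∀ y ∈ (P : Subgroup (centralizer (Cfsg.pCore p X : Set X))), (y : X) ∈ Cfsg.pCore p X := by
    intro y hy
    have h1 : IsPGroup p ((P : Subgroup (centralizer (Cfsg.pCore p X : Set X))).map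
        (centralizer (Cfsg.pCore p X : Set X)).subtype) := P.2.map _
    obtain ⟨Q, hQ⟩ := h1.exists_le_sylow
    have := Sylow.unique_of_normal T hT
    have hQT : Q = T := Subsingleton.elim _ _
    apply hTO
    rw [← hQT]
    exact hQ (mem_map_of_mem _ hy)
  have hPc : normalizer ((P : Subgroup (centralizer (Cfsg.pCore p X : Set X))) : Set (centralizer (Cfsg.pCore p X : Set X))) ≤
      centralizer ((P : Subgroup (centralizer (Cfsg.pCore p X : Set X))) : Set (centralizer (Cfsg.pCore p X : Set X))) := by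
    intro c _
    rw [mem_centralizer_iff]
    intro y hy
    apply Subtype.ext
    exact (mem_centralizer_iff.mp c.2 y.1 (hsub y hy))
  have hcomp := MonoidHom.ker_transferSylow_isComplement' P hPc
  have hnd := MonoidHom.not_dvd_card_ker_transferSylow P hPc
  have hk : (MonoidHom.transferSylow P hPc).ker ≤ Cfsg.pPrimeCore p _ :=
    le_pPrimeCore inferInstance ((Nat.Prime.coprime_iff_not_dvd hp.out).mpr hnd).symm
  have h2 := map_pPrimeCore_le_of_normal (p := p) (centralizer (Cfsg.pCore p X : Set X)) hCn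
  rw [hO, le_bot_iff, (map_eq_bot_iff_of_injective _ (subtype_injective _))] at h2
  rw [h2, le_bot_iff] at hk
  rw [hk, isComplement'_bot_left] at hcomp
  have hpg : IsPGroup p (centralizer (Cfsg.pCore p X : Set X)) := by
    have := P.2
    rw [hcomp] at this
    exact this.of_equiv topEquiv
  exact Cfsg.Agent.Lib.Helper17.le_pCore hCn hpg

/-- Let S be a Sylow p-subgroup of the finite group G. Then G = N_G(S)·O_{p'}(G) if and only if G is p-constrained and N_G(S) controls fusion in S, in the sense that whenever a subgroup Q of S has a conjugate g Q g⁻¹ inside S, the element g is a product n c with n normalizing S and c centralizing Q. -/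
theorem result {G : Type*} [Group G] [Finite G] {p : ℕ} [Fact p.Prime] (S : Sylow p G) :
    Subgroup.normalizer ((S : Subgroup G) : Set G) ⊔ Cfsg.pPrimeCore p G = ⊤ ↔
      (Cfsg.IsPConstrained p G ∧
        ∀ Q : Subgroup G, Q ≤ (S : Subgroup G) → ∀ g : G, Q.map (MulAut.conj g).toMonoidHom ≤ (S : Subgroup G) →
          ∃ n ∈ Subgroup.normalizer ((S : Subgroup G) : Set G), ∃ c ∈ Subgroup.centralizer (Q : Set G), g = n * c) := by
  classical
  have hKn : (Cfsg.pPrimeCore p G).Normal := (Cfsg.Agent.Lib.Helper10.pPrimeCore_mem p G).1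
  have hWn : (Cfsg.pPrimePCore p G).Normal := Cfsg.Agent.Lib.Helper10.pPrimePCore_normal p
  have hdisj : ∀ x : G, x ∈ (S : Subgroup G) → x ∈ Cfsg.pPrimeCore p G → x = 1 := by
    intro x h1 h2
    have hd : Disjoint (S : Subgroup G) (Cfsg.pPrimeCore p G) := by
      apply Subgroup.disjoint_of_coprime_natCard
      obtain ⟨k, hk⟩ := IsPGroup.iff_card.mp S.2
      rw [hk]
      exact Nat.Coprime.pow_left _ (Cfsg.Agent.Lib.Helper10.pPrimeCore_coprime p G).symm
    have := hd.le_bot (show x ∈ (S : Subgroup G) ⊓ Cfsg.pPrimeCore p G from ⟨h1, h2⟩)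
    simpa using this
  constructor
  · intro h
    have hdec : ∀ g : G, ∃ n ∈ Subgroup.normalizer ((S : Subgroup G) : Set G),
        ∃ k ∈ Cfsg.pPrimeCore p G, g = n * k := by
      intro g
      have hg : g ∈ Subgroup.normalizer ((S : Subgroup G) : Set G) ⊔ Cfsg.pPrimeCore p G := by
        rw [h]; trivial
      obtain ⟨n, hn, k, hk, rfl⟩ := Subgroup.mem_sup_of_normal_right.mp hg
      exact ⟨n, hn, k, hk, rfl⟩
    refine ⟨?_, ?_⟩
    · rw [Cfsg.Agent.Lib.Helper10.isPConstrained_iff]
      apply selfcent (S.mapSurjective (QuotientGroup.mk'_surjective (Cfsg.pPrimeCore p G)))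
      · rw [Sylow.coe_mapSurjective]
        constructor
        rintro _ ⟨s, hs, rfl⟩ gb
        obtain ⟨g, rfl⟩ := QuotientGroup.mk'_surjective _ gb
        obtain ⟨n, hn, k, hk, rfl⟩ := hdec g
        have hk1 : QuotientGroup.mk' (Cfsg.pPrimeCore p G) k = 1 := by
          rw [QuotientGroup.mk'_apply, QuotientGroup.eq_one_iff]; exact hk
        refine ⟨n * s * n⁻¹, (Subgroup.mem_normalizer_iff.mp hn s).mp hs, ?_⟩
        simp only [map_mul, map_inv, hk1, mul_one]
      · exact Cfsg.Agent.Lib.Helper10.pPrimeCore_quotient_eq_bot p G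
    · intro Q hQ g hg
      obtain ⟨n, hn, k, hk, rfl⟩ := hdec g
      refine ⟨n, hn, k, ?_, rfl⟩
      rw [Subgroup.mem_centralizer_iff]
      intro x hx
      have h1 : (n * k) * x * (n * k)⁻¹ ∈ (S : Subgroup G) := hg ⟨x, hx, rfl⟩
      have h2 : k * x * k⁻¹ ∈ (S : Subgroup G) := by
        have := (Subgroup.mem_normalizer_iff.mp (inv_mem hn) _).mp h1
        have e : n⁻¹ * ((n * k) * x * (n * k)⁻¹) * n⁻¹⁻¹ = k * x * k⁻¹ := by group
        rwa [e] at this
      have h3 : k * x * k⁻¹ * x⁻¹ ∈ (S : Subgroup G) := mul_mem h2 (inv_mem (hQ hx))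
      have h4 : k * x * k⁻¹ * x⁻¹ ∈ Cfsg.pPrimeCore p G := by
        have := hKn.conj_mem k⁻¹ (inv_mem hk) x
        have e : k * x * k⁻¹ * x⁻¹ = k * (x * k⁻¹ * x⁻¹) := by group
        rw [e]; exact mul_mem hk this
      have h5 := hdisj _ h3 h4
      calc x * k = (k * x * k⁻¹ * x⁻¹)⁻¹ * (k * x) := by group
        _ = k * x := by rw [h5]; simp
  · rintro ⟨hc, hf⟩
    obtain ⟨P, hP⟩ := Cfsg.Agent.Lib.Helper5.exists_sylow_subgroupOf_normal S (Cfsg.pPrimePCore p G)
    have hPS : (P : Subgroup ↥(Cfsg.pPrimePCore p G)).map (Cfsg.pPrimePCore p G).subtype ≤ (S : Subgroup G) := by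
      rw [hP]
      rintro _ ⟨x, hx, rfl⟩
      exact hx
    have hfr := Sylow.normalizer_sup_eq_top P
    rw [eq_top_iff]
    intro g _
    have hg : g ∈ Subgroup.normalizer (((P : Subgroup ↥(Cfsg.pPrimePCore p G)).map (Cfsg.pPrimePCore p G).subtype : Subgroup G) : Set G) ⊔ Cfsg.pPrimePCore p G := by
      rw [hfr]; trivial
    obtain ⟨m, hm, w, hw, rfl⟩ := Subgroup.mem_sup_of_normal_right.mp hg
    have key : ∀ w ∈ Cfsg.pPrimePCore p G, w ∈ Subgroup.normalizer ((S : Subgroup G) : Set G) ⊔ Cfsg.pPrimeCore p G := by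
      intro w hw
      obtain ⟨a, ha, o, ho, rfl⟩ := Cfsg.Agent.Lib.Helper10.sylow_pPrimePCore_decomp P hw
      exact mul_mem (Subgroup.mem_sup_left (Subgroup.le_normalizer (hPS ha))) (Subgroup.mem_sup_right ho)
    refine mul_mem ?_ (key w hw)
    obtain ⟨n, hn, c, hcc, rfl⟩ := hf _ hPS m (by
      rintro _ ⟨x, hx, rfl⟩
      exact hPS ((Subgroup.mem_normalizer_iff.mp hm x).mp hx))
    exact mul_mem (Subgroup.mem_sup_left hn) (key c (hc P hcc))

end Cfsg.Agent.S1948
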