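import Cfsg.Statements.S1952
import Mathlib

set_option autoImplicit false
open Cfsg

namespace Cfsg.Agent.S1952

open Polynomial


lemma poly_id (p : ℕ) [Fact p.Prime] :
    ((X : (ZMod p)[X]) - 1) ^ (p - 1) = ∑ i ∈ Finset.range p, (X : (ZMod p)[X]) ^ i := by
  have hp : 0 < p := (Fact.out : p.Prime).pos
  have h1 : ((X : (ZMod p)[X]) - 1) * ((X : (ZMod p)[X]) - 1) ^ (p - 1)
      = ((X : (ZMod p)[X]) - 1) * ∑ i ∈ Finset.range p, (X : (ZMod p)[X]) ^ i := by
    rw [mul_geom_sum, ← pow_succ', Nat.sub_add_cancel hp, sub_pow_char, one_pow]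
  have h2 : ((X : (ZMod p)[X]) - 1) ≠ 0 := by
    have := X_sub_C_ne_zero (1 : ZMod p)
    simpa using this
  exact mul_left_cancel₀ h2 h1

lemma lin {p : ℕ} [Fact p.Prime] {V : Type*} [AddCommGroup V] [Module (ZMod p) V] [Finite V]
    (T : V →ₗ[ZMod p] V) (hT : T ^ p = 1) (K : Submodule (ZMod p) V) (hK : ∀ v ∈ K, T v ∈ K)
    (x : V) (hx : (∑ i ∈ Finset.range p, (T ^ i) x) ∉ K) :
    Nat.card K * p ^ p ≤ Nat.card V := by
  classical
  have hp : 0 < p := (Fact.out : p.Prime).pos
  set D : V →ₗ[ZMod p] V := T - 1 with hD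
  have hDp1 : D ^ (p - 1) = ∑ i ∈ Finset.range p, T ^ i := by
    have := congrArg (aeval T) (poly_id p)
    simpa [hD] using this
  have hDp : D ^ p = 0 := by
    have h : ((X : (ZMod p)[X]) - 1) ^ p = X ^ p - 1 := by rw [sub_pow_char, one_pow]
    have := congrArg (aeval T) h
    simpa [hD, hT] using this
  have hn : (D ^ (p - 1)) x ∉ K := by
    rw [hDp1]; simpa using hx
  -- chain
  let C : ℕ → Submodule (ZMod p) V := fun j => K.comap (D ^ j)
  have hKD : ∀ v ∈ K, D v ∈ K := fun v hv => by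
    simp only [hD, LinearMap.sub_apply, Module.End.one_apply]
    exact K.sub_mem (hK v hv) hv
  have hmono : ∀ j, j < p → C j < C (j + 1) := by
    intro j hj
    refine lt_of_le_of_ne ?_ ?_
    · intro v hv
      simp only [C, Submodule.mem_comap] at hv ⊢
      rw [pow_succ', Module.End.mul_apply]
      exact hKD _ hv
    · intro h
      have h1 : (D ^ (p - 1 - j)) x ∈ C (j + 1) := by
        simp only [C, Submodule.mem_comap]
        rw [← Module.End.mul_apply, ← pow_add, show j + 1 + (p - 1 - j) = p by omega, hDp]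
        simp
      rw [← h] at h1
      simp only [C, Submodule.mem_comap] at h1
      rw [← Module.End.mul_apply, ← pow_add, show j + (p - 1 - j) = p - 1 by omega] at h1
      exact hn h1
  have hfr : ∀ j, j ≤ p → Module.finrank (ZMod p) K + j ≤ Module.finrank (ZMod p) (C j) := by
    intro j
    induction j with
    | zero =>
      intro _
      have : C 0 = K := by
        ext v; simp [C]
      rw [this]; simp
    | succ j ih =>
      intro hj
      have := ih (by omega)
      have h2 := Submodule.finrank_lt_finrank_of_lt (hmono j (by omega))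
      omega
  have h3 := hfr p le_rfl
  have h4 : Module.finrank (ZMod p) (C p) ≤ Module.finrank (ZMod p) V := Submodule.finrank_le _
  have c1 : Nat.card K = p ^ Module.finrank (ZMod p) K := by
    have := Module.natCard_eq_pow_finrank (K := ZMod p) (V := K)
    simpa using this
  have c2 : Nat.card V = p ^ Module.finrank (ZMod p) V := by
    have := Module.natCard_eq_pow_finrank (K := ZMod p) (V := V)
    simpa using this
  rw [c1, c2, ← pow_add]
  exact Nat.pow_le_pow_right hp (by omega)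

lemma val_fact (p : ℕ) [Fact p.Prime] : (Nat.factorial (p ^ 2)).factorization p = p + 1 := by
  have hp : p.Prime := Fact.out
  rw [Nat.factorization_def _ hp]
  rw [padicValNat_factorial (b := 3) (by rw [Nat.log_pow hp.one_lt]; omega)]
  have : Finset.Ico 1 3 = {1, 2} := by decide
  rw [this, Finset.sum_pair (by decide)]
  have h1 : p ^ 2 / p ^ 1 = p := by
    rw [pow_one, pow_two, Nat.mul_div_cancel _ hp.pos]
  have h2 : p ^ 2 / p ^ 2 = 1 := Nat.div_self (pow_pos hp.pos 2)
  rw [h1, h2]


lemma lin' {p : ℕ} [Fact p.Prime] {V : Type*} [AddCommGroup V] [Finite V]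
    (hexp : ∀ v : V, p • v = 0) (T : V →+ V) (hT : ∀ v, (T^[p]) v = v) (K : AddSubgroup V)
    (hK : ∀ v ∈ K, T v ∈ K) (x : V) (hx : (∑ i ∈ Finset.range p, (T^[i]) x) ∉ K) :
    Nat.card K * p ^ p ≤ Nat.card V := by
  obtain ⟨inst⟩ : Nonempty (Module (ZMod p) V) := ⟨AddCommGroup.zmodModule hexp⟩
  have hpow : ∀ (i : ℕ) (v : V), ((AddMonoidHom.toZModLinearMap p T) ^ i) v = (T^[i]) v := by
    intro i v
    rw [Module.End.pow_apply]; rfl
  have := lin (AddMonoidHom.toZModLinearMap p T) (by ext v; rw [hpow, hT]; rfl)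
    (AddSubgroup.toZModSubmodule p K) hK x (by simp only [hpow]; exact hx)
  exact this

lemma key0 {p : ℕ} [Fact p.Prime] {A : Type*} [CommGroup A] [Finite A]
    (hexp : ∀ a : A, a ^ p = 1) (T : A →* A) (hT : ∀ v, (T^[p]) v = v) (K : Subgroup A)
    (hK : ∀ v ∈ K, T v ∈ K) (x : A) (hx : (∏ i ∈ Finset.range p, (T^[i]) x) ∉ K) :
    Nat.card K * p ^ p ≤ Nat.card A :=
  lin' (V := Additive A) (p := p) hexp (MonoidHom.toAdditive T) hT (Subgroup.toAddSubgroup K) hK
    (Additive.ofMul x) hx

open scoped IsMulCommutative in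
lemma key {P : Type*} [Group P] [Finite P] {p : ℕ} [Fact p.Prime] (A K : Subgroup P) [A.Normal]
    [IsMulCommutative ↥A] (hexp : ∀ a ∈ A, a ^ p = 1) (hKA : K ≤ A) [K.Normal]
    (y : P) (hyp : y ^ p ∈ A) (x : P) (hx : x ∈ A)
    (hprod : ((List.range p).map (fun i => (y ^ i)⁻¹ * x * y ^ i)).prod ∉ K) :
    Nat.card K * p ^ p ≤ Nat.card A := by
  classical
  let T : ↥A →* ↥A := (MulAut.conjNormal y⁻¹ : ↥A ≃* ↥A).toMonoidHom
  have hTapp : ∀ v : ↥A, ((T v : ↥A) : P) = y⁻¹ * (v : P) * y := by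
    intro v
    simp [T]
  have hTpow : ∀ (i : ℕ) (v : ↥A), (((T^[i]) v : ↥A) : P) = (y ^ i)⁻¹ * (v : P) * y ^ i := by
    intro i
    induction i with
    | zero => intro v; simp
    | succ i ih =>
      intro v
      rw [Function.iterate_succ_apply', hTapp, ih, pow_succ]
      group
  have hT : ∀ v, (T^[p]) v = v := by
    intro v
    apply Subtype.ext
    rw [hTpow]
    have h1 : (⟨y ^ p, hyp⟩ : ↥A) * v = v * ⟨y ^ p, hyp⟩ := mul_comm _ _
    have h2 : y ^ p * (v : P) = (v : P) * y ^ p := congrArg Subtype.val h1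
    rw [mul_assoc, ← h2]; group
  have hK'T : ∀ v ∈ K.subgroupOf A, T v ∈ K.subgroupOf A := by
    intro v hv
    rw [Subgroup.mem_subgroupOf] at hv ⊢
    rw [hTapp]
    have := (inferInstance : K.Normal).conj_mem _ hv y⁻¹
    simpa using this
  have hsum : ∀ n : ℕ, ((∏ i ∈ Finset.range n, (T^[i]) (⟨x, hx⟩ : ↥A) : ↥A) : P)
      = ((List.range n).map (fun i => (y ^ i)⁻¹ * x * y ^ i)).prod := by
    intro n
    induction n with
    | zero => simp
    | succ n ih =>
      rw [Finset.prod_range_succ, List.range_succ, List.map_append, List.prod_append,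
        Subgroup.coe_mul, ih, hTpow]
      simp
  have hx' : (∏ i ∈ Finset.range p, (T^[i]) (⟨x, hx⟩ : ↥A)) ∉ K.subgroupOf A := by
    rw [Subgroup.mem_subgroupOf, hsum]; exact hprod
  have := key0 (p := p) (fun a : ↥A => Subtype.ext (by simpa using hexp a a.2)) T hT
    (K.subgroupOf A) hK'T _ hx'
  rw [Nat.card_congr (Subgroup.subgroupOfEquivOfLe hKA).toEquiv] at this
  exact this


lemma exists_hyper {p : ℕ} [Fact p.Prime] {A : Type*} [CommGroup A] [Finite A]
    (hexp : ∀ a : A, a ^ p = 1) (n : A) (hn : n ≠ 1) : ∃ B : Subgroup A, n ∉ B ∧ B.index = p := by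
  obtain ⟨inst⟩ : Nonempty (Module (ZMod p) (Additive A)) :=
    ⟨AddCommGroup.zmodModule (n := p) (G := Additive A) hexp⟩
  have hn' : Additive.ofMul n ≠ 0 := fun h => hn h
  obtain ⟨φ, hφ⟩ : ∃ φ : Module.Dual (ZMod p) (Additive A), φ (Additive.ofMul n) ≠ 0 := by
    by_contra hcon
    push Not at hcon
    exact hn' ((Module.forall_dual_apply_eq_zero_iff (ZMod p) _).1 hcon)
  let ψ : A →* Multiplicative (ZMod p) :=
    { toFun := fun a => Multiplicative.ofAdd (φ (Additive.ofMul a))
      map_one' := by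
        change Multiplicative.ofAdd (φ 0) = 1
        rw [map_zero]; rfl
      map_mul' := fun a b => by
        change Multiplicative.ofAdd (φ (Additive.ofMul a + Additive.ofMul b)) = _
        rw [map_add]; rfl }
  refine ⟨ψ.ker, ?_, ?_⟩
  · intro h
    rw [MonoidHom.mem_ker] at h
    exact hφ (Multiplicative.ofAdd.injective h)
  · rw [Subgroup.index_ker]
    have hs : Function.Surjective ψ := by
      intro c
      refine ⟨Additive.toMul ((Multiplicative.toAdd c / φ (Additive.ofMul n)) • Additive.ofMul n), ?_⟩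
      change Multiplicative.ofAdd (φ ((Multiplicative.toAdd c / φ (Additive.ofMul n)) • Additive.ofMul n)) = c
      rw [map_smul, smul_eq_mul, div_mul_cancel₀ _ hφ]
      rfl
    rw [MonoidHom.range_eq_top.2 hs]
    simp

open scoped IsMulCommutative in
lemma exists_B {P : Type*} [Group P] [Finite P] {p : ℕ} [Fact p.Prime] (A : Subgroup P)
    [IsMulCommutative ↥A] (hexp : ∀ a ∈ A, a ^ p = 1) (hidx : A.index = p) (n : P) (hnA : n ∈ A)
    (hn : n ≠ 1) : ∃ B' : Subgroup P, B' ≤ A ∧ n ∉ B' ∧ B'.index = p ^ 2 := by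
  obtain ⟨B, hnB, hB⟩ := exists_hyper (p := p) (A := ↥A)
    (fun a : ↥A => Subtype.ext (by simpa using hexp a a.2)) ⟨n, hnA⟩
    (fun h => hn (congrArg Subtype.val h))
  refine ⟨B.map A.subtype, Subgroup.map_subtype_le B, ?_, ?_⟩
  · rintro ⟨b, hb, hbn⟩
    have : b = ⟨n, hnA⟩ := Subtype.ext hbn
    exact hnB (this ▸ hb)
  · rw [Subgroup.index_map_subtype, hB, hidx, pow_two]

/-- Let P be a finite p-group with a normal elementary abelian subgroup A of index p, and let x ∈ A and y ∈ P with y outside A. If the product of the p conjugates y^(-i) x y^i (i = 0, …, p−1) is not the identity, then the wreath product Z_p ≀ Z_p, realised as a Sylow p-subgroup of the symmetric group of degree p², is a homomorphic image of P. -/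
theorem result {P : Type*} [Group P] [Finite P] {p : ℕ} [Fact p.Prime] (hP : IsPGroup p P) (A : Subgroup P) [A.Normal]
    (hA : Cfsg.IsElementaryAbelian p A) (hidx : A.index = p) (x y : P) (hx : x ∈ A) (hy : y ∉ A)
    (hprod : ((List.range p).map (fun i => (y ^ i)⁻¹ * x * y ^ i)).prod ≠ 1) :
    ∃ (Q : Sylow p (Equiv.Perm (Fin (p ^ 2)))) (f : P →* ↥(Q : Subgroup (Equiv.Perm (Fin (p ^ 2))))), Function.Surjective f := by
  classical
  have hp : p.Prime := Fact.out
  obtain ⟨hAc, hAe⟩ := hA
  haveI := hAc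
  have hnA : ((List.range p).map (fun i => (y ^ i)⁻¹ * x * y ^ i)).prod ∈ A := by
    apply Subgroup.list_prod_mem
    intro c hc
    obtain ⟨i, -, rfl⟩ := List.mem_map.1 hc
    have := (inferInstance : A.Normal).conj_mem x hx (y ^ i)⁻¹
    simpa using this
  obtain ⟨B', hB'A, hnB', hB'idx⟩ : ∃ B' : Subgroup P, B' ≤ A ∧
      ((List.range p).map (fun i => (y ^ i)⁻¹ * x * y ^ i)).prod ∉ B' ∧ B'.index = p ^ 2 :=
    exists_B A hAe hidx _ hnA hprod
  have hK1 : B'.normalCore ≤ B' := Subgroup.normalCore_le _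
  have hyp : y ^ p ∈ A := by
    have := Subgroup.pow_index_mem A y
    rwa [hidx] at this
  have hcard := key A B'.normalCore hAe (hK1.trans hB'A) y hyp x hx (fun h => hnB' (hK1 h))
  have e : (P ⧸ B') ≃ Fin (p ^ 2) := Finite.equivFinOfCardEq (by
    rw [← Subgroup.index_eq_card]; exact hB'idx)
  let f0 : P →* Equiv.Perm (Fin (p ^ 2)) :=
    (e.permCongrHom.toMonoidHom).comp (MulAction.toPermHom P (P ⧸ B'))
  have hker : f0.ker = B'.normalCore := by
    rw [Subgroup.normalCore_eq_ker]
    ext g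
    simp only [f0, MonoidHom.mem_ker, MonoidHom.comp_apply, MulEquiv.coe_toMonoidHom]
    exact map_eq_one_iff _ e.permCongrHom.injective
  have hrange_p : IsPGroup p f0.range := by
    exact hP.of_surjective f0.rangeRestrict f0.rangeRestrict_surjective
  obtain ⟨Q, hQ⟩ := hrange_p.exists_le_sylow
  have hQcard : Nat.card Q = p ^ (p + 1) := by
    rw [Sylow.card_eq_multiplicity, Nat.card_perm, Nat.card_fin, val_fact]
  have h1 : Nat.card f0.ker * Nat.card f0.range = Nat.card P := by
    rw [← Subgroup.index_ker]; exact Subgroup.card_mul_index _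
  have h2 : Nat.card A * p = Nat.card P := by
    rw [← hidx]; exact Subgroup.card_mul_index _
  have hge : p ^ (p + 1) ≤ Nat.card f0.range := by
    rw [hker] at h1
    have hpos : 0 < Nat.card B'.normalCore := Nat.card_pos
    have h3 : Nat.card B'.normalCore * p ^ (p + 1) ≤ Nat.card B'.normalCore * Nat.card f0.range := by
      rw [h1, ← h2, pow_succ, ← mul_assoc]
      exact Nat.mul_le_mul_right _ hcard
    exact Nat.le_of_mul_le_mul_left h3 hpos
  have heq : f0.range = (Q : Subgroup _) := Subgroup.eq_of_le_of_card_ge hQ (by rw [hQcard]; exact hge)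
  refine ⟨Q, f0.codRestrict (Q : Subgroup _) (fun g => hQ ⟨g, rfl⟩), ?_⟩
  intro q
  have hq : (q : Equiv.Perm (Fin (p ^ 2))) ∈ f0.range := by rw [heq]; exact q.2
  obtain ⟨g, hg⟩ := hq
  exact ⟨g, Subtype.ext hg⟩

end Cfsg.Agent.S1952
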