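import Cfsg.Statements.S1954
-- import your own Cfsg.Agent.* helpers here
import Mathlib
import Cfsg.Agent.Lib.Helper13.StrongClosed
import Cfsg.Agent.Lib.Helper10.Basic

set_option autoImplicit false
open Cfsg

namespace Cfsg.Agent.S1954

open Cfsg.Agent.Lib.Helper13

/-- Let N be a normal subgroup of the finite group G, P a Sylow p-subgroup of G, and V a subgroup of P ∩ N normal in P ∩ N such that N_N(V) controls strong fusion in P ∩ N with respect to N (whenever a subgroup A of P ∩ N has n A n⁻¹ ≤ P ∩ N for some n in N, then n = h c with h in N_N(V) and c in C_N(A)). Let W be the subgroup generated by the conjugates of V under N_G(P ∩ N). Then N_G(W) controls strong fusion in P with respect to G. -/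
theorem result {G : Type*} [Group G] [Finite G] {p : ℕ} [Fact p.Prime] (N : Subgroup G) [N.Normal] (P : Sylow p G) (V : Subgroup G)
    (hV : V ≤ (P : Subgroup G) ⊓ N) (hVn : ∀ x ∈ (P : Subgroup G) ⊓ N, V.map (MulAut.conj x).toMonoidHom = V)
    (hctrl : ∀ A : Subgroup G, A ≤ (P : Subgroup G) ⊓ N → ∀ n ∈ N, A.map (MulAut.conj n).toMonoidHom ≤ (P : Subgroup G) ⊓ N →
      ∃ h ∈ N ⊓ Subgroup.normalizer (V : Set G), ∃ c ∈ N ⊓ Subgroup.centralizer (A : Set G), n = h * c)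
    (W : Subgroup G) (hW : W = Subgroup.closure (⋃ x ∈ Subgroup.normalizer (((P : Subgroup G) ⊓ N : Subgroup G) : Set G),
      ((V.map (MulAut.conj x).toMonoidHom : Subgroup G) : Set G))) :
    ∀ A : Subgroup G, A ≤ (P : Subgroup G) → ∀ g : G, A.map (MulAut.conj g).toMonoidHom ≤ (P : Subgroup G) →
        ∃ h ∈ Subgroup.normalizer (W : Set G), ∃ c ∈ Subgroup.centralizer (A : Set G), g = h * c := by
  classical
  set P₀ := (P : Subgroup G) ⊓ N with hP₀
  set M := Subgroup.normalizer (P₀ : Set G) with hM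
  have hNn : ∀ (x n : G), n ∈ N → x * n * x⁻¹ ∈ N := fun x n hn => ‹N.Normal›.conj_mem n hn x
  let Ctl : Subgroup G → Prop := fun X => ∀ A : Subgroup G, A ≤ P₀ → ∀ n ∈ N, cj A n⁻¹ ≤ P₀ →
    ∃ h ∈ N ⊓ Subgroup.normalizer (X : Set G), ∃ c ∈ N ⊓ Subgroup.centralizer (A : Set G), n = h * c
  have hCV : Ctl V := by
    intro A hA n hn hAn
    exact hctrl A hA n hn (by rw [map_conj_eq_cj]; exact hAn)
  -- Step 1
  have step1 : ∀ x ∈ M, Ctl (cj V x) := by
    intro x hx A hA n hn hAn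
    have hx' : cj P₀ x⁻¹ = P₀ := mem_normalizer_iff_cj.mp (inv_mem hx)
    have h1 : cj A x⁻¹ ≤ P₀ := by rw [← hx']; exact cj_mono hA _
    have h2 : cj (cj A x⁻¹) (x * n * x⁻¹)⁻¹ ≤ P₀ := by
      have e : cj (cj A x⁻¹) (x * n * x⁻¹)⁻¹ = cj (cj A n⁻¹) x⁻¹ := by
        rw [cj_cj, cj_cj]; congr 1; group
      rw [e, ← hx']; exact cj_mono hAn _
    obtain ⟨h, hh, c, hc, e⟩ := hCV _ h1 _ (hNn x n hn) h2
    refine ⟨x⁻¹ * h * x, ⟨?_, ?_⟩, x⁻¹ * c * x, ⟨?_, ?_⟩, ?_⟩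
    · have := hNn x⁻¹ h hh.1
      rwa [inv_inv] at this
    · rw [← cj_normalizer]; exact conj_mem_cj hh.2
    · have := hNn x⁻¹ c hc.1
      rwa [inv_inv] at this
    · have := conj_mem_cj (g := x) hc.2
      rwa [cj_centralizer, cj_cj_inv] at this
    · calc n = x⁻¹ * (x * n * x⁻¹) * x := by group
        _ = x⁻¹ * (h * c) * x := by rw [e]
        _ = x⁻¹ * h * x * (x⁻¹ * c * x) := by group
  -- Step 2
  have step2 : ∀ X₁ X₂ : Subgroup G, X₁ ≤ P₀ → Ctl X₁ → Ctl X₂ → Ctl (X₁ ⊔ X₂) := by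
    intro X₁ X₂ hX₁ h1 h2 A hA n hn hAn
    obtain ⟨h₁, hh₁, c₁, hc₁, e₁⟩ := h1 A hA n hn hAn
    have hA1 : cj A h₁⁻¹ = cj A n⁻¹ := by
      have e : n⁻¹ = c₁⁻¹ * h₁⁻¹ := by rw [e₁]; group
      rw [e, ← cj_cj, mem_normalizer_iff_cj.mp (centralizer_le_normalizer'' A (inv_mem hc₁.2))]
    have hB : cj (A ⊔ X₁) h₁⁻¹ ≤ P₀ := by
      rw [cj_sup, hA1, mem_normalizer_iff_cj.mp (inv_mem hh₁.2)]
      exact sup_le hAn hX₁
    obtain ⟨h₂, hh₂, c₂, hc₂, e₂⟩ := h2 (A ⊔ X₁) (sup_le hA hX₁) h₁ hh₁.1 hB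
    have hc₂A : c₂ ∈ Subgroup.centralizer (A : Set G) :=
      Subgroup.centralizer_le (show (A : Set G) ⊆ ((A ⊔ X₁ : Subgroup G) : Set G) from
        (le_sup_left : A ≤ A ⊔ X₁)) hc₂.2
    have hc₂X : c₂ ∈ Subgroup.centralizer (X₁ : Set G) :=
      Subgroup.centralizer_le (show (X₁ : Set G) ⊆ ((A ⊔ X₁ : Subgroup G) : Set G) from
        (le_sup_right : X₁ ≤ A ⊔ X₁)) hc₂.2
    have hh₂X : h₂ ∈ Subgroup.normalizer (X₁ : Set G) := by
      have e : h₂ = h₁ * c₂⁻¹ := by rw [e₂]; group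
      rw [e]
      exact mul_mem hh₁.2 (inv_mem (centralizer_le_normalizer'' X₁ hc₂X))
    refine ⟨h₂, ⟨hh₂.1, ?_⟩, c₂ * c₁, ⟨mul_mem hc₂.1 hc₁.1, mul_mem hc₂A hc₁.2⟩, ?_⟩
    · change h₂ ∈ Subgroup.normalizer ((X₁ ⊔ X₂ : Subgroup G) : Set G)
      rw [mem_normalizer_iff_cj, cj_sup, mem_normalizer_iff_cj.mp hh₂X,
        mem_normalizer_iff_cj.mp hh₂.2]
    · rw [e₁, e₂, mul_assoc]
  -- conjugates of V
  have hVW : ∀ x ∈ M, cj V x ≤ W := by
    intro x hx
    rw [hW]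
    intro y hy
    apply Subgroup.subset_closure
    simp only [Set.mem_iUnion]
    refine ⟨x⁻¹, inv_mem hx, ?_⟩
    rw [map_conj_eq_cj, inv_inv]
    exact hy
  have hVP : ∀ x ∈ M, cj V x ≤ P₀ := by
    intro x hx
    rw [← mem_normalizer_iff_cj.mp hx]
    exact cj_mono hV x
  have hWle : ∀ X : Subgroup G, (∀ x ∈ M, cj V x ≤ X) → W ≤ X := by
    intro X hX
    rw [hW, Subgroup.closure_le]
    intro y hy
    simp only [Set.mem_iUnion] at hy
    obtain ⟨x, hx, hy⟩ := hy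
    rw [map_conj_eq_cj] at hy
    exact hX x⁻¹ (inv_mem hx) hy
  have hWP : W ≤ P₀ := hWle P₀ hVP
  -- Step 3
  have step3 : Ctl W := by
    let 𝒞 : Set (Subgroup G) := {X | X ≤ W ∧ Ctl X}
    have hmem := Cfsg.Agent.Lib.Helper10.sSup_mem_of_sup_closed 𝒞
      ⟨cj V 1, hVW 1 (one_mem _), step1 1 (one_mem _)⟩ (by
        rintro A ⟨hA1, hA2⟩ B ⟨hB1, hB2⟩
        exact ⟨sup_le hA1 hB1, step2 A B (hA1.trans hWP) hA2 hB2⟩)
    have : sSup 𝒞 = W := by
      apply le_antisymm hmem.1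
      apply hWle
      intro x hx
      exact le_sSup ⟨hVW x hx, step1 x hx⟩
    rw [this] at hmem
    exact hmem.2
  -- Step 4
  have hMW : M ≤ Subgroup.normalizer (W : Set G) := by
    intro m hm
    rw [mem_normalizer_iff_cj]
    apply cj_eq_of_le_of_finite
    rw [cj_le_iff]
    apply hWle
    intro x hx
    rw [← cj_le_iff, cj_cj]
    exact hVW _ (mul_mem hx hm)
  -- Frattini
  have hsyl : ¬ p ∣ P₀.relIndex N := by
    have := not_dvd_relIndex_inf_of_normal (p := p) (R := (P : Subgroup G)) (C := N) (N := ⊤) le_top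
      (by rw [Subgroup.normalizer_eq_top]) (by rw [Subgroup.relIndex_top_right]; exact P.not_dvd_index)
    exact this
  have hP₀p : IsPGroup p P₀ := P.2.to_le inf_le_left
  have hcjN : ∀ g : G, cj N g = N := fun g =>
    mem_normalizer_iff_cj.mp (by rw [Subgroup.normalizer_eq_top]; trivial)
  have hfrat : ∀ g : G, ∃ m ∈ M, ∃ n ∈ N, g = m * n := by
    intro g
    have h1 : cj P₀ g ≤ N := by
      rw [← hcjN g]; exact cj_mono inf_le_right g
    obtain ⟨n, hn, hle⟩ := exists_cj_le_of_sylow hP₀p hsyl h1 (isPGroup_cj hP₀p g)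
    rw [cj_cj] at hle
    exact ⟨g * n, mem_normalizer_iff_cj.mpr (cj_eq_of_le_of_finite hle), n⁻¹, inv_mem hn, by group⟩
  -- Step 5 and conclusion
  have main := controls_of_strongly_closed P W (hWP.trans inf_le_left) (by
    intro X hXW hNX a ha g hg
    obtain ⟨m, hm, n, hn, rfl⟩ := hfrat g
    have ha' : m⁻¹ * a * m ∈ X := by
      have := conj_mem_cj (g := m) ha
      rwa [mem_normalizer_iff_cj.mp (hNX (hMW hm))] at this
    have e : (m * n)⁻¹ * a * (m * n) = n⁻¹ * (m⁻¹ * a * m) * n := by group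
    rw [e] at hg ⊢
    set a' := m⁻¹ * a * m with ha'def
    have ha'P : a' ∈ P₀ := hWP (hXW ha')
    have hgP : n⁻¹ * a' * n ∈ P₀ := by
      refine ⟨hg, ?_⟩
      have := hNn n⁻¹ a' ha'P.2
      rwa [inv_inv] at this
    obtain ⟨h, hh, c, hc, e2⟩ := step3 (Subgroup.zpowers a') (Subgroup.zpowers_le.mpr ha'P) n⁻¹
      (inv_mem hn) (by
        rw [inv_inv]
        intro y hy
        rw [mem_cj] at hy
        obtain ⟨k, hk⟩ := Subgroup.mem_zpowers_iff.mp hy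
        have : y = (n⁻¹ * a' * n) ^ k := by
          have e3 : n⁻¹ * a' * n = n⁻¹ * a' * n⁻¹⁻¹ := by rw [inv_inv]
          rw [e3, conj_zpow, hk]; group
        rw [this]
        exact P₀.zpow_mem hgP k)
    have hca : c * a' * c⁻¹ = a' := by
      have := (Subgroup.mem_centralizer_iff.mp hc.2) a' (Subgroup.mem_zpowers a')
      rw [← this, mul_inv_cancel_right]
    have e3 : n⁻¹ * a' * n = h * a' * h⁻¹ := by
      calc n⁻¹ * a' * n = n⁻¹ * a' * (n⁻¹)⁻¹ := by rw [inv_inv]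
        _ = (h * c) * a' * (h * c)⁻¹ := by rw [e2]
        _ = h * (c * a' * c⁻¹) * h⁻¹ := by group
        _ = h * a' * h⁻¹ := by rw [hca]
    rw [e3]
    exact (Subgroup.mem_normalizer_iff.mp (hNX hh.2) _).mp ha')
  intro A hA g hg
  rw [map_conj_eq_cj] at hg
  exact (main A hA g⁻¹ hg).exists_factor

end Cfsg.Agent.S1954
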