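import Cfsg.Statements.S2001
-- import your own Cfsg.Agent.* helpers here
import Cfsg.Agent.Lib.Helper13.Centric
import Cfsg.Agent.Lib.Helper13.TransferLG

set_option autoImplicit false
open Cfsg

namespace Cfsg.Agent.S2001

open Cfsg.Agent.Lib.Helper13
open scoped commutatorElement

theorem center_ne_bot {G : Type*} [Group G] [Finite G] {p : ℕ} [Fact p.Prime] {P : Subgroup G}
    (hP : IsPGroup p P) (hne : P ≠ ⊥) : P ⊓ Subgroup.centralizer (P : Set G) ≠ ⊥ := by
  have : Nontrivial P := (Subgroup.nontrivial_iff_ne_bot P).mpr hne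
  have h1 := hP.center_nontrivial
  obtain ⟨z, hz⟩ := exists_ne (1 : Subgroup.center P)
  intro hb
  apply hz
  have h2 : ((z : P) : G) ∈ P ⊓ Subgroup.centralizer (P : Set G) := by
    refine Subgroup.mem_inf.mpr ⟨(z : P).2, ?_⟩
    rw [Subgroup.mem_centralizer_iff]
    intro a ha
    have := (Subgroup.mem_center_iff.mp z.2) ⟨a, ha⟩
    exact congrArg Subtype.val this
  rw [hb, Subgroup.mem_bot] at h2
  exact Subtype.ext (Subtype.ext h2)

theorem mem_sup_of_normalizes {G : Type*} [Group G] {K1 K2 : Subgroup G}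
    (h : ∀ u ∈ K1, ∀ b ∈ K2, u⁻¹ * b * u ∈ K2) {x : G} (hx : x ∈ K1 ⊔ K2) :
    ∃ a ∈ K1, ∃ b ∈ K2, x = a * b := by
  let M : Subgroup G :=
    { carrier := {x | ∃ a ∈ K1, ∃ b ∈ K2, x = a * b}
      one_mem' := ⟨1, one_mem _, 1, one_mem _, by simp⟩
      mul_mem' := by
        rintro _ _ ⟨a, ha, b, hb, rfl⟩ ⟨a', ha', b', hb', rfl⟩
        exact ⟨a * a', mul_mem ha ha', (a'⁻¹ * b * a') * b', mul_mem (h a' ha' b hb) hb', by group⟩
      inv_mem' := by
        rintro _ ⟨a, ha, b, hb, rfl⟩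
        refine ⟨a⁻¹, inv_mem ha, (a⁻¹)⁻¹ * b⁻¹ * a⁻¹, h _ (inv_mem ha) _ (inv_mem hb), by group⟩ }
  have : K1 ⊔ K2 ≤ M := sup_le (fun a ha => ⟨a, ha, 1, one_mem _, by simp⟩)
    (fun b hb => ⟨1, one_mem _, b, hb, by simp⟩)
  exact this hx

theorem comm_form {G : Type*} [Group G] (a x : G) : a⁻¹ * (x⁻¹ * a * x) = ⁅a⁻¹, x⁻¹⁆ := by
  simp [commutatorElement_def, mul_assoc]

/-- Let p be a prime dividing the order of the finite group G, P a Sylow p-subgroup, W a conjugacy functor for p on G with Z(H) ≤ W(H) for every nontrivial p-subgroup H, and V a central functor: a conjugacy functor with V(H) ≤ Z(H), and V(H) ≤ V(K) whenever Z(H) ≤ Z(K), for nontrivial p-subgroups H, K. Say that W with V controls transfer in a subgroup L when some Sylow p-subgroup Q of L satisfies Q ∩ L' = (Q ∩ (N_L(W(Q)))')·(Q ∩ (C_L(V(Q)))') as a product of two subgroups. If W with V controls transfer in N_G(H) for every subgroup H with Z(P) ≤ H ≤ P, then W with V controls transfer in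 G. -/
theorem result {G : Type*} [Group G] [Finite G] {p : ℕ} [Fact p.Prime] (hdiv : p ∣ Nat.card G) (P : Sylow p G) (W V : Subgroup G → Subgroup G) (hW : Cfsg.IsConjugacyFunctor p W) (hV : Cfsg.IsConjugacyFunctor p V) (hWZ : ∀ H : Subgroup G, IsPGroup p ↥H → H ⊓ Subgroup.centralizer ((H : Subgroup G) : Set G) ≤ W H) (hVZ : ∀ H : Subgroup G, IsPGroup p ↥H → V H ≤ H ⊓ Subgroup.centralizer ((H : Subgroup G) : Set G)) (hVmono : ∀ H K : Subgroup G, IsPGroup p ↥H → IsPGroup p ↥K → H ≠ ⊥ → K ≠ ⊥ → H ⊓ Subgroup.centralizer ((H : Subgroup G) : Set G) ≤ K ⊓ Subgroup.centralizer ((K : Subgroup G) : Set G) → V H ≤ V K) (hloc : ∀ H : Subgroup G, (P : Subgroup G) ⊓ Subgroup.centralizer (((P : Subgroup G) : Subgroup G) : Set G) ≤ H → H ≤ (P : Subgroup G) → ∃ Q : Subgroup G, Q ≤ Subgroup.normalizer ((H : Subgroup G) : Set G) ∧ IsPGroup p ↥Q ∧ ¬ p ∣ (Q).relIndex (Subgroup.normalizer ((H : Subgroup G) : Set G)) ∧ ∀ x : G, x ∈ Q ⊓ ⁅Subgroup.normalizer ((H : Subgroup G) :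 Set G), Subgroup.normalizer ((H : Subgroup G) : Set G)⁆ ↔ ∃ a ∈ Q ⊓ ⁅Subgroup.normalizer ((H : Subgroup G) : Set G) ⊓ Subgroup.normalizer ((W Q : Subgroup G) : Set G), Subgroup.normalizer ((H : Subgroup G) : Set G) ⊓ Subgroup.normalizer ((W Q : Subgroup G) : Set G)⁆, ∃ b ∈ Q ⊓ ⁅Subgroup.normalizer ((H : Subgroup G) : Set G) ⊓ Subgroup.centralizer ((V Q : Subgroup G) : Set G), Subgroup.normalizer ((H : Subgroup G) : Set G) ⊓ Subgroup.centralizer ((V Q : Subgroup G) : Set G)⁆, x = a * b) : ∃ Q : Subgroup G, IsPGroup p ↥Q ∧ ¬ p ∣ Q.index ∧ ∀ x : G, x ∈ Q ⊓ commutator G ↔ ∃ a ∈ Q ⊓ ⁅Subgroup.normalizer ((W Q : Subgroup G) : Set G), Subgroup.normalizer ((W Q : Subgroup G) : Set G)⁆, ∃ b ∈ Q ⊓ ⁅Subgroup.centralizer ((V Q : Subgroup G) : Set G), Subgroup.centralizer ((V Q : Subgroup G) : Set G)⁆, x = a * b := by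
  have hPne : (P : Subgroup G) ≠ ⊥ := P.ne_bot_of_dvd_card hdiv
  have hZne := center_ne_bot P.2 hPne
  have hleC : ∀ R : Subgroup G, IsPGroup p R → R ≤ Subgroup.centralizer ((V R : Subgroup G) : Set G) := by
    intro R hR
    rw [Subgroup.le_centralizer_iff]
    exact (hVZ R hR).trans inf_le_right
  have hleN : ∀ R : Subgroup G, IsPGroup p R → R ≤ Subgroup.normalizer ((W R : Subgroup G) : Set G) :=
    fun R hR => Subgroup.le_normalizer.trans (normalizer_le_normalizer_functor hW hR)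
  obtain ⟨K, hK⟩ : ∃ K : Subgroup G, K =
    ((P : Subgroup G) ⊓ ⁅Subgroup.normalizer ((W P : Subgroup G) : Set G),
      Subgroup.normalizer ((W P : Subgroup G) : Set G)⁆) ⊔
    ((P : Subgroup G) ⊓ ⁅Subgroup.centralizer ((V P : Subgroup G) : Set G),
      Subgroup.centralizer ((V P : Subgroup G) : Set G)⁆) := ⟨_, rfl⟩
  have main := central_local_to_global P
    (fun A g => ∀ a ∈ A, a⁻¹ * (g⁻¹ * a * g) ∈ K)
    (fun R x => x ∈ Subgroup.normalizer ((W R : Subgroup G) : Set G) ∨
      x ∈ Subgroup.centralizer ((V R : Subgroup G) : Set G))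
    (fun A B g hB h a ha => h a (hB ha))
    (fun A g h h1 h2 a ha => by
      have e : a⁻¹ * ((g * h)⁻¹ * a * (g * h)) =
        (a⁻¹ * (g⁻¹ * a * g)) * ((g⁻¹ * a * g)⁻¹ * (h⁻¹ * (g⁻¹ * a * g) * h)) := by group
      rw [e]
      exact mul_mem (h1 a ha) (h2 _ (conj_mem_cj ha)))
    (fun A g h c hc => by
      rw [mem_cj] at hc
      have := inv_mem (h _ hc)
      convert this using 1
      group)
    (fun A g h e hg a ha => by rw [← e a ha]; exact hg a ha)
    (fun x hx B hB hBx a ha => by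
      rw [hK]
      have hmem : a⁻¹ * (x⁻¹ * a * x) ∈ (P : Subgroup G) :=
        mul_mem (inv_mem (hB ha)) (hBx (conj_mem_cj ha))
      rcases hx with hx | hx
      · apply Subgroup.mem_sup_left
        refine Subgroup.mem_inf.mpr ⟨hmem, ?_⟩
        rw [comm_form]
        exact Subgroup.commutator_mem_commutator (inv_mem (hleN P P.2 (hB ha))) (inv_mem hx)
      · apply Subgroup.mem_sup_right
        refine Subgroup.mem_inf.mpr ⟨hmem, ?_⟩
        rw [comm_form]
        exact Subgroup.commutator_mem_commutator (inv_mem (hleC P P.2 (hB ha))) (inv_mem hx))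
    (by
      intro R hlt hZ x hx
      have hR : IsPGroup p R := P.2.to_le hlt.le
      have hZR : (P : Subgroup G) ⊓ Subgroup.centralizer ((P : Subgroup G) : Set G) ≤
          R ⊓ Subgroup.centralizer (R : Set G) :=
        le_inf hZ (inf_le_right.trans (Subgroup.centralizer_le hlt.le))
      rcases hx with hx | hx
      · right
        exact ⟨W R, (functor_le hW hR).trans hlt.le, hZR.trans (hWZ R hR), hx,
          lt_of_lt_of_le (lt_inf_normalizer P.2 hlt)
            (inf_le_inf_left _ (normalizer_le_normalizer_functor hW hR))⟩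
      · left; right
        have hRne : R ≠ ⊥ := by
          intro hb
          apply hZne
          rw [eq_bot_iff, ← hb]; exact hZ
        exact Subgroup.centralizer_le (hVmono P R P.2 hR hPne hRne hZR) hx)
    (by
      rintro U hUP hFN ⟨k, hZ, hle⟩ hyp x hx B hB hBx a ha
      obtain ⟨H, hH⟩ : ∃ H, H = cj U k := ⟨_, rfl⟩
      rw [← hH] at hZ hle
      obtain ⟨Q, hQN, hQp, hQi, hQ⟩ := hloc H hZ hle
      have hRp : IsPGroup p ↥((P : Subgroup G) ⊓ Subgroup.normalizer (U : Set G)) :=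
        P.2.to_le inf_le_left
      have e1 : cj (Subgroup.normalizer (H : Set G)) k⁻¹ = Subgroup.normalizer (U : Set G) := by
        rw [hH, cj_normalizer, cj_inv_cj]
      obtain ⟨n, hn, hn2⟩ := exists_cj_eq_of_sylow (H := Subgroup.normalizer (U : Set G))
        (T := (P : Subgroup G) ⊓ Subgroup.normalizer (U : Set G)) (R := cj Q k⁻¹)
        inf_le_right hRp hFN (by rw [← e1]; exact cj_mono hQN _) (isPGroup_cj hQp _)
        (by rw [← e1, cj_relIndex]; exact hQi)
      obtain ⟨m, hm⟩ : ∃ m, m = k⁻¹ * n := ⟨_, rfl⟩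
      rw [cj_cj, ← hm] at hn2
      have hHm : cj H m = U := by
        rw [hH, cj_cj, hm, ← mul_assoc, mul_inv_cancel, one_mul, mem_normalizer_iff_cj.mp hn]
      obtain ⟨R, hR⟩ : ∃ R, R = (P : Subgroup G) ⊓ Subgroup.normalizer (U : Set G) := ⟨_, rfl⟩
      rw [← hR] at hyp hB hBx hRp hn2
      have hRN : R ≤ Subgroup.normalizer (U : Set G) := by rw [hR]; exact inf_le_right
      have hRi : ¬ p ∣ R.relIndex (Subgroup.normalizer (U : Set G)) := by rw [hR]; exact hFN
      have h1 : a⁻¹ * (x⁻¹ * a * x) ∈ R ⊓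
          ⁅Subgroup.normalizer (U : Set G), Subgroup.normalizer (U : Set G)⁆ := by
        refine Subgroup.mem_inf.mpr ⟨mul_mem (inv_mem (hB ha)) (hBx (conj_mem_cj ha)), ?_⟩
        rw [comm_form]
        exact Subgroup.commutator_mem_commutator (inv_mem (hRN (hB ha))) (inv_mem hx)
      have e2 : cj (Q ⊓ ⁅Subgroup.normalizer (H : Set G), Subgroup.normalizer (H : Set G)⁆) m =
          R ⊓ ⁅Subgroup.normalizer (U : Set G), Subgroup.normalizer (U : Set G)⁆ := by
        rw [cj_inf, cj_commutator, cj_normalizer, hHm, hn2]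
      rw [← e2, mem_cj] at h1
      obtain ⟨a', ha', b', hb', hab⟩ := (hQ _).mp h1
      have e3 : a⁻¹ * (x⁻¹ * a * x) = (m⁻¹ * a' * m) * (m⁻¹ * b' * m) := by
        have : a⁻¹ * (x⁻¹ * a * x) = m⁻¹ * (m * (a⁻¹ * (x⁻¹ * a * x)) * m⁻¹) * m := by group
        rw [this, hab]; group
      rw [e3]
      have key : ∀ L : Subgroup G, R ≤ L →
          (∀ y ∈ L, y ∈ Subgroup.normalizer ((W R : Subgroup G) : Set G) ∨
            y ∈ Subgroup.centralizer ((V R : Subgroup G) : Set G)) →
          R ⊓ ⁅Subgroup.normalizer (U : Set G) ⊓ L, Subgroup.normalizer (U : Set G) ⊓ L⁆ ≤ K := by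
        intro L hRL hL
        apply focal_rel hRp
        · intro hd
          apply hRi
          rw [← Subgroup.relIndex_mul_relIndex _ _ _ (le_inf hRN hRL) inf_le_left]
          exact Dvd.dvd.mul_right hd _
        · intro b hb y hy hby
          exact hyp y (hL y (Subgroup.mem_inf.mp hy).2) (Subgroup.closure {b})
            ((Subgroup.closure_le _).mpr (Set.singleton_subset_iff.mpr hb))
            (cj_closure_singleton_le hby) b (Subgroup.subset_closure rfl)
      refine mul_mem ?_ ?_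
      · apply key _ (hleN R hRp) (fun y hy => Or.inl hy)
        have := conj_mem_cj (g := m) ha'
        rwa [cj_inf, cj_commutator, cj_inf, cj_normalizer, cj_normalizer, ← functor_cj hW hQp, hHm,
          hn2] at this
      · apply key _ (hleC R hRp) (fun y hy => Or.inr hy)
        have := conj_mem_cj (g := m) hb'
        rwa [cj_inf, cj_commutator, cj_inf, cj_normalizer, cj_centralizer, ← functor_cj hV hQp, hHm,
          hn2] at this)
  have hle : (P : Subgroup G) ⊓ ⁅(⊤ : Subgroup G), ⊤⁆ ≤ K := by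
    apply focal_rel P.2 (not_dvd_relIndex_top P)
    intro a ha x _ hax
    exact main (Subgroup.closure {a}) ((Subgroup.closure_le _).mpr (Set.singleton_subset_iff.mpr ha)) x
      (cj_closure_singleton_le hax) a (Subgroup.subset_closure rfl)
  refine ⟨P, P.2, P.not_dvd_index, fun x => ⟨fun hx => ?_, ?_⟩⟩
  · have hx' : x ∈ K := hle hx
    rw [hK] at hx'
    refine mem_sup_of_normalizes ?_ hx'
    intro u hu b hb
    have hu' := (Subgroup.mem_inf.mp hu).1
    have hb' := (Subgroup.mem_inf.mp hb).1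
    have e : u⁻¹ * b * u = b * (b⁻¹ * (u⁻¹ * b * u)) := by group
    rw [e]
    refine mul_mem hb (Subgroup.mem_inf.mpr ⟨?_, ?_⟩)
    · exact mul_mem (inv_mem hb') (mul_mem (mul_mem (inv_mem hu') hb') hu')
    · rw [comm_form]
      exact Subgroup.commutator_mem_commutator (inv_mem (hleC P P.2 hb')) (inv_mem (hleC P P.2 hu'))
  · rintro ⟨a, ha, b, hb, rfl⟩
    refine Subgroup.mem_inf.mpr ⟨mul_mem (Subgroup.mem_inf.mp ha).1 (Subgroup.mem_inf.mp hb).1, ?_⟩
    exact mul_mem (Subgroup.commutator_mono le_top le_top (Subgroup.mem_inf.mp ha).2)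
      (Subgroup.commutator_mono le_top le_top (Subgroup.mem_inf.mp hb).2)

end Cfsg.Agent.S2001
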