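import Cfsg.Statements.S2002
-- import your own Cfsg.Agent.* helpers here
import Cfsg.Agent.Lib.Helper13.Centric

set_option autoImplicit false
open Cfsg

namespace Cfsg.Agent.S2002

open Cfsg.Agent.Lib.Helper13

theorem center_ne_bot {G : Type*} [Group G] [Finite G] {p : ℕ} [Fact p.Prime] {P : Subgroup G}
    (hP : IsPGroup p P) (hne : P ≠ ⊥) : P ⊓ Subgroup.centralizer (P : Set G) ≠ ⊥ := by
  have : Nontrivial P := (Subgroup.nontrivial_iff_ne_bot P).mpr hne
  have h1 := hP.center_nontrivial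
  obtain ⟨z, hz⟩ := exists_ne (1 : Subgroup.center P)
  intro hb
  apply hz
  have h2 : ((z : P) : G) ∈ P ⊓ Subgroup.centralizer (P : Set G) := by
    refine Subgroup.mem_inf.mpr ⟨(z : P).2, ?_⟩
    rw [Subgroup.mem_centralizer_iff]
    intro a ha
    have := (Subgroup.mem_center_iff.mp z.2) ⟨a, ha⟩
    exact congrArg Subtype.val this
  rw [hb, Subgroup.mem_bot] at h2
  exact Subtype.ext (Subtype.ext h2)

/-- Let p be a prime dividing the order of the finite group G, P a Sylow p-subgroup, W a conjugacy functor for p on G with Z(H) ≤ W(H) for every nontrivial p-subgroup H, and V a central functor (a conjugacy functor with V(H) ≤ Z(H), and V(H) ≤ V(K) whenever Z(H) ≤ Z(K)). Say that W with V controls strong fusion in a subgroup L when some Sylow p-subgroup Q of L has the property: whenever X ⊆ Q and a ∈ L with a⁻¹Xa ⊆ Q, then a = c b with c ∈ C_L(X) and b = b₁ ⋯ bₙ a product of elements each in N_L(W(Q)) or in C_L(V(Q)) such that every partial conjugate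 (b₁ ⋯ bₖ)⁻¹ X (b₁ ⋯ bₖ) lies in Q. If W with V controls strong fusion in N_G(H) for every subgroup H with Z(P) ≤ H ≤ P, then W with V controls strong fusion in G. -/
theorem result {G : Type*} [Group G] [Finite G] {p : ℕ} [Fact p.Prime] (hdiv : p ∣ Nat.card G) (P : Sylow p G) (W V : Subgroup G → Subgroup G) (hW : Cfsg.IsConjugacyFunctor p W) (hV : Cfsg.IsConjugacyFunctor p V) (hWZ : ∀ H : Subgroup G, IsPGroup p ↥H → H ⊓ Subgroup.centralizer ((H : Subgroup G) : Set G) ≤ W H) (hVZ : ∀ H : Subgroup G, IsPGroup p ↥H → V H ≤ H ⊓ Subgroup.centralizer ((H : Subgroup G) : Set G)) (hVmono : ∀ H K : Subgroup G, IsPGroup p ↥H → IsPGroup p ↥K → H ≠ ⊥ → K ≠ ⊥ → H ⊓ Subgroup.centralizer ((H : Subgroup G) : Set G) ≤ K ⊓ Subgroup.centralizer ((K : Subgroup G) : Set G) → V H ≤ V K) (hloc : ∀ H : Subgroup G, (P : Subgroup G) ⊓ Subgroup.centralizer (((P : Subgroup G) : Subgroup G) : Set G) ≤ H → H ≤ (P : Subgroup G) → ∃ Q : Subgroup G, Q ≤ Subgroup.normalizer ((H :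 Subgroup G) : Set G) ∧ IsPGroup p ↥Q ∧ ¬ p ∣ (Q).relIndex (Subgroup.normalizer ((H : Subgroup G) : Set G)) ∧ ∀ (X : Set G) (a : G), X ⊆ Q → a ∈ Subgroup.normalizer ((H : Subgroup G) : Set G) → (fun x => a⁻¹ * x * a) '' X ⊆ Q → ∃ c ∈ Subgroup.normalizer ((H : Subgroup G) : Set G) ⊓ Subgroup.centralizer X, ∃ (n : ℕ) (b : Fin n → G), (∀ i, b i ∈ Subgroup.normalizer ((H : Subgroup G) : Set G) ⊓ Subgroup.normalizer ((W Q : Subgroup G) : Set G) ∨ b i ∈ Subgroup.normalizer ((H : Subgroup G) : Set G) ⊓ Subgroup.centralizer ((V Q : Subgroup G) : Set G)) ∧ a = c * (List.ofFn b).prod ∧ ∀ k : ℕ, k ≤ n → (fun x => (((List.ofFn b).take k).prod)⁻¹ * x * ((List.ofFn b).take k).prod) '' ((fun x => c⁻¹ * x * c) '' X) ⊆ Q) : ∃ Q : Subgroup G, IsPGroup p ↥Q ∧ ¬ p ∣ Q.index ∧ ∀ (X : Set G) (a : G), X ⊆ Q → (fun x => a⁻¹ * x * a) '' X ⊆ Q → ∃ c ∈ Subgroup.centralizer X, ∃ (n : ℕ) (b : Fin n → G), (∀ i, b i ∈ ⊤ ⊓ Subgroup.normalizer ((W Q : Subgroup G) : Set G) ∨ b i ∈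 ⊤ ⊓ Subgroup.centralizer ((V Q : Subgroup G) : Set G)) ∧ a = c * (List.ofFn b).prod ∧ ∀ k : ℕ, k ≤ n → (fun x => (((List.ofFn b).take k).prod)⁻¹ * x * ((List.ofFn b).take k).prod) '' ((fun x => c⁻¹ * x * c) '' X) ⊆ Q := by
  have hPne : (P : Subgroup G) ≠ ⊥ := P.ne_bot_of_dvd_card hdiv
  have hZne := center_ne_bot P.2 hPne
  have trans : ∀ (A : Subgroup G) (g h : G),
      (A ≤ (P : Subgroup G) ∧ cj A g ≤ (P : Subgroup G) ∧
        CGood (fun x => x ∈ ⊤ ⊓ Subgroup.normalizer ((W P : Subgroup G) : Set G) ∨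
          x ∈ ⊤ ⊓ Subgroup.centralizer ((V P : Subgroup G) : Set G)) (P : Subgroup G) A g) →
      (cj A g ≤ (P : Subgroup G) ∧ cj (cj A g) h ≤ (P : Subgroup G) ∧
        CGood (fun x => x ∈ ⊤ ⊓ Subgroup.normalizer ((W P : Subgroup G) : Set G) ∨
          x ∈ ⊤ ⊓ Subgroup.centralizer ((V P : Subgroup G) : Set G)) (P : Subgroup G) (cj A g) h) →
      (A ≤ (P : Subgroup G) ∧ cj A (g * h) ≤ (P : Subgroup G) ∧
        CGood (fun x => x ∈ ⊤ ⊓ Subgroup.normalizer ((W P : Subgroup G) : Set G) ∨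
          x ∈ ⊤ ⊓ Subgroup.centralizer ((V P : Subgroup G) : Set G)) (P : Subgroup G) A (g * h)) := by
    intro A g h h1 h2
    exact ⟨h1.1, by rw [← cj_cj]; exact h2.2.1, h1.2.2.trans h2.2.2⟩
  have main := central_local_to_global P
    (fun A g => A ≤ (P : Subgroup G) ∧ cj A g ≤ (P : Subgroup G) ∧
      CGood (fun x => x ∈ ⊤ ⊓ Subgroup.normalizer ((W P : Subgroup G) : Set G) ∨
          x ∈ ⊤ ⊓ Subgroup.centralizer ((V P : Subgroup G) : Set G)) (P : Subgroup G) A g)
    (fun R x => x ∈ Subgroup.normalizer ((W R : Subgroup G) : Set G) ∨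
      x ∈ Subgroup.centralizer ((V R : Subgroup G) : Set G))
    (fun A B g hB h => ⟨hB.trans h.1, (cj_mono hB g).trans h.2.1, h.2.2.mono hB⟩)
    trans
    (fun A g h => ⟨h.2.1, by rw [cj_inv_cj]; exact h.1, h.2.2.inv (fun x hx => by
      rcases hx with hx | hx
      · exact Or.inl (inv_mem hx)
      · exact Or.inr (inv_mem hx)) h.2.1⟩)
    (fun A g h e hg => ⟨hg.1, by rw [← cj_congr e]; exact hg.2.1, hg.2.2.congr e⟩)
    (fun x hx B hB hBx => ⟨hB, hBx, CGood.step (by
      rcases hx with hx | hx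
      · exact Or.inl (Subgroup.mem_inf.mpr ⟨Subgroup.mem_top _, hx⟩)
      · exact Or.inr (Subgroup.mem_inf.mpr ⟨Subgroup.mem_top _, hx⟩)) hB⟩)
    (by
      intro R hlt hZ x hx
      have hR : IsPGroup p R := P.2.to_le hlt.le
      have hZR : (P : Subgroup G) ⊓ Subgroup.centralizer ((P : Subgroup G) : Set G) ≤
          R ⊓ Subgroup.centralizer (R : Set G) :=
        le_inf hZ (inf_le_right.trans (Subgroup.centralizer_le hlt.le))
      rcases hx with hx | hx
      · right
        exact ⟨W R, (functor_le hW hR).trans hlt.le, hZR.trans (hWZ R hR), hx,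
          lt_of_lt_of_le (lt_inf_normalizer P.2 hlt)
            (inf_le_inf_left _ (normalizer_le_normalizer_functor hW hR))⟩
      · left; right
        have hRne : R ≠ ⊥ := by
          intro hb
          apply hZne
          rw [eq_bot_iff, ← hb]; exact hZ
        exact Subgroup.centralizer_le (hVmono P R P.2 hR hPne hRne hZR) hx)
    (by
      rintro U hUP hFN ⟨k, hZ, hle⟩ hyp x hx B hB hBx
      obtain ⟨H, hH⟩ : ∃ H, H = cj U k := ⟨_, rfl⟩
      rw [← hH] at hZ hle
      obtain ⟨Q, hQN, hQp, hQi, hQ⟩ := hloc H hZ hle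
      have hRp : IsPGroup p ↥((P : Subgroup G) ⊓ Subgroup.normalizer (U : Set G)) :=
        P.2.to_le inf_le_left
      have e1 : cj (Subgroup.normalizer (H : Set G)) k⁻¹ = Subgroup.normalizer (U : Set G) := by
        rw [hH, cj_normalizer, cj_inv_cj]
      obtain ⟨n, hn, hn2⟩ := exists_cj_eq_of_sylow (H := Subgroup.normalizer (U : Set G))
        (T := (P : Subgroup G) ⊓ Subgroup.normalizer (U : Set G)) (R := cj Q k⁻¹)
        inf_le_right hRp hFN (by rw [← e1]; exact cj_mono hQN _) (isPGroup_cj hQp _)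
        (by rw [← e1, cj_relIndex]; exact hQi)
      obtain ⟨m, hm⟩ : ∃ m, m = k⁻¹ * n := ⟨_, rfl⟩
      rw [cj_cj, ← hm] at hn2
      have hHm : cj H m = U := by
        rw [hH, cj_cj, hm, ← mul_assoc, mul_inv_cancel, one_mul, mem_normalizer_iff_cj.mp hn]
      have hHm' : cj U m⁻¹ = H := by rw [← hHm, cj_inv_cj]
      have hQm' : cj ((P : Subgroup G) ⊓ Subgroup.normalizer (U : Set G)) m⁻¹ = Q := by
        rw [← hn2, cj_inv_cj]
      have ha : m * x * m⁻¹ ∈ Subgroup.normalizer (H : Set G) := by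
        rw [mem_normalizer_iff_cj]
        have : cj H (m * x * m⁻¹) = cj (cj (cj H m) x) m⁻¹ := by
          rw [cj_cj, cj_cj]; congr 1; group
        rw [this, hHm, mem_normalizer_iff_cj.mp hx, hHm']
      have hX : cj B m⁻¹ ≤ Q := by rw [← hQm']; exact cj_mono hB _
      have hXa : cj (cj B m⁻¹) (m * x * m⁻¹) ≤ Q := by
        have : cj (cj B m⁻¹) (m * x * m⁻¹) = cj (cj B x) m⁻¹ := by
          rw [cj_cj, cj_cj]; congr 1; group
        rw [this, ← hQm']; exact cj_mono hBx _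
      obtain ⟨c, hc, n', b, hb, hab, hk⟩ := hQ (cj B m⁻¹ : Set G) (m * x * m⁻¹) hX ha (by
        rintro _ ⟨z, hz, rfl⟩
        exact hXa (conj_mem_cj hz))
      have hcc : ∀ z ∈ cj B m⁻¹, c⁻¹ * z * c = z := by
        intro z hz
        have := (Subgroup.mem_centralizer_iff.mp (Subgroup.mem_inf.mp hc).2) z hz
        calc c⁻¹ * z * c = c⁻¹ * (z * c) := by group
          _ = c⁻¹ * (c * z) := by rw [this]
          _ = z := by group
      have c1 := chain_of_list (T := Q)
        (R := fun y => y ∈ Subgroup.normalizer ((H : Subgroup G) : Set G) ⊓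
          Subgroup.normalizer ((W Q : Subgroup G) : Set G) ∨
          y ∈ Subgroup.normalizer ((H : Subgroup G) : Set G) ⊓
          Subgroup.centralizer ((V Q : Subgroup G) : Set G)) (List.ofFn b) (cj B m⁻¹)
        (by
          intro y hy
          obtain ⟨i, rfl⟩ := (List.mem_ofFn' _ _).mp hy
          exact hb i)
        (by
          intro j hj
          apply cj_le_of_image_subset
          rintro _ ⟨z, hz, rfl⟩
          apply hk j (by simpa using hj)
          exact ⟨z, ⟨z, hz, hcc z hz⟩, rfl⟩)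
      have c2 := c1.transport (R' := fun _ y => y ∈ Subgroup.normalizer
          ((W ((P : Subgroup G) ⊓ Subgroup.normalizer (U : Set G)) : Subgroup G) : Set G) ∨
          y ∈ Subgroup.centralizer
          ((V ((P : Subgroup G) ⊓ Subgroup.normalizer (U : Set G)) : Subgroup G) : Set G)) m (by
        intro _ y hy
        rcases hy with hy | hy
        · left
          rw [← hn2, functor_cj hW hQp, ← cj_normalizer]
          exact conj_mem_cj (Subgroup.mem_inf.mp hy).2
        · right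
          rw [← hn2, functor_cj hV hQp, ← cj_centralizer]
          exact conj_mem_cj (Subgroup.mem_inf.mp hy).2)
      rw [hn2, cj_cj_inv] at c2
      have agree : ∀ z ∈ B, (m⁻¹ * (List.ofFn b).prod * m)⁻¹ * z * (m⁻¹ * (List.ofFn b).prod * m) =
          x⁻¹ * z * x := by
        intro z hz
        have hz' : m * z * m⁻¹ ∈ cj B m⁻¹ := by
          rw [mem_cj]; convert hz using 1; group
        have e2 : (List.ofFn b).prod = c⁻¹ * (m * x * m⁻¹) := by rw [hab]; group
        have e3 := hcc _ hz'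
        have e4 : c * (m * z * m⁻¹) * c⁻¹ = m * z * m⁻¹ := by
          conv_lhs => rw [← e3]
          group
        calc (m⁻¹ * (List.ofFn b).prod * m)⁻¹ * z * (m⁻¹ * (List.ofFn b).prod * m)
            = m⁻¹ * (m * x * m⁻¹)⁻¹ * (c * (m * z * m⁻¹) * c⁻¹) * (m * x * m⁻¹) * m := by
              rw [e2]; group
          _ = m⁻¹ * (m * x * m⁻¹)⁻¹ * (m * z * m⁻¹) * (m * x * m⁻¹) * m := by rw [e4]
          _ = x⁻¹ * z * x := by group
      have h1 := c2.good
        (fun A g => A ≤ (P : Subgroup G) ∧ cj A g ≤ (P : Subgroup G) ∧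
          CGood (fun x => x ∈ ⊤ ⊓ Subgroup.normalizer ((W P : Subgroup G) : Set G) ∨
          x ∈ ⊤ ⊓ Subgroup.centralizer ((V P : Subgroup G) : Set G)) (P : Subgroup G) A g)
        trans
        (fun A hA => ⟨hA.trans inf_le_left, by rw [cj_one]; exact hA.trans inf_le_left,
          CGood.one _ _ _⟩)
        (fun _ y hy A hA hAy => hyp y hy A hA hAy)
        (by rw [cj_congr agree]; exact hBx)
      exact ⟨h1.1, hBx.trans inf_le_left, h1.2.2.congr agree⟩)
  refine ⟨P, P.2, P.not_dvd_index, ?_⟩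
  intro X a hX hXa
  obtain ⟨-, h2, g', c1, e1⟩ := main (Subgroup.closure X) ((Subgroup.closure_le _).mpr hX) a
    (cj_closure_le_of_image_subset hXa)
  obtain ⟨l, hl1, hl2, hl3⟩ := list_of_chain c1 (by rw [cj_congr e1]; exact h2)
  have hcc : ∀ z ∈ X, (a * g'⁻¹)⁻¹ * z * (a * g'⁻¹) = z := by
    intro z hz
    have := e1 z (Subgroup.subset_closure hz)
    calc (a * g'⁻¹)⁻¹ * z * (a * g'⁻¹) = g' * (a⁻¹ * z * a) * g'⁻¹ := by group
      _ = g' * (g'⁻¹ * z * g') * g'⁻¹ := by rw [this]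
      _ = z := by group
  refine ⟨a * g'⁻¹, ?_, l.length, l.get, ?_, ?_, ?_⟩
  · rw [Subgroup.mem_centralizer_iff]
    intro z hz
    have := hcc z hz
    calc z * (a * g'⁻¹) = (a * g'⁻¹) * ((a * g'⁻¹)⁻¹ * z * (a * g'⁻¹)) := by group
      _ = a * g'⁻¹ * z := by rw [this]
  · intro i
    exact hl1 _ (List.get_mem l i)
  · rw [List.ofFn_get, hl2]; group
  · intro j _
    rw [List.ofFn_get]
    rintro _ ⟨_, ⟨z, hz, rfl⟩, rfl⟩
    simp only
    rw [hcc z hz]
    exact hl3 j (conj_mem_cj (Subgroup.subset_closure hz))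

end Cfsg.Agent.S2002
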