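import Cfsg.Statements.S2015
-- import your own Cfsg.Agent.* helpers here
import Cfsg.Agent.Lib.Helper13.KInfApps

set_option autoImplicit false
universe u
open Cfsg

namespace Cfsg.Agent.S2015

open Cfsg.Agent.Lib.Helper13

/-- For p ≥ 5, every finite p-group P has a characteristic subgroup K containing Z(P), depending only on P, whose normalizer controls transfer wherever P is a Sylow subgroup: for every finite group G and every embedding ι of P onto a Sylow p-subgroup of G, the intersection of ι(P) with the derived subgroup of G equals its intersection with the derived subgroup of N_G(ι(K)). -/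
theorem result (p : ℕ) [Fact p.Prime] (hp : 5 ≤ p) (P : Type u) [Group P] [Finite P] (hP : IsPGroup p P) : ∃ K : Subgroup P, K.Characteristic ∧ Subgroup.center P ≤ K ∧ ∀ (G : Type u) [Group G] [Finite G] (ι : P →* G), Function.Injective ι → (∃ T : Sylow p G, (T : Subgroup G) = ι.range) → ι.range ⊓ commutator G = ι.range ⊓ (commutator ↥(Subgroup.normalizer ((K.map ι : Subgroup G) : Set G))).map (Subgroup.normalizer ((K.map ι : Subgroup G) : Set G)).subtype := by
  refine ⟨Cfsg.kInfLower P, Subgroup.characteristic_iff_map_eq.mpr (fun φ => (kInf_map_equiv φ).1),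
    ?_, ?_⟩
  · obtain ⟨h1, h2, _, _⟩ := Cfsg.Agent.S1978.result hP
    exact h2.trans h1
  · intro G _ _ ι hι hT
    obtain ⟨T, hT⟩ := hT
    have hKe : (Cfsg.kInfLower P).map ι = Cfsg.inducedFunctor Cfsg.kInfLower (T : Subgroup G) := by
      rw [hT]
      show _ = (Cfsg.kInfLower ↥ι.range).map ι.range.subtype
      rw [← (kInf_map_equiv (MonoidHom.ofInjective hι)).1, Subgroup.map_map]
      rfl
    have hFT := FT_kInfLower hp G
    have h1 := FTS_of_familyTransfer
      (ind_isConjugacyFunctor (X := G) (by rintro _ rfl; exact kInfLower_isChar p)) hFT le_top T.2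
      (not_dvd_relIndex_top T)
    have e : ind {Cfsg.kInfLower} G = {Cfsg.inducedFunctor (G := G) Cfsg.kInfLower} := by
      unfold ind; rw [Set.image_singleton]
    unfold FTS TKer at h1
    rw [e, iSup_singleton, top_inf_eq] at h1
    have e2 : ∀ N : Subgroup G, (commutator ↥N).map N.subtype = ⁅N, N⁆ := by
      intro N
      rw [commutator_def, Subgroup.map_commutator, ← MonoidHom.range_eq_map, Subgroup.range_subtype]
    rw [hKe, e2, ← hT]
    apply le_antisymm
    · rw [commutator_def]; exact h1
    · rw [commutator_def]
      exact inf_le_inf_left _ (Subgroup.commutator_mono le_top le_top)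

end Cfsg.Agent.S2015
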