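import Mathlib
import Cfsg.Statements.S2133
import Cfsg.Agent.Lib.Helper3.CZ2
import Cfsg.Agent.S0445

set_option autoImplicit false
open Cfsg

namespace Cfsg.Agent.S2133

open Cfsg.Agent.Lib.Helper3.CZ

/-- The Mathieu group M₂₄ (the automorphism group of the length-24 binary code) has an involution whose centraliser is isomorphic to the centraliser of a transvection in SL(5, 2) (a group of shape 2^{1+6}:GL(3, 2)). -/
theorem result (s : Matrix.SpecialLinearGroup (Fin 5) (ZMod 2)) (hs : (s : Matrix (Fin 5) (Fin 5) (ZMod 2)) = Matrix.transvection 0 1 1) : ∃ z : ↥Cfsg.M24, orderOf z = 2 ∧ Nonempty (↥(Subgroup.centralizer ({z} : Set ↥Cfsg.M24)) ≃* ↥(Subgroup.centralizer ({s} : Set (Matrix.SpecialLinearGroup (Fin 5) (ZMod 2))))) := by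
  refine ⟨zz, orderOf_zz, ?_⟩
  have hzc : zz ∈ Subgroup.centralizer ({zz} : Set ↥Cfsg.M24) := by
    rw [Subgroup.mem_centralizer_iff]
    intro y hy
    rw [Set.mem_singleton_iff] at hy
    rw [hy]
  have hPz : Phi ⟨zz, hzc⟩ = s := by
    apply Subtype.ext
    show Ph (Cfsg.Agent.Lib.Helper3.wperm Cfsg.Agent.Lib.Helper3.zAw) = s.1
    rw [Ph_z, hs]
  have hmem : ∀ g, Phi g ∈ Subgroup.centralizer
      ({s} : Set (Matrix.SpecialLinearGroup (Fin 5) (ZMod 2))) := by
    intro g
    rw [Subgroup.mem_centralizer_iff]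
    intro y hy
    rw [Set.mem_singleton_iff] at hy
    rw [hy, ← hPz, ← map_mul, ← map_mul]
    congr 1
    apply Subtype.ext
    exact Subgroup.mem_centralizer_iff.mp g.2 zz rfl
  have hinj : Function.Injective (Phi.codRestrict _ hmem) :=
    fun a b hab => Phi_inj (congrArg Subtype.val hab)
  have hbij := hinj.bijective_of_nat_card_le
    (by rw [Cfsg.Agent.S0445.result s hs]; exact card_Cz_ge)
  exact ⟨MulEquiv.ofBijective (Phi.codRestrict _ hmem) hbij⟩

end Cfsg.Agent.S2133
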