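import Cfsg.Statements.S2162
import Mathlib
import Cfsg.Agent.Lib.Helper12.SqZero

set_option autoImplicit false
open Cfsg

namespace Cfsg.Agent.S2162

open Matrix

variable {F : Type*} [Field F]

theorem sq_zero_of_order_two [CharP F 2] {n : ℕ} (a : Matrix.SpecialLinearGroup (Fin n) F)
    (ha : orderOf a = 2) :
    ((a : Matrix (Fin n) (Fin n) F) - 1) * ((a : Matrix (Fin n) (Fin n) F) - 1) = 0 := by
  have h2 : (2 : F) = 0 := by
    have := CharP.cast_eq_zero F 2
    simpa using this
  have ha2 : a * a = 1 := by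
    rw [← pow_two, ← ha]; exact pow_orderOf_eq_one a
  have e1 : (a : Matrix (Fin n) (Fin n) F) * (a : Matrix (Fin n) (Fin n) F) = 1 := by
    rw [← Matrix.SpecialLinearGroup.coe_mul, ha2]; rfl
  have e2 : ((a : Matrix (Fin n) (Fin n) F) - 1) * ((a : Matrix (Fin n) (Fin n) F) - 1) =
      (2 : F) • (1 - (a : Matrix (Fin n) (Fin n) F)) := by
    rw [sub_mul, mul_sub, e1, two_smul]
    simp only [mul_one, one_mul]
    abel
  rw [e2, h2, zero_smul]

/-- Conjugacy of involutions in the special linear group over a finite field of characteristic two, in dimension at least 3: two elements of order 2 of SL_n(F) are conjugate in SL_n(F) exactly when the matrices a − 1 and b − 1 have the same rank (the rank of a − 1 is the dimension of the commutator space [V, a]). -/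
theorem result {F : Type*} [Field F] [Fintype F] [CharP F 2] {n : ℕ} (hn : 3 ≤ n) (a b : Matrix.SpecialLinearGroup (Fin n) F) (ha : orderOf a = 2) (hb : orderOf b = 2) :
    IsConj a b ↔ ((a : Matrix (Fin n) (Fin n) F) - 1).rank = ((b : Matrix (Fin n) (Fin n) F) - 1).rank := by
  constructor
  · intro h
    rw [isConj_iff] at h
    obtain ⟨c, rfl⟩ := h
    have e : ((c * a * c⁻¹ : Matrix.SpecialLinearGroup (Fin n) F) : Matrix (Fin n) (Fin n) F) - 1 =
        (c : Matrix (Fin n) (Fin n) F) * ((a : Matrix (Fin n) (Fin n) F) - 1) *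
          ((c⁻¹ : Matrix.SpecialLinearGroup (Fin n) F) : Matrix (Fin n) (Fin n) F) := by
      rw [mul_sub, sub_mul, mul_one, ← Matrix.SpecialLinearGroup.coe_mul,
        ← Matrix.SpecialLinearGroup.coe_mul, ← Matrix.SpecialLinearGroup.coe_mul, mul_inv_cancel]
      rfl
    rw [e, Matrix.rank_mul_eq_left_of_isUnit_det _ _
        (by rw [Matrix.SpecialLinearGroup.det_coe]; exact isUnit_one),
      Matrix.rank_mul_eq_right_of_isUnit_det _ _
        (by rw [Matrix.SpecialLinearGroup.det_coe]; exact isUnit_one)]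
  · intro hr
    have hA := sq_zero_of_order_two a ha
    have hB := sq_zero_of_order_two b hb
    set A := (a : Matrix (Fin n) (Fin n) F) - 1 with hAdef
    set B := (b : Matrix (Fin n) (Fin n) F) - 1 with hBdef
    have hN : ∀ x, A.mulVecLin (A.mulVecLin x) = 0 := by
      intro x
      simp only [Matrix.mulVecLin_apply, Matrix.mulVec_mulVec, hA, Matrix.zero_mulVec]
    have hN' : ∀ x, B.mulVecLin (B.mulVecLin x) = 0 := by
      intro x
      simp only [Matrix.mulVecLin_apply, Matrix.mulVec_mulVec, hB, Matrix.zero_mulVec]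
    obtain ⟨g, hg⟩ := Cfsg.Agent.Lib.Helper12.sqZero_similar A.mulVecLin B.mulVecLin hN hN' hr
    have hA0 : A.mulVecLin ≠ 0 := by
      intro h
      have h1 : A = 0 := by
        ext i j
        have h4 := congrFun (LinearMap.congr_fun h (Pi.single j 1)) i
        simpa using h4
      have h2 : a = 1 := by
        apply Matrix.SpecialLinearGroup.ext
        intro i j
        rw [sub_eq_zero.mp h1]; rfl
      rw [h2, orderOf_one] at ha
      omega
    set d : F := LinearMap.det (g : (Fin n → F) →ₗ[F] (Fin n → F)) with hd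
    have hd0 : d ≠ 0 := (LinearEquiv.isUnit_det' g).ne_zero
    obtain ⟨s, hs⟩ : IsSquare d⁻¹ := FiniteField.isSquare_of_char_two (CharP.ringChar_of_prime_eq_zero Nat.prime_two (by
      have := CharP.cast_eq_zero F 2
      simpa using this)) _
    obtain ⟨h, hdet, hcomm⟩ := Cfsg.Agent.Lib.Helper12.sqZero_exists_commute_det A.mulVecLin hN hA0 s
    let e : (Fin n → F) →ₗ[F] (Fin n → F) := (g : (Fin n → F) →ₗ[F] (Fin n → F)) ∘ₗ h
    have hedet : (LinearMap.toMatrix' e).det = 1 := by
      rw [LinearMap.det_toMatrix', LinearMap.det_comp, hdet, ← hd, ← hs, mul_inv_cancel₀ hd0]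
    obtain ⟨E, hE⟩ : ∃ E : Matrix.SpecialLinearGroup (Fin n) F,
      (E : Matrix (Fin n) (Fin n) F) = LinearMap.toMatrix' e := ⟨⟨_, hedet⟩, rfl⟩
    have hEA : (E : Matrix (Fin n) (Fin n) F) * A = B * (E : Matrix (Fin n) (Fin n) F) := by
      apply Matrix.toLin'.injective
      apply LinearMap.ext
      intro x
      simp only [Matrix.toLin'_apply, ← Matrix.mulVec_mulVec, hE, LinearMap.toMatrix'_mulVec]
      have h1 := hcomm x
      have h2 := hg (h x)
      simp only [Matrix.mulVecLin_apply] at h1 h2
      simp only [e, LinearMap.comp_apply, LinearEquiv.coe_coe]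
      rw [h1, h2]
    rw [isConj_iff]
    refine ⟨E, ?_⟩
    have h3 : E * a = b * E := by
      apply Matrix.SpecialLinearGroup.ext
      intro i j
      rw [Matrix.SpecialLinearGroup.coe_mul, Matrix.SpecialLinearGroup.coe_mul]
      have h4 : (E : Matrix (Fin n) (Fin n) F) * (a : Matrix (Fin n) (Fin n) F) =
          (b : Matrix (Fin n) (Fin n) F) * (E : Matrix (Fin n) (Fin n) F) := by
        have h5 := hEA
        rw [hAdef, hBdef, mul_sub, sub_mul, mul_one, one_mul] at h5
        exact sub_left_injective h5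
      rw [h4]
    rw [h3]; group


end Cfsg.Agent.S2162
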