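import Cfsg.Statements.S2163
import Mathlib

set_option autoImplicit false
open Cfsg

namespace Cfsg.Agent.S2163

/-- Over a finite field of characteristic two and for n ≥ 3: for every ℓ with 1 ≤ ℓ and 2ℓ ≤ n, the matrix j_ℓ that is the identity plus the entries 1 in positions (n − ℓ + i, i) for i < ℓ (an identity block of size ℓ in the lower left corner) lies in SL_n(F), has order 2, and j_ℓ − 1 has rank ℓ. Together with the conjugacy criterion by rank, these matrices represent the conjugacy classes of involutions of SL_n(F). -/
theorem result {F : Type*} [Field F] [Fintype F] [CharP F 2] {n : ℕ} (hn : 3 ≤ n) (ℓ : ℕ) (h1 : 1 ≤ ℓ) (h2 : 2 * ℓ ≤ n) :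
    ∃ a : Matrix.SpecialLinearGroup (Fin n) F, (a : Matrix (Fin n) (Fin n) F) = 1 + Matrix.of (fun i j : Fin n => if j.val < ℓ ∧ i.val = j.val + (n - ℓ) then (1 : F) else 0) ∧ orderOf a = 2 ∧ ((a : Matrix (Fin n) (Fin n) F) - 1).rank = ℓ := by
  classical
  set E : Matrix (Fin n) (Fin n) F := Matrix.of (fun i j : Fin n =>
    if j.val < ℓ ∧ i.val = j.val + (n - ℓ) then (1 : F) else 0) with hE
  have hEE : E * E = 0 := by
    ext i j
    rw [Matrix.mul_apply]
    apply Finset.sum_eq_zero
    intro k _
    simp only [hE, Matrix.of_apply]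
    by_cases h1' : k.val < ℓ ∧ i.val = k.val + (n - ℓ)
    · by_cases h2' : j.val < ℓ ∧ k.val = j.val + (n - ℓ)
      · omega
      · rw [if_neg h2', mul_zero]
    · rw [if_neg h1', zero_mul]
  have hE2 : E + E = 0 := by
    ext i j
    simp [CharTwo.add_self_eq_zero]
  have haa : (1 + E) * (1 + E) = 1 := by
    have : (1 + E) * (1 + E) = 1 + (E + E) + E * E := by noncomm_ring
    rw [this, hEE, hE2, add_zero, add_zero]
  have hdet : (1 + E).det = 1 := by
    have h := congrArg Matrix.det haa
    rw [Matrix.det_mul, Matrix.det_one] at h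
    have h3 : ((1 + E).det + 1) * ((1 + E).det + 1) = 0 := by
      have : ((1 + E).det + 1) * ((1 + E).det + 1) =
          (1 + E).det * (1 + E).det + ((1 + E).det + (1 + E).det) + 1 := by ring
      rw [this, h, CharTwo.add_self_eq_zero, add_zero, CharTwo.add_self_eq_zero]
    have h4 : (1 + E).det + 1 = 0 := mul_self_eq_zero.1 h3
    have h5 := eq_neg_of_add_eq_zero_left h4
    rw [h5, CharTwo.neg_eq]
  have hE0 : E ≠ 0 := by
    intro h
    have := congrFun (congrFun h ⟨n - ℓ, by omega⟩) ⟨0, by omega⟩
    simp only [hE, Matrix.of_apply, Matrix.zero_apply] at this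
    rw [if_pos ⟨by omega, by omega⟩] at this
    exact one_ne_zero this
  obtain ⟨a, ha⟩ : ∃ a : Matrix.SpecialLinearGroup (Fin n) F,
      (a : Matrix (Fin n) (Fin n) F) = 1 + E := ⟨⟨1 + E, hdet⟩, rfl⟩
  refine ⟨a, ha, ?_, ?_⟩
  · apply orderOf_eq_prime
    · rw [pow_two]
      apply Subtype.ext
      rw [Matrix.SpecialLinearGroup.coe_mul, ha]
      exact haa
    · intro h
      have h' : (1 + E : Matrix (Fin n) (Fin n) F) = 1 := by
        rw [← ha, h]; rfl
      exact hE0 (by simpa using h')
  · have hsub : (a : Matrix (Fin n) (Fin n) F) - 1 = E := by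
      rw [ha, add_sub_cancel_left]
    rw [hsub]
    let f : Fin ℓ → Fin n := fun k => ⟨k.val + (n - ℓ), by have := k.2; omega⟩
    let g : Fin ℓ → Fin n := fun k => ⟨k.val, by have := k.2; omega⟩
    have hf : Function.Injective f := by
      intro a b hab
      have : a.val + (n - ℓ) = b.val + (n - ℓ) := congrArg Fin.val hab
      exact Fin.ext (by omega)
    have hg : Function.Injective g := by
      intro a b hab
      have : (g a).val = (g b).val := by rw [hab]
      exact Fin.ext this
    have hBC : E = (1 : Matrix (Fin n) (Fin n) F).submatrix id f *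
        (1 : Matrix (Fin n) (Fin n) F).submatrix g id := by
      ext i j
      rw [Matrix.mul_apply]
      simp only [hE, Matrix.of_apply, Matrix.submatrix_apply, id, Matrix.one_apply]
      by_cases hj : j.val < ℓ
      · rw [Finset.sum_eq_single (⟨j.val, hj⟩ : Fin ℓ)]
        · have hgj : g ⟨j.val, hj⟩ = j := Fin.ext rfl
          rw [if_pos hgj, mul_one]
          by_cases hi : i.val = j.val + (n - ℓ)
          · rw [if_pos ⟨hj, hi⟩, if_pos (Fin.ext hi)]
          · rw [if_neg (fun h => hi h.2), if_neg (fun h => hi (congrArg Fin.val h))]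
        · intro k _ hk
          have : g k ≠ j := by
            intro h
            apply hk
            have h' : (g k).val = j.val := by rw [h]
            exact Fin.ext h'
          rw [if_neg this, mul_zero]
        · intro h
          exact absurd (Finset.mem_univ _) h
      · rw [if_neg (fun h => hj h.1)]
        symm
        apply Finset.sum_eq_zero
        intro k _
        have : g k ≠ j := by
          intro h
          apply hj
          rw [← h]
          exact k.2
        rw [if_neg this, mul_zero]
    have hB : (1 : Matrix (Fin n) (Fin n) F).submatrix f id *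
        (1 : Matrix (Fin n) (Fin n) F).submatrix id f = 1 := by
      rw [← Matrix.submatrix_mul _ _ f id f Function.bijective_id, Matrix.mul_one,
        Matrix.submatrix_one f hf]
    have hC : (1 : Matrix (Fin n) (Fin n) F).submatrix g id *
        (1 : Matrix (Fin n) (Fin n) F).submatrix id g = 1 := by
      rw [← Matrix.submatrix_mul _ _ g id g Function.bijective_id, Matrix.mul_one,
        Matrix.submatrix_one g hg]
    apply le_antisymm
    · rw [hBC]
      refine (Matrix.rank_mul_le_left _ _).trans ?_
      have := Matrix.rank_le_card_width ((1 : Matrix (Fin n) (Fin n) F).submatrix id f)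
      simpa using this
    · have h1' : (1 : Matrix (Fin n) (Fin n) F).submatrix f id * E *
          (1 : Matrix (Fin n) (Fin n) F).submatrix id g = 1 := by
        rw [hBC, ← Matrix.mul_assoc, hB, Matrix.one_mul, hC]
      have h2' : (1 : Matrix (Fin ℓ) (Fin ℓ) F).rank = ℓ := by
        rw [Matrix.rank_one, Fintype.card_fin]
      rw [← h2', ← h1']
      exact (Matrix.rank_mul_le_left _ _).trans (Matrix.rank_mul_le_right _ _)

end Cfsg.Agent.S2163
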