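import Cfsg.Statements.S2164
import Cfsg.Agent.Lib.Helper16.UInvol

set_option autoImplicit false

open Cfsg

namespace Cfsg.Agent.S2164

open Cfsg.Agent.Lib.Helper16 Cfsg.Agent.Lib.Helper6
open scoped Matrix

theorem result {F : Type*} [Field F] [Fintype F] [CharP F 2] {n q : ℕ} (hF : Fintype.card F = q ^ 2) (hn : 3 ≤ n) (a b : ↥(Cfsg.SU n F q)) (ha : orderOf a = 2) (hb : orderOf b = 2) :
    (IsConj a b ↔ IsConj (a : Matrix.SpecialLinearGroup (Fin n) F) (b : Matrix.SpecialLinearGroup (Fin n) F)) ∧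
    (IsConj a b ↔ (((a : Matrix.SpecialLinearGroup (Fin n) F) : Matrix (Fin n) (Fin n) F) - 1).rank = (((b : Matrix.SpecialLinearGroup (Fin n) F) : Matrix (Fin n) (Fin n) F) - 1).rank) := by
  have hf := herm_isUnitary hF n
  set σ := frobEquiv hF with hσ
  set f := hermForm n F q with hfdef
  obtain ⟨A, hA⟩ : ∃ A : Matrix (Fin n) (Fin n) F, A = a.1.1 := ⟨_, rfl⟩
  obtain ⟨B, hB⟩ : ∃ B : Matrix (Fin n) (Fin n) F, B = b.1.1 := ⟨_, rfl⟩
  have hAiso : ∀ x y, f (A *ᵥ x) (A *ᵥ y) = f x y := by rw [hA]; exact a.2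
  have hBiso : ∀ x y, f (B *ᵥ x) (B *ᵥ y) = f x y := by rw [hB]; exact b.2
  have h2 : (2 : F) = 0 := CharTwo.two_eq_zero
  have hsq : ∀ c : F, IsSquare c := fun c =>
    FiniteField.isSquare_of_char_two (ringChar.eq F 2) c
  have hdet : ∀ G : GL (Fin n) F, G ∈ uIso f →
      (G : Matrix (Fin n) (Fin n) F).det * σ (G : Matrix (Fin n) (Fin n) F).det = 1 := by
    intro G hG
    have h1 : (G : Matrix (Fin n) (Fin n) F)ᵀ *
        ((σ : F →+* F).mapMatrix (G : Matrix (Fin n) (Fin n) F)) = 1 := by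
      ext i j
      have h2 := hG (Pi.single i 1) (Pi.single j 1)
      have h3 : f ((G : Matrix (Fin n) (Fin n) F) *ᵥ Pi.single i 1)
          ((G : Matrix (Fin n) (Fin n) F) *ᵥ Pi.single j 1) = f (Pi.single i 1) (Pi.single j 1) := h2
      rw [Matrix.mulVec_single_one, Matrix.mulVec_single_one] at h3
      rw [Matrix.mul_apply]
      have h4 : f (Pi.single i 1) (Pi.single j 1) = (1 : Matrix (Fin n) (Fin n) F) i j := by
        rw [hfdef, herm_single_left, Matrix.one_apply]
        by_cases hij : i = j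
        · subst hij; simp
        · rw [if_neg hij, Pi.single_eq_of_ne hij, zero_pow (by have := herm_q_pos hF; omega)]
      rw [← h4, ← h3]
      rfl
    have h5 := congrArg Matrix.det h1
    rw [Matrix.det_mul, Matrix.det_transpose, Matrix.det_one, ← RingHom.map_det] at h5
    exact h5
  have hA2 : A * A = 1 := by
    have h := pow_orderOf_eq_one a
    rw [ha, pow_two] at h
    have h' := congrArg (fun x : ↥(Cfsg.SU n F q) => x.1.1) h
    rw [hA]; exact h'
  have hB2 : B * B = 1 := by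
    have h := pow_orderOf_eq_one b
    rw [hb, pow_two] at h
    have h' := congrArg (fun x : ↥(Cfsg.SU n F q) => x.1.1) h
    rw [hB]; exact h'
  have hA1 : A ≠ 1 := by
    intro h
    have : a = 1 := by
      apply Subtype.ext
      apply Subtype.ext
      rw [← hA, h]; rfl
    rw [this, orderOf_one] at ha
    omega
  -- the chain
  have s1 : IsConj a b → IsConj (a : Matrix.SpecialLinearGroup (Fin n) F)
      (b : Matrix.SpecialLinearGroup (Fin n) F) := fun h => MonoidHom.map_isConj (Cfsg.SU n F q).subtype h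
  have s2 : IsConj (a : Matrix.SpecialLinearGroup (Fin n) F)
      (b : Matrix.SpecialLinearGroup (Fin n) F) → (A - 1).rank = (B - 1).rank := by
    intro h
    rw [isConj_iff] at h
    obtain ⟨C, hC⟩ := h
    rw [mul_inv_eq_iff_eq_mul] at hC
    have hC' : C.1 * A = B * C.1 := by
      have := congrArg (fun x : Matrix.SpecialLinearGroup (Fin n) F => x.1) hC
      rw [hA, hB]; exact this
    have hCu : IsUnit C.1.det := by rw [C.2]; exact isUnit_one
    have h3 : C.1 * (A - 1) = (B - 1) * C.1 := by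
      rw [mul_sub, sub_mul, hC', mul_one, one_mul]
    rw [← Matrix.rank_mul_eq_right_of_isUnit_det C.1 (A - 1) hCu, h3,
      Matrix.rank_mul_eq_left_of_isUnit_det C.1 (B - 1) hCu]
  have s3 : (A - 1).rank = (B - 1).rank → IsConj a b := by
    intro hrk
    obtain ⟨M, hMdet, hMiso, key⟩ := ui_conj hf h2 hsq hdet A B hAiso hBiso hA2 hB2 hA1 hrk
    rw [isConj_iff]
    refine ⟨⟨⟨M, hMdet⟩, hMiso⟩, ?_⟩
    rw [mul_inv_eq_iff_eq_mul]
    apply Subtype.ext
    apply Subtype.ext
    show M * (a.1.1) = (b.1.1) * M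
    rw [hA, hB] at key
    exact key
  rw [hA, hB] at s2 s3
  exact ⟨⟨s1, fun h => s3 (s2 h)⟩, ⟨fun h => s2 (s1 h), s3⟩⟩

end Cfsg.Agent.S2164
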