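import Cfsg.Statements.S2165
import Mathlib

set_option autoImplicit false
open Cfsg

namespace Cfsg.Agent.S2165

/-- In SU_n(q), q even, n ≥ 3 (matrices of determinant 1 over the field with q² elements preserving Σ u_i v_i^q): for every ℓ with 1 ≤ ℓ and 2ℓ ≤ n, the permutation matrix of the involution of {0, …, n−1} exchanging i and n − ℓ + i for each i < ℓ lies in SU_n(q), has order 2, and differs from the identity by a matrix of rank ℓ. So every rank between 1 and n/2 occurs for involutions of SU_n(q). -/
theorem result {F : Type*} [Field F] [Fintype F] [CharP F 2] {n q : ℕ} (hF : Fintype.card F = q ^ 2) (hn : 3 ≤ n) (ℓ : ℕ) (h1 : 1 ≤ ℓ) (h2 : 2 * ℓ ≤ n) :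
    ∃ a : ↥(Cfsg.SU n F q), (((a : Matrix.SpecialLinearGroup (Fin n) F) : Matrix (Fin n) (Fin n) F) = Matrix.of (fun i j : Fin n => if (j.val < ℓ ∧ i.val = j.val + (n - ℓ)) ∨ (i.val < ℓ ∧ j.val = i.val + (n - ℓ)) ∨ (i = j ∧ ℓ ≤ i.val ∧ i.val < n - ℓ) then (1 : F) else 0)) ∧ orderOf a = 2 ∧ ((((a : Matrix.SpecialLinearGroup (Fin n) F) : Matrix (Fin n) (Fin n) F)) - 1).rank = ℓ := by
  classical
  set M : Matrix (Fin n) (Fin n) F := Matrix.of (fun i j : Fin n =>
    if (j.val < ℓ ∧ i.val = j.val + (n - ℓ)) ∨ (i.val < ℓ ∧ j.val = i.val + (n - ℓ)) ∨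
      (i = j ∧ ℓ ≤ i.val ∧ i.val < n - ℓ) then (1 : F) else 0) with hM
  let sv : ℕ → ℕ := fun i => if i < ℓ then i + (n - ℓ) else if n - ℓ ≤ i then i - (n - ℓ) else i
  have hsv_lt : ∀ i, i < n → sv i < n := by
    intro i hi; simp only [sv]; split_ifs <;> omega
  have hsv2 : ∀ i, i < n → sv (sv i) = i := by
    intro i hi; simp only [sv]; split_ifs <;> omega
  let s : Fin n → Fin n := fun i => ⟨sv i.val, hsv_lt _ i.2⟩
  have hs2 : ∀ i, s (s i) = i := fun i => Fin.ext (hsv2 _ i.2)
  have hMs : ∀ i j, M i j = if j = s i then 1 else 0 := by
    intro i j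
    simp only [hM, Matrix.of_apply]
    refine if_congr ?_ rfl rfl
    rw [Fin.ext_iff, Fin.ext_iff]
    show _ ↔ j.val = sv i.val
    simp only [sv]
    split_ifs <;> omega
  have hmv : ∀ u : Fin n → F, Matrix.mulVec M u = fun i => u (s i) := by
    intro u; ext i
    simp only [Matrix.mulVec, dotProduct, hMs]
    simp
  have hMM : M * M = 1 := by
    ext i j
    rw [Matrix.mul_apply]
    simp only [hMs]
    simp only [ite_mul, one_mul, zero_mul, Finset.sum_ite_eq', Finset.mem_univ, if_true, hs2,
      Matrix.one_apply]
    exact if_congr eq_comm rfl rfl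
  have hdet : M.det = 1 := by
    have h := congrArg Matrix.det hMM
    rw [Matrix.det_mul, Matrix.det_one] at h
    have h3 : (M.det + 1) * (M.det + 1) = 0 := by
      have : (M.det + 1) * (M.det + 1) = M.det * M.det + (M.det + M.det) + 1 := by ring
      rw [this, h, CharTwo.add_self_eq_zero, add_zero, CharTwo.add_self_eq_zero]
    have h4 : M.det + 1 = 0 := mul_self_eq_zero.1 h3
    have h5 := eq_neg_of_add_eq_zero_left h4
    rw [h5, CharTwo.neg_eq]
  have hM1 : M ≠ 1 := by
    intro h
    have := congrFun (congrFun h ⟨0, by omega⟩) ⟨0, by omega⟩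
    rw [hMs, Matrix.one_apply_eq, if_neg] at this
    · exact zero_ne_one this
    · intro h'
      have h'' : 0 = sv 0 := congrArg Fin.val h'
      simp only [sv] at h''
      rw [if_pos (by omega)] at h''
      omega
  obtain ⟨a0, ha0⟩ : ∃ a : Matrix.SpecialLinearGroup (Fin n) F,
      (a : Matrix (Fin n) (Fin n) F) = M := ⟨⟨M, hdet⟩, rfl⟩
  have hmem : a0 ∈ Cfsg.SU n F q := by
    intro u v
    have e : (Cfsg.slToMat n F) a0 = M := ha0
    rw [e, hmv, hmv]
    simp only [Cfsg.hermForm]
    exact Equiv.sum_comp (Function.Involutive.toPerm s hs2) (fun i => u i * (v i) ^ q)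
  refine ⟨⟨a0, hmem⟩, ha0, ?_, ?_⟩
  · apply orderOf_eq_prime
    · rw [pow_two]
      apply Subtype.ext
      apply Subtype.ext
      show (a0 * a0 : Matrix.SpecialLinearGroup (Fin n) F).1 = 1
      rw [Matrix.SpecialLinearGroup.coe_mul, ha0]
      exact hMM
    · intro h
      apply hM1
      rw [← ha0]
      have h' : a0 = 1 := congrArg Subtype.val h
      rw [h']; rfl
  · show ((a0 : Matrix (Fin n) (Fin n) F) - 1).rank = ℓ
    rw [ha0]
    let f : Fin ℓ → Fin n := fun k => ⟨k.val + (n - ℓ), by have := k.2; omega⟩
    let g : Fin ℓ → Fin n := fun k => ⟨k.val, by have := k.2; omega⟩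
    have hsg : ∀ k, s (g k) = f k := by
      intro k
      apply Fin.ext
      show sv k.val = k.val + (n - ℓ)
      simp only [sv]
      rw [if_pos k.2]
    have hsf : ∀ k, s (f k) = g k := by
      intro k
      rw [← hsg, hs2]
    have hfg : ∀ k k', f k ≠ g k' := by
      intro k k' h
      have h' : k.val + (n - ℓ) = k'.val := congrArg Fin.val h
      have := k'.2
      omega
    have hgi : ∀ k k', g k = g k' → k = k' := by
      intro k k' h
      have h' : (g k).val = (g k').val := by rw [h]
      exact Fin.ext h'
    have hfi : ∀ k k', f k = f k' → k = k' := by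
      intro k k' h
      have h' : k.val + (n - ℓ) = k'.val + (n - ℓ) := congrArg Fin.val h
      exact Fin.ext (by omega)
    apply le_antisymm
    · let B : Matrix (Fin n) (Fin ℓ) F := fun i k =>
        (if i = g k then 1 else 0) - (if i = f k then 1 else 0)
      have hBC : M - 1 = B * (M - 1).submatrix g id := by
        ext i j
        rw [Matrix.mul_apply]
        simp only [Matrix.submatrix_apply, id]
        by_cases h1 : i.val < ℓ
        · have e1 : i = g ⟨i.val, h1⟩ := Fin.ext rfl
          rw [Finset.sum_eq_single (⟨i.val, h1⟩ : Fin ℓ)]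
          · have hB : B i ⟨i.val, h1⟩ = 1 := by
              show (if i = g ⟨i.val, h1⟩ then (1 : F) else 0) -
                (if i = f ⟨i.val, h1⟩ then 1 else 0) = 1
              rw [if_pos e1, if_neg (fun h => hfg _ _ (h.symm.trans e1)), sub_zero]
            rw [hB, one_mul, ← e1]
          · intro k _ hk
            have hB : B i k = 0 := by
              show (if i = g k then (1 : F) else 0) - (if i = f k then 1 else 0) = 0
              rw [if_neg (fun h => hk (hgi _ _ (h.symm.trans e1))),
                if_neg (fun h => hfg _ _ (h.symm.trans e1)), sub_zero]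
            rw [hB, zero_mul]
          · intro h; exact absurd (Finset.mem_univ _) h
        · by_cases h2' : n - ℓ ≤ i.val
          · have hlt : i.val - (n - ℓ) < ℓ := by have := i.2; omega
            have e1 : i = f ⟨i.val - (n - ℓ), hlt⟩ := Fin.ext (by
              show i.val = i.val - (n - ℓ) + (n - ℓ)
              omega)
            rw [Finset.sum_eq_single (⟨i.val - (n - ℓ), hlt⟩ : Fin ℓ)]
            · have hB : B i ⟨i.val - (n - ℓ), hlt⟩ = -1 := by
                show (if i = g ⟨i.val - (n - ℓ), hlt⟩ then (1 : F) else 0) -
                  (if i = f ⟨i.val - (n - ℓ), hlt⟩ then 1 else 0) = -1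
                rw [if_pos e1, if_neg (fun h => hfg _ _ (e1.symm.trans h)), zero_sub]
              rw [hB]
              simp only [Matrix.sub_apply, hMs, Matrix.one_apply]
              rw [hsg, ← e1]
              have e2 : s i = g ⟨i.val - (n - ℓ), hlt⟩ := by
                conv_lhs => rw [e1]
                exact hsf _
              rw [e2]
              have e3 : (if g ⟨i.val - (n - ℓ), hlt⟩ = j then (1 : F) else 0) =
                  if j = g ⟨i.val - (n - ℓ), hlt⟩ then 1 else 0 := if_congr eq_comm rfl rfl
              have e4 : (if i = j then (1 : F) else 0) = if j = i then 1 else 0 :=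
                if_congr eq_comm rfl rfl
              rw [e3, e4]
              ring
            · intro k _ hk
              have hB : B i k = 0 := by
                show (if i = g k then (1 : F) else 0) - (if i = f k then 1 else 0) = 0
                rw [if_neg (fun h => hfg _ _ (e1.symm.trans h)),
                  if_neg (fun h => hk (hfi _ _ (h.symm.trans e1))), sub_zero]
              rw [hB, zero_mul]
            · intro h; exact absurd (Finset.mem_univ _) h
          · rw [Finset.sum_eq_zero]
            · have e2 : s i = i := by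
                apply Fin.ext
                show sv i.val = i.val
                simp only [sv]
                rw [if_neg h1, if_neg h2']
              simp only [Matrix.sub_apply, hMs, Matrix.one_apply, e2]
              rw [if_congr (eq_comm (a := j) (b := i)) rfl rfl, sub_self]
            · intro k _
              have hB : B i k = 0 := by
                show (if i = g k then (1 : F) else 0) - (if i = f k then 1 else 0) = 0
                rw [if_neg, if_neg, sub_zero]
                · intro h
                  have h' : i.val = k.val + (n - ℓ) := congrArg Fin.val h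
                  omega
                · intro h
                  have h' : i.val = k.val := congrArg Fin.val h
                  have := k.2
                  omega
              rw [hB, zero_mul]
      rw [hBC]
      refine (Matrix.rank_mul_le_left _ _).trans ?_
      have := Matrix.rank_le_card_width B
      simpa using this
    · have h1' : (M - 1).submatrix f g = 1 := by
        ext k k'
        simp only [Matrix.submatrix_apply, Matrix.sub_apply, hMs, Matrix.one_apply, hsf]
        rw [if_neg (hfg k k'), sub_zero]
        refine if_congr ⟨fun h => (hgi _ _ h).symm, fun h => by rw [h]⟩ rfl rfl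
      have h2' : (1 : Matrix (Fin ℓ) (Fin ℓ) F).rank = ℓ := by
        rw [Matrix.rank_one, Fintype.card_fin]
      rw [← h2', ← h1']
      exact Matrix.rank_submatrix_le _ _ _

end Cfsg.Agent.S2165
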