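import Cfsg.Statements.S2166
import Cfsg.Agent.Lib.Helper16.SpInv3

set_option autoImplicit false

open Cfsg

namespace Cfsg.Agent.S2166

open Cfsg.Agent.Lib.Helper16 Cfsg.Agent.Lib.Helper6

theorem result {F : Type*} [Field F] [Fintype F] [CharP F 2] {m : ℕ} (hm : 2 ≤ m) (a b : ↥(Matrix.symplecticGroup (Fin m) F)) (ha : orderOf a = 2) (hb : orderOf b = 2) :
    IsConj a b ↔ ((((a : ↥(Matrix.symplecticGroup (Fin m) F)) : Matrix (Fin m ⊕ Fin m) (Fin m ⊕ Fin m) F) - 1).rank = (((b : ↥(Matrix.symplecticGroup (Fin m) F)) : Matrix (Fin m ⊕ Fin m) (Fin m ⊕ Fin m) F) - 1).rank ∧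
      (Even (((a : ↥(Matrix.symplecticGroup (Fin m) F)) : Matrix (Fin m ⊕ Fin m) (Fin m ⊕ Fin m) F) - 1).rank → Nat.card {v : Fin m ⊕ Fin m → F // Cfsg.sympForm m F v (Matrix.mulVec ((a : ↥(Matrix.symplecticGroup (Fin m) F)) : Matrix (Fin m ⊕ Fin m) (Fin m ⊕ Fin m) F) v) = 0} = Nat.card {v : Fin m ⊕ Fin m → F // Cfsg.sympForm m F v (Matrix.mulVec ((b : ↥(Matrix.symplecticGroup (Fin m) F)) : Matrix (Fin m ⊕ Fin m) (Fin m ⊕ Fin m) F) v) = 0})) := by
  have h2 : (2 : F) = 0 := CharTwo.two_eq_zero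
  have hsq : ∀ a : F, ∃ c, c * c = a := fun a => by
    obtain ⟨c, hc⟩ := FiniteField.isSquare_of_char_two (ringChar.eq F 2) a
    exact ⟨c, hc.symm⟩
  have ha' : a * a = 1 := by rw [← sq, ← ha, pow_orderOf_eq_one]
  have hb' : b * b = 1 := by rw [← sq, ← hb, pow_orderOf_eq_one]
  rw [SpInv.isConj_iff_inv h2 hsq ha' hb']
  constructor
  · rintro ⟨h1, h3⟩
    refine ⟨h1, fun _ => ?_⟩
    by_cases hA : ∀ v, sympForm m F v ((a : Matrix (Fin m ⊕ Fin m) (Fin m ⊕ Fin m) F).mulVec v) = 0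
    · rw [SpInv.card_of_forall _ hA, SpInv.card_of_forall _ (h3.1 hA)]
    · have hB : ¬ ∀ v, sympForm m F v ((b : Matrix (Fin m ⊕ Fin m) (Fin m ⊕ Fin m) F).mulVec v) = 0 :=
        fun h => hA (h3.2 h)
      have hV : Nat.card (Fin m ⊕ Fin m → F) = Fintype.card F ^ (2 * m) := by
        rw [Nat.card_eq_fintype_card, Fintype.card_fun, Fintype.card_sum, Fintype.card_fin, two_mul]
      have hq : 0 < Fintype.card F := Fintype.card_pos
      rcases SpInv.card_V h2 hsq ha' with e1 | e1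
      · exact absurd (SpInv.forall_of_card_eq _ (e1.trans hV.symm)) hA
      rcases SpInv.card_V h2 hsq hb' with e2 | e2
      · exact absurd (SpInv.forall_of_card_eq _ (e2.trans hV.symm)) hB
      exact Nat.eq_of_mul_eq_mul_right hq (e1.trans e2.symm)
  · rintro ⟨h1, h3⟩
    refine ⟨h1, fun hA => ?_, fun hB => ?_⟩
    · have e := h3 (SpInv.even_rank_of_alt h2 ha' hA)
      rw [SpInv.card_of_forall _ hA] at e
      exact SpInv.forall_of_card_eq _ e.symm
    · have e := h3 (h1 ▸ SpInv.even_rank_of_alt h2 hb' hB)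
      rw [SpInv.card_of_forall _ hB] at e
      exact SpInv.forall_of_card_eq _ e

end Cfsg.Agent.S2166
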