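import Cfsg.Statements.S2169
import Cfsg.Agent.Lib.Helper16.Orth15

set_option autoImplicit false

open Cfsg

namespace Cfsg.Agent.S2169

open Cfsg.Agent.Lib.Helper16

theorem result {F : Type*} [Field F] [Fintype F] [CharP F 2] {m : ℕ} (hm : 4 ≤ m) (t : ↥(Cfsg.isometryGroup F (Cfsg.quadFormPlus m F))) (ht : orderOf t = 2) :
    t ∈ Cfsg.Omega F (Cfsg.quadFormPlus m F) ↔ Even ((((t : ↥(Cfsg.isometryGroup F (Cfsg.quadFormPlus m F))) : GL (Fin m ⊕ Fin m) F) : Matrix (Fin m ⊕ Fin m) (Fin m ⊕ Fin m) F) - 1).rank := by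
  have h2 : (2 : F) = 0 := by
    have := CharP.cast_eq_zero F 2
    exact_mod_cast this
  revert t
  rw [← qPlus_coe]
  intro t _
  exact mem_Omega_iff_even_rank (qPlus m F) h2 qPlus_nondeg (by right; simp; omega) t

end Cfsg.Agent.S2169
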