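import Cfsg.Statements.S2172
import Cfsg.Agent.Lib.Helper16.OInv5
import Cfsg.Agent.Lib.Helper16.POAut13

set_option autoImplicit false

open Cfsg

namespace Cfsg.Agent.S2172

open Cfsg.Agent.Lib.Helper16 Cfsg.Agent.Lib.Helper6

theorem result {F : Type*} [Field F] [Fintype F] [CharP F 2] {m : ℕ} (hm : 4 ≤ m) (t s : ↥(Cfsg.isometryGroup F (Cfsg.quadFormPlus m F))) (ht : orderOf t = 2) (hs : orderOf s = 2) (htO : t ∈ Cfsg.Omega F (Cfsg.quadFormPlus m F)) (hsO : s ∈ Cfsg.Omega F (Cfsg.quadFormPlus m F)) (hconj : IsConj t s) :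
    (¬ (((((t : ↥(Cfsg.isometryGroup F (Cfsg.quadFormPlus m F))) : GL (Fin m ⊕ Fin m) F) : Matrix (Fin m ⊕ Fin m) (Fin m ⊕ Fin m) F) - 1).rank = m ∧ ∀ v : Fin m ⊕ Fin m → F, Cfsg.quadFormPlus m F (v + Matrix.mulVec (((t : ↥(Cfsg.isometryGroup F (Cfsg.quadFormPlus m F))) : GL (Fin m ⊕ Fin m) F) : Matrix (Fin m ⊕ Fin m) (Fin m ⊕ Fin m) F) v) = 0) →
      ∃ g ∈ Cfsg.Omega F (Cfsg.quadFormPlus m F), g * t * g⁻¹ = s) ∧
    ((((((t : ↥(Cfsg.isometryGroup F (Cfsg.quadFormPlus m F))) : GL (Fin m ⊕ Fin m) F) : Matrix (Fin m ⊕ Fin m) (Fin m ⊕ Fin m) F) - 1).rank = m ∧ ∀ v : Fin m ⊕ Fin m → F, Cfsg.quadFormPlus m F (v + Matrix.mulVec (((t : ↥(Cfsg.isometryGroup F (Cfsg.quadFormPlus m F))) : GL (Fin m ⊕ Fin m) F) : Matrix (Fin m ⊕ Fin m) (Fin m ⊕ Fin m) F) v) = 0) →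
      ((∃ g ∈ Cfsg.Omega F (Cfsg.quadFormPlus m F), g * t * g⁻¹ = s) ↔
        Even (Module.finrank F ↥(LinearMap.range (Matrix.toLin' ((((t : ↥(Cfsg.isometryGroup F (Cfsg.quadFormPlus m F))) : GL (Fin m ⊕ Fin m) F) : Matrix (Fin m ⊕ Fin m) (Fin m ⊕ Fin m) F) - 1)) ⊓ LinearMap.range (Matrix.toLin' ((((s : ↥(Cfsg.isometryGroup F (Cfsg.quadFormPlus m F))) : GL (Fin m ⊕ Fin m) F) : Matrix (Fin m ⊕ Fin m) (Fin m ⊕ Fin m) F) - 1)))))) := by
  have h2 : (2 : F) = 0 := CharTwo.two_eq_zero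
  have hsq : ∀ a : F, ∃ c, c * c = a := fun a => by
    obtain ⟨c, hc⟩ := FiniteField.isSquare_of_char_two (ringChar.eq F 2) a
    exact ⟨c, hc.symm⟩
  revert t s
  rw [← qPlus_coe]
  intro t s ht hs htO hsO hconj
  have hB := qPlus_nondeg (m := m) (F := F)
  have hgen := cartan_dieudonne (qPlus m F) hB (Or.inr (by simp; omega))
  obtain ⟨ε, hε1, hε2⟩ := exists_dickson _ h2 hB hgen
  have ht' : t * t = 1 := by rw [← sq, ← ht, pow_orderOf_eq_one]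
  have h5 : Module.finrank F (Fin m ⊕ Fin m → F) = 2 * m := by simp [two_mul]
  have hw' : ∀ U : Submodule F (Fin m ⊕ Fin m → F),
      (∀ u ∈ U, qPlus m F u = 0) → Module.finrank F U ≤ m := fun U hU => by
    have := POAut.ts_finrank_le (Q := qPlus m F) hB U hU
    omega
  rw [← OInv.alt_iff_Q h2 t]
  constructor
  · intro hne
    obtain ⟨g, hg1, hg2⟩ := OInv.omega_conj_generic h2 hsq hB (m := m) (by simp [two_mul])
      hw' ε hε2 ht' hne hconj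
    exact ⟨g, (hε1 g).2 hg1, hg2⟩
  · rintro ⟨hrk, halt⟩
    have hU : IsMTS (qPlus m F) (LinearMap.range (OInv.NG (t : GL (Fin m ⊕ Fin m) F))) :=
      ⟨OInv.range_singular h2 halt, by rw [← OInv.rank_eq, hrk, h5]⟩
    have hev : Even m := hrk ▸ OInv.even_rank_of_alt h2 hB ht' halt
    have hfr : Module.finrank F (LinearMap.range (OInv.NG (t : GL (Fin m ⊕ Fin m) F))) = m := by
      rw [← OInv.rank_eq, hrk]
    have key : ∀ g : ↥(isometryGroup F ⇑(qPlus m F)), g * t * g⁻¹ = s →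
        (g ∈ Omega F ⇑(qPlus m F) ↔ Even (Module.finrank F
          ↥(LinearMap.range (OInv.NG (t : GL (Fin m ⊕ Fin m) F)) ⊓
            LinearMap.range (OInv.NG (s : GL (Fin m ⊕ Fin m) F))))) := by
      intro g hg
      rw [mul_inv_eq_iff_eq_mul] at hg
      have hg' : (g : GL (Fin m ⊕ Fin m) F) * (t : GL (Fin m ⊕ Fin m) F) =
          (s : GL (Fin m ⊕ Fin m) F) * (g : GL (Fin m ⊕ Fin m) F) := by
        rw [← Subgroup.coe_mul, hg, Subgroup.coe_mul]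
      rw [OInv.range_conj hg', OInv.mem_omega_iff_parity h2 hB hgen hU hU g, inf_idem, hfr,
        Nat.even_iff, Nat.even_iff.1 hev]
    change (∃ g ∈ Omega F ⇑(qPlus m F), g * t * g⁻¹ = s) ↔ Even (Module.finrank F
          ↥(LinearMap.range (OInv.NG (t : GL (Fin m ⊕ Fin m) F)) ⊓
            LinearMap.range (OInv.NG (s : GL (Fin m ⊕ Fin m) F))))
    constructor
    · rintro ⟨g, hgΩ, hg⟩
      exact (key g hg).1 hgΩ
    · intro he
      obtain ⟨g, hg⟩ := isConj_iff.1 hconj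
      exact ⟨g, (key g hg).2 he, hg⟩

end Cfsg.Agent.S2172
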