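import Cfsg.Statements.S2173
import Cfsg.Agent.Lib.Helper16.OInv5

set_option autoImplicit false

open Cfsg

namespace Cfsg.Agent.S2173

open Cfsg.Agent.Lib.Helper16 Cfsg.Agent.Lib.Helper6

theorem result {F : Type*} [Field F] [Fintype F] [CharP F 2] {m : ℕ} (hm : 4 ≤ m) (c d : F) (hcd : ∀ z₁ z₂ : F, z₁ ^ 2 + c * z₁ * z₂ + d * z₂ ^ 2 = 0 → z₁ = 0 ∧ z₂ = 0) (t s : ↥(Cfsg.isometryGroup F (Cfsg.quadFormMinus (m - 1) F c d))) (ht : orderOf t = 2) (hs : orderOf s = 2) (htO : t ∈ Cfsg.Omega F (Cfsg.quadFormMinus (m - 1) F c d)) (hsO : s ∈ Cfsg.Omega F (Cfsg.quadFormMinus (m - 1) F c d)) (hconj : IsConj t s) :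
    ∃ g ∈ Cfsg.Omega F (Cfsg.quadFormMinus (m - 1) F c d), g * t * g⁻¹ = s := by
  have h2 : (2 : F) = 0 := CharTwo.two_eq_zero
  have hsq : ∀ a : F, ∃ c, c * c = a := fun a => by
    obtain ⟨c, hc⟩ := FiniteField.isSquare_of_char_two (ringChar.eq F 2) a
    exact ⟨c, hc.symm⟩
  revert t s
  rw [← qMinus_coe]
  intro t s ht hs htO hsO hconj
  have hB := qMinus_nondeg (m := m - 1) c d hcd
  have hgen := cartan_dieudonne (qMinus (m - 1) F c d) hB (Or.inr (by simp; omega))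
  obtain ⟨ε, hε1, hε2⟩ := exists_dickson _ h2 hB hgen
  have ht' : t * t = 1 := by
    have := pow_orderOf_eq_one t
    rw [ht, sq] at this; exact this
  have hw' : ∀ U : Submodule F ((Fin (m - 1) ⊕ Fin (m - 1)) ⊕ Fin 2 → F),
      (∀ u ∈ U, qMinus (m - 1) F c d u = 0) → Module.finrank F U ≤ m - 1 := fun U hU =>
    witt_index_le _ hB _ _ (qMinus_hyp c d) (fun w hw hw0 => qMinus_aniso c d hcd w hw hw0) U hU
  obtain ⟨g, hg1, hg2⟩ := OInv.omega_conj_generic h2 hsq hB (m := m) (by simp; omega)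
    (fun U hU => (hw' U hU).trans (by omega)) ε hε2 ht' (by
      rintro ⟨h1, h3⟩
      have := hw' _ (OInv.range_singular h2 h3)
      rw [← OInv.rank_eq] at this
      omega) hconj
  exact ⟨g, (hε1 g).2 hg1, hg2⟩

end Cfsg.Agent.S2173
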