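import Cfsg.Statements.S2178
import Cfsg.Agent.Lib.Helper8.RootCentrData

set_option autoImplicit false
open Cfsg

namespace Cfsg.Agent.S2178

/-- Centralizers of the long and the short root involutions in the Chevalley group G of type F₄ over a finite field F of characteristic two (this problem's root numbering for type F₄, from the Chevalley data module: fundamental roots p₁, p₂ short, p₃, p₄ long, with indices 33, 27, 25, 24, their negatives 14, 20, 22, 23; highest root 47, highest short root 44; U the subgroup generated by the positive root subgroups). For an element t of G with matrix x_47(1): the centralizer of t in G is the subgroup generated by U and the root subgroups X_{−p₁}, X_{−p₂}, X_{−p₃} (the unipotent radical of the maximal parabolic subgroup whose Levi factor has fundamental roots p₁, p₂, p₃, together with that Levi factor's root subgroups; the Levi factor is of type C₃). For an element u of G with matrix x_44(1): the centralizer of u in G is generated by U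 and X_{−p₂}, X_{−p₃}, X_{−p₄} (the same construction for the Levi factor with fundamental roots p₂, p₃, p₄, of type B₃). -/
theorem result {F : Type*} [Field F] [Fintype F] [CharP F 2] (t u : GL Cfsg.Lie.chevF4.Idx F) (ht : (t : Matrix Cfsg.Lie.chevF4.Idx Cfsg.Lie.chevF4.Idx F) = Cfsg.Lie.chevF4.x F 47 1) (hu : (u : Matrix Cfsg.Lie.chevF4.Idx Cfsg.Lie.chevF4.Idx F) = Cfsg.Lie.chevF4.x F 44 1) :
    Cfsg.Lie.chevF4.group F ⊓ Subgroup.centralizer {t} = Cfsg.Lie.chevF4.posUnipotent F ⊔ Cfsg.Lie.chevF4.rootSubgroup F 14 ⊔ Cfsg.Lie.chevF4.rootSubgroup F 20 ⊔ Cfsg.Lie.chevF4.rootSubgroup F 22 ∧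
    Cfsg.Lie.chevF4.group F ⊓ Subgroup.centralizer {u} = Cfsg.Lie.chevF4.posUnipotent F ⊔ Cfsg.Lie.chevF4.rootSubgroup F 20 ⊔ Cfsg.Lie.chevF4.rootSubgroup F 22 ⊔ Cfsg.Lie.chevF4.rootSubgroup F 23 := by
  have hD : Cfsg.Lie.chevF4 ∈ Cfsg.Agent.Lib.Helper8.allData := by simp [Cfsg.Agent.Lib.Helper8.allData]
  have key : ∀ (a b c : ℕ), Subgroup.closure {g : GL Cfsg.Lie.chevF4.Idx F | ∃ s ∈ [a, b, c], ∃ x : F,
      g = Cfsg.Agent.Lib.Helper8.xG hD F s x} =
      Cfsg.Lie.chevF4.rootSubgroup F a ⊔ Cfsg.Lie.chevF4.rootSubgroup F b ⊔ Cfsg.Lie.chevF4.rootSubgroup F c := by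
    intro a b c
    apply le_antisymm
    · rw [Subgroup.closure_le]
      rintro g ⟨s, hs, x, rfl⟩
      simp only [List.mem_cons, List.mem_nil_iff, or_false] at hs
      rcases hs with rfl | rfl | rfl
      · exact (le_trans le_sup_left le_sup_left :
          Cfsg.Lie.chevF4.rootSubgroup F s ≤ _) ((Cfsg.Agent.Lib.Helper8.mem_rootSubgroup hD).mpr ⟨x, rfl⟩)
      · exact (le_trans le_sup_right le_sup_left :
          Cfsg.Lie.chevF4.rootSubgroup F s ≤ _) ((Cfsg.Agent.Lib.Helper8.mem_rootSubgroup hD).mpr ⟨x, rfl⟩)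
      · exact (le_sup_right :
          Cfsg.Lie.chevF4.rootSubgroup F s ≤ _) ((Cfsg.Agent.Lib.Helper8.mem_rootSubgroup hD).mpr ⟨x, rfl⟩)
    · refine sup_le (sup_le ?_ ?_) ?_
      all_goals
        intro g hg
        obtain ⟨x, rfl⟩ := (Cfsg.Agent.Lib.Helper8.mem_rootSubgroup hD).mp hg
        exact Subgroup.subset_closure ⟨_, by simp, x, rfl⟩
  constructor
  · have h := Cfsg.Agent.Lib.Helper8.centralizer_root' (F := F) hD (θ := 47) (i0 := 3) (m := 0) (k := 46) (ε := 1)
        ((Cfsg.Agent.Lib.Helper8.isPos_iff hD).mpr (by decide +kernel)) (by decide +kernel)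
        Cfsg.Agent.Lib.Helper8.chkTop_F4 Cfsg.Agent.Lib.Helper8.chkLevi_F4 Cfsg.Agent.Lib.Helper8.zmod_zero
        (by decide +kernel) (by decide +kernel) Cfsg.Agent.Lib.Helper8.term_F4 (by simp) (by decide +kernel)
    have hJ : Cfsg.Agent.Lib.Helper8.JsOf Cfsg.Lie.chevF4 3 = [14, 20, 22] := by decide +kernel
    rw [Cfsg.Agent.Lib.Helper8.eq_xG hD ht, h, hJ, key, sup_assoc, sup_assoc, sup_assoc]
  · have h := Cfsg.Agent.Lib.Helper8.centralizer_root' (F := F) hD (θ := 44) (i0 := 0) (m := 2) (k := 40) (ε := 1)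
        ((Cfsg.Agent.Lib.Helper8.isPos_iff hD).mpr (by decide +kernel)) (by decide +kernel)
        Cfsg.Agent.Lib.Helper8.chkTop_F4s Cfsg.Agent.Lib.Helper8.chkLevi_F4s Cfsg.Agent.Lib.Helper8.zmod_two
        (by decide +kernel) (by decide +kernel) Cfsg.Agent.Lib.Helper8.term_F4s (by simp) (by decide +kernel)
    have hJ : Cfsg.Agent.Lib.Helper8.JsOf Cfsg.Lie.chevF4 0 = [20, 22, 23] := by decide +kernel
    rw [Cfsg.Agent.Lib.Helper8.eq_xG hD hu, h, hJ, key, sup_assoc, sup_assoc, sup_assoc]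

end Cfsg.Agent.S2178
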