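import Cfsg.Statements.S2186
import Cfsg.Agent.Lib.Helper8.TopPair

set_option autoImplicit false
open Cfsg

namespace Cfsg.Agent.S2186

/-- Let G be the Chevalley group of type G₂ (over a field with at least four elements), D₄, E₆, E₇ or E₈ over a finite field F of characteristic two, and let X be the root subgroup of the highest root (the last root index) — a long root subgroup, of order |F|. For every g in G, the subgroup generated by X and its conjugate g X g⁻¹ is either a 2-group or is conjugate by an element of G to the subgroup generated by X and the root subgroup of the lowest root (index 0, the negative of the highest root), which is a copy of SL₂(F). -/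
theorem result {F : Type*} [Field F] [Fintype F] [CharP F 2] (D : Cfsg.Lie.ChevalleyDatum) (hD : D ∈ [Cfsg.Lie.chevG2, Cfsg.Lie.chevD4, Cfsg.Lie.chevE6, Cfsg.Lie.chevE7, Cfsg.Lie.chevE8]) (hF : D = Cfsg.Lie.chevG2 → 4 ≤ Fintype.card F) (g : GL D.Idx F) (hg : g ∈ D.group F) :
    IsPGroup 2 ↥(D.rootSubgroup F (D.nroots - 1) ⊔ (D.rootSubgroup F (D.nroots - 1)).map (MulAut.conj g).toMonoidHom) ∨
    ∃ h ∈ D.group F, (D.rootSubgroup F (D.nroots - 1) ⊔ (D.rootSubgroup F (D.nroots - 1)).map (MulAut.conj g).toMonoidHom).map (MulAut.conj h).toMonoidHom = D.rootSubgroup F (D.nroots - 1) ⊔ D.rootSubgroup F 0 := by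
  simp only [List.mem_cons, List.mem_nil_iff, or_false] at hD
  rcases hD with rfl | rfl | rfl | rfl | rfl
  · have hD : Cfsg.Lie.chevG2 ∈ Cfsg.Agent.Lib.Helper8.allData := by simp [Cfsg.Agent.Lib.Helper8.allData]
    have hθ : Cfsg.Lie.chevG2.IsPosRoot (Cfsg.Lie.chevG2.nroots - 1) :=
      (Cfsg.Agent.Lib.Helper8.isPos_iff hD).mpr (by decide +kernel)
    have hneg : Cfsg.Lie.chevG2.neg (Cfsg.Lie.chevG2.nroots - 1) = 0 := by decide +kernel
    have h := Cfsg.Agent.Lib.Helper8.top_pair (F := F) hD 2 hθ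
      (Cfsg.Agent.Lib.Helper8.top_spec hD hθ Cfsg.Agent.Lib.Helper8.chkTop_G2 Cfsg.Agent.Lib.Helper8.zmod_zero)
      (by rw [hneg]; exact Cfsg.Agent.Lib.Helper8.topWit_spec hD Cfsg.Agent.Lib.Helper8.chkTopWit_G2 hθ) hg
    rw [hneg] at h
    exact h
  · have hD : Cfsg.Lie.chevD4 ∈ Cfsg.Agent.Lib.Helper8.allData := by simp [Cfsg.Agent.Lib.Helper8.allData]
    have hθ : Cfsg.Lie.chevD4.IsPosRoot (Cfsg.Lie.chevD4.nroots - 1) :=
      (Cfsg.Agent.Lib.Helper8.isPos_iff hD).mpr (by decide +kernel)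
    have hneg : Cfsg.Lie.chevD4.neg (Cfsg.Lie.chevD4.nroots - 1) = 0 := by decide +kernel
    have h := Cfsg.Agent.Lib.Helper8.top_pair (F := F) hD 2 hθ
      (Cfsg.Agent.Lib.Helper8.top_spec hD hθ Cfsg.Agent.Lib.Helper8.chkTop_D4 Cfsg.Agent.Lib.Helper8.zmod_zero)
      (by rw [hneg]; exact Cfsg.Agent.Lib.Helper8.topWit_spec hD Cfsg.Agent.Lib.Helper8.chkTopWit_D4 hθ) hg
    rw [hneg] at h
    exact h
  · have hD : Cfsg.Lie.chevE6 ∈ Cfsg.Agent.Lib.Helper8.allData := by simp [Cfsg.Agent.Lib.Helper8.allData]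
    have hθ : Cfsg.Lie.chevE6.IsPosRoot (Cfsg.Lie.chevE6.nroots - 1) :=
      (Cfsg.Agent.Lib.Helper8.isPos_iff hD).mpr (by decide +kernel)
    have hneg : Cfsg.Lie.chevE6.neg (Cfsg.Lie.chevE6.nroots - 1) = 0 := by decide +kernel
    have h := Cfsg.Agent.Lib.Helper8.top_pair (F := F) hD 2 hθ
      (Cfsg.Agent.Lib.Helper8.top_spec hD hθ Cfsg.Agent.Lib.Helper8.chkTop_E6 Cfsg.Agent.Lib.Helper8.zmod_zero)
      (by rw [hneg]; exact Cfsg.Agent.Lib.Helper8.topWit_spec hD Cfsg.Agent.Lib.Helper8.chkTopWit_E6 hθ) hg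
    rw [hneg] at h
    exact h
  · have hD : Cfsg.Lie.chevE7 ∈ Cfsg.Agent.Lib.Helper8.allData := by simp [Cfsg.Agent.Lib.Helper8.allData]
    have hθ : Cfsg.Lie.chevE7.IsPosRoot (Cfsg.Lie.chevE7.nroots - 1) :=
      (Cfsg.Agent.Lib.Helper8.isPos_iff hD).mpr (by decide +kernel)
    have hneg : Cfsg.Lie.chevE7.neg (Cfsg.Lie.chevE7.nroots - 1) = 0 := by decide +kernel
    have h := Cfsg.Agent.Lib.Helper8.top_pair (F := F) hD 2 hθ
      (Cfsg.Agent.Lib.Helper8.top_spec hD hθ Cfsg.Agent.Lib.Helper8.chkTop_E7 Cfsg.Agent.Lib.Helper8.zmod_zero)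
      (by rw [hneg]; exact Cfsg.Agent.Lib.Helper8.topWit_spec hD Cfsg.Agent.Lib.Helper8.chkTopWit_E7 hθ) hg
    rw [hneg] at h
    exact h
  · have hD : Cfsg.Lie.chevE8 ∈ Cfsg.Agent.Lib.Helper8.allData := by simp [Cfsg.Agent.Lib.Helper8.allData]
    have hθ : Cfsg.Lie.chevE8.IsPosRoot (Cfsg.Lie.chevE8.nroots - 1) :=
      (Cfsg.Agent.Lib.Helper8.isPos_iff hD).mpr (by decide +kernel)
    have hneg : Cfsg.Lie.chevE8.neg (Cfsg.Lie.chevE8.nroots - 1) = 0 := by decide +kernel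
    have h := Cfsg.Agent.Lib.Helper8.top_pair (F := F) hD 2 hθ
      (Cfsg.Agent.Lib.Helper8.top_spec hD hθ Cfsg.Agent.Lib.Helper8.chkTop_E8 Cfsg.Agent.Lib.Helper8.zmod_zero)
      (by rw [hneg]; exact Cfsg.Agent.Lib.Helper8.topWit_spec hD Cfsg.Agent.Lib.Helper8.chkTopWit_E8 hθ) hg
    rw [hneg] at h
    exact h

end Cfsg.Agent.S2186
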