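import Cfsg.Statements.S2209
import Cfsg.Agent.Lib.Helper8.RootCentrData

set_option autoImplicit false
open Cfsg

namespace Cfsg.Agent.S2209

/-- Centralizer of a long root involution in the Chevalley groups of type E₆, E₇, E₈ over a finite field F of characteristic two. Let G be the group generated by the root elements, U the subgroup generated by the positive root subgroups, r the highest root (the last root index: 71, 125, 239 respectively), and t the element of G with matrix x_r(1). Then the centralizer of t in G is the subgroup generated by U together with the root subgroups X_{−p} for the fundamental roots p orthogonal to r — all fundamental roots except p₂ for E₆, except p₁ for E₇, except p₈ for E₈ (numbering with p₁–p₃–p₄–…–p_l the long chain and p₂ joined to p₄); the indices of these negative fundamental roots are 15, 29, 32, 34, 35 (E₆), 47, 52, 56, 59, 61, 62 (E₇), 77, 98, 104, 109, 113, 116, 118 (E₈). (This is the unipotent radical of the corresponding maximal parabolic subgroup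 extended by the root subgroups of its Levi factor, of type A₅, D₆, E₇ respectively.) -/
theorem result {F : Type*} [Field F] [Fintype F] [CharP F 2] (d : Cfsg.Lie.ChevalleyDatum × List ℕ)
    (hd : d ∈ [(Cfsg.Lie.chevE6, [15, 29, 32, 34, 35]), (Cfsg.Lie.chevE7, [47, 52, 56, 59, 61, 62]), (Cfsg.Lie.chevE8, [77, 98, 104, 109, 113, 116, 118])])
    (t : GL d.1.Idx F) (ht : (t : Matrix d.1.Idx d.1.Idx F) = d.1.x F (d.1.nroots - 1) 1) :
    d.1.group F ⊓ Subgroup.centralizer {t} = d.1.posUnipotent F ⊔ Subgroup.closure {g : GL d.1.Idx F | ∃ s ∈ d.2, ∃ c : F, (g : Matrix d.1.Idx d.1.Idx F) = d.1.x F s c} := by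
  have key : ∀ (D : Cfsg.Lie.ChevalleyDatum) (hD : D ∈ Cfsg.Agent.Lib.Helper8.allData) (θ i0 : ℕ) (Js : List ℕ)
      (t : GL D.Idx F) (_ : (t : Matrix D.Idx D.Idx F) = D.x F θ 1) (_ : Cfsg.Agent.Lib.Helper8.JsOf D i0 = Js)
      (_ : D.group F ⊓ Subgroup.centralizer {Cfsg.Agent.Lib.Helper8.xG hD F θ 1} =
        D.posUnipotent F ⊔ Subgroup.closure {g : GL D.Idx F | ∃ s ∈ Cfsg.Agent.Lib.Helper8.JsOf D i0, ∃ c : F,
          g = Cfsg.Agent.Lib.Helper8.xG hD F s c}),
      D.group F ⊓ Subgroup.centralizer {t} = D.posUnipotent F ⊔ Subgroup.closure {g : GL D.Idx F | ∃ s ∈ Js, ∃ c : F,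
        (g : Matrix D.Idx D.Idx F) = D.x F s c} := by
    intro D hD θ i0 Js t ht hJs h
    rw [Cfsg.Agent.Lib.Helper8.eq_xG hD ht, h, hJs]
    congr 2
    ext g
    constructor
    · rintro ⟨s, hs, c, rfl⟩
      exact ⟨s, hs, c, rfl⟩
    · rintro ⟨s, hs, c, hg⟩
      exact ⟨s, hs, c, Cfsg.Agent.Lib.Helper8.eq_xG hD hg⟩
  simp only [List.mem_cons, List.mem_nil_iff, or_false] at hd
  rcases hd with rfl | rfl | rfl
  · have hD : Cfsg.Lie.chevE6 ∈ Cfsg.Agent.Lib.Helper8.allData := by simp [Cfsg.Agent.Lib.Helper8.allData]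
    exact key _ hD 71 1 _ t ht (by decide +kernel)
      (Cfsg.Agent.Lib.Helper8.centralizer_root' hD (m := 0) (k := 70) (ε := 1)
        ((Cfsg.Agent.Lib.Helper8.isPos_iff hD).mpr (by decide +kernel)) (by decide +kernel)
        Cfsg.Agent.Lib.Helper8.chkTop_E6 Cfsg.Agent.Lib.Helper8.chkLevi_E6 Cfsg.Agent.Lib.Helper8.zmod_zero
        (by decide +kernel) (by decide +kernel) Cfsg.Agent.Lib.Helper8.term_E6 (by simp) (by decide +kernel))
  · have hD : Cfsg.Lie.chevE7 ∈ Cfsg.Agent.Lib.Helper8.allData := by simp [Cfsg.Agent.Lib.Helper8.allData]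
    exact key _ hD 125 0 _ t ht (by decide +kernel)
      (Cfsg.Agent.Lib.Helper8.centralizer_root' hD (m := 0) (k := 124) (ε := 1)
        ((Cfsg.Agent.Lib.Helper8.isPos_iff hD).mpr (by decide +kernel)) (by decide +kernel)
        Cfsg.Agent.Lib.Helper8.chkTop_E7 Cfsg.Agent.Lib.Helper8.chkLevi_E7 Cfsg.Agent.Lib.Helper8.zmod_zero
        (by decide +kernel) (by decide +kernel) Cfsg.Agent.Lib.Helper8.term_E7 (by simp) (by decide +kernel))
  · have hD : Cfsg.Lie.chevE8 ∈ Cfsg.Agent.Lib.Helper8.allData := by simp [Cfsg.Agent.Lib.Helper8.allData]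
    exact key _ hD 239 7 _ t ht (by decide +kernel)
      (Cfsg.Agent.Lib.Helper8.centralizer_root' hD (m := 0) (k := 238) (ε := 1)
        ((Cfsg.Agent.Lib.Helper8.isPos_iff hD).mpr (by decide +kernel)) (by decide +kernel)
        Cfsg.Agent.Lib.Helper8.chkTop_E8 Cfsg.Agent.Lib.Helper8.chkLevi_E8 Cfsg.Agent.Lib.Helper8.zmod_zero
        (by decide +kernel) (by decide +kernel) Cfsg.Agent.Lib.Helper8.term_E8 (by simp) (by decide +kernel))

end Cfsg.Agent.S2209
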