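import Cfsg.Statements.S2214
import Cfsg.Agent.Lib.Helper8.SubfieldNorm

set_option autoImplicit false
open Cfsg

namespace Cfsg.Agent.S2214

/-- Let k be an algebraically closed field of prime characteristic p, G the adjoint Chevalley group of type G₂, B₂, D₄, F₄, E₆, E₇ or E₈ over k (the matrix group generated by the root elements x_s(t), t ∈ k, acting on the Lie algebra), q = p^a with a ≥ 1, and K a subgroup of G containing every root element x_s(t) with t^q = t and consisting of matrices all of whose entries c satisfy c^q = c. Then the centralizer of K in G is trivial, and the normalizer of K in G is exactly the set of elements of G all of whose entries c satisfy c^q = c. -/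
theorem result {k : Type*} [Field k] [IsAlgClosed k] (p : ℕ) [Fact p.Prime] [CharP k p] (D : Cfsg.Lie.ChevalleyDatum) (hD : D ∈ [Cfsg.Lie.chevG2, Cfsg.Lie.chevB2, Cfsg.Lie.chevD4, Cfsg.Lie.chevF4, Cfsg.Lie.chevE6, Cfsg.Lie.chevE7, Cfsg.Lie.chevE8]) (a : ℕ) (ha : 1 ≤ a) (K : Subgroup (GL D.Idx k)) (hKG : K ≤ D.group k)
    (hLK : Subgroup.closure {g : GL D.Idx k | ∃ (s : ℕ) (t : k), t ^ (p ^ a) = t ∧ (g : Matrix D.Idx D.Idx k) = D.x k s t} ≤ K)
    (hKfix : ∀ g ∈ K, ∀ i j : D.Idx, ((g : Matrix D.Idx D.Idx k) i j) ^ (p ^ a) = (g : Matrix D.Idx D.Idx k) i j) :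
    D.group k ⊓ Subgroup.centralizer (K : Set (GL D.Idx k)) = ⊥ ∧
    ∀ g : GL D.Idx k, g ∈ D.group k → (g ∈ Subgroup.normalizer (K : Set (GL D.Idx k)) ↔ ∀ i j : D.Idx, ((g : Matrix D.Idx D.Idx k) i j) ^ (p ^ a) = (g : Matrix D.Idx D.Idx k) i j) := by
  have hD' : D ∈ Cfsg.Agent.Lib.Helper8.allData := by
    simpa [Cfsg.Agent.Lib.Helper8.allData] using hD
  haveI : ExpChar k p := ExpChar.prime Fact.out
  have hfixiff : ∀ g : GL D.Idx k, Cfsg.Agent.Lib.Helper8.glMap D (iterateFrobenius k p a) g = g ↔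
      ∀ i j : D.Idx, ((g : Matrix D.Idx D.Idx k) i j) ^ (p ^ a) = (g : Matrix D.Idx D.Idx k) i j := by
    intro g
    constructor
    · intro h i j
      have := congrArg (fun z : GL D.Idx k => (z : Matrix D.Idx D.Idx k) i j) h
      simpa [iterateFrobenius_def] using this
    · intro h
      apply Units.ext
      ext i j
      have := h i j
      simpa [iterateFrobenius_def] using this
  have hL : Cfsg.Agent.Lib.Helper8.fixGroup hD' (iterateFrobenius k p a) ≤ K := by
    refine le_trans ?_ hLK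
    unfold Cfsg.Agent.Lib.Helper8.fixGroup
    apply Subgroup.closure_mono
    rintro g ⟨r, t, ht, rfl⟩
    exact ⟨r, t, by rwa [iterateFrobenius_def] at ht, rfl⟩
  obtain ⟨h1, h2⟩ := Cfsg.Agent.Lib.Helper8.subfield_centralizer_normalizer hD' (iterateFrobenius k p a) K hKG hL
    (fun g hg => (hfixiff g).mpr (hKfix g hg))
  refine ⟨h1, fun g hg => ?_⟩
  rw [h2 g hg, hfixiff]

end Cfsg.Agent.S2214
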