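import Cfsg.Statements.S2231
import Mathlib
import Cfsg.Agent.Lib.Helper13.QdData
-- import your own Cfsg.Agent.* helpers here

set_option autoImplicit false
open Cfsg

namespace Cfsg.Agent.S2231

open Cfsg.Agent.Lib.Helper12 Cfsg.Agent.Lib.Helper13 in
/-- Sylow `p`-subgroups of `SL₂` in characteristic `p` are commutative. -/
theorem sylow_sl2_comm {p : ℕ} [Fact p.Prime] {K : Type*} [Field K] [Fintype K] [CharP K p]
    (P : Sylow p (Matrix.SpecialLinearGroup (Fin 2) K)) : ∀ x ∈ P, ∀ y ∈ P, x * y = y * x := by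
  obtain ⟨g, rfl⟩ := MulAction.exists_smul_eq (Matrix.SpecialLinearGroup (Fin 2) K) (sylSLU p) P
  have hU : ∀ a ∈ (sylSLU p : Sylow p (Matrix.SpecialLinearGroup (Fin 2) K)),
      ∀ b ∈ (sylSLU p : Sylow p (Matrix.SpecialLinearGroup (Fin 2) K)), a * b = b * a := by
    intro a ha b hb
    rw [mem_sylSLU_iff] at ha hb
    obtain ⟨s, rfl⟩ := ha
    obtain ⟨t, rfl⟩ := hb
    rw [← map_mul, ← map_mul, mul_comm]
  intro x hx y hy
  obtain ⟨a, ha⟩ := ((sylSLU p : Sylow p (Matrix.SpecialLinearGroup (Fin 2) K)).equivSMul g).surjective ⟨x, hx⟩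
  obtain ⟨b, hb⟩ := ((sylSLU p : Sylow p (Matrix.SpecialLinearGroup (Fin 2) K)).equivSMul g).surjective ⟨y, hy⟩
  have h1 : a * b = b * a := Subtype.ext (hU a a.2 b b.2)
  have h2 : (⟨x, hx⟩ : ↥(g • (sylSLU p : Sylow p (Matrix.SpecialLinearGroup (Fin 2) K)))) * ⟨y, hy⟩ =
      ⟨y, hy⟩ * ⟨x, hx⟩ := by
    rw [← ha, ← hb, ← map_mul, ← map_mul, h1]
  exact congrArg Subtype.val h2

/-- Let p be an odd prime and K a finite field of characteristic p. Then Qd(p) (the natural semidirect product of an elementary abelian group of order p² by SL₂(p)) is not involved in the projective special linear group PSL₂(K). -/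
theorem result {p : ℕ} [Fact p.Prime] (hp : p ≠ 2) {K : Type*} [Field K] [Fintype K] [CharP K p] : ¬ Cfsg.Involves ↥(Cfsg.qd p) (Matrix.ProjectiveSpecialLinearGroup (Fin 2) K) := by
  rintro ⟨K₁, R, hR, ⟨e⟩⟩
  have hpp : p.Prime := Fact.out
  obtain ⟨D, hD⟩ : ∃ D, D = Cfsg.Agent.Lib.Helper13.qdData p := ⟨_, rfl⟩
  have hφ : Function.Surjective (e.toMonoidHom.comp (QuotientGroup.mk' (R.subgroupOf K₁))) :=
    e.surjective.comp (QuotientGroup.mk'_surjective _)
  obtain ⟨T, hT⟩ := Sylow.mapSurjective_surjective hφ p (D.U_isPGroup.toSylow D.U_index)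
  have hTc : ∀ x ∈ T, ∀ y ∈ T, x * y = y * x := by
    obtain ⟨Pb, hPb⟩ := (T.2.map K₁.subtype).exists_le_sylow
    obtain ⟨P, rfl⟩ := Sylow.mapSurjective_surjective
      (QuotientGroup.mk'_surjective (Subgroup.center (Matrix.SpecialLinearGroup (Fin 2) K))) p Pb
    intro x hx y hy
    obtain ⟨a, ha, hax⟩ := hPb ⟨x, hx, rfl⟩
    obtain ⟨b, hb, hby⟩ := hPb ⟨y, hy, rfl⟩
    apply Subtype.ext
    have hax' : (QuotientGroup.mk' (Subgroup.center (Matrix.SpecialLinearGroup (Fin 2) K))) a = (x : _) := hax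
    have hby' : (QuotientGroup.mk' (Subgroup.center (Matrix.SpecialLinearGroup (Fin 2) K))) b = (y : _) := hby
    push_cast
    rw [← hax', ← hby', ← map_mul, ← map_mul, sylow_sl2_comm P a ha b hb]
  have hu1 : D.u 1 0 0 ∈ ((D.U_isPGroup.toSylow D.U_index : Sylow p _) : Subgroup _) := D.u_mem 1 0 0
  have hu2 : D.u 0 1 0 ∈ ((D.U_isPGroup.toSylow D.U_index : Sylow p _) : Subgroup _) := D.u_mem 0 1 0
  rw [← hT] at hu1 hu2
  obtain ⟨x, hx, hxe⟩ := hu1
  obtain ⟨y, hy, hye⟩ := hu2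
  have h1 : D.u 1 0 0 * D.u 0 1 0 = D.u 0 1 0 * D.u 1 0 0 := by
    rw [← hxe, ← hye, ← map_mul, ← map_mul, hTc x hx y hy]
  rw [D.u_mul, D.u_mul] at h1
  have h2 := (D.u_inj h1).2.2
  simp at h2

end Cfsg.Agent.S2231
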