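import Cfsg.Statements.S2240
-- import your own Cfsg.Agent.* helpers here
import Cfsg.Agent.Lib.Helper29.SzMore

set_option autoImplicit false
open Cfsg

namespace Cfsg.Agent.S2240


theorem exists_subfield' {F : Type*} [Field F] [Fintype F] [CharP F 2] {N n : ℕ}
    (hF : Fintype.card F = 2 ^ N) (hn : n ≠ 0) (h : n ∣ N) :
    ∃ K : Subfield F, Nat.card K = 2 ^ n := by
  have : Fact (Nat.Prime 2) := ⟨Nat.prime_two⟩
  let _ : Algebra (ZMod 2) F := ZMod.algebra F 2
  have h1 : Module.finrank (ZMod 2) F = N :=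
    Nat.pow_right_injective (le_refl 2) (by
      show 2 ^ _ = 2 ^ _
      rw [FiniteField.pow_finrank_eq_card, hF])
  obtain ⟨f⟩ := FiniteField.nonempty_algHom_of_finrank_dvd (F := ZMod 2) (K := GaloisField 2 n)
    (L := F) (by rw [GaloisField.finrank 2 hn, h1]; exact h)
  refine ⟨f.toRingHom.fieldRange, ?_⟩
  rw [← GaloisField.card 2 n hn]
  exact Nat.card_congr (Equiv.ofInjective f f.injective).symm

theorem dvd_of_subfield' {F : Type*} [Field F] [Fintype F] {N n : ℕ}
    (hF : Fintype.card F = 2 ^ N) (K : Subfield F) (hK : Nat.card K = 2 ^ n) : n ∣ N := by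
  have h := Module.natCard_eq_pow_finrank (K := K) (V := F)
  rw [hK, Nat.card_eq_fintype_card, hF, ← pow_mul] at h
  exact ⟨_, Nat.pow_right_injective (le_refl 2) h⟩

theorem dvd_of_addSubgroup' {F : Type*} [Field F] [Fintype F] {N n : ℕ}
    (hF : Fintype.card F = 2 ^ N) (A : AddSubgroup F) (hA : Nat.card A = 2 ^ n)
    {a₀ : F} (ha₀ : a₀ ∈ A) (h0 : a₀ ≠ 0)
    (hTI : ∀ l : F, l ≠ 0 → (∃ c ∈ A, c ≠ 0 ∧ l * c ∈ A) → ∀ c : F, c ∈ A ↔ l * c ∈ A) : n ∣ N := by
  let K : Subfield F :=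
    { carrier := {l | l * a₀ ∈ A}
      mul_mem' := by
        intro a b ha hb
        by_cases ha0 : a = 0
        · subst ha0
          simp
        · have := (hTI a ha0 ⟨a₀, ha₀, h0, ha⟩ (b * a₀)).1 hb
          show a * b * a₀ ∈ A
          rwa [mul_assoc]
      one_mem' := by
        show 1 * a₀ ∈ A
        rwa [one_mul]
      add_mem' := by
        intro a b ha hb
        show (a + b) * a₀ ∈ A
        rw [add_mul]
        exact A.add_mem ha hb
      zero_mem' := by
        show 0 * a₀ ∈ A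
        rw [zero_mul]
        exact A.zero_mem
      neg_mem' := by
        intro a ha
        show (-a) * a₀ ∈ A
        rw [neg_mul]
        exact A.neg_mem ha
      inv_mem' := by
        intro a ha
        by_cases ha0 : a = 0
        · subst ha0
          simp
        · apply (hTI a ha0 ⟨a₀, ha₀, h0, ha⟩ (a⁻¹ * a₀)).2
          rwa [mul_inv_cancel_left₀ ha0] }
  apply dvd_of_subfield' hF K
  rw [← hA]
  refine Nat.card_congr ⟨fun l => ⟨l.1 * a₀, l.2⟩, fun c => ⟨c.1 / a₀, ?_⟩, ?_, ?_⟩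
  · show c.1 / a₀ * a₀ ∈ A
    rw [div_mul_cancel₀ _ h0]
    exact c.2
  · intro l
    apply Subtype.ext
    show l.1 * a₀ / a₀ = l.1
    rw [mul_div_cancel_right₀ _ h0]
  · intro c
    apply Subtype.ext
    show c.1 / a₀ * a₀ = c.1
    rw [div_mul_cancel₀ _ h0]

section

open Cfsg.Agent.Lib.Helper29.Sz

variable {F : Type*} [Field F] [Finite F] {m : ℕ} (hG : Good F m) (hex : ∃ t : F, t ≠ 0 ∧ t ≠ 1)

/-- central elements of the unipotent subgroup -/
def zz (c : F) : Cfsg.Sz F m := ⟨T m 0 c, T_mem hG 0 c⟩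

include hex in
theorem zz_mul (c d : F) : zz hG c * zz hG d = zz hG (c + d) := by
  apply Subtype.ext
  show T m 0 c * T m 0 d = T m 0 (c + d)
  rw [T_mul hG hex]
  congr 1
  · simp
  · simp

include hex in
theorem zz_zero : zz hG (0 : F) = 1 := Subtype.ext (T_zero hG hex)

omit [Finite F] in
theorem zz_inj [Finite F] {c d : F} (h : zz hG c = zz hG d) : c = d :=
  (T_inj hG (congrArg Subtype.val h)).2

include hex in
theorem conj_zz {x : Cfsg.Sz F m} (hx : x.1 • Cfsg.suzukiPointInfinity F = Cfsg.suzukiPointInfinity F) :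
    ∃ l : F, l ≠ 0 ∧ ∀ c : F, x * zz hG c * x⁻¹ = zz hG (l * c) := by
  obtain ⟨a, b, k, hk⟩ := stab_infty_form hG hex x.2 hx
  refine ⟨(k : F) ^ 2 * sg m (k : F), mul_ne_zero (pow_ne_zero _ k.ne_zero) (sg_ne_zero m k.ne_zero), ?_⟩
  intro c
  rw [mul_inv_eq_iff_eq_mul]
  apply Subtype.ext
  show x.1 * T m 0 c = T m 0 _ * x.1
  rw [hk, mul_assoc, hh_T hG hex, ← mul_assoc, ← mul_assoc, T_mul hG hex, T_mul hG hex]
  congr 2
  · simp
  · simp only [sg_zero, mul_zero, zero_mul, add_zero]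
    ring

include hex in
theorem exists_conj_zz {l : F} (hl : l ≠ 0) :
    ∃ y : Cfsg.Sz F m, ∀ c : F, y * zz hG c * y⁻¹ = zz hG (l * c) := by
  have hinj : Function.Injective (fun k : F => k ^ 2 * sg m k) := by
    intro k k' h
    have h : k ^ 2 * sg m k = k' ^ 2 * sg m k' := h
    by_cases hk' : k' = 0
    · subst hk'
      simp only [sg_zero, mul_zero, mul_eq_zero, pow_eq_zero_iff, ne_eq, OfNat.ofNat_ne_zero,
        not_false_eq_true, sg_eq_zero, or_self] at h
      exact h
    · have h1 : (k / k') ^ 2 * sg m (k / k') = 1 := by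
        rw [sg_div, div_pow, div_mul_div_comm, h]
        exact div_self (mul_ne_zero (pow_ne_zero _ hk') (sg_ne_zero m hk'))
      have := hG.eq_one_of_sq_mul_sg h1
      rwa [div_eq_one_iff_eq hk'] at this
  obtain ⟨k, hk⟩ := Finite.surjective_of_injective hinj l
  have hk : k ^ 2 * sg m k = l := hk
  have hk0 : k ≠ 0 := by
    rintro rfl
    simp at hk
    exact hl hk.symm
  refine ⟨⟨hh m (Units.mk0 k hk0), hh_mem hG _⟩, ?_⟩
  intro c
  rw [mul_inv_eq_iff_eq_mul]
  apply Subtype.ext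
  show hh m (Units.mk0 k hk0) * T m 0 c = T m 0 _ * hh m (Units.mk0 k hk0)
  rw [hh_T hG hex, Units.val_mk0, hk, mul_zero]

end

/-- Elementary abelian TI-subgroups of the Suzuki group: let q = 2^(2m+1) with m ≥ 1, the group realised as the stabiliser in SL₄ of the Suzuki–Tits ovoid, and n ≥ 2. There is an elementary abelian 2-subgroup E of order 2^n that is a TI-subgroup (every conjugate of E meeting E nontrivially is E itself) if and only if n divides 2m + 1. -/
theorem result {F : Type*} [Field F] [Fintype F] {m : ℕ} (hm : 1 ≤ m) (hF : Fintype.card F = 2 ^ (2 * m + 1)) (n : ℕ) (hn : 2 ≤ n) :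
    (∃ E : Subgroup ↥(Cfsg.Sz F m), Cfsg.IsElementaryAbelian 2 E ∧ Nat.card ↥E = 2 ^ n ∧
      ∀ x : ↥(Cfsg.Sz F m), E ⊓ E.map (MulAut.conj x).toMonoidHom ≠ ⊥ → x ∈ Subgroup.normalizer (E : Set ↥(Cfsg.Sz F m))) ↔ n ∣ 2 * m + 1 := by
  have hG := Cfsg.Agent.Lib.Helper29.Sz.good_of_card hF
  have hex := Cfsg.Agent.Lib.Helper29.Sz.exists_ne_zero_one hm hF
  have hchar := hG.charP
  have hz1 : ∀ {c : F}, zz hG c = 1 → c = 0 := by
    intro c hc
    rw [← zz_zero hG hex] at hc
    exact zz_inj hG hc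
  constructor
  · rintro ⟨E, hE, hcard, hTI⟩
    have : Fact (Nat.Prime 2) := ⟨Nat.prime_two⟩
    obtain ⟨Q, hQ⟩ := (IsPGroup.of_card hcard).exists_le_sylow
    obtain ⟨x, hx⟩ := Cfsg.Agent.Lib.Helper29.Sz.sylow_conj hG hex (n := 2 * m + 1) (by omega) hF Q
    have hform : ∀ e ∈ E, ∃ c : F, e = x * zz hG c * x⁻¹ := by
      intro e he
      have h1 : e ∈ (Q : Subgroup _) := hQ he
      rw [hx] at h1
      obtain ⟨u, ⟨a, b, hu⟩, hue⟩ := h1
      have hue' : x * u * x⁻¹ = e := hue
      have h2 : e ^ 2 = 1 := hE.2 e he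
      have h3 : u * u = 1 := by
        rw [← hue', sq] at h2
        have h4 : x * u * x⁻¹ * (x * u * x⁻¹) = x * (u * u) * x⁻¹ := by group
        rw [h4] at h2
        have h5 := congrArg (fun z => x⁻¹ * z * x) h2
        simpa [mul_assoc] using h5
      have h4 : Cfsg.Agent.Lib.Helper29.Sz.T m a b * Cfsg.Agent.Lib.Helper29.Sz.T m a b = 1 := by
        rw [← hu]; exact congrArg Subtype.val h3
      rw [Cfsg.Agent.Lib.Helper29.Sz.T_mul hG hex, ← Cfsg.Agent.Lib.Helper29.Sz.T_zero hG hex] at h4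
      obtain ⟨-, h5⟩ := Cfsg.Agent.Lib.Helper29.Sz.T_inj hG h4
      have ha : a = 0 := by
        have h6 : Cfsg.Agent.Lib.Helper29.Sz.sg m a * a = 0 := by
          linear_combination h5 - b * hG.two
        rcases mul_eq_zero.1 h6 with h | h
        · exact (Cfsg.Agent.Lib.Helper29.Sz.sg_eq_zero m).1 h
        · exact h
      subst ha
      refine ⟨b, ?_⟩
      rw [← hue']
      congr 2
      exact Subtype.ext hu
    let A : AddSubgroup F :=
      { carrier := {c | x * zz hG c * x⁻¹ ∈ E}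
        zero_mem' := by
          show x * zz hG 0 * x⁻¹ ∈ E
          rw [zz_zero hG hex, mul_one, mul_inv_cancel]
          exact E.one_mem
        add_mem' := by
          intro c d hc hd
          show x * zz hG (c + d) * x⁻¹ ∈ E
          have h1 : x * zz hG (c + d) * x⁻¹ = (x * zz hG c * x⁻¹) * (x * zz hG d * x⁻¹) := by
            rw [← zz_mul hG hex]; group
          rw [h1]
          exact E.mul_mem hc hd
        neg_mem' := by
          intro c hc
          show x * zz hG (-c) * x⁻¹ ∈ E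
          have h1 : -c = c := by linear_combination (-c) * hG.two
          rw [h1]
          exact hc }
    have hA : Nat.card A = 2 ^ n := by
      rw [← hcard]
      apply Nat.card_congr
      refine Equiv.ofBijective (fun c => ⟨x * zz hG c.1 * x⁻¹, c.2⟩) ⟨?_, ?_⟩
      · intro c d h
        have h1 : x * zz hG c.1 * x⁻¹ = x * zz hG d.1 * x⁻¹ := congrArg Subtype.val h
        exact Subtype.ext (zz_inj hG (mul_left_cancel (mul_right_cancel h1)))
      · intro e
        obtain ⟨c, hc⟩ := hform e.1 e.2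
        refine ⟨⟨c, ?_⟩, Subtype.ext hc.symm⟩
        show x * zz hG c * x⁻¹ ∈ E
        rw [← hc]
        exact e.2
    obtain ⟨a₀, ha₀, h0⟩ := A.bot_or_exists_ne_zero.resolve_left (by
      intro h
      rw [h, AddSubgroup.card_bot] at hA
      have : 2 ^ 2 ≤ 2 ^ n := Nat.pow_le_pow_right (by norm_num) hn
      omega)
    apply dvd_of_addSubgroup' hF A hA ha₀ h0
    rintro l hl ⟨c, hc, hc0, hlc⟩
    obtain ⟨y, hy⟩ := exists_conj_zz hG hex hl
    have key : ∀ d : F, (x * y * x⁻¹) * (x * zz hG d * x⁻¹) * (x * y * x⁻¹)⁻¹ =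
        x * zz hG (l * d) * x⁻¹ := by
      intro d
      rw [← hy d]; group
    have hN := hTI (x * y * x⁻¹) (by
      intro hbot
      have hmem : x * zz hG (l * c) * x⁻¹ ∈ E ⊓ E.map (MulAut.conj (x * y * x⁻¹)).toMonoidHom :=
        ⟨hlc, ⟨_, hc, key c⟩⟩
      rw [hbot, Subgroup.mem_bot] at hmem
      have h1 : zz hG (l * c) = 1 := by
        have h5 := congrArg (fun z => x⁻¹ * z * x) hmem
        simpa [mul_assoc] using h5
      exact mul_ne_zero hl hc0 (hz1 h1))
    intro d
    have h2 := Subgroup.mem_normalizer_iff.1 hN (x * zz hG d * x⁻¹)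
    rw [key d] at h2
    exact h2
  · intro hdvd
    obtain ⟨K, hK⟩ := exists_subfield' hF (by omega : n ≠ 0) hdvd
    let E : Subgroup (Cfsg.Sz F m) :=
      { carrier := {g | ∃ c ∈ K, g = zz hG c}
        one_mem' := ⟨0, K.zero_mem, (zz_zero hG hex).symm⟩
        mul_mem' := by
          rintro _ _ ⟨c, hc, rfl⟩ ⟨d, hd, rfl⟩
          exact ⟨c + d, K.add_mem hc hd, zz_mul hG hex c d⟩
        inv_mem' := by
          rintro _ ⟨c, hc, rfl⟩
          refine ⟨c, hc, ?_⟩
          rw [inv_eq_iff_mul_eq_one, zz_mul hG hex, hG.add_self, zz_zero hG hex] }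
    refine ⟨E, ⟨⟨⟨?_⟩⟩, ?_⟩, ?_, ?_⟩
    · rintro ⟨_, c, hc, rfl⟩ ⟨_, d, hd, rfl⟩
      apply Subtype.ext
      show zz hG c * zz hG d = zz hG d * zz hG c
      rw [zz_mul hG hex, zz_mul hG hex, add_comm]
    · rintro _ ⟨c, hc, rfl⟩
      rw [sq, zz_mul hG hex, hG.add_self, zz_zero hG hex]
    · rw [← hK]
      apply Nat.card_congr
      symm
      refine Equiv.ofBijective (fun c => ⟨zz hG c.1, c.1, c.2, rfl⟩) ⟨?_, ?_⟩
      · intro c d h
        exact Subtype.ext (zz_inj hG (congrArg Subtype.val h))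
      · rintro ⟨_, c, hc, rfl⟩
        exact ⟨⟨c, hc⟩, rfl⟩
    · intro x hx
      obtain ⟨g, hg, hg1⟩ := (Subgroup.bot_or_exists_ne_one _).resolve_left hx
      obtain ⟨⟨c, hc, rfl⟩, ⟨e, ⟨c', hc', rfl⟩, he⟩⟩ := hg
      have he' : x * zz hG c' * x⁻¹ = zz hG c := he
      have hc0 : c ≠ 0 := by
        rintro rfl
        exact hg1 (zz_zero hG hex)
      have hxinf : x.1 • Cfsg.suzukiPointInfinity F = Cfsg.suzukiPointInfinity F := by
        have h1 : zz hG c * x = x * zz hG c' := by rw [← he']; group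
        have h2 : Cfsg.Agent.Lib.Helper29.Sz.T m 0 c * x.1 = x.1 * Cfsg.Agent.Lib.Helper29.Sz.T m 0 c' :=
          congrArg Subtype.val h1
        have h3 : Cfsg.Agent.Lib.Helper29.Sz.T m 0 c • (x.1 • Cfsg.suzukiPointInfinity F) =
            x.1 • Cfsg.suzukiPointInfinity F := by
          rw [← mul_smul, h2, mul_smul, Cfsg.Agent.Lib.Helper29.Sz.T_infty]
        rcases Cfsg.Agent.Lib.Helper29.Sz.mem_ovoid_cases m
          (Cfsg.Agent.Lib.Helper29.Sz.smul_mem_ovoid x.2 (Cfsg.Agent.Lib.Helper29.Sz.infty_mem m))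
          with h | ⟨p, q, h⟩
        · exact h
        · rw [h] at h3
          exact absurd h3 (Cfsg.Agent.Lib.Helper29.Sz.T_fix_only hG (fun hh => hc0 hh.2))
      obtain ⟨l, hl, hlc⟩ := conj_zz hG hex hxinf
      have h4 : l * c' = c := by
        apply zz_inj hG
        rw [← hlc, he']
      have hc'0 : c' ≠ 0 := by
        rintro rfl
        rw [mul_zero] at h4
        exact hc0 h4.symm
      have hlK : l ∈ K := by
        have : l = c / c' := by rw [← h4, mul_div_cancel_right₀ _ hc'0]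
        rw [this]
        exact K.div_mem hc hc'
      rw [Subgroup.mem_normalizer_iff]
      intro e
      constructor
      · rintro ⟨d, hd, rfl⟩
        exact ⟨l * d, K.mul_mem hlK hd, hlc d⟩
      · rintro ⟨d, hd, hed⟩
        refine ⟨l⁻¹ * d, K.mul_mem (K.inv_mem hlK) hd, ?_⟩
        have h5 := hlc (l⁻¹ * d)
        rw [mul_inv_cancel_left₀ hl, ← hed] at h5
        exact (mul_left_cancel (mul_right_cancel h5)).symm

end Cfsg.Agent.S2240
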