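import Cfsg.Statements.S2241
-- import your own Cfsg.Agent.* helpers here
import Cfsg.Agent.Lib.Helper29.SzMore

set_option autoImplicit false
open Cfsg

namespace Cfsg.Agent.S2241

open Cfsg.Agent.Lib.Helper29.Sz in
theorem real_T {F : Type*} [Field F] [Finite F] {m : ℕ} (hG : Good F m)
    (hex : ∃ t : F, t ≠ 0 ∧ t ≠ 1) {a b : F} {y : Matrix.SpecialLinearGroup (Fin 4) F}
    (hy : y ∈ Cfsg.Sz F m) (h : y * T m a b * y⁻¹ = (T m a b)⁻¹) : a = 0 := by
  by_contra ha
  have h' : y * T m a b = (T m a b)⁻¹ * y := mul_inv_eq_iff_eq_mul.1 h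
  have hfix : T m a b • (y • Cfsg.suzukiPointInfinity F) = y • Cfsg.suzukiPointInfinity F := by
    have this : (T m a b)⁻¹ • (y • Cfsg.suzukiPointInfinity F) = y • Cfsg.suzukiPointInfinity F := by
      rw [← mul_smul, ← h', mul_smul, T_infty]
    rw [inv_smul_eq_iff] at this
    exact this.symm
  have hyinf : y • Cfsg.suzukiPointInfinity F = Cfsg.suzukiPointInfinity F := by
    rcases mem_ovoid_cases m (smul_mem_ovoid hy (infty_mem m)) with h1 | ⟨c, d, h1⟩
    · exact h1
    · rw [h1] at hfix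
      exact absurd hfix (T_fix_only hG (fun hh => ha hh.1))
  obtain ⟨c, d, k, rfl⟩ := stab_infty_form hG hex hy hyinf
  rw [mul_assoc, hh_T hG hex, ← mul_assoc, ← mul_assoc, T_inv hG hex, T_mul hG hex,
    T_mul hG hex] at h'
  obtain ⟨e1, e2⟩ := T_inj hG (mul_right_cancel h')
  have hK : sg m (k : F) = 1 := by
    have : sg m (k : F) * a = 1 * a := by linear_combination e1
    exact mul_right_cancel₀ ha this
  have hk : (k : F) = 1 := hG.eq_one_of_sg hK
  rw [hK, hk] at e2
  have E1 : sg m c * a = sg m a * a + sg m a * c := by linear_combination e2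
  have E2 : c ^ 2 * sg m a = a ^ 2 * sg m a + a ^ 2 * sg m c := by
    have := congrArg (sg m) E1
    rwa [hG.sg_add, sg_mul, sg_mul, sg_mul, hG.sgsg, hG.sgsg] at this
  have hA : sg m a ≠ 0 := sg_ne_zero m ha
  have h3 : sg m a * c * (c + a) * a = 0 := by
    linear_combination a * E2 + a ^ 2 * E1 + (sg m a * a ^ 2 * c + sg m a * a ^ 3) * hG.two
  have h4 : c * (c + a) = 0 := by
    have h5 : sg m a * a * (c * (c + a)) = 0 := by linear_combination h3
    exact (mul_eq_zero.1 h5).resolve_left (mul_ne_zero hA ha)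
  rcases mul_eq_zero.1 h4 with hc | hc
  · subst hc
    simp only [sg_zero, zero_mul, mul_zero, add_zero] at E1
    exact mul_ne_zero hA ha E1.symm
  · have hca : c = a := hG.eq_of_add_eq_zero hc
    subst hca
    have : sg m c * c = 0 := by linear_combination -E1
    exact mul_ne_zero hA ha this


/-- Real 2-elements of the Suzuki group: with q = 2^(2m+1), m ≥ 1, and the group realised as the stabiliser in SL₄ of the Suzuki–Tits ovoid, a non-identity element of a Sylow 2-subgroup is conjugate to its inverse if and only if it is an involution; in particular no element of order 4 is conjugate to its inverse. -/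
theorem result {F : Type*} [Field F] [Fintype F] {m : ℕ} (hm : 1 ≤ m) (hF : Fintype.card F = 2 ^ (2 * m + 1)) (P : Sylow 2 ↥(Cfsg.Sz F m)) (g : ↥(Cfsg.Sz F m)) (hg : g ∈ (P : Subgroup ↥(Cfsg.Sz F m))) (h1 : g ≠ 1) :
    IsConj g g⁻¹ ↔ orderOf g = 2 := by
  have hG := Cfsg.Agent.Lib.Helper29.Sz.good_of_card hF
  have hex := Cfsg.Agent.Lib.Helper29.Sz.exists_ne_zero_one hm hF
  obtain ⟨x, hx⟩ := Cfsg.Agent.Lib.Helper29.Sz.sylow_conj hG hex (n := 2 * m + 1) (by omega) hF P
  rw [hx] at hg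
  obtain ⟨u, hu, hug⟩ := hg
  have hug' : x * u * x⁻¹ = g := hug
  obtain ⟨a, b, hab⟩ := hu
  constructor
  · intro hc
    obtain ⟨c, hc⟩ := isConj_iff.1 hc
    have h2 : (x⁻¹ * c * x) * u * (x⁻¹ * c * x)⁻¹ = u⁻¹ := by
      have : u = x⁻¹ * g * x := by rw [← hug']; group
      rw [this]
      have h3 : x⁻¹ * c * x * (x⁻¹ * g * x) * (x⁻¹ * c * x)⁻¹ = x⁻¹ * (c * g * c⁻¹) * x := by group
      rw [h3, hc]; group
    have h3 : (x⁻¹ * c * x).1 * Cfsg.Agent.Lib.Helper29.Sz.T m a b * (x⁻¹ * c * x).1⁻¹ =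
        (Cfsg.Agent.Lib.Helper29.Sz.T m a b)⁻¹ := by
      rw [← hab]
      exact congrArg Subtype.val h2
    have ha := real_T hG hex (x⁻¹ * c * x).2 h3
    subst ha
    have husq : u * u = 1 := by
      apply Subtype.ext
      show u.1 * u.1 = 1
      rw [hab, Cfsg.Agent.Lib.Helper29.Sz.T_mul hG hex, ← Cfsg.Agent.Lib.Helper29.Sz.T_zero hG hex]
      congr 1
      · simp
      · simp only [Cfsg.Agent.Lib.Helper29.Sz.sg_zero, zero_mul, add_zero]
        exact hG.add_self b
    apply orderOf_eq_prime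
    · rw [sq, ← hug']
      have : x * u * x⁻¹ * (x * u * x⁻¹) = x * (u * u) * x⁻¹ := by group
      rw [this, husq]; group
    · exact h1
  · intro ho
    have h2 : g ^ 2 = 1 := by rw [← ho]; exact pow_orderOf_eq_one g
    have h3 : g⁻¹ = g := by
      rw [inv_eq_iff_mul_eq_one, ← sq, h2]
    rw [h3]

end Cfsg.Agent.S2241
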