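import Cfsg.Statements.S2268
-- import your own Cfsg.Agent.* helpers here

set_option autoImplicit false
open Cfsg

namespace Cfsg.Agent.S2268

/-- Let G be a finite group with an abelian Sylow p-subgroup P and let Q ≤ P. Then N_G(Q) = (N_G(Q) ∩ N_G(P))·C_G(Q), so that N_G(Q)/C_G(Q) is a homomorphic image of the subgroup (N_G(Q) ∩ N_G(P))/C_G(P) of N_G(P)/C_G(P); in particular the order of N_G(Q)/C_G(Q) divides the order of N_G(P)/C_G(P). -/
theorem result {G : Type*} [Group G] [Finite G] {p : ℕ} [Fact p.Prime]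
    (P : Sylow p G) (hP : IsMulCommutative (P : Subgroup G)) (Q : Subgroup G) (hQ : Q ≤ (P : Subgroup G)) :
    Subgroup.normalizer (Q : Set G) =
      (Subgroup.normalizer (Q : Set G) ⊓ Subgroup.normalizer ((P : Subgroup G) : Set G)) ⊔ Subgroup.centralizer (Q : Set G) ∧
    ((Subgroup.centralizer (Q : Set G)).subgroupOf (Subgroup.normalizer (Q : Set G))).index ∣ ((Subgroup.centralizer ((P : Subgroup G) : Set G)).subgroupOf (Subgroup.normalizer ((P : Subgroup G) : Set G))).index := by
  have := hP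
  set NQ := Subgroup.normalizer (Q : Set G) with hNQ
  set NP := Subgroup.normalizer ((P : Subgroup G) : Set G) with hNP
  set CQ := Subgroup.centralizer (Q : Set G) with hCQ
  set CP := Subgroup.centralizer ((P : Subgroup G) : Set G) with hCP
  have hCQNQ : CQ ≤ NQ := Subgroup.centralizer_le_normalizer _
  have hCPNP : CP ≤ NP := Subgroup.centralizer_le_normalizer _
  have hCPCQ : CP ≤ CQ := Subgroup.centralizer_le hQ
  have hPCP : (P : Subgroup G) ≤ CP := Subgroup.le_centralizer (P : Subgroup G)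
  have hPCQ : (P : Subgroup G) ≤ CQ := hPCP.trans hCPCQ
  have part1 : NQ = (NQ ⊓ NP) ⊔ CQ := by
    apply le_antisymm
    · intro g hg
      have h2 : ((g • P : Sylow p G) : Subgroup G) ≤ CQ := by
        rintro - ⟨z, hz, rfl⟩
        rw [hCQ, Subgroup.mem_centralizer_iff]
        intro h hh
        have h3 : g⁻¹ * h * g ∈ Q := (Subgroup.mem_normalizer_iff''.mp hg h).mp hh
        have h4 := (Subgroup.mem_centralizer_iff.mp (hPCQ hz)) _ h3
        simp only [MulDistribMulAction.toMonoidEnd_apply, MulDistribMulAction.toMonoidHom_apply,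
          MulAut.smul_def, MulAut.conj_apply]
        calc h * (g * z * g⁻¹) = g * ((g⁻¹ * h * g) * z) * g⁻¹ := by group
          _ = g * (z * (g⁻¹ * h * g)) * g⁻¹ := by rw [h4]
          _ = g * z * g⁻¹ * h := by group
      obtain ⟨c, hc⟩ := MulAction.exists_smul_eq CQ ((g • P).subtype h2) (P.subtype hPCQ)
      simp_rw [Sylow.smul_subtype, Subgroup.smul_def, smul_smul] at hc
      have h5 : (c : G) * g ∈ NP := Sylow.smul_eq_iff_mem_normalizer.mp (Sylow.subtype_injective hc)
      have h6 : (c : G) * g ∈ NQ := NQ.mul_mem (hCQNQ c.2) hg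
      have h7 : g = ((c : G) * g) * ((g⁻¹ * (c : G)⁻¹ * g)) := by group
      have h8 : g⁻¹ * (c : G)⁻¹ * g ∈ CQ := by
        have hn : (CQ.subgroupOf NQ).Normal := Subgroup.normal_subgroupOf_centralizer_normalizer _
        have := (Subgroup.normal_subgroupOf_iff hCQNQ).mp hn (c : G)⁻¹ g⁻¹ (CQ.inv_mem c.2)
          (NQ.inv_mem hg)
        simpa using this
      rw [h7]
      exact Subgroup.mul_mem_sup ⟨h6, h5⟩ h8
    · exact sup_le inf_le_left hCQNQ
  refine ⟨part1, ?_⟩
  change CQ.relIndex NQ ∣ CP.relIndex NP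
  set A := NQ ⊓ NP with hA
  have hn : (CQ.subgroupOf NQ).Normal := Subgroup.normal_subgroupOf_centralizer_normalizer _
  have e1 : CQ.relIndex NQ = CQ.relIndex A := by
    have h1 := Subgroup.relIndex_sup_right (A.subgroupOf NQ) (CQ.subgroupOf NQ)
    rw [← Subgroup.subgroupOf_sup inf_le_left hCQNQ, ← part1, Subgroup.subgroupOf_self,
      Subgroup.relIndex_top_right, Subgroup.relIndex_subgroupOf inf_le_left] at h1
    exact h1
  rw [e1, ← Subgroup.inf_relIndex_right]
  have hle1 : CP ≤ CQ ⊓ A := le_inf hCPCQ (le_inf (hCPCQ.trans hCQNQ) hCPNP)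
  have hle2 : CQ ⊓ A ≤ A := inf_le_right
  have hle3 : A ≤ NP := inf_le_right
  rw [← Subgroup.relIndex_mul_relIndex CP A NP (hle1.trans hle2) hle3,
    ← Subgroup.relIndex_mul_relIndex CP (CQ ⊓ A) A hle1 hle2]
  exact (Dvd.intro_left _ rfl).mul_right _

end Cfsg.Agent.S2268
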