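import Cfsg.Statements.S2269
import Cfsg.Agent.Lib.Helper14.SylowAut
import Cfsg.Agent.Lib.Helper14.SylowConj

set_option autoImplicit false
open Cfsg

namespace Cfsg.Agent.S2269

open Equiv.Perm Cfsg.Agent.Lib.Helper14

theorem d1 : ∀ g : Equiv.Perm (Fin 5), sign g = 1 → g ^ 4 = 1 → g ^ 2 = 1 := by decide +kernel

theorem d2 : ∀ z x : Equiv.Perm (Fin 5), z ^ 5 = 1 → z ≠ 1 → x * x = 1 → x ≠ 1 → sign x = 1 →
    x * (z * x * z⁻¹) ≠ (z * x * z⁻¹) * x := by decide +kernel

theorem d3 : ∀ x y : Equiv.Perm (Fin 5), sign x = 1 → sign y = 1 → x * x = 1 → y * y = 1 →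
    x ≠ 1 → y ≠ 1 → x ≠ y → x * y = y * x →
    ∃ g : Equiv.Perm (Fin 5), sign g = 1 ∧ g ^ 3 = 1 ∧ g ≠ 1 ∧ g * x * g⁻¹ = y ∧
      g * y * g⁻¹ = x * y := by
  decide +kernel

theorem d4 : ∀ x y : Equiv.Perm (Fin 5), (sign x = 1 ∧ sign y = 1 ∧ x * x = 1 ∧ y * y = 1 ∧
    x ≠ 1 ∧ y ≠ 1 ∧ x ≠ y ∧ x * y = y * x) →
    ∀ c : Equiv.Perm (Fin 5), (sign c = 1 ∧ c * x = x * c ∧ c * y = y * c) →
      (c = 1 ∨ c = x ∨ c = y ∨ c = x * y) := by
  decide +kernel

def a₀ : Equiv.Perm (Fin 6) := Equiv.swap 0 1 * Equiv.swap 1 2 * Equiv.swap 2 3 * Equiv.swap 4 5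
def b₀ : Equiv.Perm (Fin 6) := Equiv.swap 0 2 * Equiv.swap 4 5

theorem a₀_pow : a₀ ^ (2 ^ 2) = 1 := by decide +kernel
theorem b₀_pow : b₀ ^ (2 ^ 1) = 1 := by decide +kernel
theorem ab₀ : b₀ * a₀ * b₀⁻¹ = a₀⁻¹ := by decide +kernel
theorem ab₀_ne : a₀ * b₀ ≠ b₀ * a₀ := by decide +kernel
theorem a₀_sign : sign a₀ = 1 := by decide +kernel
theorem b₀_sign : sign b₀ = 1 := by decide +kernel

theorem not_comm_sylow2 (n : ℕ) (hn : 6 ≤ n) (P : Sylow 2 (alternatingGroup (Fin n)))
    (hP : IsMulCommutative (P : Subgroup (alternatingGroup (Fin n)))) : False := by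
  let f : Fin 6 ≃ Subtype (fun x => x ∈ Set.range (Fin.castLEEmb hn)) :=
    (Fin.castLEEmb hn).toEquivRange
  let φ : Equiv.Perm (Fin 6) →* Equiv.Perm (Fin n) := Equiv.Perm.extendDomainHom f
  have hφ : Function.Injective φ := Equiv.Perm.extendDomainHom_injective f
  have hsign : ∀ e : Equiv.Perm (Fin 6), sign (φ e) = sign e := fun e =>
    Equiv.Perm.sign_extendDomain e f
  let a : alternatingGroup (Fin n) := ⟨φ a₀, by
    rw [Equiv.Perm.mem_alternatingGroup, hsign, a₀_sign]⟩
  let b : alternatingGroup (Fin n) := ⟨φ b₀, by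
    rw [Equiv.Perm.mem_alternatingGroup, hsign, b₀_sign]⟩
  have ha : a ^ (2 ^ 2) = 1 := by
    apply Subtype.ext
    change (φ a₀) ^ (2 ^ 2) = 1
    rw [← map_pow, a₀_pow, map_one]
  have hb : b ^ (2 ^ 1) = 1 := by
    apply Subtype.ext
    change (φ b₀) ^ (2 ^ 1) = 1
    rw [← map_pow, b₀_pow, map_one]
  have hab : b * a * b⁻¹ = a⁻¹ := by
    apply Subtype.ext
    change φ b₀ * φ a₀ * (φ b₀)⁻¹ = (φ a₀)⁻¹
    rw [← map_inv, ← map_mul, ← map_mul, ab₀, map_inv]
  have hne : a * b ≠ b * a := by
    intro h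
    have h' : φ a₀ * φ b₀ = φ b₀ * φ a₀ := congrArg Subtype.val h
    rw [← map_mul, ← map_mul] at h'
    exact ab₀_ne (hφ h')
  obtain ⟨g, hg⟩ := exists_conj_mem_sylow P _ (isPGroup_two_of_dihedral ha hb hab)
  have h1 := hg a (Subgroup.mem_sup_right (Subgroup.mem_zpowers a))
  have h2 := hg b (Subgroup.mem_sup_left (Subgroup.mem_zpowers b))
  have h3 : (⟨_, h1⟩ : (P : Subgroup (alternatingGroup (Fin n)))) * ⟨_, h2⟩ = ⟨_, h2⟩ * ⟨_, h1⟩ :=
    hP.is_comm.comm _ _
  have h4 : (g * a * g⁻¹) * (g * b * g⁻¹) = (g * b * g⁻¹) * (g * a * g⁻¹) :=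
    congrArg Subtype.val h3
  apply hne
  have h5 : g * (a * b) * g⁻¹ = g * (b * a) * g⁻¹ := by
    calc g * (a * b) * g⁻¹ = (g * a * g⁻¹) * (g * b * g⁻¹) := by group
      _ = (g * b * g⁻¹) * (g * a * g⁻¹) := h4
      _ = g * (b * a) * g⁻¹ := by group
  exact mul_left_cancel (mul_right_cancel h5)

theorem odd_case (n : ℕ) (hn : 5 ≤ n) {p : ℕ} [Fact p.Prime] (hp : p ≠ 2)
    (P : Sylow p (alternatingGroup (Fin n)))
    (hP : IsMulCommutative (P : Subgroup (alternatingGroup (Fin n)))) :
    2 ∣ ((Subgroup.centralizer ((P : Subgroup (alternatingGroup (Fin n))) : Set (alternatingGroup (Fin n)))).subgroupOf (Subgroup.normalizer ((P : Subgroup (alternatingGroup (Fin n))) : Set (alternatingGroup (Fin n))))).index ∨ IsCyclic (P : Subgroup (alternatingGroup (Fin n))) := by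
  have hpp : p.Prime := Fact.out
  have hp3 : 3 ≤ p := by
    have := hpp.two_le
    omega
  have hodd : Odd p := hpp.odd_of_ne_two hp
  rcases Nat.lt_or_ge n (p + 2) with hlt | hge
  · right
    obtain ⟨k, hk⟩ := IsPGroup.iff_card.mp P.2
    have hdvd1 : Nat.card (P : Subgroup (alternatingGroup (Fin n))) ∣ n.factorial := by
      have h1 := Subgroup.card_subgroup_dvd_card (P : Subgroup (alternatingGroup (Fin n)))
      have h2 := Subgroup.card_subgroup_dvd_card (alternatingGroup (Fin n))
      have h3 : Nat.card (Equiv.Perm (Fin n)) = n.factorial := by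
        rw [Nat.card_eq_fintype_card, Fintype.card_perm, Fintype.card_fin]
      rw [h3] at h2
      exact h1.trans h2
    have hk1 : k ≤ 1 := by
      by_contra hk2
      have h2 : p ^ 2 ∣ n.factorial := by
        refine dvd_trans (pow_dvd_pow p (show 2 ≤ k by omega)) ?_
        rw [← hk]; exact hdvd1
      have hlog : Nat.log p n < 2 := by
        apply Nat.log_lt_of_lt_pow (by omega)
        nlinarith
      rw [hpp.pow_dvd_factorial_iff hlog] at h2
      have h3 : n / p ≤ 1 := by
        rw [← Nat.lt_succ_iff, Nat.div_lt_iff_lt_mul hpp.pos]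
        omega
      simp at h2
      omega
    apply isCyclic_of_card_dvd_prime (p := p)
    rw [hk]
    exact (pow_dvd_pow p hk1).trans (by simp)
  · left
    obtain ⟨c, hc⟩ : ∃ c : Equiv.Perm (Fin n), c.cycleType = {p} := by
      apply (Equiv.Perm.exists_with_cycleType_iff (Fin n)).mpr
      refine ⟨by simp; omega, by simp; omega⟩
    have hsign : sign c = 1 := by
      rw [sign_of_cycleType, hc]
      simp only [Multiset.sum_singleton, Multiset.card_singleton]
      exact (hodd.add_one).neg_one_pow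
    have hord : orderOf c = p := by
      rw [← lcm_cycleType, hc]; simp
    have hsupp : c.support.card = p := by
      rw [← sum_cycleType, hc]; simp
    let c' : alternatingGroup (Fin n) := ⟨c, Equiv.Perm.mem_alternatingGroup.mpr hsign⟩
    have hc' : c' ^ (p ^ 1) = 1 := by
      apply Subtype.ext
      change c ^ (p ^ 1) = 1
      rw [pow_one, ← hord]; exact pow_orderOf_eq_one c
    obtain ⟨g, hg⟩ := exists_conj_mem_sylow P _ (isPGroup_zpowers hc')
    have hx := hg c' (Subgroup.mem_zpowers c')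
    have hc1 : c' ≠ 1 := by
      intro h
      have : c = 1 := congrArg Subtype.val h
      rw [this] at hord
      simp at hord
      omega
    have hx1 : g * c' * g⁻¹ ≠ 1 := by
      intro h
      apply hc1
      have : c' = g⁻¹ * (g * c' * g⁻¹) * g := by group
      rw [this, h]; group
    refine two_dvd_index_of_conj_inv hp P hP _ hx hx1 ?_
    apply alternatingGroup.isConj_of
    · rw [isConj_iff_cycleType_eq]
      change _ = (((g * c' * g⁻¹ : alternatingGroup (Fin n)) : Equiv.Perm (Fin n))⁻¹).cycleType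
      rw [cycleType_inv]
    · have : ((g * c' * g⁻¹ : alternatingGroup (Fin n)) : Equiv.Perm (Fin n)) = (g : Equiv.Perm (Fin n)) * c * (g : Equiv.Perm (Fin n))⁻¹ := rfl
      rw [this, card_support_conj, hsupp]
      simpa using hge

theorem five_case (P : Sylow 2 (alternatingGroup (Fin 5)))
    (hP : IsMulCommutative (P : Subgroup (alternatingGroup (Fin 5)))) :
    ((Subgroup.centralizer ((P : Subgroup (alternatingGroup (Fin 5))) : Set (alternatingGroup (Fin 5)))).subgroupOf (Subgroup.normalizer ((P : Subgroup (alternatingGroup (Fin 5))) : Set (alternatingGroup (Fin 5))))).index = 3 ∧ IsKleinFour (P : Subgroup (alternatingGroup (Fin 5))) := by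
  have := hP
  have hG : Nat.card (alternatingGroup (Fin 5)) = 60 := by
    rw [nat_card_alternatingGroup]; simp [Nat.factorial]
  have hfac : (60 : ℕ).factorization 2 = 2 := by
    have : (60 : ℕ) = 2 ^ 2 * 15 := by norm_num
    rw [this, Nat.factorization_mul (by norm_num) (by norm_num), Nat.Prime.factorization_pow Nat.prime_two]
    simp [Nat.factorization_eq_zero_of_not_dvd (show ¬ 2 ∣ 15 by norm_num)]
  have hcard : Nat.card (P : Subgroup (alternatingGroup (Fin 5))) = 4 := by
    rw [P.card_eq_multiplicity, hG, hfac]; norm_num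
  have hsg : ∀ g : alternatingGroup (Fin 5), sign (g : Equiv.Perm (Fin 5)) = 1 := fun g =>
    Equiv.Perm.mem_alternatingGroup.mp g.2
  have hsq : ∀ g ∈ (P : Subgroup (alternatingGroup (Fin 5))), g * g = 1 := by
    intro g hg
    have h4 : (⟨g, hg⟩ : (P : Subgroup (alternatingGroup (Fin 5)))) ^ 4 = 1 := by
      rw [← hcard]; exact pow_card_eq_one'
    have h4' : (g : Equiv.Perm (Fin 5)) ^ 4 = 1 := by
      have := congrArg (fun t : (P : Subgroup (alternatingGroup (Fin 5))) => ((t : alternatingGroup (Fin 5)) : Equiv.Perm (Fin 5))) h4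
      simpa using this
    have := d1 _ (hsg g) h4'
    apply Subtype.ext
    rw [pow_two] at this
    exact this
  have hcomm : ∀ g ∈ (P : Subgroup (alternatingGroup (Fin 5))), ∀ h ∈ (P : Subgroup (alternatingGroup (Fin 5))), g * h = h * g := by
    intro g hg h hh
    exact congrArg Subtype.val (hP.is_comm.comm (⟨g, hg⟩ : (P : Subgroup (alternatingGroup (Fin 5)))) ⟨h, hh⟩)
  have hncard : ((P : Subgroup (alternatingGroup (Fin 5))) : Set (alternatingGroup (Fin 5))).ncard = 4 := by
    rw [← hcard]; rfl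
  obtain ⟨x, hx, hx1⟩ : ∃ x ∈ (P : Subgroup (alternatingGroup (Fin 5))), x ≠ 1 := by
    by_contra hcon
    push Not at hcon
    have hsub : ((P : Subgroup (alternatingGroup (Fin 5))) : Set (alternatingGroup (Fin 5))) ⊆ {1} := fun g hg => hcon g hg
    have := Set.ncard_le_ncard hsub (Set.toFinite _)
    rw [hncard, Set.ncard_singleton] at this
    omega
  obtain ⟨y, hy, hy1, hyx⟩ : ∃ y ∈ (P : Subgroup (alternatingGroup (Fin 5))), y ≠ 1 ∧ y ≠ x := by
    by_contra hcon
    push Not at hcon
    have hsub : ((P : Subgroup (alternatingGroup (Fin 5))) : Set (alternatingGroup (Fin 5))) ⊆ {1, x} := by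
      intro g hg
      by_cases h1 : g = 1
      · left; exact h1
      · right; exact hcon g hg h1
    have := Set.ncard_le_ncard hsub (Set.toFinite _)
    have h2 := Set.ncard_insert_le (1 : alternatingGroup (Fin 5)) {x}
    rw [Set.ncard_singleton] at h2
    rw [hncard] at this
    omega
  have hval : ∀ {g h : alternatingGroup (Fin 5)}, g ≠ h → (g : Equiv.Perm (Fin 5)) ≠ h := fun hne h => hne (Subtype.ext h)
  have hxy : (sign (x : Equiv.Perm (Fin 5)) = 1 ∧ sign (y : Equiv.Perm (Fin 5)) = 1 ∧ (x : Equiv.Perm (Fin 5)) * x = 1 ∧ (y : Equiv.Perm (Fin 5)) * y = 1 ∧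
    (x : Equiv.Perm (Fin 5)) ≠ 1 ∧ (y : Equiv.Perm (Fin 5)) ≠ 1 ∧ (x : Equiv.Perm (Fin 5)) ≠ y ∧ (x : Equiv.Perm (Fin 5)) * y = y * x) :=
    ⟨hsg x, hsg y, congrArg Subtype.val (hsq x hx), congrArg Subtype.val (hsq y hy), hval hx1, hval hy1, hval hyx.symm,
      congrArg Subtype.val (hcomm x hx y hy)⟩
  have hlist : ∀ c : alternatingGroup (Fin 5), c * x = x * c → c * y = y * c → c = 1 ∨ c = x ∨ c = y ∨ c = x * y := by
    intro c h1 h2
    rcases d4 _ _ hxy c ⟨hsg c, congrArg Subtype.val h1, congrArg Subtype.val h2⟩ with h | h | h | h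
    · left; exact Subtype.ext h
    · right; left; exact Subtype.ext h
    · right; right; left; exact Subtype.ext h
    · right; right; right; exact Subtype.ext h
  have hxyP : x * y ∈ (P : Subgroup (alternatingGroup (Fin 5))) := mul_mem hx hy
  have hC : Subgroup.centralizer ((P : Subgroup (alternatingGroup (Fin 5))) : Set (alternatingGroup (Fin 5))) = P := by
    apply le_antisymm
    · intro c hc
      rw [Subgroup.mem_centralizer_iff] at hc
      rcases hlist c (hc x hx).symm (hc y hy).symm with h | h | h | h <;> rw [h]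
      · exact one_mem _
      · exact hx
      · exact hy
      · exact hxyP
    · exact Subgroup.le_centralizer _
  constructor
  · rw [hC]
    change (P : Subgroup (alternatingGroup (Fin 5))).relIndex _ = 3
    set N := Subgroup.normalizer ((P : Subgroup (alternatingGroup (Fin 5))) : Set (alternatingGroup (Fin 5))) with hN
    set k := (P : Subgroup (alternatingGroup (Fin 5))).relIndex N with hk
    have hPN : (P : Subgroup (alternatingGroup (Fin 5))) ≤ N := Subgroup.le_normalizer
    have hcN : 4 * k = Nat.card N := by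
      have := Subgroup.relIndex_mul_relIndex ⊥ (P : Subgroup (alternatingGroup (Fin 5))) N bot_le hPN
      rw [Subgroup.relIndex_bot_left, Subgroup.relIndex_bot_left, hcard] at this
      exact this
    have hN60 : Nat.card N ∣ 60 := hG ▸ Subgroup.card_subgroup_dvd_card N
    have h3 : 3 ∣ Nat.card N := by
      obtain ⟨g, hg1, hg3, hgne, hgx, hgy⟩ := d3 _ _ hxy.1 hxy.2.1 hxy.2.2.1 hxy.2.2.2.1 hxy.2.2.2.2.1 hxy.2.2.2.2.2.1 hxy.2.2.2.2.2.2.1 hxy.2.2.2.2.2.2.2
      let g' : alternatingGroup (Fin 5) := ⟨g, Equiv.Perm.mem_alternatingGroup.mpr hg1⟩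
      have hgx' : g' * x * g'⁻¹ = y := Subtype.ext hgx
      have hgy' : g' * y * g'⁻¹ = x * y := Subtype.ext hgy
      have hgxy' : g' * (x * y) * g'⁻¹ = x := by
        calc g' * (x * y) * g'⁻¹ = (g' * x * g'⁻¹) * (g' * y * g'⁻¹) := by group
          _ = y * (x * y) := by rw [hgx', hgy']
          _ = (y * y) * x := by rw [hcomm x hx y hy]; group
          _ = x := by rw [hsq y hy, one_mul]
      have hfwd : ∀ h ∈ (P : Subgroup (alternatingGroup (Fin 5))), g' * h * g'⁻¹ ∈ (P : Subgroup (alternatingGroup (Fin 5))) := by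
        intro h hh
        rcases hlist h (hcomm h hh x hx) (hcomm h hh y hy) with h' | h' | h' | h' <;> rw [h']
        · simp
        · rw [hgx']; exact hy
        · rw [hgy']; exact hxyP
        · rw [hgxy']; exact hx
      have hg3' : g' ^ 3 = 1 := Subtype.ext hg3
      have hgN : g' ∈ N := by
        rw [hN, Subgroup.mem_normalizer_iff]
        intro h
        refine ⟨hfwd h, fun hh => ?_⟩
        have h1 := hfwd _ (hfwd _ hh)
        have : g' * (g' * (g' * h * g'⁻¹) * g'⁻¹) * g'⁻¹ = g' ^ 3 * h * (g' ^ 3)⁻¹ := by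
          simp only [pow_succ, pow_zero, one_mul, mul_inv_rev, mul_assoc]
        rw [this, hg3'] at h1
        simpa using h1
      have hord : orderOf (⟨g', hgN⟩ : N) = 3 := by
        apply orderOf_eq_prime
        · exact Subtype.ext hg3'
        · intro h
          exact hgne (congrArg (fun t : N => ((t : alternatingGroup (Fin 5)) : Equiv.Perm (Fin 5))) h)
      rw [← hord]
      exact orderOf_dvd_natCard _
    have h5 : ¬ 5 ∣ Nat.card N := by
      intro h5
      have : Fact (Nat.Prime 5) := ⟨by norm_num⟩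
      obtain ⟨z, hz⟩ := exists_prime_orderOf_dvd_card' (G := N) 5 h5
      have hz5 : ((z : alternatingGroup (Fin 5)) : Equiv.Perm (Fin 5)) ^ 5 = 1 := by
        have : z ^ 5 = 1 := by
          have h := pow_orderOf_eq_one z
          rwa [hz] at h
        exact congrArg (fun t : N => ((t : alternatingGroup (Fin 5)) : Equiv.Perm (Fin 5))) this
      have hz1 : ((z : alternatingGroup (Fin 5)) : Equiv.Perm (Fin 5)) ≠ 1 := by
        intro h
        have : z = 1 := Subtype.ext (Subtype.ext h)
        rw [this] at hz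
        simp at hz
      have hzx : (z : alternatingGroup (Fin 5)) * x * (z : alternatingGroup (Fin 5))⁻¹ ∈ (P : Subgroup (alternatingGroup (Fin 5))) :=
        (Subgroup.mem_normalizer_iff.mp z.2 x).mp hx
      exact d2 _ _ hz5 hz1 hxy.2.2.1 hxy.2.2.2.2.1 hxy.1 (congrArg Subtype.val (hcomm x hx _ hzx))
    rw [← hcN] at hN60 h3 h5
    have hk15 : k ∣ 15 := by
      have : 4 * k ∣ 4 * 15 := hN60
      exact Nat.dvd_of_mul_dvd_mul_left (by norm_num) this
    have hk3 : 3 ∣ k := (Nat.Coprime.dvd_mul_left (by norm_num)).mp h3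
    have hk5 : ¬ 5 ∣ k := fun h => h5 (h.mul_left 4)
    have hkle : k ≤ 15 := Nat.le_of_dvd (by norm_num) hk15
    interval_cases k <;> omega
  · refine ⟨hcard, ?_⟩
    have hdvd : Monoid.exponent (P : Subgroup (alternatingGroup (Fin 5))) ∣ 2 := by
      apply Monoid.exponent_dvd_of_forall_pow_eq_one
      intro g
      apply Subtype.ext
      rw [pow_two]
      exact hsq g g.2
    rcases (Nat.dvd_prime Nat.prime_two).mp hdvd with h | h
    · rw [Monoid.exp_eq_one_iff] at h
      have := Nat.card_eq_one_iff_unique.mpr ⟨h, ⟨1⟩⟩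
      omega
    · exact h

/-- Let n ≥ 5 and let P be an abelian Sylow p-subgroup of the alternating group A_n. Then N(P)/C(P) (taken in A_n) has even order, or P is cyclic, except when n = 5 and p = 2, where P is a four-group and N(P)/C(P) has order 3. -/
theorem result (n : ℕ) (hn : 5 ≤ n) {p : ℕ} [Fact p.Prime]
    (P : Sylow p (alternatingGroup (Fin n))) (hP : IsMulCommutative (P : Subgroup (alternatingGroup (Fin n)))) :
    (¬ (n = 5 ∧ p = 2) → 2 ∣ ((Subgroup.centralizer ((P : Subgroup (alternatingGroup (Fin n))) : Set (alternatingGroup (Fin n)))).subgroupOf (Subgroup.normalizer ((P : Subgroup (alternatingGroup (Fin n))) : Set (alternatingGroup (Fin n))))).index ∨ IsCyclic (P : Subgroup (alternatingGroup (Fin n)))) ∧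
    ((n = 5 ∧ p = 2) → ((Subgroup.centralizer ((P : Subgroup (alternatingGroup (Fin n))) : Set (alternatingGroup (Fin n)))).subgroupOf (Subgroup.normalizer ((P : Subgroup (alternatingGroup (Fin n))) : Set (alternatingGroup (Fin n))))).index = 3 ∧ IsKleinFour (P : Subgroup (alternatingGroup (Fin n)))) := by
  constructor
  · intro hne
    by_cases hp : p = 2
    · subst hp
      have hn6 : 6 ≤ n := by
        rcases Nat.lt_or_ge n 6 with h | h
        · exact absurd ⟨by omega, rfl⟩ hne
        · exact h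
      exact (not_comm_sylow2 n hn6 P hP).elim
    · exact odd_case n hn hp P hP
  · rintro ⟨rfl, rfl⟩
    exact five_case P hP

end Cfsg.Agent.S2269
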