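import Cfsg.Statements.S2336
import Cfsg.Agent.Lib.Helper25.SLPerm4
import Cfsg.Agent.Lib.Helper25.Hecke4
import Cfsg.Agent.S0718

set_option autoImplicit false
open Cfsg

namespace Cfsg.Agent.S2336

open Cfsg.Agent.Lib.Helper25 Cfsg.Agent.Lib

/-- Let F be a finite field with q elements and n ≥ 3. The permutation character of SL_n(F) on the non-zero vectors of F^n (the function sending a matrix to the number of non-zero vectors it fixes) is the sum of the principal character and q − 1 pairwise distinct irreducible complex characters. -/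
theorem result {F : Type*} [Field F] [Fintype F] [DecidableEq F] (n : ℕ) (hn : 3 ≤ n) :
    ∃ χ : Fin (Fintype.card F - 1) → (Matrix.SpecialLinearGroup (Fin n) F → ℂ),
      (∀ i, Cfsg.IsIrrCharacter (Matrix.SpecialLinearGroup (Fin n) F) (χ i)) ∧ Function.Injective χ ∧
      ∀ g : Matrix.SpecialLinearGroup (Fin n) F,
        (Nat.card {v : Fin n → F // v ≠ 0 ∧ (g : Matrix (Fin n) (Fin n) F).mulVec v = v} : ℂ) = 1 + ∑ i, χ i g := by
  classical
  haveI := isPretransitive_slNZ (F := F) hn
  haveI : Fintype (Matrix.SpecialLinearGroup (Fin n) F) := Fintype.ofFinite _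
  have : Fintype (IrrCharacter (Matrix.SpecialLinearGroup (Fin n) F)) := Fintype.ofFinite _
  obtain ⟨a⟩ : Nonempty (NZ F n) := by
    obtain ⟨z, hz, -⟩ := exists_notMem_two _ _ (span_singleton_ne_top (F := F) hn 0)
      (span_singleton_ne_top hn 0)
    exact ⟨⟨z, by rintro rfl; exact hz (Submodule.zero_mem _)⟩⟩
  obtain ⟨m, d, hm, hd, hm1, hn', hr⟩ :=
    perm_mult_data (G := Matrix.SpecialLinearGroup (Fin n) F) a
  have hmf := (Cfsg.Agent.S0718.result (G := Matrix.SpecialLinearGroup (Fin n) F)
    (Ω := NZ F n)).2 (fun S T hS hT => commute_of_invariant hn S T hS hT)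
  have hm01 : ∀ χ, m χ = 0 ∨ m χ = 1 := by
    intro χ
    rcases hmf χ χ.2 with h | h
    · left; rw [hm χ] at h; exact_mod_cast h
    · right; rw [hm χ] at h; exact_mod_cast h
  rw [card_orbits_stabilizer hn a, Nat.card_eq_fintype_card] at hr
  set χ₁ : IrrCharacter (Matrix.SpecialLinearGroup (Fin n) F) :=
    ⟨fun _ => 1, Helper7.isIrrCharacter_one⟩ with hχ₁
  have hmem : χ₁ ∈ Finset.univ.filter (fun χ => m χ = 1) := by simp [hm1]
  have hcard : ((Finset.univ.filter (fun χ => m χ = 1)).erase χ₁).card = Fintype.card F - 1 := by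
    rw [Finset.card_erase_of_mem hmem, Finset.card_filter, hr]
    congr 1
    refine Finset.sum_congr rfl (fun χ _ => ?_)
    rcases hm01 χ with h | h <;> simp [h]
  let e := (Finset.equivFinOfCardEq hcard).symm
  refine ⟨fun i => ((e i : IrrCharacter (Matrix.SpecialLinearGroup (Fin n) F)) :
    Matrix.SpecialLinearGroup (Fin n) F → ℂ), fun i => (e i).1.2, ?_, ?_⟩
  · intro i j hij
    exact e.injective (Subtype.ext (Subtype.ext hij))
  · intro g
    have hcongr : Nat.card {v : Fin n → F // v ≠ 0 ∧ (g : Matrix (Fin n) (Fin n) F).mulVec v = v}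
        = Nat.card (MulAction.fixedBy (NZ F n) g) := by
      apply Nat.card_congr
      exact
        { toFun := fun v => ⟨⟨v.1, v.2.1⟩, Subtype.ext v.2.2⟩
          invFun := fun x => ⟨x.1.1, x.1.2, congrArg Subtype.val x.2⟩
          left_inv := fun _ => rfl
          right_inv := fun _ => rfl }
    rw [hcongr]
    have hπ := congrFun (Helper2.IsCharacter.eq_sum_irr
      (isCharacter_permChar (G := Matrix.SpecialLinearGroup (Fin n) F) (NZ F n))) g
    rw [permChar_apply] at hπ
    rw [hπ, Finset.sum_apply]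
    have h1 : ∀ χ : IrrCharacter (Matrix.SpecialLinearGroup (Fin n) F),
        (classInner (permChar (Matrix.SpecialLinearGroup (Fin n) F) (NZ F n)) (χ : _ → ℂ) •
          (χ : Matrix.SpecialLinearGroup (Fin n) F → ℂ)) g
        = if m χ = 1 then (χ : Matrix.SpecialLinearGroup (Fin n) F → ℂ) g else 0 := by
      intro χ
      have h2 : classInner (permChar (Matrix.SpecialLinearGroup (Fin n) F) (NZ F n))
          (χ : _ → ℂ) = m χ := hm χ
      rw [Pi.smul_apply, h2]
      rcases hm01 χ with h | h <;> simp [h]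
    rw [Finset.sum_congr rfl (fun χ _ => h1 χ), ← Finset.sum_filter,
      ← Finset.add_sum_erase _ _ hmem]
    congr 1
    rw [← Finset.sum_coe_sort]
    exact (Equiv.sum_comp e (fun x => ((x : IrrCharacter (Matrix.SpecialLinearGroup (Fin n) F)) :
      Matrix.SpecialLinearGroup (Fin n) F → ℂ) g)).symm

end Cfsg.Agent.S2336
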