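import Cfsg.Statements.S2352
import Mathlib
-- import your own Cfsg.Agent.* helpers here

set_option autoImplicit false
open Cfsg

namespace Cfsg.Agent.S2352

open Classical in
/-- residual finiteness of the free group, through the partial action on the suffixes of a word -/
theorem resid (w : FreeGroup ℕ) (hw : w ≠ 1) :
    ∃ (B : Finset (FreeGroup ℕ)) (σ : ℕ → Equiv.Perm B), FreeGroup.lift σ w ≠ 1 := by
  obtain ⟨L, hL⟩ : ∃ L : List (ℕ × Bool), FreeGroup.mk L = w := ⟨w.toWord, FreeGroup.mk_toWord⟩
  let B : Finset (FreeGroup ℕ) := (L.tails.map FreeGroup.mk).toFinset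
  have hB : ∀ L' : List (ℕ × Bool), L' <:+ L → FreeGroup.mk L' ∈ B := by
    intro L' h
    rw [List.mem_toFinset, List.mem_map]
    exact ⟨L', (List.mem_tails _ _).mpr h, rfl⟩
  let e : ∀ i : ℕ, {x : B // FreeGroup.of i * x.1 ∈ B} ≃ {y : B // (FreeGroup.of i)⁻¹ * y.1 ∈ B} :=
    fun i =>
    { toFun := fun x => ⟨⟨FreeGroup.of i * x.1.1, x.2⟩, by
        show (FreeGroup.of i)⁻¹ * (FreeGroup.of i * x.1.1) ∈ B
        rw [inv_mul_cancel_left]; exact x.1.2⟩
      invFun := fun y => ⟨⟨(FreeGroup.of i)⁻¹ * y.1.1, y.2⟩, by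
        show FreeGroup.of i * ((FreeGroup.of i)⁻¹ * y.1.1) ∈ B
        rw [mul_inv_cancel_left]; exact y.1.2⟩
      left_inv := fun x => by
        apply Subtype.ext; apply Subtype.ext
        show (FreeGroup.of i)⁻¹ * (FreeGroup.of i * x.1.1) = x.1.1
        rw [inv_mul_cancel_left]
      right_inv := fun y => by
        apply Subtype.ext; apply Subtype.ext
        show FreeGroup.of i * ((FreeGroup.of i)⁻¹ * y.1.1) = y.1.1
        rw [mul_inv_cancel_left] }
  let σ : ℕ → Equiv.Perm B := fun i => (e i).extendSubtype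
  have hσ : ∀ (i : ℕ) (x : B) (hx : FreeGroup.of i * x.1 ∈ B), σ i x = ⟨FreeGroup.of i * x.1, hx⟩ := by
    intro i x hx
    have := (e i).extendSubtype_apply_of_mem x hx
    exact this
  have h1 : (1 : FreeGroup ℕ) ∈ B := hB [] (List.nil_suffix)
  have key : ∀ (L' : List (ℕ × Bool)) (h : L' <:+ L),
      FreeGroup.lift σ (FreeGroup.mk L') ⟨1, h1⟩ = ⟨FreeGroup.mk L', hB L' h⟩ := by
    intro L'
    induction L' with
    | nil =>
      intro h
      have : (FreeGroup.mk [] : FreeGroup ℕ) = 1 := rfl
      apply Subtype.ext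
      simp [this]
    | cons a L'' ih =>
      intro h
      have h'' : L'' <:+ L := (List.suffix_cons a L'').trans h
      have ih' := ih h''
      obtain ⟨i, b⟩ := a
      have hmul : (FreeGroup.mk ((i, b) :: L'') : FreeGroup ℕ) =
          FreeGroup.mk [(i, b)] * FreeGroup.mk L'' := by
        rw [FreeGroup.mul_mk]; rfl
      have hmem := hB _ h
      cases b with
      | true =>
        have hof : (FreeGroup.mk [(i, true)] : FreeGroup ℕ) = FreeGroup.of i := rfl
        rw [hof] at hmul
        have h3 : FreeGroup.lift σ (FreeGroup.mk ((i, true) :: L'')) ⟨1, h1⟩ =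
            σ i (FreeGroup.lift σ (FreeGroup.mk L'') ⟨1, h1⟩) := by
          rw [hmul, map_mul, FreeGroup.lift_apply_of]; rfl
        rw [h3, ih', hσ i _ (by rw [← hmul]; exact hmem)]
        exact Subtype.ext hmul.symm
      | false =>
        have hof : (FreeGroup.mk [(i, false)] : FreeGroup ℕ) = (FreeGroup.of i)⁻¹ := rfl
        rw [hof] at hmul
        have h3 : FreeGroup.lift σ (FreeGroup.mk ((i, false) :: L'')) ⟨1, h1⟩ =
            (σ i)⁻¹ (FreeGroup.lift σ (FreeGroup.mk L'') ⟨1, h1⟩) := by
          rw [hmul, map_mul, map_inv, FreeGroup.lift_apply_of]; rfl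
        rw [h3, ih', Equiv.Perm.inv_eq_iff_eq, hσ i _ (by
          show FreeGroup.of i * FreeGroup.mk ((i, false) :: L'') ∈ B
          rw [hmul, mul_inv_cancel_left]; exact hB _ h'')]
        apply Subtype.ext
        show FreeGroup.mk L'' = FreeGroup.of i * FreeGroup.mk ((i, false) :: L'')
        rw [hmul, mul_inv_cancel_left]
  refine ⟨B, σ, fun hcon => ?_⟩
  have h2 := congrArg Subtype.val (key L (List.suffix_refl L))
  simp only [hL, hcon] at h2
  exact hw h2.symm

/-- A non-trivial law holds in only finitely many alternating groups: for every non-trivial element w of the free group on countably many generators there is N such that for all n ≥ N some substitution of elements of the alternating group of degree n into w is not the identity. -/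
theorem result (w : FreeGroup ℕ) (hw : w ≠ 1) :
    ∃ N : ℕ, ∀ n : ℕ, N ≤ n → ∃ f : ℕ → alternatingGroup (Fin n), FreeGroup.lift f w ≠ 1 := by
  classical
  obtain ⟨B, σ, hσ⟩ := resid w hw
  refine ⟨2 * Fintype.card B, fun n hn => ?_⟩
  have hcard : Fintype.card (B ⊕ B) ≤ Fintype.card (Fin n) := by
    rw [Fintype.card_sum, Fintype.card_fin]; omega
  obtain ⟨ι⟩ := Function.Embedding.nonempty_of_card_le hcard
  let Ψ : Equiv.Perm B →* Equiv.Perm (Fin n) :=
    (Equiv.Perm.viaEmbeddingHom ι).comp
      ((Equiv.Perm.sumCongrHom B B).comp ((MonoidHom.id _).prod (MonoidHom.id _)))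
  have hΨinj : Function.Injective Ψ := by
    apply (Equiv.Perm.viaEmbeddingHom_injective ι).comp
    apply Equiv.Perm.sumCongrHom_injective.comp
    intro a b hab
    exact congrArg Prod.fst hab
  have hΨalt : ∀ τ, Ψ τ ∈ alternatingGroup (Fin n) := by
    intro τ
    rw [Equiv.Perm.mem_alternatingGroup]
    show Equiv.Perm.sign ((Equiv.Perm.sumCongr τ τ).viaEmbedding ι) = 1
    unfold Equiv.Perm.viaEmbedding
    rw [Equiv.Perm.sign_extendDomain, Equiv.Perm.sign_sumCongr]
    exact Int.units_mul_self _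
  let Ψ' : Equiv.Perm B →* alternatingGroup (Fin n) := Ψ.codRestrict _ hΨalt
  refine ⟨fun i => Ψ' (σ i), ?_⟩
  have hcomp : FreeGroup.lift (fun i => Ψ' (σ i)) = Ψ'.comp (FreeGroup.lift σ) := by
    apply FreeGroup.ext_hom
    intro i
    simp
  rw [hcomp]
  intro h
  apply hσ
  apply hΨinj
  rw [map_one]
  exact congrArg Subtype.val h

end Cfsg.Agent.S2352
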