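import Cfsg.Statements.S2394
import Cfsg.Agent.Lib.Helper12.SpCard
import Cfsg.Agent.S2904

set_option autoImplicit false
open scoped MatrixGroups
open Cfsg

namespace Cfsg.Agent.S2394


/-- The smallest degree of a faithful representation of the symplectic group `Sp_{2n}(q)` over its own field `F_q` is `2n`: every injective homomorphism from `Sp_{2n}(F)` to `GL_d(F)`, `F` the field with `q` elements, has `d ≥ 2n`. -/
theorem result {F : Type*} [Field F] [Fintype F] (n : ℕ) {d : ℕ}
    (ρ : ↥(Matrix.symplecticGroup (Fin n) F) →* GL (Fin d) F) (hρ : Function.Injective ρ) : 2 * n ≤ d := by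
  classical
  by_contra hlt
  push Not at hlt
  have hq : 1 < Fintype.card F := Fintype.one_lt_card
  have hdvd : Nat.card ↥(Matrix.symplecticGroup (Fin n) F) ∣ Nat.card (GL (Fin d) F) :=
    Subgroup.card_dvd_of_injective ρ hρ
  rw [Cfsg.Agent.Lib.Helper12.card_Sp rfl n, Matrix.card_GL_field] at hdvd
  set q := Fintype.card F with hqdef
  have hn : 1 ≤ n := by omega
  have hfac : q ^ (2 * n) - 1 ∣ ∏ i ∈ Finset.range n, (q ^ (2 * (i + 1)) - 1) := by
    have := Finset.dvd_prod_of_mem (fun i => q ^ (2 * (i + 1)) - 1)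
      (Finset.mem_range.mpr (show n - 1 < n by omega))
    have e : 2 * (n - 1 + 1) = 2 * n := by omega
    simp only [e] at this
    exact this
  have hfac2 : q ^ (2 * n) - 1 ∣ ∏ i : Fin d, (q ^ d - q ^ (i : ℕ)) :=
    (hfac.trans (Dvd.intro_left _ rfl)).trans hdvd
  have key : ∀ r : ℕ, r.Prime → r ∣ q ^ (2 * n) - 1 → ∃ k, 0 < k ∧ k < 2 * n ∧ r ∣ q ^ k - 1 := by
    intro r hr hrd
    obtain ⟨i, -, hi⟩ := (Nat.Prime.prime hr).exists_mem_finset_dvd (hrd.trans hfac2)
    have e : q ^ d - q ^ (i : ℕ) = q ^ (i : ℕ) * (q ^ (d - i) - 1) := by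
      rw [Nat.mul_sub, ← pow_add, mul_one, Nat.add_sub_cancel' i.2.le]
    rw [e] at hi
    rcases (Nat.Prime.dvd_mul hr).mp hi with h | h
    · exfalso
      have h1 : r ∣ q := hr.dvd_of_dvd_pow h
      have h2 : r ∣ q ^ (2 * n) := dvd_pow h1 (by omega)
      have h3 : 1 ≤ q ^ (2 * n) := Nat.one_le_pow _ _ (by omega)
      have h4 : r ∣ 1 := by
        have := (Nat.dvd_sub h2 hrd)
        rwa [Nat.sub_sub_self h3] at this
      exact hr.one_lt.ne' (Nat.dvd_one.mp h4)
    · exact ⟨d - i, by have := i.2; omega, by omega, h⟩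
  by_cases h1 : n = 1
  · subst h1
    have hd : d = 0 ∨ d = 1 := by omega
    have hpos : 0 < q ^ (2 * 1) - 1 := by
      have : 2 ^ 2 ≤ q ^ (2 * 1) := Nat.pow_le_pow_left hq 2
      omega
    rcases hd with rfl | rfl
    · simp at hfac2
      have : 2 ^ 2 ≤ q ^ 2 := Nat.pow_le_pow_left hq 2
      omega
    · simp at hfac2
      have h5 := Nat.le_of_dvd (by omega) hfac2
      have : q * 2 ≤ q ^ 2 := by rw [pow_two]; exact Nat.mul_le_mul_left _ hq
      omega
  · by_cases h6 : q = 2 ∧ 2 * n = 6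
    · obtain ⟨hq2, hn3⟩ := h6
      have hn3' : n = 3 := by omega
      subst hn3'
      rw [hq2] at hdvd
      have hd5 : d ≤ 5 := by omega
      interval_cases d <;> simp [Fin.prod_univ_succ, Finset.prod_range_succ] at hdvd <;> omega
    · obtain ⟨r, hr, hrd, hrk⟩ := Cfsg.Agent.S2904.result q (2 * n) hq (by omega) h6 (by
        rintro ⟨h, -⟩; omega)
      obtain ⟨k, hk0, hk, hkd⟩ := key r hr hrd
      exact hrk k hk0 hk hkd


end Cfsg.Agent.S2394
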