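import Cfsg.Statements.S2450
import Cfsg.Agent.Lib.Helper12.SL2Prod

set_option autoImplicit false
open Cfsg

namespace Cfsg.Agent.S2450

open Matrix Cfsg.Agent.Lib.Helper12
open scoped MatrixGroups

section
variable {F : Type*} [Field F]

theorem exists_conj_ll (A : SL(2, F)) (hA : ¬ IsScal2 (A : Matrix (Fin 2) (Fin 2) F)) :
    ∃ r : SL(2, F), (r * A * r⁻¹) 1 0 ≠ 0 := by
  by_cases h10 : A 1 0 = 0
  · by_cases h01 : A 0 1 = 0
    · have hne : A 0 0 ≠ A 1 1 := fun h => hA ⟨h01, h10, h⟩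
      refine ⟨tL 1, ?_⟩
      rw [sl2_mul_10, sl2_mul_10, sl2_mul_11, sl2_inv_00, sl2_inv_10, tL_10, tL_11, h10, h01]
      intro h
      apply hne
      linear_combination h
    · have hdet : (!![0, -1; 1, 0] : Matrix (Fin 2) (Fin 2) F).det = 1 := by
        rw [Matrix.det_fin_two_of]
        ring
      obtain ⟨w, e10, e11⟩ : ∃ w : SL(2, F), w 1 0 = 1 ∧ w 1 1 = 0 :=
        ⟨(⟨!![0, -1; 1, 0], hdet⟩ : SL(2, F)), rfl, rfl⟩
      refine ⟨w, ?_⟩
      rw [sl2_mul_10, sl2_mul_10, sl2_mul_11, sl2_inv_00, sl2_inv_10]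
      rw [e10, e11]
      intro h
      apply h01
      linear_combination -h
  · exact ⟨1, by simpa using h10⟩

theorem trace_formula (A B : SL(2, F)) (l : F) :
    ((tU l * A * (tU l)⁻¹ * B : SL(2, F)) : Matrix (Fin 2) (Fin 2) F).trace =
      ((A * B : SL(2, F)) : Matrix (Fin 2) (Fin 2) F).trace +
        (A 1 0 * (B 0 0 - B 1 1) + (A 1 1 - A 0 0) * B 1 0) * l - (A 1 0 * B 1 0) * l ^ 2 := by
  rw [Matrix.trace_fin_two, Matrix.trace_fin_two]
  show (tU l * A * (tU l)⁻¹ * B) 0 0 + (tU l * A * (tU l)⁻¹ * B) 1 1 = (A * B) 0 0 + (A * B) 1 1 + _ - _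
  simp only [sl2_mul_00, sl2_mul_01, sl2_mul_10, sl2_mul_11, sl2_inv_00, sl2_inv_01, sl2_inv_10,
    sl2_inv_11, tU_00, tU_01, tU_10, tU_11]
  ring

theorem trace_of_isConj (C Y : SL(2, F))
    (h : IsConj (QuotientGroup.mk' (Subgroup.center SL(2, F)) C)
      (QuotientGroup.mk' (Subgroup.center SL(2, F)) Y)) :
    (Y : Matrix (Fin 2) (Fin 2) F).trace = (C : Matrix (Fin 2) (Fin 2) F).trace ∨
      (Y : Matrix (Fin 2) (Fin 2) F).trace = -(C : Matrix (Fin 2) (Fin 2) F).trace := by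
  obtain ⟨u, hu⟩ := isConj_iff.mp h
  obtain ⟨U, rfl⟩ := QuotientGroup.mk'_surjective _ u
  rw [← map_inv, ← map_mul, ← map_mul] at hu
  rcases (Cfsg.Agent.Lib.Helper27.PSL2.mk_eq_iff (U * C * U⁻¹) Y).mp hu with h1 | h1
  · left
    rw [← h1, Cfsg.Agent.Lib.Helper12.trace_conj]
  · right
    have h2 : Y = -(U * C * U⁻¹) := by rw [h1, neg_neg]
    rw [h2, Matrix.SpecialLinearGroup.coe_neg, Matrix.trace_neg, Cfsg.Agent.Lib.Helper12.trace_conj]

theorem card_quad_le [Fintype F] [DecidableEq F] (τ₀ β γ e : F) (hγ : γ ≠ 0) :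
    (Finset.univ.filter (fun l : F => τ₀ + β * l - γ * l ^ 2 = e)).card ≤ 2 := by
  set P : Polynomial F := Polynomial.C (-γ) * Polynomial.X ^ 2 + Polynomial.C β * Polynomial.X +
    Polynomial.C (τ₀ - e) with hP
  have hγ' : -γ ≠ 0 := neg_ne_zero.mpr hγ
  have hdeg : P.natDegree = 2 := Polynomial.natDegree_quadratic hγ'
  have hP0 : P ≠ 0 := by
    intro h
    rw [h] at hdeg
    simp at hdeg
  have hsub : Finset.univ.filter (fun l : F => τ₀ + β * l - γ * l ^ 2 = e) ⊆ P.roots.toFinset := by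
    intro l hl
    rw [Finset.mem_filter] at hl
    rw [Multiset.mem_toFinset, Polynomial.mem_roots hP0, Polynomial.IsRoot.def, hP]
    simp
    linear_combination hl.2
  calc _ ≤ P.roots.toFinset.card := Finset.card_le_card hsub
    _ ≤ Multiset.card P.roots := Multiset.toFinset_card_le _
    _ ≤ P.natDegree := Polynomial.card_roots' P
    _ = 2 := hdeg

theorem quad_not_pm_const [Fintype F] (h4 : 4 ≤ Fintype.card F) (τ₀ β γ τ : F) (hγ : γ ≠ 0) :
    ∃ l : F, τ₀ + β * l - γ * l ^ 2 ≠ τ ∧ τ₀ + β * l - γ * l ^ 2 ≠ -τ := by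
  classical
  by_contra hcon
  push Not at hcon
  have h1 := card_quad_le τ₀ β γ τ hγ
  have h2 := card_quad_le τ₀ β γ (-τ) hγ
  have hsub : (Finset.univ : Finset F) ⊆ Finset.univ.filter (fun l : F => τ₀ + β * l - γ * l ^ 2 = τ) ∪
      Finset.univ.filter (fun l : F => τ₀ + β * l - γ * l ^ 2 = -τ) := by
    intro l _
    rw [Finset.mem_union, Finset.mem_filter, Finset.mem_filter]
    by_cases h : τ₀ + β * l - γ * l ^ 2 = τ
    · left; exact ⟨Finset.mem_univ _, h⟩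
    · right; exact ⟨Finset.mem_univ _, hcon l h⟩
  have h3 := Finset.card_le_card hsub
  have h5 := Finset.card_union_le (Finset.univ.filter (fun l : F => τ₀ + β * l - γ * l ^ 2 = τ))
    (Finset.univ.filter (fun l : F => τ₀ + β * l - γ * l ^ 2 = -τ))
  rw [Finset.card_univ] at h3
  have hq : Fintype.card F = 4 := by omega
  haveI : CharP F 2 := ringChar.of_eq (FiniteField.even_card_iff_char_two.mpr (by omega))
  have hneg : -τ = τ := CharTwo.neg_eq τ
  rw [hneg, Finset.union_self] at h3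
  omega

end

/-- The Arad–Herzog conjecture for PSL(2,q): let F be a finite field with q ≥ 4 elements. For any two non-identity elements a, b of PSL(2,F), the set of products of a conjugate of a with a conjugate of b is not a single conjugacy class. -/
theorem result {F : Type*} [Field F] [Fintype F] (h4 : 4 ≤ Fintype.card F)
    (a b : Matrix.ProjectiveSpecialLinearGroup (Fin 2) F) (ha : a ≠ 1) (hb : b ≠ 1) (c : Matrix.ProjectiveSpecialLinearGroup (Fin 2) F) :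
    {g : Matrix.ProjectiveSpecialLinearGroup (Fin 2) F | ∃ u v : Matrix.ProjectiveSpecialLinearGroup (Fin 2) F, g = (u * a * u⁻¹) * (v * b * v⁻¹)} ≠ {g | IsConj c g} := by
  classical
  intro hEq
  obtain ⟨A, rfl⟩ := QuotientGroup.mk'_surjective (Subgroup.center SL(2, F)) a
  obtain ⟨B, rfl⟩ := QuotientGroup.mk'_surjective (Subgroup.center SL(2, F)) b
  obtain ⟨C, rfl⟩ := QuotientGroup.mk'_surjective (Subgroup.center SL(2, F)) c
  have hAns : ¬ IsScal2 (A : Matrix (Fin 2) (Fin 2) F) := by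
    intro hs
    apply ha
    exact (QuotientGroup.eq_one_iff _).mpr (mem_center_of_isScal2 A hs)
  have hBns : ¬ IsScal2 (B : Matrix (Fin 2) (Fin 2) F) := by
    intro hs
    apply hb
    exact (QuotientGroup.eq_one_iff _).mpr (mem_center_of_isScal2 B hs)
  obtain ⟨r₁, hr₁⟩ := exists_conj_ll A hAns
  obtain ⟨r₂, hr₂⟩ := exists_conj_ll B hBns
  obtain ⟨l, h1, h2⟩ := quad_not_pm_const h4
    (((r₁ * A * r₁⁻¹) * (r₂ * B * r₂⁻¹) : SL(2, F)) : Matrix (Fin 2) (Fin 2) F).trace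
    ((r₁ * A * r₁⁻¹) 1 0 * ((r₂ * B * r₂⁻¹) 0 0 - (r₂ * B * r₂⁻¹) 1 1) +
      ((r₁ * A * r₁⁻¹) 1 1 - (r₁ * A * r₁⁻¹) 0 0) * (r₂ * B * r₂⁻¹) 1 0)
    ((r₁ * A * r₁⁻¹) 1 0 * (r₂ * B * r₂⁻¹) 1 0) (C : Matrix (Fin 2) (Fin 2) F).trace
    (mul_ne_zero hr₁ hr₂)
  rw [← trace_formula] at h1 h2
  have hmem : QuotientGroup.mk' (Subgroup.center SL(2, F))
      (tU l * (r₁ * A * r₁⁻¹) * (tU l)⁻¹ * (r₂ * B * r₂⁻¹)) ∈
      {g : Matrix.ProjectiveSpecialLinearGroup (Fin 2) F | ∃ u v : Matrix.ProjectiveSpecialLinearGroup (Fin 2) F,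
        g = (u * (QuotientGroup.mk' (Subgroup.center SL(2, F)) A) * u⁻¹) *
          (v * (QuotientGroup.mk' (Subgroup.center SL(2, F)) B) * v⁻¹)} := by
    refine ⟨QuotientGroup.mk' _ (tU l * r₁), QuotientGroup.mk' _ r₂, ?_⟩
    simp only [map_mul, map_inv, _root_.mul_inv_rev, mul_assoc]
  rw [hEq] at hmem
  rcases trace_of_isConj C _ hmem with h | h
  · exact h1 h
  · exact h2 h


end Cfsg.Agent.S2450
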