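import Cfsg.Statements.S2455
import Cfsg.Agent.Lib.Helper12.SL2Prod

set_option autoImplicit false
open Cfsg

namespace Cfsg.Agent.S2455

open Matrix Cfsg.Agent.Lib.Helper12
open scoped MatrixGroups

/-- A strong covering result in the direction of Thompson's conjecture (non-identity elements) for PSL(2,q), q odd: let F be a finite field of odd characteristic p with at least 5 elements and let x ∈ PSL(2,F) have order greater than 2 and not divisible by p (so x is not unipotent). Then every non-identity element of PSL(2,F) is a product of two conjugates of x. -/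
theorem result {F : Type*} [Field F] [Fintype F] (p : ℕ) [Fact p.Prime] [CharP F p] (hp : p ≠ 2) (h5 : 5 ≤ Fintype.card F)
    (x : Matrix.ProjectiveSpecialLinearGroup (Fin 2) F) (hx2 : 2 < orderOf x) (hxp : ¬ p ∣ orderOf x) : ∀ g : Matrix.ProjectiveSpecialLinearGroup (Fin 2) F, g ≠ 1 → ∃ u v : Matrix.ProjectiveSpecialLinearGroup (Fin 2) F, g = (u * x * u⁻¹) * (v * x * v⁻¹) := by
  classical
  intro g hg
  have hpp : p.Prime := Fact.out
  have hodd : Fintype.card F % 2 = 1 := by
    by_contra hcon
    have h3 : ringChar F = 2 := FiniteField.even_card_iff_char_two.mpr (by omega)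
    rw [ringChar.eq F p] at h3
    exact hp h3
  have h2 : (2 : F) ≠ 0 := Cfsg.Agent.Lib.Helper14.SL2.two_ne_zero_of_odd hodd
  obtain ⟨X, rfl⟩ := QuotientGroup.mk'_surjective (Subgroup.center SL(2, F)) x
  obtain ⟨G, rfl⟩ := QuotientGroup.mk'_surjective (Subgroup.center SL(2, F)) g
  have ht4 : (X : Matrix (Fin 2) (Fin 2) F).trace ^ 2 ≠ 4 := by
    intro h4
    have ha2 : ((X : Matrix (Fin 2) (Fin 2) F).trace / 2) ^ 2 = 1 := by
      field_simp
      linear_combination h4
    have hc := pow_char_mem_center p X _ ha2 (by field_simp)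
    have h1 : (QuotientGroup.mk' (Subgroup.center SL(2, F)) X) ^ p = 1 := by
      rw [← map_pow]
      exact (QuotientGroup.eq_one_iff _).mpr hc
    rcases (Nat.dvd_prime hpp).mp (orderOf_dvd_of_pow_eq_one h1) with h | h
    · omega
    · exact hxp (h ▸ dvd_refl _)
  have ht0 : (X : Matrix (Fin 2) (Fin 2) F).trace ≠ 0 := by
    intro h0
    have h1 := sl2_cayley X
    rw [h0, zero_smul, zero_sub] at h1
    have h3 : (QuotientGroup.mk' (Subgroup.center SL(2, F)) X) ^ 2 = 1 := by
      rw [← map_pow]
      apply (QuotientGroup.eq_one_iff _).mpr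
      apply mem_center_of_isScal2
      rw [pow_two, Matrix.SpecialLinearGroup.coe_mul, h1]
      refine ⟨by simp, by simp, by simp⟩
    have := Nat.le_of_dvd (by norm_num) (orderOf_dvd_of_pow_eq_one h3)
    omega
  have hGns : ¬ IsScal2 (G : Matrix (Fin 2) (Fin 2) F) := by
    intro hs
    apply hg
    exact (QuotientGroup.eq_one_iff _).mpr (mem_center_of_isScal2 G hs)
  obtain ⟨G', hG', hns', hs2⟩ : ∃ G' : SL(2, F), QuotientGroup.mk' (Subgroup.center SL(2, F)) G' =
      QuotientGroup.mk' (Subgroup.center SL(2, F)) G ∧ ¬ IsScal2 (G' : Matrix (Fin 2) (Fin 2) F) ∧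
      (G' : Matrix (Fin 2) (Fin 2) F).trace ≠ 2 := by
    by_cases hs : (G : Matrix (Fin 2) (Fin 2) F).trace = 2
    · refine ⟨-G, ?_, ?_, ?_⟩
      · exact (Cfsg.Agent.Lib.Helper27.PSL2.mk_eq_iff (-G) G).mpr (Or.inr rfl)
      · rintro ⟨h1, h3, h4⟩
        apply hGns
        rw [Matrix.SpecialLinearGroup.coe_neg] at h1 h3 h4
        simp only [Matrix.neg_apply, neg_eq_zero, neg_inj] at h1 h3 h4
        exact ⟨h1, h3, h4⟩
      · rw [Matrix.SpecialLinearGroup.coe_neg, Matrix.trace_neg, hs]
        intro h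
        apply h2
        have : (2 : F) * 2 = 0 := by linear_combination -h
        exact (mul_eq_zero.mp this).elim id id
    · exact ⟨G, rfl, hGns, hs⟩
  obtain ⟨a, c, hac⟩ : ∃ a c : F, a ^ 2 + (G' : Matrix (Fin 2) (Fin 2) F).trace * a * c + c ^ 2 -
      (X : Matrix (Fin 2) (Fin 2) F).trace * (a + c) + 1 = 0 := by
    by_cases hs : (G' : Matrix (Fin 2) (Fin 2) F).trace = -2
    · refine ⟨1 / (2 * (X : Matrix (Fin 2) (Fin 2) F).trace),
        1 / (2 * (X : Matrix (Fin 2) (Fin 2) F).trace), ?_⟩
      rw [hs]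
      field_simp
      ring
    · apply exists_param_generic
      · intro h
        apply hs
        linear_combination h
      · intro _ h
        have h3 : ((G' : Matrix (Fin 2) (Fin 2) F).trace - 2) *
            ((G' : Matrix (Fin 2) (Fin 2) F).trace + 2) = 0 := by linear_combination h
        rcases mul_eq_zero.mp h3 with h4 | h4
        · exact hs2 (by linear_combination h4)
        · exact hs (by linear_combination h4)
  obtain ⟨A, B, htA, htB, hAB⟩ := exists_factor G' hns' _ a c hac
  obtain ⟨u, hu⟩ := isConj_iff.mp (isConj_of_trace_eq hodd X A htA.symm ht4)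
  obtain ⟨v, hv⟩ := isConj_iff.mp (isConj_of_trace_eq hodd X B htB.symm ht4)
  refine ⟨QuotientGroup.mk' _ u, QuotientGroup.mk' _ v, ?_⟩
  rw [← hG', ← hAB, ← hu, ← hv]
  simp only [map_mul, map_inv]


end Cfsg.Agent.S2455
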