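import Cfsg.Statements.S2456
import Cfsg.Agent.Lib.Helper12.SL2Prod

set_option autoImplicit false
open Cfsg

namespace Cfsg.Agent.S2456

open Matrix Cfsg.Agent.Lib.Helper12
open scoped MatrixGroups

/-- A strong covering result in the direction of Thompson's conjecture (non-identity elements) for PSL(2,q), q even: let F be a finite field of characteristic 2 with q ≥ 4 elements and let x ∈ PSL(2,F) have order greater than 2 and not dividing q + 1. Then every non-identity element of PSL(2,F) is a product of two conjugates of x. -/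
theorem result {F : Type*} [Field F] [Fintype F] [CharP F 2] (h4 : 4 ≤ Fintype.card F)
    (x : Matrix.ProjectiveSpecialLinearGroup (Fin 2) F) (hx2 : 2 < orderOf x) (hxq : ¬ orderOf x ∣ Fintype.card F + 1) : ∀ g : Matrix.ProjectiveSpecialLinearGroup (Fin 2) F, g ≠ 1 → ∃ u v : Matrix.ProjectiveSpecialLinearGroup (Fin 2) F, g = (u * x * u⁻¹) * (v * x * v⁻¹) := by
  classical
  intro g hg
  have h2 : (2 : F) = 0 := CharTwo.two_eq_zero
  obtain ⟨X, rfl⟩ := QuotientGroup.mk'_surjective (Subgroup.center SL(2, F)) x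
  obtain ⟨G, rfl⟩ := QuotientGroup.mk'_surjective (Subgroup.center SL(2, F)) g
  have ht0 : (X : Matrix (Fin 2) (Fin 2) F).trace ≠ 0 := by
    intro h0
    haveI : Fact (Nat.Prime 2) := ⟨Nat.prime_two⟩
    have hc := pow_char_mem_center 2 X 1 (one_pow 2) (by rw [h0, h2, zero_mul])
    have h1 : (QuotientGroup.mk' (Subgroup.center SL(2, F)) X) ^ 2 = 1 := by
      rw [← map_pow]
      exact (QuotientGroup.eq_one_iff _).mpr hc
    have := Nat.le_of_dvd (by norm_num) (orderOf_dvd_of_pow_eq_one h1)
    omega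
  obtain ⟨σ, hσ⟩ : ∃ a : F, a ^ 2 - (X : Matrix (Fin 2) (Fin 2) F).trace * a + 1 = 0 := by
    by_contra hcon
    push Not at hcon
    apply hxq
    rw [← (centralizer_SL2_irred X (no_eigen_of_no_root X hcon)).2]
    exact (orderOf_map_dvd _ X).trans (orderOf_dvd_card_centralizer X)
  have hGns : ¬ IsScal2 (G : Matrix (Fin 2) (Fin 2) F) := by
    intro hs
    apply hg
    exact (QuotientGroup.eq_one_iff _).mpr (mem_center_of_isScal2 G hs)
  obtain ⟨A, B, htA, htB, hAB⟩ := exists_factor G hGns (X : Matrix (Fin 2) (Fin 2) F).trace σ 0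
    (by linear_combination hσ)
  obtain ⟨u, hu⟩ := isConj_iff.mp (isConj_of_trace_eq_charTwo X A htA.symm ht0)
  obtain ⟨v, hv⟩ := isConj_iff.mp (isConj_of_trace_eq_charTwo X B htB.symm ht0)
  refine ⟨QuotientGroup.mk' _ u, QuotientGroup.mk' _ v, ?_⟩
  rw [← hAB, ← hu, ← hv]
  simp only [map_mul, map_inv]


end Cfsg.Agent.S2456
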