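import Cfsg.Statements.S2466
import Mathlib
import Cfsg.Agent.Lib.Helper21.CycleT

set_option autoImplicit false
open Cfsg

namespace Cfsg.Agent.S2466

/-- Adjacency of odd primes in the prime graph of the alternating groups: let r ≠ s be odd primes at most n. The alternating group of degree n has an element of order r·s if and only if r + s ≤ n. -/
theorem result (n r s : ℕ) (hr : r.Prime) (hs : s.Prime) (hr2 : r ≠ 2) (hs2 : s ≠ 2) (hrs : r ≠ s) (hrn : r ≤ n) (hsn : s ≤ n) :
    (r * s ∈ Set.range (orderOf : alternatingGroup (Fin n) → ℕ)) ↔ r + s ≤ n := by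
  have hr3 : 3 ≤ r := by
    have := hr.two_le
    omega
  have hs3 : 3 ≤ s := by
    have := hs.two_le
    omega
  have hrodd : Odd r := hr.odd_of_ne_two hr2
  have hsodd : Odd s := hs.odd_of_ne_two hs2
  have hcop : Nat.Coprime r s := (Nat.coprime_primes hr hs).2 hrs
  constructor
  · rintro ⟨⟨g, hg⟩, hord⟩
    have hord' : orderOf g = r * s := by
      rw [← hord]; exact (Subgroup.orderOf_mk g hg).symm
    have hl : g.cycleType.lcm = r * s := by rw [Equiv.Perm.lcm_cycleType, hord']
    obtain ⟨a, ha, hra⟩ := Cfsg.Agent.Lib.Helper21.prime_dvd_multiset_lcm hr g.cycleType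
      (by rw [hl]; exact dvd_mul_right r s)
    obtain ⟨b, hb, hsb⟩ := Cfsg.Agent.Lib.Helper21.prime_dvd_multiset_lcm hs g.cycleType
      (by rw [hl]; exact dvd_mul_left s r)
    have hsum : g.cycleType.sum ≤ n := by
      have := Equiv.Perm.sum_cycleType_le g
      simpa using this
    have ha2 : 2 ≤ a := Equiv.Perm.two_le_of_mem_cycleType ha
    have hb2 : 2 ≤ b := Equiv.Perm.two_le_of_mem_cycleType hb
    by_cases hab : a = b
    · subst hab
      have h1 : r * s ∣ a := hcop.mul_dvd_of_dvd_of_dvd hra hsb
      have h2 : r * s ≤ a := Nat.le_of_dvd (by omega) h1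
      have h3 : a ≤ g.cycleType.sum := Multiset.le_sum_of_mem ha
      nlinarith
    · have h1 := Cfsg.Agent.Lib.Helper21.add_le_sum_of_mem ha hb hab
      have h2 : r ≤ a := Nat.le_of_dvd (by omega) hra
      have h3 : s ≤ b := Nat.le_of_dvd (by omega) hsb
      omega
  · intro h
    obtain ⟨g, hg⟩ := (Equiv.Perm.exists_with_cycleType_iff (Fin n) (m := {r, s})).2 ⟨by
      simpa using h, by
      intro a ha
      simp only [Multiset.insert_eq_cons, Multiset.mem_cons, Multiset.mem_singleton] at ha
      rcases ha with rfl | rfl <;> omega⟩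
    have hsign : Equiv.Perm.sign g = 1 := by
      rw [Equiv.Perm.sign_of_cycleType, hg]
      have : Even (({r, s} : Multiset ℕ).sum + Multiset.card ({r, s} : Multiset ℕ)) := by
        have h1 : ({r, s} : Multiset ℕ).sum = r + s := by simp
        have h2 : Multiset.card ({r, s} : Multiset ℕ) = 2 := by simp
        rw [h1, h2]
        exact (hrodd.add_odd hsodd).add even_two
      exact this.neg_one_pow
    refine ⟨⟨g, Equiv.Perm.mem_alternatingGroup.2 hsign⟩, ?_⟩
    rw [Subgroup.orderOf_mk, ← Equiv.Perm.lcm_cycleType, hg]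
    have : ({r, s} : Multiset ℕ).lcm = Nat.lcm r s := by
      simp [Multiset.insert_eq_cons, Multiset.lcm_cons, Multiset.lcm_singleton]
      rfl
    rw [this, hcop.lcm_eq_mul]

end Cfsg.Agent.S2466
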