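import Cfsg.Statements.S2467
import Mathlib
import Cfsg.Agent.Lib.Helper21.CycleT

set_option autoImplicit false
open Cfsg

namespace Cfsg.Agent.S2467

/-- Adjacency of 2 and an odd prime in the prime graph of the alternating groups: let r be an odd prime at most n, with n ≥ 4. The alternating group of degree n has an element of order 2r if and only if r + 4 ≤ n. -/
theorem result (n r : ℕ) (hn : 4 ≤ n) (hr : r.Prime) (hr2 : r ≠ 2) (hrn : r ≤ n) :
    (2 * r ∈ Set.range (orderOf : alternatingGroup (Fin n) → ℕ)) ↔ r + 4 ≤ n := by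
  have hr3 : 3 ≤ r := by
    have := hr.two_le
    omega
  have hrodd : Odd r := hr.odd_of_ne_two hr2
  have hcop : Nat.Coprime 2 r := (Nat.coprime_primes Nat.prime_two hr).2 (Ne.symm hr2)
  constructor
  · rintro ⟨⟨g, hg⟩, hord⟩
    have hord' : orderOf g = 2 * r := by
      rw [← hord]; exact (Subgroup.orderOf_mk g hg).symm
    have hl : g.cycleType.lcm = 2 * r := by rw [Equiv.Perm.lcm_cycleType, hord']
    obtain ⟨a, ha, hra⟩ := Cfsg.Agent.Lib.Helper21.prime_dvd_multiset_lcm hr g.cycleType
      (by rw [hl]; exact dvd_mul_left r 2)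
    obtain ⟨b, hb, h2b⟩ := Cfsg.Agent.Lib.Helper21.prime_dvd_multiset_lcm Nat.prime_two g.cycleType
      (by rw [hl]; exact dvd_mul_right 2 r)
    have hsum : g.cycleType.sum ≤ n := by
      have := Equiv.Perm.sum_cycleType_le g
      simpa using this
    have hge : ∀ x ∈ g.cycleType, 2 ≤ x := fun x hx => Equiv.Perm.two_le_of_mem_cycleType hx
    have hev := Cfsg.Agent.Lib.Helper21.even_sum_add_card_of_sign g
      (Equiv.Perm.mem_alternatingGroup.1 hg)
    generalize g.cycleType = m at ha hb hsum hge hev
    have ha2 : 2 ≤ a := hge a ha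
    have hra' : r ≤ a := Nat.le_of_dvd (by omega) hra
    obtain ⟨t, rfl⟩ := Multiset.exists_cons_of_mem ha
    rw [Multiset.sum_cons, Multiset.card_cons] at hev
    rw [Multiset.sum_cons] at hsum
    by_cases hae : Even a
    · have h1 : 2 * r ∣ a := hcop.mul_dvd_of_dvd_of_dvd hae.two_dvd hra
      have h2 : 2 * r ≤ a := Nat.le_of_dvd (by omega) h1
      have h3 : ¬ Even (t.sum + Multiset.card t) := by
        intro h4
        have h5 : a + t.sum + (Multiset.card t + 1) = (a + (t.sum + Multiset.card t)) + 1 := by ring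
        rw [h5] at hev
        exact (Nat.not_even_iff_odd.2 ((hae.add h4).add_one)) hev
      obtain ⟨x, hx, _⟩ := Cfsg.Agent.Lib.Helper21.exists_even_of_odd_sum_add_card t h3
      have h6 : 2 ≤ x := hge x (Multiset.mem_cons_of_mem hx)
      have h7 : x ≤ t.sum := Multiset.le_sum_of_mem hx
      omega
    · have hao : Odd a := Nat.not_even_iff_odd.1 hae
      have hbe : Even b := (even_iff_two_dvd).2 h2b
      have hbt : b ∈ t := by
        rcases Multiset.mem_cons.1 hb with h | h
        · rw [h] at hbe; exact absurd hbe hae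
        · exact h
      obtain ⟨u, rfl⟩ := Multiset.exists_cons_of_mem hbt
      rw [Multiset.sum_cons, Multiset.card_cons] at hev
      rw [Multiset.sum_cons] at hsum
      have h3 : ¬ Even (u.sum + Multiset.card u) := by
        intro h4
        have h5 : a + (b + u.sum) + (Multiset.card u + 1 + 1) =
            ((a + 1) + b + (u.sum + Multiset.card u)) + 1 := by ring
        rw [h5] at hev
        exact (Nat.not_even_iff_odd.2 (((hao.add_one).add hbe).add h4).add_one) hev
      obtain ⟨x, hx, _⟩ := Cfsg.Agent.Lib.Helper21.exists_even_of_odd_sum_add_card u h3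
      have h6 : 2 ≤ x := hge x (Multiset.mem_cons_of_mem (Multiset.mem_cons_of_mem hx))
      have h7 : x ≤ u.sum := Multiset.le_sum_of_mem hx
      have h8 : 2 ≤ b := hge b (Multiset.mem_cons_of_mem (Multiset.mem_cons_self b u))
      omega
  · intro h
    obtain ⟨g, hg⟩ := (Equiv.Perm.exists_with_cycleType_iff (Fin n) (m := {r, 2, 2})).2 ⟨by
      have : ({r, 2, 2} : Multiset ℕ).sum = r + 4 := by simp
      rw [this]; simpa using h, by
      intro a ha
      simp only [Multiset.insert_eq_cons, Multiset.mem_cons, Multiset.mem_singleton] at ha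
      rcases ha with rfl | rfl | rfl <;> omega⟩
    have hsign : Equiv.Perm.sign g = 1 := by
      rw [Equiv.Perm.sign_of_cycleType, hg]
      have : Even (({r, 2, 2} : Multiset ℕ).sum + Multiset.card ({r, 2, 2} : Multiset ℕ)) := by
        have h1 : ({r, 2, 2} : Multiset ℕ).sum = r + 4 := by simp
        have h2 : Multiset.card ({r, 2, 2} : Multiset ℕ) = 3 := by simp
        rw [h1, h2]
        obtain ⟨k, hk⟩ := hrodd
        exact ⟨k + 4, by omega⟩
      exact this.neg_one_pow
    refine ⟨⟨g, Equiv.Perm.mem_alternatingGroup.2 hsign⟩, ?_⟩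
    rw [Subgroup.orderOf_mk, ← Equiv.Perm.lcm_cycleType, hg]
    have : ({r, 2, 2} : Multiset ℕ).lcm = Nat.lcm r 2 := by
      simp [Multiset.insert_eq_cons, Multiset.lcm_cons, Multiset.lcm_singleton]
      rfl
    rw [this, hcop.symm.lcm_eq_mul, mul_comm]

end Cfsg.Agent.S2467
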