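import Cfsg.Statements.S2485
import Mathlib

set_option autoImplicit false
open scoped Pointwise
open Cfsg

namespace Cfsg.Agent.S2485

open Matrix

variable {q : ℕ} [Fact q.Prime]

theorem mk_eq_of_smul (A B : GL (Fin 2) (ZMod q)) (c : ZMod q)
    (h : (A : Matrix (Fin 2) (Fin 2) (ZMod q)) = c • (B : Matrix (Fin 2) (Fin 2) (ZMod q))) :
    (QuotientGroup.mk A : GL (Fin 2) (ZMod q) ⧸ Subgroup.center (GL (Fin 2) (ZMod q)))
      = QuotientGroup.mk B := by
  symm
  rw [QuotientGroup.eq, GeneralLinearGroup.mem_center_iff_val_mem_range_scalar]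
  refine ⟨c, ?_⟩
  rw [Units.val_mul, h, Matrix.mul_smul, Units.inv_mul, Matrix.scalar_apply,
    Matrix.smul_one_eq_diagonal]

theorem exists_smul_of_mk_eq (A B : GL (Fin 2) (ZMod q))
    (h : (QuotientGroup.mk A : GL (Fin 2) (ZMod q) ⧸ Subgroup.center (GL (Fin 2) (ZMod q)))
      = QuotientGroup.mk B) :
    ∃ c : ZMod q, (B : Matrix (Fin 2) (Fin 2) (ZMod q)) = c • (A : Matrix (Fin 2) (Fin 2) (ZMod q)) := by
  rw [QuotientGroup.eq, GeneralLinearGroup.mem_center_iff_val_mem_range_scalar] at h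
  obtain ⟨c, hc⟩ := h
  refine ⟨c, ?_⟩
  have h1 : (A : Matrix (Fin 2) (Fin 2) (ZMod q)) * ((A⁻¹ * B : GL (Fin 2) (ZMod q)) :
      Matrix (Fin 2) (Fin 2) (ZMod q)) = B := by
    rw [← Units.val_mul, mul_inv_cancel_left]
  rw [← h1, ← hc, Matrix.scalar_apply, ← Matrix.smul_one_eq_diagonal, Matrix.mul_smul, mul_one]

theorem commute_of_anti (g z : GL (Fin 2) (ZMod q)) (c : ZMod q)
    (h : (g : Matrix (Fin 2) (Fin 2) (ZMod q)) * (z : Matrix (Fin 2) (Fin 2) (ZMod q))
      = c • ((z : Matrix (Fin 2) (Fin 2) (ZMod q)) * (g : Matrix (Fin 2) (Fin 2) (ZMod q)))) :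
    Commute (QuotientGroup.mk g : GL (Fin 2) (ZMod q) ⧸ Subgroup.center (GL (Fin 2) (ZMod q)))
      (QuotientGroup.mk z) := by
  show _ * _ = _ * _
  rw [← QuotientGroup.mk_mul, ← QuotientGroup.mk_mul]
  exact mk_eq_of_smul _ _ c (by rw [Units.val_mul, Units.val_mul, h])

theorem anti_of_commute (g z : GL (Fin 2) (ZMod q))
    (h : Commute (QuotientGroup.mk g : GL (Fin 2) (ZMod q) ⧸ Subgroup.center (GL (Fin 2) (ZMod q)))
      (QuotientGroup.mk z)) :
    ∃ c : ZMod q, (z : Matrix (Fin 2) (Fin 2) (ZMod q)) * (g : Matrix (Fin 2) (Fin 2) (ZMod q))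
      = c • ((g : Matrix (Fin 2) (Fin 2) (ZMod q)) * (z : Matrix (Fin 2) (Fin 2) (ZMod q))) := by
  have h' := h.eq
  rw [← QuotientGroup.mk_mul, ← QuotientGroup.mk_mul] at h'
  obtain ⟨c, hc⟩ := exists_smul_of_mk_eq _ _ h'
  exact ⟨c, by rw [← Units.val_mul, ← Units.val_mul, hc]⟩

theorem mem_conj_centralizer {G : Type*} [Group G] (x z g : G) (h : Commute g (x * z * x⁻¹)) :
    g ∈ MulAut.conj x • Subgroup.centralizer {z} := by
  rw [Subgroup.mem_pointwise_smul_iff_inv_smul_mem, Subgroup.mem_centralizer_singleton_iff]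
  have := congrArg (fun t => x⁻¹ * t * x) h.eq
  simp only [MulAut.smul_def, ← map_inv, MulAut.conj_apply, inv_inv]
  simpa [mul_assoc] using this

/-- the matrix of order four. -/
def Z0 (q : ℕ) : Matrix (Fin 2) (Fin 2) (ZMod q) := !![0, -1; 1, 0]

theorem Z0_sq : Z0 q * Z0 q = -1 := by
  ext i j; fin_cases i <;> fin_cases j <;> simp [Z0, Matrix.mul_apply, Fin.sum_univ_two]

theorem Z0_pow (hq4 : q % 4 = 3) : Z0 q ^ q = - Z0 q := by
  obtain ⟨m, h1⟩ : ∃ m, q = 2 * (2 * m + 1) + 1 := ⟨q / 4, by omega⟩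
  have h2 : ∀ n : ℕ, n = 2 * (2 * m + 1) + 1 → Z0 q ^ n = - Z0 q := by
    intro n hn
    rw [hn, pow_succ, pow_mul, pow_two, Z0_sq, Odd.neg_one_pow ⟨_, rfl⟩, neg_one_mul]
  exact h2 q h1

theorem pow_torus (hq4 : q % 4 = 3) (x y : ZMod q) :
    (x • (1 : Matrix (Fin 2) (Fin 2) (ZMod q)) + y • Z0 q) ^ (q + 1)
      = (x ^ 2 + y ^ 2) • (1 : Matrix (Fin 2) (Fin 2) (ZMod q)) := by
  have hc : Commute (x • (1 : Matrix (Fin 2) (Fin 2) (ZMod q))) (y • Z0 q) := by
    show _ * _ = _ * _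
    rw [smul_mul_assoc, one_mul, mul_smul_comm, mul_one]
  rw [pow_succ, add_pow_char_of_commute _ hc, smul_pow, smul_pow, one_pow, ZMod.pow_card,
    ZMod.pow_card, Z0_pow hq4]
  ext i j; fin_cases i <;> fin_cases j <;>
    simp [Z0, Matrix.mul_apply, Fin.sum_univ_two, Matrix.one_apply] <;> ring

/-- the element of order four of `GL₂`. -/
def z0 (q : ℕ) [Fact q.Prime] : GL (Fin 2) (ZMod q) :=
  GeneralLinearGroup.mkOfDetNeZero (Z0 q) (by simp [Z0, det_fin_two])

theorem z0_val : ((z0 q : GL (Fin 2) (ZMod q)) : Matrix (Fin 2) (Fin 2) (ZMod q)) = Z0 q := rfl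

theorem isPGroup_S0 {k : ℕ} (hk : q + 1 = 2 ^ k) (hq4 : q % 4 = 3) :
    IsPGroup 2 (Subgroup.centralizer
      {(QuotientGroup.mk (z0 q) : GL (Fin 2) (ZMod q) ⧸ Subgroup.center (GL (Fin 2) (ZMod q)))}) := by
  rintro ⟨g, hg⟩
  obtain ⟨g, rfl⟩ := QuotientGroup.mk_surjective g
  rw [Subgroup.mem_centralizer_singleton_iff] at hg
  obtain ⟨c, hc⟩ := anti_of_commute g (z0 q) hg
  rw [z0_val] at hc
  have e00 := congrFun (congrFun hc 0) 0
  have e01 := congrFun (congrFun hc 0) 1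
  have e10 := congrFun (congrFun hc 1) 0
  have e11 := congrFun (congrFun hc 1) 1
  simp [Z0, Matrix.mul_apply, Fin.sum_univ_two] at e00 e01 e10 e11
  have hdet : (g : Matrix (Fin 2) (Fin 2) (ZMod q)).det ≠ 0 := by
    have := GeneralLinearGroup.det_ne_zero g
    exact this
  rw [det_fin_two] at hdet
  have hc2 : c ^ 2 = 1 := by
    by_contra hne
    have hne' : c ^ 2 - 1 ≠ 0 := sub_ne_zero.mpr hne
    have a00 : (g : Matrix (Fin 2) (Fin 2) (ZMod q)) 0 0 = 0 := by
      have : (c ^ 2 - 1) * (g : Matrix (Fin 2) (Fin 2) (ZMod q)) 0 0 = 0 := by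
        linear_combination (-1 : ZMod q) * e10 - c * e01
      exact (mul_eq_zero.mp this).resolve_left hne'
    have a01 : (g : Matrix (Fin 2) (Fin 2) (ZMod q)) 0 1 = 0 := by
      have : (c ^ 2 - 1) * (g : Matrix (Fin 2) (Fin 2) (ZMod q)) 0 1 = 0 := by
        linear_combination (-1 : ZMod q) * e11 - c * e00
      exact (mul_eq_zero.mp this).resolve_left hne'
    rw [a00, a01] at hdet
    simp at hdet
  have hc' : c = 1 ∨ c = -1 := by
    have : (c - 1) * (c + 1) = 0 := by linear_combination hc2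
    rcases mul_eq_zero.mp this with h | h
    · left; linear_combination h
    · right; linear_combination h
  rcases hc' with rfl | rfl
  · refine ⟨k, Subtype.ext ?_⟩
    rw [← hk]
    show (QuotientGroup.mk g : GL (Fin 2) (ZMod q) ⧸ Subgroup.center (GL (Fin 2) (ZMod q))) ^ (q + 1)
      = 1
    rw [← QuotientGroup.mk_pow, ← QuotientGroup.mk_one]
    have hform : (g : Matrix (Fin 2) (Fin 2) (ZMod q))
        = (g : Matrix (Fin 2) (Fin 2) (ZMod q)) 0 0 • (1 : Matrix (Fin 2) (Fin 2) (ZMod q))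
          + (g : Matrix (Fin 2) (Fin 2) (ZMod q)) 1 0 • Z0 q := by
      ext i j; fin_cases i <;> fin_cases j <;> simp [Z0, Matrix.one_apply]
      · linear_combination (-1 : ZMod q) * e00
      · linear_combination e01
    obtain ⟨x, y, hform'⟩ : ∃ x y : ZMod q, (g : Matrix (Fin 2) (Fin 2) (ZMod q))
        = x • (1 : Matrix (Fin 2) (Fin 2) (ZMod q)) + y • Z0 q := ⟨_, _, hform⟩
    refine mk_eq_of_smul _ _ (x ^ 2 + y ^ 2) ?_
    rw [Units.val_pow_eq_pow_val, hform', pow_torus hq4, Units.val_one]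
  · refine ⟨1, Subtype.ext ?_⟩
    show (QuotientGroup.mk g : GL (Fin 2) (ZMod q) ⧸ Subgroup.center (GL (Fin 2) (ZMod q))) ^ (2 ^ 1)
      = 1
    rw [← QuotientGroup.mk_pow, ← QuotientGroup.mk_one]
    refine mk_eq_of_smul _ _ ((g : Matrix (Fin 2) (Fin 2) (ZMod q)) 0 0 ^ 2
      + (g : Matrix (Fin 2) (Fin 2) (ZMod q)) 1 0 ^ 2) ?_
    rw [Units.val_pow_eq_pow_val, Units.val_one, pow_one, pow_two]
    ext i j; fin_cases i <;> fin_cases j <;>
      simp [Matrix.mul_apply, Fin.sum_univ_two, Matrix.one_apply]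
    · linear_combination (g : Matrix (Fin 2) (Fin 2) (ZMod q)) 1 0 * e00
    · linear_combination (g : Matrix (Fin 2) (Fin 2) (ZMod q)) 0 1 * e10
    · linear_combination (g : Matrix (Fin 2) (Fin 2) (ZMod q)) 1 0 * e10
    · linear_combination (g : Matrix (Fin 2) (Fin 2) (ZMod q)) 1 0 * e00
        + ((g : Matrix (Fin 2) (Fin 2) (ZMod q)) 1 1 - (g : Matrix (Fin 2) (Fin 2) (ZMod q)) 0 0) * e01

theorem center_aux (h2 : (2 : ZMod q) ≠ 0) (w : GL (Fin 2) (ZMod q)) (a b : ZMod q)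
    (h1 : (!![1, -1; 1, 1] : Matrix (Fin 2) (Fin 2) (ZMod q)) * (w : Matrix (Fin 2) (Fin 2) (ZMod q))
      = a • ((w : Matrix (Fin 2) (Fin 2) (ZMod q)) * !![1, -1; 1, 1]))
    (h3 : (!![1, 0; 0, -1] : Matrix (Fin 2) (Fin 2) (ZMod q)) * (w : Matrix (Fin 2) (Fin 2) (ZMod q))
      = b • ((w : Matrix (Fin 2) (Fin 2) (ZMod q)) * !![1, 0; 0, -1])) :
    (∃ c : ZMod q, (w : Matrix (Fin 2) (Fin 2) (ZMod q)) = c • (1 : Matrix (Fin 2) (Fin 2) (ZMod q)))
      ∨ ∃ c : ZMod q, (w : Matrix (Fin 2) (Fin 2) (ZMod q)) = c • Z0 q := by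
  have ha : a = 1 := by
    have t1 : (((w⁻¹ : GL (Fin 2) (ZMod q)) : Matrix (Fin 2) (Fin 2) (ZMod q)) *
        ((!![1, -1; 1, 1] : Matrix (Fin 2) (Fin 2) (ZMod q)) * (w : Matrix (Fin 2) (Fin 2) (ZMod q)))).trace
        = 2 := by
      rw [Matrix.trace_mul_comm, Matrix.mul_assoc, Units.mul_inv, mul_one]
      simp [Matrix.trace_fin_two]; norm_num
    rw [h1, Matrix.mul_smul, ← Matrix.mul_assoc, Units.inv_mul, one_mul, Matrix.trace_smul] at t1
    simp [Matrix.trace_fin_two] at t1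
    have : (a - 1) * 2 = 0 := by linear_combination t1
    rcases mul_eq_zero.mp this with h | h
    · linear_combination h
    · exact absurd h h2
  subst ha
  have e00 := congrFun (congrFun h1 0) 0
  have e01 := congrFun (congrFun h1 0) 1
  have f00 := congrFun (congrFun h3 0) 0
  have f01 := congrFun (congrFun h3 0) 1
  simp [Matrix.mul_apply, Fin.sum_univ_two] at e00 e01 f00 f01
  by_cases h0 : (w : Matrix (Fin 2) (Fin 2) (ZMod q)) 0 0 = 0
  · right
    refine ⟨(w : Matrix (Fin 2) (Fin 2) (ZMod q)) 1 0, ?_⟩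
    ext i j; fin_cases i <;> fin_cases j <;> simp [Z0]
    · exact h0
    · linear_combination (-1 : ZMod q) * e00
    · linear_combination (-1 : ZMod q) * e01 + h0
  · left
    refine ⟨(w : Matrix (Fin 2) (Fin 2) (ZMod q)) 0 0, ?_⟩
    have hb : b = 1 := by
      have : (b - 1) * (w : Matrix (Fin 2) (Fin 2) (ZMod q)) 0 0 = 0 := by
        linear_combination (-1 : ZMod q) * f00
      rcases mul_eq_zero.mp this with h | h
      · linear_combination h
      · exact absurd h h0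
    subst hb
    have h01 : (w : Matrix (Fin 2) (Fin 2) (ZMod q)) 0 1 = 0 := by
      have : 2 * (w : Matrix (Fin 2) (Fin 2) (ZMod q)) 0 1 = 0 := by linear_combination f01
      exact (mul_eq_zero.mp this).resolve_left h2
    ext i j; fin_cases i <;> fin_cases j <;> simp [Matrix.one_apply]
    · exact h01
    · linear_combination (-1 : ZMod q) * e00 - h01
    · linear_combination (-1 : ZMod q) * e01

theorem mk_z0_ne_one :
    (QuotientGroup.mk (z0 q) : GL (Fin 2) (ZMod q) ⧸ Subgroup.center (GL (Fin 2) (ZMod q))) ≠ 1 := by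
  intro h
  rw [← QuotientGroup.mk_one] at h
  obtain ⟨c, hc⟩ := exists_smul_of_mk_eq _ _ h.symm
  rw [z0_val, Units.val_one] at hc
  have := congrFun (congrFun hc 1) 0
  simp [Z0] at this

theorem meet_aux (h2 : (2 : ZMod q) ≠ 0) (hns : ¬ IsSquare (-1 : ZMod q)) (X : GL (Fin 2) (ZMod q)) :
    ∃ g : GL (Fin 2) (ZMod q) ⧸ Subgroup.center (GL (Fin 2) (ZMod q)), g ≠ 1 ∧
      g ∈ Subgroup.centralizer
        {(QuotientGroup.mk (z0 q) : GL (Fin 2) (ZMod q) ⧸ Subgroup.center (GL (Fin 2) (ZMod q)))} ∧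
      g ∈ MulAut.conj (QuotientGroup.mk X : GL (Fin 2) (ZMod q) ⧸ Subgroup.center (GL (Fin 2) (ZMod q)))
        • Subgroup.centralizer
        {(QuotientGroup.mk (z0 q) : GL (Fin 2) (ZMod q) ⧸ Subgroup.center (GL (Fin 2) (ZMod q)))} := by
  obtain ⟨z2, hz2⟩ : ∃ z2 : GL (Fin 2) (ZMod q), z2 = X * z0 q * X⁻¹ := ⟨_, rfl⟩
  have hmk : (QuotientGroup.mk z2 : GL (Fin 2) (ZMod q) ⧸ Subgroup.center (GL (Fin 2) (ZMod q)))
      = QuotientGroup.mk X * QuotientGroup.mk (z0 q) * (QuotientGroup.mk X)⁻¹ := by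
    rw [hz2]; rfl
  have htr : (z2 : Matrix (Fin 2) (Fin 2) (ZMod q)).trace = 0 := by
    rw [hz2, Units.val_mul, Units.val_mul, Matrix.trace_units_conj, z0_val]
    simp [Z0, Matrix.trace_fin_two]
  have hsq : (z2 : Matrix (Fin 2) (Fin 2) (ZMod q)) * (z2 : Matrix (Fin 2) (Fin 2) (ZMod q)) = -1 := by
    have : z2 * z2 = X * (z0 q * z0 q) * X⁻¹ := by rw [hz2]; group
    rw [← Units.val_mul, this, Units.val_mul, Units.val_mul, Units.val_mul, z0_val, Z0_sq]
    simp
  obtain ⟨a, b, c, d, hM⟩ : ∃ a b c d : ZMod q, (z2 : Matrix (Fin 2) (Fin 2) (ZMod q)) = !![a, b; c, d] :=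
    ⟨_, _, _, _, Matrix.eta_fin_two _⟩
  rw [hM] at htr hsq
  have hd : d = -a := by
    simp [Matrix.trace_fin_two] at htr
    linear_combination htr
  subst hd
  have hrel : a ^ 2 + b * c = -1 := by
    have := congrFun (congrFun hsq 0) 0
    simp [Matrix.mul_apply, Fin.sum_univ_two] at this
    linear_combination this
  by_cases hA : a = 0 ∧ b + c = 0
  · obtain ⟨ha, hbc⟩ := hA
    have hz : (QuotientGroup.mk z2 : GL (Fin 2) (ZMod q) ⧸ Subgroup.center (GL (Fin 2) (ZMod q)))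
        = QuotientGroup.mk (z0 q) := by
      refine mk_eq_of_smul _ _ c ?_
      rw [hM, z0_val]
      ext i j; fin_cases i <;> fin_cases j <;> simp [Z0, ha]
      linear_combination hbc
    refine ⟨QuotientGroup.mk (z0 q), mk_z0_ne_one, ?_, ?_⟩
    · rw [Subgroup.mem_centralizer_singleton_iff]
    · apply mem_conj_centralizer
      rw [← hmk, hz]
  · have hD : (b + c) ^ 2 + 4 * a ^ 2 ≠ 0 := by
      intro hD
      by_cases ha : a = 0
      · apply hA
        refine ⟨ha, ?_⟩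
        rw [ha] at hD
        simpa using hD
      · apply hns
        refine ⟨(b + c) / (2 * a), ?_⟩
        field_simp
        linear_combination (-1 : ZMod q) * hD
    obtain ⟨g, hg⟩ : ∃ g : GL (Fin 2) (ZMod q), (g : Matrix (Fin 2) (Fin 2) (ZMod q))
        = !![-(b + c), 2 * a; 2 * a, b + c] :=
      ⟨GeneralLinearGroup.mkOfDetNeZero !![-(b + c), 2 * a; 2 * a, b + c] (by
        rw [det_fin_two_of]
        intro h
        apply hD
        linear_combination (-1 : ZMod q) * h), rfl⟩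
    refine ⟨QuotientGroup.mk g, ?_, ?_, ?_⟩
    · intro h
      rw [← QuotientGroup.mk_one] at h
      obtain ⟨e, he⟩ := exists_smul_of_mk_eq _ _ h.symm
      rw [hg, Units.val_one] at he
      have e00 := congrFun (congrFun he 0) 0
      have e01 := congrFun (congrFun he 0) 1
      have e11 := congrFun (congrFun he 1) 1
      simp at e00 e01 e11
      apply hA
      refine ⟨e01.resolve_left h2, ?_⟩
      have : 2 * (b + c) = 0 := by linear_combination e11 - e00
      exact (mul_eq_zero.mp this).resolve_left h2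
    · rw [Subgroup.mem_centralizer_singleton_iff]
      refine (commute_of_anti g (z0 q) (-1) ?_).eq
      rw [hg, z0_val]
      ext i j; fin_cases i <;> fin_cases j <;>
        simp [Z0, Matrix.mul_apply, Fin.sum_univ_two]
    · apply mem_conj_centralizer
      rw [← hmk]
      refine commute_of_anti g z2 (-1) ?_
      rw [hg, hM]
      ext i j; fin_cases i <;> fin_cases j <;>
        simp [Matrix.mul_apply, Fin.sum_univ_two] <;> ring

/-- Let q = 2^k − 1 ≥ 7 be a prime and let G = PGL(2,q), the general linear group of degree 2 over the field with q elements modulo its centre. Then any two Sylow 2-subgroups of G have a non-trivial intersection: for a Sylow 2-subgroup H and every x ∈ G, H ∩ H^x ≠ 1. -/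
theorem result {q k : ℕ} [Fact q.Prime] (hk : q + 1 = 2 ^ k) (hq : 7 ≤ q)
    (H : Sylow 2 (GL (Fin 2) (ZMod q) ⧸ Subgroup.center (GL (Fin 2) (ZMod q))))
    (x : GL (Fin 2) (ZMod q) ⧸ Subgroup.center (GL (Fin 2) (ZMod q))) :
    (H : Subgroup (GL (Fin 2) (ZMod q) ⧸ Subgroup.center (GL (Fin 2) (ZMod q)))) ⊓ MulAut.conj x • (H : Subgroup _) ≠ ⊥ := by
  classical
  have hq4 : q % 4 = 3 := by
    have hk2 : 2 ≤ k := by
      by_contra h
      have : k = 0 ∨ k = 1 := by omega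
      rcases this with rfl | rfl <;> omega
    obtain ⟨j, rfl⟩ := Nat.exists_eq_add_of_le hk2
    rw [pow_add] at hk
    omega
  have hns : ¬ IsSquare (-1 : ZMod q) := by
    rw [ZMod.exists_sq_eq_neg_one_iff]
    simp [hq4]
  have h2 : (2 : ZMod q) ≠ 0 := by
    intro h
    have h' : ((2 : ℕ) : ZMod q) = 0 := by exact_mod_cast h
    rw [ZMod.natCast_eq_zero_iff] at h'
    have := Nat.le_of_dvd (by norm_num) h'
    omega
  have hS0 := isPGroup_S0 hk hq4
  obtain ⟨P, hP⟩ := hS0.exists_le_sylow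
  have hPS : (P : Subgroup (GL (Fin 2) (ZMod q) ⧸ Subgroup.center (GL (Fin 2) (ZMod q))))
      = Subgroup.centralizer
      {(QuotientGroup.mk (z0 q) : GL (Fin 2) (ZMod q) ⧸ Subgroup.center (GL (Fin 2) (ZMod q)))} := by
    refine le_antisymm ?_ hP
    have hz0P : (QuotientGroup.mk (z0 q) : GL (Fin 2) (ZMod q) ⧸ Subgroup.center (GL (Fin 2) (ZMod q)))
        ∈ (P : Subgroup _) := hP (by rw [Subgroup.mem_centralizer_singleton_iff])
    haveI : Nontrivial (P : Subgroup (GL (Fin 2) (ZMod q) ⧸ Subgroup.center (GL (Fin 2) (ZMod q)))) :=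
      ⟨⟨⟨_, hz0P⟩, 1, fun h => mk_z0_ne_one (congrArg Subtype.val h)⟩⟩
    haveI := P.isPGroup'.center_nontrivial
    obtain ⟨⟨⟨w, hwP⟩, hwc⟩, hw1⟩ := exists_ne (1 : Subgroup.center
      (P : Subgroup (GL (Fin 2) (ZMod q) ⧸ Subgroup.center (GL (Fin 2) (ZMod q)))))
    have hw1' : w ≠ 1 := fun h => hw1 (Subtype.ext (Subtype.ext h))
    have hcomm : ∀ y ∈ (P : Subgroup (GL (Fin 2) (ZMod q) ⧸ Subgroup.center (GL (Fin 2) (ZMod q)))),
        y * w = w * y := by
      intro y hy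
      have := Subgroup.mem_center_iff.mp hwc ⟨y, hy⟩
      exact congrArg Subtype.val this
    obtain ⟨W, rfl⟩ := QuotientGroup.mk_surjective w
    obtain ⟨s, hs⟩ : ∃ s : GL (Fin 2) (ZMod q), (s : Matrix (Fin 2) (Fin 2) (ZMod q))
        = !![1, -1; 1, 1] :=
      ⟨GeneralLinearGroup.mkOfDetNeZero !![1, -1; 1, 1] (by
        rw [det_fin_two_of]; intro h; apply h2; linear_combination h), rfl⟩
    obtain ⟨t, ht⟩ : ∃ t : GL (Fin 2) (ZMod q), (t : Matrix (Fin 2) (Fin 2) (ZMod q))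
        = !![1, 0; 0, -1] :=
      ⟨GeneralLinearGroup.mkOfDetNeZero !![1, 0; 0, -1] (by
        rw [det_fin_two_of]; simp), rfl⟩
    have hsP : (QuotientGroup.mk s : GL (Fin 2) (ZMod q) ⧸ Subgroup.center (GL (Fin 2) (ZMod q)))
        ∈ (P : Subgroup _) := by
      apply hP
      rw [Subgroup.mem_centralizer_singleton_iff]
      refine (commute_of_anti s (z0 q) 1 ?_).eq
      rw [hs, z0_val]
      ext i j; fin_cases i <;> fin_cases j <;>
        simp [Z0, Matrix.mul_apply, Fin.sum_univ_two]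
    have htP : (QuotientGroup.mk t : GL (Fin 2) (ZMod q) ⧸ Subgroup.center (GL (Fin 2) (ZMod q)))
        ∈ (P : Subgroup _) := by
      apply hP
      rw [Subgroup.mem_centralizer_singleton_iff]
      refine (commute_of_anti t (z0 q) (-1) ?_).eq
      rw [ht, z0_val]
      ext i j; fin_cases i <;> fin_cases j <;>
        simp [Z0, Matrix.mul_apply, Fin.sum_univ_two]
    obtain ⟨a, ha⟩ := anti_of_commute W s (hcomm _ hsP).symm
    obtain ⟨b, hb⟩ := anti_of_commute W t (hcomm _ htP).symm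
    rw [hs] at ha
    rw [ht] at hb
    have hWz : (QuotientGroup.mk W : GL (Fin 2) (ZMod q) ⧸ Subgroup.center (GL (Fin 2) (ZMod q)))
        = QuotientGroup.mk (z0 q) := by
      rcases center_aux h2 W a b ha hb with ⟨c, hc⟩ | ⟨c, hc⟩
      · exfalso
        apply hw1'
        rw [← QuotientGroup.mk_one]
        exact mk_eq_of_smul _ _ c (by rw [hc, Units.val_one])
      · exact mk_eq_of_smul _ _ c (by rw [hc, z0_val])
    intro y hy
    rw [Subgroup.mem_centralizer_singleton_iff, ← hWz]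
    exact hcomm y hy
  obtain ⟨y, hy⟩ := MulAction.exists_smul_eq
    (GL (Fin 2) (ZMod q) ⧸ Subgroup.center (GL (Fin 2) (ZMod q))) P H
  have hH : (H : Subgroup (GL (Fin 2) (ZMod q) ⧸ Subgroup.center (GL (Fin 2) (ZMod q))))
      = MulAut.conj y • Subgroup.centralizer
      {(QuotientGroup.mk (z0 q) : GL (Fin 2) (ZMod q) ⧸ Subgroup.center (GL (Fin 2) (ZMod q)))} := by
    rw [← hy, ← hPS]
    rfl
  obtain ⟨X, hX⟩ := QuotientGroup.mk_surjective (y⁻¹ * x * y)
  obtain ⟨g, hg1, hg2, hg3⟩ := meet_aux h2 hns X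
  intro hbot
  have hmem : MulAut.conj y • g ∈ (H : Subgroup (GL (Fin 2) (ZMod q) ⧸ Subgroup.center (GL (Fin 2) (ZMod q))))
      ⊓ MulAut.conj x • (H : Subgroup _) := by
    refine ⟨?_, ?_⟩
    · rw [hH]
      exact Subgroup.smul_mem_pointwise_smul _ _ _ hg2
    · have : MulAut.conj x • (H : Subgroup (GL (Fin 2) (ZMod q) ⧸ Subgroup.center (GL (Fin 2) (ZMod q))))
          = MulAut.conj y • MulAut.conj (y⁻¹ * x * y) • Subgroup.centralizer
            {(QuotientGroup.mk (z0 q) :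
              GL (Fin 2) (ZMod q) ⧸ Subgroup.center (GL (Fin 2) (ZMod q)))} := by
        rw [hH, ← mul_smul, ← mul_smul, ← map_mul, ← map_mul]
        congr 2
        group
      rw [this, ← hX]
      exact Subgroup.smul_mem_pointwise_smul _ _ _ hg3
  rw [hbot, Subgroup.mem_bot] at hmem
  apply hg1
  simpa [MulAut.smul_def] using hmem


end Cfsg.Agent.S2485
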