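import Cfsg.Statements.S2503
import Cfsg.Agent.Lib.Helper12.SL2Sylow

set_option autoImplicit false
open Cfsg

namespace Cfsg.Agent.S2503

open Matrix Matrix.SpecialLinearGroup Cfsg.Agent.Lib.Helper12
open scoped MatrixGroups

section
variable {F : Type*} [Field F] [Fintype F] [CharP F 2]
variable {K : Type*} [Field K] [Algebra F K] (b : Module.Basis (Fin 2) F K)

theorem exists_scale (z : K) (hz : z ≠ 0) :
    ∃ e : F, e ≠ 0 ∧ (Algebra.leftMulMatrix b (algebraMap F K e * z)).det = 1 := by
  have hunit : IsUnit (Algebra.leftMulMatrix b z) :=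
    (IsUnit.mk0 z hz).map (Algebra.leftMulMatrix b)
  have hdet : (Algebra.leftMulMatrix b z).det ≠ 0 :=
    ((Matrix.isUnit_iff_isUnit_det _).mp hunit).ne_zero
  obtain ⟨e, he⟩ := FiniteField.isSquare_of_char_two (ringChar.eq F 2)
    ((Algebra.leftMulMatrix b z).det)⁻¹
  have he0 : e ≠ 0 := by
    rintro rfl
    rw [mul_zero] at he
    exact inv_ne_zero hdet he
  refine ⟨e, he0, ?_⟩
  rw [map_mul, AlgHom.commutes, Matrix.det_mul, Matrix.algebraMap_eq_diagonal, Matrix.det_diagonal]
  simp only [Pi.algebraMap_apply, Algebra.algebraMap_self, RingHom.id_apply, Fin.prod_univ_two]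
  rw [← he, inv_mul_cancel₀ hdet]

/-- the non-split torus as a set of elements of `SL₂`. -/
def IsTor (s : SL(2, F)) : Prop := ∃ z : K, Algebra.leftMulMatrix b z = (s : Matrix (Fin 2) (Fin 2) F)

theorem exists_trace_zero (g : SL(2, F)) :
    ∃ a : SL(2, F), IsTor b a ∧ (g * a) 0 0 + (g * a) 1 1 = 0 := by
  let φ : K →ₗ[F] F := (Matrix.traceLinearMap (Fin 2) F F).comp
    ((LinearMap.mulLeft F (g : Matrix (Fin 2) (Fin 2) F)).comp (Algebra.leftMulMatrix b).toLinearMap)
  haveI : FiniteDimensional F K := Module.Finite.of_basis b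
  have hfr : Module.finrank F K = 2 := by rw [Module.finrank_eq_card_basis b, Fintype.card_fin]
  have hker : LinearMap.ker φ ≠ ⊥ := by
    apply LinearMap.ker_ne_bot_of_finrank_lt
    rw [hfr, Module.finrank_self]
    norm_num
  obtain ⟨z, hz, hz0⟩ := (Submodule.ne_bot_iff _).mp hker
  obtain ⟨e, he0, he⟩ := exists_scale b z hz0
  refine ⟨⟨_, he⟩, ⟨_, rfl⟩, ?_⟩
  have h1 : φ (algebraMap F K e * z) = 0 := by
    rw [← Algebra.smul_def, map_smul, LinearMap.mem_ker.mp hz, smul_zero]
  have h2 : φ (algebraMap F K e * z) =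
      ((g : Matrix (Fin 2) (Fin 2) F) * Algebra.leftMulMatrix b (algebraMap F K e * z)).trace := rfl
  rw [h2, Matrix.trace_fin_two] at h1
  exact h1

theorem exists_conj_slU (t : SL(2, F)) (ht : t 0 0 + t 1 1 = 0) :
    ∃ a : SL(2, F), IsTor b a ∧ a⁻¹ * t * a ∈ (slU : Subgroup SL(2, F)) := by
  have h2 : (2 : F) = 0 := CharTwo.two_eq_zero
  have hdet : ((t : Matrix (Fin 2) (Fin 2) F) - 1).det = 0 := by
    rw [Matrix.det_fin_two]
    have := sl2_det t
    simp only [Matrix.sub_apply, Matrix.one_apply_eq, Matrix.one_apply_ne (zero_ne_one : (0 : Fin 2) ≠ 1),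
      Matrix.one_apply_ne (one_ne_zero : (1 : Fin 2) ≠ 0), sub_zero]
    linear_combination this - ht + h2
  obtain ⟨v, hv0, hv⟩ := Matrix.exists_mulVec_eq_zero_iff.mpr hdet
  have htv : (t : Matrix (Fin 2) (Fin 2) F) *ᵥ v = v := by
    rw [Matrix.sub_mulVec, Matrix.one_mulVec, sub_eq_zero] at hv
    exact hv
  set y : K := b.equivFun.symm v with hy
  have hy0 : y ≠ 0 := by
    intro h
    apply hv0
    have : b.equivFun y = v := by rw [hy, LinearEquiv.apply_symm_apply]
    rw [← this, h, map_zero]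
  have hb0 : b 0 ≠ 0 := b.ne_zero 0
  obtain ⟨e, he0, he⟩ := exists_scale b (y * (b 0)⁻¹) (mul_ne_zero hy0 (inv_ne_zero hb0))
  set a : SL(2, F) := ⟨_, he⟩ with ha
  have hae : (a : Matrix (Fin 2) (Fin 2) F) *ᵥ (Pi.single 0 1) = e • v := by
    have h1 := Algebra.leftMulMatrix_mulVec_repr b (algebraMap F K e * (y * (b 0)⁻¹)) (b 0)
    have h3 : algebraMap F K e * (y * (b 0)⁻¹) * b 0 = e • y := by
      rw [Algebra.smul_def]
      field_simp
    rw [h3, map_smul] at h1
    have h4 : (b.repr (b 0) : Fin 2 → F) = Pi.single 0 1 := by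
      rw [Module.Basis.repr_self]
      ext i
      simp [Finsupp.single_apply, Pi.single_apply, eq_comm]
    have h5 : (b.repr y : Fin 2 → F) = v := by
      have : b.equivFun y = v := by rw [hy, LinearEquiv.apply_symm_apply]
      exact this
    rw [h4] at h1
    rw [ha]
    show Algebra.leftMulMatrix b (algebraMap F K e * (y * (b 0)⁻¹)) *ᵥ Pi.single 0 1 = e • v
    rw [h1]
    ext i
    simp [← h5]
  refine ⟨a, ⟨_, rfl⟩, ?_⟩
  set s : SL(2, F) := a⁻¹ * t * a with hs
  have has : a * s = t * a := by rw [hs]; group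
  have h6 : (a : Matrix (Fin 2) (Fin 2) F) *ᵥ ((s : Matrix (Fin 2) (Fin 2) F) *ᵥ (Pi.single 0 1)) =
      (a : Matrix (Fin 2) (Fin 2) F) *ᵥ (Pi.single 0 1) := by
    have has' : (a : Matrix (Fin 2) (Fin 2) F) * (s : Matrix (Fin 2) (Fin 2) F) =
        (t : Matrix (Fin 2) (Fin 2) F) * (a : Matrix (Fin 2) (Fin 2) F) :=
      congrArg (fun x : SL(2, F) => (x : Matrix (Fin 2) (Fin 2) F)) has
    rw [Matrix.mulVec_mulVec, has', ← Matrix.mulVec_mulVec, hae, Matrix.mulVec_smul, htv]
  have hainj : Function.Injective ((a : Matrix (Fin 2) (Fin 2) F).mulVec) := by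
    rw [Matrix.mulVec_injective_iff_isUnit, Matrix.isUnit_iff_isUnit_det, a.det_coe]
    exact isUnit_one
  have h7 := hainj h6
  rw [Matrix.mulVec_single_one] at h7
  have h00 : s 0 0 = 1 := by
    have := congrFun h7 0
    simpa using this
  have h10 : s 1 0 = 0 := by
    have := congrFun h7 1
    simpa using this
  rw [mem_slU_iff]
  refine ⟨h00, h10, ?_⟩
  have := sl2_det s
  rw [h00, h10] at this
  linear_combination this

/-- the norm homomorphism. -/
noncomputable def torN : Kˣ →* Fˣ :=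
  Units.map ((Matrix.detMonoidHom (n := Fin 2) (R := F)).comp
    ((Algebra.leftMulMatrix b : K →ₐ[F] Matrix (Fin 2) (Fin 2) F) : K →* Matrix (Fin 2) (Fin 2) F))

theorem torN_val (z : Kˣ) : ((torN b z : Fˣ) : F) = (Algebra.leftMulMatrix b (z : K)).det := rfl

/-- the torus homomorphism. -/
noncomputable def torHom : (torN b).ker →* SL(2, F) where
  toFun z := ⟨Algebra.leftMulMatrix b ((z.1 : Kˣ) : K), by
    have := congrArg Units.val (MonoidHom.mem_ker.mp z.2)
    rwa [torN_val] at this⟩
  map_one' := by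
    apply Subtype.ext
    simp
  map_mul' x y := by
    apply Subtype.ext
    simp only [Subgroup.coe_mul, Units.val_mul, map_mul]
    rfl

theorem torHom_injective : Function.Injective (torHom b) := by
  intro x y h
  have h1 : Algebra.leftMulMatrix b ((x.1 : Kˣ) : K) = Algebra.leftMulMatrix b ((y.1 : Kˣ) : K) :=
    congrArg Subtype.val h
  exact Subtype.ext (Units.ext (Algebra.leftMulMatrix_injective b h1))

theorem mem_range_torHom (s : SL(2, F)) (hs : IsTor b s) : s ∈ (torHom b).range := by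
  obtain ⟨z, hz⟩ := hs
  have hz0 : z ≠ 0 := by
    rintro rfl
    rw [map_zero] at hz
    have := s.det_coe
    rw [← hz, Matrix.det_zero] at this
    exact zero_ne_one this
  refine ⟨⟨Units.mk0 z hz0, ?_⟩, Subtype.ext hz⟩
  rw [MonoidHom.mem_ker]
  apply Units.ext
  rw [torN_val, Units.val_mk0, hz, s.det_coe, Units.val_one]

theorem torN_surjective : Function.Surjective (torN b) := by
  intro c
  obtain ⟨e, he⟩ := FiniteField.isSquare_of_char_two (ringChar.eq F 2) (c : F)
  have he0 : e ≠ 0 := by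
    rintro rfl
    rw [mul_zero] at he
    exact c.ne_zero he
  refine ⟨Units.mk0 (algebraMap F K e) (by simpa using he0), ?_⟩
  apply Units.ext
  rw [torN_val, Units.val_mk0, AlgHom.commutes, Matrix.algebraMap_eq_diagonal, Matrix.det_diagonal]
  simp only [Pi.algebraMap_apply, Algebra.algebraMap_self, RingHom.id_apply, Fin.prod_univ_two]
  exact he.symm

theorem card_ker_torN : Nat.card (torN b).ker = Fintype.card F + 1 := by
  haveI : FiniteDimensional F K := Module.Finite.of_basis b
  haveI : Finite K := Module.finite_of_finite F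
  have hfr : Module.finrank F K = 2 := by rw [Module.finrank_eq_card_basis b, Fintype.card_fin]
  have hK : Nat.card K = Fintype.card F ^ 2 := by
    rw [Module.natCard_eq_pow_finrank (K := F) (V := K), hfr, Nat.card_eq_fintype_card]
  have h1 := Subgroup.card_eq_card_quotient_mul_card_subgroup (torN b).ker
  rw [Nat.card_congr (QuotientGroup.quotientKerEquivOfSurjective _ (torN_surjective b)).toEquiv,
    Nat.card_units, Nat.card_units, hK, Nat.card_eq_fintype_card] at h1
  have hq : 1 < Fintype.card F := Fintype.one_lt_card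
  obtain ⟨k, hk⟩ : ∃ k, Fintype.card F = k + 1 := ⟨Fintype.card F - 1, by omega⟩
  rw [hk] at h1 ⊢
  have h2 : (k + 1) ^ 2 - 1 = k * (k + 1 + 1) := by
    have : (k + 1) ^ 2 = k * (k + 1 + 1) + 1 := by ring
    omega
  rw [h2, Nat.add_sub_cancel] at h1
  exact (Nat.eq_of_mul_eq_mul_left (by omega) h1).symm

end

theorem center_eq_bot {F : Type*} [Field F] [CharP F 2] :
    Subgroup.center SL(2, F) = ⊥ := by
  rw [Subgroup.eq_bot_iff_forall]
  intro A hA
  obtain ⟨r, hr, hrA⟩ := Matrix.SpecialLinearGroup.mem_center_iff.mp hA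
  rw [Fintype.card_fin] at hr
  have h2 : (2 : F) = 0 := CharTwo.two_eq_zero
  have h1 : (r - 1) ^ 2 = 0 := by linear_combination hr - r * h2 + h2
  have hr1 : r = 1 := sub_eq_zero.mp (pow_eq_zero_iff (by norm_num) |>.mp h1)
  apply Subtype.ext
  rw [← hrA, hr1]
  simp

/-- Let F be a finite field with q = 2^t ≥ 4 elements and L = PSL(2,F). Then L has a cyclic subgroup A of order q + 1 and an elementary abelian 2-subgroup B of order q such that L = ABA: every element of L is a product a·b·a' with a, a' ∈ A and b ∈ B. -/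
theorem result {F : Type*} [Field F] [Fintype F]
    (h2 : 2 ∣ Fintype.card F) (h4 : 4 ≤ Fintype.card F) :
    ∃ A B : Subgroup (Matrix.ProjectiveSpecialLinearGroup (Fin 2) F),
      IsCyclic A ∧ Nat.card A = Fintype.card F + 1 ∧ IsMulCommutative B ∧ (∀ b ∈ B, b * b = 1) ∧
        Nat.card B = Fintype.card F ∧
        ∀ g : Matrix.ProjectiveSpecialLinearGroup (Fin 2) F, ∃ a ∈ A, ∃ b ∈ B, ∃ c ∈ A, g = a * b * c := by
  classical
  haveI : CharP F 2 := ringChar.of_eq (FiniteField.even_card_iff_char_two.mpr (by omega))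
  let K := FiniteField.Extension F 2 2
  have hfr : Module.finrank F K = 2 := FiniteField.finrank_extension F 2 2
  let b : Module.Basis (Fin 2) F K := Module.finBasisOfFinrankEq F K hfr
  let π := QuotientGroup.mk' (Subgroup.center (Matrix.SpecialLinearGroup (Fin 2) F))
  have hπ : Function.Injective π := by
    rw [← MonoidHom.ker_eq_bot_iff, QuotientGroup.ker_mk', center_eq_bot]
  have hinjA : Function.Injective (π.comp (torHom b)) := hπ.comp (torHom_injective b)
  refine ⟨(π.comp (torHom b)).range, (slU : Subgroup _).map π, ?_, ?_, ?_, ?_, ?_, ?_⟩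
  · haveI : Finite K := inferInstanceAs (Finite (FiniteField.Extension F 2 2))
    haveI : IsCyclic (torN b).ker := inferInstance
    exact isCyclic_of_surjective (π.comp (torHom b)).rangeRestrict
      (π.comp (torHom b)).rangeRestrict_surjective
  · rw [← Nat.card_congr (MonoidHom.ofInjective hinjA).toEquiv, card_ker_torN]
  · constructor
    constructor
    rintro ⟨_, x, ⟨u, rfl⟩, rfl⟩ ⟨_, y, ⟨v, rfl⟩, rfl⟩
    apply Subtype.ext
    show π (tUHom u) * π (tUHom v) = π (tUHom v) * π (tUHom u)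
    rw [← map_mul, ← map_mul, ← map_mul, ← map_mul, mul_comm]
  · rintro _ ⟨x, ⟨u, rfl⟩, rfl⟩
    rw [← map_mul, ← map_mul]
    have : u * u = 1 := by
      show Multiplicative.ofAdd (Multiplicative.toAdd u + Multiplicative.toAdd u) = 1
      rw [CharTwo.add_self_eq_zero]
      rfl
    rw [this, map_one, map_one]
  · rw [Subgroup.card_map_of_injective hπ, card_slU, Nat.card_eq_fintype_card]
  · intro g
    obtain ⟨g, rfl⟩ := QuotientGroup.mk_surjective g
    obtain ⟨a₁, ha₁, htr⟩ := exists_trace_zero b g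
    obtain ⟨a, ha, hu⟩ := exists_conj_slU b (g * a₁) htr
    obtain ⟨z, hz⟩ := mem_range_torHom b a ha
    obtain ⟨z₁, hz₁⟩ := mem_range_torHom b a₁ ha₁
    refine ⟨π a, ⟨z, by rw [← hz]; rfl⟩, π (a⁻¹ * (g * a₁) * a), ⟨_, hu, rfl⟩, π (a⁻¹ * a₁⁻¹),
      ⟨z⁻¹ * z₁⁻¹, by rw [← hz, ← hz₁, map_mul, map_inv, map_inv]; simp⟩, ?_⟩
    rw [← map_mul, ← map_mul]
    show π g = _
    congr 1
    group


end Cfsg.Agent.S2503
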