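import Cfsg.Statements.S2505
-- import your own Cfsg.Agent.* helpers here
import Mathlib

set_option autoImplicit false
open Cfsg

namespace Cfsg.Agent.S2505


/-- the extremal function -/
def f : ℕ → ℕ
  | 0 => 1
  | 1 => 1
  | 2 => 2
  | 3 => 3
  | 4 => 4
  | (n + 5) => 3 * f (n + 2)

theorem f_step (n : ℕ) : f (n + 5) = 3 * f (n + 2) := by rw [f]

theorem f_add3 (n : ℕ) (hn : 2 ≤ n) : f (n + 3) = 3 * f n := by
  obtain ⟨j, rfl⟩ : ∃ j, n = j + 2 := ⟨n - 2, by omega⟩
  exact f_step j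

theorem f_props : ∀ n, 0 < f n ∧ f n ≤ f (n + 1) ∧ 2 * f n ≤ f (n + 2) ∧ 3 * f n ≤ f (n + 3) := by
  intro n
  induction n using Nat.strong_induction_on with
  | _ n ih =>
    match n, ih with
    | 0, _ => simp [f]
    | 1, _ => simp [f]
    | 2, _ => simp [f]
    | 3, _ => simp [f]
    | 4, _ => simp [f]
    | (k + 5), ih =>
      have h := ih (k + 2) (by omega)
      have e0 : f (k + 5) = 3 * f (k + 2) := f_step k
      have e1 : f (k + 5 + 1) = 3 * f (k + 2 + 1) := f_step (k + 1)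
      have e2 : f (k + 5 + 2) = 3 * f (k + 2 + 2) := f_step (k + 2)
      have e3 : f (k + 5 + 3) = 3 * f (k + 2 + 3) := f_step (k + 3)
      rw [e0, e1, e2, e3]
      omega

theorem f_mul : ∀ m n, 1 ≤ m → m * f n ≤ f (n + m) := by
  intro m
  induction m using Nat.strong_induction_on with
  | _ m ih =>
    intro n hm
    rcases Nat.lt_or_ge m 5 with h5 | h5
    · have p0 := f_props n
      have p2 := f_props (n + 2)
      interval_cases m
      · simpa using p0.2.1
      · exact p0.2.2.1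
      · exact p0.2.2.2
      · have : 2 * f (n + 2) ≤ f (n + 2 + 2) := p2.2.2.1
        have e : n + 4 = n + 2 + 2 := by omega
        rw [e]
        have := p0.2.2.1
        omega
    · have h1 := ih (m - 3) (by omega) n (by omega)
      have h2 := (f_props (n + (m - 3))).2.2.2
      have e : n + (m - 3) + 3 = n + m := by omega
      rw [e] at h2
      have h3 : m * f n ≤ 3 * ((m - 3) * f n) := by
        rw [← mul_assoc]
        apply Nat.mul_le_mul_right
        omega
      omega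

theorem f3 : ∀ k, f (3 * k) = 3 ^ k := by
  intro k
  induction k with
  | zero => simp [f]
  | succ k ih =>
    rcases Nat.eq_zero_or_pos k with rfl | hk
    · simp [f]
    · have e : 3 * (k + 1) = 3 * k + 3 := by ring
      rw [e, f_add3 _ (by omega), ih, pow_succ]
      ring

theorem f32 : ∀ k, f (3 * k + 2) = 2 * 3 ^ k := by
  intro k
  induction k with
  | zero => simp [f]
  | succ k ih =>
    have e : 3 * (k + 1) + 2 = 3 * k + 2 + 3 := by ring
    rw [e, f_add3 _ (by omega), ih, pow_succ]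
    ring

theorem f31 : ∀ j, f (3 * j + 4) = 4 * 3 ^ j := by
  intro j
  induction j with
  | zero => simp [f]
  | succ k ih =>
    have e : 3 * (k + 1) + 4 = 3 * k + 4 + 3 := by ring
    rw [e, f_add3 _ (by omega), ih, pow_succ]
    ring

theorem restrict_card {α : Type} [Fintype α] [DecidableEq α] (T : Subgroup (Equiv.Perm α))
    (O : Set α) (hfix : ∀ t ∈ T, ∀ y ∈ O, t y = y) (hc : ∀ a ∈ T, ∀ b ∈ T, a * b = b * a) :
    ∃ B : Subgroup (Equiv.Perm ↥(Oᶜ)), (∀ a ∈ B, ∀ b ∈ B, a * b = b * a) ∧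
      Nat.card B = Nat.card T := by
  have hinv : ∀ t : T, ∀ y : α, (t.1 y ∈ Oᶜ ↔ y ∈ Oᶜ) := by
    intro t y
    simp only [Set.mem_compl_iff, not_iff_not]
    constructor
    · intro h
      have h1 := hfix t.1 t.2 _ h
      have h2 : t.1 y = y := t.1.injective h1
      rwa [h2] at h
    · intro h
      rw [hfix t.1 t.2 y h]
      exact h
  let ψ : ↥T →* Equiv.Perm ↥(Oᶜ) :=
    { toFun := fun t => Equiv.Perm.subtypePerm t.1 (hinv t)
      map_one' := by
        ext y
        rfl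
      map_mul' := by
        intro s t
        ext y
        rfl }
  have hψ : ∀ (t : T) (y : ↥(Oᶜ)), ((ψ t y : ↥(Oᶜ)) : α) = t.1 y.1 := fun t y => rfl
  have hinj : Function.Injective ψ := by
    intro s t hst
    apply Subtype.ext
    ext y
    by_cases hy : y ∈ O
    · rw [hfix s.1 s.2 y hy, hfix t.1 t.2 y hy]
    · have := congrArg (fun σ : Equiv.Perm ↥(Oᶜ) => ((σ ⟨y, hy⟩ : ↥(Oᶜ)) : α)) hst
      simpa [hψ] using this
  refine ⟨ψ.range, ?_, ?_⟩
  · rintro _ ⟨s, rfl⟩ _ ⟨t, rfl⟩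
    rw [← map_mul, ← map_mul]
    congr 1
    exact Subtype.ext (hc s.1 s.2 t.1 t.2)
  · exact (Nat.card_congr (MonoidHom.ofInjective hinj).toEquiv).symm

theorem ub : ∀ (n : ℕ) (α : Type) [Fintype α] [DecidableEq α], Fintype.card α = n →
    ∀ A : Subgroup (Equiv.Perm α), (∀ a ∈ A, ∀ b ∈ A, a * b = b * a) → Nat.card A ≤ f n := by
  intro n
  induction n using Nat.strong_induction_on with
  | _ n ih =>
    intro α _ _ hn A hA
    rcases isEmpty_or_nonempty α with he | ⟨⟨x⟩⟩
    · have h1 : Nat.card A ≤ 1 := Finite.card_le_one_iff_subsingleton.2 inferInstance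
      exact h1.trans (f_props n).1
    · set O : Set α := MulAction.orbit ↥A x with hO
      have hxO : x ∈ O := MulAction.mem_orbit_self x
      have hm : 1 ≤ O.ncard := (Set.ncard_pos (Set.toFinite O)).2 ⟨x, hxO⟩
      have hidx := MulAction.index_stabilizer ↥A x
      have hcard := (MulAction.stabilizer ↥A x).card_mul_index
      rw [hidx] at hcard
      set T : Subgroup (Equiv.Perm α) := (MulAction.stabilizer ↥A x).map A.subtype with hT
      have hTcard : Nat.card T = Nat.card (MulAction.stabilizer ↥A x) :=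
        Subgroup.card_map_of_injective A.subtype_injective
      have hTA : T ≤ A := Subgroup.map_subtype_le _
      have hfix : ∀ t ∈ T, ∀ y ∈ O, t y = y := by
        rintro _ ⟨s, hs, rfl⟩ y ⟨a, rfl⟩
        have hs' : s.1 x = x := hs
        show s.1 (a.1 x) = a.1 x
        have h1 : s.1 * a.1 = a.1 * s.1 := hA s.1 s.2 a.1 a.2
        calc s.1 (a.1 x) = (s.1 * a.1) x := rfl
          _ = (a.1 * s.1) x := by rw [h1]
          _ = a.1 (s.1 x) := rfl
          _ = a.1 x := by rw [hs']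
      obtain ⟨B, hBc, hBcard⟩ := restrict_card T O hfix
        (fun a ha b hb => hA a (hTA ha) b (hTA hb))
      have hcompl : O.ncard + (Oᶜ).ncard = n := by
        rw [Set.ncard_add_ncard_compl, Nat.card_eq_fintype_card, hn]
      haveI : Fintype ↥(Oᶜ) := Fintype.ofFinite _
      haveI : DecidableEq ↥(Oᶜ) := Classical.decEq _
      have hβ : Fintype.card ↥(Oᶜ) = n - O.ncard := by
        rw [← Nat.card_eq_fintype_card, Nat.card_coe_set_eq]
        omega
      have hB := ih (n - O.ncard) (by omega) ↥(Oᶜ) hβ B hBc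
      have h2 := f_mul O.ncard (n - O.ncard) hm
      have e : n - O.ncard + O.ncard = n := by omega
      rw [e] at h2
      calc Nat.card A = Nat.card (MulAction.stabilizer ↥A x) * O.ncard := hcard.symm
        _ = O.ncard * Nat.card B := by rw [hBcard, hTcard, mul_comm]
        _ ≤ O.ncard * f (n - O.ncard) := Nat.mul_le_mul_left _ hB
        _ ≤ f n := h2

/-- existence of a commutative subgroup of a given order -/
def E (n c : ℕ) : Prop :=
  ∃ A : Subgroup (Equiv.Perm (Fin n)), (∀ a ∈ A, ∀ b ∈ A, a * b = b * a) ∧ Nat.card A = c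

theorem E_zero : E 0 1 := by
  refine ⟨⊥, ?_, Subgroup.card_bot⟩
  intro a ha b hb
  rw [Subgroup.mem_bot] at ha hb
  rw [ha, hb]

theorem E_cyc (m : ℕ) : E (m + 2) (m + 2) := by
  refine ⟨Subgroup.zpowers (finRotate (m + 2)), ?_, ?_⟩
  · intro a ha b hb
    obtain ⟨i, rfl⟩ := Subgroup.mem_zpowers_iff.1 ha
    obtain ⟨j, rfl⟩ := Subgroup.mem_zpowers_iff.1 hb
    rw [← zpow_add, ← zpow_add, add_comm i j]
  · rw [Nat.card_zpowers, ← Equiv.Perm.lcm_cycleType, cycleType_finRotate]
    simp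

theorem E_add {n m c d : ℕ} (h1 : E n c) (h2 : E m d) : E (n + m) (c * d) := by
  obtain ⟨A, hA, hAc⟩ := h1
  obtain ⟨B, hB, hBc⟩ := h2
  let φ : Equiv.Perm (Fin n) × Equiv.Perm (Fin m) →* Equiv.Perm (Fin (n + m)) :=
    (finSumFinEquiv.permCongrHom.toMonoidHom).comp (Equiv.Perm.sumCongrHom (Fin n) (Fin m))
  have hφ : Function.Injective φ :=
    (finSumFinEquiv.permCongrHom.injective).comp Equiv.Perm.sumCongrHom_injective
  refine ⟨(A.prod B).map φ, ?_, ?_⟩
  · rintro _ ⟨⟨a1, a2⟩, ha, rfl⟩ _ ⟨⟨b1, b2⟩, hb, rfl⟩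
    rw [← map_mul, ← map_mul]
    congr 1
    have ha' := Subgroup.mem_prod.1 ha
    have hb' := Subgroup.mem_prod.1 hb
    exact Prod.ext (hA a1 ha'.1 b1 hb'.1) (hB a2 ha'.2 b2 hb'.2)
  · rw [Subgroup.card_map_of_injective hφ, Nat.card_congr (Subgroup.prodEquiv A B).toEquiv,
      Nat.card_prod, hAc, hBc]

theorem E3 : ∀ k, E (3 * k) (3 ^ k) := by
  intro k
  induction k with
  | zero => exact E_zero
  | succ k ih =>
    have := E_add ih (E_cyc 1)
    have e : 3 * k + (1 + 2) = 3 * (k + 1) := by ring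
    rw [e] at this
    rw [pow_succ]
    exact this

theorem greatest {n c : ℕ} (hE : E n c) (hf : f n = c) :
    IsGreatest {c : ℕ | ∃ A : Subgroup (Equiv.Perm (Fin n)), IsMulCommutative A ∧ Nat.card A = c}
      c := by
  constructor
  · obtain ⟨A, hA, hc⟩ := hE
    exact ⟨A, ⟨⟨fun a b => Subtype.ext (hA a.1 a.2 b.1 b.2)⟩⟩, hc⟩
  · rintro d ⟨A, hA, rfl⟩
    rw [← hf]
    apply ub n (Fin n) (Fintype.card_fin n) A
    intro a ha b hb
    exact congrArg Subtype.val (hA.is_comm.comm ⟨a, ha⟩ ⟨b, hb⟩)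

/-- The largest order of an abelian subgroup of the symmetric group of degree n is 3^k when n = 3k, 4·3^(k−1) when n = 3k + 1, and 2·3^k when n = 3k + 2, for every k ≥ 1. -/
theorem result (k : ℕ) (hk : 1 ≤ k) :
    IsGreatest {c : ℕ | ∃ A : Subgroup (Equiv.Perm (Fin (3 * k))), IsMulCommutative A ∧ Nat.card A = c} (3 ^ k) ∧
    IsGreatest {c : ℕ | ∃ A : Subgroup (Equiv.Perm (Fin (3 * k + 1))), IsMulCommutative A ∧ Nat.card A = c}
      (4 * 3 ^ (k - 1)) ∧
    IsGreatest {c : ℕ | ∃ A : Subgroup (Equiv.Perm (Fin (3 * k + 2))), IsMulCommutative A ∧ Nat.card A = c}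
      (2 * 3 ^ k) := by
  obtain ⟨j, rfl⟩ : ∃ j, k = j + 1 := ⟨k - 1, by omega⟩
  refine ⟨greatest (E3 _) (f3 _), ?_, ?_⟩
  · have e : 3 * (j + 1) + 1 = 3 * j + 4 := by ring
    have h1 : E (3 * j + 4) (4 * 3 ^ j) := by
      have := E_add (E3 j) (E_cyc 2)
      have e2 : 3 ^ j * (2 + 2) = 4 * 3 ^ j := by ring
      rw [e2] at this
      exact this
    have e2 : j + 1 - 1 = j := by omega
    rw [e2, e]
    exact greatest h1 (f31 j)
  · have h1 : E (3 * (j + 1) + 2) (2 * 3 ^ (j + 1)) := by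
      have := E_add (E3 (j + 1)) (E_cyc 0)
      have e2 : 3 ^ (j + 1) * (0 + 2) = 2 * 3 ^ (j + 1) := by ring
      rw [e2] at this
      exact this
    exact greatest h1 (f32 _)

end Cfsg.Agent.S2505
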