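import Cfsg.Statements.S2504
import Mathlib
import Cfsg.Agent.S2505

set_option autoImplicit false
open Cfsg

namespace Cfsg.Agent.S2504


/-- extremal function for orbit sizes different from two -/
def f' : ℕ → ℕ
  | 0 => 1
  | 1 => 1
  | 2 => 1
  | 3 => 3
  | 4 => 4
  | 5 => 5
  | 6 => 9
  | 7 => 12
  | 8 => 16
  | (n + 9) => 3 * f' (n + 6)

theorem f'_step (n : ℕ) : f' (n + 9) = 3 * f' (n + 6) := by rw [f']

theorem f'_props : ∀ n, 0 < f' n ∧ f' n ≤ f' (n + 1) ∧ 3 * f' n ≤ f' (n + 3) ∧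
    4 * f' n ≤ f' (n + 4) ∧ 5 * f' n ≤ f' (n + 5) := by
  intro n
  induction n using Nat.strong_induction_on with
  | _ n ih =>
    match n, ih with
    | 0, _ => simp [f']
    | 1, _ => simp [f']
    | 2, _ => simp [f']
    | 3, _ => simp [f']
    | 4, _ => simp [f']
    | 5, _ => simp [f']
    | 6, _ => simp [f']
    | 7, _ => simp [f']
    | 8, _ => simp [f']
    | (k + 9), ih =>
      have h := ih (k + 6) (by omega)
      have e0 : f' (k + 9) = 3 * f' (k + 6) := f'_step k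
      have e1 : f' (k + 9 + 1) = 3 * f' (k + 6 + 1) := f'_step (k + 1)
      have e3 : f' (k + 9 + 3) = 3 * f' (k + 6 + 3) := f'_step (k + 3)
      have e4 : f' (k + 9 + 4) = 3 * f' (k + 6 + 4) := f'_step (k + 4)
      have e5 : f' (k + 9 + 5) = 3 * f' (k + 6 + 5) := f'_step (k + 5)
      rw [e0, e1, e3, e4, e5]
      omega

theorem f'_mul : ∀ m n, 1 ≤ m → m ≠ 2 → m * f' n ≤ f' (n + m) := by
  intro m
  induction m using Nat.strong_induction_on with
  | _ m ih =>
    intro n h1 h2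
    by_cases h : m < 6
    · have := f'_props n
      interval_cases m
      · simpa using this.2.1
      · exact absurd rfl h2
      · exact this.2.2.1
      · exact this.2.2.2.1
      · exact this.2.2.2.2
    · have h3 := ih (m - 3) (by omega) n (by omega) (by omega)
      have h4 := (f'_props (n + (m - 3))).2.2.1
      have e : n + (m - 3) + 3 = n + m := by omega
      rw [e] at h4
      have h5 : m * f' n ≤ 3 * ((m - 3) * f' n) := by
        have h6 : m ≤ 3 * (m - 3) := by omega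
        calc m * f' n ≤ (3 * (m - 3)) * f' n := Nat.mul_le_mul_right _ h6
          _ = 3 * ((m - 3) * f' n) := by ring
      omega

theorem f'32 : ∀ j, f' (3 * j + 8) = 16 * 3 ^ j := by
  intro j
  induction j with
  | zero => simp [f']
  | succ k ih =>
    have e : 3 * (k + 1) + 8 = (3 * k + 2) + 9 := by ring
    have e2 : 3 * k + 2 + 6 = 3 * k + 8 := by ring
    rw [e, f'_step, e2, ih, pow_succ]
    ring

theorem ub2 {α : Type} [Fintype α] [DecidableEq α] (A : Subgroup (Equiv.Perm α))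
    (hA : ∀ a ∈ A, ∀ b ∈ A, a * b = b * a)
    (h2 : ∀ x : α, (MulAction.orbit ↥A x).ncard ≠ 2) :
    ∀ (n : ℕ) (U : Set α), (∀ a ∈ A, ∀ y, y ∈ U → a y ∈ U) → Uᶜ.ncard = n →
      ∀ T : Subgroup (Equiv.Perm α), T ≤ A → (∀ t ∈ T, ∀ y ∈ U, t y = y) →
        Nat.card T ≤ f' n := by
  intro n
  induction n using Nat.strong_induction_on with
  | _ n ih =>
    intro U hU hn T hTA hfix
    by_cases hne : Uᶜ.Nonempty
    · obtain ⟨x, hx⟩ := hne
      set O : Set α := MulAction.orbit ↥A x with hO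
      have hxO : x ∈ O := MulAction.mem_orbit_self x
      have hOU : O ⊆ Uᶜ := by
        rintro _ ⟨a, rfl⟩ hmem
        apply hx
        have h := hU (a⁻¹ : ↥A).1 (a⁻¹ : ↥A).2 _ hmem
        have e : ((a⁻¹ : ↥A).1) (a • x) = x := by
          show (a.1)⁻¹ (a.1 x) = x
          simp
        rwa [e] at h
      have hm : 1 ≤ O.ncard := (Set.ncard_pos (Set.toFinite O)).2 ⟨x, hxO⟩
      have hm2 : O.ncard ≠ 2 := h2 x
      have hmn : O.ncard ≤ n := hn ▸ Set.ncard_le_ncard hOU (Set.toFinite _)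
      have hidx := MulAction.index_stabilizer ↥T x
      have hcard := (MulAction.stabilizer ↥T x).card_mul_index
      rw [hidx] at hcard
      have hsub : MulAction.orbit ↥T x ⊆ O := by
        rintro _ ⟨t, rfl⟩
        exact ⟨⟨t.1, hTA t.2⟩, rfl⟩
      have hle : (MulAction.orbit ↥T x).ncard ≤ O.ncard :=
        Set.ncard_le_ncard hsub (Set.toFinite _)
      set T' : Subgroup (Equiv.Perm α) := (MulAction.stabilizer ↥T x).map T.subtype with hT'
      have hT'card : Nat.card T' = Nat.card (MulAction.stabilizer ↥T x) :=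
        Subgroup.card_map_of_injective T.subtype_injective
      have hT'T : T' ≤ T := Subgroup.map_subtype_le _
      have hU' : ∀ a ∈ A, ∀ y, y ∈ U ∪ O → a y ∈ U ∪ O := by
        rintro a ha y (hy | ⟨b, rfl⟩)
        · exact Or.inl (hU a ha y hy)
        · exact Or.inr ⟨⟨a, ha⟩ * b, rfl⟩
      have hn' : (U ∪ O)ᶜ.ncard = n - O.ncard := by
        rw [Set.compl_union, ← Set.sdiff_eq, Set.ncard_sdiff hOU (Set.toFinite _), hn]
      have hfix' : ∀ t ∈ T', ∀ y ∈ U ∪ O, t y = y := by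
        rintro _ ⟨s, hs, rfl⟩ y (hy | ⟨a, rfl⟩)
        · exact hfix s.1 s.2 y hy
        · have hs' : s.1 x = x := hs
          show s.1 (a.1 x) = a.1 x
          have h1 : s.1 * a.1 = a.1 * s.1 := hA s.1 (hTA s.2) a.1 a.2
          calc s.1 (a.1 x) = (s.1 * a.1) x := rfl
            _ = (a.1 * s.1) x := by rw [h1]
            _ = a.1 (s.1 x) := rfl
            _ = a.1 x := by rw [hs']
      have hB := ih (n - O.ncard) (by omega) (U ∪ O) hU' hn' T' (hT'T.trans hTA) hfix'
      have h3 := f'_mul O.ncard (n - O.ncard) hm hm2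
      have e : n - O.ncard + O.ncard = n := by omega
      rw [e] at h3
      calc Nat.card T = Nat.card (MulAction.stabilizer ↥T x) * (MulAction.orbit ↥T x).ncard :=
            hcard.symm
        _ ≤ Nat.card (MulAction.stabilizer ↥T x) * O.ncard := Nat.mul_le_mul_left _ hle
        _ = O.ncard * Nat.card T' := by rw [hT'card, mul_comm]
        _ ≤ O.ncard * f' (n - O.ncard) := Nat.mul_le_mul_left _ hB
        _ ≤ f' n := h3
    · have hall : ∀ y, y ∈ U := by
        intro y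
        by_contra hy
        exact hne ⟨y, hy⟩
      have hs : Subsingleton ↥T := by
        refine ⟨fun s t => Subtype.ext ?_⟩
        ext y
        rw [hfix s.1 s.2 y (hall y), hfix t.1 t.2 y (hall y)]
      have h1 : Nat.card T ≤ 1 := Finite.card_le_one_iff_subsingleton.2 hs
      exact h1.trans (f'_props n).1

theorem ubAlt (j : ℕ) (A : Subgroup (Equiv.Perm (Fin (3 * j + 8))))
    (hA : ∀ a ∈ A, ∀ b ∈ A, a * b = b * a) (hev : A ≤ alternatingGroup (Fin (3 * j + 8))) :
    Nat.card A ≤ 16 * 3 ^ j := by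
  by_cases h2 : ∃ x : Fin (3 * j + 8), (MulAction.orbit ↥A x).ncard = 2
  · obtain ⟨x, hx⟩ := h2
    obtain ⟨u, v, huv, hO⟩ := Set.ncard_eq_two.1 hx
    have hmem : ∀ a ∈ A, ∀ y ∈ ({u, v} : Set (Fin (3 * j + 8))), a y ∈ ({u, v} : Set (Fin (3 * j + 8))) := by
      intro a ha y hy
      rw [← hO] at hy ⊢
      obtain ⟨b, rfl⟩ := hy
      exact ⟨⟨a, ha⟩ * b, rfl⟩
    set τ : Equiv.Perm (Fin (3 * j + 8)) := Equiv.swap u v with hτ
    have hcomm : ∀ a ∈ A, a * τ = τ * a := by
      intro a ha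
      rw [hτ, Equiv.mul_swap_eq_swap_mul]
      have h1 := hmem a ha u (by simp)
      have h2 := hmem a ha v (by simp)
      have h3 : a u ≠ a v := fun h => huv (a.injective h)
      simp only [Set.mem_insert_iff, Set.mem_singleton_iff] at h1 h2
      rcases h1 with h1 | h1 <;> rcases h2 with h2 | h2
      · exact absurd (h1.trans h2.symm) h3
      · rw [h1, h2]
      · rw [h1, h2, Equiv.swap_comm]
      · exact absurd (h1.trans h2.symm) h3
    have hτA : τ ∉ A := by
      intro h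
      have h1 := Equiv.Perm.mem_alternatingGroup.1 (hev h)
      rw [hτ, Equiv.Perm.sign_swap huv] at h1
      exact absurd h1 (by decide)
    set S : Set (Equiv.Perm (Fin (3 * j + 8))) := (A : Set _) ∪ {τ} with hS
    have hScomm : ∀ a ∈ S, ∀ b ∈ S, a * b = b * a := by
      rintro a (ha | ha) b (hb | hb)
      · exact hA a ha b hb
      · rw [Set.mem_singleton_iff.1 hb]; exact hcomm a ha
      · rw [Set.mem_singleton_iff.1 ha]; exact (hcomm b hb).symm
      · rw [Set.mem_singleton_iff.1 ha, Set.mem_singleton_iff.1 hb]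
    have hA'comm : ∀ a ∈ Subgroup.closure S, ∀ b ∈ Subgroup.closure S, a * b = b * a := by
      intro a ha b hb
      have hc := Subgroup.isMulCommutative_closure hScomm
      exact congrArg Subtype.val (hc.is_comm.comm (⟨a, ha⟩ : ↥(Subgroup.closure S)) ⟨b, hb⟩)
    have hle : A ≤ Subgroup.closure S := fun a ha => Subgroup.subset_closure (Or.inl ha)
    have hτS : τ ∈ Subgroup.closure S := Subgroup.subset_closure (Or.inr rfl)
    have hub := Cfsg.Agent.S2505.ub (3 * j + 8) (Fin (3 * j + 8)) (Fintype.card_fin _)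
      (Subgroup.closure S) hA'comm
    have e : Cfsg.Agent.S2505.f (3 * j + 8) = 2 * 3 ^ (j + 2) := by
      rw [← Cfsg.Agent.S2505.f32]
      congr 1
    rw [e] at hub
    have hdvd : Nat.card A ∣ Nat.card (Subgroup.closure S) := Subgroup.card_dvd_of_le hle
    have hne : Nat.card A ≠ Nat.card (Subgroup.closure S) := by
      intro h
      have := Subgroup.eq_of_le_of_card_ge hle h.ge
      exact hτA (this ▸ hτS)
    obtain ⟨c, hc⟩ := hdvd
    have hpos : 0 < Nat.card (Subgroup.closure S) := Nat.card_pos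
    have hposA : 0 < Nat.card A := Nat.card_pos
    have hc2 : 2 ≤ c := by
      rcases c with _ | _ | c
      · simp at hc; omega
      · simp at hc; exact absurd hc.symm hne
      · omega
    have h4 : Nat.card A * 2 ≤ 2 * 3 ^ (j + 2) := by
      calc Nat.card A * 2 ≤ Nat.card A * c := Nat.mul_le_mul_left _ hc2
        _ = Nat.card (Subgroup.closure S) := hc.symm
        _ ≤ _ := hub
    have h5 : 3 ^ (j + 2) = 9 * 3 ^ j := by rw [pow_add]; ring
    have h6 : 0 < 3 ^ j := by positivity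
    omega
  · push Not at h2
    have := ub2 A hA h2 (3 * j + 8) ∅ (by simp) (by simp [Set.ncard_univ]) A le_rfl (by simp)
    rwa [f'32] at this

/-- existence of a commutative subgroup of even permutations of a given order -/
def E' (n c : ℕ) : Prop :=
  ∃ A : Subgroup (Equiv.Perm (Fin n)), (∀ a ∈ A, ∀ b ∈ A, a * b = b * a) ∧
    A ≤ alternatingGroup (Fin n) ∧ Nat.card A = c

theorem E'_of_odd {n c : ℕ} (h : Cfsg.Agent.S2505.E n c) (hc : Odd c) : E' n c := by
  obtain ⟨A, hA, hAc⟩ := h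
  refine ⟨A, hA, ?_, hAc⟩
  intro a ha
  rw [Equiv.Perm.mem_alternatingGroup]
  have h1 : a ^ c = 1 := by
    have := pow_card_eq_one' (G := ↥A) (x := ⟨a, ha⟩)
    rw [hAc] at this
    exact congrArg Subtype.val this
  have h2 : (Equiv.Perm.sign a) ^ c = 1 := by rw [← map_pow, h1, map_one]
  rcases Int.units_eq_one_or (Equiv.Perm.sign a) with h | h
  · exact h
  · rw [h, hc.neg_one_pow] at h2
    exact absurd h2 (by decide)

def V4 : Subgroup (Equiv.Perm (Fin 4)) where
  carrier := {σ | σ * σ = 1 ∧ Equiv.Perm.sign σ = 1}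
  mul_mem' := by
    have : ∀ σ τ : Equiv.Perm (Fin 4), (σ * σ = 1 ∧ Equiv.Perm.sign σ = 1) →
        (τ * τ = 1 ∧ Equiv.Perm.sign τ = 1) →
        ((σ * τ) * (σ * τ) = 1 ∧ Equiv.Perm.sign (σ * τ) = 1) := by decide +kernel
    intro a b ha hb
    exact this a b ha hb
  one_mem' := by simp
  inv_mem' := by
    have : ∀ σ : Equiv.Perm (Fin 4), (σ * σ = 1 ∧ Equiv.Perm.sign σ = 1) →
        (σ⁻¹ * σ⁻¹ = 1 ∧ Equiv.Perm.sign σ⁻¹ = 1) := by decide +kernel
    intro a ha
    exact this a ha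

theorem E'4 : E' 4 4 := by
  refine ⟨V4, ?_, ?_, ?_⟩
  · have : ∀ σ τ : Equiv.Perm (Fin 4), (σ * σ = 1 ∧ Equiv.Perm.sign σ = 1) →
        (τ * τ = 1 ∧ Equiv.Perm.sign τ = 1) → σ * τ = τ * σ := by decide +kernel
    intro a ha b hb
    exact this a b ha hb
  · intro a ha
    exact Equiv.Perm.mem_alternatingGroup.2 ha.2
  · have : Fintype.card {σ : Equiv.Perm (Fin 4) // σ * σ = 1 ∧ Equiv.Perm.sign σ = 1} = 4 := by
      decide +kernel
    exact (Nat.card_eq_fintype_card (α := {σ : Equiv.Perm (Fin 4) // σ * σ = 1 ∧ Equiv.Perm.sign σ = 1})).trans this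

theorem E'_add {n m c d : ℕ} (h1 : E' n c) (h2 : E' m d) : E' (n + m) (c * d) := by
  obtain ⟨A, hA, hAe, hAc⟩ := h1
  obtain ⟨B, hB, hBe, hBc⟩ := h2
  let φ : Equiv.Perm (Fin n) × Equiv.Perm (Fin m) →* Equiv.Perm (Fin (n + m)) :=
    (finSumFinEquiv.permCongrHom.toMonoidHom).comp (Equiv.Perm.sumCongrHom (Fin n) (Fin m))
  have hφ : Function.Injective φ :=
    (finSumFinEquiv.permCongrHom.injective).comp Equiv.Perm.sumCongrHom_injective
  refine ⟨(A.prod B).map φ, ?_, ?_, ?_⟩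
  · rintro _ ⟨⟨a1, a2⟩, ha, rfl⟩ _ ⟨⟨b1, b2⟩, hb, rfl⟩
    rw [← map_mul, ← map_mul]
    congr 1
    have ha' := Subgroup.mem_prod.1 ha
    have hb' := Subgroup.mem_prod.1 hb
    exact Prod.ext (hA a1 ha'.1 b1 hb'.1) (hB a2 ha'.2 b2 hb'.2)
  · rintro _ ⟨⟨a1, a2⟩, ha, rfl⟩
    have ha' := Subgroup.mem_prod.1 ha
    rw [Equiv.Perm.mem_alternatingGroup]
    have e : φ (a1, a2) = finSumFinEquiv.permCongr (Equiv.Perm.sumCongr a1 a2) := rfl
    rw [e, Equiv.Perm.sign_permCongr, Equiv.Perm.sign_sumCongr,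
      Equiv.Perm.mem_alternatingGroup.1 (hAe ha'.1), Equiv.Perm.mem_alternatingGroup.1 (hBe ha'.2),
      one_mul]
  · rw [Subgroup.card_map_of_injective hφ, Nat.card_congr (Subgroup.prodEquiv A B).toEquiv,
      Nat.card_prod, hAc, hBc]

theorem greatest' {n c : ℕ} (hE : E' n c)
    (hub : ∀ A : Subgroup (Equiv.Perm (Fin n)), (∀ a ∈ A, ∀ b ∈ A, a * b = b * a) →
      A ≤ alternatingGroup (Fin n) → Nat.card A ≤ c) :
    IsGreatest {c : ℕ | ∃ A : Subgroup (alternatingGroup (Fin n)), IsMulCommutative A ∧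
      Nat.card A = c} c := by
  constructor
  · obtain ⟨A, hA, hAe, hc⟩ := hE
    refine ⟨A.subgroupOf (alternatingGroup (Fin n)), ⟨⟨fun a b => ?_⟩⟩, ?_⟩
    · exact Subtype.ext (Subtype.ext (hA a.1.1 a.2 b.1.1 b.2))
    · rw [Nat.card_congr (Subgroup.subgroupOfEquivOfLe hAe).toEquiv, hc]
  · rintro d ⟨A, hA, rfl⟩
    have h := hub (A.map (alternatingGroup (Fin n)).subtype) ?_ (Subgroup.map_subtype_le _)
    · rwa [Subgroup.card_map_of_injective (Subgroup.subtype_injective _)] at h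
    · rintro _ ⟨a, ha, rfl⟩ _ ⟨b, hb, rfl⟩
      rw [← map_mul, ← map_mul]
      congr 1
      exact congrArg Subtype.val (hA.is_comm.comm ⟨a, ha⟩ ⟨b, hb⟩)

/-- The largest order of an abelian subgroup of the alternating group of degree n is 3^k when n = 3k, 4·3^(k−1) when n = 3k + 1, and 16·3^(k−2) when n = 3k + 2, for every k ≥ 2 (so for all degrees n ≥ 6). -/
theorem result (k : ℕ) (hk : 2 ≤ k) :
    IsGreatest {c : ℕ | ∃ A : Subgroup (alternatingGroup (Fin (3 * k))), IsMulCommutative A ∧ Nat.card A = c} (3 ^ k) ∧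
    IsGreatest {c : ℕ | ∃ A : Subgroup (alternatingGroup (Fin (3 * k + 1))), IsMulCommutative A ∧ Nat.card A = c}
      (4 * 3 ^ (k - 1)) ∧
    IsGreatest {c : ℕ | ∃ A : Subgroup (alternatingGroup (Fin (3 * k + 2))), IsMulCommutative A ∧ Nat.card A = c}
      (16 * 3 ^ (k - 2)) := by
  obtain ⟨j, rfl⟩ : ∃ j, k = j + 2 := ⟨k - 2, by omega⟩
  have h3 : ∀ i, E' (3 * i) (3 ^ i) := fun i =>
    E'_of_odd (Cfsg.Agent.S2505.E3 i) (Odd.pow (by decide))
  refine ⟨?_, ?_, ?_⟩
  · refine greatest' (h3 _) ?_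
    intro A hA _
    have := Cfsg.Agent.S2505.ub _ (Fin (3 * (j + 2))) (Fintype.card_fin _) A hA
    rwa [Cfsg.Agent.S2505.f3] at this
  · have e : 3 * (j + 2) + 1 = 3 * (j + 1) + 4 := by ring
    have e2 : j + 2 - 1 = j + 1 := by omega
    rw [e, e2]
    have h1 : E' (3 * (j + 1) + 4) (4 * 3 ^ (j + 1)) := by
      have := E'_add (h3 (j + 1)) E'4
      have e3 : 3 ^ (j + 1) * 4 = 4 * 3 ^ (j + 1) := by ring
      rwa [e3] at this
    refine greatest' h1 ?_
    intro A hA _
    have := Cfsg.Agent.S2505.ub _ (Fin (3 * (j + 1) + 4)) (Fintype.card_fin _) A hA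
    rwa [Cfsg.Agent.S2505.f31] at this
  · have e : 3 * (j + 2) + 2 = 3 * j + 8 := by ring
    have e2 : j + 2 - 2 = j := by omega
    rw [e, e2]
    have h1 : E' (3 * j + 8) (16 * 3 ^ j) := by
      have := E'_add (h3 j) (E'_add E'4 E'4)
      have e3 : 3 ^ j * (4 * 4) = 16 * 3 ^ j := by ring
      rwa [e3] at this
    exact greatest' h1 (ubAlt j)

end Cfsg.Agent.S2504
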