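import Cfsg.Statements.S2507
import Cfsg.Agent.Lib.Helper12.SL2Conic

set_option autoImplicit false
open Cfsg

namespace Cfsg.Agent.S2507

open Matrix Cfsg.Agent.Lib.Helper12
open scoped MatrixGroups

theorem center_eq_bot {F : Type*} [Field F] [CharP F 2] :
    Subgroup.center SL(2, F) = ⊥ := by
  rw [Subgroup.eq_bot_iff_forall]
  intro A hA
  obtain ⟨r, hr, hrA⟩ := Matrix.SpecialLinearGroup.mem_center_iff.mp hA
  rw [Fintype.card_fin] at hr
  have h2 : (2 : F) = 0 := CharTwo.two_eq_zero
  have h1 : (r - 1) ^ 2 = 0 := by linear_combination hr - r * h2 + h2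
  have hr1 : r = 1 := sub_eq_zero.mp (pow_eq_zero_iff (by norm_num) |>.mp h1)
  apply Subtype.ext
  rw [← hrA, hr1]
  simp

theorem index_centralizer_equiv {G H : Type*} [Group G] [Group H] (e : G ≃* H) (g : G) :
    (Subgroup.centralizer ({e g} : Set H)).index = (Subgroup.centralizer ({g} : Set G)).index := by
  have : Subgroup.centralizer ({e g} : Set H) =
      (Subgroup.centralizer ({g} : Set G)).map (e : G →* H) := by
    ext h
    rw [Subgroup.mem_centralizer_singleton_iff, Subgroup.mem_map]
    constructor
    · intro hh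
      refine ⟨e.symm h, ?_, by simp⟩
      rw [Subgroup.mem_centralizer_singleton_iff]
      apply e.injective
      simpa using hh
    · rintro ⟨x, hx, rfl⟩
      rw [Subgroup.mem_centralizer_singleton_iff] at hx
      show e x * e g = e g * e x
      rw [← map_mul, ← map_mul, hx]
  rw [this, Subgroup.index_map_equiv]

section
variable {F : Type*} [Field F] [Fintype F]

theorem sq_eq_one_charTwo [CharP F 2] {a : F} (h : a ^ 2 = 1) : a = 1 := by
  have h2 : (2 : F) = 0 := CharTwo.two_eq_zero
  have h1 : (a - 1) ^ 2 = 0 := by linear_combination h - a * h2 + h2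
  exact sub_eq_zero.mp (pow_eq_zero_iff (by norm_num) |>.mp h1)

theorem not_scal [CharP F 2] (g : SL(2, F)) (hg : g ≠ 1) :
    ¬ IsScal2 (g : Matrix (Fin 2) (Fin 2) F) := by
  rintro ⟨h1, h2, h3⟩
  apply hg
  have hd := sl2_det g
  rw [h1, h2, ← h3] at hd
  have h4 : g 0 0 = 1 := sq_eq_one_charTwo (by linear_combination hd)
  apply sl2_ext
  · simpa using h4
  · simpa using h1
  · simpa using h2
  · rw [← h3]; simpa using h4

theorem card_cent_trace_zero [CharP F 2] (g : SL(2, F)) (hg : g ≠ 1)
    (ht : (g : Matrix (Fin 2) (Fin 2) F).trace = 0) :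
    Nat.card (Subgroup.centralizer ({g} : Set SL(2, F))) = Fintype.card F := by
  rw [card_centralizer_eq_conic g (not_scal g hg), ht, card_conic_charTwo]

theorem card_cent_split [CharP F 2] (g : SL(2, F)) (hg : g ≠ 1)
    (ht : (g : Matrix (Fin 2) (Fin 2) F).trace ≠ 0) (a : F)
    (ha : a ^ 2 - (g : Matrix (Fin 2) (Fin 2) F).trace * a + 1 = 0) :
    Nat.card (Subgroup.centralizer ({g} : Set SL(2, F))) = Fintype.card F - 1 := by
  obtain ⟨ha0, hta⟩ := trace_eq_of_root ha
  have ha2 : a ^ 2 ≠ 1 := by
    intro h
    have := sq_eq_one_charTwo h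
    apply ht
    rw [hta, this, inv_one]
    exact CharTwo.add_self_eq_zero 1
  rw [card_centralizer_eq_conic g (not_scal g hg), hta, card_conic_split a ha0 ha2]

theorem card_cent_nonsplit (g : SL(2, F))
    (ha : ∀ a : F, a ^ 2 - (g : Matrix (Fin 2) (Fin 2) F).trace * a + 1 ≠ 0) :
    Nat.card (Subgroup.centralizer ({g} : Set SL(2, F))) = Fintype.card F + 1 := by
  apply (centralizer_SL2_irred g _).2
  intro c v hv h
  exact ha c ((exists_eigen_iff g c).mp ⟨v, hv, h⟩)

theorem index_of_card (g : SL(2, F)) (c m : ℕ)
    (hc : Nat.card (Subgroup.centralizer ({g} : Set SL(2, F))) = c) (hc0 : 0 < c)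
    (h : c * m = Fintype.card F * (Fintype.card F ^ 2 - 1)) :
    (Subgroup.centralizer ({g} : Set SL(2, F))).index = m := by
  have h1 := Subgroup.card_mul_index (Subgroup.centralizer ({g} : Set SL(2, F)))
  rw [hc, card_SL2, ← h] at h1
  exact Nat.eq_of_mul_eq_mul_left hc0 h1

theorem range_SL [CharP F 2] (h4 : 4 ≤ Fintype.card F) :
    Set.range (fun g : SL(2, F) => (Subgroup.centralizer ({g} : Set SL(2, F))).index) =
      {1, Fintype.card F * (Fintype.card F - 1), Fintype.card F ^ 2 - 1,
        Fintype.card F * (Fintype.card F + 1)} := by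
  classical
  obtain ⟨k, hk⟩ : ∃ k, Fintype.card F = k + 1 := ⟨Fintype.card F - 1, by omega⟩
  have e0 : (k + 1) ^ 2 - 1 = k * (k + 2) := by
    have : (k + 1) ^ 2 = k * (k + 2) + 1 := by ring
    rw [this]; rfl
  have i1 : ∀ g : SL(2, F), Nat.card (Subgroup.centralizer ({g} : Set SL(2, F))) = Fintype.card F →
      (Subgroup.centralizer ({g} : Set SL(2, F))).index = Fintype.card F ^ 2 - 1 := by
    intro g hg
    exact index_of_card g _ _ hg (by omega) rfl
  have i2 : ∀ g : SL(2, F), Nat.card (Subgroup.centralizer ({g} : Set SL(2, F))) = Fintype.card F - 1 →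
      (Subgroup.centralizer ({g} : Set SL(2, F))).index = Fintype.card F * (Fintype.card F + 1) := by
    intro g hg
    apply index_of_card g _ _ hg (by omega)
    rw [hk, e0, Nat.add_sub_cancel]
    ring
  have i3 : ∀ g : SL(2, F), Nat.card (Subgroup.centralizer ({g} : Set SL(2, F))) = Fintype.card F + 1 →
      (Subgroup.centralizer ({g} : Set SL(2, F))).index = Fintype.card F * (Fintype.card F - 1) := by
    intro g hg
    apply index_of_card g _ _ hg (by omega)
    rw [hk, e0, Nat.add_sub_cancel]
    ring
  have h2 : (2 : F) = 0 := CharTwo.two_eq_zero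
  apply Set.Subset.antisymm
  · rintro _ ⟨g, rfl⟩
    simp only [Set.mem_insert_iff, Set.mem_singleton_iff]
    by_cases hg : g = 1
    · left
      rw [hg]
      have : Subgroup.centralizer ({1} : Set SL(2, F)) = ⊤ := by
        rw [eq_top_iff]
        intro x _
        rw [Subgroup.mem_centralizer_singleton_iff]
        simp
      rw [this, Subgroup.index_top]
    · by_cases ht : (g : Matrix (Fin 2) (Fin 2) F).trace = 0
      · right; right; left
        exact i1 g (card_cent_trace_zero g hg ht)
      · by_cases ha : ∃ a : F, a ^ 2 - (g : Matrix (Fin 2) (Fin 2) F).trace * a + 1 = 0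
        · obtain ⟨a, ha⟩ := ha
          right; right; right
          exact i2 g (card_cent_split g hg ht a ha)
        · push Not at ha
          right; left
          exact i3 g (card_cent_nonsplit g ha)
  · intro m hm
    simp only [Set.mem_insert_iff, Set.mem_singleton_iff] at hm
    rcases hm with rfl | rfl | rfl | rfl
    · refine ⟨1, ?_⟩
      have : Subgroup.centralizer ({1} : Set SL(2, F)) = ⊤ := by
        rw [eq_top_iff]
        intro x _
        rw [Subgroup.mem_centralizer_singleton_iff]
        simp
      show (Subgroup.centralizer ({1} : Set SL(2, F))).index = 1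
      rw [this, Subgroup.index_top]
    · -- non-split
      have hns : ¬ Function.Surjective (fun a : F => a + a⁻¹) := by
        intro hs
        have hi := Finite.injective_iff_surjective.mpr hs
        have : (0 : F) = 1 := by
          apply hi
          show (0 : F) + 0⁻¹ = 1 + 1⁻¹
          rw [_root_.inv_zero, inv_one, CharTwo.add_self_eq_zero, CharTwo.add_self_eq_zero]
        exact zero_ne_one this
      rw [Function.Surjective] at hns
      push Not at hns
      obtain ⟨t, ht⟩ := hns
      have hdet : (!![0, 1; 1, t] : Matrix (Fin 2) (Fin 2) F).det = 1 := by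
        rw [Matrix.det_fin_two_of]
        linear_combination -h2
      refine ⟨(⟨!![0, 1; 1, t], hdet⟩ : SL(2, F)), ?_⟩
      apply i3
      apply card_cent_nonsplit
      intro a ha
      have htr : (!![0, 1; 1, t] : Matrix (Fin 2) (Fin 2) F).trace = t := by
        rw [Matrix.trace_fin_two_of, zero_add]
      change a ^ 2 - (!![0, 1; 1, t] : Matrix (Fin 2) (Fin 2) F).trace * a + 1 = 0 at ha
      rw [htr] at ha
      exact ht a (trace_eq_of_root ha).2.symm
    · refine ⟨tU 1, ?_⟩
      apply i1
      apply card_cent_trace_zero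
      · intro h
        have := congrArg (fun g : SL(2, F) => g 0 1) h
        simp [tU_01] at this
      · rw [Matrix.trace_fin_two]
        have h00 := tU_00 (1 : F)
        have h11 := tU_11 (1 : F)
        rw [h00, h11]
        linear_combination h2
    · -- split
      obtain ⟨a, ha0, ha1⟩ : ∃ a : F, a ≠ 0 ∧ a ≠ 1 := by
        by_contra hcon
        push Not at hcon
        have : Fintype.card F ≤ 2 := by
          have hsub : (Finset.univ : Finset F) ⊆ {0, 1} := by
            intro x _
            by_cases hx : x = 0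
            · simp [hx]
            · simp [hcon x hx]
          calc Fintype.card F = (Finset.univ : Finset F).card := rfl
            _ ≤ ({0, 1} : Finset F).card := Finset.card_le_card hsub
            _ ≤ 2 := Finset.card_le_two
        omega
      have hdet : (!![a, 0; 0, a⁻¹] : Matrix (Fin 2) (Fin 2) F).det = 1 := by
        rw [Matrix.det_fin_two_of]
        field_simp
        ring
      have htr : (!![a, 0; 0, a⁻¹] : Matrix (Fin 2) (Fin 2) F).trace = a + a⁻¹ := by
        rw [Matrix.trace_fin_two_of]
      refine ⟨(⟨!![a, 0; 0, a⁻¹], hdet⟩ : SL(2, F)), ?_⟩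
      apply i2
      apply card_cent_split _ _ _ a
      · change a ^ 2 - (!![a, 0; 0, a⁻¹] : Matrix (Fin 2) (Fin 2) F).trace * a + 1 = 0
        rw [htr]
        field_simp
        ring
      · intro h
        have := congrArg (fun g : SL(2, F) => g 0 0) h
        simp at this
        exact ha1 this
      · change (!![a, 0; 0, a⁻¹] : Matrix (Fin 2) (Fin 2) F).trace ≠ 0
        rw [htr]
        intro h
        apply ha1
        apply sq_eq_one_charTwo
        field_simp at h
        linear_combination h - h2

end

/-- Let F be a finite field with q = 2^f ≥ 4 elements. The conjugacy class sizes of PSL(2,F) are exactly 1, q(q − 1), q² − 1 and q(q + 1). -/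
theorem result {F : Type*} [Field F] [Fintype F]
    (h2 : 2 ∣ Fintype.card F) (h4 : 4 ≤ Fintype.card F) :
    Set.range (fun g : (Matrix.ProjectiveSpecialLinearGroup (Fin 2) F) => (Subgroup.centralizer ({g} : Set (Matrix.ProjectiveSpecialLinearGroup (Fin 2) F))).index) =
      {1, Fintype.card F * (Fintype.card F - 1), Fintype.card F ^ 2 - 1, Fintype.card F * (Fintype.card F + 1)} := by
  classical
  haveI : CharP F 2 := ringChar.of_eq (FiniteField.even_card_iff_char_two.mpr (by omega))
  let π := QuotientGroup.mk' (Subgroup.center (Matrix.SpecialLinearGroup (Fin 2) F))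
  have hπ : Function.Injective π := by
    rw [← MonoidHom.ker_eq_bot_iff, QuotientGroup.ker_mk', center_eq_bot]
  let e : Matrix.SpecialLinearGroup (Fin 2) F ≃* Matrix.ProjectiveSpecialLinearGroup (Fin 2) F :=
    MulEquiv.ofBijective π ⟨hπ, QuotientGroup.mk'_surjective _⟩
  rw [← range_SL h4]
  ext m
  constructor
  · rintro ⟨g, rfl⟩
    obtain ⟨g, rfl⟩ := e.surjective g
    exact ⟨g, (index_centralizer_equiv e g).symm⟩
  · rintro ⟨g, rfl⟩
    exact ⟨e g, index_centralizer_equiv e g⟩


end Cfsg.Agent.S2507
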