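import Cfsg.Statements.S2508
import Cfsg.Agent.Lib.Helper12.PSL2Cent

set_option autoImplicit false
open Cfsg

namespace Cfsg.Agent.S2508

open Matrix Cfsg.Agent.Lib.Helper12
open scoped MatrixGroups

section
variable {F : Type*} [Field F] [Fintype F]

theorem idx_unip (hodd : Fintype.card F % 2 = 1) (g : SL(2, F))
    (hg : ¬ IsScal2 (g : Matrix (Fin 2) (Fin 2) F)) (a : F) (ha : a ^ 2 = 1)
    (ht : (g : Matrix (Fin 2) (Fin 2) F).trace = 2 * a) :
    (ctil g).index = (Fintype.card F ^ 2 - 1) / 2 := by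
  have h2 : (2 : F) ≠ 0 := Cfsg.Agent.Lib.Helper14.SL2.two_ne_zero_of_odd hodd
  have ha0 : a ≠ 0 := by
    rintro rfl
    simp at ha
  rw [ctil_eq h2 g (by rw [ht]; exact mul_ne_zero h2 ha0)]
  have hq : 0 < Fintype.card F := Fintype.card_pos
  apply index_of_card_SL2 _ _ _ (card_centralizer_unip h2 g hg a ha ht) (by omega)
  obtain ⟨k, hk⟩ : ∃ k, Fintype.card F = 2 * k + 1 := ⟨Fintype.card F / 2, by omega⟩
  have e0 : (2 * k + 1) ^ 2 - 1 = 2 * (2 * k * (k + 1)) := by
    have : (2 * k + 1) ^ 2 = 2 * (2 * k * (k + 1)) + 1 := by ring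
    rw [this]; rfl
  rw [hk, e0, Nat.mul_div_cancel_left _ (by norm_num)]
  ring

theorem cidx_split (g : SL(2, F)) (a : F)
    (ha : a ^ 2 - (g : Matrix (Fin 2) (Fin 2) F).trace * a + 1 = 0) (ha2 : a ^ 2 ≠ 1) :
    (Subgroup.centralizer ({g} : Set SL(2, F))).index = Fintype.card F * (Fintype.card F + 1) := by
  have hq : 2 ≤ Fintype.card F := Fintype.one_lt_card
  apply index_of_card_SL2 _ _ _ (card_centralizer_split g a ha ha2) (by omega)
  obtain ⟨k, hk⟩ : ∃ k, Fintype.card F = k + 1 := ⟨Fintype.card F - 1, by omega⟩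
  have e0 : (k + 1) ^ 2 - 1 = k * (k + 2) := by
    have : (k + 1) ^ 2 = k * (k + 2) + 1 := by ring
    rw [this]; rfl
  rw [hk, e0, Nat.add_sub_cancel]
  ring

theorem cidx_nonsplit (g : SL(2, F))
    (ha : ∀ a : F, a ^ 2 - (g : Matrix (Fin 2) (Fin 2) F).trace * a + 1 ≠ 0) :
    (Subgroup.centralizer ({g} : Set SL(2, F))).index = Fintype.card F * (Fintype.card F - 1) := by
  have hq : 2 ≤ Fintype.card F := Fintype.one_lt_card
  apply index_of_card_SL2 _ _ _ (centralizer_SL2_irred g (no_eigen_of_no_root g ha)).2 (by omega)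
  obtain ⟨k, hk⟩ : ∃ k, Fintype.card F = k + 1 := ⟨Fintype.card F - 1, by omega⟩
  have e0 : (k + 1) ^ 2 - 1 = k * (k + 2) := by
    have : (k + 1) ^ 2 = k * (k + 2) + 1 := by ring
    rw [this]; rfl
  rw [hk, e0, Nat.add_sub_cancel]
  ring

theorem idx_half (hodd : Fintype.card F % 2 = 1) (g : SL(2, F))
    (ht : (g : Matrix (Fin 2) (Fin 2) F).trace = 0) :
    (ctil g).index = (Subgroup.centralizer ({g} : Set SL(2, F))).index / 2 := by
  have h1 := Subgroup.relIndex_mul_index (centralizer_le_ctil g)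
  rw [relIndex_ctil hodd g ht] at h1
  omega

theorem neg_one_ne_one (hodd : Fintype.card F % 2 = 1) : (-1 : F) ≠ 1 := by
  have h2 : (2 : F) ≠ 0 := Cfsg.Agent.Lib.Helper14.SL2.two_ne_zero_of_odd hodd
  intro h
  apply h2
  linear_combination -h

theorem idx_trace_zero (hodd : Fintype.card F % 2 = 1) (g : SL(2, F))
    (ht : (g : Matrix (Fin 2) (Fin 2) F).trace = 0) :
    ((∃ i : F, i ^ 2 = -1) → (ctil g).index = Fintype.card F * (Fintype.card F + 1) / 2) ∧
    ((¬ ∃ i : F, i ^ 2 = -1) → (ctil g).index = Fintype.card F * (Fintype.card F - 1) / 2) := by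
  constructor
  · rintro ⟨i, hi⟩
    rw [idx_half hodd g ht, cidx_split g i (by rw [ht, hi]; ring)
      (by rw [hi]; exact neg_one_ne_one hodd)]
  · intro hi
    rw [idx_half hodd g ht, cidx_nonsplit g]
    intro a ha
    apply hi
    refine ⟨a, ?_⟩
    rw [ht] at ha
    linear_combination ha

theorem idx_mem (hodd : Fintype.card F % 2 = 1) (g : SL(2, F)) :
    (ctil g).index = 1 ∨ (ctil g).index = (Fintype.card F ^ 2 - 1) / 2 ∨
    (ctil g).index = Fintype.card F * (Fintype.card F + 1) ∨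
    (ctil g).index = Fintype.card F * (Fintype.card F - 1) ∨
    ((∃ i : F, i ^ 2 = -1) ∧ (ctil g).index = Fintype.card F * (Fintype.card F + 1) / 2) ∨
    ((¬ ∃ i : F, i ^ 2 = -1) ∧ (ctil g).index = Fintype.card F * (Fintype.card F - 1) / 2) := by
  have h2 : (2 : F) ≠ 0 := Cfsg.Agent.Lib.Helper14.SL2.two_ne_zero_of_odd hodd
  by_cases hs : IsScal2 (g : Matrix (Fin 2) (Fin 2) F)
  · left
    rw [ctil_eq_top g hs, Subgroup.index_top]
  by_cases ht : (g : Matrix (Fin 2) (Fin 2) F).trace = 0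
  · by_cases hi : ∃ i : F, i ^ 2 = -1
    · right; right; right; right; left
      exact ⟨hi, (idx_trace_zero hodd g ht).1 hi⟩
    · right; right; right; right; right
      exact ⟨hi, (idx_trace_zero hodd g ht).2 hi⟩
  by_cases hroot : ∃ a : F, a ^ 2 - (g : Matrix (Fin 2) (Fin 2) F).trace * a + 1 = 0
  · obtain ⟨a, ha⟩ := hroot
    by_cases ha2 : a ^ 2 = 1
    · right; left
      obtain ⟨ha0, hta⟩ := trace_eq_of_root ha
      apply idx_unip hodd g hs a ha2
      rw [hta]
      field_simp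
      linear_combination -ha2
    · right; right; left
      rw [ctil_eq h2 g ht]
      exact cidx_split g a ha ha2
  · push Not at hroot
    right; right; right; left
    rw [ctil_eq h2 g ht]
    exact cidx_nonsplit g hroot

theorem exists_unip (hodd : Fintype.card F % 2 = 1) :
    ∃ g : SL(2, F), (ctil g).index = (Fintype.card F ^ 2 - 1) / 2 := by
  refine ⟨tU 1, idx_unip hodd _ ?_ 1 (one_pow 2) ?_⟩
  · rintro ⟨h1, -, -⟩
    have h3 := tU_01 (1 : F)
    change (tU (1 : F) : Matrix (Fin 2) (Fin 2) F) 0 1 = 1 at h3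
    rw [h3] at h1
    exact one_ne_zero h1
  · rw [Matrix.trace_fin_two]
    have h00 := tU_00 (1 : F)
    have h11 := tU_11 (1 : F)
    change (tU (1 : F) : Matrix (Fin 2) (Fin 2) F) 0 0 = 1 at h00
    change (tU (1 : F) : Matrix (Fin 2) (Fin 2) F) 1 1 = 1 at h11
    rw [h00, h11]
    ring

theorem exists_split (hodd : Fintype.card F % 2 = 1) (h7 : 7 ≤ Fintype.card F) :
    ∃ g : SL(2, F), (ctil g).index = Fintype.card F * (Fintype.card F + 1) := by
  classical
  have h2 : (2 : F) ≠ 0 := Cfsg.Agent.Lib.Helper14.SL2.two_ne_zero_of_odd hodd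
  obtain ⟨ζ, hζ⟩ := IsCyclic.exists_generator (α := Fˣ)
  have ho : orderOf ζ = Fintype.card F - 1 := by
    rw [orderOf_eq_card_of_forall_mem_zpowers hζ, card_units_eq]
  have h4 : (ζ : F) ^ 4 ≠ 1 := by
    intro h
    have h' : ζ ^ 4 = 1 := by
      apply Units.ext
      simpa using h
    have := Nat.le_of_dvd (by norm_num) (orderOf_dvd_of_pow_eq_one h')
    omega
  have hz0 : (ζ : F) ≠ 0 := ζ.ne_zero
  have htr : ((dHom ζ : SL(2, F)) : Matrix (Fin 2) (Fin 2) F).trace = (ζ : F) + (ζ : F)⁻¹ := by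
    rw [dHom_coe, Matrix.trace_fin_two_of]
    simp
  refine ⟨dHom ζ, ?_⟩
  rw [ctil_eq h2]
  · apply cidx_split _ (ζ : F)
    · rw [htr]
      field_simp
      ring
    · intro h
      apply h4
      have : (ζ : F) ^ 4 = ((ζ : F) ^ 2) ^ 2 := by ring
      rw [this, h, one_pow]
  · rw [htr]
    intro h
    apply h4
    field_simp at h
    have h5 : (ζ : F) ^ 2 = -1 := by linear_combination h
    have : (ζ : F) ^ 4 = ((ζ : F) ^ 2) ^ 2 := by ring
    rw [this, h5]
    ring

theorem exists_nonsplit (hodd : Fintype.card F % 2 = 1) (h7 : 7 ≤ Fintype.card F) :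
    ∃ g : SL(2, F), (ctil g).index = Fintype.card F * (Fintype.card F - 1) := by
  have h2 : (2 : F) ≠ 0 := Cfsg.Agent.Lib.Helper14.SL2.two_ne_zero_of_odd hodd
  obtain ⟨c, hc, hroot⟩ := exists_nonsplit_gen' (F := F)
  refine ⟨c, ?_⟩
  rw [ctil_eq h2]
  · exact cidx_nonsplit c hroot
  · intro ht
    have h1 := sl2_cayley c
    rw [ht, zero_smul, zero_sub] at h1
    have h4 : c ^ 4 = 1 := by
      apply Subtype.ext
      have : c ^ 4 = (c * c) * (c * c) := by
        rw [← pow_two, ← pow_two, ← pow_mul]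
      rw [this, Matrix.SpecialLinearGroup.coe_mul, Matrix.SpecialLinearGroup.coe_mul, h1]
      simp
    have := Nat.le_of_dvd (by norm_num) (orderOf_dvd_of_pow_eq_one h4)
    omega

theorem exists_trace_zero : ∃ g : SL(2, F), (g : Matrix (Fin 2) (Fin 2) F).trace = 0 := by
  have hdet : (!![0, -1; 1, 0] : Matrix (Fin 2) (Fin 2) F).det = 1 := by
    rw [Matrix.det_fin_two_of]
    ring
  refine ⟨(⟨!![0, -1; 1, 0], hdet⟩ : SL(2, F)), ?_⟩
  show (!![0, -1; 1, 0] : Matrix (Fin 2) (Fin 2) F).trace = 0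
  rw [Matrix.trace_fin_two_of, zero_add]

end

/-- Let F be a finite field with q elements, q odd and q ≥ 7. If q ≡ 1 (mod 4) the conjugacy class sizes of PSL(2,F) are exactly 1, (q² − 1)/2, q(q + 1)/2, q(q − 1) and q(q + 1); if q ≡ 3 (mod 4) they are exactly 1, (q² − 1)/2, q(q − 1)/2, q(q + 1) and q(q − 1). -/
theorem result {F : Type*} [Field F] [Fintype F]
    (hodd : ¬ 2 ∣ Fintype.card F) (h7 : 7 ≤ Fintype.card F) :
    (Fintype.card F % 4 = 1 →
      Set.range (fun g : (Matrix.ProjectiveSpecialLinearGroup (Fin 2) F) => (Subgroup.centralizer ({g} : Set (Matrix.ProjectiveSpecialLinearGroup (Fin 2) F))).index) =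
        {1, (Fintype.card F ^ 2 - 1) / 2, Fintype.card F * (Fintype.card F + 1) / 2,
          Fintype.card F * (Fintype.card F - 1), Fintype.card F * (Fintype.card F + 1)}) ∧
    (Fintype.card F % 4 = 3 →
      Set.range (fun g : (Matrix.ProjectiveSpecialLinearGroup (Fin 2) F) => (Subgroup.centralizer ({g} : Set (Matrix.ProjectiveSpecialLinearGroup (Fin 2) F))).index) =
        {1, (Fintype.card F ^ 2 - 1) / 2, Fintype.card F * (Fintype.card F - 1) / 2,
          Fintype.card F * (Fintype.card F + 1), Fintype.card F * (Fintype.card F - 1)}) := by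
  classical
  have hodd' : Fintype.card F % 2 = 1 := by omega
  have hrange : Set.range (fun g : (Matrix.ProjectiveSpecialLinearGroup (Fin 2) F) =>
      (Subgroup.centralizer ({g} : Set (Matrix.ProjectiveSpecialLinearGroup (Fin 2) F))).index) =
      Set.range (fun g : SL(2, F) => (ctil g).index) := by
    ext m
    constructor
    · rintro ⟨x, rfl⟩
      obtain ⟨g, rfl⟩ := QuotientGroup.mk'_surjective _ x
      exact ⟨g, index_ctil g⟩
    · rintro ⟨g, rfl⟩
      exact ⟨QuotientGroup.mk' _ g, (index_ctil g).symm⟩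
  rw [hrange]
  obtain ⟨gU, hU⟩ := exists_unip (F := F) hodd'
  obtain ⟨gS, hS⟩ := exists_split (F := F) hodd' h7
  obtain ⟨gN, hN⟩ := exists_nonsplit (F := F) hodd' h7
  obtain ⟨gW, hW⟩ := exists_trace_zero (F := F)
  have h1i : (ctil (1 : SL(2, F))).index = 1 := by
    rw [ctil_eq_top, Subgroup.index_top]
    refine ⟨by simp, by simp, by simp⟩
  constructor
  · intro h1
    have hi : ∃ i : F, i ^ 2 = -1 := by
      obtain ⟨i, hi⟩ := FiniteField.isSquare_neg_one_iff.mpr (by omega : Fintype.card F % 4 ≠ 3)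
      exact ⟨i, by rw [hi]; ring⟩
    apply Set.Subset.antisymm
    · rintro _ ⟨g, rfl⟩
      simp only [Set.mem_insert_iff, Set.mem_singleton_iff]
      rcases idx_mem hodd' g with h | h | h | h | ⟨_, h⟩ | ⟨hn, _⟩
      · left; exact h
      · right; left; exact h
      · right; right; right; right; exact h
      · right; right; right; left; exact h
      · right; right; left; exact h
      · exact absurd hi hn
    · intro m hm
      simp only [Set.mem_insert_iff, Set.mem_singleton_iff] at hm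
      rcases hm with rfl | rfl | rfl | rfl | rfl
      · exact ⟨1, h1i⟩
      · exact ⟨gU, hU⟩
      · exact ⟨gW, (idx_trace_zero hodd' gW hW).1 hi⟩
      · exact ⟨gN, hN⟩
      · exact ⟨gS, hS⟩
  · intro h3
    have hi : ¬ ∃ i : F, i ^ 2 = -1 := by
      rintro ⟨i, hi⟩
      exact FiniteField.isSquare_neg_one_iff.mp ⟨i, by rw [← hi]; ring⟩ h3
    apply Set.Subset.antisymm
    · rintro _ ⟨g, rfl⟩
      simp only [Set.mem_insert_iff, Set.mem_singleton_iff]
      rcases idx_mem hodd' g with h | h | h | h | ⟨hn, _⟩ | ⟨_, h⟩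
      · left; exact h
      · right; left; exact h
      · right; right; right; left; exact h
      · right; right; right; right; exact h
      · exact absurd hn hi
      · right; right; left; exact h
    · intro m hm
      simp only [Set.mem_insert_iff, Set.mem_singleton_iff] at hm
      rcases hm with rfl | rfl | rfl | rfl | rfl
      · exact ⟨1, h1i⟩
      · exact ⟨gU, hU⟩
      · exact ⟨gW, (idx_trace_zero hodd' gW hW).2 hi⟩
      · exact ⟨gS, hS⟩
      · exact ⟨gN, hN⟩


end Cfsg.Agent.S2508
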