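import Cfsg.Statements.S2514
import Mathlib

set_option autoImplicit false
open Cfsg

namespace Cfsg.Agent.S2514

section aux

theorem pi_dvd {K : Type*} [Group K] {j : ℕ} (f : Fin j → K) (n : ℕ) :
    orderOf f ∣ n ↔ ∀ i, orderOf (f i) ∣ n := by
  rw [Pi.orderOf, Finset.lcm_dvd_iff]
  simp

theorem prod_dvd {K L : Type*} [Group K] [Group L] (x : K × L) (n : ℕ) :
    orderOf x ∣ n ↔ orderOf x.1 ∣ n ∧ orderOf x.2 ∣ n := by
  rw [Prod.orderOf, Nat.lcm_dvd_iff]

theorem eq_of_mult {a b : ℕ} (h : ∀ n, a ∣ n ↔ b ∣ n) : a = b :=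
  Nat.dvd_antisymm ((h b).2 dvd_rfl) ((h a).1 dvd_rfl)

theorem exists_div {K : Type*} [Group K] [Finite K] (g : K) (d : ℕ) (hd : d ∣ orderOf g) :
    ∃ g' : K, orderOf g' = d :=
  ⟨_, orderOf_pow_orderOf_div (orderOf_pos g).ne' hd⟩

theorem exists_max {K : Type*} [Group K] [Finite K] (g : K) :
    ∃ m, m ∈ {n : ℕ | n ∈ Set.range (orderOf : K → ℕ) ∧
      ∀ m ∈ Set.range (orderOf : K → ℕ), n ∣ m → m = n} ∧ orderOf g ∣ m := by
  haveI : Nonempty {x : K // orderOf g ∣ orderOf x} := ⟨⟨g, dvd_rfl⟩⟩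
  obtain ⟨x0, hx0⟩ := Finite.exists_max (fun x : {x : K // orderOf g ∣ orderOf x} => orderOf x.1)
  refine ⟨orderOf x0.1, ⟨⟨x0.1, rfl⟩, ?_⟩, x0.2⟩
  rintro _ ⟨y, rfl⟩ hy
  have h1 := hx0 ⟨y, x0.2.trans hy⟩
  exact le_antisymm h1 (Nat.le_of_dvd (orderOf_pos y) hy)

end aux

/-- For a finite group X write μ(X) for the set of element orders of X that are maximal under divisibility. Let G and H be finite groups and k ≥ 1 such that μ(H) ⊆ μ(G) and μ(G) has fewer than k elements outside μ(H). Then the direct product of k copies of G has the same set of element orders as the direct product of k − 1 copies of G with H. -/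
theorem result {G H : Type*} [Group G] [Finite G] [Group H] [Finite H] (k : ℕ) (hk : 1 ≤ k)
    (hsub : {n : ℕ | n ∈ Set.range (orderOf : H → ℕ) ∧ ∀ m ∈ Set.range (orderOf : H → ℕ), n ∣ m → m = n} ⊆ {n : ℕ | n ∈ Set.range (orderOf : G → ℕ) ∧ ∀ m ∈ Set.range (orderOf : G → ℕ), n ∣ m → m = n})
    (hfew : ({n : ℕ | n ∈ Set.range (orderOf : G → ℕ) ∧ ∀ m ∈ Set.range (orderOf : G → ℕ), n ∣ m → m = n} \ {n : ℕ | n ∈ Set.range (orderOf : H → ℕ) ∧ ∀ m ∈ Set.range (orderOf : H → ℕ), n ∣ m → m = n}).ncard < k) :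
    Set.range (orderOf : (Fin k → G) → ℕ) = Set.range (orderOf : (Fin (k - 1) → G) × H → ℕ) := by
  classical
  obtain ⟨k', rfl⟩ : ∃ k', k = k' + 1 := ⟨k - 1, by omega⟩
  change Set.range (orderOf : (Fin (k' + 1) → G) → ℕ) =
    Set.range (orderOf : (Fin k' → G) × H → ℕ)
  apply Set.Subset.antisymm
  · rintro _ ⟨f, rfl⟩
    choose m hm hfm using fun i => exists_max (f i)
    by_cases hex : ∃ i, m i ∈ {n : ℕ | n ∈ Set.range (orderOf : H → ℕ) ∧
        ∀ m ∈ Set.range (orderOf : H → ℕ), n ∣ m → m = n}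
    · obtain ⟨i, hi⟩ := hex
      obtain ⟨h0, hh0⟩ := hi.1
      obtain ⟨h1, hh1⟩ := exists_div h0 (orderOf (f i)) (by rw [hh0]; exact hfm i)
      refine ⟨(fun j => f (i.succAbove j), h1), ?_⟩
      apply eq_of_mult
      intro n
      rw [prod_dvd, pi_dvd, pi_dvd, Fin.forall_iff_succAbove i, hh1, and_comm]
    · push Not at hex
      have hfin : ({n : ℕ | n ∈ Set.range (orderOf : G → ℕ) ∧
          ∀ m ∈ Set.range (orderOf : G → ℕ), n ∣ m → m = n} \
          {n : ℕ | n ∈ Set.range (orderOf : H → ℕ) ∧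
          ∀ m ∈ Set.range (orderOf : H → ℕ), n ∣ m → m = n}).Finite :=
        (Set.finite_range (orderOf : G → ℕ)).subset (fun n hn => hn.1.1)
      obtain ⟨i, _, j, _, hij, hmij⟩ := Set.exists_ne_map_eq_of_ncard_lt_of_maps_to
        (s := (Set.univ : Set (Fin (k' + 1)))) (t := ({n : ℕ | n ∈ Set.range (orderOf : G → ℕ) ∧
          ∀ m ∈ Set.range (orderOf : G → ℕ), n ∣ m → m = n} \
          {n : ℕ | n ∈ Set.range (orderOf : H → ℕ) ∧
          ∀ m ∈ Set.range (orderOf : H → ℕ), n ∣ m → m = n})) (f := m) (by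
          rw [Set.ncard_univ, Nat.card_fin]; exact hfew) (fun a _ => ⟨hm a, hex a⟩) hfin
      obtain ⟨g1, hg1⟩ := (hm i).1
      obtain ⟨g0, hg0⟩ := exists_div g1 (Nat.lcm (orderOf (f i)) (orderOf (f j))) (by
        rw [hg1]
        exact Nat.lcm_dvd (hfm i) (hmij ▸ hfm j))
      obtain ⟨l0, hl0⟩ := Fin.exists_succAbove_eq hij
      refine ⟨(fun l => if l = l0 then g0 else f (j.succAbove l), 1), ?_⟩
      apply eq_of_mult
      intro n
      rw [prod_dvd, pi_dvd, pi_dvd, Fin.forall_iff_succAbove j]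
      simp only [orderOf_one, one_dvd, and_true]
      constructor
      · intro h
        have h0 := h l0
        rw [if_pos rfl, hg0, Nat.lcm_dvd_iff] at h0
        refine ⟨h0.2, fun l => ?_⟩
        by_cases hl : l = l0
        · rw [hl, hl0]; exact h0.1
        · have := h l
          rwa [if_neg hl] at this
      · rintro ⟨h1, h2⟩ l
        by_cases hl : l = l0
        · rw [if_pos hl, hg0]
          refine Nat.lcm_dvd ?_ h1
          rw [← hl0]; exact h2 l0
        · rw [if_neg hl]; exact h2 l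
  · rintro _ ⟨⟨F, h⟩, rfl⟩
    obtain ⟨m, hm, hhm⟩ := exists_max h
    obtain ⟨g, hg⟩ := (hsub hm).1
    obtain ⟨g1, hg1⟩ := exists_div g (orderOf h) (by rw [hg]; exact hhm)
    refine ⟨Fin.cons g1 F, ?_⟩
    apply eq_of_mult
    intro n
    rw [prod_dvd, pi_dvd, pi_dvd, Fin.forall_fin_succ]
    simp only [Fin.cons_zero, Fin.cons_succ, hg1]
    exact and_comm

end Cfsg.Agent.S2514
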