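import Cfsg.Statements.S2516
import Mathlib

set_option autoImplicit false
open Cfsg

namespace Cfsg.Agent.S2516

section
variable {F : Type*} [Field F] {V : Type*} [AddCommGroup V] [Module F V]
    {G : Type*} [Group G] (ρ : Representation F G V)

abbrev phi : G →* MulAut (Multiplicative V) := (MulAutMultiplicative V).symm.toMonoidHom.comp
        ((DistribMulAction.toAddAut ((V →ₗ[F] V)ˣ) V).comp ρ.asGroupHom)

theorem phi_apply (g : G) (v : V) : phi ρ g (Multiplicative.ofAdd v) = Multiplicative.ofAdd (ρ g v) := rfl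

theorem pow_eq (g : G) (v : V) (n : ℕ) :
    (⟨Multiplicative.ofAdd v, g⟩ : Multiplicative V ⋊[phi ρ] G) ^ n =
      ⟨Multiplicative.ofAdd (∑ i ∈ Finset.range n, ((ρ g) ^ i) v), g ^ n⟩ := by
  induction n with
  | zero => simp
  | succ n ih =>
    rw [pow_succ, ih]
    ext
    · simp only [SemidirectProduct.mul_left]
      rw [phi_apply, Finset.sum_range_succ, map_pow, ofAdd_add]
    · simp only [SemidirectProduct.mul_right, pow_succ]
end

/-- Let F be a field of characteristic p > 0, V a non-zero finite-dimensional F-vector space, G a finite group and ρ a representation of G on V; form the semidirect product V ⋊ G. For g ∈ G of order k, the coset Vg contains an element of order pk if and only if the minimal polynomial of ρ(g) does not divide 1 + X + ⋯ + X^(k−1). -/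
theorem result {F : Type*} [Field F] (p : ℕ) [Fact p.Prime] [CharP F p] {V : Type*} [AddCommGroup V] [Module F V] [FiniteDimensional F V] [Nontrivial V]
    {G : Type*} [Group G] [Finite G] (ρ : Representation F G V) (g : G) :
    (∃ x : Multiplicative V ⋊[(MulAutMultiplicative V).symm.toMonoidHom.comp
        ((DistribMulAction.toAddAut ((V →ₗ[F] V)ˣ) V).comp ρ.asGroupHom)] G,
        x.right = g ∧ orderOf x = p * orderOf g) ↔
      ¬ (minpoly F (ρ g) ∣ ∑ i ∈ Finset.range (orderOf g), (Polynomial.X : Polynomial F) ^ i) := by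
  classical
  have hk : orderOf g ≠ 0 := (orderOf_pos g).ne'
  rw [minpoly.dvd_iff]
  have haev : Polynomial.aeval (ρ g) (∑ i ∈ Finset.range (orderOf g), (Polynomial.X : Polynomial F) ^ i) =
      ∑ i ∈ Finset.range (orderOf g), (ρ g) ^ i := by
    simp
  rw [haev]
  have hord : ∀ v : V, orderOf (⟨Multiplicative.ofAdd v, g⟩ : Multiplicative V ⋊[phi ρ] G) =
      orderOf g * addOrderOf (∑ i ∈ Finset.range (orderOf g), ((ρ g) ^ i) v) := by
    intro v
    have h1 : orderOf g ∣ orderOf (⟨Multiplicative.ofAdd v, g⟩ : Multiplicative V ⋊[phi ρ] G) :=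
      orderOf_map_dvd (SemidirectProduct.rightHom (φ := phi ρ)) (⟨Multiplicative.ofAdd v, g⟩ : Multiplicative V ⋊[phi ρ] G)
    have h2 := orderOf_pow_of_dvd hk h1
    rw [pow_eq, pow_orderOf_eq_one] at h2
    have h3 : (⟨Multiplicative.ofAdd (∑ i ∈ Finset.range (orderOf g), ((ρ g) ^ i) v), 1⟩ : Multiplicative V ⋊[phi ρ] G) =
        SemidirectProduct.inl (Multiplicative.ofAdd (∑ i ∈ Finset.range (orderOf g), ((ρ g) ^ i) v)) := rfl
    rw [h3, orderOf_injective _ SemidirectProduct.inl_injective, orderOf_ofAdd_eq_addOrderOf] at h2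
    rw [h2, Nat.mul_div_cancel' h1]
  have hadd : ∀ w : V, w ≠ 0 → addOrderOf w = p := by
    intro w hw
    apply addOrderOf_eq_prime _ hw
    rw [← Nat.cast_smul_eq_nsmul F, CharP.cast_eq_zero, zero_smul]
  constructor
  · rintro ⟨x, hx, hxo⟩ h0
    obtain ⟨l, r⟩ := x
    simp only at hx
    subst hx
    have h1 := hord (Multiplicative.toAdd l)
    have h2 : (∑ i ∈ Finset.range (orderOf r), ((ρ r) ^ i) (Multiplicative.toAdd l)) = 0 := by
      rw [← LinearMap.sum_apply, h0]; rfl
    rw [h2, addOrderOf_zero, mul_one] at h1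
    have h3 : orderOf (⟨l, r⟩ : Multiplicative V ⋊[phi ρ] G) = p * orderOf r := hxo
    have h4 : orderOf (⟨l, r⟩ : Multiplicative V ⋊[phi ρ] G) = orderOf r := h1
    rw [h4] at h3
    have hp : 1 < p := (Fact.out : p.Prime).one_lt
    have : 0 < orderOf r := orderOf_pos r
    nlinarith
  · intro h0
    have : ∃ v : V, (∑ i ∈ Finset.range (orderOf g), (ρ g) ^ i) v ≠ 0 := by
      by_contra hcon
      push Not at hcon
      exact h0 (LinearMap.ext hcon)
    obtain ⟨v, hv⟩ := this
    rw [LinearMap.sum_apply] at hv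
    refine ⟨⟨Multiplicative.ofAdd v, g⟩, rfl, ?_⟩
    have h1 := hord v
    rw [hadd _ hv, mul_comm] at h1
    exact h1

end Cfsg.Agent.S2516
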