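import Cfsg.Statements.S2896
import Cfsg.Agent.Lib.Helper10.Parabolic

set_option autoImplicit false
open Cfsg
open Cfsg.Agent.Lib.Helper10

namespace Cfsg.Agent.S2896

/-- Let p be a prime dividing the order of the finite group G, S a Sylow p-subgroup of G and X a subgroup of S. (i) If some nontrivial element z of the centre of X has F*(C_G(z)) = O_p(C_G(z)), then F*(N_G(X)) = O_p(N_G(X)). (ii) G has parabolic characteristic p if and only if F*(C_G(z)) = O_p(C_G(z)) for every nontrivial z ∈ Ω₁(Z(S)). (iii) If F*(C_G(z)) = O_p(C_G(z)) for every element z of S of order p, then G has local characteristic p. -/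
theorem result {G : Type*} [Group G] [Finite G] {p : ℕ} [Fact p.Prime] (hdiv : p ∣ Nat.card G) (S : Sylow p G) (X : Subgroup G) (hX : X ≤ (S : Subgroup G)) : (∀ z : G, z ≠ 1 → z ∈ X → (∀ x ∈ X, x * z = z * x) → Cfsg.generalizedFittingSubgroup ↥(Subgroup.centralizer ({z} : Set G)) = Cfsg.pCore p ↥(Subgroup.centralizer ({z} : Set G)) → Cfsg.generalizedFittingSubgroup ↥(Subgroup.normalizer (X : Set G)) = Cfsg.pCore p ↥(Subgroup.normalizer (X : Set G))) ∧ (Cfsg.IsOfParabolicCharacteristic p G ↔ ∀ z : G, z ≠ 1 → z ∈ Cfsg.omegaOne p ((S : Subgroup G) ⊓ Subgroup.centralizer ((S : Subgroup G) : Set G)) → Cfsg.generalizedFittingSubgroup ↥(Subgroup.centralizer ({z} : Set G)) = Cfsg.pCore p ↥(Subgroup.centralizer ({z} : Set G))) ∧ ((∀ z : G, z ∈ (S : Subgroup G) → orderOf z = p → Cfsg.generalizedFittingSubgroup ↥(Subgroup.centralizer ({z} : Set G)) = Cfsg.pCore p ↥(Subgroup.centralizer ({z} : Set G))) → Cfsg.IsOfLocalCharacteristic p G) := by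
  have hp1 : ∀ z : G, orderOf z = p → z ≠ 1 := by
    intro z hz h
    rw [h, orderOf_one] at hz
    exact (Fact.out : p.Prime).one_lt.ne hz
  refine ⟨?_, ?_, ?_⟩
  · intro z _ hzX _ hC
    exact charPT_iff_genFitting_eq.mp
      (charPT_normalizer_of_mem (S.2.to_le hX) hzX (charPT_iff_genFitting_eq.mpr hC))
  · constructor
    · intro hG z hz1 hz
      have h1 := omegaOne_le p _ hz
      exact charPT_iff_genFitting_eq.mp (charPT_centralizer_of_parabolic hG S hz1 h1.1 h1.2)
    · intro h R hR hR1 ⟨T, hT⟩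
      rw [← charPT_iff_centralizer_le]
      apply charPT_normalizer_of_parabolic_local S _ hR hR1 T hT
      intro z hzo hzS hzc
      apply charPT_iff_genFitting_eq.mpr
      exact h z (hp1 z hzo) (mem_omegaOne (Subgroup.mem_inf.mpr ⟨hzS, hzc⟩)
        (by rw [← hzo]; exact pow_orderOf_eq_one z))
  · intro h
    refine ⟨hdiv, ?_⟩
    intro T hT hT1
    rw [← charPT_iff_centralizer_le]
    obtain ⟨t, htT, _, hto⟩ := exists_central_orderOf_eq hT hT1
    obtain ⟨Q, hQ⟩ := hT.exists_le_sylow
    obtain ⟨g, hg⟩ := sylow_exists_conj S Q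
    have h1 : g⁻¹ * t * g ∈ S := (hg t).mp (hQ htT)
    have h3 : orderOf (g⁻¹ * t * g) = p := by
      have := orderOf_conj_eq g⁻¹ t
      rw [inv_inv] at this
      rw [this, hto]
    have h4 := charPT_centralizer_conj g (charPT_iff_genFitting_eq.mpr (h _ h1 h3))
    have h5 : g * (g⁻¹ * t * g) * g⁻¹ = t := by group
    rw [h5] at h4
    exact charPT_normalizer_of_mem hT htT h4

end Cfsg.Agent.S2896
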