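import Cfsg.Statements.S2898
import Cfsg.Agent.Lib.Helper10.Parabolic

set_option autoImplicit false
open Cfsg
open Cfsg.Agent.Lib.Helper10

namespace Cfsg.Agent.S2898

theorem coprime_card_subgroupOf {G : Type*} [Group G] {p : ℕ} {H : Subgroup G} (K : Subgroup G)
    (h : (Nat.card H).Coprime p) : (Nat.card (H.subgroupOf K)).Coprime p := by
  apply Nat.Coprime.coprime_dvd_left _ h
  apply Subgroup.card_dvd_of_injective
    ((K.subtype.comp (H.subgroupOf K).subtype).codRestrict H (fun x => x.2))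
  intro a b hab
  have := congrArg Subtype.val hab
  exact Subtype.ext (Subtype.ext this)

theorem inverts_of_fixedPointFree {G : Type*} [Group G] {O : Subgroup G} [Finite O]
    (hOn : O.Normal) {z : G} (hzz : z * z = 1) (hfix : ∀ x ∈ O, x * z = z * x → x = 1) :
    ∀ y ∈ O, z * y * z⁻¹ = y⁻¹ := by
  intro y hy
  let f : O → O := fun x =>
    ⟨x.1⁻¹ * (z * x.1 * z⁻¹), mul_mem (inv_mem x.2) (hOn.conj_mem _ x.2 z)⟩
  have hinj : Function.Injective f := by
    intro a b hab
    have h : a.1⁻¹ * (z * a.1 * z⁻¹) = b.1⁻¹ * (z * b.1 * z⁻¹) := congrArg Subtype.val hab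
    have hc : (b.1 * a.1⁻¹) * z = z * (b.1 * a.1⁻¹) := by
      calc (b.1 * a.1⁻¹) * z = b.1 * (a.1⁻¹ * (z * a.1 * z⁻¹)) * z * a.1⁻¹ := by group
        _ = b.1 * (b.1⁻¹ * (z * b.1 * z⁻¹)) * z * a.1⁻¹ := by rw [h]
        _ = z * (b.1 * a.1⁻¹) := by group
    have h1 := hfix _ (mul_mem b.2 (inv_mem a.2)) hc
    apply Subtype.ext
    exact (mul_inv_eq_one.mp h1).symm
  obtain ⟨x, hx⟩ := (Finite.injective_iff_surjective.mp hinj) ⟨y, hy⟩
  have hyx : y = x.1⁻¹ * (z * x.1 * z⁻¹) := (congrArg Subtype.val hx).symm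
  have hzi : z⁻¹ = z := inv_eq_of_mul_eq_one_left hzz
  rw [hyx, hzi]
  calc z * (x.1⁻¹ * (z * x.1 * z)) * z = z * x.1⁻¹ * z * x.1 * (z * z) := by group
    _ = z * x.1⁻¹ * z * x.1 := by rw [hzz, mul_one]
    _ = z⁻¹ * x.1⁻¹ * z⁻¹ * x.1 := by rw [hzi]
    _ = (x.1⁻¹ * (z * x.1 * z))⁻¹ := by group

theorem eq_one_of_eq_inv_of_odd {G : Type*} [Group G] {O : Subgroup G}
    (hO : (Nat.card O).Coprime 2) {y : G} (hy : y ∈ O) (h : y = y⁻¹) : y = 1 := by
  have h1 : y ^ 2 = 1 := by
    rw [sq]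
    nth_rewrite 1 [h]
    exact inv_mul_cancel y
  have h2 : orderOf y ∣ 2 := orderOf_dvd_of_pow_eq_one h1
  have h3 := orderOf_coprime_of_mem hO hy
  have h4 : orderOf y = 1 := Nat.Coprime.eq_one_of_dvd h3 h2
  exact orderOf_eq_one_iff.mp h4

/-- Let G be a finite group of even order with parabolic characteristic 2. If the centre of G ⧸ O(G) is trivial, then O(G) = 1. -/
theorem result {G : Type*} [Group G] [Finite G] (h2 : 2 ∣ Nat.card G) (hG : Cfsg.IsOfParabolicCharacteristic 2 G) [hN : (Cfsg.oddCore G).Normal] (hZ : Subgroup.center (G ⧸ Cfsg.oddCore G) = ⊥) : Cfsg.oddCore G = ⊥ := by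
  obtain ⟨S⟩ : Nonempty (Sylow 2 G) := inferInstance
  have hS1 : (S : Subgroup G) ≠ ⊥ := S.ne_bot_of_dvd_card h2
  have hOodd : (Nat.card (Cfsg.pPrimeCore 2 G)).Coprime 2 := pPrimeCore_coprime 2 G
  have hinv : ∀ z : G, orderOf z = 2 → z ∈ S → (∀ t ∈ (S : Subgroup G), t * z = z * t) →
      ∀ y ∈ Cfsg.pPrimeCore 2 G, z * y * z⁻¹ = y⁻¹ := by
    intro z hzo hzS hzc
    have hz1 : z ≠ 1 := by
      intro h
      rw [h, orderOf_one] at hzo
      omega
    have hzc' : z ∈ Subgroup.centralizer ((S : Subgroup G) : Set G) :=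
      Subgroup.mem_centralizer_iff.mpr (fun t ht => hzc t ht)
    have hch := charPT_centralizer_of_parabolic hG S hz1 hzS hzc'
    apply inverts_of_fixedPointFree hN
    · have := pow_orderOf_eq_one z
      rwa [hzo, sq] at this
    · intro x hx hxz
      have h1 : (Cfsg.pPrimeCore 2 G).subgroupOf (Subgroup.centralizer ({z} : Set G))
          ≤ Cfsg.pPrimeCore 2 ↥(Subgroup.centralizer ({z} : Set G)) :=
        le_pPrimeCore inferInstance (coprime_card_subgroupOf _ hOodd)
      rw [hch.2] at h1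
      have h3 : (⟨x, Subgroup.mem_centralizer_singleton_iff.mpr hxz⟩ :
          Subgroup.centralizer ({z} : Set G)) ∈
          (Cfsg.pPrimeCore 2 G).subgroupOf (Subgroup.centralizer ({z} : Set G)) := hx
      have h4 := h1 h3
      rw [Subgroup.mem_bot] at h4
      exact congrArg Subtype.val h4
  have hCn : (Subgroup.centralizer (Cfsg.pPrimeCore 2 G : Set G)).Normal := inferInstance
  by_cases hSC : (S : Subgroup G) ⊓ Subgroup.centralizer (Cfsg.pPrimeCore 2 G : Set G) = ⊥
  · exfalso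
    obtain ⟨z, hzS, hzc, hzo⟩ := exists_central_orderOf_eq S.2 hS1
    have hCodd : (Nat.card (Subgroup.centralizer (Cfsg.pPrimeCore 2 G : Set G))).Coprime 2 := by
      rw [Nat.coprime_comm, Nat.Prime.coprime_iff_not_dvd Nat.prime_two]
      intro hd
      obtain ⟨c, hc⟩ := exists_prime_orderOf_dvd_card' 2 hd
      have hcp : IsPGroup 2 (Subgroup.zpowers (c : G)) := by
        apply IsPGroup.of_card (n := 1)
        rw [Nat.card_zpowers, Subgroup.orderOf_coe, hc, pow_one]
      obtain ⟨Q, hQ⟩ := hcp.exists_le_sylow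
      obtain ⟨g, hg⟩ := sylow_exists_conj S Q
      have h1 : g⁻¹ * (c : G) * g ∈ S := (hg _).mp (hQ (Subgroup.mem_zpowers _))
      have h2 : g⁻¹ * (c : G) * g ∈ Subgroup.centralizer (Cfsg.pPrimeCore 2 G : Set G) := by
        have := hCn.conj_mem _ c.2 g⁻¹
        rwa [inv_inv] at this
      have h3 : g⁻¹ * (c : G) * g ∈ (S : Subgroup G) ⊓
          Subgroup.centralizer (Cfsg.pPrimeCore 2 G : Set G) := ⟨h1, h2⟩
      rw [hSC, Subgroup.mem_bot] at h3
      have hc1 : (c : G) ≠ 1 := by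
        intro h
        have : c = 1 := Subtype.ext h
        rw [this, orderOf_one] at hc
        omega
      exact conj_ne_one hc1 h3
    have hCO : Subgroup.centralizer (Cfsg.pPrimeCore 2 G : Set G) ≤ Cfsg.pPrimeCore 2 G :=
      le_pPrimeCore hCn hCodd
    have hz := hinv z hzo hzS hzc
    have hzcen : (QuotientGroup.mk z : G ⧸ Cfsg.oddCore G) ∈
        Subgroup.center (G ⧸ Cfsg.oddCore G) := by
      rw [Subgroup.mem_center_iff]
      intro q
      obtain ⟨g, rfl⟩ := QuotientGroup.mk_surjective q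
      rw [← QuotientGroup.mk_mul, ← QuotientGroup.mk_mul]
      apply QuotientGroup.eq.mpr
      apply hCO
      rw [Subgroup.mem_centralizer_iff]
      intro y hy
      have hy' : y ∈ Cfsg.pPrimeCore 2 G := hy
      have e2 := hz y hy'
      have e1 := hz (g * y * g⁻¹) (hN.conj_mem _ hy' g)
      symm
      calc (g * z)⁻¹ * (z * g) * y = z⁻¹ * g⁻¹ * (z * (g * y * g⁻¹) * z⁻¹) * z * g := by group
        _ = z⁻¹ * g⁻¹ * (g * y * g⁻¹)⁻¹ * z * g := by rw [e1]
        _ = z⁻¹ * y⁻¹ * g⁻¹ * z * g := by group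
        _ = z⁻¹ * (z * y * z⁻¹) * g⁻¹ * z * g := by rw [e2]
        _ = y * ((g * z)⁻¹ * (z * g)) := by group
    rw [hZ, Subgroup.mem_bot, QuotientGroup.eq_one_iff] at hzcen
    have h5 := orderOf_coprime_of_mem hOodd hzcen
    rw [hzo] at h5
    exact absurd h5 (by decide)
  · obtain ⟨z, hzR, hzo, hzc⟩ := exists_mem_center_of_le_normalizer S.2 hSC inf_le_left
      (by
        intro s hs
        rw [Subgroup.mem_normalizer_iff]
        intro x
        rw [Subgroup.mem_inf, Subgroup.mem_inf]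
        constructor
        · rintro ⟨h1, h2⟩
          exact ⟨(S : Subgroup G).mul_mem ((S : Subgroup G).mul_mem hs h1)
            ((S : Subgroup G).inv_mem hs), hCn.conj_mem _ h2 s⟩
        · rintro ⟨h1, h2⟩
          have e : s⁻¹ * (s * x * s⁻¹) * s = x := by group
          refine ⟨?_, ?_⟩
          · have := (S : Subgroup G).mul_mem ((S : Subgroup G).mul_mem
              ((S : Subgroup G).inv_mem hs) h1) hs
            rwa [e] at this
          · have := hCn.conj_mem _ h2 s⁻¹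
            rwa [inv_inv, e] at this)
    have hz := hinv z hzo hzR.1 hzc
    rw [Subgroup.eq_bot_iff_forall]
    intro y hy
    apply eq_one_of_eq_inv_of_odd hOodd hy
    have h1 := hz y hy
    have h2 := Subgroup.mem_centralizer_iff.mp hzR.2 y hy
    rw [← h1, ← h2]; group

end Cfsg.Agent.S2898
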