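import Cfsg.Statements.S2907
-- import your own Cfsg.Agent.* helpers here
import Mathlib

set_option autoImplicit false
open Cfsg

namespace Cfsg.Agent.S2907

/-- Let X be a finite semi-extraspecial p-group and x an element of X outside the centre. Then the index of C_X(x) in X equals the order of Z(X), and the commutators [x, y], y ∈ X, form exactly the centre Z(X). -/
theorem result {X : Type*} [Group X] [Finite X] {p : ℕ} [Fact p.Prime] (hX : Cfsg.IsSemiExtraspecial p X) (x : X) (hx : x ∉ Subgroup.center X) : (Subgroup.centralizer ({x} : Set X)).index = Nat.card ↥(Subgroup.center X) ∧ {z : X | ∃ y : X, z = x * y * x⁻¹ * y⁻¹} = (Subgroup.center X : Set X) := by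
  classical
  obtain ⟨⟨hp, hfr, hcomm⟩, hY⟩ := hX
  have hcen : ∀ a b : X, a * b * a⁻¹ * b⁻¹ ∈ Subgroup.center X := by
    intro a b
    rw [← hcomm]
    exact Subgroup.commutator_mem_commutator (Subgroup.mem_top a) (Subgroup.mem_top b)
  let f : X →* X := MonoidHom.mk' (fun y => x * y * x⁻¹ * y⁻¹) (by
    intro a b
    have h := hcen x b
    rw [Subgroup.mem_center_iff] at h
    calc x * (a * b) * x⁻¹ * (a * b)⁻¹ = x * a * x⁻¹ * ((x * b * x⁻¹ * b⁻¹) * a⁻¹) := by group
      _ = x * a * x⁻¹ * (a⁻¹ * (x * b * x⁻¹ * b⁻¹)) := by rw [h a⁻¹]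
      _ = x * a * x⁻¹ * a⁻¹ * (x * b * x⁻¹ * b⁻¹) := by group)
  have hf : ∀ y, f y = x * y * x⁻¹ * y⁻¹ := fun y => rfl
  have hker : f.ker = Subgroup.centralizer ({x} : Set X) := by
    ext y
    rw [MonoidHom.mem_ker, hf, Subgroup.mem_centralizer_singleton_iff]
    constructor
    · intro h
      have : x * y = (x * y * x⁻¹ * y⁻¹) * (y * x) := by group
      rw [this, h, one_mul]
    · intro h
      rw [← h]; group
  have hrle : f.range ≤ Subgroup.center X := by
    rintro _ ⟨y, rfl⟩
    exact hcen x y
  have hrange : f.range = Subgroup.center X := by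
    by_contra hne
    have hI : (f.range).subgroupOf (Subgroup.center X) ≠ ⊤ := by
      intro h
      rw [Subgroup.subgroupOf_eq_top] at h
      exact hne (le_antisymm hrle h)
    obtain ⟨M, hM, hIM⟩ := (eq_top_or_exists_le_coatom _).resolve_left hI
    have hYM : (M.map (Subgroup.center X).subtype).subgroupOf (Subgroup.center X) = M :=
      Subgroup.comap_map_eq_self_of_injective (Subgroup.subtype_injective _) M
    have hYle : M.map (Subgroup.center X).subtype ≤ Subgroup.center X := by
      rintro _ ⟨c, -, rfl⟩
      exact c.2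
    obtain ⟨hYn, ⟨-, hcard⟩⟩ := hY (M.map (Subgroup.center X).subtype) hYle (by rw [hYM]; exact hM)
    have hfY : ∀ y, f y ∈ M.map (Subgroup.center X).subtype := by
      intro y
      refine ⟨⟨f y, hcen x y⟩, hIM ?_, rfl⟩
      rw [Subgroup.mem_subgroupOf]
      exact ⟨y, rfl⟩
    have hxc : (QuotientGroup.mk' (M.map (Subgroup.center X).subtype) x) ∈
        Subgroup.center (X ⧸ M.map (Subgroup.center X).subtype) := by
      rw [Subgroup.mem_center_iff]
      intro q
      obtain ⟨y, rfl⟩ := QuotientGroup.mk'_surjective _ q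
      rw [← map_mul, ← map_mul]
      apply (QuotientGroup.eq).mpr
      have h1 := (M.map (Subgroup.center X).subtype).inv_mem (hfY y⁻¹)
      have h2 := hYn.conj_mem _ h1 x⁻¹
      rw [hf] at h2
      convert h2 using 1
      group
    have hle : (Subgroup.center X).map (QuotientGroup.mk' (M.map (Subgroup.center X).subtype)) ≤
        Subgroup.center (X ⧸ M.map (Subgroup.center X).subtype) := by
      rintro _ ⟨c, hc, rfl⟩
      rw [Subgroup.mem_center_iff]
      intro q
      obtain ⟨y, rfl⟩ := QuotientGroup.mk'_surjective _ q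
      rw [← map_mul, ← map_mul]
      have hc' : c ∈ Subgroup.center X := hc
      rw [Subgroup.mem_center_iff] at hc'
      rw [hc' y]
    have hne1 : (Subgroup.center X).map (QuotientGroup.mk' (M.map (Subgroup.center X).subtype)) ≠ ⊥ := by
      intro h
      apply hM.1
      rw [eq_top_iff]
      intro c _
      have : QuotientGroup.mk' (M.map (Subgroup.center X).subtype) (c : X) ∈
          (Subgroup.center X).map (QuotientGroup.mk' (M.map (Subgroup.center X).subtype)) :=
        ⟨c, c.2, rfl⟩
      rw [h, Subgroup.mem_bot] at this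
      have h3 : (c : X) ∈ M.map (Subgroup.center X).subtype :=
        (QuotientGroup.eq_one_iff _).mp this
      obtain ⟨d, hd, hdc⟩ := h3
      have : d = c := Subtype.ext hdc
      rw [← this]; exact hd
    have heq : (Subgroup.center X).map (QuotientGroup.mk' (M.map (Subgroup.center X).subtype)) =
        Subgroup.center (X ⧸ M.map (Subgroup.center X).subtype) := by
      apply Subgroup.eq_of_le_of_card_ge hle
      rw [hcard]
      have hdvd := Subgroup.card_dvd_of_le hle
      rw [hcard] at hdvd
      rcases (Nat.dvd_prime (Fact.out : p.Prime)).mp hdvd with h | h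
      · exact absurd ((Subgroup.card_eq_one).mp h) hne1
      · exact h.ge
    rw [← heq] at hxc
    obtain ⟨c, hc, hcx⟩ := hxc
    have h4 : c⁻¹ * x ∈ M.map (Subgroup.center X).subtype := (QuotientGroup.eq).mp hcx
    apply hx
    have : x = c * (c⁻¹ * x) := by group
    rw [this]
    exact (Subgroup.center X).mul_mem hc (hYle h4)
  constructor
  · rw [← hker, Subgroup.index_ker, hrange]
  · rw [← hrange]
    ext z
    simp only [Set.mem_ofPred_eq, SetLike.mem_coe, MonoidHom.mem_range]
    constructor
    · rintro ⟨y, rfl⟩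
      exact ⟨y, rfl⟩
    · rintro ⟨y, rfl⟩
      exact ⟨y, rfl⟩

end Cfsg.Agent.S2907
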