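import Cfsg.Statements.S2908
import Cfsg.Agent.Lib.Helper1.ThreeSub
import Cfsg.Agent.Lib.Helper1.Coprime

set_option autoImplicit false
open Cfsg

namespace Cfsg.Agent.S2908

/-- Let P be a p-subgroup of a finite group, normalized by a p-subgroup A and by a subgroup B of order prime to p that commutes elementwise with A. If [P, B] ≤ [P, A], then B centralizes P. -/
theorem result {G : Type*} [Group G] [Finite G] {p : ℕ} [Fact p.Prime] (P A B : Subgroup G) (hP : IsPGroup p ↥P) (hA : IsPGroup p ↥A) (hB : ¬ p ∣ Nat.card ↥B) (hnA : A ≤ Subgroup.normalizer (P : Set G)) (hnB : B ≤ Subgroup.normalizer (P : Set G)) (hAB : ⁅A, B⁆ = ⊥) (hcomm : ⁅P, B⁆ ≤ ⁅P, A⁆) : ⁅P, B⁆ = ⊥ := by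
  by_contra hne
  have hBp : (Nat.card B).Coprime p := ((Nat.Prime.coprime_iff_not_dvd Fact.out).mpr hB).symm
  have hcop : (Nat.card B).Coprime (Nat.card P) :=
    Cfsg.Agent.Lib.Helper1.coprime_card_of_isPGroup hBp hP
  have hPsolv : Group.IsSolvable P := Cfsg.Agent.Lib.Helper1.isSolvable_of_isPGroup hP
  have hQQ : ⁅⁅P, B⁆, B⁆ = ⁅P, B⁆ := Cfsg.Agent.Lib.Helper1.coprime_comm_comm B P hnB hcop (Or.inr hPsolv)
  have hQP : ⁅P, B⁆ ≤ P := Subgroup.le_normalizer_iff_commutator_le_left.mp hnB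
  have hAcB : A ≤ Subgroup.normalizer (B : Set G) := by
    have h1 : A ≤ Subgroup.centralizer (B : Set G) := by
      rw [← Subgroup.commutator_eq_bot_iff_le_centralizer]
      exact hAB
    exact h1.trans (Subgroup.centralizer_le_normalizer _)
  have hBcA : B ≤ Subgroup.normalizer (A : Set G) := by
    have h1 : B ≤ Subgroup.centralizer (A : Set G) := by
      rw [← Subgroup.commutator_eq_bot_iff_le_centralizer, Subgroup.commutator_comm]
      exact hAB
    exact h1.trans (Subgroup.centralizer_le_normalizer _)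
  have hQp : IsPGroup p (⁅P, B⁆ : Subgroup G) := hP.to_le hQP
  have hXp : IsPGroup p (A ⊔ P : Subgroup G) := hA.to_sup_of_normal_right' hP hnA
  have hAQ : A ≤ Subgroup.normalizer ((⁅P, B⁆ : Subgroup G) : Set G) :=
    Cfsg.Agent.Lib.Helper1.le_normalizer_commutator hnA hAcB
  have hPQ : P ≤ Subgroup.normalizer ((⁅P, B⁆ : Subgroup G) : Set G) :=
    Subgroup.normalizer_commutator_ge_left P B
  have hBQ : B ≤ Subgroup.normalizer ((⁅P, B⁆ : Subgroup G) : Set G) :=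
    Subgroup.normalizer_commutator_ge_right P B
  have hXQ : A ⊔ P ≤ Subgroup.normalizer ((⁅P, B⁆ : Subgroup G) : Set G) := sup_le hAQ hPQ
  have hlt := Cfsg.Agent.Lib.Helper1.commutator_lt_of_isPGroup hQp hXp hXQ hne
  have hXN : A ⊔ P ≤ Subgroup.normalizer ((⁅⁅P, B⁆, A ⊔ P⁆ : Subgroup G) : Set G) :=
    Subgroup.normalizer_commutator_ge_right _ _
  have hBX : B ≤ Subgroup.normalizer ((A ⊔ P : Subgroup G) : Set G) :=
    (le_inf hBcA hnB).trans (Subgroup.normalizer_inf_normalizer_le_normalizer_sup _ _)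
  have hBN : B ≤ Subgroup.normalizer ((⁅⁅P, B⁆, A ⊔ P⁆ : Subgroup G) : Set G) :=
    Cfsg.Agent.Lib.Helper1.le_normalizer_commutator hBQ hBX
  have h3 : ⁅⁅P, A⁆, B⁆ ≤ ⁅⁅P, B⁆, A ⊔ P⁆ := by
    apply Cfsg.Agent.Lib.Helper1.commutator_commutator_le_of_rotate' P A B _
      (le_sup_right.trans hXN) (le_sup_left.trans hXN) hBN
    · rw [hAB, Subgroup.commutator_bot_left]
      exact bot_le
    · rw [Subgroup.commutator_comm B P]
      exact Subgroup.commutator_mono le_rfl le_sup_left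
  have h4 : ⁅P, B⁆ ≤ ⁅⁅P, B⁆, A ⊔ P⁆ := by
    calc ⁅P, B⁆ = ⁅⁅P, B⁆, B⁆ := hQQ.symm
      _ ≤ ⁅⁅P, A⁆, B⁆ := Subgroup.commutator_mono hcomm le_rfl
      _ ≤ _ := h3
  exact absurd hlt (not_lt_of_ge h4)

end Cfsg.Agent.S2908
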