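import Cfsg.Statements.S2909
import Cfsg.Agent.Lib.Helper17.FStar
import Cfsg.Agent.S0027
import Cfsg.Agent.S0028
import Cfsg.Agent.S0058

set_option autoImplicit false
open Cfsg

namespace Cfsg.Agent.S2909

open Cfsg.Agent.Lib.Helper17 in
open scoped commutatorElement in
theorem dual_PQ {G : Type*} [Group G] [Finite G] {p : ℕ} [Fact p.Prime] {E Q : Subgroup G} {u : G}
    (hE : IsPGroup p E) (hQ : (Nat.card Q).Coprime p)
    (hu : u ∈ Subgroup.normalizer (E : Set G)) (hup : IsPGroup p (Subgroup.zpowers u))
    (hQE : Q ≤ Subgroup.normalizer (E : Set G)) (hQu : Q ≤ Subgroup.centralizer ({u} : Set G))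
    (h : ⁅E, Q⁆ ≤ ⁅E, Subgroup.zpowers u⁆) : Q ≤ Subgroup.centralizer (E : Set G) := by
  have hcop : (Nat.card Q).Coprime (Nat.card E) := by
    obtain ⟨n, hn⟩ := IsPGroup.iff_card.mp hE
    rw [hn]; exact Nat.Coprime.pow_right n hQ
  have hsolv : Group.IsSolvable Q ∨ Group.IsSolvable E := Or.inr (isSolvable_of_isPGroup hE)
  have h26 := Cfsg.Agent.S0026.result Q E hQE hcop hsolv
  have h27 := Cfsg.Agent.S0027.result Q E hQE hcop hsolv
  set W := ⁅E, Q⁆ with hW
  set Z := Subgroup.zpowers u with hZ
  have hZE : Z ≤ Subgroup.normalizer (E : Set G) := by rw [hZ, Subgroup.zpowers_le]; exact hu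
  have hZQ : Z ≤ Subgroup.centralizer (Q : Set G) := by
    rw [hZ, Subgroup.zpowers_le, Subgroup.mem_centralizer_iff]
    intro q hq
    exact (Subgroup.mem_centralizer_iff.mp (hQu hq) u rfl).symm
  have hQZ : Q ≤ Subgroup.centralizer (Z : Set G) := Subgroup.le_centralizer_iff.mp hZQ
  set P := E ⊔ Z with hP
  have hPp : IsPGroup p P := IsPGroup.to_sup_of_normal_left' hE hup hZE
  have hWE : W ≤ E := commutator_le_left_of_le_normalizer hQE
  have hPW : P ≤ Subgroup.normalizer (W : Set G) :=
    sup_le (le_normalizer_commutator_left E Q)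
      (le_normalizer_commutator hZE (hZQ.trans (centralizer_le_normalizer' Q)))
  set D := ⁅W, P⁆ with hD
  have hDW : D ≤ W := commutator_le_left_of_le_normalizer hPW
  have hPD : P ≤ Subgroup.normalizer (D : Set G) :=
    le_normalizer_commutator hPW Subgroup.le_normalizer
  have hQD : Q ≤ Subgroup.normalizer (D : Set G) :=
    le_normalizer_commutator (le_normalizer_commutator hQE Subgroup.le_normalizer)
      (le_normalizer_sup hQE (hQZ.trans (centralizer_le_normalizer' Z)))
  set C := E ⊓ Subgroup.centralizer (Q : Set G) with hC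
  have hCP : C ≤ P := inf_le_left.trans le_sup_left
  have h2 : ⁅E, Z⁆ ≤ C ⊔ D := by
    rw [Subgroup.commutator_le]
    intro e he x hx
    rw [← h26, sup_comm, mem_sup_of_le_normalizer (hCP.trans hPW)] at he
    obtain ⟨c, hc, w, hw, rfl⟩ := he
    have e1 : ⁅c * w, x⁆ = c * ⁅w, x⁆ * c⁻¹ * ⁅c, x⁆ := by
      simp only [commutatorElement_def]; group
    rw [e1]
    apply Subgroup.mul_mem
    · apply Subgroup.mem_sup_right
      exact conj_mem_of_le_normalizer (hCP.trans hPD) hc
        (Subgroup.commutator_mem_commutator hw (Subgroup.mem_sup_right hx))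
    · apply Subgroup.mem_sup_left
      constructor
      · rw [commutatorElement_def]
        have e2 : c * x * c⁻¹ * x⁻¹ = c * (x * c⁻¹ * x⁻¹) := by group
        rw [e2]
        exact E.mul_mem hc.1 (conj_mem_of_le_normalizer hZE hx (E.inv_mem hc.1))
      · rw [commutatorElement_def]
        exact Subgroup.mul_mem _ (Subgroup.mul_mem _ (Subgroup.mul_mem _ hc.2 (hZQ hx))
          (Subgroup.inv_mem _ hc.2)) (Subgroup.inv_mem _ (hZQ hx))
  have h3 : ⁅W, Q⁆ ≤ D := by
    rw [Subgroup.commutator_le]
    intro w hw q hq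
    have hw' := (h.trans h2) hw
    rw [mem_sup_of_le_normalizer (hCP.trans hPD)] at hw'
    obtain ⟨c, hc, d, hd, rfl⟩ := hw'
    have hcq : q * c = c * q := Subgroup.mem_centralizer_iff.mp hc.2 q hq
    have e1 : ⁅c * d, q⁆ = c * (d * (q * d⁻¹ * q⁻¹)) * c⁻¹ := by
      simp only [commutatorElement_def]
      calc c * d * q * (c * d)⁻¹ * q⁻¹ = c * d * q * d⁻¹ * (q * c)⁻¹ := by group
        _ = c * d * q * d⁻¹ * (c * q)⁻¹ := by rw [hcq]
        _ = c * (d * (q * d⁻¹ * q⁻¹)) * c⁻¹ := by group
    rw [e1]
    exact conj_mem_of_le_normalizer (hCP.trans hPD) hc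
      (D.mul_mem hd (conj_mem_of_le_normalizer hQD hq (D.inv_mem hd)))
  rw [h27] at h3
  have hWbot : W = ⊥ := by
    by_contra hne
    exact commutator_ne_self_of_isPGroup hPp (hWE.trans le_sup_left) hne (le_antisymm hDW h3)
  rw [hW, Subgroup.commutator_comm, Subgroup.commutator_eq_bot_iff_le_centralizer] at hWbot
  exact hWbot

/-- Let p be a prime, E a normal p-subgroup of the finite group G, and U a non-cyclic elementary abelian p-subgroup of G such that either C_E(U) = C_E(u) for every nontrivial u ∈ U, or [E, U] = [E, ⟨u⟩] for every nontrivial u ∈ U. If R is a subgroup of order prime to p normalized by U, then [R, U] centralizes E. -/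
theorem result {G : Type*} [Group G] [Finite G] {p : ℕ} [Fact p.Prime] (E : Subgroup G) [E.Normal] (hE : IsPGroup p ↥E) (U : Subgroup G) (hU : Cfsg.IsElementaryAbelian p U) (hnc : ¬ IsCyclic ↥U) (hcond : (∀ u ∈ U, u ≠ 1 → E ⊓ Subgroup.centralizer (U : Set G) = E ⊓ Subgroup.centralizer ({u} : Set G)) ∨ (∀ u ∈ U, u ≠ 1 → ⁅E, U⁆ = ⁅E, Subgroup.zpowers u⁆)) (R : Subgroup G) (hR : ¬ p ∣ Nat.card ↥R) (hRU : U ≤ Subgroup.normalizer (R : Set G)) : ⁅R, U⁆ ≤ Subgroup.centralizer (E : Set G) := by
  open Cfsg.Agent.Lib.Helper17 in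
  open scoped commutatorElement in
  have hEn : ∀ X : Subgroup G, X ≤ Subgroup.normalizer (E : Set G) :=
    fun X => top_le_normalizer_of_normal inferInstance X
  have hUea := isElementaryAbelian_iff.mp hU
  have hUp : IsPGroup p U := hUea.isPGroup
  have hRcop : (Nat.card R).Coprime p := by
    rw [Nat.coprime_comm]; exact (Nat.Prime.coprime_iff_not_dvd Fact.out).mpr hR
  have hUab : IsMulCommutative U := hU.1
  have hcop : (Nat.card U).Coprime (Nat.card R) := by
    obtain ⟨n, hn⟩ := IsPGroup.iff_card.mp hUp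
    rw [hn]; exact (Nat.Coprime.pow_right n hRcop).symm
  have h58 := Cfsg.Agent.S0058.result U R hnc hRU hcop
  set C := Subgroup.centralizer (E : Set G) with hC
  have hCn : C.Normal := inferInstance
  have key : ∀ u ∈ U, u ≠ 1 → ⁅R ⊓ Subgroup.centralizer ({u} : Set G), U⁆ ≤ C := by
    intro u hu hu1
    set Ru := R ⊓ Subgroup.centralizer ({u} : Set G) with hRu
    have hUu : U ≤ Subgroup.centralizer ({u} : Set G) := by
      intro v hv
      rw [Subgroup.mem_centralizer_iff]
      intro x hx
      rw [Set.mem_singleton_iff] at hx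
      rw [hx]
      exact hUea.1 u hu v hv
    have hcn : ∀ X : Subgroup G, X ≤ Subgroup.centralizer ({u} : Set G) →
        X ≤ Subgroup.normalizer ((Subgroup.centralizer ({u} : Set G) : Subgroup G) : Set G) :=
      fun X hX => hX.trans Subgroup.le_normalizer
    have hURu : U ≤ Subgroup.normalizer (Ru : Set G) := le_normalizer_inf hRU (hcn U hUu)
    set Q := ⁅Ru, U⁆ with hQ
    have hQRu : Q ≤ Ru := commutator_le_left_of_le_normalizer hURu
    have hQcop : (Nat.card Q).Coprime p := coprime_card_of_le (hQRu.trans inf_le_left) hRcop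
    have hzp : IsPGroup p (Subgroup.zpowers u) := hUp.to_le (by rwa [Subgroup.zpowers_le])
    have hcz : Subgroup.centralizer ((Subgroup.zpowers u : Subgroup G) : Set G) =
        Subgroup.centralizer ({u} : Set G) := by
      rw [Subgroup.zpowers_eq_closure, Subgroup.centralizer_closure]
    rcases hcond with hc | hc
    · apply Cfsg.Agent.S0028.result p (Subgroup.zpowers u) Q E hzp hQcop hE _ (hEn _) (hEn _)
      · rw [hcz, ← hc u hu hu1]
        set E₀ := E ⊓ Subgroup.centralizer (U : Set G) with hE₀
        have hRuE₀ : Ru ≤ Subgroup.normalizer (E₀ : Set G) := by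
          rw [hc u hu hu1]
          exact le_normalizer_inf (hEn _) (hcn Ru inf_le_right)
        have h1 : ⁅E₀, U⁆ = ⊥ := by
          rw [Subgroup.commutator_eq_bot_iff_le_centralizer]; exact inf_le_right
        have h2 : ⁅⁅Ru, U⁆, E₀⁆ = ⊥ := by
          apply Subgroup.commutator_commutator_eq_bot_of_rotate
          · rw [Subgroup.commutator_comm U E₀, h1, Subgroup.commutator_bot_left]
          · rw [eq_bot_iff, ← h1]
            exact Subgroup.commutator_mono (commutator_le_left_of_le_normalizer hRuE₀) le_rfl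
        rw [Subgroup.commutator_comm, Subgroup.commutator_eq_bot_iff_le_centralizer] at h2
        exact h2
      · rw [Subgroup.le_centralizer_iff, hcz]
        exact hQRu.trans inf_le_right
    · apply dual_PQ hE hQcop (hEn ⊤ (Subgroup.mem_top u)) hzp (hEn _) (hQRu.trans inf_le_right)
      rw [← hc u hu hu1]
      apply commutator_le_of_le_stabMod
      have hUst : U ≤ stabMod E ⁅E, U⁆ := by
        intro v hv
        refine ⟨le_normalizer_commutator (hEn U) Subgroup.le_normalizer hv, fun f hf => ?_⟩
        have := Subgroup.inv_mem _ (Subgroup.commutator_mem_commutator hf hv)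
        rwa [commutatorElement_inv, commutatorElement_def] at this
      have hRun : Ru ≤ Subgroup.normalizer (stabMod E ⁅E, U⁆ : Set G) := by
        apply le_normalizer_stabMod (hEn _)
        rw [hc u hu hu1]
        apply le_normalizer_commutator (hEn _)
        refine le_trans ?_ (centralizer_le_normalizer' _)
        rw [hcz]; exact inf_le_right
      rw [hQ, Subgroup.commutator_le]
      intro r hr v hv
      rw [commutatorElement_def]
      exact Subgroup.mul_mem _ (conj_mem_of_le_normalizer hRun hr (hUst hv))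
        (Subgroup.inv_mem _ (hUst hv))
  have hRst : R ≤ stabMod U C := by
    conv_lhs => rw [← h58]
    apply iSup₂_le
    intro u hu r hr
    rw [mem_stabMod]
    refine ⟨top_le_normalizer_of_normal hCn ⊤ (Subgroup.mem_top r), fun v hv => ?_⟩
    rw [← commutatorElement_def]
    exact key u hu.1 hu.2 (Subgroup.commutator_mem_commutator hr hv)
  rw [Subgroup.commutator_comm]
  exact commutator_le_of_le_stabMod hRst

end Cfsg.Agent.S2909
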