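import Cfsg.Statements.S2910
import Cfsg.Agent.S0071
import Cfsg.Agent.S0120

set_option autoImplicit false
open Cfsg

namespace Cfsg.Agent.S2910

/-- Let p be an odd prime dividing the order of the finite group G and P a Sylow p-subgroup of G. If Ω₁(P) (generated by the elements of order dividing p) is contained in the centre of G, then G has a normal p-complement. In particular, if G is quasisimple then Ω₁(P) is not central in G. -/
theorem result {G : Type*} [Group G] [Finite G] {p : ℕ} [Fact p.Prime] (hp : p ≠ 2) (hdiv : p ∣ Nat.card G) (P : Sylow p G) (hZ : Cfsg.omegaOne p (P : Subgroup G) ≤ Subgroup.center G) : Cfsg.HasNormalPComplement p G ∧ ¬ Cfsg.IsQuasisimple G := by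
  have hnpc : ∃ N : Subgroup G, N.Normal ∧ N.IsComplement' (P : Subgroup G) := by
    rw [Cfsg.Agent.S0071.result P]
    intro Q hQ g hg hgo
    have hQp : IsPGroup p Q := P.2.to_le hQ
    set a : MulAut Q := Q.normalizerMonoidHom ⟨g, hg⟩ with ha
    have hao : Nat.Coprime (orderOf a) p := by
      have h1 : orderOf a ∣ orderOf (⟨g, hg⟩ : Subgroup.normalizer (Q : Set G)) :=
        orderOf_map_dvd _ _
      rw [Subgroup.orderOf_mk] at h1
      exact Nat.Coprime.coprime_dvd_left h1 hgo
    have hax : ∀ x : Q, ((a x : Q) : G) = g * x * g⁻¹ := fun x => rfl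
    have h1 := Cfsg.Agent.S0120.result hp hQp a hao (by
      intro x hx
      apply Subtype.ext
      rw [hax]
      have hxz : (x : G) ∈ Subgroup.center G := by
        apply hZ
        apply Subgroup.subset_closure
        refine ⟨hQ x.2, ?_⟩
        have := congrArg Subtype.val hx
        simpa using this
      rw [Subgroup.mem_center_iff] at hxz
      rw [hxz g]; group)
    rw [Subgroup.mem_centralizer_iff]
    intro x hx
    have h2 := hax ⟨x, hx⟩
    rw [h1] at h2
    simp only [MulAut.one_apply] at h2
    calc x * g = (g * x * g⁻¹) * g := by rw [← h2]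
      _ = g * x := by group
  obtain ⟨N, hN, hc⟩ := hnpc
  refine ⟨⟨P, N, hN, hc⟩, ?_⟩
  rintro ⟨hperf, -⟩
  have hcard : Nat.card (G ⧸ N) = Nat.card (P : Subgroup G) := by
    have := hc.symm.index_eq_card
    rw [← this]; rfl
  have hpq : IsPGroup p (G ⧸ N) := by
    obtain ⟨n, hn⟩ := IsPGroup.iff_card.mp P.2
    exact IsPGroup.of_card (n := n) (by rw [hcard]; exact hn)
  have hnil : Group.IsNilpotent (G ⧸ N) := hpq.isNilpotent
  have hnt : Nontrivial (G ⧸ N) := by
    rw [← Finite.one_lt_card_iff_nontrivial, hcard]
    have h1 : p ∣ Nat.card (P : Subgroup G) := by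
      have := P.dvd_card_of_dvd_card hdiv
      exact this
    have h2 : 0 < Nat.card (P : Subgroup G) := Nat.card_pos
    have h3 := Nat.le_of_dvd h2 h1
    have h4 := (Fact.out : p.Prime).two_le
    omega
  exact Group.IsPerfect.not_isNilpotent (G := G ⧸ N) hnil

end Cfsg.Agent.S2910
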