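import Cfsg.Statements.S2925
import Cfsg.Agent.Lib.Helper10.SylSubn
import Cfsg.Agent.Lib.Helper10.Layer

set_option autoImplicit false
open Cfsg

namespace Cfsg.Agent.S2925

/-- Let K be a component of the finite group X and T a Sylow 2-subgroup of X. If some abelian normal subgroup Y of T does not normalize K, then K ⧸ Z(K) has abelian Sylow 2-subgroups. -/
theorem result {X : Type*} [Group X] [Finite X] (K : Subgroup X) (hK : Cfsg.IsComponent K) (T : Sylow 2 X) (Y : Subgroup X) (hYT : Y ≤ (T : Subgroup X)) (hYn : (Y.subgroupOf (T : Subgroup X)).Normal) (hYab : IsMulCommutative ↥Y) (hnot : ¬ Y ≤ Subgroup.normalizer (K : Set X)) (P : Sylow 2 (↥K ⧸ Subgroup.center ↥K)) : IsMulCommutative ↥(P : Subgroup (↥K ⧸ Subgroup.center ↥K)) := by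
  open Cfsg.Agent.Lib.Helper17 Cfsg.Agent.Lib.Helper10 in
  have hex : ∃ y ∈ Y, y ∉ Subgroup.normalizer (K : Set X) := by
    by_contra h
    push Not at h
    exact hnot h
  obtain ⟨y, hyY, hyN⟩ := hex
  set K' := K.map (MulAut.conj y).toMonoidHom with hK'
  have hK'c : Cfsg.IsComponent K' := isComponent_map_mulEquiv (MulAut.conj y) hK
  have hcomm : ⁅K, K'⁆ = ⊥ := by
    rcases components_eq_or_commute hK hK'c with h | h
    · exact absurd (mem_normalizer_iff_map_conj.mpr h.symm) hyN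
    · exact h
  have hc := commute_of_commutator_eq_bot hcomm
  have hYn := (Subgroup.normal_subgroupOf_iff_le_normalizer hYT).mp hYn
  have hYc : ∀ a ∈ Y, ∀ b ∈ Y, a * b = b * a := fun a ha b hb =>
    congrArg Subtype.val (hYab.is_comm.comm ⟨a, ha⟩ ⟨b, hb⟩)
  have key : ∀ a ∈ K ⊓ (T : Subgroup X), ∀ b ∈ K ⊓ (T : Subgroup X), ∀ k ∈ K,
      (a * b * a⁻¹ * b⁻¹) * k = k * (a * b * a⁻¹ * b⁻¹) := by
    intro a ha b hb k hk
    have hcY : ∀ x ∈ (T : Subgroup X), x⁻¹ * (y * x * y⁻¹) ∈ Y := by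
      intro x hx
      have h1 := conj_mem_of_le_normalizer hYn (inv_mem hx) hyY
      rw [inv_inv] at h1
      have e : x⁻¹ * (y * x * y⁻¹) = x⁻¹ * y * x * y⁻¹ := by group
      rw [e]
      exact Y.mul_mem h1 (Y.inv_mem hyY)
    have ha' : y * a * y⁻¹ ∈ K' := conj_mem_map_conj ha.1
    have hb' : y * b * y⁻¹ ∈ K' := conj_mem_map_conj hb.1
    set a' := y * a * y⁻¹ with ha'def
    set b' := y * b * y⁻¹ with hb'def
    have h1 := hYc _ (hcY a ha.2) _ (hcY b hb.2)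
    have e1 : a' * b⁻¹ = b⁻¹ * a' := (hc _ (K.inv_mem hb.1) _ ha').symm
    have e2 : b' * a⁻¹ = a⁻¹ * b' := (hc _ (K.inv_mem ha.1) _ hb').symm
    have h2 : a⁻¹ * b⁻¹ * (a' * b') = b⁻¹ * a⁻¹ * (b' * a') := by
      calc a⁻¹ * b⁻¹ * (a' * b') = a⁻¹ * (b⁻¹ * a') * b' := by group
        _ = a⁻¹ * (a' * b⁻¹) * b' := by rw [e1]
        _ = a⁻¹ * a' * (b⁻¹ * b') := by group
        _ = b⁻¹ * b' * (a⁻¹ * a') := h1
        _ = b⁻¹ * (b' * a⁻¹) * a' := by group
        _ = b⁻¹ * (a⁻¹ * b') * a' := by rw [e2]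
        _ = b⁻¹ * a⁻¹ * (b' * a') := by group
    have h3 : a * b * a⁻¹ * b⁻¹ = b' * a' * b'⁻¹ * a'⁻¹ := by
      calc a * b * a⁻¹ * b⁻¹ = a * b * (a⁻¹ * b⁻¹ * (a' * b')) * (a' * b')⁻¹ := by group
        _ = a * b * (b⁻¹ * a⁻¹ * (b' * a')) * (a' * b')⁻¹ := by rw [h2]
        _ = b' * a' * b'⁻¹ * a'⁻¹ := by group
    rw [h3]
    exact (hc k hk _ (K'.mul_mem (K'.mul_mem (K'.mul_mem hb' ha') (K'.inv_mem hb'))
      (K'.inv_mem ha'))).symm
  obtain ⟨SK, hSK⟩ := isSyl_inf_of_isSubnormal T hK.1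
  have hsurj : Function.Surjective (QuotientGroup.mk' (Subgroup.center ↥K)) :=
    QuotientGroup.mk'_surjective _
  set Q := SK.mapSurjective hsurj with hQ
  have hQc : ∀ u ∈ (Q : Subgroup (↥K ⧸ Subgroup.center ↥K)),
      ∀ v ∈ (Q : Subgroup (↥K ⧸ Subgroup.center ↥K)), u * v = v * u := by
    intro u hu v hv
    rw [hQ, Sylow.coe_mapSurjective] at hu hv
    obtain ⟨a, ha, rfl⟩ := hu
    obtain ⟨b, hb, rfl⟩ := hv
    have haT : (a : X) ∈ K ⊓ (T : Subgroup X) := by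
      rw [← hSK]; exact Subgroup.mem_map_of_mem _ ha
    have hbT : (b : X) ∈ K ⊓ (T : Subgroup X) := by
      rw [← hSK]; exact Subgroup.mem_map_of_mem _ hb
    have hz : a * b * a⁻¹ * b⁻¹ ∈ Subgroup.center ↥K := by
      rw [Subgroup.mem_center_iff]
      intro k
      apply Subtype.ext
      exact (key a haT b hbT k k.2).symm
    have h1 : QuotientGroup.mk' (Subgroup.center ↥K) (a * b * a⁻¹ * b⁻¹) = 1 :=
      (QuotientGroup.eq_one_iff _).mpr hz
    rw [map_mul, map_mul, map_mul, map_inv, map_inv] at h1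
    calc QuotientGroup.mk' (Subgroup.center ↥K) a * QuotientGroup.mk' (Subgroup.center ↥K) b
        = (QuotientGroup.mk' (Subgroup.center ↥K) a * QuotientGroup.mk' (Subgroup.center ↥K) b *
          (QuotientGroup.mk' (Subgroup.center ↥K) a)⁻¹ *
          (QuotientGroup.mk' (Subgroup.center ↥K) b)⁻¹) *
          (QuotientGroup.mk' (Subgroup.center ↥K) b * QuotientGroup.mk' (Subgroup.center ↥K) a) := by
            group
      _ = QuotientGroup.mk' (Subgroup.center ↥K) b * QuotientGroup.mk' (Subgroup.center ↥K) a := by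
            rw [h1, one_mul]
  obtain ⟨g, hg⟩ := sylow_conj Q P
  refine ⟨⟨fun u v => ?_⟩⟩
  apply Subtype.ext
  obtain ⟨u, hu⟩ := u
  obtain ⟨v, hv⟩ := v
  rw [hg, mem_map_conj] at hu hv
  have := hQc _ hu _ hv
  show u * v = v * u
  calc u * v = g * ((g⁻¹ * u * g) * (g⁻¹ * v * g)) * g⁻¹ := by group
    _ = g * ((g⁻¹ * v * g) * (g⁻¹ * u * g)) * g⁻¹ := by rw [this]
    _ = v * u := by group

end Cfsg.Agent.S2925
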