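import Cfsg.Statements.S2939
-- import your own Cfsg.Agent.* helpers here

set_option autoImplicit false
open Cfsg

namespace Cfsg.Agent.S2939

open Pointwise

theorem scr_eq {G : Type*} [Group G] (g : G) (X : Subgroup G) :
    subgroupConjRight g X = MulAut.conj g⁻¹ • X := rfl

theorem mem_cj {G : Type*} [Group G] {w a : G} {X : Subgroup G} :
    a ∈ MulAut.conj w • X ↔ w⁻¹ * a * w ∈ X := by
  rw [Subgroup.mem_pointwise_smul_iff_inv_smul_mem, ← map_inv, MulAut.smul_def, MulAut.conj_apply,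
    inv_inv]

theorem card_cj {G : Type*} [Group G] (w : G) (X : Subgroup G) :
    Nat.card (MulAut.conj w • X : Subgroup G) = Nat.card X :=
  (Nat.card_congr (Subgroup.equivSMul (MulAut.conj w) X).toEquiv).symm

theorem mem_sm_iff {G : Type*} [Group G] [Finite G] {p : ℕ} [Fact p.Prime]
    (𝓕 : Set (Subgroup G)) (S X : Subgroup G) :
    X ∈ sylowMembers p 𝓕 S ↔
      X ∈ 𝓕 ∧ Nat.card (S ⊓ X : Subgroup G) = p ^ (Nat.card X).factorization p := by
  constructor
  · rintro ⟨hX, P, hP⟩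
    refine ⟨hX, ?_⟩
    rw [← hP, Subgroup.card_map_of_injective X.subtype_injective]
    exact P.card_eq_multiplicity
  · rintro ⟨hX, hc⟩
    refine ⟨hX, Sylow.ofCard ((S ⊓ X).subgroupOf X) ?_, ?_⟩
    · rw [Nat.card_congr (Subgroup.subgroupOfEquivOfLe (inf_le_right : S ⊓ X ≤ X)).toEquiv]
      exact hc
    · rw [Sylow.coe_ofCard, Subgroup.map_subgroupOf_eq_of_le inf_le_right]

theorem sm_smul {G : Type*} [Group G] [Finite G] {p : ℕ} [Fact p.Prime]
    {𝓕 : Set (Subgroup G)} (h𝓕 : IsNormalSet 𝓕) (w : G) {S X : Subgroup G}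
    (h : X ∈ sylowMembers p 𝓕 S) :
    MulAut.conj w • X ∈ sylowMembers p 𝓕 (MulAut.conj w • S) := by
  rw [mem_sm_iff] at h ⊢
  refine ⟨?_, ?_⟩
  · have := h𝓕 X h.1 w⁻¹
    rwa [scr_eq, inv_inv] at this
  · rw [← Subgroup.smul_inf, card_cj, card_cj]
    exact h.2

theorem dir2 {G : Type*} [Group G] [Finite G] {p : ℕ} [Fact p.Prime]
    {𝓕 : Set (Subgroup G)} (h𝓕 : IsNormalSet 𝓕) (h : FamilyStronglyControlsFusion p 𝓕) :
    ControlsSylowIntersections p 𝓕 := by
  intro S T hST hne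
  obtain ⟨g, hg⟩ := MulAction.exists_smul_eq G S T
  have hA1 : (((S : Subgroup G) ⊓ T : Subgroup G) : Set G) ⊆ (S : Set G) := fun a ha => ha.1
  have hA2 : ∃ a ∈ (((S : Subgroup G) ⊓ T : Subgroup G) : Set G), a ≠ 1 := by
    obtain ⟨a, ha1⟩ := Subgroup.ne_bot_iff_exists_ne_one.mp hne
    exact ⟨a.1, a.2, fun e => ha1 (Subtype.ext e)⟩
  have hA3 : conjRight g (((S : Subgroup G) ⊓ T : Subgroup G) : Set G) ⊆ (S : Set G) := by
    rintro _ ⟨a, ha, rfl⟩
    have h1 : a ∈ ((g • S : Sylow p G) : Subgroup G) := hg ▸ ha.2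
    rw [Sylow.coe_subgroup_smul, mem_cj] at h1
    exact h1
  obtain ⟨n, Y, y, y0, hy0, hY, hgy, hAi⟩ := h S _ g hA1 hA2 hA3
  obtain ⟨u, hu⟩ : ∃ u : ℕ → G, u = fun i => ((List.ofFn y).take i).prod := ⟨_, rfl⟩
  have hu0 : u 0 = 1 := by simp [hu]
  have hus : ∀ i : Fin n, u (i.val + 1) = u i.val * y i := by
    intro i
    have := List.prod_take_succ (List.ofFn y) i.val (by simp)
    simp [hu, this]
  have hun : u n = (List.ofFn y).prod := by
    rw [hu]
    change (List.take n (List.ofFn y)).prod = _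
    rw [List.take_of_length_le (by simp)]
  refine ⟨n, fun i => u i.val • S, fun i => MulAut.conj (u (i.val + 1)) • Y i,
    fun i => u (i.val + 1) * (u i.val)⁻¹, ?_, ?_, ?_⟩
  · simp [hu0]
  · change u (Fin.last n).val • S = T
    rw [Fin.val_last, hun]
    have e : (List.ofFn y).prod = g * y0⁻¹ := by rw [hgy]; group
    rw [e, mul_smul, (Sylow.smul_eq_iff_mem_normalizer).mpr (inv_mem hy0), hg]
  · intro i
    have hX : MulAut.conj (u (i.val + 1)) • Y i = MulAut.conj (u i.val) • Y i := by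
      rw [hus i, map_mul, mul_smul, Subgroup.conj_smul_eq_self_of_mem (hY i).2]
    refine ⟨?_, ?_, ?_, ?_, ?_⟩
    · change MulAut.conj (u (i.val + 1)) • Y i ∈
        sylowMembers p 𝓕 (MulAut.conj (u i.val) • (S : Subgroup G))
      rw [hX]
      exact sm_smul h𝓕 (u i.val) (hY i).1
    · exact sm_smul h𝓕 (u (i.val + 1)) (hY i).1
    · change u (i.val + 1) * (u i.val)⁻¹ ∈ MulAut.conj (u (i.val + 1)) • Y i
      rw [hX, mem_cj, hus i]
      have e : (u i.val)⁻¹ * (u i.val * y i * (u i.val)⁻¹) * u i.val = y i := by group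
      rw [e]
      exact (hY i).2
    · change subgroupConjRight (u (i.val + 1) * (u i.val)⁻¹)
        (MulAut.conj (u (i.val + 1)) • (S : Subgroup G)) = MulAut.conj (u i.val) • (S : Subgroup G)
      rw [scr_eq, smul_smul, ← map_mul]
      congr 2
      group
    · intro a ha
      have h1 := hAi i ⟨a, ha, rfl⟩
      have e : ((List.ofFn y).take (i.val + 1)).prod = u (i.val + 1) := by rw [hu]
      rw [e] at h1
      exact ⟨mem_cj.mpr h1.1, mem_cj.mpr h1.2⟩

theorem dir1 {G : Type*} [Group G] [Finite G] {p : ℕ} [Fact p.Prime]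
    {𝓕 : Set (Subgroup G)} (h𝓕 : IsNormalSet 𝓕) (h : ControlsSylowIntersections p 𝓕) :
    FamilyStronglyControlsFusion p 𝓕 := by
  intro S A g hAS hA1 hAg
  by_cases hT : g • S = S
  · exact ⟨0, Fin.elim0, Fin.elim0, g, Sylow.smul_eq_iff_mem_normalizer.mp hT,
      fun i => i.elim0, by simp, fun i => i.elim0⟩
  · have hAT : ∀ a ∈ A, a ∈ ((g • S : Sylow p G) : Subgroup G) := by
      intro a ha
      have h1 := hAg ⟨a, ha, rfl⟩
      rw [Sylow.coe_subgroup_smul, mem_cj]
      exact h1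
    have hne : (S : Subgroup G) ⊓ ((g • S : Sylow p G) : Subgroup G) ≠ ⊥ := by
      obtain ⟨a, ha, ha1⟩ := hA1
      intro hb
      have h1 : a ∈ (S : Subgroup G) ⊓ ((g • S : Sylow p G) : Subgroup G) := ⟨hAS ha, hAT a ha⟩
      rw [hb, Subgroup.mem_bot] at h1
      exact ha1 h1
    obtain ⟨n, c, X, x, hc0, hcn, hi⟩ := h S (g • S) (Ne.symm hT) hne
    obtain ⟨x', hx'⟩ : ∃ x' : ℕ → G, x' = fun j => if h : j < n then x ⟨j, h⟩ else 1 := ⟨_, rfl⟩
    obtain ⟨u, hu0, hus'⟩ : ∃ u : ℕ → G, u 0 = 1 ∧ ∀ j, u (j + 1) = x' j * u j :=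
      ⟨fun j => Nat.rec 1 (fun j uj => x' j * uj) j, rfl, fun _ => rfl⟩
    have hus : ∀ i : Fin n, u (i.val + 1) = x i * u i.val := by
      intro i
      rw [hus', hx']
      simp [i.2]
    have hc : ∀ j (hj : j < n + 1), c ⟨j, hj⟩ = u j • S := by
      intro j
      induction j with
      | zero =>
        intro _
        rw [hu0, one_smul]
        exact hc0
      | succ j ih =>
        intro hj
        have hj' : j < n := by omega
        have h4 := (hi ⟨j, hj'⟩).2.2.2.1
        have h5 : (x ⟨j, hj'⟩)⁻¹ • c (Fin.succ ⟨j, hj'⟩) = c (Fin.castSucc ⟨j, hj'⟩) :=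
          Sylow.ext h4
        rw [inv_smul_eq_iff] at h5
        have e1 : Fin.succ (⟨j, hj'⟩ : Fin n) = ⟨j + 1, hj⟩ := rfl
        have e2 : Fin.castSucc (⟨j, hj'⟩ : Fin n) = ⟨j, by omega⟩ := rfl
        rw [e1, e2, ih] at h5
        rw [h5, hus ⟨j, hj'⟩, mul_smul]
    obtain ⟨y, hy⟩ : ∃ y : Fin n → G, y = fun i => (u i.val)⁻¹ * x i * u i.val := ⟨_, rfl⟩
    have hprod : ∀ j, j ≤ n → ((List.ofFn y).take j).prod = u j := by
      intro j
      induction j with
      | zero => intro _; simp [hu0]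
      | succ j ih =>
        intro hj
        have hj' : j < n := by omega
        rw [List.prod_take_succ (List.ofFn y) j (by simpa using hj'), ih (by omega),
          List.getElem_ofFn, hus ⟨j, hj'⟩, hy]
        group
    have hfull : (List.ofFn y).prod = u n := by
      rw [← hprod n le_rfl, List.take_of_length_le (by simp)]
    refine ⟨n, fun i => MulAut.conj (u i.val)⁻¹ • X i, y, (u n)⁻¹ * g, ?_, ?_, ?_, ?_⟩
    · apply Sylow.smul_eq_iff_mem_normalizer.mp
      have h1 := hc n (by omega)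
      have e : (⟨n, by omega⟩ : Fin (n + 1)) = Fin.last n := rfl
      rw [e, hcn] at h1
      rw [mul_smul, h1, inv_smul_smul]
    · intro i
      constructor
      · have h1 := (hi i).1
        have h2 := hc i.val (by omega)
        have e : (⟨i.val, by omega⟩ : Fin (n + 1)) = i.castSucc := rfl
        rw [e] at h2
        rw [h2] at h1
        have h3 := sm_smul h𝓕 (u i.val)⁻¹ h1
        rw [Sylow.coe_subgroup_smul, smul_smul, ← map_mul, inv_mul_cancel, map_one, one_smul] at h3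
        exact h3
      · rw [mem_cj, hy, inv_inv]
        have e : u i.val * ((u i.val)⁻¹ * x i * u i.val) * (u i.val)⁻¹ = x i := by group
        rw [e]
        exact (hi i).2.2.1
    · rw [hfull]
      group
    · intro i
      rintro _ ⟨a, ha, rfl⟩
      rw [hprod (i.val + 1) (by omega)]
      have h1 := (hi i).2.2.2.2 (⟨hAS ha, hAT a ha⟩ :
        a ∈ (S : Subgroup G) ⊓ ((g • S : Sylow p G) : Subgroup G))
      have h2 := hc (i.val + 1) (by omega)
      have e : (⟨i.val + 1, by omega⟩ : Fin (n + 1)) = i.succ := rfl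
      rw [e] at h2
      constructor
      · have h3 : a ∈ (c i.succ : Subgroup G) := h1.1
        rw [h2, Sylow.coe_subgroup_smul, mem_cj] at h3
        exact h3
      · change _ ∈ MulAut.conj (u i.val)⁻¹ • X i
        rw [mem_cj, inv_inv, hus i]
        have e2 : u i.val * ((x i * u i.val)⁻¹ * a * (x i * u i.val)) * (u i.val)⁻¹
            = (x i)⁻¹ * a * x i := by group
        rw [e2]
        exact (X i).mul_mem ((X i).mul_mem ((X i).inv_mem (hi i).2.2.1) h1.2) (hi i).2.2.1


/-- Let p be a prime dividing the order of the finite group G and 𝓕 a family of subgroups of G closed under conjugation, with conjugates taken as X^g = g⁻¹Xg. Then 𝓕 controls Sylow p-intersections in G (any two distinct Sylow p-subgroups S and T with S ∩ T ≠ 1 are joined by a chain S = S₀, S₁, …, Sₙ = T of Sylow p-subgroups where, for each i, some member Xᵢ of 𝓕 meets both S_{i-1} and Sᵢ in Sylow p-subgroups of Xᵢ, satisfies S ∩ T ≤ Sᵢ ∩ Xᵢ, and contains an element xᵢ with Sᵢ^{xᵢ}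 = S_{i-1}) if and only if 𝓕 strongly controls p-fusion in G (whenever A is a subset of a Sylow p-subgroup S, A contains an element other than 1, and A^g ⊆ S, the element g factorises as g = y₁⋯yₙy with y ∈ N_G(S) and each yᵢ in a member Yᵢ of 𝓕 that meets S in a Sylow p-subgroup of Yᵢ, with A^{y₁⋯yᵢ} ⊆ S ∩ Yᵢ for each i). -/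
theorem result {G : Type*} [Group G] [Finite G] {p : ℕ} [Fact p.Prime] (hdiv : p ∣ Nat.card G) (𝓕 : Set (Subgroup G)) (h𝓕 : Cfsg.IsNormalSet 𝓕) : Cfsg.ControlsSylowIntersections p 𝓕 ↔ Cfsg.FamilyStronglyControlsFusion p 𝓕 := by
  exact ⟨dir1 h𝓕, dir2 h𝓕⟩

end Cfsg.Agent.S2939
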