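import Cfsg.Statements.S2940
import Cfsg.Agent.Lib.Helper17.Syl

set_option autoImplicit false
open Cfsg

namespace Cfsg.Agent.S2940

/-- Let S be a Sylow p-subgroup of the finite group G and G₁, G₂ subgroups containing S with G = G₁G₂. Then for every g ∈ G there is a Sylow p-subgroup U of G with S ∩ S^g ≤ U ≤ G₁ ∩ G₂^g (conjugates taken as X^g = g⁻¹Xg). -/
theorem result {G : Type*} [Group G] [Finite G] {p : ℕ} [Fact p.Prime] (S : Sylow p G) (G₁ G₂ : Subgroup G) (h1 : (S : Subgroup G) ≤ G₁) (h2 : (S : Subgroup G) ≤ G₂) (hfact : ∀ g : G, ∃ g₁ ∈ G₁, ∃ g₂ ∈ G₂, g = g₁ * g₂) (g : G) : ∃ U : Sylow p G, (S : Subgroup G) ⊓ Cfsg.subgroupConjRight g (S : Subgroup G) ≤ (U : Subgroup G) ∧ (U : Subgroup G) ≤ G₁ ⊓ Cfsg.subgroupConjRight g G₂ := by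
  open Cfsg.Agent.Lib.Helper17 in
  unfold Cfsg.subgroupConjRight
  obtain ⟨a, ha, b, hb, e⟩ := hfact g⁻¹
  have hg : g = b⁻¹ * a⁻¹ := by rw [← inv_inv g, e]; group
  set K := G₁ ⊓ G₂.map (MulAut.conj g⁻¹).toMonoidHom with hK
  have hSK : (S : Subgroup G).map (MulAut.conj a).toMonoidHom ≤ K := by
    rintro _ ⟨s, hs, rfl⟩
    refine ⟨G₁.mul_mem (G₁.mul_mem ha (h1 hs)) (G₁.inv_mem ha), ?_⟩
    show a * s * a⁻¹ ∈ G₂.map (MulAut.conj g⁻¹).toMonoidHom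
    rw [mem_map_conj, inv_inv, hg]
    have e2 : b⁻¹ * a⁻¹ * (a * s * a⁻¹) * (b⁻¹ * a⁻¹)⁻¹ = b⁻¹ * s * b := by group
    rw [e2]
    exact G₂.mul_mem (G₂.mul_mem (G₂.inv_mem hb) (h2 hs)) hb
  have hS' : IsSyl p ((S : Subgroup G).map (MulAut.conj a).toMonoidHom) ⊤ :=
    (isSyl_top S).map_conj_of_mem (by rw [Subgroup.normalizer_eq_top]; trivial)
  obtain ⟨U, hU, hle⟩ := exists_isSyl_ge (p := p) (M := K)
    (A := (S : Subgroup G) ⊓ (S : Subgroup G).map (MulAut.conj g⁻¹).toMonoidHom)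
    (inf_le_inf h1 (Subgroup.map_mono h2)) (S.2.to_le inf_le_left)
  have hc := hU.card_eq (hS'.of_le hSK le_top)
  obtain ⟨P, hP⟩ := (hS'.of_card_le le_top hU.isPGroup hc.le).exists_sylow_top
  exact ⟨P, hP ▸ hle, hP ▸ hU.le⟩

end Cfsg.Agent.S2940
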