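import Cfsg.Statements.S2955
import Cfsg.Agent.Lib.Helper17.Syl

set_option autoImplicit false
open Cfsg

namespace Cfsg.Agent.S2955

/-- Let p be a prime dividing the order of the finite group G and 𝓕 a conjugation-closed family of subgroups that controls Sylow p-intersections in G. Suppose the Sylow p-subgroups of G are chain-connected: any two of them are joined by a chain of Sylow p-subgroups, consecutive ones distinct with nontrivial intersection, all containing the intersection of the two ends (equivalently, the graph on the Sylow p-subgroups whose edges are the distinct pairs meeting nontrivially is connected). Then for every Sylow p-subgroup S, G is generated by N_G(S) together with the members of 𝓕 that meet S in a Sylow p-subgroup of themselves. -/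
theorem result {G : Type*} [Group G] [Finite G] (p : ℕ) [Fact p.Prime] (hdiv : p ∣ Nat.card G)
    (𝓕 : Set (Subgroup G)) (h𝓕 : Cfsg.IsNormalSet 𝓕) (hc : Cfsg.ControlsSylowIntersections p 𝓕)
    (hconn : Cfsg.IsSylowChainConnected p G) (S : Sylow p G) :
    (⨆ X ∈ Cfsg.sylowMembers p 𝓕 (S : Subgroup G), X) ⊔ Subgroup.normalizer ((S : Subgroup G) : Set G) = ⊤ := by
  open Cfsg.Agent.Lib.Helper17 in
  set K := (⨆ X ∈ Cfsg.sylowMembers p 𝓕 (S : Subgroup G), X) ⊔
    Subgroup.normalizer ((S : Subgroup G) : Set G) with hK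
  have step : ∀ P P' : Sylow p G, ∀ X : Subgroup G, ∀ x : G,
      (∃ k ∈ K, (P : Subgroup G) = (S : Subgroup G).map (MulAut.conj k⁻¹).toMonoidHom) →
      X ∈ Cfsg.sylowMembers p 𝓕 (P : Subgroup G) → x ∈ X →
      Cfsg.subgroupConjRight x (P' : Subgroup G) = (P : Subgroup G) →
      ∃ k ∈ K, (P' : Subgroup G) = (S : Subgroup G).map (MulAut.conj k⁻¹).toMonoidHom := by
    rintro P P' X x ⟨k, hk, hP⟩ ⟨hX𝓕, hXs⟩ hx hconj
    have hXs' : IsSyl p ((P : Subgroup G) ⊓ X) X := hXs
    have h1 : X.map (MulAut.conj k).toMonoidHom ∈ Cfsg.sylowMembers p 𝓕 (S : Subgroup G) := by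
      refine ⟨?_, ?_⟩
      · have := h𝓕 X hX𝓕 k⁻¹
        unfold Cfsg.subgroupConjRight at this
        rwa [inv_inv] at this
      · have h2 := hXs'.map_conj k
        rw [map_conj_inf, hP, map_conj_map_conj, mul_inv_cancel, map_conj_one] at h2
        exact h2
    have h2 : X.map (MulAut.conj k).toMonoidHom ≤ K :=
      le_trans (le_iSup₂ (f := fun (X : Subgroup G)
        (_ : X ∈ Cfsg.sylowMembers p 𝓕 (S : Subgroup G)) => X) _ h1) le_sup_left
    have hxK : x ∈ K := by
      have h3 := h2 (conj_mem_map_conj (g := k) hx)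
      have h4 := K.mul_mem (K.mul_mem (K.inv_mem hk) h3) hk
      simpa [mul_assoc] using h4
    refine ⟨k * x⁻¹, K.mul_mem hk (K.inv_mem hxK), ?_⟩
    unfold Cfsg.subgroupConjRight at hconj
    have h5 : (P' : Subgroup G) = ((P' : Subgroup G).map (MulAut.conj x⁻¹).toMonoidHom).map
        (MulAut.conj x).toMonoidHom := by
      rw [map_conj_map_conj, mul_inv_cancel, map_conj_one]
    rw [h5, hconj, hP, map_conj_map_conj]
    congr 3
    group
  have chain : ∀ A B : Sylow p G, A ≠ B → (A : Subgroup G) ⊓ (B : Subgroup G) ≠ ⊥ →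
      (∃ k ∈ K, (A : Subgroup G) = (S : Subgroup G).map (MulAut.conj k⁻¹).toMonoidHom) →
      ∃ k ∈ K, (B : Subgroup G) = (S : Subgroup G).map (MulAut.conj k⁻¹).toMonoidHom := by
    intro A B hne hint hA
    obtain ⟨n, c, X, x, h0, hl, hstep⟩ := hc A B hne hint
    have hall : ∀ i : Fin (n + 1),
        ∃ k ∈ K, (c i : Subgroup G) = (S : Subgroup G).map (MulAut.conj k⁻¹).toMonoidHom := by
      intro i
      induction i using Fin.induction with
      | zero => rw [h0]; exact hA
      | succ i ih =>
        obtain ⟨m1, -, m3, m4, -⟩ := hstep i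
        exact step _ _ (X i) (x i) ih m1 m3 m4
    rw [← hl]
    exact hall _
  have hgood : ∀ B : Sylow p G,
      ∃ k ∈ K, (B : Subgroup G) = (S : Subgroup G).map (MulAut.conj k⁻¹).toMonoidHom := by
    intro B
    obtain ⟨n, c, h0, hl, -, hstep⟩ := hconn S B
    have hall : ∀ i : Fin (n + 1),
        ∃ k ∈ K, (c i : Subgroup G) = (S : Subgroup G).map (MulAut.conj k⁻¹).toMonoidHom := by
      intro i
      induction i using Fin.induction with
      | zero => rw [h0]; exact ⟨1, K.one_mem, by rw [inv_one, map_conj_one]⟩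
      | succ i ih => exact chain _ _ (hstep i).1 (hstep i).2 ih
    rw [← hl]
    exact hall _
  rw [eq_top_iff]
  intro g _
  obtain ⟨P, hP⟩ := ((isSyl_top S).map_conj_of_mem (g := g)
    (by rw [Subgroup.normalizer_eq_top]; trivial)).exists_sylow_top
  obtain ⟨k, hk, hPk⟩ := hgood P
  have h1 : k * g ∈ Subgroup.normalizer ((S : Subgroup G) : Set G) := by
    rw [mem_normalizer_iff_map_conj, ← map_conj_map_conj, ← hP, hPk, map_conj_map_conj,
      mul_inv_cancel, map_conj_one]
  have h2 := K.mul_mem (K.inv_mem hk) ((le_sup_right : _ ≤ K) h1)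
  simpa using h2

end Cfsg.Agent.S2955
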