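import Cfsg.Statements.S2957
-- import your own Cfsg.Agent.* helpers here
import Cfsg.Agent.Lib.Helper17.Syl
import Mathlib

set_option autoImplicit false
open Cfsg

namespace Cfsg.Agent.S2957

open Subgroup Cfsg.Agent.Lib.Helper17

theorem chain_of_rtg {α : Type*} {R : α → α → Prop} {a b : α} (h : Relation.ReflTransGen R a b) :
    ∃ (n : ℕ) (c : Fin (n + 1) → α), c 0 = a ∧ c (Fin.last n) = b ∧
      ∀ i : Fin n, R (c i.castSucc) (c i.succ) := by
  induction h using Relation.ReflTransGen.head_induction_on with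
  | refl => exact ⟨0, fun _ => b, rfl, rfl, fun i => i.elim0⟩
  | @head a b hab _ ih =>
    obtain ⟨n, c, h0, hl, hs⟩ := ih
    refine ⟨n + 1, Fin.cons a c, rfl, ?_, ?_⟩
    · rw [← Fin.succ_last, Fin.cons_succ]; exact hl
    · intro i
      refine Fin.cases ?_ (fun j => ?_) i
      · rw [Fin.castSucc_zero, Fin.cons_zero, Fin.cons_succ, h0]; exact hab
      · rw [← Fin.succ_castSucc, Fin.cons_succ, Fin.cons_succ]; exact hs j

theorem rtg_of_chain {α : Type*} {R : α → α → Prop} {n : ℕ} (c : Fin (n + 1) → α)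
    (hs : ∀ i : Fin n, R (c i.castSucc) (c i.succ)) (i : Fin (n + 1)) :
    Relation.ReflTransGen R (c 0) (c i) := by
  induction i using Fin.induction with
  | zero => exact Relation.ReflTransGen.refl
  | succ j ih => exact ih.tail (hs j)

theorem rtg_lift {α β : Type*} {r : α → α → Prop} {q : β → β → Prop} (f : α → β)
    (h : ∀ a b, r a b → q (f a) (f b)) {a b : α} (hab : Relation.ReflTransGen r a b) :
    Relation.ReflTransGen q (f a) (f b) := by
  induction hab with
  | refl => exact Relation.ReflTransGen.refl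
  | tail _ h2 ih => exact ih.tail (h _ _ h2)

/-- one step of a controlling chain -/
def Rel {H : Type*} [Group H] (p : ℕ) (𝓕 : Set (Subgroup H)) (D : Subgroup H) (U V : Sylow p H) :
    Prop :=
  ∃ (X : Subgroup H) (x : H), X ∈ sylowMembers p 𝓕 (U : Subgroup H) ∧
    X ∈ sylowMembers p 𝓕 (V : Subgroup H) ∧ x ∈ X ∧
    subgroupConjRight x (V : Subgroup H) = (U : Subgroup H) ∧ D ≤ (V : Subgroup H) ⊓ X

theorem csi_iff {H : Type*} [Group H] (p : ℕ) (𝓕 : Set (Subgroup H)) :
    ControlsSylowIntersections p 𝓕 ↔ ∀ S T : Sylow p H, S ≠ T →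
      (S : Subgroup H) ⊓ (T : Subgroup H) ≠ ⊥ →
      Relation.ReflTransGen (Rel p 𝓕 ((S : Subgroup H) ⊓ (T : Subgroup H))) S T := by
  constructor
  · intro h S T hne hbot
    obtain ⟨n, c, X, x, h0, hl, hs⟩ := h S T hne hbot
    have := rtg_of_chain (R := Rel p 𝓕 ((S : Subgroup H) ⊓ (T : Subgroup H))) c
      (fun i => ⟨X i, x i, hs i⟩) (Fin.last n)
    rwa [h0, hl] at this
  · intro h S T hne hbot
    obtain ⟨n, c, h0, hl, hs⟩ := chain_of_rtg (h S T hne hbot)
    choose X x hX using hs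
    exact ⟨n, c, X, x, h0, hl, hX⟩

/-- ambient form of one step -/
def Link {G : Type*} [Group G] (p : ℕ) (f : Subgroup G → Set (Subgroup G)) (M D B C : Subgroup G) :
    Prop :=
  IsSyl p B M ∧ IsSyl p C M ∧ ∃ (P F : Subgroup G) (x : G), IsSyl p P M ∧ F ∈ f P ∧ x ∈ M ∧
    x ∈ normalizer (F : Set G) ∧ B ≤ normalizer (F : Set G) ∧ C ≤ normalizer (F : Set G) ∧
    C.map (MulAut.conj x⁻¹).toMonoidHom = B ∧ D ≤ C

theorem conj_comm {G : Type*} [Group G] (M : Subgroup G) (x : M) (V : Subgroup M) :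
    (subgroupConjRight x V).map M.subtype =
      (V.map M.subtype).map (MulAut.conj (x : G)⁻¹).toMonoidHom := by
  unfold subgroupConjRight
  rw [map_map, map_map]
  congr 1

theorem link_of_rel {G : Type*} [Group G] [Finite G] {p : ℕ} [Fact p.Prime]
    {f : Subgroup G → Set (Subgroup G)} (hf : IsNormalizerFunctor p f) (M : Subgroup G)
    (D : Subgroup M) (U V : Sylow p M)
    (h : Rel p ((fun X : Subgroup G => X.subgroupOf M) '' functorFamily p f M) D U V) :
    Link p f M (D.map M.subtype) ((U : Subgroup M).map M.subtype)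
      ((V : Subgroup M).map M.subtype) := by
  obtain ⟨X, x, ⟨⟨Y, ⟨P, F, hF, rfl⟩, rfl⟩, hQU⟩, ⟨-, hQV⟩, hx, hconj, hD⟩ := h
  set X := (M ⊓ normalizer (F : Set G)).subgroupOf M with hX
  have hPX : (P : Subgroup M) ≤ X := by
    intro y hy
    rw [hX, mem_subgroupOf]
    refine ⟨y.2, ?_⟩
    have h1 := ((hf _ (P.2.map M.subtype)).1 F hF).2
    exact h1 (le_normalizer ⟨y, hy, rfl⟩)
  have key : ∀ W : Sylow p M, IsSyl p ((W : Subgroup M) ⊓ X) X → (W : Subgroup M) ≤ X := by
    intro W hW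
    have h1 : Nat.card (P : Subgroup M) ≤ Nat.card ((W : Subgroup M) ⊓ X : Subgroup M) :=
      hW.card_le hPX P.2
    have h2 : Nat.card (W : Subgroup M) = Nat.card (P : Subgroup M) :=
      (isSyl_top P).card_eq (isSyl_top W)
    have h3 : (W : Subgroup M) ⊓ X = W := Subgroup.eq_of_le_of_card_ge inf_le_left (by omega)
    rw [← h3]; exact inf_le_right
  have hUX := key U hQU
  have hVX := key V hQV
  refine ⟨⟨U, rfl⟩, ⟨V, rfl⟩, (P : Subgroup M).map M.subtype, F, x, ⟨P, rfl⟩, hF, x.2, ?_, ?_, ?_,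
    ?_, ?_⟩
  · exact (mem_subgroupOf.mp hx).2
  · rintro _ ⟨y, hy, rfl⟩
    exact (mem_subgroupOf.mp (hUX hy)).2
  · rintro _ ⟨y, hy, rfl⟩
    exact (mem_subgroupOf.mp (hVX hy)).2
  · rw [← hconj, conj_comm]
  · exact map_mono (hD.trans inf_le_left)

theorem rel_of_link {G : Type*} [Group G] [Finite G] {p : ℕ} [Fact p.Prime]
    {f : Subgroup G → Set (Subgroup G)} (M : Subgroup G)
    (D : Subgroup M) (U V : Sylow p M)
    (h : Link p f M (D.map M.subtype) ((U : Subgroup M).map M.subtype)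
      ((V : Subgroup M).map M.subtype)) :
    Rel p ((fun X : Subgroup G => X.subgroupOf M) '' functorFamily p f M) D U V := by
  obtain ⟨-, -, P, F, x, ⟨P', rfl⟩, hF, hxM, hxF, hUF, hVF, hconj, hD⟩ := h
  set X := (M ⊓ normalizer (F : Set G)).subgroupOf M with hX
  have hmem : X ∈ (fun X : Subgroup G => X.subgroupOf M) '' functorFamily p f M :=
    ⟨_, ⟨P', F, hF, rfl⟩, rfl⟩
  have hle : ∀ W : Sylow p M, (W : Subgroup M).map M.subtype ≤ normalizer (F : Set G) →
      (W : Subgroup M) ≤ X := fun W hW y hy => mem_subgroupOf.mpr ⟨y.2, hW ⟨y, hy, rfl⟩⟩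
  have key : ∀ W : Sylow p M, (W : Subgroup M).map M.subtype ≤ normalizer (F : Set G) →
      X ∈ sylowMembers p ((fun X : Subgroup G => X.subgroupOf M) '' functorFamily p f M)
        (W : Subgroup M) := by
    intro W hW
    have hWX := hle W hW
    refine ⟨hmem, ?_⟩
    have : IsSyl p (W : Subgroup M) X := (isSyl_top W).of_le hWX le_top
    rw [inf_of_le_left hWX]
    exact this
  refine ⟨X, ⟨x, hxM⟩, key U hUF, key V hVF, mem_subgroupOf.mpr ⟨hxM, hxF⟩, ?_, ?_⟩
  · apply map_injective M.subtype_injective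
    rw [← hconj, conj_comm]
  · have h1 : D ≤ (V : Subgroup M) := (map_le_map_iff_of_injective M.subtype_injective).mp hD
    exact le_inf h1 (h1.trans (hle V hVF))

theorem reg_iff {G : Type*} [Group G] [Finite G] {p : ℕ} [Fact p.Prime]
    {f : Subgroup G → Set (Subgroup G)} (hf : IsNormalizerFunctor p f) (M : Subgroup G) :
    IsFunctorRegular p f M ↔ ∀ A B : Subgroup G, IsSyl p A M → IsSyl p B M → A ≠ B → A ⊓ B ≠ ⊥ →
      Relation.ReflTransGen (Link p f M (A ⊓ B)) A B := by
  have hinf : ∀ U V : Subgroup M, (U ⊓ V).map M.subtype = U.map M.subtype ⊓ V.map M.subtype :=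
    fun U V => map_inf _ _ _ M.subtype_injective
  constructor
  · rintro h _ _ ⟨U, rfl⟩ ⟨V, rfl⟩ hne hbot
    have h1 := (csi_iff _ _).mp h U V (by rintro rfl; exact hne rfl) (by
      intro hb
      apply hbot
      rw [← hinf, hb, Subgroup.map_bot])
    have h2 := rtg_lift (fun W : Sylow p M => (W : Subgroup M).map M.subtype)
      (fun a b hab => link_of_rel hf M _ a b hab) h1
    rw [hinf] at h2
    exact h2
  · intro h
    rw [IsFunctorRegular, csi_iff]
    intro U V hne hbot
    have h1 := h _ _ ⟨U, rfl⟩ ⟨V, rfl⟩ (by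
      intro he
      exact hne (Sylow.ext (map_injective M.subtype_injective he))) (by
      rw [← hinf]
      intro hb
      exact hbot ((map_eq_bot_iff_of_injective _ M.subtype_injective).mp hb))
    have h2 : ∀ C : Subgroup G, Relation.ReflTransGen
        (Link p f M ((U : Subgroup M).map M.subtype ⊓ (V : Subgroup M).map M.subtype))
        ((U : Subgroup M).map M.subtype) C → ∀ W : Sylow p M, (W : Subgroup M).map M.subtype = C →
        Relation.ReflTransGen (Rel p ((fun X : Subgroup G => X.subgroupOf M) '' functorFamily p f M)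
          ((U : Subgroup M) ⊓ (V : Subgroup M))) U W := by
      intro C hC
      induction hC with
      | refl =>
        intro W hW
        have : W = U := Sylow.ext (map_injective M.subtype_injective hW)
        rw [this]
      | @tail b c _ hbc ih =>
        intro W hW
        obtain ⟨Wb, hWb⟩ := hbc.1
        refine (ih Wb hWb).tail (rel_of_link M _ Wb W ?_)
        rw [hWb, hW, hinf]
        exact hbc
    exact h2 _ h1 V rfl

theorem link_mono_D {G : Type*} [Group G] {p : ℕ} {f : Subgroup G → Set (Subgroup G)}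
    {M D D' B C : Subgroup G} (hD : D' ≤ D) (h : Link p f M D B C) : Link p f M D' B C := by
  obtain ⟨h1, h2, P, F, x, h3, h4, h5, h6, h7, h8, h9, h10⟩ := h
  exact ⟨h1, h2, P, F, x, h3, h4, h5, h6, h7, h8, h9, hD.trans h10⟩

theorem isSyl_top_of {G : Type*} [Group G] [Finite G] {p : ℕ} [Fact p.Prime] (S : Sylow p G)
    {M B : Subgroup G} (hS : (S : Subgroup G) ≤ M) (hB : IsSyl p B M) : IsSyl p B ⊤ := by
  have h1 : IsSyl p (S : Subgroup G) M := (isSyl_top S).of_le hS le_top
  exact (isSyl_top S).of_card_le le_top hB.isPGroup (h1.card_eq hB).ge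

theorem link_top {G : Type*} [Group G] [Finite G] {p : ℕ} [Fact p.Prime]
    {f : Subgroup G → Set (Subgroup G)} (S : Sylow p G)
    {M D B C : Subgroup G} (hS : (S : Subgroup G) ≤ M) (h : Link p f M D B C) :
    Link p f ⊤ D B C := by
  obtain ⟨h1, h2, P, F, x, h3, h4, h5, h6, h7, h8, h9, h10⟩ := h
  exact ⟨isSyl_top_of S hS h1, isSyl_top_of S hS h2, P, F, x, isSyl_top_of S hS h3, h4, mem_top x,
    h6, h7, h8, h9, h10⟩

theorem link_conj {G : Type*} [Group G] [Finite G] {p : ℕ} [Fact p.Prime]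
    {f : Subgroup G → Set (Subgroup G)} (hf : IsNormalizerFunctor p f) (g : G)
    {D B C : Subgroup G} (h : Link p f ⊤ D B C) :
    Link p f ⊤ (D.map (MulAut.conj g).toMonoidHom) (B.map (MulAut.conj g).toMonoidHom)
      (C.map (MulAut.conj g).toMonoidHom) := by
  obtain ⟨h1, h2, P, F, x, h3, h4, h5, h6, h7, h8, h9, h10⟩ := h
  have hg : g ∈ normalizer ((⊤ : Subgroup G) : Set G) := le_normalizer (mem_top g)
  refine ⟨h1.map_conj_of_mem hg, h2.map_conj_of_mem hg, P.map (MulAut.conj g).toMonoidHom,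
    F.map (MulAut.conj g).toMonoidHom, g * x * g⁻¹, h3.map_conj_of_mem hg, ?_, mem_top _, ?_, ?_,
    ?_, ?_, map_mono h10⟩
  · rw [(hf P h3.isPGroup).2 g]
    exact ⟨F, h4, rfl⟩
  · rw [normalizer_map_conj]
    exact conj_mem_map_conj h6
  · rw [normalizer_map_conj]
    exact map_mono h7
  · rw [normalizer_map_conj]
    exact map_mono h8
  · rw [← h9, map_conj_map_conj, map_conj_map_conj]
    congr 3
    group

/-- Let p be a prime dividing the order of the finite group G, f an equivariant assignment of a set of subgroups f(P) of P to every p-subgroup P, each normalized by N_G(P), and S a Sylow p-subgroup. If G = G₁G₂ for subgroups G₁, G₂ both containing S and both regular for f (in each Gᵢ, the family of normalizers in Gᵢ of the members of f(P), P a Sylow p-subgroup of Gᵢ, controls Sylow p-intersections), then G itself is regular for f. -/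
theorem result {G : Type*} [Group G] [Finite G] (p : ℕ) [Fact p.Prime] (hdiv : p ∣ Nat.card G)
    (f : Subgroup G → Set (Subgroup G)) (hf : Cfsg.IsNormalizerFunctor p f) (S : Sylow p G)
    (G₁ G₂ : Subgroup G) (h₁ : (S : Subgroup G) ≤ G₁) (h₂ : (S : Subgroup G) ≤ G₂)
    (hprod : ∀ g : G, ∃ g₁ ∈ G₁, ∃ g₂ ∈ G₂, g = g₁ * g₂)
    (hr₁ : Cfsg.IsFunctorRegular p f G₁) (hr₂ : Cfsg.IsFunctorRegular p f G₂) :
    Cfsg.IsFunctorRegular p f ⊤ := by
  rw [reg_iff hf] at hr₁ hr₂ ⊢
  have hS1 : IsSyl p (S : Subgroup G) G₁ := (isSyl_top S).of_le h₁ le_top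
  have hS2 : IsSyl p (S : Subgroup G) G₂ := (isSyl_top S).of_le h₂ le_top
  have hback : ∀ (K : Subgroup G) (g : G),
      (K.map (MulAut.conj g⁻¹).toMonoidHom).map (MulAut.conj g).toMonoidHom = K := by
    intro K g
    rw [map_conj_map_conj, mul_inv_cancel, map_conj_one]
  have hnb : ∀ (K : Subgroup G) (g : G), K ≠ ⊥ → K.map (MulAut.conj g).toMonoidHom ≠ ⊥ := by
    intro K g hK hb
    exact hK ((map_eq_bot_iff_of_injective _ (MulAut.conj g).injective).mp hb)
  have claim : ∀ B D : Subgroup G, IsSyl p B ⊤ → D ≤ (S : Subgroup G) → D ≤ B → D ≠ ⊥ →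
      Relation.ReflTransGen (Link p f ⊤ D) (S : Subgroup G) B := by
    intro B D hB hDS hDB hDne
    obtain ⟨g, -, rfl⟩ := (isSyl_top S).conj hB
    obtain ⟨g₁, hg₁, g₂, hg₂, rfl⟩ := hprod g
    have hD'1 : D.map (MulAut.conj g₁⁻¹).toMonoidHom ≤ G₁ :=
      map_conj_le_of_le_of_mem (hDS.trans h₁) (inv_mem hg₁)
    have hD'2 : D.map (MulAut.conj g₁⁻¹).toMonoidHom ≤
        (S : Subgroup G).map (MulAut.conj g₂).toMonoidHom := by
      rw [← map_conj_map_conj] at hDB
      exact le_map_conj_iff.mp hDB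
    have hB₀ : (S : Subgroup G).map (MulAut.conj g₂).toMonoidHom ≤ G₂ :=
      map_conj_le_of_le_of_mem h₂ hg₂
    have hSI : IsSyl p (S : Subgroup G) (G₁ ⊓ G₂) := (isSyl_top S).of_le (le_inf h₁ h₂) le_top
    have hD'p : IsPGroup p (D.map (MulAut.conj g₁⁻¹).toMonoidHom) := (S.2.to_le hDS).map _
    obtain ⟨h, hh, hD'h⟩ := hSI.exists_conj_ge (le_inf hD'1 (hD'2.trans hB₀)) hD'p
    have hR₀ : IsSyl p ((S : Subgroup G).map (MulAut.conj h).toMonoidHom) G₂ :=
      hS2.map_conj_of_mem (le_normalizer hh.2)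
    have hB₀' : IsSyl p ((S : Subgroup G).map (MulAut.conj g₂).toMonoidHom) G₂ :=
      hS2.map_conj_of_mem (le_normalizer hg₂)
    have hD'ne := hnb D g₁⁻¹ hDne
    have chain2 : Relation.ReflTransGen (Link p f ⊤ (D.map (MulAut.conj g₁⁻¹).toMonoidHom))
        ((S : Subgroup G).map (MulAut.conj h).toMonoidHom)
        ((S : Subgroup G).map (MulAut.conj g₂).toMonoidHom) := by
      by_cases he : (S : Subgroup G).map (MulAut.conj h).toMonoidHom =
          (S : Subgroup G).map (MulAut.conj g₂).toMonoidHom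
      · rw [he]
      · have h3 := hr₂ _ _ hR₀ hB₀' he (fun hb => hD'ne (le_bot_iff.mp (hb ▸ le_inf hD'h hD'2)))
        exact rtg_lift id (fun a b hab => link_top S h₂ (link_mono_D (le_inf hD'h hD'2) hab)) h3
    have chain2' := rtg_lift (fun K : Subgroup G => K.map (MulAut.conj g₁).toMonoidHom)
      (fun a b hab => link_conj hf g₁ hab) chain2
    rw [hback] at chain2'
    simp only [map_conj_map_conj] at chain2'
    have hR : IsSyl p ((S : Subgroup G).map (MulAut.conj (g₁ * h)).toMonoidHom) G₁ :=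
      hS1.map_conj_of_mem (le_normalizer (mul_mem hg₁ hh.1))
    have hDR : D ≤ (S : Subgroup G).map (MulAut.conj (g₁ * h)).toMonoidHom := by
      rw [← map_conj_map_conj]
      exact le_map_conj_iff.mpr hD'h
    have chain1 : Relation.ReflTransGen (Link p f ⊤ D) (S : Subgroup G)
        ((S : Subgroup G).map (MulAut.conj (g₁ * h)).toMonoidHom) := by
      by_cases he : (S : Subgroup G) = (S : Subgroup G).map (MulAut.conj (g₁ * h)).toMonoidHom
      · rw [← he]
      · have h3 := hr₁ _ _ hS1 hR he (fun hb => hDne (le_bot_iff.mp (hb ▸ le_inf hDS hDR)))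
        exact rtg_lift id (fun a b hab => link_top S h₁ (link_mono_D (le_inf hDS hDR) hab)) h3
    exact chain1.trans chain2'
  intro A B hA hB _ hbot
  obtain ⟨a, -, rfl⟩ := (isSyl_top S).conj hA
  have ha : a⁻¹ ∈ normalizer ((⊤ : Subgroup G) : Set G) := le_normalizer (mem_top _)
  have h4 := claim (B.map (MulAut.conj a⁻¹).toMonoidHom)
    (((S : Subgroup G).map (MulAut.conj a).toMonoidHom ⊓ B).map (MulAut.conj a⁻¹).toMonoidHom)
    (hB.map_conj_of_mem ha) (le_map_conj_iff.mp inf_le_left) (map_mono inf_le_right)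
    (hnb _ _ hbot)
  have h5 := rtg_lift (fun K : Subgroup G => K.map (MulAut.conj a).toMonoidHom)
    (fun a' b hab => link_conj hf a hab) h4
  rw [hback] at h5
  simp only [hback] at h5
  exact h5

end Cfsg.Agent.S2957
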