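import Cfsg.Statements.S2956
-- import your own Cfsg.Agent.* helpers here
import Cfsg.Agent.Lib.Helper17.Syl
import Cfsg.Agent.Lib.Helper9.PGrp
import Cfsg.Agent.S2957
import Mathlib

set_option autoImplicit false
open Cfsg

namespace Cfsg.Agent.S2956

open Subgroup Cfsg.Agent.Lib.Helper17

/-- symmetric form of one step of a controlling chain -/
def SLink {G : Type*} [Group G] (p : ℕ) (𝓕 : Set (Subgroup G)) (D : Subgroup G) (U V : Sylow p G) :
    Prop :=
  ∃ (X : Subgroup G) (x : G), X ∈ sylowMembers p 𝓕 (U : Subgroup G) ∧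
    X ∈ sylowMembers p 𝓕 (V : Subgroup G) ∧ x ∈ X ∧
    (V : Subgroup G).map (MulAut.conj x⁻¹).toMonoidHom = (U : Subgroup G) ∧
    D ≤ (U : Subgroup G) ⊓ X ∧ D ≤ (V : Subgroup G) ⊓ X

theorem SLink.symm {G : Type*} [Group G] {p : ℕ} {𝓕 : Set (Subgroup G)} {D : Subgroup G}
    {U V : Sylow p G} (h : SLink p 𝓕 D U V) : SLink p 𝓕 D V U := by
  obtain ⟨X, x, h1, h2, h3, h4, h5, h6⟩ := h
  refine ⟨X, x⁻¹, h2, h1, inv_mem h3, ?_, h6, h5⟩
  rw [← h4, map_conj_map_conj, inv_inv, mul_inv_cancel, map_conj_one]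

theorem SLink.mono {G : Type*} [Group G] {p : ℕ} {𝓕 : Set (Subgroup G)} {D D' : Subgroup G}
    {U V : Sylow p G} (hD : D' ≤ D) (h : SLink p 𝓕 D U V) : SLink p 𝓕 D' U V := by
  obtain ⟨X, x, h1, h2, h3, h4, h5, h6⟩ := h
  exact ⟨X, x, h1, h2, h3, h4, hD.trans h5, hD.trans h6⟩

theorem SLink.rel {G : Type*} [Group G] {p : ℕ} {𝓕 : Set (Subgroup G)} {D : Subgroup G}
    {U V : Sylow p G} (h : SLink p 𝓕 D U V) : S2957.Rel p 𝓕 D U V := by
  obtain ⟨X, x, h1, h2, h3, h4, h5, h6⟩ := h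
  exact ⟨X, x, h1, h2, h3, h4, h6⟩

theorem rsymm {G : Type*} [Group G] {p : ℕ} {𝓕 : Set (Subgroup G)} {D : Subgroup G}
    {U V : Sylow p G} (h : Relation.ReflTransGen (SLink p 𝓕 D) U V) :
    Relation.ReflTransGen (SLink p 𝓕 D) V U := by
  induction h with
  | refl => exact Relation.ReflTransGen.refl
  | tail _ b c => exact c.head b.symm

theorem card_lt' {G : Type*} [Group G] [Finite G] {A B : Subgroup G} (h : A ≤ B) (x : G)
    (hx : x ∈ B) (hx' : x ∉ A) : Nat.card A < Nat.card B := by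
  by_contra hc
  push Not at hc
  have := Subgroup.eq_of_le_of_card_ge h hc
  exact hx' (this ▸ hx)

theorem exists_max_plocal {G : Type*} [Group G] [Finite G] {p : ℕ} {L : Subgroup G}
    (hL : IsPLocal p L) : ∃ M, IsMaximalPLocal p M ∧ L ≤ M := by
  obtain ⟨M, ⟨hM1, hM2⟩, hmax⟩ := WellFounded.has_min
    (wellFounded_gt : WellFounded ((· > ·) : Subgroup G → Subgroup G → Prop))
    {N | IsPLocal p N ∧ L ≤ N} ⟨L, hL, le_rfl⟩
  refine ⟨M, ⟨hM1, ?_⟩, hM2⟩
  intro N hN hMN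
  by_contra hne
  exact hmax N ⟨hN, hM2.trans hMN⟩ (lt_of_le_of_ne hMN (Ne.symm hne))

theorem slink_M {G : Type*} [Group G] [Finite G] {p : ℕ} [Fact p.Prime] {𝓕s : Set (Subgroup G)}
    {M : Subgroup G} (hM : M ∈ 𝓕s) {P : Subgroup G} (hP : IsSyl p P M) {x : G} (hx : x ∈ M)
    (U V₀ : Sylow p G) (hPU : P ≤ (U : Subgroup G))
    (hV₀ : (V₀ : Subgroup G) = (U : Subgroup G).map (MulAut.conj x).toMonoidHom)
    {D : Subgroup G} (hD1 : D ≤ P) (hD2 : D ≤ P.map (MulAut.conj x).toMonoidHom) :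
    SLink p 𝓕s D U V₀ := by
  have hPx : IsSyl p (P.map (MulAut.conj x).toMonoidHom) M := hP.map_conj_of_mem (le_normalizer hx)
  have e1 : (U : Subgroup G) ⊓ M = P :=
    hP.eq_of_le inf_le_right (U.2.to_le inf_le_left) (le_inf hPU hP.le)
  have hPV : P.map (MulAut.conj x).toMonoidHom ≤ (V₀ : Subgroup G) := hV₀ ▸ map_mono hPU
  have e2 : (V₀ : Subgroup G) ⊓ M = P.map (MulAut.conj x).toMonoidHom :=
    hPx.eq_of_le inf_le_right (V₀.2.to_le inf_le_left) (le_inf hPV hPx.le)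
  refine ⟨M, x, ⟨hM, ?_⟩, ⟨hM, ?_⟩, hx, ?_, ?_, ?_⟩
  · rw [e1]; exact hP
  · rw [e2]; exact hPx
  · rw [hV₀, map_conj_map_conj, inv_mul_cancel, map_conj_one]
  · rw [e1]; exact hD1
  · rw [e2]; exact hD2

theorem slink_F {G : Type*} [Group G] [Finite G] {p : ℕ} [Fact p.Prime] {𝓕s : Set (Subgroup G)}
    {f : Subgroup G → Set (Subgroup G)} (h1 : ∀ X ∈ functorFamily p f ⊤, X ∈ 𝓕s)
    (W Wb : Sylow p G) {F : Subgroup G} (hF : F ∈ f (W : Subgroup G)) {y : G}
    (hy : y ∈ normalizer (F : Set G)) (hWb : (Wb : Subgroup G) ≤ normalizer (F : Set G))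
    (hW : (W : Subgroup G) ≤ normalizer (F : Set G))
    (hconj : (W : Subgroup G).map (MulAut.conj y⁻¹).toMonoidHom = (Wb : Subgroup G))
    {D : Subgroup G} (hD1 : D ≤ (Wb : Subgroup G)) (hD2 : D ≤ (W : Subgroup G)) :
    SLink p 𝓕s D Wb W := by
  have hX : (⊤ ⊓ normalizer (F : Set G) : Subgroup G) ∈ 𝓕s := by
    apply h1
    obtain ⟨S, hS⟩ := isSyl_top W
    exact ⟨S, F, hS ▸ hF, rfl⟩
  have key : ∀ R : Sylow p G, (R : Subgroup G) ≤ normalizer (F : Set G) →
      (⊤ ⊓ normalizer (F : Set G) : Subgroup G) ∈ sylowMembers p 𝓕s (R : Subgroup G) := by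
    intro R hR
    have hRX : (R : Subgroup G) ≤ ⊤ ⊓ normalizer (F : Set G) := le_inf le_top hR
    refine ⟨hX, ?_⟩
    have : IsSyl p (R : Subgroup G) (⊤ ⊓ normalizer (F : Set G)) := (isSyl_top R).of_le hRX le_top
    rw [inf_of_le_left hRX]
    exact this
  exact ⟨_, y, key Wb hWb, key W hW, ⟨mem_top y, hy⟩, hconj,
    le_inf hD1 (le_inf le_top (hD1.trans hWb)), le_inf hD2 (le_inf le_top (hD2.trans hW))⟩

theorem linkstep {G : Type*} [Group G] [Finite G] {p : ℕ} [Fact p.Prime]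
    {f : Subgroup G → Set (Subgroup G)} (hf : IsNormalizerFunctor p f)
    (hf1 : ∀ P : Subgroup G, IsPGroup p ↥P → P ≠ ⊥ → ∀ F ∈ f P, F ≠ ⊥)
    {𝓕s : Set (Subgroup G)} (h1 : ∀ X ∈ functorFamily p f ⊤, X ∈ 𝓕s)
    {D : Subgroup G} (hD : D ≠ ⊥)
    (IH : ∀ E : Subgroup G, D ≤ E → Nat.card D < Nat.card E → ∀ U V : Sylow p G,
      E ≤ (U : Subgroup G) → E ≤ (V : Subgroup G) → Relation.ReflTransGen (SLink p 𝓕s D) U V)
    {M b c D₀ : Subgroup G} (hbc : S2957.Link p f M D₀ b c) (hDb : D ≤ b) (hDc : D ≤ c)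
    (hlt : Nat.card D < Nat.card c)
    (ihm : ∀ M' P' : Subgroup G, IsMaximalPLocal p M' → IsSyl p P' M' →
      Nat.card c < Nat.card P' → ∀ x ∈ M', D ≤ P' → D ≤ P'.map (MulAut.conj x).toMonoidHom →
      ∀ U V : Sylow p G, P' ≤ (U : Subgroup G) →
      P'.map (MulAut.conj x).toMonoidHom ≤ (V : Subgroup G) →
      Relation.ReflTransGen (SLink p 𝓕s D) U V)
    (Wb W : Sylow p G) (hWb : b ≤ (Wb : Subgroup G)) (hW : c ≤ (W : Subgroup G)) :
    Relation.ReflTransGen (SLink p 𝓕s D) Wb W := by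
  obtain ⟨hb, hc, P', F, y, hP', hF, hyM, hyF, hbF, hcF, hconj, -⟩ := hbc
  have hP'F : P' ≤ normalizer (F : Set G) := le_normalizer.trans ((hf P' hP'.isPGroup).1 F hF).2
  have hP'Y : IsSyl p P' (M ⊓ normalizer (F : Set G)) :=
    hP'.of_le (le_inf hP'.le hP'F) inf_le_left
  have hcY : IsSyl p c (M ⊓ normalizer (F : Set G)) := hc.of_le (le_inf hc.le hcF) inf_le_left
  obtain ⟨y', hy', hcy'⟩ := hP'Y.conj hcY
  have hFc : F ∈ f c := by
    rw [hcy', (hf P' hP'.isPGroup).2 y']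
    exact ⟨F, hF, map_conj_eq_of_mem_normalizer hy'.2⟩
  have hFlec : F ≤ c := ((hf c hc.isPGroup).1 F hFc).1
  have hFleb : F ≤ b := by
    have h3 : F.map (MulAut.conj y⁻¹).toMonoidHom = F :=
      map_conj_eq_of_mem_normalizer (inv_mem hyF)
    rw [← hconj, ← h3]
    exact map_mono hFlec
  have hcne : c ≠ ⊥ := ne_bot_of_le_ne_bot hD hDc
  have hFne : F ≠ ⊥ := hf1 c hc.isPGroup hcne F hFc
  have hcardb : Nat.card b = Nat.card c := hc.card_eq hb
  by_cases hFD : F ≤ D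
  · by_cases hcW : c = (W : Subgroup G)
    · have hbWb : b = (Wb : Subgroup G) := by
        apply Subgroup.eq_of_le_of_card_ge hWb
        have h4 : Nat.card (Wb : Subgroup G) = Nat.card (W : Subgroup G) :=
          (isSyl_top W).card_eq (isSyl_top Wb)
        rw [h4, hcardb, hcW]
      exact Relation.ReflTransGen.single (slink_F h1 W Wb (hcW ▸ hFc) hyF (hbWb ▸ hbF)
        (hcW ▸ hcF) (by rw [← hcW, ← hbWb]; exact hconj) (hDb.trans hWb) (hDc.trans hW))
    · obtain ⟨z, hzW, hzN, hzc⟩ := Lib.Helper9.normalizer_growth W.2 hW hcW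
      obtain ⟨M', hM', hLM'⟩ := exists_max_plocal (p := p) (L := normalizer (F : Set G))
        ⟨F, hc.isPGroup.to_le hFlec, hFne, rfl⟩
      have hNc : normalizer (c : Set G) ≤ normalizer (F : Set G) :=
        ((hf c hc.isPGroup).1 F hFc).2
      have hEM' : (W : Subgroup G) ⊓ normalizer (c : Set G) ≤ M' :=
        inf_le_right.trans (hNc.trans hLM')
      have hEp : IsPGroup p ((W : Subgroup G) ⊓ normalizer (c : Set G) : Subgroup G) :=
        W.2.to_le inf_le_left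
      obtain ⟨P'', hP'', hEP''⟩ := exists_isSyl_ge hEM' hEp
      have hcE : c ≤ (W : Subgroup G) ⊓ normalizer (c : Set G) := le_inf hW le_normalizer
      have hlt' : Nat.card c < Nat.card P'' :=
        lt_of_lt_of_le (card_lt' hcE z ⟨hzW, hzN⟩ hzc) (Subgroup.card_le_of_le hEP'')
      obtain ⟨U', hU'⟩ := hP''.isPGroup.exists_le_sylow
      obtain ⟨V', hV'⟩ := (hP''.isPGroup.map (MulAut.conj y⁻¹).toMonoidHom).exists_le_sylow
      have hcP'' := hcE.trans hEP''
      have hbP'' : b ≤ P''.map (MulAut.conj y⁻¹).toMonoidHom := hconj ▸ map_mono hcP''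
      have t1 := ihm M' P'' hM' hP'' hlt' y⁻¹ (inv_mem (hLM' hyF)) (hDc.trans hcP'')
        (hDb.trans hbP'') U' V' hU' hV'
      have t2 := IH c hDc hlt W U' hW (hcP''.trans hU')
      have t3 := IH b hDb (hcardb ▸ hlt) Wb V' hWb (hbP''.trans hV')
      exact t3.trans ((rsymm t1).trans (rsymm t2))
  · obtain ⟨z, hzF, hzD⟩ := SetLike.not_le_iff_exists.mp hFD
    have hlt'' : Nat.card D < Nat.card (D ⊔ F : Subgroup G) :=
      card_lt' le_sup_left z (mem_sup_right hzF) hzD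
    exact IH (D ⊔ F) le_sup_left hlt'' Wb W ((sup_le hDb hFleb).trans hWb)
      ((sup_le hDc hFlec).trans hW)

theorem theta {G : Type*} [Group G] [Finite G] {p : ℕ} [Fact p.Prime]
    {f : Subgroup G → Set (Subgroup G)} (hf : IsNormalizerFunctor p f)
    (hf1 : ∀ P : Subgroup G, IsPGroup p ↥P → P ≠ ⊥ → ∀ F ∈ f P, F ≠ ⊥)
    {𝓕s : Set (Subgroup G)} (h1 : ∀ X ∈ functorFamily p f ⊤, X ∈ 𝓕s)
    (h2 : ∀ M, IsMaximalPLocal p M → ¬ IsFunctorRegular p f M → M ∈ 𝓕s)
    {D : Subgroup G} (hD : D ≠ ⊥)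
    (IH : ∀ E : Subgroup G, D ≤ E → Nat.card D < Nat.card E → ∀ U V : Sylow p G,
      E ≤ (U : Subgroup G) → E ≤ (V : Subgroup G) → Relation.ReflTransGen (SLink p 𝓕s D) U V) :
    ∀ m : ℕ, ∀ M P : Subgroup G, IsMaximalPLocal p M → IsSyl p P M →
      Nat.card G - Nat.card P = m → ∀ x ∈ M, D ≤ P → D ≤ P.map (MulAut.conj x).toMonoidHom →
      Nat.card D < Nat.card P → ∀ U V : Sylow p G, P ≤ (U : Subgroup G) →
      P.map (MulAut.conj x).toMonoidHom ≤ (V : Subgroup G) →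
      Relation.ReflTransGen (SLink p 𝓕s D) U V := by
  intro m
  induction m using Nat.strong_induction_on with
  | _ m ihm =>
  intro M P hM hP hm x hx hDP hDPx hlt U V hPU hPV
  have hPx : IsSyl p (P.map (MulAut.conj x).toMonoidHom) M := hP.map_conj_of_mem (le_normalizer hx)
  by_cases hreg : IsFunctorRegular p f M
  · by_cases he : P = P.map (MulAut.conj x).toMonoidHom
    · exact IH P hDP hlt U V hPU (he.le.trans hPV)
    · have chain := (S2957.reg_iff hf M).mp hreg P _ hP hPx he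
        (ne_bot_of_le_ne_bot hD (le_inf hDP hDPx))
      have key : ∀ C, Relation.ReflTransGen
          (S2957.Link p f M (P ⊓ P.map (MulAut.conj x).toMonoidHom)) P C →
          D ≤ C ∧ ∀ W : Sylow p G, C ≤ (W : Subgroup G) →
            Relation.ReflTransGen (SLink p 𝓕s D) U W := by
        intro C hC
        induction hC with
        | refl => exact ⟨hDP, fun W hW => IH P hDP hlt U W hPU hW⟩
        | @tail b c _ hbc ih =>
          obtain ⟨hDb, ihb⟩ := ih
          have hDc : D ≤ c := by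
            obtain ⟨-, -, _, _, _, -, -, -, -, -, -, -, h10⟩ := hbc
            exact (le_inf hDP hDPx).trans h10
          refine ⟨hDc, fun W hW => ?_⟩
          obtain ⟨Wb, hWb⟩ := hbc.1.isPGroup.exists_le_sylow
          have hcc : Nat.card c = Nat.card P := hP.card_eq hbc.2.1
          refine (ihb Wb hWb).trans (linkstep hf hf1 h1 hD IH hbc hDb hDc (hcc ▸ hlt) ?_ Wb W hWb hW)
          intro M' P' hM' hP' hlt' x' hx' hD1 hD2 U' V' hU' hV'
          have hle : Nat.card P' ≤ Nat.card G := Subgroup.card_le_card_group P'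
          exact ihm (Nat.card G - Nat.card P') (by omega) M' P' hM' hP' rfl x' hx' hD1 hD2
            (by omega) U' V' hU' hV'
      exact (key _ chain).2 V hPV
  · obtain ⟨V₀, hV₀⟩ := ((isSyl_top U).map_conj_of_mem
      (le_normalizer (mem_top x))).exists_sylow_top
    have l1 : SLink p 𝓕s D U V₀ := slink_M (h2 M hM hreg) hP hx U V₀ hPU hV₀ hDP hDPx
    have l2 := IH (P.map (MulAut.conj x).toMonoidHom) hDPx (by rw [card_map_conj]; exact hlt) V₀ V
      (hV₀ ▸ map_mono hPU) hPV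
    exact (Relation.ReflTransGen.single l1).trans l2

theorem conn {G : Type*} [Group G] [Finite G] {p : ℕ} [Fact p.Prime]
    {f : Subgroup G → Set (Subgroup G)} (hf : IsNormalizerFunctor p f)
    (hf1 : ∀ P : Subgroup G, IsPGroup p ↥P → P ≠ ⊥ → ∀ F ∈ f P, F ≠ ⊥)
    {𝓕s : Set (Subgroup G)} (h1 : ∀ X ∈ functorFamily p f ⊤, X ∈ 𝓕s)
    (h2 : ∀ M, IsMaximalPLocal p M → ¬ IsFunctorRegular p f M → M ∈ 𝓕s) :
    ∀ n : ℕ, ∀ D : Subgroup G, D ≠ ⊥ → Nat.card G - Nat.card D = n → ∀ U V : Sylow p G,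
      D ≤ (U : Subgroup G) → D ≤ (V : Subgroup G) →
      Relation.ReflTransGen (SLink p 𝓕s D) U V := by
  intro n
  induction n using Nat.strong_induction_on with
  | _ n ihn =>
  intro D hD hn U V hDU hDV
  have IH : ∀ E : Subgroup G, D ≤ E → Nat.card D < Nat.card E → ∀ U V : Sylow p G,
      E ≤ (U : Subgroup G) → E ≤ (V : Subgroup G) →
      Relation.ReflTransGen (SLink p 𝓕s D) U V := by
    intro E hDE hlt U' V' hU' hV'
    have hEne : E ≠ ⊥ := ne_bot_of_le_ne_bot hD hDE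
    have hcE : Nat.card E ≤ Nat.card G := Subgroup.card_le_card_group E
    have h3 := ihn (Nat.card G - Nat.card E) (by omega) E hEne rfl U' V' hU' hV'
    exact S2957.rtg_lift id (fun a b hab => hab.mono hDE) h3
  have hUV : Nat.card (V : Subgroup G) = Nat.card (U : Subgroup G) :=
    (isSyl_top U).card_eq (isSyl_top V)
  by_cases hDU' : D = (U : Subgroup G)
  · have h4 : (U : Subgroup G) = (V : Subgroup G) :=
      Subgroup.eq_of_le_of_card_ge (hDU' ▸ hDV) hUV.le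
    rw [Sylow.ext h4]
  · have hDV' : D ≠ (V : Subgroup G) := by
      intro h
      apply hDU'
      exact Subgroup.eq_of_le_of_card_ge hDU (by rw [h]; exact hUV.ge)
    obtain ⟨z1, hz1U, hz1N, hz1D⟩ := Lib.Helper9.normalizer_growth U.2 hDU hDU'
    obtain ⟨z2, hz2V, hz2N, hz2D⟩ := Lib.Helper9.normalizer_growth V.2 hDV hDV'
    obtain ⟨M, hM, hNM⟩ := exists_max_plocal (p := p) (L := normalizer (D : Set G))
      ⟨D, U.2.to_le hDU, hD, rfl⟩
    obtain ⟨P1, hP1, hEU⟩ := exists_isSyl_ge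
      (A := (U : Subgroup G) ⊓ normalizer (D : Set G)) (inf_le_right.trans hNM)
      (U.2.to_le inf_le_left)
    obtain ⟨P2, hP2, hEV⟩ := exists_isSyl_ge
      (A := (V : Subgroup G) ⊓ normalizer (D : Set G)) (inf_le_right.trans hNM)
      (V.2.to_le inf_le_left)
    obtain ⟨m, hm, rfl⟩ := hP1.conj hP2
    obtain ⟨U', hU'⟩ := hP1.isPGroup.exists_le_sylow
    obtain ⟨V', hV'⟩ := hP2.isPGroup.exists_le_sylow
    have hDEU : D ≤ (U : Subgroup G) ⊓ normalizer (D : Set G) := le_inf hDU le_normalizer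
    have hDEV : D ≤ (V : Subgroup G) ⊓ normalizer (D : Set G) := le_inf hDV le_normalizer
    have lt1 := card_lt' hDEU z1 ⟨hz1U, hz1N⟩ hz1D
    have lt2 := card_lt' hDEV z2 ⟨hz2V, hz2N⟩ hz2D
    have t1 := IH _ hDEU lt1 U U' inf_le_left (hEU.trans hU')
    have t2 := IH _ hDEV lt2 V V' inf_le_left (hEV.trans hV')
    have t3 := theta hf hf1 h1 h2 hD IH _ M P1 hM hP1 rfl m hm (hDEU.trans hEU) (hDEV.trans hEV)
      (lt1.trans_le (Subgroup.card_le_of_le hEU)) U' V' hU' hV'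
    exact t1.trans (t3.trans (rsymm t2))

/-- Let p be a prime dividing the order of the finite group G, and f an assignment to every p-subgroup P of a set f(P) of subgroups of P, each normalized by N_G(P), compatible with conjugation, such that for P ≠ 1 the members of f(P) are nontrivial. Let 𝓕 be the family of the normalizers N_G(F) of the members F of f(S) over the Sylow p-subgroups S of G, and 𝓕' the family of the maximal p-local subgroups M of G that are singular for f (the corresponding family of normalizers inside M does not control Sylow p-intersections in M). Then 𝓕 ∪ 𝓕' controls Sylow p-intersections in G. -/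
theorem result {G : Type*} [Group G] [Finite G] (p : ℕ) [Fact p.Prime] (hdiv : p ∣ Nat.card G)
    (f : Subgroup G → Set (Subgroup G)) (hf : Cfsg.IsNormalizerFunctor p f)
    (hf1 : ∀ P : Subgroup G, IsPGroup p ↥P → P ≠ ⊥ → ∀ F ∈ f P, F ≠ ⊥)
    (𝓕 𝓕' : Set (Subgroup G)) (h𝓕 : 𝓕 = Cfsg.functorFamily p f ⊤)
    (h𝓕' : 𝓕' = {M | Cfsg.IsMaximalPLocal p M ∧ ¬ Cfsg.IsFunctorRegular p f M}) :
    Cfsg.ControlsSylowIntersections p (𝓕 ∪ 𝓕') := by
  rw [S2957.csi_iff]
  intro S T _ hbot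
  have h3 := conn hf hf1 (𝓕s := 𝓕 ∪ 𝓕') (fun X hX => Or.inl (h𝓕 ▸ hX))
    (fun M hM hr => Or.inr (h𝓕' ▸ ⟨hM, hr⟩)) _ ((S : Subgroup G) ⊓ (T : Subgroup G)) hbot rfl S T
    inf_le_left inf_le_right
  exact S2957.rtg_lift id (fun a b hab => hab.rel) h3

end Cfsg.Agent.S2956
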