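import Cfsg.Statements.S2958
-- import your own Cfsg.Agent.* helpers here
import Mathlib

set_option autoImplicit false
open Cfsg

namespace Cfsg.Agent.S2958

/-- Let X, A, B be subgroups of a group G such that G is generated by the conjugates of X and every conjugate of X is contained in A or in B. Then A = G or B = G. -/
theorem result {G : Type*} [Group G] (X A B : Subgroup G) (hgen : (⨆ g : G, X.map (MulAut.conj g).toMonoidHom) = ⊤) (hcover : ∀ g : G, X.map (MulAut.conj g).toMonoidHom ≤ A ∨ X.map (MulAut.conj g).toMonoidHom ≤ B) : A = ⊤ ∨ B = ⊤ := by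
  classical
  by_cases hall : ∀ g : G, X.map (MulAut.conj g).toMonoidHom ≤ B
  · right
    rw [eq_top_iff, ← hgen]
    exact iSup_le hall
  · left
    push Not at hall
    obtain ⟨g₀, hg₀⟩ := hall
    -- N is generated by the conjugates not contained in B
    set N : Subgroup G := ⨆ g : {g : G // ¬ X.map (MulAut.conj g).toMonoidHom ≤ B},
      X.map (MulAut.conj (g : G)).toMonoidHom with hN
    have hNA : N ≤ A := by
      apply iSup_le
      rintro ⟨g, hg⟩
      exact (hcover g).resolve_right hg
    have hconj : ∀ b g : G, (X.map (MulAut.conj g).toMonoidHom).map (MulAut.conj b).toMonoidHom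
        = X.map (MulAut.conj (b * g)).toMonoidHom := by
      intro b g
      rw [Subgroup.map_map]
      congr 1
      ext x
      simp [MulAut.conj_apply, mul_assoc]
    -- B normalizes N
    have hBN : ∀ b ∈ B, N.map (MulAut.conj b).toMonoidHom ≤ N := by
      intro b hb
      rw [hN, Subgroup.map_iSup]
      apply iSup_le
      rintro ⟨g, hg⟩
      rw [hconj]
      have hbg : ¬ X.map (MulAut.conj (b * g)).toMonoidHom ≤ B := by
        intro hle
        apply hg
        intro y hy
        have h1 : b * y * b⁻¹ ∈ X.map (MulAut.conj (b * g)).toMonoidHom := by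
          rw [← hconj]
          exact ⟨y, hy, by simp [MulAut.conj_apply]⟩
        have h2 := hle h1
        have h3 := B.mul_mem (B.mul_mem (B.inv_mem hb) h2) hb
        simpa [mul_assoc] using h3
      exact le_iSup (fun g : {g : G // ¬ X.map (MulAut.conj g).toMonoidHom ≤ B} =>
        X.map (MulAut.conj (g : G)).toMonoidHom) ⟨b * g, hbg⟩
    -- the set of elements normalizing N (one-sided) is a subgroup containing all conjugates
    have hnorm : ∀ g : G, X.map (MulAut.conj g).toMonoidHom ≤ Subgroup.normalizer (N : Set G) := by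
      intro g
      by_cases hg : X.map (MulAut.conj g).toMonoidHom ≤ B
      · intro y hy
        have hyB := hg hy
        rw [Subgroup.mem_normalizer_iff]
        intro n
        constructor
        · intro hn
          exact hBN y hyB ⟨n, hn, by simp [MulAut.conj_apply]⟩
        · intro hn
          have := hBN y⁻¹ (B.inv_mem hyB) ⟨_, hn, rfl⟩
          simpa [MulAut.conj_apply, mul_assoc] using this
      · exact (le_iSup (fun g : {g : G // ¬ X.map (MulAut.conj g).toMonoidHom ≤ B} =>
          X.map (MulAut.conj (g : G)).toMonoidHom) ⟨g, hg⟩).trans Subgroup.le_normalizer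
    have htop : Subgroup.normalizer (N : Set G) = ⊤ := by
      rw [eq_top_iff, ← hgen]
      exact iSup_le hnorm
    have hNn : N.Normal := Subgroup.normalizer_eq_top_iff.mp htop
    have hg₀N : X.map (MulAut.conj g₀).toMonoidHom ≤ N :=
      le_iSup (fun g : {g : G // ¬ X.map (MulAut.conj g).toMonoidHom ≤ B} =>
          X.map (MulAut.conj (g : G)).toMonoidHom) ⟨g₀, hg₀⟩
    rw [eq_top_iff]
    refine le_trans ?_ hNA
    rw [← hgen]
    apply iSup_le
    intro g
    rintro _ ⟨x, hx, rfl⟩
    have h1 : g₀ * x * g₀⁻¹ ∈ N := hg₀N ⟨x, hx, by simp [MulAut.conj_apply]⟩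
    have h2 := hNn.conj_mem _ h1 (g * g₀⁻¹)
    simpa [MulAut.conj_apply, mul_assoc] using h2

end Cfsg.Agent.S2958
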