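import Cfsg.Statements.S2959
-- import your own Cfsg.Agent.* helpers here
import Mathlib
import Cfsg.Agent.Lib.Helper17.Core

set_option autoImplicit false
open Cfsg

namespace Cfsg.Agent.S2959

/-- Let G be a finite group of characteristic p, that is C_G(O_p(G)) ≤ O_p(G), with p prime, and let L be a subgroup of G normalized by O_p(G). Then L has characteristic p: C_L(O_p(L)) ≤ O_p(L). -/
theorem result {G : Type*} [Group G] [Finite G] {p : ℕ} [Fact p.Prime] (hG : Subgroup.centralizer (Cfsg.pCore p G : Set G) ≤ Cfsg.pCore p G) (L : Subgroup G) (hL : Cfsg.pCore p G ≤ Subgroup.normalizer (L : Set G)) : Subgroup.centralizer (Cfsg.pCore p ↥L : Set ↥L) ≤ Cfsg.pCore p ↥L := by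
  classical
  rw [Lib.Helper17.charP_iff]
  have hRn : (pCore p G).Normal := pCore_normal p G
  set Q := pCore p G with hQ
  set C := L ⊓ Subgroup.centralizer (pCoreOf p L : Set G) with hC
  have hCL : C ≤ L := inf_le_left
  have hQLle : Q ⊓ L ≤ pCoreOf p L := by
    apply Lib.Helper17.le_pCoreOf inf_le_right
    · exact Lib.Helper17.le_normalizer_inf (by rw [Subgroup.normalizer_eq_top]; exact le_top)
        Subgroup.le_normalizer
    · exact Lib.Helper17.pCore_isPGroup.to_le inf_le_left
  have h1 : ⁅Q, C⁆ ≤ Q ⊓ L := by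
    have a : ⁅Q, C⁆ ≤ Q :=
      Subgroup.le_normalizer_iff_commutator_le_left.mp (by rw [Subgroup.normalizer_eq_top]; exact le_top)
    have b : ⁅Q, C⁆ ≤ L :=
      (Subgroup.commutator_mono le_rfl hCL).trans
        (Subgroup.le_normalizer_iff_commutator_le_right.mp hL)
    exact le_inf a b
  have h2 : ⁅Q ⊓ L, C⁆ = ⊥ := by
    rw [Subgroup.commutator_comm, Subgroup.commutator_eq_bot_iff_le_centralizer]
    exact inf_le_right.trans (Subgroup.centralizer_le hQLle)
  have h3 : IsPGroup p (C ⊓ Subgroup.centralizer (Q : Set G) : Subgroup G) :=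
    Lib.Helper17.pCore_isPGroup.to_le (inf_le_right.trans hG)
  have hCp : IsPGroup p C :=
    Lib.Helper17.isPGroup_of_stab_two Lib.Helper17.pCore_isPGroup inf_le_left h1 h2 h3
  refine Lib.Helper17.le_pCoreOf hCL ?_ hCp
  exact Lib.Helper17.le_normalizer_inf Subgroup.le_normalizer
    ((Lib.Helper17.le_normalizer_pCoreOf p L).trans
      (Lib.Helper17.normalizer_le_normalizer_centralizer _))

end Cfsg.Agent.S2959
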