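import Cfsg.Statements.S2960
-- import your own Cfsg.Agent.* helpers here
import Mathlib
import Cfsg.Agent.Lib.Helper17.Core
import Cfsg.Agent.Lib.Helper1.Coprime

set_option autoImplicit false
open Cfsg

namespace Cfsg.Agent.S2960

/-- Let G be a finite group of characteristic p (C_G(O_p(G)) ≤ O_p(G)), p prime, T a Sylow p-subgroup of G and Q a normal subgroup of T with C_T(Q) ≤ Q. Then C_G(Q) ≤ Q. -/
theorem result {G : Type*} [Group G] [Finite G] {p : ℕ} [Fact p.Prime] (hG : Subgroup.centralizer (Cfsg.pCore p G : Set G) ≤ Cfsg.pCore p G) (T : Sylow p G) (Q : Subgroup G) (hQT : Q ≤ (T : Subgroup G)) (hQn : (T : Subgroup G) ≤ Subgroup.normalizer (Q : Set G)) (hC : (T : Subgroup G) ⊓ Subgroup.centralizer (Q : Set G) ≤ Q) : Subgroup.centralizer (Q : Set G) ≤ Q := by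
  classical
  have hRn : (pCore p G).Normal := pCore_normal p G
  have hQp : IsPGroup p Q := T.isPGroup'.to_le hQT
  have hp' : ∀ c ∈ Subgroup.centralizer (Q : Set G), (orderOf c).Coprime p → c = 1 := by
    intro c hc hcop
    have hQc : Q ≤ Subgroup.centralizer (Subgroup.zpowers c : Set G) := by
      rw [Subgroup.le_centralizer_iff, Subgroup.zpowers_le]
      exact hc
    have h := Lib.Helper1.pq_lemma p Q (Subgroup.zpowers c) hQp
      (by rw [Nat.card_zpowers]; exact hcop) hQc _ (pCore p G) rfl Lib.Helper17.pCore_isPGroup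
      (by rw [Subgroup.normalizer_eq_top]; exact le_top)
      (by rw [Subgroup.normalizer_eq_top]; exact le_top)
      ((inf_le_inf_right _ (Lib.Helper17.pCore_le_sylow T)).trans (hC.trans hQc))
    have hcR : c ∈ pCore p G := hG (h (Subgroup.mem_zpowers c))
    obtain ⟨k, hk⟩ := (Lib.Helper17.pCore_isPGroup (G := G) (p := p)) ⟨c, hcR⟩
    have hk' : c ^ p ^ k = 1 := congrArg Subtype.val hk
    have h1 : orderOf c ∣ p ^ k := orderOf_dvd_of_pow_eq_one hk'
    have h2 : orderOf c = 1 := Nat.Coprime.eq_one_of_dvd (Nat.Coprime.pow_right k hcop) h1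
    exact orderOf_eq_one_iff.mp h2
  have hCp : IsPGroup p (Subgroup.centralizer (Q : Set G)) := by
    rintro ⟨x, hx⟩
    obtain ⟨k, hk⟩ := Lib.Helper17.exists_pow_p_pow_coprime (p := p) x
    refine ⟨k, Subtype.ext ?_⟩
    exact hp' _ (Subgroup.pow_mem _ hx _) hk
  have hTC : (T : Subgroup G) ≤ Subgroup.normalizer ((Subgroup.centralizer (Q : Set G) : Subgroup G) : Set G) :=
    hQn.trans (Lib.Helper17.normalizer_le_normalizer_centralizer _)
  have hsup : IsPGroup p ((T : Subgroup G) ⊔ Subgroup.centralizer (Q : Set G) : Subgroup G) :=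
    T.isPGroup'.to_sup_of_normal_right' hCp hTC
  have heq := T.is_maximal' hsup le_sup_left
  have hCT : Subgroup.centralizer (Q : Set G) ≤ (T : Subgroup G) := heq ▸ le_sup_right
  exact (le_inf hCT le_rfl).trans hC

end Cfsg.Agent.S2960
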