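import Cfsg.Statements.S2961
-- import your own Cfsg.Agent.* helpers here
import Mathlib
import Cfsg.Agent.Lib.Helper17.Core
import Cfsg.Agent.S2960

set_option autoImplicit false
open Cfsg

namespace Cfsg.Agent.S2961

/-- elements acting trivially on the cosets `R/W` -/
def stabSub {G : Type*} [Group G] (R W : Subgroup G) : Subgroup G where
  carrier := {x | x ∈ Subgroup.normalizer (R : Set G) ∧ x ∈ Subgroup.normalizer (W : Set G) ∧
    ∀ r ∈ R, r⁻¹ * (x * r * x⁻¹) ∈ W}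
  one_mem' := ⟨one_mem _, one_mem _, fun r _ => by simp⟩
  mul_mem' := by
    rintro a b ⟨ha1, ha2, ha3⟩ ⟨hb1, hb2, hb3⟩
    refine ⟨mul_mem ha1 hb1, mul_mem ha2 hb2, fun r hr => ?_⟩
    have h1 := ha3 r hr
    have h2 := hb3 r hr
    have h3 : a * (r⁻¹ * (b * r * b⁻¹)) * a⁻¹ ∈ W := (Subgroup.mem_normalizer_iff.mp ha2 _).mp h2
    have : r⁻¹ * (a * b * r * (a * b)⁻¹)
        = (r⁻¹ * (a * r * a⁻¹)) * (a * (r⁻¹ * (b * r * b⁻¹)) * a⁻¹) := by group
    rw [this]; exact W.mul_mem h1 h3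
  inv_mem' := by
    rintro a ⟨ha1, ha2, ha3⟩
    refine ⟨inv_mem ha1, inv_mem ha2, fun r hr => ?_⟩
    have hr' : a⁻¹ * r * a⁻¹⁻¹ ∈ R := (Subgroup.mem_normalizer_iff.mp (inv_mem ha1) _).mp hr
    have h1 := ha3 _ hr'
    have : r⁻¹ * (a⁻¹ * r * a⁻¹⁻¹)
        = ((a⁻¹ * r * a⁻¹⁻¹)⁻¹ * (a * (a⁻¹ * r * a⁻¹⁻¹) * a⁻¹))⁻¹ := by group
    rw [this]; exact W.inv_mem h1

theorem conj_mem_stabSub {G : Type*} [Group G] {R W : Subgroup G} {n x : G}
    (hn1 : n ∈ Subgroup.normalizer (R : Set G)) (hn2 : n ∈ Subgroup.normalizer (W : Set G))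
    (hx : x ∈ stabSub R W) : n * x * n⁻¹ ∈ stabSub R W := by
  obtain ⟨h1, h2, h3⟩ := hx
  refine ⟨mul_mem (mul_mem hn1 h1) (inv_mem hn1), mul_mem (mul_mem hn2 h2) (inv_mem hn2), ?_⟩
  intro r hr
  have hr' : n⁻¹ * r * n⁻¹⁻¹ ∈ R := (Subgroup.mem_normalizer_iff.mp (inv_mem hn1) _).mp hr
  have h4 := h3 _ hr'
  have h5 := (Subgroup.mem_normalizer_iff.mp hn2 _).mp h4
  have e : r⁻¹ * (n * x * n⁻¹ * r * (n * x * n⁻¹)⁻¹)
      = n * ((n⁻¹ * r * n⁻¹⁻¹)⁻¹ * (x * (n⁻¹ * r * n⁻¹⁻¹) * x⁻¹)) * n⁻¹ := by group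
  rw [e]; exact h5

/-- Let G be a finite group of characteristic p (C_G(O_p(G)) ≤ O_p(G)), p prime, T a Sylow p-subgroup of G and Q a normal subgroup of T with C_T(Q) ≤ Q. Then every subgroup L of G containing Q has characteristic p: C_L(O_p(L)) ≤ O_p(L). -/
theorem result {G : Type*} [Group G] [Finite G] {p : ℕ} [Fact p.Prime] (hG : Subgroup.centralizer (Cfsg.pCore p G : Set G) ≤ Cfsg.pCore p G) (T : Sylow p G) (Q : Subgroup G) (hQT : Q ≤ (T : Subgroup G)) (hQn : (T : Subgroup G) ≤ Subgroup.normalizer (Q : Set G)) (hC : (T : Subgroup G) ⊓ Subgroup.centralizer (Q : Set G) ≤ Q) (L : Subgroup G) (hQL : Q ≤ L) : Subgroup.centralizer (Cfsg.pCore p ↥L : Set ↥L) ≤ Cfsg.pCore p ↥L := by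
  classical
  have hCQ : Subgroup.centralizer (Q : Set G) ≤ Q := Cfsg.Agent.S2960.result hG T Q hQT hQn hC
  have hQp : IsPGroup p Q := T.isPGroup'.to_le hQT
  rw [Lib.Helper17.charP_iff]
  have hRn : (pCore p G).Normal := pCore_normal p G
  set R := pCore p G with hR
  set D := L ⊓ Subgroup.centralizer (pCoreOf p L : Set G) with hD
  set W := R ⊓ Q with hW
  have hDL : D ≤ L := inf_le_left
  have hLD : L ≤ Subgroup.normalizer (D : Set G) :=
    Lib.Helper17.le_normalizer_inf Subgroup.le_normalizer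
      ((Lib.Helper17.le_normalizer_pCoreOf p L).trans
        (Lib.Helper17.normalizer_le_normalizer_centralizer _))
  have hNR : ∀ x : G, x ∈ Subgroup.normalizer (R : Set G) := by
    intro x; rw [Subgroup.normalizer_eq_top]; trivial
  have hWL : W ≤ pCoreOf p L := by
    have : R ⊓ L ≤ pCoreOf p L := by
      apply Lib.Helper17.le_pCoreOf inf_le_right
      · exact Lib.Helper17.le_normalizer_inf (by rw [Subgroup.normalizer_eq_top]; exact le_top)
          Subgroup.le_normalizer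
      · exact Lib.Helper17.pCore_isPGroup.to_le inf_le_left
    exact (inf_le_inf_left _ hQL).trans this
  have hDW : D ≤ Subgroup.centralizer (W : Set G) := inf_le_right.trans (Subgroup.centralizer_le hWL)
  have hDNW : D ≤ Subgroup.normalizer (W : Set G) :=
    hDW.trans (Lib.Helper17.centralizer_le_normalizer' W)
  have hQS : Q ≤ stabSub R W := by
    intro q hq
    refine ⟨hNR q, ?_, ?_⟩
    · exact Lib.Helper17.le_normalizer_inf (K := Q) (fun x _ => hNR x) Subgroup.le_normalizer hq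
    · intro r hr
      refine ⟨?_, ?_⟩
      · exact R.mul_mem (R.inv_mem hr) (hRn.conj_mem r hr q)
      · have hrT : r⁻¹ ∈ Subgroup.normalizer (Q : Set G) :=
          hQn (Subgroup.inv_mem _ (Lib.Helper17.pCore_le_sylow T hr))
        have := (Subgroup.mem_normalizer_iff.mp hrT q).mp hq
        have e : r⁻¹ * (q * r * q⁻¹) = (r⁻¹ * q * r⁻¹⁻¹) * q⁻¹ := by group
        rw [e]; exact Q.mul_mem this (Q.inv_mem hq)
  set E := D ⊓ stabSub R W with hE
  have hcommE : ∀ q ∈ Q, ∀ d ∈ D, q * d * q⁻¹ * d⁻¹ ∈ E := by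
    intro q hq d hd
    refine ⟨?_, ?_⟩
    · exact D.mul_mem (Lib.Helper17.conj_mem_of_le_normalizer hLD (hQL hq) hd) (D.inv_mem hd)
    · have := conj_mem_stabSub (hNR d) (hDNW hd) (hQS (Q.inv_mem hq))
      have e : q * d * q⁻¹ * d⁻¹ = q * (d * q⁻¹ * d⁻¹) := by group
      rw [e]; exact mul_mem (hQS hq) this
  have hEp : IsPGroup p E := by
    apply Lib.Helper17.isPGroup_of_stab_two (Q := R) (R := W) Lib.Helper17.pCore_isPGroup inf_le_left
    · rw [Subgroup.commutator_le]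
      intro r hr e he
      have := he.2.2.2 r⁻¹ (R.inv_mem hr)
      rw [commutatorElement_def]
      have e' : r * e * r⁻¹ * e⁻¹ = r⁻¹⁻¹ * (e * r⁻¹ * e⁻¹) := by group
      rw [e']; exact this
    · rw [Subgroup.commutator_comm, Subgroup.commutator_eq_bot_iff_le_centralizer]
      exact inf_le_left.trans hDW
    · exact Lib.Helper17.pCore_isPGroup.to_le (inf_le_right.trans hG)
  have hDE : D ≤ Subgroup.normalizer (E : Set G) :=
    Lib.Helper17.le_normalizer_inf Subgroup.le_normalizer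
      (Lib.Helper17.le_normalizer_of_conj_mem fun d hd x hx =>
        conj_mem_stabSub (hNR d) (hDNW hd) hx)
  have hEL : E ≤ pCoreOf p L :=
    (Lib.Helper17.le_pCoreOf inf_le_left hDE hEp).trans
      (Lib.Helper17.pCoreOf_le_pCoreOf_of_normal hDL hLD)
  have hDp : IsPGroup p D := by
    rintro ⟨x, hx⟩
    obtain ⟨k, hk⟩ := Lib.Helper17.exists_pow_p_pow_coprime (p := p) x
    refine ⟨k, Subtype.ext ?_⟩
    show x ^ p ^ k = 1
    set y := x ^ p ^ k with hy
    have hyD : y ∈ D := D.pow_mem hx _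
    have hyQ : y ∈ Subgroup.centralizer (Q : Set G) := by
      rw [Subgroup.mem_centralizer_iff]
      intro q hq
      have heE := hcommE q hq y hyD
      set e := q * y * q⁻¹ * y⁻¹ with he
      have hcomm : Commute e y := (Subgroup.mem_centralizer_iff.mp hyD.2) e (hEL heE)
      have h1 : q * y * q⁻¹ = e * y := by rw [he]; group
      have h2 : (e * y) ^ orderOf y = 1 := by
        rw [← h1, conj_pow, pow_orderOf_eq_one]; group
      rw [hcomm.mul_pow, pow_orderOf_eq_one, mul_one] at h2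
      obtain ⟨j, hj⟩ := hEp ⟨e, heE⟩
      have hj' : e ^ p ^ j = 1 := congrArg Subtype.val hj
      have h3 : orderOf e ∣ orderOf y := orderOf_dvd_of_pow_eq_one h2
      have h4 : orderOf e ∣ p ^ j := orderOf_dvd_of_pow_eq_one hj'
      have h5 : orderOf e = 1 :=
        Nat.Coprime.eq_one_of_dvd (Nat.Coprime.coprime_dvd_left h3 (hk.pow_right j)) h4
      have h6 : e = 1 := orderOf_eq_one_iff.mp h5
      rw [h6, one_mul] at h1
      calc q * y = (q * y * q⁻¹) * q := by group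
        _ = y * q := by rw [h1]
    have hyQ' : y ∈ Q := hCQ hyQ
    obtain ⟨j, hj⟩ := hQp ⟨y, hyQ'⟩
    have hj' : y ^ p ^ j = 1 := congrArg Subtype.val hj
    have h4 : orderOf y ∣ p ^ j := orderOf_dvd_of_pow_eq_one hj'
    exact orderOf_eq_one_iff.mp (Nat.Coprime.eq_one_of_dvd (hk.pow_right j) h4)
  exact Lib.Helper17.le_pCoreOf hDL hLD hDp

end Cfsg.Agent.S2961
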