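import Cfsg.Statements.S2963
-- import your own Cfsg.Agent.* helpers here
import Mathlib

set_option autoImplicit false
open Cfsg

namespace Cfsg.Agent.S2963
open scoped Pointwise

/-- Let n be odd. If the symmetric group of degree n is a minimal parabolic group for the prime 2, that is, a Sylow 2-subgroup is not normal and lies in exactly one maximal subgroup, then n = 2^m + 1 for some natural number m. -/
theorem result (n : ℕ) (hn : Odd n) (h : Cfsg.IsPMinimal 2 (Equiv.Perm (Fin n))) : ∃ m : ℕ, n = 2 ^ m + 1 := by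
  classical
  obtain ⟨S⟩ : Nonempty (Sylow 2 (Equiv.Perm (Fin n))) := inferInstance
  obtain ⟨hnn, M, ⟨hM, hSM⟩, huniq⟩ := h S
  have hle : ∀ K : Subgroup (Equiv.Perm (Fin n)), (S : Subgroup _) ≤ K → K ≠ ⊤ → K ≤ M := by
    intro K hSK hK
    rcases eq_top_or_exists_le_coatom K with h1 | ⟨M', hM', hKM'⟩
    · exact absurd h1 hK
    · have := huniq M' ⟨hM', hSK.trans hKM'⟩
      exact this ▸ hKM'
  have hodd : ¬ 2 ∣ Nat.card (Fin n) := by
    rw [Nat.card_fin]
    exact hn.not_two_dvd_nat
  obtain ⟨pt, hpt⟩ := S.2.nonempty_fixed_point_of_prime_not_dvd_card (Fin n) hodd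
  have hpt' : ∀ s ∈ (S : Subgroup (Equiv.Perm (Fin n))), s pt = pt := fun s hs => hpt ⟨s, hs⟩
  by_cases htr : ∀ a b : Fin n, a ≠ pt → b ≠ pt → ∃ s ∈ (S : Subgroup (Equiv.Perm (Fin n))), s a = b
  · by_cases hex : ∃ a : Fin n, a ≠ pt
    · obtain ⟨a, ha⟩ := hex
      obtain ⟨m, hm⟩ := S.2.card_orbit a
      refine ⟨m, ?_⟩
      have horb : MulAction.orbit (↥(S : Subgroup (Equiv.Perm (Fin n)))) a = {pt}ᶜ := by
        ext b
        simp only [Set.mem_compl_iff, Set.mem_singleton_iff]
        constructor
        · rintro ⟨s, rfl⟩ hb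
          apply ha
          have h1 : (s : Equiv.Perm (Fin n)) a = (s : Equiv.Perm (Fin n)) pt := by
            rw [hpt' _ s.2]; exact hb
          exact (s : Equiv.Perm (Fin n)).injective h1
        · intro hb
          obtain ⟨s, hs, hsa⟩ := htr a b ha hb
          exact ⟨⟨s, hs⟩, hsa⟩
      rw [horb, Nat.card_coe_set_eq, Set.ncard_compl, Set.ncard_singleton, Nat.card_fin] at hm
      have : 0 < n := Fin.pos pt
      omega
    · exfalso
      push Not at hex
      apply hnn
      have hsub : Subsingleton (Equiv.Perm (Fin n)) := by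
        have : Subsingleton (Fin n) := ⟨fun x y => (hex x).trans (hex y).symm⟩
        infer_instance
      constructor
      intro x hx g
      have : g * x * g⁻¹ = x := Subsingleton.elim _ _
      rw [this]; exact hx
  · exfalso
    push Not at htr
    obtain ⟨a, b, ha, hb, hab⟩ := htr
    set O : Set (Fin n) := MulAction.orbit (↥(S : Subgroup (Equiv.Perm (Fin n)))) a with hO
    have haO : a ∈ O := MulAction.mem_orbit_self a
    have hbO : b ∉ O := by
      rintro ⟨s, hs⟩
      exact hab s s.2 hs
    have hptO : pt ∉ O := by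
      rintro ⟨s, hs⟩
      apply ha
      have h1 : (s : Equiv.Perm (Fin n)) a = (s : Equiv.Perm (Fin n)) pt := by
        rw [hpt' _ s.2]; exact hs
      exact (s : Equiv.Perm (Fin n)).injective h1
    have hK1 : MulAction.stabilizer (Equiv.Perm (Fin n)) pt ≤ M := by
      apply hle
      · intro s hs
        exact MulAction.mem_stabilizer_iff.mpr (hpt' s hs)
      · intro htop
        have : Equiv.swap pt a ∈ MulAction.stabilizer (Equiv.Perm (Fin n)) pt := by
          rw [htop]; trivial
        rw [MulAction.mem_stabilizer_iff, Equiv.Perm.smul_def, Equiv.swap_apply_left] at this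
        exact ha this
    have hK2 : MulAction.stabilizer (Equiv.Perm (Fin n)) O ≤ M := by
      apply hle
      · intro s hs
        rw [MulAction.mem_stabilizer_set]
        intro c
        constructor
        · rintro ⟨t, ht⟩
          refine ⟨(⟨s, hs⟩ : ↥(S : Subgroup (Equiv.Perm (Fin n))))⁻¹ * t, ?_⟩
          have ht' : t • a = s • c := ht
          change ((⟨s, hs⟩ : ↥(S : Subgroup (Equiv.Perm (Fin n))))⁻¹ * t) • a = c
          rw [mul_smul, ht']
          exact inv_smul_smul s c
        · rintro ⟨t, rfl⟩
          exact ⟨(⟨s, hs⟩ : ↥(S : Subgroup (Equiv.Perm (Fin n)))) * t, mul_smul _ _ _⟩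
      · intro htop
        have : Equiv.swap a b ∈ MulAction.stabilizer (Equiv.Perm (Fin n)) O := by
          rw [htop]; trivial
        rw [MulAction.mem_stabilizer_set] at this
        have h2 := (this a).mpr haO
        rw [Equiv.Perm.smul_def, Equiv.swap_apply_left] at h2
        exact hbO h2
    apply hM.1
    rw [eq_top_iff, ← Equiv.Perm.closure_isSwap, Subgroup.closure_le]
    have hsw1 : ∀ x y : Fin n, x ≠ pt → y ≠ pt → Equiv.swap x y ∈ M := by
      intro x y hx hy
      apply hK1
      rw [MulAction.mem_stabilizer_iff, Equiv.Perm.smul_def]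
      exact Equiv.swap_apply_of_ne_of_ne hx.symm hy.symm
    have hsw2 : Equiv.swap pt b ∈ M := by
      apply hK2
      rw [MulAction.mem_stabilizer_set]
      intro c
      rw [Equiv.Perm.smul_def]
      by_cases hc1 : c = pt
      · subst hc1
        rw [Equiv.swap_apply_left]
        exact ⟨fun h => absurd h hbO, fun h => absurd h hptO⟩
      · by_cases hc2 : c = b
        · subst hc2
          rw [Equiv.swap_apply_right]
          exact ⟨fun h => absurd h hptO, fun h => absurd h hbO⟩
        · rw [Equiv.swap_apply_of_ne_of_ne hc1 hc2]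
    have hsw3 : ∀ y : Fin n, y ≠ pt → Equiv.swap pt y ∈ M := by
      intro y hy
      by_cases hyb : y = b
      · rw [hyb]; exact hsw2
      · have h1 := Equiv.swap_apply_apply (Equiv.swap b y) pt b
        rw [Equiv.swap_apply_left, Equiv.swap_apply_of_ne_of_ne hb.symm hy.symm] at h1
        rw [h1]
        exact M.mul_mem (M.mul_mem (hsw1 b y hb hy) hsw2) (M.inv_mem (hsw1 b y hb hy))
    rintro σ ⟨x, y, hxy, rfl⟩
    by_cases hx : x = pt
    · subst hx
      exact hsw3 y hxy.symm
    · by_cases hy : y = pt
      · subst hy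
        rw [Equiv.swap_comm]
        exact hsw3 x hx
      · exact hsw1 x y hx hy

end Cfsg.Agent.S2963
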