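import Cfsg.Statements.S2998
-- import your own Cfsg.Agent.* helpers here
import Mathlib
import Cfsg.Agent.Lib.Helper17.Syl
import Cfsg.Agent.Lib.Helper5.Card

set_option autoImplicit false
open Cfsg

namespace Cfsg.Agent.S2998

/-- Let G be a finite group, p a prime, P a Sylow p-subgroup of G and x ∈ P an element such that N_G(R) ≤ C_G(x) for every nontrivial subgroup R of P. Then P ≤ C_G(x); every G-conjugate of x lying in P equals x (so g ∈ C_G(x) whenever g x g⁻¹ ∈ P); and for every normal subgroup N of G, the image of x in G ⧸ N has the same property with respect to the image of P: the normalizer of every nontrivial subgroup of the image of P centralizes the image of x. -/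
theorem result {G : Type*} [Group G] [Finite G] {p : ℕ} [Fact p.Prime] (P : Sylow p G) (x : G) (hxP : x ∈ (P : Subgroup G)) (hlc : ∀ R : Subgroup G, R ≤ (P : Subgroup G) → R ≠ ⊥ → Subgroup.normalizer (R : Set G) ≤ Subgroup.centralizer ({x} : Set G)) : (P : Subgroup G) ≤ Subgroup.centralizer ({x} : Set G) ∧ (∀ g : G, g * x * g⁻¹ ∈ (P : Subgroup G) → g * x * g⁻¹ = x) ∧ ∀ (N : Subgroup G) [N.Normal], ∀ R : Subgroup (G ⧸ N), R ≤ (P : Subgroup G).map (QuotientGroup.mk' N) → R ≠ ⊥ → Subgroup.normalizer (R : Set (G ⧸ N)) ≤ Subgroup.centralizer ({(QuotientGroup.mk x : G ⧸ N)} : Set (G ⧸ N)) := by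
  classical
  have hp : p.Prime := Fact.out
  have hPC : (P : Subgroup G) ≤ Subgroup.centralizer ({x} : Set G) := by
    by_cases hb : (P : Subgroup G) = ⊥
    · rw [hb]; exact bot_le
    · exact Subgroup.le_normalizer.trans (hlc P le_rfl hb)
  refine ⟨hPC, ?_, ?_⟩
  · intro g hg
    by_cases hx1 : x = 1
    · rw [hx1]; group
    set y := g * x * g⁻¹ with hy
    have hy1 : y ≠ 1 := by
      intro h
      apply hx1
      have : x = g⁻¹ * y * g := by rw [hy]; group
      rw [this, h]; group
    have hzy : Subgroup.zpowers y ≠ ⊥ := by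
      intro h
      exact hy1 (Subgroup.zpowers_eq_bot.mp h)
    have h1 : Subgroup.centralizer ({y} : Set G) ≤ Subgroup.centralizer ({x} : Set G) := by
      refine le_trans ?_ (hlc _ (Subgroup.zpowers_le.mpr hg) hzy)
      intro c hc
      apply Lib.Helper17.centralizer_le_normalizer'
      rw [Subgroup.mem_centralizer_iff]
      intro z hz
      obtain ⟨i, rfl⟩ := Subgroup.mem_zpowers_iff.mp hz
      have : Commute c y := Subgroup.mem_centralizer_singleton_iff.mp hc
      exact (this.zpow_right i).eq.symm
    have h2 : Subgroup.centralizer ({y} : Set G)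
        = (Subgroup.centralizer ({x} : Set G)).map (MulAut.conj g).toMonoidHom := by
      ext c
      rw [Lib.Helper17.mem_map_conj, Subgroup.mem_centralizer_singleton_iff,
        Subgroup.mem_centralizer_singleton_iff, hy]
      constructor
      · intro h
        calc g⁻¹ * c * g * x = g⁻¹ * (c * (g * x * g⁻¹)) * g := by group
          _ = g⁻¹ * (g * x * g⁻¹ * c) * g := by rw [h]
          _ = x * (g⁻¹ * c * g) := by group
      · intro h
        calc c * (g * x * g⁻¹) = g * (g⁻¹ * c * g * x) * g⁻¹ := by group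
          _ = g * (x * (g⁻¹ * c * g)) * g⁻¹ := by rw [h]
          _ = g * x * g⁻¹ * c := by group
    have h3 : Subgroup.centralizer ({y} : Set G) = Subgroup.centralizer ({x} : Set G) :=
      Subgroup.eq_of_le_of_card_ge h1 (by rw [h2, Lib.Helper17.card_map_conj])
    have hs1 : Lib.Helper17.IsSyl p (P : Subgroup G) (Subgroup.centralizer ({x} : Set G)) :=
      (Lib.Helper17.isSyl_top P).of_le hPC le_top
    have hs2 : Lib.Helper17.IsSyl p ((P : Subgroup G).map (MulAut.conj g).toMonoidHom)
        (Subgroup.centralizer ({x} : Set G)) := by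
      have := hs1.map_conj g
      rwa [← h2, h3] at this
    obtain ⟨c, hc, hce⟩ := hs1.conj hs2
    have h4 : c⁻¹ * g ∈ Subgroup.normalizer ((P : Subgroup G) : Set G) := by
      rw [Lib.Helper17.mem_normalizer_iff_map_conj, ← Lib.Helper17.map_conj_map_conj, hce,
        Lib.Helper17.map_conj_map_conj, inv_mul_cancel, Lib.Helper17.map_conj_one]
    have hPb : (P : Subgroup G) ≠ ⊥ := by
      intro hb
      rw [hb, Subgroup.mem_bot] at hxP
      exact hx1 hxP
    have h5 := hlc P le_rfl hPb h4
    have h6 : g ∈ Subgroup.centralizer ({x} : Set G) := by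
      have : g = c * (c⁻¹ * g) := by group
      rw [this]; exact mul_mem hc h5
    have h7 := Subgroup.mem_centralizer_singleton_iff.mp h6
    rw [hy, h7, mul_inv_cancel_right]
  · intro N _ Rb hRb hRb1 gb hgb
    obtain ⟨g, rfl⟩ := QuotientGroup.mk_surjective gb
    set L := Rb.comap (QuotientGroup.mk' N) with hL
    set R := (P : Subgroup G) ⊓ L with hR
    have hNL : N ≤ L := by
      intro n hn
      show (QuotientGroup.mk n : G ⧸ N) ∈ Rb
      rw [(QuotientGroup.eq_one_iff n).mpr hn]; exact one_mem _
    have hLRN : L ≤ R ⊔ N := by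
      intro l hl
      obtain ⟨y, hy, hyl⟩ := hRb hl
      have hyL : y ∈ L := by
        show (QuotientGroup.mk' N) y ∈ Rb
        rw [hyl]; exact hl
      have h1 : y⁻¹ * l ∈ N := by
        rw [← QuotientGroup.eq]
        exact hyl
      have : l = y * (y⁻¹ * l) := by group
      rw [this]
      exact mul_mem ((le_sup_left : R ≤ _) ⟨hy, hyL⟩) ((le_sup_right : N ≤ _) h1)
    have hLeq : R ⊔ N = L := le_antisymm (sup_le inf_le_right hNL) hLRN
    have hR1 : R ≠ ⊥ := by
      intro hb
      apply hRb1
      rw [eq_bot_iff]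
      intro r hr
      obtain ⟨l, rfl⟩ := QuotientGroup.mk_surjective r
      have hl : l ∈ R ⊔ N := hLRN hr
      rw [hb, bot_sup_eq] at hl
      rw [Subgroup.mem_bot]
      exact (QuotientGroup.eq_one_iff l).mpr hl
    have hRN : R ⊓ N = (P : Subgroup G) ⊓ N := by
      rw [hR, inf_assoc, inf_eq_right.mpr hNL]
    have hsN : Lib.Helper17.IsSyl p ((P : Subgroup G) ⊓ N) N :=
      (Lib.Helper17.isSyl_top P).inf_normal le_top (by rw [Subgroup.normalizer_eq_top])
    have hRs : Lib.Helper17.IsSyl p R L := by
      apply Lib.Helper17.isSyl_of_not_dvd_relIndex inf_le_right (P.isPGroup'.to_le inf_le_left)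
      have e1 := Lib.Helper5.card_sup_mul_card_inf R N (by rw [Subgroup.normalizer_eq_top]; exact le_top)
      rw [hLeq, hRN] at e1
      have e2 := Lib.Helper5.card_mul_relIndex (inf_le_right : R ≤ L)
      have e3 := Lib.Helper5.card_mul_relIndex (inf_le_right : (P : Subgroup G) ⊓ N ≤ N)
      have e4 : R.relIndex L = ((P : Subgroup G) ⊓ N).relIndex N := by
        have hpos : 0 < Nat.card R * Nat.card ((P : Subgroup G) ⊓ N : Subgroup G) :=
          Nat.mul_pos Nat.card_pos Nat.card_pos
        apply Nat.eq_of_mul_eq_mul_left hpos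
        calc Nat.card R * Nat.card ((P : Subgroup G) ⊓ N : Subgroup G) * R.relIndex L
            = (Nat.card R * R.relIndex L) * Nat.card ((P : Subgroup G) ⊓ N : Subgroup G) := by ring
          _ = Nat.card R * Nat.card N := by rw [e2, e1]
          _ = Nat.card R * (Nat.card ((P : Subgroup G) ⊓ N : Subgroup G)
                * ((P : Subgroup G) ⊓ N).relIndex N) := by rw [e3]
          _ = _ := by ring
      rw [e4]
      exact hsN.not_dvd_relIndex
    have hgL : g ∈ Subgroup.normalizer (L : Set G) := by
      have := Subgroup.le_normalizer_comap (H := Rb) (QuotientGroup.mk' N)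
      exact this hgb
    obtain ⟨n, hn, hnm⟩ := Lib.Helper17.frattini_arg hRs (M := Subgroup.zpowers g)
      (Subgroup.zpowers_le.mpr hgL) (Subgroup.mem_zpowers g)
    have h1 := hlc R inf_le_left hR1 hnm
    have hn' : n ∈ R ⊔ N := hLRN hn
    rw [Subgroup.mem_sup_of_normal_right] at hn'
    obtain ⟨r, hr, m, hm, rfl⟩ := hn'
    have hrC : r ∈ Subgroup.centralizer ({x} : Set G) := hPC hr.1
    have h2 : (QuotientGroup.mk g : G ⧸ N) = QuotientGroup.mk (r * ((r * m)⁻¹ * g)) := by
      rw [QuotientGroup.eq]
      have e : g⁻¹ * (r * ((r * m)⁻¹ * g)) = g⁻¹ * (r * m⁻¹ * r⁻¹) * g⁻¹⁻¹ := by group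
      rw [e]
      exact Subgroup.Normal.conj_mem inferInstance _
        (Subgroup.Normal.conj_mem inferInstance _ (N.inv_mem hm) _) _
    rw [h2]
    have h3 : r * ((r * m)⁻¹ * g) ∈ Subgroup.centralizer ({x} : Set G) := mul_mem hrC h1
    have h4 := Subgroup.mem_centralizer_singleton_iff.mp h3
    refine Subgroup.mem_centralizer_singleton_iff.mpr ?_
    rw [← QuotientGroup.mk_mul, h4, QuotientGroup.mk_mul]

end Cfsg.Agent.S2998
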