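import Cfsg.Statements.S3003
-- import your own Cfsg.Agent.* helpers here
import Mathlib
import Cfsg.Agent.S0058
import Cfsg.Agent.Lib.Helper17.Syl

set_option autoImplicit false
open Cfsg

namespace Cfsg.Agent.S3003

open Cfsg.Agent.Lib.Helper17

theorem part1 {G : Type*} [Group G] [Finite G] {p : ℕ} [Fact p.Prime] (Q : Subgroup G)
    (hQp : IsPGroup p ↥Q) (hlarge : Cfsg.IsLarge Q) (G₁ : Subgroup G) (hQG : Q ≤ G₁)
    (R : Subgroup G) (hR : (Nat.card ↥R).Coprime p)
    (hGR : G₁ ≤ Subgroup.normalizer (R : Set G)) (U : Subgroup G)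
    (h : ∃ x ∈ U, x ≠ 1 ∧ ∃ g ∈ G₁, g * x * g⁻¹ ∈ Q ⊓ Subgroup.centralizer (Q : Set G)) :
    R ⊓ Subgroup.centralizer (U : Set G) = ⊥ := by
  obtain ⟨x, hxU, hx1, g, hg, hz⟩ := h
  obtain ⟨hzQ, hzC⟩ := Subgroup.mem_inf.1 hz
  have hQR : Disjoint Q R := by
    apply Subgroup.disjoint_of_coprime_natCard
    obtain ⟨k, hk⟩ := IsPGroup.iff_card.1 hQp
    rw [hk]
    exact (Nat.Coprime.pow_right k hR).symm
  rw [eq_bot_iff]
  intro r hr
  obtain ⟨hrR, hrC⟩ := Subgroup.mem_inf.1 hr
  have hrx : x * r = r * x := Subgroup.mem_centralizer_iff.1 hrC x hxU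
  have hsR : g * r * g⁻¹ ∈ R := ((Subgroup.mem_normalizer_iff.1 (hGR hg)) r).1 hrR
  have hsz : (g * r * g⁻¹) * (g * x * g⁻¹) = (g * x * g⁻¹) * (g * r * g⁻¹) := by
    have e1 : (g * r * g⁻¹) * (g * x * g⁻¹) = g * (r * x) * g⁻¹ := by group
    have e2 : (g * x * g⁻¹) * (g * r * g⁻¹) = g * (x * r) * g⁻¹ := by group
    rw [e1, e2, hrx]
  obtain ⟨s, hs⟩ : ∃ s, s = g * r * g⁻¹ := ⟨_, rfl⟩
  obtain ⟨z, hzd⟩ : ∃ z, z = g * x * g⁻¹ := ⟨_, rfl⟩
  rw [← hs] at hsR hsz
  rw [← hzd] at hsz hzQ hzC
  have hz1 : z ≠ 1 := by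
    intro h1
    apply hx1
    rw [h1] at hzd
    have : x = g⁻¹ * (g * x * g⁻¹) * g := by group
    rw [this, ← hzd]; group
  have hsN : s ∈ Subgroup.normalizer ((Subgroup.zpowers z : Subgroup G) : Set G) := by
    apply centralizer_le_normalizer'
    rw [Subgroup.mem_centralizer_iff]
    intro y hy
    obtain ⟨k, rfl⟩ := Subgroup.mem_zpowers_iff.1 hy
    exact ((Commute.zpow_right (show Commute s z from hsz) k).eq).symm
  have hsNQ : s ∈ Subgroup.normalizer (Q : Set G) :=
    hlarge.2 (Subgroup.zpowers z) (Subgroup.zpowers_le.2 hzC) (by simpa using hz1) hsN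
  have hsC : s ∈ Subgroup.centralizer (Q : Set G) := by
    rw [Subgroup.mem_centralizer_iff]
    intro q hq
    have h1 : s * q * s⁻¹ * q⁻¹ ∈ Q :=
      Q.mul_mem ((Subgroup.mem_normalizer_iff.1 hsNQ q).1 hq) (Q.inv_mem hq)
    have h2 : s * (q * s⁻¹ * q⁻¹) ∈ R :=
      R.mul_mem hsR ((Subgroup.mem_normalizer_iff.1 (hGR (hQG hq)) s⁻¹).1 (R.inv_mem hsR))
    have h3 : s * q * s⁻¹ * q⁻¹ = 1 :=
      Subgroup.disjoint_def.1 hQR h1 (by simpa [mul_assoc] using h2)
    have : s * q = (s * q * s⁻¹ * q⁻¹) * (q * s) := by group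
    rw [this, h3, one_mul]
  have hs1 : s = 1 := Subgroup.disjoint_def.1 hQR (hlarge.1 hsC) hsR
  rw [Subgroup.mem_bot]
  have : r = g⁻¹ * (g * r * g⁻¹) * g := by group
  rw [this, ← hs, hs1]; group

theorem disj {G : Type*} [Group G] {p : ℕ} [hp : Fact p.Prime] {a : G} {H : Subgroup G}
    (ha : a ^ p = 1) (haH : a ∉ H) {y : G} (hy : y ∈ Subgroup.zpowers a) (hyH : y ∈ H) :
    y = 1 := by
  obtain ⟨i, rfl⟩ := Subgroup.mem_zpowers_iff.1 hy
  by_cases hpi : (p : ℤ) ∣ i
  · obtain ⟨k, rfl⟩ := hpi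
    rw [zpow_mul, zpow_natCast, ha, one_zpow]
  · exfalso
    have hc : IsCoprime (p : ℤ) i :=
      ((Nat.prime_iff_prime_int.1 hp.out).irreducible.coprime_iff_not_dvd).2 hpi
    obtain ⟨u, v, huv⟩ := hc
    apply haH
    have : a = (a ^ (p : ℤ)) ^ u * (a ^ i) ^ v := by
      rw [← zpow_mul, ← zpow_mul, ← zpow_add, mul_comm (p : ℤ), mul_comm i, huv, zpow_one]
    rw [this, zpow_natCast, ha, one_zpow, one_mul]
    exact H.zpow_mem hyH v

/-- Let G be a finite group, p a prime and Q a large p-subgroup of G: C_G(Q) ≤ Q and N_G(U) ≤ N_G(Q) for every nontrivial subgroup U of C_G(Q). Let Q ≤ G₁ ≤ G, let R be a subgroup of order prime to p normalized by G₁, and let U ≤ G₁ be a p-subgroup. If U contains a nontrivial element which is G₁-conjugate to an element of Z(Q), then C_R(U) = 1. In particular, if U is elementary abelian of order at least p² and every maximal subgroup of U contains a nontrivial element G₁-conjugate into Z(Q), then R = 1. -/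
theorem result {G : Type*} [Group G] [Finite G] {p : ℕ} [Fact p.Prime] (Q : Subgroup G) (hQp : IsPGroup p ↥Q) (hlarge : Cfsg.IsLarge Q) (G₁ : Subgroup G) (hQG : Q ≤ G₁) (R : Subgroup G) (hR : (Nat.card ↥R).Coprime p) (hGR : G₁ ≤ Subgroup.normalizer (R : Set G)) (U : Subgroup G) (hUG : U ≤ G₁) (hUp : IsPGroup p ↥U) : ((∃ x ∈ U, x ≠ 1 ∧ ∃ g ∈ G₁, g * x * g⁻¹ ∈ Q ⊓ Subgroup.centralizer (Q : Set G)) → R ⊓ Subgroup.centralizer (U : Set G) = ⊥) ∧ (Cfsg.IsElementaryAbelian p U → p ^ 2 ≤ Nat.card ↥U → (∀ U₀ : Subgroup G, U₀ ≤ U → IsCoatom (U₀.subgroupOf U) → ∃ x ∈ U₀, x ≠ 1 ∧ ∃ g ∈ G₁, g * x * g⁻¹ ∈ Q ⊓ Subgroup.centralizer (Q : Set G)) → R = ⊥) := by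
  refine ⟨fun h => part1 Q hQp hlarge G₁ hQG R hR hGR U h, ?_⟩
  intro hE hcard hco
  obtain ⟨hUc, hUe⟩ := hE
  have hcomm : ∀ u ∈ U, ∀ v ∈ U, u * v = v * u := by
    intro u hu v hv
    have := hUc.is_comm.comm (⟨u, hu⟩ : U) ⟨v, hv⟩
    exact congrArg Subtype.val this
  have hUcent : ∀ B : Subgroup G, B ≤ U → U ≤ Subgroup.centralizer (B : Set G) := by
    intro B hB u hu
    rw [Subgroup.mem_centralizer_iff]
    intro b hb
    exact hcomm b (hB hb) u hu
  have key : ∀ B : Subgroup G, B ≤ U → B ≠ U → R ⊓ Subgroup.centralizer (B : Set G) = ⊥ := by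
    intro B
    induction B using WellFoundedGT.induction with
    | ind B ih =>
      intro hBU hBne
      by_cases hco' : IsCoatom (B.subgroupOf U)
      · exact part1 Q hQp hlarge G₁ hQG R hR hGR B (hco B hBU hco')
      · obtain ⟨B1, hBB1, hB1U⟩ : ∃ B1 : Subgroup G, B < B1 ∧ B1 < U := by
          have h0 : ¬ (B.subgroupOf U ≠ ⊤ ∧ ∀ b, B.subgroupOf U < b → b = ⊤) := hco'
          push Not at h0
          have hne : B.subgroupOf U ≠ ⊤ := by
            rw [Ne, Subgroup.subgroupOf_eq_top]
            intro h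
            exact hBne (le_antisymm hBU h)
          obtain ⟨C, hC1, hC2⟩ := h0 hne
          refine ⟨C.map U.subtype, ?_, ?_⟩
          · rw [← Subgroup.map_subgroupOf_eq_of_le hBU]
            exact (Subgroup.map_lt_map_iff_of_injective U.subtype_injective).2 hC1
          · refine lt_of_le_of_ne (Subgroup.map_subtype_le C) ?_
            intro h
            apply hC2
            rw [eq_top_iff]
            intro u _
            have hu : (u : G) ∈ C.map U.subtype := by
              have h2 : U ≤ C.map U.subtype := h.ge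
              exact h2 u.2
            obtain ⟨c, hc, hcu⟩ := Subgroup.mem_map.1 hu
            have : c = u := Subtype.ext hcu
            exact this ▸ hc
        obtain ⟨b, hbB1, hbB⟩ := SetLike.exists_of_lt hBB1
        obtain ⟨a, haU, haB1⟩ := SetLike.exists_of_lt hB1U
        have hbU : b ∈ U := hB1U.le hbB1
        obtain ⟨A, hA⟩ : ∃ A, A = Subgroup.zpowers a ⊔ Subgroup.zpowers b := ⟨_, rfl⟩
        have hAU : A ≤ U := by
          rw [hA]
          exact sup_le (Subgroup.zpowers_le.2 haU) (Subgroup.zpowers_le.2 hbU)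
        have hAdec : ∀ x ∈ A, ∃ y ∈ Subgroup.zpowers a, ∃ w ∈ Subgroup.zpowers b, x = y * w := by
          intro x hx
          rw [hA] at hx
          refine (mem_sup_of_le_normalizer ?_).1 hx
          exact ((Subgroup.zpowers_le.2 haU).trans
            (hUcent _ (Subgroup.zpowers_le.2 hbU))).trans (centralizer_le_normalizer' _)
        have h1' : ∀ x ∈ A, x ∈ B → x = 1 := by
          intro x hx hxB
          obtain ⟨y, hy, w, hw, rfl⟩ := hAdec x hx
          have hwB1 : w ∈ B1 := (Subgroup.zpowers_le.2 hbB1) hw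
          have hy1 : y = 1 := by
            apply disj (hUe a haU) haB1 hy
            have : y = (y * w) * w⁻¹ := by group
            rw [this]
            exact B1.mul_mem (hBB1.le hxB) (B1.inv_mem hwB1)
          rw [hy1, one_mul] at hxB ⊢
          exact disj (hUe b hbU) hbB hw hxB
        have h2' : ∀ x ∈ A, B ⊔ Subgroup.zpowers x ≠ U := by
          intro x hx hEq
          have hxU : x ∈ U := hAU hx
          by_cases hxB1 : x ∈ B1
          · exact absurd (hEq ▸ (sup_le hBB1.le (Subgroup.zpowers_le.2 hxB1))) (not_le_of_gt hB1U)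
          · have hb' : b ∈ B ⊔ Subgroup.zpowers x := hEq ▸ hbU
            obtain ⟨β, hβ, w, hw, hbw⟩ := (mem_sup_of_le_normalizer (hBU.trans
              ((hUcent _ (Subgroup.zpowers_le.2 hxU)).trans (centralizer_le_normalizer' _)))).1 hb'
            have hw1 : w = 1 := by
              apply disj (hUe x hxU) hxB1 hw
              have : w = β⁻¹ * b := by rw [hbw]; group
              rw [this]
              exact B1.mul_mem (B1.inv_mem (hBB1.le hβ)) hbB1
            apply hbB
            rw [hbw, hw1, mul_one]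
            exact hβ
        have h3' : ¬ IsCyclic A := by
          intro hc
          have hle : Nat.card A ≤ p := by
            obtain ⟨g, hg⟩ := hc.exists_generator
            rw [← orderOf_eq_card_of_forall_mem_zpowers hg]
            exact Nat.le_of_dvd (Fact.out : p.Prime).pos
              (orderOf_dvd_of_pow_eq_one (Subtype.ext (hUe g (hAU g.2))))
          have hb1 : b ≠ 1 := fun h => hbB (h ▸ B.one_mem)
          have hob : orderOf b = p := orderOf_eq_prime (hUe b hbU) hb1
          have hbA : Subgroup.zpowers b ≤ A := hA ▸ le_sup_right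
          have heq : Subgroup.zpowers b = A :=
            Subgroup.eq_of_le_of_card_ge hbA (by rw [Nat.card_zpowers, hob]; exact hle)
          apply haB1
          apply Subgroup.zpowers_le.2 hbB1
          rw [heq, hA]
          exact (le_sup_left : Subgroup.zpowers a ≤ _) (Subgroup.mem_zpowers a)
        have : IsMulCommutative A :=
          ⟨⟨fun x y => Subtype.ext (hcomm x (hAU x.2) y (hAU y.2))⟩⟩
        obtain ⟨K, hK⟩ : ∃ K, K = R ⊓ Subgroup.centralizer (B : Set G) := ⟨_, rfl⟩
        have hAK : A ≤ Subgroup.normalizer (K : Set G) := by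
          rw [hK]
          apply le_normalizer_inf ((hAU.trans hUG).trans hGR)
          exact (hAU.trans ((hUcent B hBU).trans (centralizer_le_normalizer' _))).trans
            (normalizer_le_normalizer_centralizer B)
        have hcop : (Nat.card A).Coprime (Nat.card K) := by
          obtain ⟨k, hk⟩ := IsPGroup.iff_card.1 (hUp.to_le hAU)
          rw [hk]
          apply Nat.Coprime.pow_left
          apply Nat.Coprime.symm
          exact Nat.Coprime.coprime_dvd_left (Subgroup.card_dvd_of_le (hK ▸ inf_le_left)) hR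
        have hgen := Cfsg.Agent.S0058.result A K h3' hAK hcop
        rw [← hK, ← hgen]
        simp only [iSup_eq_bot]
        intro x hx
        obtain ⟨hxA, hx1⟩ := hx
        have hlt : B < B ⊔ Subgroup.zpowers x := by
          refine lt_of_le_of_ne le_sup_left ?_
          intro hEq
          apply hx1
          apply h1' x hxA
          rw [hEq]
          exact (le_sup_right : Subgroup.zpowers x ≤ _) (Subgroup.mem_zpowers x)
        have hih := ih (B ⊔ Subgroup.zpowers x) hlt
          (sup_le hBU (Subgroup.zpowers_le.2 (hAU hxA))) (h2' x hxA)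
        rw [eq_bot_iff, ← hih, hK]
        intro k hk
        obtain ⟨hk1, hk2⟩ := Subgroup.mem_inf.1 hk
        obtain ⟨hkR, hkB⟩ := Subgroup.mem_inf.1 hk1
        refine Subgroup.mem_inf.2 ⟨hkR, ?_⟩
        have hle : B ⊔ Subgroup.zpowers x ≤ Subgroup.centralizer {k} := by
          refine sup_le ?_ (Subgroup.zpowers_le.2 ?_)
          · intro c hc
            rw [Subgroup.mem_centralizer_singleton_iff]
            exact Subgroup.mem_centralizer_iff.1 hkB c hc
          · rw [Subgroup.mem_centralizer_singleton_iff]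
            exact (Subgroup.mem_centralizer_singleton_iff.1 hk2).symm
        rw [Subgroup.mem_centralizer_iff]
        intro c hc
        exact Subgroup.mem_centralizer_singleton_iff.1 (hle hc)
  have hbot := key ⊥ bot_le (by
    intro h
    rw [← h] at hcard
    simp at hcard
    have := (Fact.out : p.Prime).two_le
    nlinarith)
  rw [eq_bot_iff, ← hbot]
  intro r hr
  refine Subgroup.mem_inf.2 ⟨hr, ?_⟩
  rw [Subgroup.mem_centralizer_iff]
  intro c hc
  have : c = 1 := by simpa using hc
  rw [this]; simp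

end Cfsg.Agent.S3003
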