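import Cfsg.Statements.S3006
-- import your own Cfsg.Agent.* helpers here
import Mathlib
import Cfsg.Agent.Lib.Helper18.CLA

set_option autoImplicit false
open scoped Pointwise
open Cfsg
open Cfsg.Agent.Lib.Helper18
open scoped Pointwise

namespace Cfsg.Agent.S3006

/-- Let P be a finite p-group, Q a centrally large subgroup of P (|Q|·|Z(Q)| maximal among subgroups of P) and A an abelian subgroup of P of largest order. Then QA = AQ is a centrally large subgroup of P, C_{QA}(Q ∩ A) = Z(Q)·A, and the subgroup generated by all centrally large subgroups of P contains C_P(Z(J(P))), where J(P) is generated by the abelian subgroups of largest order. -/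
theorem result {p : ℕ} [Fact p.Prime] (P : Type*) [Group P] [Finite P] (hP : IsPGroup p P) (Q A : Subgroup P) (hQ : Cfsg.IsCentrallyLarge Q) (hA : A ∈ Cfsg.maxAbelianSubgroups P) : ((Q ⊔ A : Subgroup P) : Set P) = (Q : Set P) * (A : Set P) ∧ Cfsg.IsCentrallyLarge (Q ⊔ A) ∧ (Q ⊔ A) ⊓ Subgroup.centralizer ((Q ⊓ A : Subgroup P) : Set P) = (Q ⊓ Subgroup.centralizer (Q : Set P)) ⊔ A ∧ (((Q ⊓ Subgroup.centralizer (Q : Set P)) ⊔ A : Subgroup P) : Set P) = ((Q ⊓ Subgroup.centralizer (Q : Set P)) : Set P) * (A : Set P) ∧ Subgroup.centralizer ((Cfsg.thompsonSubgroupA P ⊓ Subgroup.centralizer (Cfsg.thompsonSubgroupA P : Set P) : Subgroup P) : Set P) ≤ Cfsg.centrallyLargeJoin P := by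
  rw [isCentrallyLarge_iff] at hQ
  simp only [isCentrallyLarge_iff]
  obtain ⟨h1, h2, h3, h4⟩ := hQ.sup_maxAbelian hA
  obtain ⟨hQm, hQc⟩ := (isCLMax_iff Q).mp hQ
  have hAc := maxAbelian_le_centralizer hA
  have hCA := maxAbelian_centralizer hA
  have hQcc := le_centralizer_centralizer Q
  have hZ : Q ⊓ Subgroup.centralizer (Q : Set P) = Subgroup.centralizer (Q : Set P) := inf_eq_right.mpr hQc
  have hCA₁ := maxAbelian_centralizer h3
  -- the key set equality
  have hkey : (((Q ⊔ A) ⊓ Subgroup.centralizer ((Q ⊓ A : Subgroup P) : Set P) : Subgroup P) : Set P)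
      = (Subgroup.centralizer (Q : Set P) : Set P) * (A : Set P) := by
    apply Set.Subset.antisymm
    · intro x hx
      have hx1 : x ∈ ((Q ⊔ A : Subgroup P) : Set P) := hx.1
      have hx2 : x ∈ Subgroup.centralizer ((Q ⊓ A : Subgroup P) : Set P) := hx.2
      rw [h1] at hx1
      obtain ⟨q, hq, a, ha, rfl⟩ := hx1
      have haD : a ∈ Subgroup.centralizer ((Q ⊓ A : Subgroup P) : Set P) :=
        (hAc.trans (centralizer_anti inf_le_right)) ha
      have hqD : q ∈ Subgroup.centralizer ((Q ⊓ A : Subgroup P) : Set P) := by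
        have := (Subgroup.centralizer ((Q ⊓ A : Subgroup P) : Set P)).mul_mem hx2
          ((Subgroup.centralizer ((Q ⊓ A : Subgroup P) : Set P)).inv_mem haD)
        simpa using this
      have hqA₁ : q ∈ ((Q ⊓ A) ⊔ Subgroup.centralizer (Q : Set P) : Subgroup P) := by
        rw [← hCA₁, centralizer_sup]
        exact ⟨hqD, hQcc hq⟩
      have hqA₁' : q ∈ (((Q ⊓ A) ⊔ Subgroup.centralizer (Q : Set P) : Subgroup P) : Set P) := hqA₁
      rw [h4] at hqA₁'
      obtain ⟨d, hd, z, hz, rfl⟩ := hqA₁'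
      have hcomm : d * z = z * d := (Subgroup.mem_centralizer_iff.mp hz) d hd.1
      refine ⟨z, hz, d * a, A.mul_mem hd.2 ha, ?_⟩
      simp only [hcomm, mul_assoc]
    · rintro _ ⟨z, hz, a, ha, rfl⟩
      refine ⟨(Q ⊔ A).mul_mem (le_sup_left (a := Q) (hQc hz)) (le_sup_right (a := Q) ha), ?_⟩
      exact (Subgroup.centralizer ((Q ⊓ A : Subgroup P) : Set P)).mul_mem
        ((centralizer_anti inf_le_left) hz) ((hAc.trans (centralizer_anti inf_le_right)) ha)
  have hle : Subgroup.centralizer (Q : Set P) ⊔ A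
      ≤ (Q ⊔ A) ⊓ Subgroup.centralizer ((Q ⊓ A : Subgroup P) : Set P) :=
    sup_le (le_inf (hQc.trans le_sup_left) (centralizer_anti inf_le_left))
      (le_inf le_sup_right (hAc.trans (centralizer_anti inf_le_right)))
  have heq : (Q ⊔ A) ⊓ Subgroup.centralizer ((Q ⊓ A : Subgroup P) : Set P)
      = Subgroup.centralizer (Q : Set P) ⊔ A := by
    apply le_antisymm _ hle
    intro x hx
    have : x ∈ (Subgroup.centralizer (Q : Set P) : Set P) * (A : Set P) := hkey ▸ hx
    exact mulSet_subset_sup _ _ this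
  refine ⟨h1, h2, ?_, ?_, ?_⟩
  · rw [hZ]; exact heq
  · rw [hZ, ← heq, hkey]
    have hset : ((Q : Set P) ⊓ (Subgroup.centralizer (Q : Set P) : Set P))
        = (Subgroup.centralizer (Q : Set P) : Set P) := inf_eq_right.mpr (by exact_mod_cast hQc)
    rw [hset]
  · -- the join of all centrally large subgroups
    have hT : IsCLMax (Cfsg.centrallyLargeJoin P) := by
      unfold Cfsg.centrallyLargeJoin
      apply IsCLMax.sSup ⟨Q, (isCentrallyLarge_iff Q).mpr hQ⟩
      intro H hH
      exact (isCentrallyLarge_iff H).mp hH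
    obtain ⟨hTm, hTc⟩ := (isCLMax_iff _).mp hT
    have hJ : Cfsg.thompsonSubgroupA P ≤ Cfsg.centrallyLargeJoin P := by
      unfold Cfsg.thompsonSubgroupA
      apply sSup_le
      intro A' hA'
      have h := (hT.sup_maxAbelian hA').2.1
      have h' : Cfsg.centrallyLargeJoin P ⊔ A' ≤ Cfsg.centrallyLargeJoin P :=
        le_sSup ((isCentrallyLarge_iff _).mpr h)
      exact le_sup_right.trans h'
    have hAJ : A ≤ Cfsg.thompsonSubgroupA P := le_sSup hA
    have hCJ : Subgroup.centralizer (Cfsg.thompsonSubgroupA P : Set P) ≤ Cfsg.thompsonSubgroupA P :=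
      ((centralizer_anti hAJ).trans hCA.le).trans hAJ
    have h5 : Subgroup.centralizer (Cfsg.centrallyLargeJoin P : Set P)
        ≤ Cfsg.thompsonSubgroupA P ⊓ Subgroup.centralizer (Cfsg.thompsonSubgroupA P : Set P) :=
      le_inf ((centralizer_anti hJ).trans hCJ) (centralizer_anti hJ)
    exact (centralizer_anti h5).trans hTm.centralizer_centralizer.le

end Cfsg.Agent.S3006
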