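import Cfsg.Statements.S3012
-- import your own Cfsg.Agent.* helpers here
import Mathlib
import Cfsg.Agent.Lib.Helper17.Core

set_option autoImplicit false
open Cfsg

namespace Cfsg.Agent.S3012

/-- Let G be a finite group, V a nontrivial elementary abelian 2-subgroup of G satisfying the Sidki pair condition (every odd-order element inverted by an element of V commutes with a nontrivial element of V), and K a normal subgroup of G with V ∩ K = 1. Then the image of V in G/K satisfies the Sidki pair condition in G/K. -/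
theorem result {G : Type*} [Group G] [Finite G] (V K : Subgroup G) [K.Normal] (hV : Cfsg.IsElementaryAbelian 2 V) (hV1 : V ≠ ⊥) (hS : Cfsg.IsSidkiPair V) (hVK : V ⊓ K = ⊥) : Cfsg.IsSidkiPair (V.map (QuotientGroup.mk' K)) := by
  classical
  intro hbar vbar hvbar ho hinv
  obtain ⟨v, hv, rfl⟩ := hvbar
  obtain ⟨h0, rfl⟩ := QuotientGroup.mk_surjective hbar
  have hv2 : v * v = 1 := by
    have := hV.2 v hv
    rwa [pow_two] at this
  have hvinv : v⁻¹ = v := inv_eq_of_mul_eq_one_left hv2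
  set g := h0 * (v * h0⁻¹ * v⁻¹) with hg
  have hginv : v * g * v⁻¹ = g⁻¹ := by
    calc v * g * v⁻¹ = (v * h0 * v⁻¹) * ((v * v) * h0⁻¹ * (v * v)⁻¹) := by rw [hg]; group
      _ = (v * h0 * v⁻¹) * h0⁻¹ := by rw [hv2]; group
      _ = g⁻¹ := by rw [hg]; group
  have hgbar : (QuotientGroup.mk g : G ⧸ K) = (QuotientGroup.mk h0 : G ⧸ K) ^ 2 := by
    have h1 : (QuotientGroup.mk (v * h0⁻¹ * v⁻¹) : G ⧸ K) = QuotientGroup.mk h0 := by
      have h2 : (QuotientGroup.mk (v * h0 * v⁻¹) : G ⧸ K) = (QuotientGroup.mk h0 : G ⧸ K)⁻¹ := hinv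
      have e : v * h0⁻¹ * v⁻¹ = (v * h0 * v⁻¹)⁻¹ := by group
      rw [e, QuotientGroup.mk_inv, h2, inv_inv]
    rw [hg, QuotientGroup.mk_mul, h1, pow_two]
  obtain ⟨k, hk⟩ := Lib.Helper17.exists_pow_p_pow_coprime (p := 2) g
  have hodd : Odd (orderOf (g ^ 2 ^ k)) := Nat.coprime_two_right.mp hk
  have hinvk : v * (g ^ 2 ^ k) * v⁻¹ = (g ^ 2 ^ k)⁻¹ := by
    rw [← conj_pow, hginv, inv_pow]
  obtain ⟨w, hw, hw1, hwc⟩ := hS _ v hv hodd hinvk
  refine ⟨QuotientGroup.mk' K w, ⟨w, hw, rfl⟩, ?_, ?_⟩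
  · intro h1
    have h2 : w ∈ K := (QuotientGroup.eq_one_iff w).mp h1
    have h3 : w ∈ V ⊓ K := ⟨hw, h2⟩
    rw [hVK, Subgroup.mem_bot] at h3
    exact hw1 h3
  · have h1 : Commute (QuotientGroup.mk w : G ⧸ K) ((QuotientGroup.mk h0 : G ⧸ K) ^ (2 ^ (k + 1))) := by
      have h2 := congrArg (QuotientGroup.mk : G → G ⧸ K) hwc
      rw [QuotientGroup.mk_mul, QuotientGroup.mk_mul, QuotientGroup.mk_pow, hgbar, ← pow_mul,
        ← pow_succ'] at h2
      exact h2
    have hcop : (2 ^ (k + 1)).Coprime (orderOf (QuotientGroup.mk h0 : G ⧸ K)) :=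
      Nat.Coprime.pow_left _ (Nat.coprime_two_left.mpr ho)
    obtain ⟨m, hm⟩ := exists_pow_eq_self_of_coprime hcop
    have h3 := h1.pow_right m
    rw [hm] at h3
    exact h3

end Cfsg.Agent.S3012
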