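import Cfsg.Statements.S3013
-- import your own Cfsg.Agent.* helpers here
import Mathlib

set_option autoImplicit false
open Cfsg

namespace Cfsg.Agent.S3013

theorem commute_of_commute_sq {G : Type*} [Group G] {w h : G} (ho : Odd (orderOf h))
    (hc : Commute w (h ^ 2)) : Commute w h := by
  obtain ⟨k, hk⟩ := ho
  have h1 : h = (h ^ 2) ^ (k + 1) := by
    rw [← pow_mul]
    have : 2 * (k + 1) = orderOf h + 1 := by omega
    rw [this, pow_succ, pow_orderOf_eq_one, one_mul]
  rw [h1]
  exact hc.pow_right _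

/-- Let G be a finite group and V a nontrivial elementary abelian 2-subgroup of G satisfying the Sidki pair condition. Let v ∈ V and let x be an element of odd order inverted by v, and put C = C_G(v) ∩ C_G(x), the centralizer of the dihedral subgroup generated by v and x. Then C ∩ V is nontrivial and satisfies the Sidki pair condition inside C: every odd-order element of C inverted by an element of C ∩ V commutes with a nontrivial element of C ∩ V. -/
theorem result {G : Type*} [Group G] [Finite G] (V : Subgroup G) (hV : Cfsg.IsElementaryAbelian 2 V) (hV1 : V ≠ ⊥) (hS : Cfsg.IsSidkiPair V) (v x : G) (hv : v ∈ V) (hx : Odd (orderOf x)) (hinv : v * x * v⁻¹ = x⁻¹) (C : Subgroup G) (hC : C = Subgroup.centralizer ({v} : Set G) ⊓ Subgroup.centralizer ({x} : Set G)) : C ⊓ V ≠ ⊥ ∧ Cfsg.IsSidkiPair ((C ⊓ V).subgroupOf C) := by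
  classical
  have hVc : ∀ a ∈ V, ∀ b ∈ V, a * b = b * a := by
    intro a ha b hb
    exact congrArg Subtype.val (hV.1.is_comm.comm ⟨a, ha⟩ ⟨b, hb⟩)
  have hmemC : ∀ y : G, y ∈ C ↔ y * v = v * y ∧ y * x = x * y := by
    intro y
    rw [hC, Subgroup.mem_inf, Subgroup.mem_centralizer_singleton_iff,
      Subgroup.mem_centralizer_singleton_iff]
  constructor
  · obtain ⟨w, hw, hw1, hwx⟩ := hS x v hv hx hinv
    intro hbot
    have : w ∈ C ⊓ V := ⟨(hmemC w).mpr ⟨hVc w hw v hv, hwx⟩, hw⟩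
    rw [hbot, Subgroup.mem_bot] at this
    exact hw1 this
  · rintro ⟨h, hhC⟩ ⟨u, huC⟩ huV ho hinv'
    have huV' : u ∈ V := (Subgroup.mem_subgroupOf.mp huV).2
    have ho' : Odd (orderOf h) := by
      rwa [Subgroup.orderOf_mk] at ho
    have hinv'' : u * h * u⁻¹ = h⁻¹ := congrArg Subtype.val hinv'
    obtain ⟨hhv, hhx⟩ := (hmemC h).mp hhC
    obtain ⟨huv, hux⟩ := (hmemC u).mp huC
    have hcomm : Commute h x := hhx
    have hodd : Odd (orderOf (h * x)) :=
      Odd.of_dvd_nat (ho'.mul hx) hcomm.orderOf_mul_dvd_mul_orderOf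
    have hvh : v * h * v⁻¹ = h := by rw [← hhv, mul_inv_cancel_right]
    have hux' : u * x⁻¹ * u⁻¹ = x⁻¹ := by
      have : u * x * u⁻¹ = x := by rw [hux, mul_inv_cancel_right]
      calc u * x⁻¹ * u⁻¹ = (u * x * u⁻¹)⁻¹ := by group
        _ = x⁻¹ := by rw [this]
    have hinvhx : (u * v) * (h * x) * (u * v)⁻¹ = (h * x)⁻¹ := by
      calc (u * v) * (h * x) * (u * v)⁻¹ = u * ((v * h * v⁻¹) * (v * x * v⁻¹)) * u⁻¹ := by group
        _ = u * (h * x⁻¹) * u⁻¹ := by rw [hvh, hinv]
        _ = (u * h * u⁻¹) * (u * x⁻¹ * u⁻¹) := by group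
        _ = h⁻¹ * x⁻¹ := by rw [hinv'', hux']
        _ = (h * x)⁻¹ := by rw [hcomm.eq, mul_inv_rev]
    obtain ⟨w, hw, hw1, hwy⟩ := hS (h * x) (u * v) (V.mul_mem huV' hv) hodd hinvhx
    have hwv : Commute w v := hVc w hw v hv
    have hwy' : Commute w (h * x) := hwy
    have hwy2 : Commute w (h * x⁻¹) := by
      have e : h * x⁻¹ = v * (h * x) * v⁻¹ := by
        calc h * x⁻¹ = (v * h * v⁻¹) * (v * x * v⁻¹) := by rw [hvh, hinv]
          _ = v * (h * x) * v⁻¹ := by group
      rw [e]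
      exact (hwv.mul_right hwy').mul_right hwv.inv_right
    have hwh2 : Commute w (h ^ 2) := by
      have e : h ^ 2 = (h * x) * (h * x⁻¹) := by
        calc h ^ 2 = h * h := pow_two h
          _ = h * (x * h) * x⁻¹ := by rw [← hcomm.eq]; group
          _ = (h * x) * (h * x⁻¹) := by group
      rw [e]; exact hwy'.mul_right hwy2
    have hwx2 : Commute w (x ^ 2) := by
      have e : x ^ 2 = (h * x⁻¹)⁻¹ * (h * x) := by
        rw [pow_two]; group
      rw [e]; exact hwy2.inv_right.mul_right hwy'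
    have hwh : Commute w h := commute_of_commute_sq ho' hwh2
    have hwx : Commute w x := commute_of_commute_sq hx hwx2
    have hwC : w ∈ C := (hmemC w).mpr ⟨hwv, hwx⟩
    refine ⟨⟨w, hwC⟩, Subgroup.mem_subgroupOf.mpr ⟨hwC, hw⟩, ?_, Subtype.ext hwh⟩
    intro h1
    exact hw1 (congrArg Subtype.val h1)

end Cfsg.Agent.S3013
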