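import Cfsg.Statements.S3014
-- import your own Cfsg.Agent.* helpers here
import Mathlib
import Cfsg.Agent.Lib.Helper18.TransferTI

set_option autoImplicit false
open Cfsg

namespace Cfsg.Agent.S3014

/-- Let G be a finite group and H ≤ M ≤ G subgroups such that for every g ∈ G the subgroup generated by H and g H g⁻¹ meets M exactly in H. If H is a maximal subgroup of M and M is a maximal subgroup of G, then the normal closure of H in G meets M exactly in H. -/
theorem result {G : Type*} [Group G] [Finite G] (H M : Subgroup G) (hHM : H ≤ M) (hcl : ∀ g : G, (H ⊔ H.map (MulAut.conj g).toMonoidHom) ⊓ M = H) (hmaxH : IsCoatom (H.subgroupOf M)) (hmaxM : IsCoatom M) : Subgroup.normalClosure (H : Set G) ⊓ M = H := by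
  classical
  have hconj : ∀ m ∈ M, H.map (MulAut.conj m).toMonoidHom ≤ H := by
    intro m hm
    have h1 : H ⊔ H.map (MulAut.conj m).toMonoidHom ≤ M := sup_le hHM (by
      rintro _ ⟨h, hh, rfl⟩
      exact M.mul_mem (M.mul_mem hm (hHM hh)) (M.inv_mem hm))
    have h2 := hcl m
    rw [inf_eq_left.mpr h1] at h2
    exact le_sup_right.trans h2.le
  have hMN : M ≤ Subgroup.normalizer (H : Set G) := by
    rw [Subgroup.le_normalizer_iff]
    intro m hm h hh
    exact hconj m hm ⟨h, hh, rfl⟩
  have hn : (H.subgroupOf M).Normal := (Subgroup.normal_subgroupOf_iff_le_normalizer hHM).mpr hMN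
  apply le_antisymm _ (le_inf Subgroup.le_normalClosure hHM)
  suffices h : ∃ N : Subgroup G, N.Normal ∧ H ≤ N ∧ N ⊓ M ≤ H by
    obtain ⟨N, hN, hHN, hNM⟩ := h
    exact (inf_le_inf_right M (Subgroup.normalClosure_le_normal hHN)).trans hNM
  by_cases hTI : ∀ g : G, g ∉ M → M ⊓ M.map (MulAut.conj g).toMonoidHom ≤ H
  · obtain ⟨N, h1, h2, h3, _⟩ := Lib.Helper18.exists_normal_of_TI H M hHM
      (Lib.Helper18.comm_of_coatom_normal _ hmaxH) hTI
    exact ⟨N, h1, h2, h3⟩
  · push Not at hTI
    obtain ⟨g, hgM, hg⟩ := hTI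
    rcases Lib.Helper18.sup_conj_le_or_normal H M hHM hn hmaxH hmaxM g hg with h | h
    · have h2 := hcl g
      rw [inf_eq_left.mpr h] at h2
      have h3 : g ∈ Subgroup.normalizer (H : Set G) :=
        Lib.Helper18.mem_normalizer_of_map_conj_le (le_sup_right.trans h2.le)
      have h4 : M < Subgroup.normalizer (H : Set G) :=
        lt_of_le_of_ne hMN (fun he => hgM (he ▸ h3))
      exact ⟨H, Subgroup.normalizer_eq_top_iff.mp (hmaxM.2 _ h4), le_rfl, inf_le_left⟩
    · exact ⟨_, h, le_sup_left, (hcl g).le⟩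

end Cfsg.Agent.S3014
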