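import Cfsg.Statements.S3015
-- import your own Cfsg.Agent.* helpers here
import Mathlib
import Cfsg.Agent.Lib.Helper18.TransferTI

set_option autoImplicit false
open Cfsg

namespace Cfsg.Agent.S3015

/-- Let G be a finite non-abelian simple group, M a maximal subgroup of G and H a normal subgroup of M of prime index in M. Then G is generated by H together with one of its conjugates. -/
theorem result {G : Type*} [Group G] [Finite G] [IsSimpleGroup G] (hG : ¬ IsMulCommutative G) (M H : Subgroup G) (hmaxM : IsCoatom M) (hHM : H ≤ M) (hHn : (H.subgroupOf M).Normal) (hidx : (H.relIndex M).Prime) : ∃ g : G, H ⊔ H.map (MulAut.conj g).toMonoidHom = ⊤ := by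
  classical
  by_contra hcon
  push Not at hcon
  have hMtop : M ≠ ⊤ := hmaxM.1
  have hHneM : ¬ M ≤ H := by
    intro h
    have : H.relIndex M = 1 := Subgroup.relIndex_eq_one.mpr h
    rw [this] at hidx; exact Nat.not_prime_one hidx
  have hmaxH : IsCoatom (H.subgroupOf M) := Lib.Helper18.isCoatom_of_prime_index hidx
  have hMbot : M ≠ ⊥ := by
    rintro rfl; exact hHneM bot_le
  have hMnn : ¬ M.Normal := fun h => (h.eq_bot_or_eq_top).elim hMbot hMtop
  have hNM : Subgroup.normalizer (M : Set G) = M := by
    rcases eq_or_lt_of_le (Subgroup.le_normalizer (H := M)) with h | h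
    · exact h.symm
    · exact absurd (Subgroup.normalizer_eq_top_iff.mp (hmaxM.2 _ h)) hMnn
  have hMg : ∀ g, g ∉ M → ¬ M.map (MulAut.conj g).toMonoidHom ≤ M := by
    intro g hg h
    apply hg
    have := Lib.Helper18.mem_normalizer_of_map_conj_le h
    rwa [hNM] at this
  have hnormalbot : ∀ L : Subgroup G, L.Normal → L ≤ M → L = ⊥ := by
    intro L hL hLM
    rcases hL.eq_bot_or_eq_top with h | h
    · exact h
    · exact absurd (top_le_iff.mp (h ▸ hLM)) hMtop
  have hTI : ∀ g : G, g ∉ M → M ⊓ M.map (MulAut.conj g).toMonoidHom ≤ H := by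
    intro g hgM
    by_contra hg
    have hHbot : H ≠ ⊥ := by
      intro hb
      have := Lib.Helper18.eq_of_coatom_subgroupOf hmaxH
        (K := H ⊔ (M ⊓ M.map (MulAut.conj g).toMonoidHom)) le_sup_left (sup_le hHM inf_le_left)
        (fun h => hg (le_sup_right.trans h))
      rw [hb, bot_sup_eq] at this
      have h1 : M ≤ M.map (MulAut.conj g).toMonoidHom := inf_eq_left.mp this
      have h2 : M = M.map (MulAut.conj g).toMonoidHom := Subgroup.eq_of_le_of_card_ge h1 (by
        rw [Subgroup.card_map_of_injective (MulAut.conj g).injective])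
      exact hMg g hgM h2.symm.le
    rcases Lib.Helper18.sup_conj_le_or_normal H M hHM hHn hmaxH hmaxM g hg with h | h
    · have hHgM : H.map (MulAut.conj g).toMonoidHom ≤ M := le_sup_right.trans h
      let S : Set G := {x | x ∈ M ∧ (H.relIndex M).Coprime (orderOf x)}
      have hSH : ∀ x ∈ S, x ∈ H := by
        rintro x ⟨hxM, hxr⟩
        have h1 : (⟨x, hxM⟩ : M) ^ (H.subgroupOf M).index ∈ H.subgroupOf M :=
          Subgroup.pow_index_mem _ _
        have h2 : x ^ (H.relIndex M) ∈ H := h1
        obtain ⟨m, hm⟩ := exists_pow_eq_self_of_coprime hxr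
        rw [← hm]
        exact H.pow_mem h2 m
      have hKH : Subgroup.closure S ≤ H := (Subgroup.closure_le _).mpr hSH
      have hMK : M ≤ Subgroup.normalizer (Subgroup.closure S : Set G) := by
        rw [Subgroup.le_normalizer_closure_iff]
        intro m hm x hx
        apply Subgroup.subset_closure
        refine ⟨M.mul_mem (M.mul_mem hm hx.1) (M.inv_mem hm), ?_⟩
        have := (MulAut.conj m).orderOf_eq x
        rw [MulAut.conj_apply] at this
        rw [this]; exact hx.2
      have hgK : g ∈ Subgroup.normalizer (Subgroup.closure S : Set G) := by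
        apply Lib.Helper18.mem_normalizer_of_map_conj_le
        rw [MonoidHom.map_closure, Subgroup.closure_le]
        rintro _ ⟨x, hx, rfl⟩
        apply Subgroup.subset_closure
        refine ⟨hHgM ⟨x, hSH x hx, rfl⟩, ?_⟩
        have := (MulAut.conj g).orderOf_eq x
        show (H.relIndex M).Coprime (orderOf ((MulAut.conj g) x))
        rw [this]; exact hx.2
      have hKn : (Subgroup.closure S).Normal := by
        apply Subgroup.normalizer_eq_top_iff.mp
        apply hmaxM.2
        exact lt_of_le_of_ne hMK (fun he => hgM (he ▸ hgK))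
      have hK : Subgroup.closure S = ⊥ := hnormalbot _ hKn (hKH.trans hHM)
      have hP : IsPGroup (H.relIndex M) M := by
        intro x
        obtain ⟨a, m, hm, hn⟩ := Nat.exists_eq_pow_mul_and_not_dvd (orderOf_pos (x : G)).ne'
          (H.relIndex M) hidx.ne_one
        refine ⟨a, ?_⟩
        have hy : (x : G) ^ (H.relIndex M) ^ a ∈ S := by
          refine ⟨M.pow_mem x.2 _, ?_⟩
          have h1 : orderOf ((x : G) ^ (H.relIndex M) ^ a) ∣ m := by
            apply orderOf_dvd_of_pow_eq_one
            rw [← pow_mul, ← hn, pow_orderOf_eq_one]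
          exact Nat.Coprime.coprime_dvd_right h1 ((Nat.Prime.coprime_iff_not_dvd hidx).mpr hm)
        have hy' : (x : G) ^ (H.relIndex M) ^ a ∈ Subgroup.closure S := Subgroup.subset_closure hy
        rw [hK, Subgroup.mem_bot] at hy'
        exact Subtype.ext hy'
      have hidx' : (H.map (MulAut.conj g).toMonoidHom).relIndex M = H.relIndex M := by
        have h1 := Lib.Helper18.card_mul_relIndex hHgM
        have h2 := Lib.Helper18.card_mul_relIndex hHM
        rw [Subgroup.card_map_of_injective (MulAut.conj g).injective, ← h2] at h1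
        exact Nat.eq_of_mul_eq_mul_left Nat.card_pos h1
      have hnorm : ((H.map (MulAut.conj g).toMonoidHom).subgroupOf M).Normal := by
        apply Subgroup.normal_of_index_eq_minFac_card
        haveI : Fact (H.relIndex M).Prime := ⟨hidx⟩
        obtain ⟨n, hn⟩ := IsPGroup.iff_card.mp hP
        have hn0 : n ≠ 0 := by
          rintro rfl
          rw [pow_zero] at hn
          have h2 := Lib.Helper18.card_mul_relIndex hHM
          rw [hn] at h2
          exact hidx.ne_one (Nat.eq_one_of_mul_eq_one_left h2)
        rw [hn, Nat.Prime.pow_minFac hidx hn0]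
        exact hidx'
      have h1 : M ≤ Subgroup.normalizer ((H.map (MulAut.conj g).toMonoidHom : Subgroup G) : Set G) :=
        (Subgroup.normal_subgroupOf_iff_le_normalizer hHgM).mp hnorm
      have h2 : M.map (MulAut.conj g).toMonoidHom
          ≤ Subgroup.normalizer ((H.map (MulAut.conj g).toMonoidHom : Subgroup G) : Set G) :=
        (Subgroup.map_mono ((Subgroup.normal_subgroupOf_iff_le_normalizer hHM).mp hHn)).trans
          (Subgroup.le_normalizer_map _)
      have h3 : M < Subgroup.normalizer ((H.map (MulAut.conj g).toMonoidHom : Subgroup G) : Set G) :=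
        lt_of_le_of_ne h1 (fun he => hMg g hgM (he ▸ h2))
      have h4 : (H.map (MulAut.conj g).toMonoidHom).Normal :=
        Subgroup.normalizer_eq_top_iff.mp (hmaxM.2 _ h3)
      have h5 := hnormalbot _ h4 hHgM
      apply hHbot
      exact (Subgroup.map_eq_bot_iff_of_injective H (MulAut.conj g).injective).mp h5
    · rcases h.eq_bot_or_eq_top with h' | h'
      · exact hHbot (le_bot_iff.mp (h' ▸ le_sup_left))
      · exact hcon g h'
  obtain ⟨N, hN, hHN, hNM, hcomm⟩ := Lib.Helper18.exists_normal_of_TI H M hHM
      (Lib.Helper18.comm_of_coatom_normal _ hmaxH) hTI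
  rcases hN.eq_bot_or_eq_top with h | h
  · apply hG
    refine ⟨⟨fun a b => ?_⟩⟩
    have := hcomm a b
    rw [h, Subgroup.mem_bot] at this
    have h2 : a * b = b * a := by
      calc a * b = (a * b * a⁻¹ * b⁻¹) * (b * a) := by group
        _ = b * a := by rw [this, one_mul]
    exact h2
  · apply hHneM
    rw [h, top_inf_eq] at hNM
    exact hNM

end Cfsg.Agent.S3015
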