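import Cfsg.Statements.S3020
-- import your own Cfsg.Agent.* helpers here
import Mathlib
import Cfsg.Agent.Lib.Helper17.Syl
import Cfsg.Agent.Lib.Helper5.PCore

set_option autoImplicit false
open Cfsg

namespace Cfsg.Agent.S3020

/-- Let G be a finite group, p a prime and H an abelian p-subgroup of G that is extremely closed (for every g, the subgroup generated by H and g H g⁻¹ meets N_G(H) exactly in H). Then for every g ∈ G, the subgroup T generated by H and g H g⁻¹ is the product of H with O_{p'}(T), and H meets O_{p'}(T) trivially; that is, O_{p'}(T) is a normal p-complement of H in T. -/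
theorem result {G : Type*} [Group G] [Finite G] {p : ℕ} [Fact p.Prime] (H : Subgroup G) (hHp : IsPGroup p H) (hHab : IsMulCommutative H) (hcl : Cfsg.IsExtremelyClosed H) (g : G) (T : Subgroup G) (hT : T = H ⊔ H.map (MulAut.conj g).toMonoidHom) : H ⊔ (Cfsg.pPrimeCore p ↥T).map T.subtype = T ∧ H ⊓ (Cfsg.pPrimeCore p ↥T).map T.subtype = ⊥ := by
  classical
  have hHT : H ≤ T := hT ▸ le_sup_left
  have hTN : T ⊓ Subgroup.normalizer (H : Set G) = H := hT ▸ hcl g
  have hH'p : IsPGroup p (H.subgroupOf T) := hHp.comap_subtype
  let P : Sylow p T :=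
    { toSubgroup := H.subgroupOf T
      isPGroup' := hH'p
      is_maximal' := by
        intro Q' hQ' hle
        by_contra hne
        have hQp : IsPGroup p (Q'.map T.subtype) := hQ'.map _
        have hHQ : H ≤ Q'.map T.subtype := by
          intro y hy
          exact ⟨⟨y, hHT hy⟩, hle (Subgroup.mem_subgroupOf.mpr hy), rfl⟩
        have hlt : H < Q'.map T.subtype := by
          refine lt_of_le_of_ne hHQ ?_
          intro he
          apply hne
          apply le_antisymm _ hle
          intro y hy
          have : (y : G) ∈ Q'.map T.subtype := ⟨y, hy, rfl⟩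
          rw [← he] at this
          exact Subgroup.mem_subgroupOf.mpr this
        obtain ⟨y, hyQ, hyN, hyH⟩ := Lib.Helper17.pgroup_normalizer_grow hQp hlt
        apply hyH
        rw [← hTN]
        exact ⟨Subgroup.map_subtype_le _ hyQ, hyN⟩ }
  have hPc : Subgroup.normalizer ((P : Subgroup T) : Set T)
      ≤ Subgroup.centralizer ((P : Subgroup T) : Set T) := by
    intro t ht
    have h1 : (t : G) ∈ Subgroup.normalizer (H : Set G) := by
      have h2 : t ∈ (Subgroup.normalizer (H : Set G)).subgroupOf T := by
        rw [Subgroup.subgroupOf_normalizer_eq hHT]; exact ht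
      exact Subgroup.mem_subgroupOf.mp h2
    have h3 : (t : G) ∈ H := by
      rw [← hTN]; exact ⟨t.2, h1⟩
    rw [Subgroup.mem_centralizer_iff]
    intro y hy
    have hy' : (y : G) ∈ H := hy
    have h4 := hHab.is_comm.comm ⟨(y : G), hy'⟩ ⟨(t : G), h3⟩
    have h5 : (y : G) * (t : G) = (t : G) * (y : G) := congrArg Subtype.val h4
    exact Subtype.ext h5
  have hcompl := MonoidHom.ker_transferSylow_isComplement' P hPc
  have hcard : (Nat.card (MonoidHom.transferSylow P hPc).ker).Coprime p := by
    rw [← hcompl.index_eq_card]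
    exact ((Nat.Prime.coprime_iff_not_dvd Fact.out).mpr P.not_dvd_index).symm
  have h1 := Lib.Helper5.le_pPrimeCore (inferInstance : (MonoidHom.transferSylow P hPc).ker.Normal) hcard
  constructor
  · apply le_antisymm (sup_le hHT (Subgroup.map_subtype_le _))
    intro t ht
    have h2 : (⟨t, ht⟩ : T) ∈ (MonoidHom.transferSylow P hPc).ker ⊔ (P : Subgroup T) := by
      rw [hcompl.sup_eq_top]; trivial
    rw [Subgroup.mem_sup_of_normal_left] at h2
    obtain ⟨a, ha, b, hb, hab⟩ := h2
    have hab' : (a : G) * (b : G) = t := congrArg Subtype.val hab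
    rw [← hab']
    exact mul_mem ((le_sup_right : (Cfsg.pPrimeCore p ↥T).map T.subtype ≤ _) ⟨a, h1 ha, rfl⟩)
      ((le_sup_left : H ≤ _) hb)
  · apply disjoint_iff.mp
    apply Subgroup.disjoint_of_coprime_natCard
    rw [Subgroup.card_map_of_injective T.subtype_injective]
    obtain ⟨k, hk⟩ := IsPGroup.iff_card.mp hHp
    rw [hk]
    exact Nat.Coprime.pow_left k (Lib.Helper5.pPrimeCore_coprime).symm

end Cfsg.Agent.S3020
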