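import Cfsg.Statements.S3021
-- import your own Cfsg.Agent.* helpers here
import Mathlib
import Cfsg.Agent.Lib.Helper17.Syl
import Cfsg.Agent.Lib.Helper18.TransferTI

set_option autoImplicit false
open Cfsg

namespace Cfsg.Agent.S3021

/-- Let G be a finite group, p a prime and H a p-subgroup of G that is extremely closed (for every g, the subgroup generated by H and g H g⁻¹ meets N_G(H) exactly in H). Then every p-subgroup Q of G containing H has N_G(Q) ≤ N_G(H); in particular every Sylow p-subgroup P of G containing H normalizes H, and H is strongly closed in P with respect to G. -/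
theorem result {G : Type*} [Group G] [Finite G] {p : ℕ} [Fact p.Prime] (H : Subgroup G) (hHp : IsPGroup p H) (hcl : Cfsg.IsExtremelyClosed H) : (∀ Q : Subgroup G, IsPGroup p Q → H ≤ Q → Subgroup.normalizer (Q : Set G) ≤ Subgroup.normalizer (H : Set G)) ∧ ∀ P : Sylow p G, H ≤ (P : Subgroup G) → (P : Subgroup G) ≤ Subgroup.normalizer (H : Set G) ∧ Cfsg.IsStronglyClosed H (P : Subgroup G) := by
  classical
  have key : ∀ g : G, H.map (MulAut.conj g).toMonoidHom ≤ Subgroup.normalizer (H : Set G) →
      g ∈ Subgroup.normalizer (H : Set G) := by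
    intro g hg
    have h1 := hcl g
    rw [inf_eq_left.mpr (sup_le Subgroup.le_normalizer hg)] at h1
    exact Lib.Helper18.mem_normalizer_of_map_conj_le (le_sup_right.trans h1.le)
  have hnorm : ∀ Q : Subgroup G, IsPGroup p Q → H ≤ Q → Q ≤ Subgroup.normalizer (H : Set G) := by
    intro Q hQ hHQ
    by_contra hcon
    have hlt : Q ⊓ Subgroup.normalizer (H : Set G) < Q :=
      lt_of_le_of_ne inf_le_left (fun h => hcon (inf_eq_left.mp h))
    obtain ⟨g, hgQ, hgN, hgM⟩ := Lib.Helper17.pgroup_normalizer_grow hQ hlt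
    apply hgM
    refine ⟨hgQ, key g ?_⟩
    rintro _ ⟨y, hy, rfl⟩
    have h1 : y ∈ Q ⊓ Subgroup.normalizer (H : Set G) := ⟨hHQ hy, Subgroup.le_normalizer hy⟩
    exact ((Subgroup.mem_normalizer_iff.mp hgN y).mp h1).2
  refine ⟨?_, ?_⟩
  · intro Q hQ hHQ g hg
    apply key
    rintro _ ⟨y, hy, rfl⟩
    exact hnorm Q hQ hHQ ((Subgroup.mem_normalizer_iff.mp hg y).mp (hHQ hy))
  · intro P hHP
    have hPN := hnorm P P.isPGroup' hHP
    refine ⟨hPN, hHP, ?_⟩
    intro x hx g hgx
    have h1 := hcl g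
    rw [← h1]
    exact ⟨(le_sup_right : H.map (MulAut.conj g).toMonoidHom ≤ _) ⟨x, hx, rfl⟩, hPN hgx⟩

end Cfsg.Agent.S3021
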