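import Cfsg.Statements.S3025
-- import your own Cfsg.Agent.* helpers here
import Mathlib
import Cfsg.Agent.S0016

set_option autoImplicit false
open Cfsg

namespace Cfsg.Agent.S3025

/-- Let F be a finite group and H a nontrivial subgroup of F that is contained in every nontrivial subgroup of F which H normalizes. Then F has a nontrivial normal subgroup N contained in every nontrivial normal subgroup of F (a unique minimal normal subgroup), N is simple, and one of the following holds: C_F(N) = 1; or H = N has prime order p, C_F(N) is cyclic of order a power of p, and F/C_F(N) is cyclic of order dividing p − 1; or H = N has order 2, N is central in F, and F is a generalized quaternion group. -/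
theorem result {F : Type*} [Group F] [Finite F] (H : Subgroup F) (hH : H ≠ ⊥)
    (hmin : ∀ R : Subgroup F, R ≠ ⊥ → H ≤ Subgroup.normalizer (R : Set F) → H ≤ R) :
    ∃ N : Subgroup F, N.Normal ∧ N ≠ ⊥ ∧ (∀ M : Subgroup F, M.Normal → M ≠ ⊥ → N ≤ M) ∧ IsSimpleGroup ↥N ∧
      (Subgroup.centralizer (N : Set F) = ⊥ ∨
       (H = N ∧ (Nat.card N).Prime ∧ IsCyclic ↥(Subgroup.centralizer (N : Set F)) ∧
          (∃ k : ℕ, 1 ≤ k ∧ Nat.card ↥(Subgroup.centralizer (N : Set F)) = Nat.card N ^ k) ∧
          (∃ g : F, Subgroup.centralizer (N : Set F) ⊔ Subgroup.zpowers g = ⊤) ∧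
          (Subgroup.centralizer (N : Set F)).index ∣ Nat.card N - 1) ∨
       (H = N ∧ Nat.card N = 2 ∧ Subgroup.centralizer (N : Set F) = ⊤ ∧
          ∃ k : ℕ, 1 ≤ k ∧ Nonempty (F ≃* QuaternionGroup (2 ^ k)))) := by
  classical
  obtain ⟨N, hNdef⟩ : ∃ N, N = sInf {M : Subgroup F | M.Normal ∧ M ≠ ⊥} := ⟨_, rfl⟩
  have hnormH : ∀ M : Subgroup F, M.Normal → H ≤ Subgroup.normalizer (M : Set F) := by
    intro M hM
    rw [Subgroup.normalizer_eq_top]
    exact le_top
  have hHN : H ≤ N := by
    rw [hNdef]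
    apply le_sInf
    rintro M ⟨hMn, hM1⟩
    exact hmin M hM1 (hnormH M hMn)
  have hN1 : N ≠ ⊥ := fun h => hH (eq_bot_iff.2 (h ▸ hHN))
  have hNn : N.Normal := by
    refine ⟨fun n hn g => ?_⟩
    rw [hNdef, Subgroup.mem_sInf] at hn ⊢
    rintro M ⟨hMn, hM1⟩
    exact hMn.conj_mem n (hn M ⟨hMn, hM1⟩) g
  have hNmin : ∀ M : Subgroup F, M.Normal → M ≠ ⊥ → N ≤ M := by
    intro M hMn hM1
    rw [hNdef]
    exact sInf_le ⟨hMn, hM1⟩
  -- simplicity
  have hsimple : IsSimpleGroup ↥N := by
    obtain ⟨N₀, hN₀⟩ : ∃ N₀, N₀ = sInf {R : Subgroup F | R ≤ N ∧ R ≠ ⊥ ∧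
        N ≤ Subgroup.normalizer (R : Set F)} := ⟨_, rfl⟩
    have hHN₀ : H ≤ N₀ := by
      rw [hN₀]
      apply le_sInf
      rintro R ⟨-, hR1, hRn⟩
      exact hmin R hR1 (hHN.trans hRn)
    have hN₀1 : N₀ ≠ ⊥ := fun h => hH (eq_bot_iff.2 (h ▸ hHN₀))
    have hN₀n : N₀.Normal := by
      refine ⟨fun n hn g => ?_⟩
      rw [hN₀, Subgroup.mem_sInf] at hn ⊢
      rintro R ⟨hRN, hR1, hRn⟩
      have hmem : R.map (MulAut.conj g⁻¹).toMonoidHom ∈ {R : Subgroup F | R ≤ N ∧ R ≠ ⊥ ∧
          N ≤ Subgroup.normalizer (R : Set F)} := by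
        refine ⟨?_, ?_, ?_⟩
        · rintro _ ⟨r, hr, rfl⟩
          exact hNn.conj_mem r (hRN hr) g⁻¹
        · intro h
          exact hR1 ((Subgroup.map_eq_bot_iff_of_injective _ (MulAut.conj g⁻¹).injective).1 h)
        · intro m hm
          have hm' : g * m * g⁻¹ ∈ Subgroup.normalizer (R : Set F) := hRn (hNn.conj_mem m hm g)
          rw [Subgroup.mem_normalizer_iff] at hm' ⊢
          intro x
          have key : ∀ w : F, w ∈ R.map (MulAut.conj g⁻¹).toMonoidHom ↔ g * w * g⁻¹ ∈ R := by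
            intro w
            constructor
            · rintro ⟨r, hr, rfl⟩
              have : g * ((MulAut.conj g⁻¹).toMonoidHom r) * g⁻¹ = r := by
                show g * (g⁻¹ * r * g⁻¹⁻¹) * g⁻¹ = r
                group
              rw [this]; exact hr
            · intro hw
              refine ⟨g * w * g⁻¹, hw, ?_⟩
              show g⁻¹ * (g * w * g⁻¹) * g⁻¹⁻¹ = w
              group
          rw [key, key, hm' (g * x * g⁻¹)]
          have : g * m * g⁻¹ * (g * x * g⁻¹) * (g * m * g⁻¹)⁻¹ = g * (m * x * m⁻¹) * g⁻¹ := by group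
          rw [this]
      obtain ⟨r, hr, hrn⟩ := hn _ hmem
      have hrn' : g⁻¹ * r * g⁻¹⁻¹ = n := hrn
      have : g * n * g⁻¹ = r := by rw [← hrn']; group
      rw [this]; exact hr
    have hNN₀ : N ≤ N₀ := hNmin N₀ hN₀n hN₀1
    have hnt : Nontrivial ↥N := (Subgroup.nontrivial_iff_ne_bot N).2 hN1
    refine ⟨fun K hK => ?_⟩
    by_cases hK1 : K = ⊥
    · exact Or.inl hK1
    right
    have hmem : K.map N.subtype ∈ {R : Subgroup F | R ≤ N ∧ R ≠ ⊥ ∧
        N ≤ Subgroup.normalizer (R : Set F)} := by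
      refine ⟨Subgroup.map_subtype_le K, ?_, ?_⟩
      · intro h
        exact hK1 ((Subgroup.map_eq_bot_iff_of_injective _ N.subtype_injective).1 h)
      · rw [← Subgroup.normal_subgroupOf_iff_le_normalizer (Subgroup.map_subtype_le K)]
        have : (K.map N.subtype).subgroupOf N = K :=
          Subgroup.comap_map_eq_self_of_injective N.subtype_injective K
        rw [this]
        exact hK
    have hle : N ≤ K.map N.subtype := hNN₀.trans (hN₀ ▸ sInf_le hmem)
    rw [eq_top_iff]
    intro x _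
    obtain ⟨k, hk, hkx⟩ := hle x.2
    have : k = x := Subtype.ext hkx
    exact this ▸ hk
  refine ⟨N, hNn, hN1, hNmin, hsimple, ?_⟩
  by_cases hC1 : Subgroup.centralizer (N : Set F) = ⊥
  · exact Or.inl hC1
  right
  obtain ⟨C, hCdef⟩ : ∃ C, C = Subgroup.centralizer (N : Set F) := ⟨_, rfl⟩
  rw [← hCdef] at hC1 ⊢
  have hCn : C.Normal := hCdef ▸ inferInstance
  have hNC : N ≤ C := hNmin C hCn hC1
  have hNcomm : IsMulCommutative N := Subgroup.le_centralizer_iff_isMulCommutative.1 (hCdef ▸ hNC)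
  have hprime : (Nat.card N).Prime := Group.is_simple_iff_prime_card.1 hsimple
  obtain ⟨p, hp⟩ : ∃ p, p = Nat.card N := ⟨_, rfl⟩
  rw [← hp] at hprime ⊢
  have hfact : Fact p.Prime := ⟨hprime⟩
  have hHeq : H = N := by
    apply Subgroup.eq_of_le_of_card_ge hHN
    have hd : Nat.card H ∣ Nat.card N := Subgroup.card_dvd_of_le hHN
    rw [← hp] at hd ⊢
    rcases (Nat.dvd_prime hprime).1 hd with h | h
    · exact absurd (Subgroup.card_eq_one.1 h) hH
    · exact h.ge
  have hsub : ∀ R : Subgroup F, R ≤ C → R ≠ ⊥ → N ≤ R := by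
    intro R hRC hR1
    rw [← hHeq]
    apply hmin R hR1
    rw [hHeq]
    exact (Subgroup.le_centralizer_iff.1 (hCdef ▸ hRC)).trans (Subgroup.centralizer_le_normalizer _)
  obtain ⟨k, hk⟩ : ∃ k, Nat.card C = p ^ k := by
    refine ⟨_, Nat.eq_prime_pow_of_unique_prime_dvd (Nat.card_pos.ne') ?_⟩
    intro q hq hqd
    have := Fact.mk hq
    obtain ⟨y, hy⟩ := exists_prime_orderOf_dvd_card' q hqd
    have hy1 : (y : F) ≠ 1 := by
      intro h
      have : y = 1 := Subtype.ext h
      rw [this, orderOf_one] at hy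
      exact hq.one_lt.ne hy
    have h1 : N ≤ Subgroup.zpowers (y : F) :=
      hsub _ (Subgroup.zpowers_le.2 y.2) (by simpa using hy1)
    have h2 := Subgroup.card_dvd_of_le h1
    rw [← hp, Nat.card_zpowers, Subgroup.orderOf_coe, hy] at h2
    exact ((Nat.prime_dvd_prime_iff_eq hprime hq).1 h2).symm
  have hCp : IsPGroup p C := IsPGroup.of_card hk
  have huniq : ∀ H' K' : Subgroup C, Nat.card H' = p → Nat.card K' = p → H' = K' := by
    have key : ∀ H' : Subgroup C, Nat.card H' = p → H'.map C.subtype = N := by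
      intro H' hH'
      symm
      have hne : H'.map C.subtype ≠ ⊥ := by
        intro h
        have h0 := (Subgroup.map_eq_bot_iff_of_injective _ C.subtype_injective).1 h
        rw [h0, Subgroup.card_bot] at hH'
        exact hprime.one_lt.ne hH'
      apply Subgroup.eq_of_le_of_card_ge (hsub _ (Subgroup.map_subtype_le H') hne)
      rw [Subgroup.card_map_of_injective C.subtype_injective, hH', hp]
    intro H' K' h1 h2
    exact Subgroup.map_injective C.subtype_injective ((key H' h1).trans (key K' h2).symm)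
  have hdich := Cfsg.Agent.S0016.result p hCp huniq
  obtain ⟨f, hf⟩ : ∃ f : F →* MulAut N, ∀ (x : F) (n : N), ((f x n : N) : F) = x * n * x⁻¹ :=
    ⟨MulAut.conjNormal, fun x n => MulAut.conjNormal_apply x n⟩
  have hker : f.ker = C := by
    ext x
    rw [MonoidHom.mem_ker, hCdef, Subgroup.mem_centralizer_iff]
    constructor
    · intro hx n hn
      have h1 := hf x ⟨n, hn⟩
      rw [hx] at h1
      have h2 : n = x * n * x⁻¹ := h1
      calc n * x = (x * n * x⁻¹) * x := by rw [← h2]
        _ = x * n := by group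
    · intro hx
      ext n
      rw [hf x n, ← hx n n.2]
      simp
  have hNcyc : IsCyclic N := isCyclic_of_prime_card hp.symm
  have hidx : C.index ∣ p - 1 := by
    rw [← hker, Subgroup.index_ker]
    have h1 : Nat.card f.range ∣ Nat.card (MulAut N) := Subgroup.card_subgroup_dvd_card _
    rwa [IsCyclic.card_mulAut, ← hp, Nat.totient_prime hprime] at h1
  have hgen : ∃ g, C ⊔ Subgroup.zpowers g = ⊤ := by
    have hcycAut : IsCyclic (MulAut N) := by
      have e := IsCyclic.mulAutMulEquiv N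
      have : Fact (Nat.card N).Prime := ⟨hp ▸ hprime⟩
      exact isCyclic_of_surjective e.symm e.symm.surjective
    have hr : IsCyclic f.range := inferInstance
    obtain ⟨⟨γ, g, rfl⟩, hγ⟩ := hr.exists_generator
    refine ⟨g, eq_top_iff.2 fun x _ => ?_⟩
    obtain ⟨j, hj⟩ := Subgroup.mem_zpowers_iff.1 (hγ ⟨f x, x, rfl⟩)
    have h1 : f (g ^ j) = f x := by
      have := congrArg Subtype.val hj
      simpa using this
    have hx : x * (g ^ j)⁻¹ ∈ C := by
      rw [← hker, MonoidHom.mem_ker, map_mul, map_inv, h1, mul_inv_cancel]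
    have h2 : x = (x * (g ^ j)⁻¹) * g ^ j := by group
    rw [h2]
    exact mul_mem ((le_sup_left : C ≤ C ⊔ Subgroup.zpowers g) hx)
      ((le_sup_right : Subgroup.zpowers g ≤ C ⊔ Subgroup.zpowers g)
        (Subgroup.zpow_mem _ (Subgroup.mem_zpowers g) j))
  by_cases hcyc : IsCyclic C
  · left
    refine ⟨hHeq, hprime, hcyc, ⟨k, ?_, hk⟩, hgen, hidx⟩
    by_contra hk0
    have : k = 0 := by omega
    rw [this, pow_zero] at hk
    exact hC1 (Subgroup.card_eq_one.1 hk)
  · right
    rcases hdich with h | ⟨hp2, n, ⟨e⟩⟩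
    · exact absurd h hcyc
    have hCtop : C = ⊤ := by
      rw [hp2] at hidx
      exact Subgroup.index_eq_one.1 (Nat.dvd_one.1 hidx)
    refine ⟨hHeq, hp2, hCtop, n, ?_, ?_⟩
    · by_contra hn
      have hn0 : n = 0 := by omega
      subst hn0
      apply hcyc
      have : IsCyclic (QuaternionGroup (2 ^ 0)) := by
        rw [pow_zero]; exact QuaternionGroup.quaternionGroup_one_isCyclic
      exact isCyclic_of_surjective e.symm e.symm.surjective
    · exact ⟨(Subgroup.topEquiv.symm.trans (MulEquiv.subgroupCongr hCtop.symm)).trans e⟩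

end Cfsg.Agent.S3025
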