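import Cfsg.Statements.S3027
-- import your own Cfsg.Agent.* helpers here
import Mathlib
import Cfsg.Agent.Lib.Helper18.TransferTI

set_option autoImplicit false
open Cfsg

namespace Cfsg.Agent.S3027

theorem sup_eq_top_iff_map {G : Type*} [Group G] (D : Subgroup G) [D.Normal] (X : Subgroup G) :
    X ⊔ D = ⊤ ↔ X.map (QuotientGroup.mk' D) = ⊤ := by
  constructor
  · intro h
    have h1 : (X ⊔ D).map (QuotientGroup.mk' D) = ⊤ := by
      rw [h, Subgroup.map_top_of_surjective _ (QuotientGroup.mk'_surjective D)]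
    rw [Subgroup.map_sup] at h1
    have h2 : D.map (QuotientGroup.mk' D) = ⊥ := by
      rw [Subgroup.map_eq_bot_iff, QuotientGroup.ker_mk']
    rwa [h2, sup_bot_eq] at h1
  · intro h
    have h1 := Subgroup.comap_map_eq (QuotientGroup.mk' D) X
    rw [h, Subgroup.comap_top, QuotientGroup.ker_mk'] at h1
    exact h1.symm

theorem commutator_sup {G : Type*} [Group G] (D : Subgroup G) [D.Normal]
    (hperf : ⁅(⊤ : Subgroup G), (⊤ : Subgroup G)⁆ ⊔ D = ⊤) {X Y : Subgroup G}
    (hX : X ⊔ D = ⊤) (hY : Y ⊔ D = ⊤) : ⁅X, Y⁆ ⊔ D = ⊤ := by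
  rw [sup_eq_top_iff_map] at *
  rw [Subgroup.map_commutator] at *
  rw [hX, hY]
  rwa [Subgroup.map_top_of_surjective _ (QuotientGroup.mk'_surjective D)] at hperf

theorem sup_eq_top_mono {G : Type*} [Group G] {D X Y : Subgroup G} (h : X ≤ Y) (hX : X ⊔ D = ⊤) :
    Y ⊔ D = ⊤ := top_le_iff.mp (hX ▸ sup_le_sup_right h D)

/-- Let G be a finite group and D a normal subgroup of G such that G/D is perfect (that is, G = G′D). Then among the subnormal subgroups B of G with BD = G there is a least one, and it is normal in G. -/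
theorem result {G : Type*} [Group G] [Finite G] (D : Subgroup G) [D.Normal] (hperf : ⁅(⊤ : Subgroup G), (⊤ : Subgroup G)⁆ ⊔ D = ⊤) :
    ∃ B : Subgroup G, B.Normal ∧ B ⊔ D = ⊤ ∧ ∀ B' : Subgroup G, B'.IsSubnormal → B' ⊔ D = ⊤ → B ≤ B' := by
  classical
  obtain ⟨B, -, hBmin⟩ := Finite.exists_le_minimal (p := fun B : Subgroup G => B.Normal ∧ B ⊔ D = ⊤)
    (a := ⊤) ⟨inferInstance, top_sup_eq _⟩
  obtain ⟨⟨hBn, hBD⟩, hBle⟩ := hBmin
  refine ⟨B, hBn, hBD, ?_⟩
  intro B' hB'
  induction hB' with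
  | top => intro _; exact le_top
  | step H K h_le _ hN ih =>
    intro hHD
    have hBK : B ≤ K := ih (sup_eq_top_mono h_le hHD)
    have hKH : K ≤ Subgroup.normalizer (H : Set G) :=
      (Subgroup.normal_subgroupOf_iff_le_normalizer h_le).mp hN
    have hBH : B ≤ Subgroup.normalizer (H : Set G) := hBK.trans hKH
    let 𝒩 : Subgroup G → Prop := fun Y => Y ≤ B ∧ B ≤ Subgroup.normalizer (Y : Set G) ∧ Y ⊔ D = ⊤
    have hinf : ∀ Y₁ Y₂, 𝒩 Y₁ → 𝒩 Y₂ → 𝒩 (Y₁ ⊓ Y₂) := by
      rintro Y₁ Y₂ ⟨h1, h2, h3⟩ ⟨h1', h2', h3'⟩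
      refine ⟨inf_le_left.trans h1, ?_, ?_⟩
      · exact (le_inf h2 h2').trans Subgroup.inf_normalizer_le_normalizer_inf
      · apply sup_eq_top_mono _ (commutator_sup D hperf h3 h3')
        exact le_inf (Subgroup.le_normalizer_iff_commutator_le_left.mp (h1'.trans h2))
          (Subgroup.le_normalizer_iff_commutator_le_right.mp (h1.trans h2'))
    have hW : 𝒩 (B ⊓ H) := by
      refine ⟨inf_le_left, ?_, ?_⟩
      · exact (le_inf Subgroup.le_normalizer hBH).trans Subgroup.inf_normalizer_le_normalizer_inf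
      · apply sup_eq_top_mono _ (commutator_sup D hperf hBD hHD)
        exact le_inf (Subgroup.le_normalizer_iff_commutator_le_left.mp
          (by rw [Subgroup.normalizer_eq_top]; exact le_top))
          (Subgroup.le_normalizer_iff_commutator_le_right.mp hBH)
    obtain ⟨Y, hYW, hYmin⟩ := Finite.exists_le_minimal (p := 𝒩) hW
    obtain ⟨hY, hYle⟩ := hYmin
    have hconj : ∀ g : G, 𝒩 (Y.map (MulAut.conj g).toMonoidHom) := by
      intro g
      obtain ⟨h1, h2, h3⟩ := hY
      have hBg : B.map (MulAut.conj g).toMonoidHom = B := Subgroup.Normal.map_conj_eq B g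
      refine ⟨?_, ?_, ?_⟩
      · rw [← hBg]; exact Subgroup.map_mono h1
      · calc B = B.map (MulAut.conj g).toMonoidHom := hBg.symm
          _ ≤ (Subgroup.normalizer (Y : Set G)).map (MulAut.conj g).toMonoidHom := Subgroup.map_mono h2
          _ ≤ _ := Subgroup.le_normalizer_map _
      · have hDg : D.map (MulAut.conj g).toMonoidHom = D := Subgroup.Normal.map_conj_eq D g
        have h4 : (Y ⊔ D).map (MulAut.conj g).toMonoidHom = ⊤ := by
          rw [h3, Subgroup.map_top_of_surjective _ (MulAut.conj g).surjective]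
        rwa [Subgroup.map_sup, hDg] at h4
    have hYn : Y.Normal := by
      rw [← Subgroup.normalizer_eq_top_iff, eq_top_iff]
      intro g _
      have h1 : Y ≤ Y ⊓ Y.map (MulAut.conj g⁻¹).toMonoidHom :=
        hYle (hinf _ _ hY (hconj g⁻¹)) inf_le_left
      have h2 : Y ≤ Y.map (MulAut.conj g⁻¹).toMonoidHom := h1.trans inf_le_right
      apply Lib.Helper18.mem_normalizer_of_map_conj_le
      rintro _ ⟨y, hy, rfl⟩
      obtain ⟨z, hz, hzy⟩ := h2 hy
      have : (MulAut.conj g).toMonoidHom y = z := by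
        rw [← hzy]
        simp [MulAut.conj_apply, mul_assoc]
      rw [this]; exact hz
    have hBY : B ≤ Y := hBle ⟨hYn, hY.2.2⟩ hY.1
    exact (hBY.trans hYW).trans inf_le_right

end Cfsg.Agent.S3027
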