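import Cfsg.Statements.S3032
import Cfsg.Agent.Lib.Helper23.HSub2
import Cfsg.Agent.S3031

set_option autoImplicit false
open Cfsg

namespace Cfsg.Agent.S3032

open Cfsg.Agent.Lib.Helper13 Cfsg.Agent.Lib.Helper4 Cfsg.Agent.Lib.Helper23.HSub
  Cfsg.Agent.Lib.Helper23.HSub2

universe u

theorem card_map_mk {G : Type u} [Group G] (K : Subgroup G) [K.Normal] (F : Subgroup G)
    (h : K ⊓ F = ⊥) : Nat.card (F.map (QuotientGroup.mk' K)) = Nat.card F := by
  rw [← Subgroup.relIndex_bot_left, ← Subgroup.relIndex_comap, MonoidHom.comap_bot,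
    QuotientGroup.ker_mk', ← Subgroup.inf_relIndex_right, h, Subgroup.relIndex_bot_left]

theorem card_map_subtype {G : Type u} [Group G] (E : Subgroup G) (F : Subgroup E) :
    Nat.card (F.map E.subtype) = Nat.card F :=
  Nat.card_congr (F.equivMapOfInjective E.subtype E.subtype_injective).toEquiv.symm

theorem chain_bot_E {G : Type u} [Group G] [Finite G] : ∀ n : ℕ, ∀ E : Subgroup G, Nat.card E = n →
    E.Normal →
    (∀ (p : ℕ), p.Prime → ∀ P : Subgroup G, P ≤ E → IsPGroup p P → ¬ p ∣ P.relIndex E → ¬ IsCyclic ↥P →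
      ∃ D : Subgroup G, D ≤ P ∧ 1 < Nat.card D ∧ Nat.card D < Nat.card P ∧
        ∀ F : Subgroup G, F ≤ P → (Nat.card F = Nat.card D ∨ (Nat.card D = 2 ∧ Nat.card F = 4)) →
          ∀ g : G, F.map (MulAut.conj g).toMonoidHom ⊓ Subgroup.normalizer (F : Set G) ≤ F) →
    CycChain ⊥ E := by
  intro n
  induction n using Nat.strong_induction_on with
  | _ n ih =>
    intro E hEc hEn h
    by_cases hE : E = ⊥
    · rw [hE]; exact CycChain.refl _ inferInstance
    have hne1 : Nat.card E ≠ 1 := fun h1 => hE ((Subgroup.card_eq_one).mp h1)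
    obtain ⟨p, hpdef⟩ : ∃ p, p = (Nat.card E).minFac := ⟨_, rfl⟩
    have hp : p.Prime := hpdef ▸ Nat.minFac_prime hne1
    have : Fact p.Prime := ⟨hp⟩
    have hdiv : p ∣ Nat.card E := hpdef ▸ Nat.minFac_dvd _
    have hmin : ∀ q : ℕ, q.Prime → q ∣ Nat.card E → p ≤ q :=
      fun q hq hqd => hpdef ▸ Nat.minFac_le_of_dvd hq.two_le hqd
    -- facts on Sylow subgroups of `E`
    have hSyl : ∀ P' : Sylow p E, ¬ p ∣ ((P' : Subgroup E).map E.subtype).relIndex E := by
      intro P'
      rw [Subgroup.relIndex, Subgroup.subgroupOf,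
        Subgroup.comap_map_eq_self_of_injective (Subgroup.subtype_injective _)]
      exact P'.not_dvd_index
    have hnpc : Cfsg.HasNormalPComplement p E := by
      let P' : Sylow p E := default
      apply Cfsg.Agent.S3031.result hdiv hmin P'
      by_cases hcyc : IsCyclic ((P' : Subgroup E).map E.subtype)
      · left
        exact ((P' : Subgroup E).equivMapOfInjective E.subtype E.subtype_injective).isCyclic.mpr hcyc
      · right
        obtain ⟨D, hDP, hD1, hD2, hfam⟩ := h p hp _ (Subgroup.map_subtype_le _) (P'.2.map _)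
          (hSyl P') hcyc
        have hDE : D ≤ E := hDP.trans (Subgroup.map_subtype_le _)
        have hDc : Nat.card (D.subgroupOf E) = Nat.card D :=
          Nat.card_congr (Subgroup.subgroupOfEquivOfLe hDE).toEquiv
        refine ⟨D.subgroupOf E, ?_, by rw [hDc]; exact hD1, ?_, ?_⟩
        · intro x hx
          obtain ⟨y, hy, e⟩ := hDP (Subgroup.mem_subgroupOf.mp hx)
          have : y = x := Subtype.ext e
          rwa [this] at hy
        · rw [hDc, ← card_map_subtype E (P' : Subgroup E)]; exact hD2
        · intro F' hF'P hF'c g x hx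
          rw [hDc, ← card_map_subtype E F'] at hF'c
          have hF := hfam (F'.map E.subtype) (Subgroup.map_mono hF'P) hF'c (g : G)
          obtain ⟨⟨f, hf, hfx⟩, hxN⟩ := Subgroup.mem_inf.mp hx
          have hx2 : (x : G) ∈ F'.map E.subtype := by
            apply hF
            refine Subgroup.mem_inf.mpr ⟨⟨f, ⟨f, hf, rfl⟩, ?_⟩, mem_normalizer_of_conj_mem ?_⟩
            · rw [← hfx]; rfl
            · rintro _ ⟨e, he, rfl⟩
              exact ⟨x * e * x⁻¹, (Subgroup.mem_normalizer_iff.mp hxN e).mp he, rfl⟩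
          obtain ⟨x', hx', e⟩ := hx2
          have : x' = x := Subtype.ext e
          rwa [this] at hx'
    obtain ⟨P', K', hK'n, hcompl⟩ := hnpc
    set P : Subgroup G := (P' : Subgroup E).map E.subtype with hPdef
    set K : Subgroup G := K'.map E.subtype with hKdef
    have hPE : P ≤ E := Subgroup.map_subtype_le _
    have hKE : K ≤ E := Subgroup.map_subtype_le _
    have hPp : IsPGroup p P := P'.2.map _
    have hPidx : ¬ p ∣ P.relIndex E := hSyl P'
    have hPc : Nat.card P = Nat.card (P' : Subgroup E) := card_map_subtype E _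
    have hKc : Nat.card K = Nat.card K' := card_map_subtype E _
    have hmul : Nat.card K * Nat.card P = Nat.card E := by
      rw [hPc, hKc]; exact hcompl.card_mul_card
    obtain ⟨a, ha⟩ := hPp.exists_card_eq
    have hKco : (Nat.card K).Coprime p := by
      have h1 : (P' : Subgroup E).index = Nat.card K' := hcompl.index_eq_card
      rw [hKc, ← h1]
      exact ((Nat.Prime.coprime_iff_not_dvd hp).mpr P'.not_dvd_index).symm
    have hKmem : ∀ x ∈ E, (orderOf x).Coprime p → x ∈ K := by
      intro x hx hxo
      have h1 : K'.index = Nat.card (P' : Subgroup E) := hcompl.symm.index_eq_card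
      have h2 : orderOf (QuotientGroup.mk' K' ⟨x, hx⟩) ∣ orderOf x := by
        have := orderOf_map_dvd (QuotientGroup.mk' K') (⟨x, hx⟩ : E)
        rwa [Subgroup.orderOf_mk] at this
      have h3 : orderOf (QuotientGroup.mk' K' ⟨x, hx⟩) ∣ p ^ a := by
        rw [← ha, hPc, ← h1, Subgroup.index_eq_card]
        exact orderOf_dvd_natCard _
      have h4 : orderOf (QuotientGroup.mk' K' ⟨x, hx⟩) = 1 :=
        Nat.eq_one_of_dvd_coprimes (Nat.Coprime.pow_right a hxo) h2 h3
      have h5 := (QuotientGroup.eq_one_iff _).mp (orderOf_eq_one_iff.mp h4)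
      exact ⟨⟨x, hx⟩, h5, rfl⟩
    have hKn : K.Normal := by
      constructor
      intro k hk g
      apply hKmem _ (hEn.conj_mem k (hKE hk) g)
      have h1 : orderOf (g * k * g⁻¹) = orderOf k :=
        orderOf_injective (MulAut.conj g).toMonoidHom (MulAut.conj g).injective k
      rw [h1]
      have h2 : orderOf k ∣ Nat.card K := by
        have := orderOf_dvd_natCard (⟨k, hk⟩ : K)
        rwa [Subgroup.orderOf_mk] at this
      exact Nat.Coprime.coprime_dvd_left h2 hKco
    have hKidx : K.relIndex E = Nat.card P := by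
      have h2 := Subgroup.relIndex_mul_relIndex ⊥ K E bot_le hKE
      rw [Subgroup.relIndex_bot_left, Subgroup.relIndex_bot_left, ← hmul] at h2
      exact Nat.eq_of_mul_eq_mul_left Nat.card_pos h2
    have hKlt : Nat.card K < n := by
      rw [← hEc, ← hmul]
      have h1 : 1 < Nat.card P := by
        by_contra hcon
        have h2 : Nat.card P = 1 := by have := Nat.card_pos (α := P); omega
        rw [h2, mul_one] at hmul
        rw [← hmul] at hdiv
        exact hp.one_lt.ne' (Nat.dvd_one.mp ((Nat.Coprime.symm hKco) ▸ Nat.dvd_gcd dvd_rfl hdiv))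
      have := Nat.card_pos (α := K)
      nlinarith
    have hchK : CycChain ⊥ K := by
      apply ih _ hKlt K rfl hKn
      intro r hr R hRK hRr hRidx hRcyc
      apply h r hr R (hRK.trans hKE) hRr ?_ hRcyc
      rw [← Subgroup.relIndex_mul_relIndex R K E hRK hKE, hKidx, ha]
      intro hdvd
      rcases (Nat.Prime.dvd_mul hr).mp hdvd with h1 | h1
      · exact hRidx h1
      · have hrp : r = p := (Nat.prime_dvd_prime_iff_eq hr hp).mp (hr.dvd_of_dvd_pow h1)
        subst hrp
        apply hRcyc
        obtain ⟨j, hj⟩ := hRr.exists_card_eq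
        have h2 : Nat.card R ∣ Nat.card K := Subgroup.card_dvd_of_le hRK
        have h3 : Nat.card R = 1 :=
          Nat.eq_one_of_dvd_coprimes (Nat.Coprime.pow_right j hKco) h2 (by rw [hj])
        have h4 : R = ⊥ := (Subgroup.card_eq_one).mp h3
        rw [h4]
        infer_instance
    -- the quotient by `K`
    let π := QuotientGroup.mk' K
    have hsurj : Function.Surjective π := QuotientGroup.mk'_surjective K
    have hKP : K ⊓ P = ⊥ :=
      (Subgroup.disjoint_of_coprime_natCard (by rw [ha]; exact Nat.Coprime.pow_right a hKco)).eq_bot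
    have hQP : P.map π = E.map π := by
      apply Subgroup.eq_of_le_of_card_ge (Subgroup.map_mono hPE)
      rw [card_map_mk K P hKP, ← hKidx, ← Subgroup.relIndex_bot_left, ← Subgroup.relIndex_comap,
        MonoidHom.comap_bot, QuotientGroup.ker_mk']
    have hQn : (P.map π).Normal := by rw [hQP]; exact hEn.map π hsurj
    have hchQ : CycChain ⊥ (P.map π) := by
      by_cases hcyc : IsCyclic P
      · apply chain_of_cyclic _ hQn
        exact isCyclic_of_surjective (π.subgroupMap P) (π.subgroupMap_surjective P)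
      obtain ⟨D, hDP, hD1, hD2, hfam⟩ := h p hp P hPE hPp hPidx hcyc
      obtain ⟨d, hd⟩ := (hPp.to_le hDP).exists_card_eq
      have hd1 : 1 ≤ d := by
        rcases Nat.eq_zero_or_pos d with rfl | h0
        · rw [hd, pow_zero] at hD1
          exact absurd hD1 (lt_irrefl 1)
        · exact h0
      rw [hd] at hD2 hfam
      have hFrat : ∀ g' : G ⧸ K, ∃ m ∈ Subgroup.normalizer (P : Set G), π m = g' := by
        intro g'
        obtain ⟨g, rfl⟩ := hsurj g'
        have htop := Sylow.normalizer_sup_eq_top P'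
        have hg : g ∈ Subgroup.normalizer (P : Set G) ⊔ E := by
          rw [hPdef, htop]; trivial
        obtain ⟨y, hy, z, hz, rfl⟩ := Subgroup.mem_sup_of_normal_right.mp hg
        have hz2 : π z ∈ P.map π := by rw [hQP]; exact ⟨z, hz, rfl⟩
        obtain ⟨w, hw, hwz⟩ := hz2
        exact ⟨y * w, mul_mem hy (Subgroup.le_normalizer hw), by rw [map_mul, map_mul, hwz]⟩
      apply chain_of_fam (p := p) _ hQn (hPp.map π) d hd1 (by rw [card_map_mk K P hKP]; exact hD2)
      intro X hXQ hXc
      set F : Subgroup G := P ⊓ X.comap π with hFdef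
      have hFP : F ≤ P := inf_le_left
      have hFX : F.map π = X := by
        apply le_antisymm
        · rintro _ ⟨f, hf, rfl⟩
          exact (Subgroup.mem_inf.mp hf).2
        · intro x hx
          obtain ⟨w, hw, rfl⟩ := hXQ hx
          exact ⟨w, Subgroup.mem_inf.mpr ⟨hw, hx⟩, rfl⟩
      have hFc : Nat.card F = Nat.card X := by
        rw [← hFX, card_map_mk K F]
        rw [eq_bot_iff, ← hKP]
        exact inf_le_inf_left K hFP
      rw [← hFc] at hXc
      have hsc := strongly_closed_of_H hPp hFP (hfam F hFP hXc)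
      constructor
      intro x hx g'
      rw [← hFX] at hx ⊢
      obtain ⟨f, hf, rfl⟩ := hx
      obtain ⟨m, hm, rfl⟩ := hFrat g'
      refine ⟨m * f * m⁻¹, ?_, by simp⟩
      have h1 : m * f * m⁻¹ ∈ P := (Subgroup.mem_normalizer_iff.mp hm f).mp (hFP hf)
      have h2 := hsc f hf m⁻¹
      rw [inv_inv] at h2
      exact h2 h1
    have hch2 := hchQ.comap π
    rw [MonoidHom.comap_bot, QuotientGroup.ker_mk', hQP, Subgroup.comap_map_eq, QuotientGroup.ker_mk',
      sup_eq_left.mpr hKE] at hch2
    exact hchK.trans hch2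

/-- Let G be a finite group and E a normal subgroup with G/E supersolvable. Suppose that for every prime p and every non-cyclic Sylow p-subgroup P of E there is a subgroup D of P with 1 < |D| < |P| such that every subgroup F of P of order |D|, and also every subgroup F of P of order 4 when |D| = 2, satisfies g F g⁻¹ ∩ N_G(F) ≤ F for all g ∈ G. Then G is supersolvable. -/
theorem result {G : Type*} [Group G] [Finite G] (E : Subgroup G) [E.Normal] (hGE : Cfsg.IsSupersolvable (G ⧸ E))
    (h : ∀ (p : ℕ), p.Prime → ∀ P : Subgroup G, P ≤ E → IsPGroup p P → ¬ p ∣ P.relIndex E → ¬ IsCyclic ↥P →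
      ∃ D : Subgroup G, D ≤ P ∧ 1 < Nat.card D ∧ Nat.card D < Nat.card P ∧
        ∀ F : Subgroup G, F ≤ P → (Nat.card F = Nat.card D ∨ (Nat.card D = 2 ∧ Nat.card F = 4)) →
          ∀ g : G, F.map (MulAut.conj g).toMonoidHom ⊓ Subgroup.normalizer (F : Set G) ≤ F) :
    Cfsg.IsSupersolvable G := by
  rw [isSupersolvable_iff] at hGE ⊢
  have h1 := chain_bot_E _ E rfl inferInstance h
  have h2 := hGE.comap (QuotientGroup.mk' E)
  rw [MonoidHom.comap_bot, QuotientGroup.ker_mk', Subgroup.comap_top] at h2
  exact h1.trans h2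

end Cfsg.Agent.S3032
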