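import Cfsg.Statements.S3056
-- import your own Cfsg.Agent.* helpers here
import Mathlib
import Cfsg.Agent.Lib.Helper18.SylChain
import Cfsg.Agent.Lib.Helper17.Syl

set_option autoImplicit false
open Cfsg

namespace Cfsg.Agent.S3056

open Cfsg.Agent.Lib.Helper17 Cfsg.Agent.Lib.Helper18

theorem dvd_card_of_le {G : Type*} [Group G] [Finite G] {p : ℕ} [Fact p.Prime] {X Y : Subgroup G}
    (hX : IsPGroup p X) (hne : X ≠ ⊥) (hXY : X ≤ Y) : p ∣ Nat.card Y := by
  obtain ⟨k, hk⟩ := IsPGroup.iff_card.1 hX
  have hk0 : k ≠ 0 := by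
    rintro rfl
    rw [pow_zero] at hk
    exact hne (Subgroup.card_eq_one.1 hk)
  have hdvd : p ∣ Nat.card X := hk ▸ dvd_pow_self p hk0
  exact hdvd.trans (Subgroup.card_dvd_of_le hXY)

theorem sylConn_of_inf_ne_bot {G : Type*} [Group G] {p : ℕ} {S T : Sylow p G}
    (h : (S : Subgroup G) ⊓ (T : Subgroup G) ≠ ⊥) : Relation.ReflTransGen SylAdj S T := by
  by_cases he : S = T
  · rw [he]
  · exact Relation.ReflTransGen.single ⟨he, h⟩

theorem coe_smul_eq_map {G : Type*} [Group G] {p : ℕ} (P : Sylow p G) (g : G) :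
    ((g • P : Sylow p G) : Subgroup G) = (P : Subgroup G).map (MulAut.conj g).toMonoidHom := by
  rw [Sylow.coe_subgroup_smul]
  rfl

/-- Let G be a finite group and p a prime. Join two Sylow p-subgroups when they are distinct and meet nontrivially. This graph on the Sylow p-subgroups is disconnected (the Sylow p-subgroups are not chain-connected through nontrivial intersections) if and only if G has a strongly p-embedded subgroup in the classical sense: a proper subgroup H of order divisible by p such that H ∩ gHg⁻¹ has order prime to p for every g outside H. -/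
theorem result {G : Type*} [Group G] [Finite G]
    (p : ℕ) [Fact p.Prime] :
    ¬ Cfsg.IsSylowChainConnected p G ↔
      ∃ H : Subgroup G, H ≠ ⊤ ∧ p ∣ Nat.card H ∧
        ∀ g : G, g ∉ H → ¬ p ∣ Nat.card ↥(H ⊓ H.map (MulAut.conj g).toMonoidHom) := by
  constructor
  · intro hnc
    obtain ⟨P⟩ : Nonempty (Sylow p G) := inferInstance
    have hHtop : compStab P ≠ ⊤ := fun h => hnc (sylConn_of_compStab_eq_top h)
    have hPne : (P : Subgroup G) ≠ ⊥ := by
      intro hP
      apply hHtop
      rw [eq_top_iff]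
      intro g _
      rw [mem_compStab]
      have : g • P = P := by
        apply Sylow.ext
        rw [coe_smul_eq_map, hP, Subgroup.map_bot]
      rw [this]
    refine ⟨compStab P, hHtop, dvd_card_of_le P.2 hPne (le_compStab P), ?_⟩
    intro g hg hdvd
    obtain ⟨⟨y, hy⟩, hyo⟩ := exists_prime_orderOf_dvd_card' p hdvd
    rw [Subgroup.orderOf_mk] at hyo
    obtain ⟨hy1, hy2⟩ := Subgroup.mem_inf.1 hy
    obtain ⟨y', hy', hyy'⟩ := hy2
    have hyy : g * y' * g⁻¹ = y := hyy'
    have hPH : IsSyl p (P : Subgroup G) (compStab P) := (isSyl_top P).of_le (le_compStab P) le_top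
    have hpy : IsPGroup p (Subgroup.zpowers y) := by
      rw [IsPGroup.iff_card]
      exact ⟨1, by rw [Nat.card_zpowers, hyo, pow_one]⟩
    have hpy' : IsPGroup p (Subgroup.zpowers y') := by
      rw [IsPGroup.iff_card]
      refine ⟨1, ?_⟩
      have := (MulAut.conj g).orderOf_eq y'
      rw [MulAut.conj_apply, hyy, hyo] at this
      rw [Nat.card_zpowers, ← this, pow_one]
    obtain ⟨h₁, hh₁, hle₁⟩ := hPH.exists_conj_ge (Subgroup.zpowers_le.2 hy1) hpy
    obtain ⟨h₂, hh₂, hle₂⟩ := hPH.exists_conj_ge (Subgroup.zpowers_le.2 hy') hpy'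
    have m1 : y ∈ ((h₁ • P : Sylow p G) : Subgroup G) := by
      rw [coe_smul_eq_map]; exact hle₁ (Subgroup.mem_zpowers y)
    have m2 : y ∈ (((g * h₂) • P : Sylow p G) : Subgroup G) := by
      rw [coe_smul_eq_map]
      obtain ⟨u, hu, hu'⟩ := hle₂ (Subgroup.mem_zpowers y')
      have hu'' : h₂ * u * h₂⁻¹ = y' := hu'
      refine ⟨u, hu, ?_⟩
      show (g * h₂) * u * (g * h₂)⁻¹ = y
      rw [← hyy, ← hu'']; group
    have hne : ((h₁ • P : Sylow p G) : Subgroup G) ⊓ (((g * h₂) • P : Sylow p G) : Subgroup G) ≠ ⊥ := by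
      intro hbot
      have : y ∈ ((h₁ • P : Sylow p G) : Subgroup G) ⊓ (((g * h₂) • P : Sylow p G) : Subgroup G) :=
        Subgroup.mem_inf.2 ⟨m1, m2⟩
      rw [hbot, Subgroup.mem_bot] at this
      rw [this, orderOf_one] at hyo
      exact (Fact.out : p.Prime).one_lt.ne hyo
    have hgh : g * h₂ ∈ compStab P :=
      mem_compStab.2 ((mem_compStab.1 hh₁).trans (sylConn_of_inf_ne_bot hne))
    apply hg
    have : g = (g * h₂) * h₂⁻¹ := by group
    rw [this]
    exact mul_mem hgh (inv_mem hh₂)
  · rintro ⟨H, hHtop, hdvd, hH⟩ hconn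
    rw [isSylowChainConnected_iff] at hconn
    obtain ⟨Q, hQ⟩ := exists_isSyl p H
    have hQne := hQ.ne_bot hdvd
    have hNQ : Subgroup.normalizer (Q : Set G) ≤ H := by
      intro g hg
      by_contra hgH
      apply hH g hgH
      apply dvd_card_of_le hQ.isPGroup hQne
      refine le_inf hQ.le ?_
      rw [← map_conj_eq_of_mem_normalizer hg]
      exact Subgroup.map_mono hQ.le
    obtain ⟨P, hQP⟩ := hQ.isPGroup.exists_le_sylow
    have hQeq : Q = (P : Subgroup G) := by
      by_contra hne
      have hlt : Q < (P : Subgroup G) := lt_of_le_of_ne hQP hne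
      obtain ⟨n, hnP, hnN, hnQ⟩ := pgroup_normalizer_grow P.2 hlt
      have hle : Q ⊔ Subgroup.zpowers n ≤ (P : Subgroup G) := sup_le hQP (Subgroup.zpowers_le.2 hnP)
      have hleH : Q ⊔ Subgroup.zpowers n ≤ H := sup_le hQ.le (Subgroup.zpowers_le.2 (hNQ hnN))
      have := hQ.eq_of_le hleH (P.2.to_le hle) le_sup_left
      apply hnQ
      have h2 : n ∈ Q ⊔ Subgroup.zpowers n :=
        (le_sup_right : Subgroup.zpowers n ≤ _) (Subgroup.mem_zpowers n)
      exact this.le h2
    have hPH : (P : Subgroup G) ≤ H := hQeq ▸ hQ.le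
    have hPne : (P : Subgroup G) ≠ ⊥ := hQeq ▸ hQne
    have hall : ∀ T : Sylow p G, Relation.ReflTransGen SylAdj P T → (T : Subgroup G) ≤ H := by
      intro T hT
      induction hT with
      | refl => exact hPH
      | @tail S T _ hST ih =>
        obtain ⟨g, rfl⟩ := MulAction.exists_smul_eq G S T
        have hgH : g ∈ H := by
          by_contra hgH
          apply hH g hgH
          apply dvd_card_of_le (S.2.to_le inf_le_left) hST.2
          refine le_inf (inf_le_left.trans ih) (inf_le_right.trans ?_)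
          rw [coe_smul_eq_map]
          exact Subgroup.map_mono ih
        rw [coe_smul_eq_map]
        rintro _ ⟨s, hs, rfl⟩
        exact mul_mem (mul_mem hgH (ih hs)) (inv_mem hgH)
    obtain ⟨g, hg⟩ : ∃ g, g ∉ H := by
      by_contra hcon
      push Not at hcon
      exact hHtop (eq_top_iff.2 fun g _ => hcon g)
    apply hH g hg
    have hne : ((g • P : Sylow p G) : Subgroup G) ≠ ⊥ := by
      rw [coe_smul_eq_map]
      intro h
      exact hPne ((Subgroup.map_eq_bot_iff_of_injective _ (MulAut.conj g).injective).1 h)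
    apply dvd_card_of_le (g • P).2 hne
    refine le_inf (hall _ (hconn P _)) ?_
    rw [coe_smul_eq_map]
    exact Subgroup.map_mono hPH

end Cfsg.Agent.S3056
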