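import Cfsg.Statements.S3057
-- import your own Cfsg.Agent.* helpers here
import Mathlib
import Cfsg.Agent.S0016
import Cfsg.Agent.S0010
import Cfsg.Agent.S0218
import Cfsg.Agent.Lib.Helper18.SylChain2
import Cfsg.Agent.Lib.Helper17.Syl
import Cfsg.Agent.Lib.Helper5.Card

set_option autoImplicit false
open Cfsg

namespace Cfsg.Agent.S3057

open Cfsg.Agent.Lib.Helper17 Cfsg.Agent.Lib.Helper18

theorem sylConn_of_inf_ne_bot {G : Type*} [Group G] {p : ℕ} {S T : Sylow p G}
    (h : (S : Subgroup G) ⊓ (T : Subgroup G) ≠ ⊥) : Relation.ReflTransGen SylAdj S T := by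
  by_cases he : S = T
  · rw [he]
  · exact Relation.ReflTransGen.single ⟨he, h⟩

/-- p-solvable, noncyclic abelian subgroup in `P` gives connectedness -/
theorem connected_of_noncyclic {G : Type*} [Group G] [Finite G] (p : ℕ) [Fact p.Prime]
    (hdiv : p ∣ Nat.card G) (hsol : Cfsg.IsPSolvable p G) (P : Sylow p G) (E : Subgroup G)
    (hE : E ≤ (P : Subgroup G)) [IsMulCommutative E] (hnc : ¬ IsCyclic E) :
    Cfsg.IsSylowChainConnected p G := by
  have hp : p.Prime := Fact.out
  apply sylConn_of_compStab_eq_top (P := P)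
  obtain ⟨n, Hc, h0, hlast, hmono, hnormal, hfac⟩ := hsol
  have key : ∃ i : Fin n, ¬ p ∣ Nat.card (Hc i.castSucc) ∧ p ∣ Nat.card (Hc i.succ) := by
    by_contra hcon
    push Not at hcon
    have hall : ∀ i : Fin (n + 1), ¬ p ∣ Nat.card (Hc i) := by
      intro i
      induction i using Fin.induction with
      | zero =>
        rw [h0]
        simp only [Subgroup.card_bot, Nat.dvd_one]
        exact hp.one_lt.ne'
      | succ i ih => exact hcon i ih
    apply hall (Fin.last n)
    rw [hlast, Subgroup.card_top]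
    exact hdiv
  obtain ⟨i, hi1, hi2⟩ := key
  have hKn : (Hc i.castSucc).Normal := hnormal _
  have hLn : (Hc i.succ).Normal := hnormal _
  have hKL : Hc i.castSucc ≤ Hc i.succ := hmono (Fin.castSucc_lt_succ).le
  have hfi := hfac i
  generalize Hc i.castSucc = K at hi1 hKn hKL hfi
  generalize Hc i.succ = L at hi2 hLn hKL hfi
  have hcard := Cfsg.Agent.Lib.Helper5.card_mul_relIndex hKL
  obtain ⟨m, hm⟩ : ∃ m : ℕ, K.relIndex L = p ^ m := by
    rcases hfi with h | h
    · exact h
    · exfalso
      rw [← hcard] at hi2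
      rcases (Nat.Prime.dvd_mul hp).1 hi2 with h1 | h1
      · exact hi1 h1
      · exact (Nat.Prime.coprime_iff_not_dvd hp).1 h.symm h1
  have hnorm : ∀ (X : Subgroup G) [X.Normal] (Y : Subgroup G),
      Y ≤ Subgroup.normalizer (X : Set G) := by
    intro X _ Y
    rw [Subgroup.normalizer_eq_top]
    exact le_top
  have hR : IsSyl p ((P : Subgroup G) ⊓ L) L := (isSyl_top P).inf_normal le_top (hnorm L ⊤)
  have hRne := hR.ne_bot hi2
  have hNR := normalizer_le_compStab (P := P) inf_le_left hRne
  have hKH : K ≤ compStab P :=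
    pprime_le_compStab hE hnc (hnorm K E) ((Nat.Prime.coprime_iff_not_dvd hp).2 hi1).symm
  have hLle : L ≤ K ⊔ ((P : Subgroup G) ⊓ L) := by
    rw [← Subgroup.relIndex_eq_one]
    have d1 : (K ⊔ ((P : Subgroup G) ⊓ L)).relIndex L ∣ p ^ m :=
      hm ▸ Subgroup.relIndex_dvd_of_le_left L le_sup_left
    have d2 : (K ⊔ ((P : Subgroup G) ⊓ L)).relIndex L ∣ ((P : Subgroup G) ⊓ L).relIndex L :=
      Subgroup.relIndex_dvd_of_le_left L le_sup_right
    obtain ⟨j, -, hj⟩ := (Nat.dvd_prime_pow hp).1 d1
    by_cases hj0 : j = 0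
    · rw [hj, hj0, pow_zero]
    · exfalso
      apply hR.not_dvd_relIndex
      refine dvd_trans ?_ d2
      rw [hj]
      exact dvd_pow_self p hj0
  have hLH : L ≤ compStab P :=
    hLle.trans (sup_le hKH (inf_le_left.trans (le_compStab P)))
  rw [eq_top_iff]
  intro g _
  obtain ⟨l, hl, hlg⟩ := frattini_arg hR (hnorm L ⊤) (Subgroup.mem_top g)
  have : g = l * (l⁻¹ * g) := by group
  rw [this]
  exact mul_mem (hLH hl) (hNR hlg)

/-- Let p be a prime and G a finite p-solvable group of order divisible by p, with Sylow p-subgroup P. Then the Sylow p-subgroups of G fail to be chain-connected through nontrivial intersections (equivalently, G has a strongly p-embedded subgroup) if and only if O_p(G) = 1 and P is cyclic or, for p = 2, generalized quaternion. -/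
theorem result {G : Type*} [Group G] [Finite G]
    (p : ℕ) [Fact p.Prime] (hdiv : p ∣ Nat.card G) (hsol : Cfsg.IsPSolvable p G) (P : Sylow p G) :
    ¬ Cfsg.IsSylowChainConnected p G ↔
      Cfsg.pCore p G = ⊥ ∧ (IsCyclic ↥P ∨ (p = 2 ∧ ∃ n : ℕ, Nonempty (↥P ≃* QuaternionGroup (2 ^ n)))) := by
  have hp : p.Prime := Fact.out
  have hcore_le : ∀ S : Sylow p G, Cfsg.pCore p G ≤ (S : Subgroup G) := by
    intro S
    rw [Cfsg.Agent.S0010.result p]
    exact iInf_le _ S
  constructor
  · intro hnc
    refine ⟨?_, ?_⟩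
    · by_contra hne
      apply hnc
      rw [isSylowChainConnected_iff]
      intro S T
      apply sylConn_of_inf_ne_bot
      intro hbot
      apply hne
      rw [eq_bot_iff, ← hbot]
      exact le_inf (hcore_le S) (hcore_le T)
    · apply Cfsg.Agent.S0016.result p P.2
      by_contra hcon
      push Not at hcon
      obtain ⟨H, K, hH, hK, hHK⟩ := hcon
      apply hnc
      have hnt : Nontrivial ↥P := by
        have : 1 < Nat.card (P : Subgroup G) := by
          calc 1 < p := hp.one_lt
            _ = Nat.card H := hH.symm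
            _ ≤ Nat.card (P : Subgroup G) := Nat.le_of_dvd Nat.card_pos (Subgroup.card_subgroup_dvd_card H)
        exact Finite.one_lt_card_iff_nontrivial.1 this
      have hcne : Subgroup.center ↥P ≠ ⊥ := by
        have := IsPGroup.center_nontrivial P.2
        exact (Subgroup.nontrivial_iff_ne_bot _).1 this
      obtain ⟨z, hzc, hzo⟩ := exists_orderOf_eq_prime (P.2.to_subgroup (Subgroup.center ↥P)) hcne
      obtain ⟨L, hL, hLz⟩ : ∃ L : Subgroup ↥P, Nat.card L = p ∧ L ≠ Subgroup.zpowers z := by
        by_cases h1 : H = Subgroup.zpowers z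
        · exact ⟨K, hK, fun h2 => hHK (h1.trans h2.symm)⟩
        · exact ⟨H, hH, h1⟩
      obtain ⟨h, hhL, hhz⟩ : ∃ h ∈ L, h ∉ Subgroup.zpowers z := by
        by_contra hcon
        push Not at hcon
        apply hLz
        apply Subgroup.eq_of_le_of_card_ge hcon
        rw [Nat.card_zpowers, hzo, hL]
      have hhp : h ^ p = 1 := by
        have := pow_card_eq_one' (G := L) (x := ⟨h, hhL⟩)
        rw [hL] at this
        exact congrArg Subtype.val this
      have hab : Commute (z : G) (h : G) := by
        have := (Subgroup.mem_center_iff.1 hzc h)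
        exact (congrArg Subtype.val this).symm
      have hbn : (h : G) ∉ Subgroup.zpowers (z : G) := by
        intro hm
        obtain ⟨k, hk⟩ := Subgroup.mem_zpowers_iff.1 hm
        apply hhz
        rw [Subgroup.mem_zpowers_iff]
        exact ⟨k, Subtype.ext (by simpa using hk)⟩
      have hzo' : orderOf (z : G) = p := by rw [Subgroup.orderOf_coe]; exact hzo
      have hhp' : (h : G) ^ p = 1 := by exact_mod_cast congrArg Subtype.val hhp
      obtain ⟨hc, hncyc, -⟩ := closure_pair (p := p) hab hzo' hhp' hbn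
      refine connected_of_noncyclic p hdiv hsol P (Subgroup.closure {(z : G), (h : G)}) ?_ hncyc
      rw [Subgroup.closure_le]
      rintro x (rfl | rfl)
      · exact z.2
      · exact h.2
  · rintro ⟨hcore, hP⟩ hconn
    rw [isSylowChainConnected_iff] at hconn
    have hU0 : ∀ x y : ↥P, orderOf x = p → orderOf y = p → y ∈ Subgroup.zpowers x := by
      intro x y hx hy
      rcases hP with hcyc | ⟨rfl, n, ⟨e⟩⟩
      · by_contra hyn
        have hxy : Commute x y := by
          obtain ⟨g, hg⟩ := hcyc.exists_generator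
          obtain ⟨i, rfl⟩ := Subgroup.mem_zpowers_iff.1 (hg x)
          obtain ⟨j, rfl⟩ := Subgroup.mem_zpowers_iff.1 (hg y)
          exact ((Commute.refl g).zpow_right j).zpow_left i
        have hyp : y ^ p = 1 := by
          have := pow_orderOf_eq_one y
          rwa [hy] at this
        obtain ⟨-, hncyc, -⟩ := closure_pair (p := p) hxy hx hyp hyn
        exact hncyc inferInstance
      · have h1 := Cfsg.Agent.S0218.invol_unique (2 ^ n) (e x) (by rw [MulEquiv.orderOf_eq]; exact hx)
        have h2 := Cfsg.Agent.S0218.invol_unique (2 ^ n) (e y) (by rw [MulEquiv.orderOf_eq]; exact hy)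
        have : x = y := e.injective (h1.trans h2.symm)
        rw [this]; exact Subgroup.mem_zpowers y
    have hU1 : ∀ x ∈ (P : Subgroup G), ∀ y ∈ (P : Subgroup G), orderOf x = p → orderOf y = p →
        y ∈ Subgroup.zpowers x := by
      intro x hx y hy hxo hyo
      have := hU0 ⟨x, hx⟩ ⟨y, hy⟩ (by rw [Subgroup.orderOf_mk]; exact hxo)
        (by rw [Subgroup.orderOf_mk]; exact hyo)
      obtain ⟨k, hk⟩ := Subgroup.mem_zpowers_iff.1 this
      rw [Subgroup.mem_zpowers_iff]
      exact ⟨k, by simpa using congrArg Subtype.val hk⟩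
    have hU : ∀ S : Sylow p G, ∀ x ∈ (S : Subgroup G), ∀ y ∈ (S : Subgroup G), orderOf x = p →
        orderOf y = p → y ∈ Subgroup.zpowers x := by
      intro S x hx y hy hxo hyo
      obtain ⟨g, rfl⟩ := MulAction.exists_smul_eq G P S
      rw [mem_smul_sylow] at hx hy
      have ho : ∀ w : G, orderOf (g⁻¹ * w * g) = orderOf w := by
        intro w
        have := (MulAut.conj g⁻¹).orderOf_eq w
        rwa [MulAut.conj_apply, inv_inv] at this
      have := hU1 _ hx _ hy (by rw [ho]; exact hxo) (by rw [ho]; exact hyo)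
      obtain ⟨k, hk⟩ := Subgroup.mem_zpowers_iff.1 this
      rw [Subgroup.mem_zpowers_iff]
      refine ⟨k, ?_⟩
      have e1 : (g⁻¹ * x * g) ^ k = g⁻¹ * x ^ k * g := by
        have := map_zpow (MulAut.conj g⁻¹) x k
        simpa [MulAut.conj_apply] using this.symm
      rw [e1] at hk
      have : x ^ k = g * (g⁻¹ * x ^ k * g) * g⁻¹ := by group
      rw [this, hk]; group
    have hPne : (P : Subgroup G) ≠ ⊥ := P.ne_bot_of_dvd_card hdiv
    obtain ⟨z, hzP, hzo⟩ := exists_orderOf_eq_prime P.2 hPne
    have hall : ∀ T : Sylow p G, Relation.ReflTransGen SylAdj P T → z ∈ (T : Subgroup G) := by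
      intro T hT
      induction hT with
      | refl => exact hzP
      | @tail S T _ hST ih =>
        obtain ⟨y, hy, hyo⟩ := exists_orderOf_eq_prime (S.2.to_le inf_le_left) hST.2
        obtain ⟨hyS, hyT⟩ := Subgroup.mem_inf.1 hy
        exact (Subgroup.zpowers_le.2 hyT) (hU S y hyS z ih hyo hzo)
    have hzcore : z ∈ Cfsg.pCore p G := by
      rw [Cfsg.Agent.S0010.result p, Subgroup.mem_iInf]
      intro T
      exact hall T (hconn P T)
    rw [hcore, Subgroup.mem_bot] at hzcore
    rw [hzcore, orderOf_one] at hzo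
    exact hp.one_lt.ne hzo

end Cfsg.Agent.S3057
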