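import Cfsg.Statements.S3058
-- import your own Cfsg.Agent.* helpers here
import Mathlib
import Cfsg.Agent.Lib.Helper18.SylChain2
import Cfsg.Agent.Lib.Helper18.TransferTI
import Cfsg.Agent.Lib.Helper17.Syl
import Cfsg.Agent.Lib.Helper5.Card

set_option autoImplicit false
open Cfsg

namespace Cfsg.Agent.S3058

open Cfsg.Agent.Lib.Helper17 Cfsg.Agent.Lib.Helper18

/-- Let p be a prime and G a finite group whose Sylow p-subgroups are not chain-connected through nontrivial intersections (so G has a strongly p-embedded subgroup). If N and M are normal subgroups of G whose orders are both divisible by p, then the order of N ∩ M is divisible by p. Consequently, among the normal subgroups of G whose order is divisible by p there is a smallest one (the intersection of all of them). -/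
theorem result {G : Type*} [Group G] [Finite G]
    (p : ℕ) [Fact p.Prime] (hG : ¬ Cfsg.IsSylowChainConnected p G)
    (N M : Subgroup G) [N.Normal] [M.Normal] (hN : p ∣ Nat.card N) (hM : p ∣ Nat.card M) :
    p ∣ Nat.card ↥(N ⊓ M) := by
  by_contra hD
  apply hG
  obtain ⟨P⟩ : Nonempty (Sylow p G) := inferInstance
  apply sylConn_of_compStab_eq_top (P := P)
  obtain ⟨H, hH⟩ : ∃ H, H = compStab P := ⟨_, rfl⟩
  obtain ⟨D, hDdef⟩ : ∃ D, D = N ⊓ M := ⟨_, rfl⟩
  rw [← hH]
  rw [← hDdef] at hD
  have hDn : D.Normal := hDdef ▸ inferInstance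
  have hDcop : (Nat.card D).Coprime p := ((Nat.Prime.coprime_iff_not_dvd Fact.out).2 hD).symm
  have hnorm : ∀ (X : Subgroup G) [X.Normal] (Y : Subgroup G), Y ≤ Subgroup.normalizer (X : Set G) := by
    intro X _ Y
    rw [Subgroup.normalizer_eq_top]
    exact le_top
  have hPtop := isSyl_top P
  have hP1 : IsSyl p ((P : Subgroup G) ⊓ N) N := hPtop.inf_normal le_top (hnorm N ⊤)
  have hR : IsSyl p ((P : Subgroup G) ⊓ M) M := hPtop.inf_normal le_top (hnorm M ⊤)
  have hP1ne := hP1.ne_bot hN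
  have hRne := hR.ne_bot hM
  have hNP1 : Subgroup.normalizer (((P : Subgroup G) ⊓ N : Subgroup G) : Set G) ≤ H :=
    hH ▸ normalizer_le_compStab inf_le_left hP1ne
  have hNR : Subgroup.normalizer (((P : Subgroup G) ⊓ M : Subgroup G) : Set G) ≤ H :=
    hH ▸ normalizer_le_compStab inf_le_left hRne
  have hPD : Disjoint (P : Subgroup G) D := by
    apply Subgroup.disjoint_of_coprime_natCard
    obtain ⟨k, hk⟩ := IsPGroup.iff_card.1 P.2
    rw [hk]
    exact (Nat.Coprime.pow_right k hDcop).symm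
  have hDH : D ≤ H := by
    obtain ⟨a, haX, hao⟩ := exists_orderOf_eq_prime hP1.isPGroup hP1ne
    obtain ⟨b, hbX, hbo⟩ := exists_orderOf_eq_prime hR.isPGroup hRne
    obtain ⟨haP, haN⟩ := Subgroup.mem_inf.1 haX
    obtain ⟨hbP, hbM⟩ := Subgroup.mem_inf.1 hbX
    have hab : Commute a b := by
      have h1 : a * b * a⁻¹ * b⁻¹ ∈ (P : Subgroup G) :=
        mul_mem (mul_mem (mul_mem haP hbP) (inv_mem haP)) (inv_mem hbP)
      have h2 : a * b * a⁻¹ * b⁻¹ ∈ D := by
        rw [hDdef]
        refine Subgroup.mem_inf.2 ⟨?_, ?_⟩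
        · have : a * b * a⁻¹ * b⁻¹ = a * (b * a⁻¹ * b⁻¹) := by group
          rw [this]
          exact mul_mem haN (‹N.Normal›.conj_mem _ (inv_mem haN) b)
        · exact mul_mem (‹M.Normal›.conj_mem _ hbM a) (inv_mem hbM)
      have h3 := Subgroup.disjoint_def.1 hPD h1 h2
      have : a * b = (a * b * a⁻¹ * b⁻¹) * (b * a) := by group
      show a * b = b * a
      rw [this, h3, one_mul]
    have hbn : b ∉ Subgroup.zpowers a := by
      intro h
      have hbN : b ∈ N := (Subgroup.zpowers_le.2 haN) h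
      have hbD : b ∈ D := hDdef ▸ Subgroup.mem_inf.2 ⟨hbN, hbM⟩
      have hb1 := Subgroup.disjoint_def.1 hPD hbP hbD
      rw [hb1, orderOf_one] at hbo
      exact (Fact.out : p.Prime).one_lt.ne hbo
    obtain ⟨hc, hnc, -⟩ := closure_pair hab hao (by rw [← hbo]; exact pow_orderOf_eq_one b) hbn
    rw [hH]
    refine pprime_le_compStab (E := Subgroup.closure {a, b}) ?_ hnc (hnorm D _) hDcop
    rw [Subgroup.closure_le]
    rintro x (rfl | rfl)
    · exact haP
    · exact hbP
  have hNH : N ≤ H := by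
    obtain ⟨R, hRdef⟩ : ∃ R, R = (P : Subgroup G) ⊓ M := ⟨_, rfl⟩
    rw [← hRdef] at hR hRne hNR
    have hRW : IsSyl p R (R ⊔ D) := by
      apply isSyl_of_not_dvd_relIndex le_sup_left hR.isPGroup
      have h1 := Cfsg.Agent.Lib.Helper5.card_sup_mul_card_inf R D (hnorm D R)
      have h2 := Cfsg.Agent.Lib.Helper5.card_mul_relIndex (le_sup_left : R ≤ R ⊔ D)
      have h3 : R.relIndex (R ⊔ D) * Nat.card (R ⊓ D : Subgroup G) = Nat.card D := by
        have hpos : 0 < Nat.card R := Nat.card_pos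
        apply Nat.eq_of_mul_eq_mul_left hpos
        rw [← mul_assoc, h2, h1]
      intro hdvd
      exact hD (h3 ▸ Dvd.dvd.mul_right hdvd _)
    have hNW : N ≤ Subgroup.normalizer ((R ⊔ D : Subgroup G) : Set G) := by
      intro n hn
      apply mem_normalizer_of_map_conj_le
      rw [Subgroup.map_sup]
      apply sup_le
      · rintro _ ⟨r, hr, rfl⟩
        have hrM : r ∈ M := by
          have : r ∈ (P : Subgroup G) ⊓ M := hRdef ▸ hr
          exact this.2
        have e : n * r * n⁻¹ = (n * r * n⁻¹ * r⁻¹) * r := by group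
        show n * r * n⁻¹ ∈ R ⊔ D
        rw [e]
        refine mul_mem ((le_sup_right : D ≤ R ⊔ D) ?_) ((le_sup_left : R ≤ R ⊔ D) hr)
        rw [hDdef]
        refine Subgroup.mem_inf.2 ⟨?_, ?_⟩
        · have : n * r * n⁻¹ * r⁻¹ = n * (r * n⁻¹ * r⁻¹) := by group
          rw [this]
          exact mul_mem hn (‹N.Normal›.conj_mem _ (inv_mem hn) r)
        · exact mul_mem (‹M.Normal›.conj_mem _ hrM n) (inv_mem hrM)
      · rintro _ ⟨d, hd, rfl⟩
        exact (le_sup_right : D ≤ R ⊔ D) (hDn.conj_mem d hd n)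
    intro n hn
    obtain ⟨w, hw, hwn⟩ := frattini_arg hRW hNW hn
    have hWH : R ⊔ D ≤ H :=
      sup_le (hRdef ▸ (inf_le_left.trans (hH ▸ le_compStab P))) hDH
    have : n = w * (w⁻¹ * n) := by group
    rw [this]; exact H.mul_mem (hWH hw) (hNR hwn)
  rw [eq_top_iff]
  intro g _
  obtain ⟨n, hn, hng⟩ := frattini_arg hP1 (hnorm N ⊤) (Subgroup.mem_top g)
  have : g = n * (n⁻¹ * g) := by group
  rw [this]; exact H.mul_mem (hNH hn) (hNP1 hng)

end Cfsg.Agent.S3058
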