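import Cfsg.Statements.S3059
-- import your own Cfsg.Agent.* helpers here
import Mathlib
import Cfsg.Agent.Lib.Helper17.SE

set_option autoImplicit false
open Cfsg

namespace Cfsg.Agent.S3059
open Cfsg.Agent.Lib.Helper17

/-- Let p be a prime and H a strongly p-embedded subgroup of the finite group G in the classical sense: H is proper, p divides the order of H, and H ∩ gHg⁻¹ has order prime to p for every g outside H. Then for every normal subgroup N of G of order divisible by p, G = H · O^p(N), where O^p(N) is the subgroup generated by the elements of N of order prime to p. -/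
theorem result {G : Type*} [Group G] [Finite G]
    (p : ℕ) [Fact p.Prime] (H : Subgroup G) (hH : H ≠ ⊤) (hpH : p ∣ Nat.card H)
    (hse : ∀ g : G, g ∉ H → ¬ p ∣ Nat.card ↥(H ⊓ H.map (MulAut.conj g).toMonoidHom))
    (N : Subgroup G) [N.Normal] (hN : p ∣ Nat.card N) :
    H ⊔ Subgroup.closure {g : G | g ∈ N ∧ (orderOf g).Coprime p} = ⊤ := by
  have hse' : SEc p H := sEc_of_classical hse
  obtain ⟨T0, hT0⟩ := exists_isSyl p H
  have hT0ne : T0 ≠ ⊥ := hT0.ne_bot hpH
  obtain ⟨S, hS, hT0S⟩ := exists_isSyl_ge (le_top : T0 ≤ ⊤) hT0.isPGroup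
  have hSH : S ≤ H := by
    refine hse'.pgroup_le hS.isPGroup ?_
    intro h0
    exact hT0ne (le_bot_iff.mp (h0 ▸ le_inf hT0S hT0.le))
  have hNn : (⊤ : Subgroup G) ≤ Subgroup.normalizer (N : Set G) := by
    rw [Subgroup.normalizer_eq_top]
  have hQ : IsSyl p (S ⊓ N) N := hS.inf_normal le_top hNn
  have hQne : S ⊓ N ≠ ⊥ := hQ.ne_bot hN
  have hNQ : Subgroup.normalizer ((S ⊓ N : Subgroup G) : Set G) ≤ H :=
    hse' _ (inf_le_left.trans hSH) hQ.isPGroup hQne
  set K := Subgroup.closure {g : G | g ∈ N ∧ (orderOf g).Coprime p} with hK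
  have hKN : K ≤ N := by
    rw [hK, Subgroup.closure_le]
    exact fun g hg => hg.1
  have hN1 : N ≤ (S ⊓ N) ⊔ K := by
    rw [← Subgroup.relIndex_eq_one, Nat.eq_one_iff_not_exists_prime_dvd]
    intro r hr hdvd
    have hle : (S ⊓ N) ⊔ K ≤ N := sup_le inf_le_right hKN
    by_cases hrp : r = p
    · subst hrp
      apply hQ.not_dvd_relIndex
      rw [← Subgroup.relIndex_mul_relIndex _ _ _ le_sup_left hle]
      exact Dvd.dvd.mul_left hdvd _
    · have : Fact r.Prime := ⟨hr⟩
      obtain ⟨R, hR⟩ := exists_isSyl r N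
      have hRK : R ≤ K := by
        intro x hx
        apply Subgroup.subset_closure
        refine ⟨hR.le hx, ?_⟩
        obtain ⟨k, hk⟩ := (IsPGroup.iff_orderOf.mp hR.isPGroup) ⟨x, hx⟩
        rw [Subgroup.orderOf_mk] at hk
        rw [hk]
        exact Nat.Coprime.pow_left _ ((Nat.coprime_primes hr (Fact.out)).mpr hrp)
      apply hR.not_dvd_relIndex
      rw [← Subgroup.relIndex_mul_relIndex _ _ _ (hRK.trans le_sup_right) hle]
      exact Dvd.dvd.mul_left hdvd _
  rw [eq_top_iff]
  intro g _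
  obtain ⟨n, hn, hng⟩ := frattini_arg hQ hNn (Subgroup.mem_top g)
  have h1 : n ∈ H ⊔ K := by
    have := hN1 hn
    exact (sup_le ((inf_le_left.trans hSH).trans le_sup_left) le_sup_right) this
  have h2 : n⁻¹ * g ∈ H ⊔ K := (le_sup_left : H ≤ H ⊔ K) (hNQ hng)
  have := mul_mem h1 h2
  simpa using this

end Cfsg.Agent.S3059
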