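import Cfsg.Statements.S3063
-- import your own Cfsg.Agent.* helpers here
import Mathlib
import Cfsg.Agent.Lib.Helper17.Syl
import Cfsg.Agent.Lib.Helper5.Basic
import Cfsg.Agent.Lib.Helper5.Card
import Cfsg.Agent.Lib.Helper18.TransferTI

set_option autoImplicit false
open Cfsg

namespace Cfsg.Agent.S3063
open Cfsg.Agent.Lib.Helper17 Cfsg.Agent.Lib.Helper5
open scoped commutatorElement

/-- A weak replacement Theorem for metabelian p-groups: let S be a finite p-group whose derived subgroup is abelian and A an abelian subgroup of S of largest possible order. Then the normal closure of A in S contains an abelian subgroup B of the same order as A that is normal in S. -/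
theorem result {S : Type*} [Group S] [Finite S] {p : ℕ} [Fact p.Prime]
    (hS : IsPGroup p S) (hmeta : IsMulCommutative ↥(commutator S))
    (A : Subgroup S) (hA : A ∈ Cfsg.maxAbelianSubgroups S) :
    ∃ B ∈ Cfsg.maxAbelianSubgroups S, B.Normal ∧ B ≤ Subgroup.normalClosure (A : Set S) := by
  classical
  set NC := Subgroup.normalClosure (A : Set S) with hNC
  set B := commutator S with hB
  have hBn : B.Normal := inferInstance
  obtain ⟨A1, ⟨hA1, hA1NC⟩, hmax⟩ := Set.exists_max_image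
    {A' : Subgroup S | A' ∈ Cfsg.maxAbelianSubgroups S ∧ A' ≤ NC}
    (fun A' => Nat.card (A' ⊓ B : Subgroup S)) (Set.toFinite _) ⟨A, hA, Subgroup.le_normalClosure⟩
  refine ⟨A1, hA1, ?_, hA1NC⟩
  rw [← Subgroup.normalizer_eq_top_iff]
  by_contra hN
  set N := Subgroup.normalizer (A1 : Set S) with hNdef
  have hNlt : N < ⊤ := lt_top_iff_ne_top.mpr hN
  have hTop : IsPGroup p (⊤ : Subgroup S) := hS.to_subgroup _
  obtain ⟨x, -, hxN, hxN'⟩ := pgroup_normalizer_grow hTop hNlt
  set A2 := A1.map (MulAut.conj x).toMonoidHom with hA2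
  have hA1c : IsMulCommutative A1 := hA1.1
  have hA2c : IsMulCommutative A2 := by
    rw [hA2]; exact Subgroup.map_isMulCommutative _ _
  have hA2N : A2 ≤ N := by
    rw [← map_conj_eq_of_mem_normalizer hxN]
    exact Subgroup.map_mono Subgroup.le_normalizer
  have hA1N2 : A1 ≤ Subgroup.normalizer (A2 : Set S) := by
    rw [hA2, normalizer_map_conj, map_conj_eq_of_mem_normalizer hxN]
    exact Subgroup.le_normalizer
  set H := A1 ⊔ A2 with hH
  set Z := A1 ⊓ A2 with hZ
  set D := H ⊓ B with hD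
  have hHZ : H ≤ Subgroup.centralizer (Z : Set S) := by
    refine sup_le ?_ ?_
    · intro a ha
      rw [Subgroup.mem_centralizer_iff]
      intro z hz
      exact setLike_mul_comm hz.1 ha
    · intro a ha
      rw [Subgroup.mem_centralizer_iff]
      intro z hz
      exact setLike_mul_comm hz.2 ha
  have hDc : IsMulCommutative D := comm_of_le inf_le_right hmeta
  have hZc : IsMulCommutative Z := comm_of_le inf_le_left hA1c
  have hZD : Z ≤ Subgroup.centralizer (D : Set S) :=
    Subgroup.le_centralizer_iff.mp ((inf_le_left : D ≤ H).trans hHZ)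
  have hstar : IsMulCommutative ↥(D ⊔ Z) := comm_sup hDc hZc hZD
  have hA2D : A2 ≤ A1 ⊔ D := by
    rintro _ ⟨a, ha, rfl⟩
    have e : (MulAut.conj x).toMonoidHom a = a * ⁅a⁻¹, x⁆ := by
      simp only [MulEquiv.coe_toMonoidHom, MulAut.conj_apply, commutatorElement_def]
      group
    rw [e]
    refine mul_mem ((le_sup_left : A1 ≤ A1 ⊔ D) ha) ((le_sup_right : D ≤ A1 ⊔ D) ⟨?_, ?_⟩)
    · have e2 : ⁅a⁻¹, x⁆ = a⁻¹ * (MulAut.conj x).toMonoidHom a := by
        simp only [MulEquiv.coe_toMonoidHom, MulAut.conj_apply, commutatorElement_def]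
        group
      rw [e2]
      exact mul_mem ((le_sup_left : A1 ≤ H) (inv_mem ha))
        ((le_sup_right : A2 ≤ H) ⟨a, ha, rfl⟩)
    · exact Subgroup.commutator_mem_commutator (Subgroup.mem_top _) (Subgroup.mem_top _)
  have hHD : H = A1 ⊔ D :=
    le_antisymm (sup_le le_sup_left hA2D) (sup_le le_sup_left inf_le_left)
  have hA1D : A1 ≤ Subgroup.normalizer (D : Set S) := by
    refine le_normalizer_inf ((le_sup_left : A1 ≤ H).trans Subgroup.le_normalizer) ?_
    rw [Subgroup.normalizer_eq_top]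
    exact le_top
  have c1 := card_sup_mul_card_inf A1 A2 hA1N2
  have c2 := card_sup_mul_card_inf A1 D hA1D
  have c3 := card_sup_mul_card_inf D Z
    (((inf_le_left : D ≤ H).trans hHZ).trans (centralizer_le_normalizer' Z))
  have hcA2 : Nat.card A2 = Nat.card A1 := card_map_conj A1 x
  have hA1D' : A1 ⊓ D = A1 ⊓ B := by
    rw [hD, ← inf_assoc, inf_of_le_left (le_sup_left : A1 ≤ H)]
  rw [← hHD, hA1D'] at c2
  rw [hcA2] at c1
  have hDZ : D ⊓ Z ≤ A1 ⊓ B := le_inf (inf_le_right.trans inf_le_left) (inf_le_left.trans inf_le_right)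
  have hle := Subgroup.card_le_of_le hDZ
  have hcard : Nat.card A1 ≤ Nat.card ↥(D ⊔ Z) := by
    have ha : 0 < Nat.card A1 := Nat.card_pos
    have ht : 0 < Nat.card ↥(D ⊓ Z) := Nat.card_pos
    have e1 : Nat.card ↥(D ⊔ Z) * Nat.card ↥(D ⊓ Z) * Nat.card A1
        = Nat.card A1 * Nat.card ↥(A1 ⊓ B) * Nat.card A1 := by
      calc Nat.card ↥(D ⊔ Z) * Nat.card ↥(D ⊓ Z) * Nat.card A1
          = (Nat.card A1 * Nat.card D) * Nat.card Z := by rw [c3]; ring
        _ = (Nat.card H * Nat.card Z) * Nat.card ↥(A1 ⊓ B) := by rw [← c2]; ring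
        _ = Nat.card A1 * Nat.card ↥(A1 ⊓ B) * Nat.card A1 := by rw [c1]; ring
    have e2 := Nat.eq_of_mul_eq_mul_right ha e1
    have e3 : Nat.card A1 * Nat.card ↥(D ⊓ Z) ≤ Nat.card ↥(D ⊔ Z) * Nat.card ↥(D ⊓ Z) := by
      rw [e2]
      exact Nat.mul_le_mul_left _ hle
    exact Nat.le_of_mul_le_mul_right e3 ht
  have hstarmax : D ⊔ Z ∈ Cfsg.maxAbelianSubgroups S :=
    ⟨hstar, fun B' hB' => (hA1.2 B' hB').trans hcard⟩
  have hNCn : NC.Normal := Subgroup.normalClosure_normal
  have hA2NC : A2 ≤ NC := by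
    rintro _ ⟨a, ha, rfl⟩
    exact hNCn.conj_mem a (hA1NC ha) x
  have hstarNC : D ⊔ Z ≤ NC :=
    sup_le (inf_le_left.trans (sup_le hA1NC hA2NC)) (inf_le_left.trans hA1NC)
  have h5 := hmax (D ⊔ Z) ⟨hstarmax, hstarNC⟩
  have h6 : A1 ⊓ B ≤ (D ⊔ Z) ⊓ B :=
    le_inf ((le_inf (inf_le_left.trans le_sup_left) inf_le_right : A1 ⊓ B ≤ D).trans le_sup_left)
      inf_le_right
  have h7 : A1 ⊓ B = (D ⊔ Z) ⊓ B := Subgroup.eq_of_le_of_card_ge h6 h5
  have h8 : D ≤ A1 := by
    have : D ≤ (D ⊔ Z) ⊓ B := le_inf le_sup_left inf_le_right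
    rw [← h7] at this
    exact this.trans inf_le_left
  apply hxN'
  apply Cfsg.Agent.Lib.Helper18.mem_normalizer_of_map_conj_le
  exact hA2D.trans (sup_le le_rfl h8)

end Cfsg.Agent.S3063
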