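import Cfsg.Statements.S3064
-- import your own Cfsg.Agent.* helpers here
import Mathlib
import Cfsg.Agent.S0035
import Cfsg.Agent.Lib.Helper18.Isolated
import Cfsg.Agent.Lib.Helper18.PPrime

set_option autoImplicit false
open Cfsg

namespace Cfsg.Agent.S3064

open Cfsg.Agent.Lib.Helper17 Cfsg.Agent.Lib.Helper18 Cfsg.Agent.Lib.Helper5

theorem stepE {G : Type*} [Group G] [Finite G] {p : ℕ} [Fact p.Prime] (x : G)
    (hb : ∀ H : Subgroup G, (Nat.card H).Coprime p → (∀ h ∈ H, x * h * x⁻¹ ∈ H) →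
      ∀ h ∈ H, x * h = h * x)
    (N : Subgroup G) [N.Normal]
    (hpel : ∀ y ∈ N, (∃ k : ℕ, y ^ p ^ k = 1) → y ∈ Subgroup.center G) :
    N ≤ Subgroup.centralizer {x} := by
  obtain ⟨P⟩ : Nonempty (Sylow p N) := inferInstance
  have hPc : ∀ y ∈ (P : Subgroup N), (y : G) ∈ Subgroup.center G := by
    intro y hy
    apply hpel y y.2
    obtain ⟨k, hk⟩ := P.2 ⟨y, hy⟩
    exact ⟨k, by simpa using congrArg (fun t : (P : Subgroup N) => ((t : N) : G)) hk⟩
  have hP : Subgroup.normalizer ((P : Subgroup N) : Set N) ≤ Subgroup.centralizer (P : Set N) := by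
    intro n _
    rw [Subgroup.mem_centralizer_iff]
    intro y hy
    apply Subtype.ext
    exact (Subgroup.mem_center_iff.1 (hPc y hy) n).symm
  have hcompl := MonoidHom.ker_transferSylow_isComplement' P hP
  have hKcop : (Nat.card (MonoidHom.transferSylow P hP).ker).Coprime p :=
    (Nat.Coprime.symm ((Nat.Prime.coprime_iff_not_dvd Fact.out).2
      (MonoidHom.not_dvd_card_ker_transferSylow P hP)))
  have hKn : (MonoidHom.transferSylow P hP).ker.Normal := inferInstance
  generalize (MonoidHom.transferSylow P hP).ker = K at hcompl hKcop hKn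
  have hO : Cfsg.pPrimeCore p G ≤ Subgroup.centralizer {x} := by
    intro h hh
    rw [Subgroup.mem_centralizer_singleton_iff]
    have hn : (Cfsg.pPrimeCore p G).Normal := inferInstance
    exact (hb _ pPrimeCore_coprime (fun h hh => hn.conj_mem h hh x) h hh).symm
  have hKO : K.map N.subtype ≤ Cfsg.pPrimeCore p G := by
    apply le_pPrimeCore_of_normal_normal N (Subgroup.map_subtype_le K)
    · rw [← Subgroup.normal_subgroupOf_iff_le_normalizer (Subgroup.map_subtype_le K)]
      have : (K.map N.subtype).subgroupOf N = K :=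
        Subgroup.comap_map_eq_self_of_injective N.subtype_injective K
      rw [this]
      exact hKn
    · rw [Subgroup.card_map_of_injective N.subtype_injective]; exact hKcop
  have htop : (⊤ : Subgroup N) ≤ (Subgroup.centralizer {x}).subgroupOf N := by
    rw [← hcompl.sup_eq_top]
    apply sup_le
    · intro k hk
      exact hO (hKO (Subgroup.mem_map_of_mem _ hk))
    · intro y hy
      exact Subgroup.center_le_centralizer _ (hPc y hy)
  intro n hn
  exact htop (Subgroup.mem_top ⟨n, hn⟩)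

theorem main {G : Type*} [Group G] [Finite G] {p : ℕ} [Fact p.Prime] (x : G)
    (hxp : ∃ k : ℕ, orderOf x = p ^ k) (hiso : Cfsg.IsIsolated x)
    (hb : ∀ H : Subgroup G, (Nat.card H).Coprime p → (∀ h ∈ H, x * h * x⁻¹ ∈ H) →
      ∀ h ∈ H, x * h = h * x)
    (hmin : ∀ H : Subgroup G, H ≠ ⊤ → x ∈ H → H ≤ Subgroup.centralizer {x}) :
    Subgroup.centralizer {x} = (⊤ : Subgroup G) := by
  by_contra hC
  obtain ⟨C, hCdef⟩ : ∃ C, C = Subgroup.centralizer ({x} : Set G) := ⟨_, rfl⟩
  obtain ⟨Z, hZdef⟩ : ∃ Z, Z = Subgroup.center G := ⟨_, rfl⟩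
  have hZn : Z.Normal := hZdef ▸ inferInstance
  have hZC : Z ≤ C := by rw [hZdef, hCdef]; exact Subgroup.center_le_centralizer _
  have hxC : x ∈ C := by rw [hCdef]; exact Subgroup.mem_centralizer_singleton_iff.2 rfl
  have hxZ : x ∉ Z := by
    intro h
    apply hC
    rw [eq_top_iff]
    intro g _
    rw [Subgroup.mem_centralizer_singleton_iff]
    rw [hZdef] at h
    exact (Subgroup.mem_center_iff.1 h g)
  have hTI : ∀ g, g ∉ C → ∀ c ∈ C, g * c * g⁻¹ ∈ C → c ∈ Z := by
    intro g hg c hc hgc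
    by_contra hcZ
    rw [hCdef] at hg hc hgc
    have hH : Subgroup.centralizer ({c} : Set G) ≠ ⊤ := by
      intro h
      apply hcZ
      rw [hZdef, Subgroup.mem_center_iff]
      intro y
      have : y ∈ Subgroup.centralizer ({c} : Set G) := h ▸ Subgroup.mem_top y
      exact (Subgroup.mem_centralizer_singleton_iff.1 this)
    have hxH : x ∈ Subgroup.centralizer ({c} : Set G) := by
      rw [Subgroup.mem_centralizer_singleton_iff]
      exact (Subgroup.mem_centralizer_singleton_iff.1 hc).symm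
    have hle := hmin _ hH hxH
    have hx' : g⁻¹ * x * g⁻¹⁻¹ ∈ Subgroup.centralizer ({c} : Set G) := by
      rw [Subgroup.mem_centralizer_singleton_iff]
      have h1 : g * c * g⁻¹ * x = x * (g * c * g⁻¹) := Subgroup.mem_centralizer_singleton_iff.1 hgc
      calc g⁻¹ * x * g⁻¹⁻¹ * c = g⁻¹ * (x * (g * c * g⁻¹)) * g := by group
        _ = g⁻¹ * (g * c * g⁻¹ * x) * g := by rw [h1]
        _ = c * (g⁻¹ * x * g⁻¹⁻¹) := by group
    have h2 := hle hx'
    have h3 : Commute x (g⁻¹ * x * g⁻¹⁻¹) := (Subgroup.mem_centralizer_singleton_iff.1 h2).symm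
    have h4 := hiso g⁻¹ h3
    apply hg
    rw [Subgroup.mem_centralizer_singleton_iff]
    calc g * x = g * (g⁻¹ * x * g⁻¹⁻¹) := by rw [h4]
      _ = x * g := by group
  obtain ⟨π, hπ⟩ : ∃ π : G →* G ⧸ Z, π = QuotientGroup.mk' Z := ⟨_, rfl⟩
  have hπs : Function.Surjective π := hπ ▸ QuotientGroup.mk'_surjective Z
  have hπ1 : ∀ g, π g = 1 ↔ g ∈ Z := by
    intro g
    rw [hπ]
    exact QuotientGroup.eq_one_iff g
  obtain ⟨Cb, hCb⟩ : ∃ Cb, Cb = C.map π := ⟨_, rfl⟩
  have hmemCb : ∀ g : G, π g ∈ Cb ↔ g ∈ C := by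
    intro g
    rw [hCb]
    constructor
    · rintro ⟨c, hc, hcg⟩
      have h1 : c⁻¹ * g ∈ Z := by
        rw [← hπ1, map_mul, map_inv, hcg, inv_mul_cancel]
      have : g = c * (c⁻¹ * g) := by group
      rw [this]; exact C.mul_mem hc (hZC h1)
    · exact fun h => Subgroup.mem_map_of_mem _ h
  have hFrob : Cfsg.IsFrobeniusComplement Cb := by
    refine ⟨?_, ?_, ?_⟩
    · intro h
      have : π x ∈ Cb := (hmemCb x).2 hxC
      rw [h, Subgroup.mem_bot] at this
      exact hxZ ((hπ1 x).1 this)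
    · intro h
      apply hC
      rw [eq_top_iff, ← hCdef]; intro g _
      exact (hmemCb g).1 (h ▸ Subgroup.mem_top _)
    · intro gb hgb
      obtain ⟨g, rfl⟩ := hπs gb
      have hg : g ∉ C := fun h => hgb ((hmemCb g).2 h)
      rw [eq_bot_iff]
      intro y hy
      obtain ⟨hy1, hy2⟩ := Subgroup.mem_inf.1 hy
      obtain ⟨c2b, hc2b, rfl⟩ := (Subgroup.mem_smul_pointwise_iff_exists _ _ _).1 hy2
      obtain ⟨c2, rfl⟩ := hπs c2b
      have e : MulAut.conj (π g) • π c2 = π (g * c2 * g⁻¹) := by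
        simp [MulAut.smul_def, MulAut.conj_apply]
      rw [e] at hy1 ⊢
      have hc2Z := hTI g hg c2 ((hmemCb c2).1 hc2b) ((hmemCb _).1 hy1)
      rw [Subgroup.mem_bot, hπ1]
      exact hZn.conj_mem c2 hc2Z g
  obtain ⟨Nb, -, hNbn, hNbc⟩ := Cfsg.Agent.S0035.result Cb hFrob
  have hcardNb : (Nat.card Nb).Coprime p := by
    have h1 : Cb.index = Nat.card Nb := hNbc.index_eq_card
    rw [← h1]
    have h2 : Cb.index ∣ C.index := hCb ▸ Subgroup.index_map_dvd C hπs
    obtain ⟨P, hP⟩ := (isPGroup_zpowers hxp).exists_le_sylow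
    have hPC : (P : Subgroup G) ≤ C :=
      hCdef ▸ IsIsolated.le_centralizer hiso P.2 (hP (Subgroup.mem_zpowers x))
    have h3 : C.index ∣ (P : Subgroup G).index := Subgroup.index_dvd_of_le hPC
    have h4 : ¬ p ∣ Cb.index := fun h => P.not_dvd_index (h.trans (h2.trans h3))
    exact (Nat.Coprime.symm ((Nat.Prime.coprime_iff_not_dvd Fact.out).2 h4))
  have hNn : (Nb.comap π).Normal := hNbn.comap π
  have hNC : Nb.comap π ≤ Subgroup.centralizer {x} := by
    apply stepE x hb
    intro y hy hyk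
    obtain ⟨k, hk⟩ := hyk
    rw [← hZdef, ← hπ1]
    have h1 : orderOf (π y) ∣ p ^ k := orderOf_dvd_of_pow_eq_one (by rw [← map_pow, hk, map_one])
    have h2 : orderOf (π y) ∣ Nat.card Nb := Subgroup.orderOf_dvd_natCard Nb hy
    have h3 : orderOf (π y) = 1 :=
      Nat.eq_one_of_dvd_coprimes (Nat.Coprime.pow_right k hcardNb) h2 h1
    exact orderOf_eq_one_iff.1 h3
  apply hFrob.2.1
  rw [← hNbc.sup_eq_top]
  symm
  apply sup_eq_right.2
  intro nb hnb
  obtain ⟨n, rfl⟩ := hπs nb
  exact (hmemCb n).2 (hCdef ▸ hNC hnb)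

/-- Let S be a Sylow p-subgroup of the finite group G and x an element of S such that (i) x is the only G-conjugate of x lying in S, and (ii) x centralizes every subgroup of order prime to p that it normalizes. Then x lies in the centre of G. -/
theorem result {G : Type*} [Group G] [Finite G] {p : ℕ} [Fact p.Prime]
    (S : Sylow p G) (x : G) (hx : x ∈ S)
    (hU : ∀ g : G, g⁻¹ * x * g ∈ S → g⁻¹ * x * g = x)
    (hb : ∀ H : Subgroup G, (Nat.card H).Coprime p → (∀ h ∈ H, x * h * x⁻¹ ∈ H) → ∀ h ∈ H, x * h = h * x) :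
    x ∈ Subgroup.center G := by
  have hxp : ∃ k : ℕ, orderOf x = p ^ k := by
    obtain ⟨k, hk⟩ := (IsPGroup.iff_orderOf.1 S.2) ⟨x, hx⟩
    exact ⟨k, by rwa [Subgroup.orderOf_mk] at hk⟩
  have hiso : Cfsg.IsIsolated x := by
    intro g hcomm
    have hp1 : IsPGroup p (Subgroup.zpowers x) := isPGroup_zpowers hxp
    have hp2 : IsPGroup p (Subgroup.zpowers (g * x * g⁻¹)) := by
      apply isPGroup_zpowers
      have := (MulAut.conj g).orderOf_eq x
      rw [MulAut.conj_apply] at this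
      rw [this]; exact hxp
    have hnorm : Subgroup.zpowers x ≤
        Subgroup.normalizer (Subgroup.zpowers (g * x * g⁻¹) : Set G) := by
      refine le_trans ?_ (centralizer_le_normalizer' _)
      rw [Subgroup.zpowers_le, Subgroup.mem_centralizer_iff]
      intro y hy
      obtain ⟨k, rfl⟩ := Subgroup.mem_zpowers_iff.1 hy
      exact (hcomm.zpow_right k).eq.symm
    have hT : IsPGroup p (Subgroup.zpowers x ⊔ Subgroup.zpowers (g * x * g⁻¹) : Subgroup G) :=
      IsPGroup.to_sup_of_normal_right' hp1 hp2 hnorm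
    obtain ⟨m, -, hm⟩ := (isSyl_top S).exists_conj_ge le_top hT
    have h1 : x ∈ (S : Subgroup G).map (MulAut.conj m).toMonoidHom :=
      hm ((le_sup_left : Subgroup.zpowers x ≤ _) (Subgroup.mem_zpowers x))
    have h2 : g * x * g⁻¹ ∈ (S : Subgroup G).map (MulAut.conj m).toMonoidHom :=
      hm ((le_sup_right : Subgroup.zpowers (g * x * g⁻¹) ≤ _) (Subgroup.mem_zpowers _))
    obtain ⟨s1, hs1, e1⟩ := h1
    obtain ⟨s2, hs2, e2⟩ := h2
    have e1' : m * s1 * m⁻¹ = x := e1
    have e2' : m * s2 * m⁻¹ = g * x * g⁻¹ := e2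
    have f1 : s1 = m⁻¹ * x * m := by rw [← e1']; group
    have f2 : s2 = (g⁻¹ * m)⁻¹ * x * (g⁻¹ * m) := by
      have : s2 = m⁻¹ * (m * s2 * m⁻¹) * m := by group
      rw [this, e2']; group
    have g1 := hU m (f1 ▸ hs1)
    have g2 := hU (g⁻¹ * m) (f2 ▸ hs2)
    rw [← e2', f2, g2]
    calc m * x * m⁻¹ = m * (m⁻¹ * x * m) * m⁻¹ := by rw [g1]
      _ = x := by group
  rw [Subgroup.mem_center_iff]
  by_contra hcon
  have htop : x ∈ (⊤ : Subgroup G) ∧ ¬ (⊤ : Subgroup G) ≤ Subgroup.centralizer {x} := by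
    refine ⟨Subgroup.mem_top x, ?_⟩
    intro h
    apply hcon
    intro g
    exact Subgroup.mem_centralizer_singleton_iff.1 (h (Subgroup.mem_top g))
  obtain ⟨H, -, hHmin⟩ := Finite.exists_le_minimal
    (p := fun H : Subgroup G => x ∈ H ∧ ¬ H ≤ Subgroup.centralizer {x}) htop
  obtain ⟨hxH, hHC⟩ := hHmin.prop
  apply hHC
  have hmain := main (G := H) (p := p) ⟨x, hxH⟩ (by rw [Subgroup.orderOf_mk]; exact hxp) ?_ ?_ ?_
  · intro h hh
    have : (⟨h, hh⟩ : H) ∈ Subgroup.centralizer {(⟨x, hxH⟩ : H)} := hmain ▸ Subgroup.mem_top _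
    rw [Subgroup.mem_centralizer_singleton_iff] at this ⊢
    exact congrArg Subtype.val this
  · intro g hg
    apply Subtype.ext
    exact hiso g (congrArg Subtype.val hg.eq)
  · intro K hK hinv k hk
    apply Subtype.ext
    apply hb (K.map H.subtype)
    · rw [Subgroup.card_map_of_injective H.subtype_injective]; exact hK
    · rintro _ ⟨k', hk', rfl⟩
      exact ⟨_, hinv k' hk', rfl⟩
    · exact ⟨k, hk, rfl⟩
  · intro K hK hxK
    have hle : K.map H.subtype ≤ H := Subgroup.map_subtype_le K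
    have hnot : ¬ (x ∈ K.map H.subtype ∧ ¬ K.map H.subtype ≤ Subgroup.centralizer {x}) := by
      intro hp'
      have := hHmin.le_of_le hp' hle
      apply hK
      rw [eq_top_iff]
      intro u _
      obtain ⟨c, hc, hcu⟩ := this u.2
      have : c = u := Subtype.ext hcu
      exact this ▸ hc
    have hxK' : x ∈ K.map H.subtype := ⟨_, hxK, rfl⟩
    have hKC : K.map H.subtype ≤ Subgroup.centralizer {x} := by
      by_contra h
      exact hnot ⟨hxK', h⟩
    intro k hk
    have := hKC ⟨k, hk, rfl⟩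
    rw [Subgroup.mem_centralizer_singleton_iff] at this ⊢
    exact Subtype.ext this

end Cfsg.Agent.S3064
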