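import Cfsg.Statements.S3069
import Mathlib
import Cfsg.Agent.S1991
-- import your own Cfsg.Agent.* helpers here

set_option autoImplicit false
open Cfsg

namespace Cfsg.Agent.S3069

/-- Let p ≥ 7 be a prime and S a nontrivial Sylow p-subgroup of the finite group G. If N_G(S)/C_G(S) is a p-group (every element of N_G(S) of order prime to p centralizes S), then O^p(G) < G, i.e. G has a nontrivial p-factor group. -/
theorem result {G : Type*} [Group G] [Finite G] {p : ℕ} [Fact p.Prime]
    (hp : 7 ≤ p) (S : Sylow p G) (hS : (S : Subgroup G) ≠ ⊥)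
    (hN : ∀ g ∈ Subgroup.normalizer ((S : Subgroup G) : Set G), (orderOf g).Coprime p →
      g ∈ Subgroup.centralizer ((S : Subgroup G) : Set G)) :
    Cfsg.pResidual p G ≠ ⊤ := by
  obtain ⟨N, hNn, hNi⟩ := S1991.result (by omega : 5 ≤ p) S hS hN
  intro htop
  have hle : Cfsg.pResidual p G ≤ N := by
    unfold Cfsg.pResidual
    rw [Subgroup.closure_le]
    intro g hg
    have hg' : Nat.Coprime (orderOf g) p := hg
    have h1 : ((g : G ⧸ N)) ^ p = 1 := by
      have := pow_card_eq_one' (G := G ⧸ N) (x := (g : G ⧸ N))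
      rwa [← Subgroup.index_eq_card, hNi] at this
    have h2 : ((g : G ⧸ N)) ^ orderOf g = 1 := by
      rw [← QuotientGroup.mk_pow, pow_orderOf_eq_one]; rfl
    have h3 : orderOf (g : G ⧸ N) ∣ Nat.gcd (orderOf g) p :=
      Nat.dvd_gcd (orderOf_dvd_of_pow_eq_one h2) (orderOf_dvd_of_pow_eq_one h1)
    rw [hg', Nat.dvd_one, orderOf_eq_one_iff] at h3
    exact (QuotientGroup.eq_one_iff g).1 h3
  rw [htop, top_le_iff] at hle
  rw [hle, Subgroup.index_top] at hNi
  exact (Fact.out : p.Prime).one_lt.ne hNi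

end Cfsg.Agent.S3069
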