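import Cfsg.Statements.S3075
-- import your own Cfsg.Agent.* helpers here
import Mathlib
import Cfsg.Agent.Lib.Helper18.CD

set_option autoImplicit false
open Cfsg

namespace Cfsg.Agent.S3075

/-- Let p be an odd prime and N a finite group with a normal elementary abelian subgroup A of order p² that is its own centralizer in N, such that N/A is isomorphic to SL₂(p) (over any field F with p elements). Then N splits over A: some subgroup U of N satisfies A ∩ U = 1 and AU = N. -/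
theorem result {N : Type*} [Group N] [Finite N] {p : ℕ} [Fact p.Prime] (hp : p ≠ 2)
    (A : Subgroup N) [A.Normal] (hAcomm : IsMulCommutative A) (hAcard : Nat.card A = p ^ 2) (hAexp : Monoid.exponent ↥A = p)
    (hAself : Subgroup.centralizer (A : Set N) = A)
    {F : Type*} [Field F] [Fintype F] (hF : Fintype.card F = p) (e : N ⧸ A ≃* Matrix.SpecialLinearGroup (Fin 2) F) :
    ∃ U : Subgroup N, A ⊓ U = ⊥ ∧ A ⊔ U = ⊤ := by
  classical
  have hpp : p.Prime := Fact.out
  have hodd : Odd p := hpp.odd_of_ne_two hp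
  obtain ⟨k, hk⟩ := hodd
  have hAc : ∀ a ∈ A, ∀ b ∈ A, a * b = b * a := by
    intro a ha b hb
    exact congrArg Subtype.val (hAcomm.is_comm.comm ⟨a, ha⟩ ⟨b, hb⟩)
  have hAp : ∀ a ∈ A, a ^ p = 1 := by
    intro a ha
    have := Monoid.pow_exponent_eq_one (⟨a, ha⟩ : A)
    rw [hAexp] at this
    exact congrArg Subtype.val this
  have hsq : ∀ a ∈ A, a * a = 1 → a = 1 := by
    intro a ha h
    have h1 : a ^ (2 * k) = 1 := by rw [pow_mul, pow_two, h, one_pow]
    have h2 := hAp a ha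
    rw [hk, pow_succ, h1, one_mul] at h2
    exact h2
  -- the central involution of SL₂
  let Z : Matrix.SpecialLinearGroup (Fin 2) F := ⟨!![-1, 0; 0, -1], by simp [Matrix.det_fin_two]⟩
  have hZv : (Z : Matrix (Fin 2) (Fin 2) F) = !![-1, 0; 0, -1] := rfl
  have hZc : ∀ M : Matrix.SpecialLinearGroup (Fin 2) F, Z * M = M * Z := by
    intro M
    apply Matrix.SpecialLinearGroup.ext
    intro i j
    rw [Matrix.SpecialLinearGroup.coe_mul, Matrix.SpecialLinearGroup.coe_mul, hZv]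
    fin_cases i <;> fin_cases j <;> simp [Matrix.mul_apply, Fin.sum_univ_two]
  have hZ2 : Z * Z = 1 := by
    apply Matrix.SpecialLinearGroup.ext
    intro i j
    rw [Matrix.SpecialLinearGroup.coe_mul, hZv]
    fin_cases i <;> fin_cases j <;> simp [Matrix.mul_apply, Fin.sum_univ_two]
  have hchar : ringChar F ≠ 2 := by
    intro h
    have := FiniteField.even_card_iff_char_two.mp h
    rw [hF, hk] at this
    omega
  have hZ1 : Z ≠ 1 := by
    intro h
    have h1 : (Z : Matrix (Fin 2) (Fin 2) F) 0 0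
        = (1 : Matrix.SpecialLinearGroup (Fin 2) F).1 0 0 := by rw [h]
    rw [hZv] at h1
    exact Ring.neg_one_ne_one_of_char_ne_two hchar (by simpa using h1)
  have hnc : ¬ ∀ a b : N ⧸ A, a * b = b * a := by
    intro h
    let u : Matrix.SpecialLinearGroup (Fin 2) F := ⟨!![1, 1; 0, 1], by simp [Matrix.det_fin_two]⟩
    let l : Matrix.SpecialLinearGroup (Fin 2) F := ⟨!![1, 0; 1, 1], by simp [Matrix.det_fin_two]⟩
    have huv : (u : Matrix (Fin 2) (Fin 2) F) = !![1, 1; 0, 1] := rfl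
    have hlv : (l : Matrix (Fin 2) (Fin 2) F) = !![1, 0; 1, 1] := rfl
    have h1 := h (e.symm u) (e.symm l)
    rw [← map_mul, ← map_mul] at h1
    have h2 := e.symm.injective h1
    have h3 : ((u * l : Matrix.SpecialLinearGroup (Fin 2) F) : Matrix (Fin 2) (Fin 2) F) 0 0
        = ((l * u : Matrix.SpecialLinearGroup (Fin 2) F) : Matrix (Fin 2) (Fin 2) F) 0 0 := by rw [h2]
    rw [Matrix.SpecialLinearGroup.coe_mul, Matrix.SpecialLinearGroup.coe_mul, huv, hlv] at h3
    simp [Matrix.mul_apply, Fin.sum_univ_two] at h3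
  set zb : N ⧸ A := e.symm Z with hzb
  have hzbc : ∀ y : N ⧸ A, zb * y = y * zb := by
    intro y
    apply e.injective
    rw [map_mul, map_mul, hzb, e.apply_symm_apply]
    exact hZc _
  have hzb2 : zb * zb = 1 := by
    rw [hzb, ← map_mul, hZ2, map_one]
  have hzb1 : zb ≠ 1 := by
    intro h
    apply hZ1
    have := congrArg e h
    rwa [hzb, e.apply_symm_apply, map_one] at this
  obtain ⟨t0, ht0⟩ := QuotientGroup.mk_surjective zb
  set t := t0 ^ p with ht
  have htb : (QuotientGroup.mk t : N ⧸ A) = zb := by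
    rw [ht, QuotientGroup.mk_pow, ht0, hk, pow_succ, pow_mul, pow_two, hzb2, one_pow, one_mul]
  have ht2 : t * t = 1 := by
    have h1 : t0 * t0 ∈ A := by
      rw [← QuotientGroup.eq_one_iff, QuotientGroup.mk_mul, ht0, hzb2]
    have h2 := hAp _ h1
    rw [ht, ← pow_add, ← two_mul, mul_comm, pow_mul', pow_two]
    exact h2
  have htinv : t⁻¹ = t := inv_eq_of_mul_eq_one_left ht2
  have htA : t ∉ A := by
    intro h
    apply hzb1
    rw [← htb]
    exact (QuotientGroup.eq_one_iff t).mpr h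
  have hAn : ∀ a ∈ A, ∀ n : N, n * a * n⁻¹ ∈ A := fun a ha n =>
    Subgroup.Normal.conj_mem inferInstance a ha n
  have hcomA : ∀ n : N, t⁻¹ * n⁻¹ * t * n ∈ A := by
    intro n
    rw [← QuotientGroup.eq_one_iff]
    simp only [QuotientGroup.mk_mul, QuotientGroup.mk_inv, htb]
    rw [mul_assoc (zb⁻¹ * _), hzbc]
    group
  have hequiv : ∀ a ∈ A, ∀ n : N, t * (n * a * n⁻¹) * t⁻¹ = n * (t * a * t⁻¹) * n⁻¹ := by
    intro a ha n
    set c := t⁻¹ * n⁻¹ * t * n with hc
    have hcA : c ∈ A := hcomA n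
    have h1 : c * a * c⁻¹ = a := by rw [hAc c hcA a ha, mul_inv_cancel_right]
    calc t * (n * a * n⁻¹) * t⁻¹ = n * (t * (c * a * c⁻¹) * t⁻¹) * n⁻¹ := by rw [hc]; group
      _ = n * (t * a * t⁻¹) * n⁻¹ := by rw [h1]
  have hcommute_of_zpowers : ∀ c : N, (∀ n : N, n * c * n⁻¹ ∈ Subgroup.zpowers c) →
      ∀ n m : N, (n * m * n⁻¹ * m⁻¹) * c = c * (n * m * n⁻¹ * m⁻¹) := by
    intro c hc n m
    obtain ⟨i, hi⟩ := Subgroup.mem_zpowers_iff.mp (hc n⁻¹)
    obtain ⟨j, hj⟩ := Subgroup.mem_zpowers_iff.mp (hc m⁻¹)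
    rw [inv_inv] at hi hj
    have h1 : n⁻¹ * (m⁻¹ * c * m) * n = m⁻¹ * (n⁻¹ * c * n) * m := by
      rw [← hi, ← hj]
      have e1 : n⁻¹ * c ^ j * n = (n⁻¹ * c * n) ^ j := by
        have := conj_zpow (a := n⁻¹) (b := c) (i := j)
        rw [inv_inv] at this
        exact this.symm
      have e2 : m⁻¹ * c ^ i * m = (m⁻¹ * c * m) ^ i := by
        have := conj_zpow (a := m⁻¹) (b := c) (i := i)
        rw [inv_inv] at this
        exact this.symm
      rw [e1, e2, ← hi, ← hj, ← zpow_mul, ← zpow_mul, mul_comm]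
    calc (n * m * n⁻¹ * m⁻¹) * c = n * m * (n⁻¹ * (m⁻¹ * c * m) * n) * n⁻¹ * m⁻¹ := by group
      _ = n * m * (m⁻¹ * (n⁻¹ * c * n) * m) * n⁻¹ * m⁻¹ := by rw [h1]
      _ = c * (n * m * n⁻¹ * m⁻¹) := by group
  let A1 : Subgroup N := A ⊓ Subgroup.centralizer ({t} : Set N)
  have hmemA1 : ∀ a : N, a ∈ A1 ↔ a ∈ A ∧ t * a * t⁻¹ = a := by
    intro a
    show a ∈ A ∧ a ∈ Subgroup.centralizer ({t} : Set N) ↔ _
    rw [Subgroup.mem_centralizer_singleton_iff]
    constructor
    · rintro ⟨h1, h2⟩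
      exact ⟨h1, by rw [← h2, mul_inv_cancel_right]⟩
    · rintro ⟨h1, h2⟩
      refine ⟨h1, ?_⟩
      calc a * t = (t * a * t⁻¹) * t := by rw [h2]
        _ = t * a := by group
  let A2 : Subgroup N :=
    { carrier := {a | a ∈ A ∧ t * a * t⁻¹ = a⁻¹}
      one_mem' := ⟨one_mem _, by simp⟩
      mul_mem' := by
        rintro a b ⟨ha, ha'⟩ ⟨hb, hb'⟩
        refine ⟨mul_mem ha hb, ?_⟩
        calc t * (a * b) * t⁻¹ = (t * a * t⁻¹) * (t * b * t⁻¹) := by group
          _ = a⁻¹ * b⁻¹ := by rw [ha', hb']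
          _ = (a * b)⁻¹ := by rw [hAc a ha b hb, mul_inv_rev]
      inv_mem' := by
        rintro a ⟨ha, ha'⟩
        refine ⟨inv_mem ha, ?_⟩
        calc t * a⁻¹ * t⁻¹ = (t * a * t⁻¹)⁻¹ := by group
          _ = a⁻¹⁻¹ := by rw [ha'] }
  have hA1bot : A1 = ⊥ := by
    by_contra hne
    obtain ⟨⟨a1, ha1⟩, ha1ne'⟩ := Subgroup.ne_bot_iff_exists_ne_one.mp hne
    have ha1ne : a1 ≠ 1 := fun h => ha1ne' (Subtype.ext h)
    obtain ⟨ha1A, ha1t⟩ := (hmemA1 a1).mp ha1
    -- an element of A not commuting with t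
    obtain ⟨a, haA, hat⟩ : ∃ a ∈ A, t * a * t⁻¹ ≠ a := by
      by_contra hcon
      push Not at hcon
      apply htA
      rw [← hAself, Subgroup.mem_centralizer_iff]
      intro a ha
      have := hcon a ha
      calc a * t = (t * a * t⁻¹) * t := by rw [this]
        _ = t * a := by group
    set a2 := a * (t * a * t⁻¹)⁻¹ with ha2
    have htaA : t * a * t⁻¹ ∈ A := hAn a haA t
    have ha2A : a2 ∈ A := mul_mem haA (inv_mem htaA)
    have ha2mem : a2 ∈ A2 := by
      refine ⟨ha2A, ?_⟩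
      calc t * a2 * t⁻¹ = (t * a * t⁻¹) * ((t * t) * a * (t * t)⁻¹)⁻¹ := by rw [ha2]; group
        _ = (t * a * t⁻¹) * a⁻¹ := by rw [ht2]; group
        _ = a2⁻¹ := by rw [ha2]; group
    have ha2ne : a2 ≠ 1 := by
      intro h
      apply hat
      rw [ha2, mul_inv_eq_one] at h
      exact h.symm
    have hord : ∀ c ∈ A, c ≠ 1 → Nat.card (Subgroup.zpowers c) = p := by
      intro c hc hc1
      rw [Nat.card_zpowers]
      exact orderOf_eq_prime (hAp c hc) hc1
    have hcardp : ∀ B : Subgroup N, B ≤ A → B ≠ ⊥ → B ≠ A → Nat.card B = p := by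
      intro B hBA hB1 hB2
      have h1 : Nat.card B ∣ p ^ 2 := hAcard ▸ Subgroup.card_dvd_of_le hBA
      obtain ⟨j, hj, hj'⟩ := (Nat.dvd_prime_pow hpp).mp h1
      interval_cases j
      · exfalso
        apply hB1
        rw [pow_zero] at hj'
        exact Subgroup.card_eq_one.mp hj'
      · rw [hj', pow_one]
      · exfalso
        apply hB2
        exact Subgroup.eq_of_le_of_card_ge hBA (by rw [hj', hAcard])
    have hA1A : A1 ≠ A := by
      intro h
      have : a ∈ A1 := by rw [h]; exact haA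
      exact hat ((hmemA1 a).mp this).2
    have hA2le : A2 ≤ A := fun x hx => hx.1
    have hA2bot : A2 ≠ ⊥ := by
      intro h
      have : a2 ∈ (⊥ : Subgroup N) := h ▸ ha2mem
      exact ha2ne (Subgroup.mem_bot.mp this)
    have hA2A : A2 ≠ A := by
      intro h
      have h1 : a1 ∈ A2 := by rw [h]; exact ha1A
      have h2 : a1 = a1⁻¹ := by rw [← h1.2, ha1t]
      apply ha1ne
      apply hsq a1 ha1A
      calc a1 * a1 = a1 * a1⁻¹ := by rw [← h2]
        _ = 1 := mul_inv_cancel a1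
    have hz1 : Subgroup.zpowers a1 = A1 :=
      Subgroup.eq_of_le_of_card_ge (Subgroup.zpowers_le.mpr ha1)
        (by rw [hord a1 ha1A ha1ne, hcardp A1 inf_le_left hne hA1A])
    have hz2 : Subgroup.zpowers a2 = A2 :=
      Subgroup.eq_of_le_of_card_ge (Subgroup.zpowers_le.mpr ha2mem)
        (by rw [hord a2 ha2A ha2ne, hcardp A2 hA2le hA2bot hA2A])
    have hinv1 : ∀ n : N, n * a1 * n⁻¹ ∈ Subgroup.zpowers a1 := by
      intro n
      rw [hz1, hmemA1]
      exact ⟨hAn a1 ha1A n, by rw [hequiv a1 ha1A n, ha1t]⟩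
    have hinv2 : ∀ n : N, n * a2 * n⁻¹ ∈ Subgroup.zpowers a2 := by
      intro n
      rw [hz2]
      refine ⟨hAn a2 ha2A n, ?_⟩
      rw [hequiv a2 ha2A n, ha2mem.2]; group
    have hinf : A1 ⊓ A2 = ⊥ := by
      rw [eq_bot_iff]
      rintro x ⟨hx1, hx2⟩
      have h1 := ((hmemA1 x).mp hx1).2
      have h2 : x = x⁻¹ := by rw [← hx2.2, h1]
      rw [Subgroup.mem_bot]
      apply hsq x hx2.1
      calc x * x = x * x⁻¹ := by rw [← h2]
        _ = 1 := mul_inv_cancel x
    have hsup : A1 ⊔ A2 = A := by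
      apply Subgroup.eq_of_le_of_card_ge (sup_le inf_le_left hA2le)
      have := Lib.Helper18.card_mul_card_le A1 A2
      rw [hinf, Subgroup.card_bot, mul_one, hcardp A1 inf_le_left hne hA1A,
        hcardp A2 hA2le hA2bot hA2A] at this
      rw [hAcard, pow_two]; exact this
    apply hnc
    intro x y
    obtain ⟨n, rfl⟩ := QuotientGroup.mk_surjective x
    obtain ⟨m, rfl⟩ := QuotientGroup.mk_surjective y
    have hw : n * m * n⁻¹ * m⁻¹ ∈ A := by
      rw [← hAself]
      have h1 : A1 ⊔ A2 ≤ Subgroup.centralizer ({n * m * n⁻¹ * m⁻¹} : Set N) := by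
        rw [← hz1, ← hz2]
        apply sup_le
        · rw [Subgroup.zpowers_le, Subgroup.mem_centralizer_singleton_iff]
          exact (hcommute_of_zpowers a1 hinv1 n m).symm
        · rw [Subgroup.zpowers_le, Subgroup.mem_centralizer_singleton_iff]
          exact (hcommute_of_zpowers a2 hinv2 n m).symm
      rw [hsup] at h1
      rw [Subgroup.mem_centralizer_iff]
      intro b hb
      exact Subgroup.mem_centralizer_singleton_iff.mp (h1 hb)
    have h2 := (QuotientGroup.eq_one_iff _).mpr hw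
    simp only [QuotientGroup.mk_mul, QuotientGroup.mk_inv] at h2
    rw [mul_inv_eq_one, mul_inv_eq_iff_eq_mul] at h2
    exact h2
  have hinvA : ∀ a ∈ A, t * a * t⁻¹ = a⁻¹ := by
    intro a ha
    have htaA : t * a * t⁻¹ ∈ A := hAn a ha t
    have h1 : a * (t * a * t⁻¹) ∈ A1 := by
      rw [hmemA1]
      refine ⟨mul_mem ha htaA, ?_⟩
      calc t * (a * (t * a * t⁻¹)) * t⁻¹ = (t * a * t⁻¹) * ((t * t) * a * (t * t)⁻¹) := by group
        _ = (t * a * t⁻¹) * a := by rw [ht2]; group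
        _ = a * (t * a * t⁻¹) := hAc _ htaA a ha
    rw [hA1bot, Subgroup.mem_bot] at h1
    exact (eq_inv_of_mul_eq_one_right h1)
  refine ⟨Subgroup.centralizer ({t} : Set N), hA1bot, ?_⟩
  rw [eq_top_iff]
  intro n _
  set c := n * t * n⁻¹ * t⁻¹ with hc
  have hcA : c ∈ A := by
    have := hcomA n⁻¹
    rw [inv_inv] at this
    have h2 := hAn _ this t
    have e1 : t * (t⁻¹ * n * t * n⁻¹) * t⁻¹ = c := by rw [hc]; group
    rwa [e1] at h2
  set b := c ^ (k + 1) with hb
  have hbA : b ∈ A := A.pow_mem hcA _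
  have hb2 : b * b = c := by
    rw [hb, ← pow_add]
    have : k + 1 + (k + 1) = p + 1 := by omega
    rw [this, pow_succ, hAp c hcA, one_mul]
  have hbt : b * t * b⁻¹ = b * b * t := by
    have h1 := hinvA b⁻¹ (inv_mem hbA)
    rw [inv_inv] at h1
    calc b * t * b⁻¹ = b * (t * b⁻¹ * t⁻¹) * t := by group
      _ = b * b * t := by rw [h1]
  have hU : b⁻¹ * n ∈ Subgroup.centralizer ({t} : Set N) := by
    rw [Subgroup.mem_centralizer_singleton_iff]
    have h1 : n * t * n⁻¹ = b * t * b⁻¹ := by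
      rw [hbt, hb2, hc]; group
    calc b⁻¹ * n * t = b⁻¹ * (n * t * n⁻¹) * n := by group
      _ = b⁻¹ * (b * t * b⁻¹) * n := by rw [h1]
      _ = t * (b⁻¹ * n) := by group
  have e2 : n = b * (b⁻¹ * n) := by group
  rw [e2]
  exact mul_mem ((le_sup_left : A ≤ _) hbA) ((le_sup_right : Subgroup.centralizer ({t} : Set N) ≤ _) hU)

end Cfsg.Agent.S3075
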