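import Cfsg.Statements.S3076
import Mathlib
import Cfsg.Agent.Lib.Helper10.PCons
import Cfsg.Agent.Lib.Helper17.Core
import Cfsg.Agent.Lib.Helper5.SylowMore

set_option autoImplicit false
open Cfsg

namespace Cfsg.Agent.S3076

open Cfsg.Agent.Lib.Helper10 Cfsg.Agent.Lib.Helper17 in
theorem pow_mem_of_mem_comap {X : Type*} [Group X] [Finite X] {p : ℕ} [Fact p.Prime]
    {A : Subgroup X} [A.Normal] {x : X}
    (hx : x ∈ (Cfsg.pCore p (X ⧸ A)).comap (QuotientGroup.mk' A)) : ∃ k : ℕ, x ^ p ^ k ∈ A := by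
  have hx' : QuotientGroup.mk' A x ∈ Cfsg.pCore p (X ⧸ A) := hx
  obtain ⟨k, hk⟩ := (pCore_isPGroup (G := X ⧸ A) (p := p)) ⟨_, hx'⟩
  refine ⟨k, ?_⟩
  have h2 := congrArg Subtype.val hk
  rw [Subgroup.coe_pow, Subgroup.coe_one] at h2
  change (QuotientGroup.mk' A x) ^ p ^ k = 1 at h2
  rw [← map_pow, QuotientGroup.mk'_apply, QuotientGroup.eq_one_iff] at h2
  exact h2

open Cfsg.Agent.Lib.Helper10 Cfsg.Agent.Lib.Helper17 in
theorem le_comap_of_pow_mem {X : Type*} [Group X] [Finite X] {p : ℕ} [Fact p.Prime]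
    {A M : Subgroup X} [A.Normal] [hM : M.Normal] (h : ∀ x ∈ M, ∃ k : ℕ, x ^ p ^ k ∈ A) :
    M ≤ (Cfsg.pCore p (X ⧸ A)).comap (QuotientGroup.mk' A) := by
  rw [← Subgroup.map_le_iff_le_comap]
  apply le_pCore (hM.map _ (QuotientGroup.mk'_surjective A))
  rintro ⟨y, hy⟩
  obtain ⟨x, hx, rfl⟩ := hy
  obtain ⟨k, hk⟩ := h x hx
  refine ⟨k, ?_⟩
  apply Subtype.ext
  rw [Subgroup.coe_pow, Subgroup.coe_one]
  change (QuotientGroup.mk' A x) ^ p ^ k = 1
  rw [← map_pow, QuotientGroup.mk'_apply, QuotientGroup.eq_one_iff]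
  exact hk

theorem mem_of_pow_mem {X : Type*} [Group X] [Finite X] {p : ℕ} [hp : Fact p.Prime]
    {H N : Subgroup X} [H.Normal] (hi : ¬ p ∣ H.relIndex N) {x : X} (hx : x ∈ N) {k : ℕ}
    (hk : x ^ p ^ k ∈ H) : x ∈ H := by
  have h1 : (⟨x, hx⟩ : N) ^ (H.subgroupOf N).index ∈ H.subgroupOf N :=
    Subgroup.pow_index_mem _ _
  rw [Subgroup.mem_subgroupOf] at h1
  have h1' : x ^ H.relIndex N ∈ H := by simpa [Subgroup.relIndex] using h1
  rw [← QuotientGroup.eq_one_iff] at h1' hk ⊢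
  rw [QuotientGroup.mk_pow] at h1' hk
  have h2 := pow_gcd_eq_one.mpr ⟨h1', hk⟩
  have h3 : Nat.gcd (H.relIndex N) (p ^ k) = 1 :=
    Nat.Coprime.pow_right _ (((Nat.Prime.coprime_iff_not_dvd hp.out).mpr hi).symm)
  rwa [h3, pow_one] at h2

open Cfsg.Agent.Lib.Helper10 in
theorem central_sylow {X : Type*} [Group X] [Finite X] {p : ℕ} [hp : Fact p.Prime]
    (C : Subgroup X) [hCn : C.Normal] (Z : Subgroup X)
    (hZp : IsPGroup p Z) (hidx : ¬ p ∣ Z.relIndex C) (hcent : ∀ z ∈ Z, ∀ c ∈ C, z * c = c * z) :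
    ∀ c ∈ C, ∃ k : ℕ, c ^ p ^ k ∈ Cfsg.pPrimeCore p X := by
  have hZ'p : IsPGroup p (Z.subgroupOf C) := hZp.comap_of_injective C.subtype C.subtype_injective
  have hcent' : ∀ z ∈ Z.subgroupOf C, ∀ c : C, z * c = c * z := by
    intro z hz c
    apply Subtype.ext
    exact hcent z.1 hz c.1 c.2
  haveI hZn : (Z.subgroupOf C).Normal := by
    constructor
    intro z hz c
    rw [← hcent' z hz c]
    simpa using hz
  obtain ⟨n, hn⟩ := IsPGroup.iff_card.mp hZ'p
  have hcop : Nat.Coprime (Nat.card (Z.subgroupOf C)) (Z.subgroupOf C).index := by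
    rw [hn]
    exact Nat.Coprime.pow_left _ ((Nat.Prime.coprime_iff_not_dvd hp.out).mpr hidx)
  obtain ⟨K, hK⟩ := Subgroup.exists_right_complement'_of_coprime hcop
  have hdec : ∀ c : C, ∃ z ∈ Z.subgroupOf C, ∃ k ∈ K, c = z * k := by
    intro c
    obtain ⟨⟨z, k⟩, hzk, -⟩ := Subgroup.IsComplement.existsUnique hK c
    exact ⟨z.1, z.2, k.1, k.2, hzk.symm⟩
  have hKn : K.Normal := by
    constructor
    intro k' hk' c
    obtain ⟨z, hz, k, hk, rfl⟩ := hdec c
    have e : z * k * k' * (z * k)⁻¹ = k * k' * k⁻¹ := by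
      rw [mul_inv_rev, mul_assoc z k k', hcent' z hz (k * k'), mul_assoc (k * k') z,
        ← mul_assoc z, hcent' z hz k⁻¹, mul_assoc k⁻¹, mul_inv_cancel, mul_one]
    rw [e]
    exact K.mul_mem (K.mul_mem hk hk') (K.inv_mem hk)
  have hKc : (Nat.card K).Coprime p := by
    rw [← hK.symm.index_eq_card]
    exact ((Nat.Prime.coprime_iff_not_dvd hp.out).mpr hidx).symm
  have hKle : K.map C.subtype ≤ Cfsg.pPrimeCore p X :=
    (Subgroup.map_mono (le_pPrimeCore hKn hKc)).trans (map_pPrimeCore_le_of_normal C hCn)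
  intro c hc
  obtain ⟨z, hz, k, hk, e⟩ := hdec ⟨c, hc⟩
  refine ⟨n, hKle ?_⟩
  refine ⟨k ^ p ^ n, K.pow_mem hk _, ?_⟩
  have hz1 : z ^ p ^ n = 1 := by
    have := pow_card_eq_one' (G := Z.subgroupOf C) (x := ⟨z, hz⟩)
    rw [hn] at this
    simpa using congrArg Subtype.val this
  have h2 : (⟨c, hc⟩ : C) ^ p ^ n = k ^ p ^ n := by
    rw [e, (show Commute z k from hcent' z hz k).mul_pow, hz1, one_mul]
  have := congrArg Subtype.val h2
  simpa using this.symm

open Cfsg.Agent.Lib.Helper10 in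
theorem internal {X : Type*} [Group X] [Finite X] {p : ℕ} [hp : Fact p.Prime]
    (H C S : Subgroup X) [hHn : H.Normal] [hCn : C.Normal]
    (hH : IsPGroup p H) (hC : ∀ x, x ∈ C ↔ ∀ h ∈ H, h * x = x * h)
    (hS : IsPGroup p S) (hSi : ¬ p ∣ S.index) :
    (H ≤ (Cfsg.pCore p (X ⧸ C)).comap (QuotientGroup.mk' C) ∧
      ¬ p ∣ H.relIndex ((Cfsg.pCore p (X ⧸ C)).comap (QuotientGroup.mk' C))) ↔
    (S ⊓ C ≤ H ∧ Cfsg.pPrimePCore p X = H ⊔ C) := by
  haveI hKn : (Cfsg.pPrimeCore p X).Normal := (pPrimeCore_mem p X).1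
  have hKC : Cfsg.pPrimeCore p X ≤ C := by
    intro k hk
    rw [hC]
    intro h hh
    have hdis : Disjoint H (Cfsg.pPrimeCore p X) := by
      apply Subgroup.disjoint_of_coprime_natCard
      obtain ⟨n, hn⟩ := IsPGroup.iff_card.mp hH
      rw [hn]
      exact Nat.Coprime.pow_left _ (pPrimeCore_coprime p X).symm
    exact Subgroup.commute_of_normal_of_disjoint _ _ hHn hKn hdis h k hh hk
  have hHN : H ≤ (Cfsg.pCore p (X ⧸ C)).comap (QuotientGroup.mk' C) := by
    apply le_comap_of_pow_mem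
    intro x hx
    obtain ⟨k, hk⟩ := hH ⟨x, hx⟩
    refine ⟨k, ?_⟩
    have := congrArg Subtype.val hk
    simp only [SubmonoidClass.mk_pow, OneMemClass.coe_one] at this
    rw [this]; exact one_mem _
  have hCN : C ≤ (Cfsg.pCore p (X ⧸ C)).comap (QuotientGroup.mk' C) := by
    apply le_comap_of_pow_mem
    intro x hx
    exact ⟨0, by simpa using hx⟩
  haveI hWn : (Cfsg.pPrimePCore p X).Normal := pPrimePCore_normal p
  have hWN : Cfsg.pPrimePCore p X ≤ (Cfsg.pCore p (X ⧸ C)).comap (QuotientGroup.mk' C) := by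
    apply le_comap_of_pow_mem
    intro x hx
    obtain ⟨k, hk⟩ := pow_mem_of_mem_comap (A := Cfsg.pPrimeCore p X) hx
    exact ⟨k, hKC hk⟩
  haveI hNn : ((Cfsg.pCore p (X ⧸ C)).comap (QuotientGroup.mk' C)).Normal := by
    have := Cfsg.Agent.Lib.Helper23.pCore_normal' p (X ⧸ C)
    infer_instance
  have hNW : (∀ c ∈ C, ∃ k : ℕ, c ^ p ^ k ∈ Cfsg.pPrimeCore p X) →
      (Cfsg.pCore p (X ⧸ C)).comap (QuotientGroup.mk' C) = Cfsg.pPrimePCore p X := by
    intro hL
    apply le_antisymm _ hWN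
    apply le_comap_of_pow_mem (A := Cfsg.pPrimeCore p X)
    intro x hx
    obtain ⟨k, hk⟩ := pow_mem_of_mem_comap hx
    obtain ⟨j, hj⟩ := hL _ hk
    refine ⟨k + j, ?_⟩
    rwa [pow_add, pow_mul]
  constructor
  · rintro ⟨-, hi⟩
    have hi2 : ¬ p ∣ H.relIndex (C ⊔ H) := by
      intro hd
      apply hi
      rw [← Subgroup.relIndex_mul_relIndex H (C ⊔ H) _ le_sup_right (sup_le hCN hHN)]
      exact Dvd.dvd.mul_right hd _
    have hL := central_sylow C (H ⊓ C) (hH.to_le inf_le_left)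
      (by rw [Subgroup.inf_relIndex_right, ← Subgroup.relIndex_sup_right]; exact hi2)
      (fun z hz c hc => (hC c).mp hc z hz.1)
    refine ⟨?_, ?_⟩
    · intro x hx
      obtain ⟨k, hk⟩ := hS ⟨x, hx.1⟩
      have := congrArg Subtype.val hk
      simp only [SubmonoidClass.mk_pow, OneMemClass.coe_one] at this
      exact mem_of_pow_mem hi (hCN hx.2) (k := k) (by rw [this]; exact one_mem _)
    · rw [← hNW hL]
      apply le_antisymm _ (sup_le hHN hCN)
      intro x hx
      obtain ⟨k, hk⟩ := pow_mem_of_mem_comap hx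
      have hi3 : ¬ p ∣ (H ⊔ C).relIndex ((Cfsg.pCore p (X ⧸ C)).comap (QuotientGroup.mk' C)) :=
        fun hd => hi (hd.trans (Subgroup.relIndex_dvd_of_le_left _ le_sup_left))
      exact mem_of_pow_mem hi3 hx (k := k) (Subgroup.mem_sup_right hk)
  · rintro ⟨h1, h2⟩
    refine ⟨hHN, ?_⟩
    have hi0 : ¬ p ∣ (S ⊓ C).relIndex C := by
      rw [Subgroup.inf_relIndex_right]
      obtain ⟨P, hP⟩ := Cfsg.Agent.Lib.Helper5.exists_sylow_subgroupOf_normal (hS.toSylow hSi) C
      have := P.not_dvd_index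
      rw [hP] at this
      exact this
    have hL := central_sylow C (S ⊓ C) (hS.to_le inf_le_left) hi0
      (fun z hz c hc => (hC c).mp hc z (h1 hz))
    rw [hNW hL, h2, Subgroup.relIndex_sup_left, ← Subgroup.inf_relIndex_right]
    exact fun hd => hi0 (hd.trans (Subgroup.relIndex_dvd_of_le_left _ (le_inf h1 inf_le_right)))

/-- Let P be a Sylow p-subgroup of the finite group G and H ≤ P a subgroup with N_P(H) a Sylow p-subgroup of N_G(H). Let N be the preimage in N_G(H) of O_p(N_G(H)/C_G(H)). Then H is a Sylow p-subgroup of N if and only if C_P(H) ≤ H and O_{p',p}(N_G(H)) = H·C_G(H). -/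
theorem result {G : Type*} [Group G] [Finite G] {p : ℕ} [Fact p.Prime]
    (P : Sylow p G) (H : Subgroup G) (hHP : H ≤ (P : Subgroup G))
    (hSyl : ¬ p ∣ ((P : Subgroup G) ⊓ Subgroup.normalizer (H : Set G)).relIndex (Subgroup.normalizer (H : Set G)))
    [hC : ((Subgroup.centralizer (H : Set G)).subgroupOf (Subgroup.normalizer (H : Set G))).Normal] :
    (H ≤ ((Cfsg.pCore p (↥(Subgroup.normalizer (H : Set G)) ⧸
              (Subgroup.centralizer (H : Set G)).subgroupOf (Subgroup.normalizer (H : Set G)))).comap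
            (QuotientGroup.mk' _)).map (Subgroup.normalizer (H : Set G)).subtype ∧
      ¬ p ∣ H.relIndex (((Cfsg.pCore p (↥(Subgroup.normalizer (H : Set G)) ⧸
              (Subgroup.centralizer (H : Set G)).subgroupOf (Subgroup.normalizer (H : Set G)))).comap
            (QuotientGroup.mk' _)).map (Subgroup.normalizer (H : Set G)).subtype)) ↔
    ((P : Subgroup G) ⊓ Subgroup.centralizer (H : Set G) ≤ H ∧
      (Cfsg.pPrimePCore p ↥(Subgroup.normalizer (H : Set G))).map (Subgroup.normalizer (H : Set G)).subtype =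
        H ⊔ Subgroup.centralizer (H : Set G)) := by
  have hHX : H ≤ Subgroup.normalizer (H : Set G) := Subgroup.le_normalizer
  have hCX : Subgroup.centralizer (H : Set G) ≤ Subgroup.normalizer (H : Set G) :=
    Cfsg.Agent.Lib.Helper17.centralizer_le_normalizer' H
  haveI : (H.subgroupOf (Subgroup.normalizer (H : Set G))).Normal := Subgroup.normal_in_normalizer
  have hHp : IsPGroup p H := P.2.to_le hHP
  have key := internal (p := p) (H.subgroupOf (Subgroup.normalizer (H : Set G)))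
    ((Subgroup.centralizer (H : Set G)).subgroupOf (Subgroup.normalizer (H : Set G)))
    (((P : Subgroup G) ⊓ Subgroup.normalizer (H : Set G)).subgroupOf (Subgroup.normalizer (H : Set G)))
    (hHp.comap_of_injective _ (Subgroup.subtype_injective _))
    (by
      intro x
      rw [Subgroup.mem_subgroupOf, Subgroup.mem_centralizer_iff]
      constructor
      · intro h y hy
        apply Subtype.ext
        exact h y.1 hy
      · intro h y hy
        exact congrArg Subtype.val (h ⟨y, hHX hy⟩ hy))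
    ((P.2.to_le inf_le_left).comap_of_injective _ (Subgroup.subtype_injective _))
    hSyl
  have e1 : ∀ M : Subgroup ↥(Subgroup.normalizer (H : Set G)),
      H ≤ M.map (Subgroup.normalizer (H : Set G)).subtype ↔
        H.subgroupOf (Subgroup.normalizer (H : Set G)) ≤ M := by
    intro M
    constructor
    · intro h x hx
      obtain ⟨y, hy, hyx⟩ := h hx
      have : y = x := Subtype.ext hyx
      rwa [← this]
    · intro h x hx
      exact ⟨⟨x, hHX hx⟩, h hx, rfl⟩
  rw [e1, ← Subgroup.relIndex_comap]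
  refine key.trans (and_congr ?_ ?_)
  · constructor
    · intro h x hx
      exact h (x := ⟨x, hCX hx.2⟩) ⟨⟨hx.1, hCX hx.2⟩, hx.2⟩
    · intro h x hx
      exact h ⟨hx.1.1, hx.2⟩
  · rw [← (Subgroup.map_injective (Subgroup.subtype_injective _)).eq_iff
      (a := Cfsg.pPrimePCore p ↥(Subgroup.normalizer (H : Set G))), Subgroup.map_sup,
      Subgroup.map_subgroupOf_eq_of_le hHX, Subgroup.map_subgroupOf_eq_of_le hCX]

end Cfsg.Agent.S3076
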