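import Cfsg.Statements.S3087
-- import your own Cfsg.Agent.* helpers here
import Mathlib

set_option autoImplicit false
open Cfsg

namespace Cfsg.Agent.S3087

/-- Let p be a prime, G a finite group acting linearly on a finite vector space V over the field with p elements, W a G-invariant subspace, and A a subgroup of G with |A|·|C_V(A)| ≥ |B|·|C_V(B)| for every subgroup B of A. Then |A|·|C_W(A)| ≥ |B|·|C_W(B)| for every subgroup B of A that contains C_A(W); that is, the image of A in the group induced on W satisfies the same maximality condition. -/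
theorem result {G V : Type*} [Group G] [Finite G] [AddCommGroup V] [Finite V] (p : ℕ) [Fact p.Prime] [Module (ZMod p) V]
    (ρ : Representation (ZMod p) G V) (W : Submodule (ZMod p) V) (hW : ∀ g : G, ∀ w ∈ W, ρ g w ∈ W)
    (A : Subgroup G)
    (hP : ∀ B : Subgroup G, B ≤ A →
      Nat.card ↥B * Nat.card {v : V // ∀ b ∈ B, ρ b v = v} ≤ Nat.card ↥A * Nat.card {v : V // ∀ a ∈ A, ρ a v = v})
    (B : Subgroup G) (hBA : B ≤ A) (hCB : ∀ a ∈ A, (∀ w ∈ W, ρ a w = w) → a ∈ B) :
    Nat.card ↥B * Nat.card {w : W // ∀ b ∈ B, ρ b w = w} ≤ Nat.card ↥A * Nat.card {w : W // ∀ a ∈ A, ρ a w = w} := by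
  classical
  -- fixed points as additive subgroups
  let CV : Subgroup G → AddSubgroup V := fun H =>
    { carrier := {v | ∀ h ∈ H, ρ h v = v}
      add_mem' := by
        intro x y hx hy h hh
        rw [map_add, hx h hh, hy h hh]
      zero_mem' := by intro h _; simp
      neg_mem' := by
        intro x hx h hh
        rw [map_neg, hx h hh] }
  have hrc : ∀ {H K : AddSubgroup V}, H ≤ K → H.relIndex K * Nat.card H = Nat.card K := by
    intro H K hHK
    have := AddSubgroup.relIndex_mul_relIndex ⊥ H K bot_le hHK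
    rw [AddSubgroup.relIndex_bot_left, AddSubgroup.relIndex_bot_left] at this
    rw [mul_comm]; exact this
  have hcardV : ∀ H : Subgroup G, Nat.card {v : V // ∀ h ∈ H, ρ h v = v} = Nat.card (CV H) := fun H => rfl
  have hcardW : ∀ H : Subgroup G, Nat.card {w : W // ∀ h ∈ H, ρ h w = w}
      = Nat.card (W.toAddSubgroup ⊓ CV H : AddSubgroup V) := by
    intro H
    exact Nat.card_congr (Equiv.subtypeSubtypeEquivSubtypeInter (fun v : V => v ∈ W)
      (fun v : V => ∀ h ∈ H, ρ h v = v))
  rw [hcardW, hcardW]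
  have hP' := hP B hBA
  rw [hcardV, hcardV] at hP'
  have hmono : CV A ≤ CV B := fun v hv h hh => hv h (hBA hh)
  have h1 : (CV A).relIndex (W.toAddSubgroup ⊓ CV B) ≤ (CV A).relIndex (CV B) :=
    AddSubgroup.relIndex_le_of_le_right inf_le_right (by
      have : (CV A).relIndex (CV B) ∣ Nat.card (CV B) := AddSubgroup.relIndex_dvd_card _ _
      intro h0
      rw [h0] at this
      exact (Nat.card_pos (α := CV B)).ne' (Nat.eq_zero_of_zero_dvd this))
  have h2 : (CV A).relIndex (CV B) * Nat.card (CV A) = Nat.card (CV B) :=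
    hrc hmono
  have hinf : CV A ⊓ (W.toAddSubgroup ⊓ CV B) = W.toAddSubgroup ⊓ CV A := by
    apply le_antisymm
    · exact le_inf (inf_le_right.trans inf_le_left) inf_le_left
    · exact le_inf inf_le_right (le_inf inf_le_left (inf_le_right.trans hmono))
  have h3 : (CV A).relIndex (W.toAddSubgroup ⊓ CV B) * Nat.card (W.toAddSubgroup ⊓ CV A : AddSubgroup V)
      = Nat.card (W.toAddSubgroup ⊓ CV B : AddSubgroup V) := by
    rw [← AddSubgroup.inf_relIndex_right, hinf]
    exact hrc (inf_le_inf_left _ hmono)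
  rw [← h3]
  rw [← h2] at hP'
  have hpos : 0 < Nat.card (CV A) := Nat.card_pos
  have h4 : Nat.card B * (CV A).relIndex (CV B) ≤ Nat.card A := by
    apply Nat.le_of_mul_le_mul_right _ hpos
    calc Nat.card B * (CV A).relIndex (CV B) * Nat.card (CV A)
        = Nat.card B * ((CV A).relIndex (CV B) * Nat.card (CV A)) := by ring
      _ ≤ Nat.card A * Nat.card (CV A) := hP'
  calc Nat.card B * ((CV A).relIndex (W.toAddSubgroup ⊓ CV B) * Nat.card (W.toAddSubgroup ⊓ CV A : AddSubgroup V))
      = (Nat.card B * (CV A).relIndex (W.toAddSubgroup ⊓ CV B)) * Nat.card (W.toAddSubgroup ⊓ CV A : AddSubgroup V) := by ring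
    _ ≤ (Nat.card B * (CV A).relIndex (CV B)) * Nat.card (W.toAddSubgroup ⊓ CV A : AddSubgroup V) :=
        Nat.mul_le_mul_right _ (Nat.mul_le_mul_left _ h1)
    _ ≤ Nat.card A * Nat.card (W.toAddSubgroup ⊓ CV A : AddSubgroup V) := Nat.mul_le_mul_right _ h4

end Cfsg.Agent.S3087
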