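import Cfsg.Statements.S3155
-- import your own Cfsg.Agent.* helpers here
import Mathlib

set_option autoImplicit false
open Cfsg

namespace Cfsg.Agent.S3155

/-- Let B be the direct product of three cyclic groups of order 4. Then the automorphism of B inverting every element is not the square of any automorphism of B. -/
theorem result {B : Type*} [CommGroup B] [Finite B] (hB : Nonempty (B ≃* Multiplicative (ZMod 4 × ZMod 4 × ZMod 4)))
    (τ : B ≃* B) : τ.trans τ ≠ MulEquiv.inv B := by
  obtain ⟨e⟩ := hB
  intro h
  have : Fact (1 < 4) := ⟨by norm_num⟩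
  -- the additive endomorphism
  let f : (ZMod 4 × ZMod 4 × ZMod 4) →+ (ZMod 4 × ZMod 4 × ZMod 4) :=
    { toFun := fun v => Multiplicative.toAdd (e (τ (e.symm (Multiplicative.ofAdd v))))
      map_zero' := by simp
      map_add' := by
        intro a b
        simp }
  have hf : ∀ v, f (f v) = -v := by
    intro v
    have h1 : τ (τ (e.symm (Multiplicative.ofAdd v))) = (e.symm (Multiplicative.ofAdd v))⁻¹ := by
      have := congrArg (fun t : B ≃* B => t (e.symm (Multiplicative.ofAdd v))) h
      simpa using this
    change Multiplicative.toAdd (e (τ (e.symm (Multiplicative.ofAdd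
      (Multiplicative.toAdd (e (τ (e.symm (Multiplicative.ofAdd v))))))))) = -v
    simp [h1]
  let F := AddMonoidHom.toZModLinearMap 4 f
  have hF : F ∘ₗ F = (-1 : ZMod 4) • LinearMap.id := by
    ext <;> simp [F, hf]
  have hd := congrArg LinearMap.det hF
  rw [LinearMap.det_comp, LinearMap.det_smul, LinearMap.det_id] at hd
  have hr : Module.finrank (ZMod 4) (ZMod 4 × ZMod 4 × ZMod 4) = 3 := by
    simp
  rw [hr] at hd
  have : ∀ d : ZMod 4, d * d ≠ (-1) ^ 3 * 1 := by decide
  exact this _ hd

end Cfsg.Agent.S3155
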