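import Cfsg.Statements.S3178
-- import your own Cfsg.Agent.* helpers here
import Mathlib
import Cfsg.Agent.S0111
import Cfsg.Agent.Lib.Helper18.PPrime
import Cfsg.Agent.Lib.Helper17.Syl
import Cfsg.Agent.Lib.Helper5.Card

set_option autoImplicit false
open Cfsg

namespace Cfsg.Agent.S3178

open Cfsg.Agent.Lib.Helper17 Cfsg.Agent.Lib.Helper18 Cfsg.Agent.Lib.Helper5

theorem npc_of_index_two {G : Type*} [Group G] [Finite G] (S : Sylow 2 G) (M : Subgroup G)
    (hMn : M.Normal) (hMi : M.index = 2) (h2M : 2 ∣ Nat.card M) (c : G)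
    (hc : (S : Subgroup G) ⊓ M = Subgroup.zpowers c) : Cfsg.HasNormalPComplement 2 G := by
  have h2 : Fact (Nat.Prime 2) := ⟨Nat.prime_two⟩
  have hnormM : (⊤ : Subgroup G) ≤ Subgroup.normalizer (M : Set G) := by
    rw [Subgroup.normalizer_eq_top]
  obtain ⟨P₁, hP₁⟩ : IsSyl 2 ((S : Subgroup G) ⊓ M) M := (isSyl_top S).inf_normal le_top hnormM
  have hcyc : IsCyclic ↥(P₁ : Subgroup M) := by
    have e : ↥(P₁ : Subgroup M) ≃* ↥((P₁ : Subgroup M).map M.subtype) :=
      Subgroup.equivMapOfInjective _ _ M.subtype_injective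
    rw [hP₁, hc] at e
    exact isCyclic_of_surjective e.symm e.symm.surjective
  have hmf : (Nat.card M).minFac = 2 := (Nat.minFac_eq_two_iff _).2 h2M
  have hcompl := IsCyclic.isComplement' hmf hcyc
  have hodd := MonoidHom.not_dvd_card_ker_transferSylow P₁ (hcyc.normalizer_le_centralizer hmf)
  have hKn : (MonoidHom.transferSylow P₁ (hcyc.normalizer_le_centralizer hmf)).ker.Normal :=
    inferInstance
  generalize (MonoidHom.transferSylow P₁ (hcyc.normalizer_le_centralizer hmf)).ker = K at *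
  have hKcop : (Nat.card K).Coprime 2 := (Nat.Prime.coprime_iff_not_dvd Nat.prime_two).2 hodd |>.symm
  have hcardM : Nat.card K * Nat.card (P₁ : Subgroup M) = Nat.card M := hcompl.card_mul_card
  have hcardG : Nat.card G = Nat.card K * (Nat.card (P₁ : Subgroup M) * 2) := by
    rw [← mul_assoc, hcardM, ← hMi, Subgroup.card_mul_index]
  obtain ⟨j, hj⟩ := IsPGroup.iff_card.1 P₁.2
  have hpw : Nat.card (P₁ : Subgroup M) * 2 = 2 ^ (j + 1) := by rw [hj, pow_succ]
  rw [hpw] at hcardG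
  have hKO : K.map M.subtype ≤ Cfsg.pPrimeCore 2 G := by
    apply le_pPrimeCore_of_normal_normal M (Subgroup.map_subtype_le K)
    · rw [← Subgroup.normal_subgroupOf_iff_le_normalizer (Subgroup.map_subtype_le K)]
      have : (K.map M.subtype).subgroupOf M = K :=
        Subgroup.comap_map_eq_self_of_injective M.subtype_injective K
      rw [this]
      exact hKn
    · rw [Subgroup.card_map_of_injective M.subtype_injective]; exact hKcop
  have hOcop : (Nat.card (Cfsg.pPrimeCore 2 G)).Coprime 2 := pPrimeCore_coprime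
  have hOcard : Nat.card (Cfsg.pPrimeCore 2 G) = Nat.card K := by
    apply Nat.dvd_antisymm
    · have h1 : Nat.card (Cfsg.pPrimeCore 2 G) ∣ Nat.card K * 2 ^ (j + 1) :=
        hcardG ▸ Subgroup.card_subgroup_dvd_card _
      exact (Nat.Coprime.pow_right (j + 1) hOcop).dvd_of_dvd_mul_right h1
    · have := Subgroup.card_dvd_of_le hKO
      rwa [Subgroup.card_map_of_injective M.subtype_injective] at this
  have hScard : Nat.card (S : Subgroup G) = 2 ^ (j + 1) := by
    obtain ⟨i, hi⟩ := IsPGroup.iff_card.1 S.2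
    apply Nat.dvd_antisymm
    · have h1 : Nat.card (S : Subgroup G) ∣ Nat.card K * 2 ^ (j + 1) :=
        hcardG ▸ Subgroup.card_subgroup_dvd_card _
      rw [hi] at h1 ⊢
      exact (Nat.Coprime.pow_left i hKcop.symm).dvd_of_dvd_mul_left h1
    · have h1 : 2 ^ (j + 1) ∣ Nat.card (S : Subgroup G) * (S : Subgroup G).index := by
        rw [Subgroup.card_mul_index, hcardG]
        exact Dvd.intro_left _ rfl
      have h3 : Nat.Coprime (2 ^ (j + 1)) (S : Subgroup G).index :=
        Nat.Coprime.pow_left _ ((Nat.Prime.coprime_iff_not_dvd Nat.prime_two).2 S.not_dvd_index)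
      exact h3.dvd_of_dvd_mul_right h1
  refine ⟨S, Cfsg.pPrimeCore 2 G, inferInstance, ?_⟩
  apply Subgroup.isComplement'_of_coprime
  · rw [hOcard, hScard, hcardG]
  · rw [hScard]
    exact Nat.Coprime.pow_right _ hOcop

/-- Groups with a modular Sylow 2-subgroup have a normal 2-complement. Let S, of order 2^(n+1) with n ≥ 3, be a Sylow 2-subgroup of a finite group G, and suppose S contains an element a of order 2^n and an involution b with b a b⁻¹ = a^(2^(n-1) + 1); so S is the non-abelian 2-group with a cyclic subgroup of index 2 that is neither dihedral, semidihedral nor generalized quaternion. Then G has a normal 2-complement. -/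
theorem result {G : Type*} [Group G] [Finite G]
    (S : Sylow 2 G) (n : ℕ) (hn : 3 ≤ n) (hS : Nat.card ↥(S : Subgroup G) = 2 ^ (n + 1))
    (a b : G) (ha : a ∈ (S : Subgroup G)) (hb : b ∈ (S : Subgroup G))
    (hao : orderOf a = 2 ^ n) (hbo : orderOf b = 2) (hrel : b * a * b⁻¹ = a ^ (2 ^ (n - 1) + 1)) :
    Cfsg.HasNormalPComplement 2 G := by
  have h2 : Fact (Nat.Prime 2) := ⟨Nat.prime_two⟩
  obtain ⟨m, rfl⟩ : ∃ m, n = m + 3 := ⟨n - 3, by omega⟩
  have hn1 : m + 3 - 1 = m + 2 := by omega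
  rw [hn1] at hrel
  have hapow : a ^ 2 ^ (m + 3) = 1 := by rw [← hao]; exact pow_orderOf_eq_one a
  obtain ⟨z, hz⟩ : ∃ z, z = a ^ 2 ^ (m + 2) := ⟨_, rfl⟩
  have hz2 : z ^ 2 = 1 := by rw [hz, ← pow_mul, ← pow_succ]; exact hapow
  have hz1 : z ≠ 1 := by
    rw [hz]
    apply pow_ne_one_of_lt_orderOf (by positivity)
    rw [hao]
    exact Nat.pow_lt_pow_right (by norm_num) (by omega)
  have hzo : orderOf z = 2 := orderOf_eq_prime hz2 hz1
  obtain ⟨Q, hQ⟩ : ∃ Q, Q = Subgroup.zpowers a := ⟨_, rfl⟩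
  have hQS : Q ≤ (S : Subgroup G) := hQ ▸ Subgroup.zpowers_le.2 ha
  have hQcard : Nat.card Q = 2 ^ (m + 3) := by rw [hQ, Nat.card_zpowers, hao]
  have hzQ : z ∈ Q := by rw [hQ, hz]; exact Subgroup.pow_mem _ (Subgroup.mem_zpowers a) _
  have hrelidx : Q.relIndex (S : Subgroup G) = 2 := by
    have h1 := card_mul_relIndex hQS
    rw [hQcard, hS, pow_succ (2 : ℕ) (m + 3)] at h1
    exact Nat.eq_of_mul_eq_mul_left (by positivity) h1
  have hbQ : b ∉ Q := by
    intro hb'
    rw [hQ] at hb'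
    obtain ⟨k, rfl⟩ := Subgroup.mem_zpowers_iff.1 hb'
    have hc : Commute (a ^ k) a := (Commute.refl a).zpow_left k
    rw [hc.eq, mul_assoc, mul_inv_cancel, mul_one, pow_succ, ← hz] at hrel
    apply hz1
    exact (mul_eq_right.1 hrel.symm)
  have hidx' : (Q.subgroupOf (S : Subgroup G)).index = 2 := hrelidx
  have hsq : ∀ s ∈ (S : Subgroup G), s ^ 2 ∈ Q := by
    intro s hs
    have := Subgroup.sq_mem_of_index_two hidx' ⟨s, hs⟩
    exact this
  have hcos : ∀ s ∈ (S : Subgroup G), s ∉ Q → s * b ∈ Q := by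
    intro s hs hsQ
    have := (Subgroup.mul_mem_iff_of_index_two hidx' (a := ⟨s, hs⟩) (b := ⟨b, hb⟩)).2
      ⟨fun h => absurd h hsQ, fun h => absurd h hbQ⟩
    exact this
  have hinvQ : ∀ x ∈ Q, x ^ 2 = 1 → x ≠ 1 → x = z := by
    intro x hx hx2 hx1
    rw [hQ] at hx
    obtain ⟨i, rfl⟩ := mem_powers_iff_mem_zpowers.2 hx
    have hx2' : a ^ (i * 2) = 1 := by rw [pow_mul]; exact hx2
    have hd := orderOf_dvd_of_pow_eq_one hx2'
    rw [hao, pow_succ] at hd
    have hd' : 2 ^ (m + 2) ∣ i := Nat.dvd_of_mul_dvd_mul_right (by norm_num) hd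
    obtain ⟨j, rfl⟩ := hd'
    have e : a ^ (2 ^ (m + 2) * j) = z ^ j := by rw [pow_mul, ← hz]
    simp only at hx1
    show a ^ (2 ^ (m + 2) * j) = z
    rw [e] at hx1 ⊢
    rcases Nat.even_or_odd' j with ⟨r, rfl | rfl⟩
    · exfalso; apply hx1; rw [pow_mul, hz2, one_pow]
    · rw [pow_succ, pow_mul, hz2, one_pow, one_mul]
  have hbz : b * z * b⁻¹ = z := by
    rw [hz, ← MulAut.conj_apply, map_pow, MulAut.conj_apply, hrel, ← pow_mul, mul_comm, pow_mul,
      ← hz, pow_succ, pow_succ (2 : ℕ), mul_comm (2 ^ (m + 1)) 2, pow_mul, hz2, one_pow, one_mul]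
  have hbzc : Commute b z := by
    show b * z = z * b
    calc b * z = (b * z * b⁻¹) * b := by group
      _ = z * b := by rw [hbz]
  have hzS : ∀ s ∈ (S : Subgroup G), Commute s z := by
    have hQz : ∀ s ∈ Q, Commute s z := by
      intro s hs
      rw [hQ] at hs
      obtain ⟨k, rfl⟩ := Subgroup.mem_zpowers_iff.1 hs
      rw [hz]
      exact ((Commute.refl a).pow_right _).zpow_left k
    intro s hs
    by_cases hsQ : s ∈ Q
    · exact hQz s hsQ
    · have h1 := hQz _ (hcos s hs hsQ)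
      have h3 : Commute (s * b * b⁻¹) z := h1.mul_left hbzc.inv_left
      simpa using h3
  have hbd : Commute b (a ^ 2) := by
    have e : b * a ^ 2 * b⁻¹ = a ^ 2 := by
      rw [← MulAut.conj_apply, map_pow, MulAut.conj_apply, hrel, ← pow_mul, add_mul, pow_add,
        ← pow_succ, hapow, one_mul, one_mul]
    show b * a ^ 2 = a ^ 2 * b
    calc b * a ^ 2 = (b * a ^ 2 * b⁻¹) * b := by group
      _ = a ^ 2 * b := by rw [e]
  have hb1 : b ≠ 1 := fun h => hbQ (h ▸ Q.one_mem)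
  have hconj1 : ∀ (γ x : G), x ≠ 1 → γ * x * γ⁻¹ ≠ 1 := by
    intro γ x hx h
    apply hx
    have : x = γ⁻¹ * (γ * x * γ⁻¹) * γ := by group
    rw [this, h]; group
  have hnoconj : ¬ ∃ g : G, g * b * g⁻¹ ∈ Q := by
    rintro ⟨g, hg⟩
    have hgb2 : (g * b * g⁻¹) ^ 2 = 1 := by
      rw [← MulAut.conj_apply, ← map_pow, ← hbo, pow_orderOf_eq_one, map_one]
    have hgbz : g * b * g⁻¹ = z := hinvQ _ hg hgb2 (hconj1 g b hb1)
    obtain ⟨d', hd'⟩ : ∃ d', d' = g * a ^ 2 * g⁻¹ := ⟨_, rfl⟩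
    have hd'z : Commute d' z := by
      rw [← hgbz, hd']; exact (Commute.conj_iff g).2 hbd.symm
    have hSCz : (S : Subgroup G) ≤ Subgroup.centralizer ({z} : Set G) :=
      fun s hs => Subgroup.mem_centralizer_singleton_iff.2 (hzS s hs).eq
    have hSyl : IsSyl 2 (S : Subgroup G) (Subgroup.centralizer ({z} : Set G)) :=
      (isSyl_top S).of_le hSCz le_top
    have hd'p : IsPGroup 2 (Subgroup.zpowers d') := by
      have h1 : d' ^ 2 ^ (m + 3) = 1 := by
        rw [hd', ← MulAut.conj_apply, ← map_pow, ← pow_mul, mul_comm, pow_mul, hapow, one_pow,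
          map_one]
      obtain ⟨i, -, hi⟩ := (Nat.dvd_prime_pow Nat.prime_two).1 (orderOf_dvd_of_pow_eq_one h1)
      exact IsPGroup.of_card (n := i) (by rw [Nat.card_zpowers, hi])
    obtain ⟨h, hh, hle⟩ := hSyl.exists_conj_ge
      (Subgroup.zpowers_le.2 (Subgroup.mem_centralizer_singleton_iff.2 hd'z.eq)) hd'p
    obtain ⟨e, heS, hed⟩ := hle (Subgroup.mem_zpowers d')
    have hed' : h * e * h⁻¹ = d' := hed
    have he : e = (h⁻¹ * g) * a ^ 2 * (h⁻¹ * g)⁻¹ := by
      have : e = h⁻¹ * (h * e * h⁻¹) * h := by group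
      rw [this, hed', hd']; group
    have hez : e ^ 2 ^ (m + 1) = (h⁻¹ * g) * z * (h⁻¹ * g)⁻¹ := by
      rw [he, ← MulAut.conj_apply, ← map_pow, ← pow_mul, ← pow_succ', ← hz, MulAut.conj_apply]
    have hmemQ : e ^ 2 ^ (m + 1) ∈ Q := by
      rw [pow_succ, pow_mul]; exact hsq _ (Subgroup.pow_mem _ heS _)
    have hezz : e ^ 2 ^ (m + 1) = z := by
      apply hinvQ _ hmemQ
      · rw [hez, ← MulAut.conj_apply, ← map_pow, hz2, map_one]
      · rw [hez]; exact hconj1 _ z hz1
    have h1 : (h⁻¹ * g) * z * (h⁻¹ * g)⁻¹ = z := hez.symm.trans hezz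
    have hhz : Commute h z := Subgroup.mem_centralizer_singleton_iff.1 hh
    have h3 : (h⁻¹ * g) * b * (h⁻¹ * g)⁻¹ = z := by
      calc (h⁻¹ * g) * b * (h⁻¹ * g)⁻¹ = h⁻¹ * (g * b * g⁻¹) * h := by group
        _ = h⁻¹ * z * h := by rw [hgbz]
        _ = z := by rw [hhz.inv_left.eq, mul_assoc, inv_mul_cancel, mul_one]
    have hbz' : b = z := by
      have := h3.trans h1.symm
      exact (MulAut.conj (h⁻¹ * g)).injective (by simpa [MulAut.conj_apply] using this)
    exact hbQ (hbz' ▸ hzQ)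
  rcases Cfsg.Agent.S0111.result S Q hQS hrelidx b hbo hb hbQ with ⟨M, hMn, hMi, hbM⟩ | h
  swap
  · exact absurd h hnoconj
  obtain ⟨c, hcS, hcM, hco⟩ : ∃ c, c ∈ (S : Subgroup G) ∧ c ∈ M ∧ orderOf c = 2 ^ (m + 3) := by
    by_cases haM : a ∈ M
    · exact ⟨a, ha, haM, hao⟩
    · refine ⟨a * b, mul_mem ha hb, (Subgroup.mul_mem_iff_of_index_two hMi).2
        ⟨fun h => absurd h haM, fun h => absurd h hbM⟩, ?_⟩
      have hb2 : b * b = 1 := by
        rw [← pow_two, ← hbo]; exact pow_orderOf_eq_one b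
      have e2 : (a * b) ^ 2 = a ^ (2 ^ (m + 2) + 2) := by
        calc (a * b) ^ 2 = a * (b * a * b⁻¹) * (b * b) := by rw [pow_two]; group
          _ = a * a ^ (2 ^ (m + 2) + 1) := by rw [hrel, hb2, mul_one]
          _ = a ^ (2 ^ (m + 2) + 2) := by rw [← pow_succ']
      have e3 : (a * b) ^ 2 ^ (m + 2) = z := by
        rw [pow_succ' 2 (m + 1), pow_mul, e2, ← pow_mul]
        have : (2 ^ (m + 2) + 2) * 2 ^ (m + 1) = 2 ^ (m + 3) * 2 ^ m + 2 ^ (m + 2) := by ring
        rw [this, pow_add, pow_mul, hapow, one_pow, one_mul, hz]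
      apply orderOf_eq_prime_pow
      · rw [e3]; exact hz1
      · rw [pow_succ, pow_mul, e3, hz2]
  have hSM : (S : Subgroup G) ⊓ M = Subgroup.zpowers c := by
    symm
    apply Subgroup.eq_of_le_of_card_ge (Subgroup.zpowers_le.2 (Subgroup.mem_inf.2 ⟨hcS, hcM⟩))
    rw [Nat.card_zpowers, hco]
    have hne : (S : Subgroup G) ⊓ M ≠ (S : Subgroup G) := by
      intro h
      have : b ∈ (S : Subgroup G) ⊓ M := h.symm ▸ hb
      exact hbM this.2
    have hd : Nat.card ((S : Subgroup G) ⊓ M : Subgroup G) ∣ 2 ^ (m + 3 + 1) :=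
      hS ▸ Subgroup.card_dvd_of_le inf_le_left
    obtain ⟨i, hi, hci⟩ := (Nat.dvd_prime_pow Nat.prime_two).1 hd
    have hi' : i ≠ m + 3 + 1 := by
      intro h
      apply hne
      exact Subgroup.eq_of_le_of_card_ge inf_le_left (by rw [hS, hci, h])
    rw [hci]
    exact Nat.pow_le_pow_right (by norm_num) (by omega)
  have h2M : 2 ∣ Nat.card M := by
    have h1 := Subgroup.orderOf_dvd_natCard M hcM
    rw [hco] at h1
    exact (dvd_pow_self 2 (by omega)).trans h1
  exact npc_of_index_two S M hMn hMi h2M c hSM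

end Cfsg.Agent.S3178
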