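import Cfsg.Statements.S3180
-- import your own Cfsg.Agent.* helpers here
import Mathlib
import Cfsg.Agent.Lib.Helper17.Syl
import Cfsg.Agent.Lib.Helper18.TransferTI

set_option autoImplicit false
open Cfsg

namespace Cfsg.Agent.S3180
open Cfsg.Agent.Lib.Helper17 Cfsg.Agent.Lib.Helper18

/-- Let P be a Sylow p-subgroup of a finite group J and P₁ a subgroup of P that is weakly closed in P with respect to J. If J acts on a set and two points, each fixed by every element of P₁, lie in one J-orbit, then they lie in one orbit of the normalizer of P₁ in J. -/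
theorem result {J : Type*} [Group J] [Finite J]
    {p : ℕ} [Fact p.Prime] (P : Sylow p J) (P₁ : Subgroup J) (hW : Cfsg.IsWeaklyClosed P₁ (P : Subgroup J))
    {Ω : Type*} [MulAction J Ω] (x y : Ω) (hx : ∀ g ∈ P₁, g • x = x) (hy : ∀ g ∈ P₁, g • y = y)
    (hc : ∃ g : J, g • x = y) :
    ∃ g ∈ Subgroup.normalizer (P₁ : Set J), g • x = y := by
  obtain ⟨g, hg⟩ := hc
  obtain ⟨hP1, hwc⟩ := hW
  have hp1 : IsPGroup p P₁ := P.2.to_le hP1
  set H : Subgroup J := MulAction.stabilizer J y with hH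
  have h1 : P₁ ≤ H := fun a ha => MulAction.mem_stabilizer_iff.mpr (hy a ha)
  have h2 : P₁.map (MulAut.conj g).toMonoidHom ≤ H := by
    rintro _ ⟨a, ha, rfl⟩
    refine MulAction.mem_stabilizer_iff.mpr ?_
    simp only [MulEquiv.coe_toMonoidHom, MulAut.conj_apply]
    rw [← hg, mul_smul, mul_smul, inv_smul_smul, hx a ha]
  obtain ⟨Q, hQ, hQ1⟩ := exists_isSyl_ge h1 hp1
  obtain ⟨h, hh, hQ2⟩ := hQ.exists_conj_ge h2 (hp1.map _)
  obtain ⟨k, -, hk⟩ := (isSyl_top P).exists_conj_ge (le_top : Q ≤ ⊤) hQ.isPGroup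
  -- P₁^{k⁻¹} ≤ P
  have key : ∀ (R : Subgroup J) (u : J), R ≤ Q.map (MulAut.conj u).toMonoidHom →
      R.map (MulAut.conj (k⁻¹ * u⁻¹)).toMonoidHom ≤ P := by
    intro R u hR
    rintro _ ⟨a, ha, rfl⟩
    obtain ⟨b, hb, rfl⟩ := hR ha
    obtain ⟨c, hc, rfl⟩ := hk hb
    simp only [MulEquiv.coe_toMonoidHom, MulAut.conj_apply]
    have e : k⁻¹ * u⁻¹ * (u * (k * c * k⁻¹) * u⁻¹) * (k⁻¹ * u⁻¹)⁻¹ = c := by group
    rw [e]
    exact hc
  have e1 := key P₁ 1 (fun a ha => ⟨a, hQ1 ha, by simp⟩)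
  have e2 := key _ h hQ2
  rw [Subgroup.map_map] at e2
  have e3 : (MulAut.conj (k⁻¹ * h⁻¹)).toMonoidHom.comp (MulAut.conj g).toMonoidHom
      = (MulAut.conj (k⁻¹ * h⁻¹ * g)).toMonoidHom := by
    ext a
    simp [mul_assoc]
  rw [e3] at e2
  have n1 := mem_normalizer_of_map_conj_le (hwc _ e1).le
  have n2 := mem_normalizer_of_map_conj_le (hwc _ e2).le
  refine ⟨h⁻¹ * g, ?_, ?_⟩
  · have := mul_mem (inv_mem n1) n2
    convert this using 1
    group
  · rw [mul_smul, hg]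
    exact MulAction.mem_stabilizer_iff.mp (inv_mem hh)

end Cfsg.Agent.S3180
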