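import Cfsg.Statements.S3196
-- import your own Cfsg.Agent.* helpers here
import Mathlib
import Cfsg.Agent.Lib.Helper17.Syl

set_option autoImplicit false
open Cfsg

namespace Cfsg.Agent.S3196

open Cfsg.Agent.Lib.Helper17

theorem cz {G : Type*} [Group G] {t x y : G} (h : Commute t x) (hy : y ∈ Subgroup.zpowers x) :
    Commute t y := by
  obtain ⟨k, rfl⟩ := Subgroup.mem_zpowers_iff.1 hy
  exact h.zpow_right k

theorem comm_cancel {G : Type*} [Group G] {t a s : G} (h : Commute t (a * s)) (hs : Commute t s) :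
    Commute t a := by
  have := h.mul_right hs.inv_right
  simpa using this

theorem comm_cancel' {G : Type*} [Group G] {t a s : G} (h : Commute t (s * a))
    (hs : Commute t s) : Commute t a := by
  have := hs.inv_right.mul_right h
  simpa using this

theorem core {G : Type*} [Group G] [Finite G] (P : G → Prop)
    (hP1 : ∀ x, P x → x ≠ 1)
    (hpow : ∀ x, P x → ∀ y ∈ Subgroup.zpowers x, y ≠ 1 → P y ∧ x ∈ Subgroup.zpowers y)
    (hconj : ∀ x, P x → ∀ g, P (g * x * g⁻¹))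
    (hex : ∃ x y, P x ∧ P y ∧ Commute x y ∧ y ∉ Subgroup.zpowers x)
    (ha : ∀ x y, P x → P y → Commute x y → y ∉ Subgroup.zpowers x →
      ∀ x' ∈ Subgroup.zpowers x, ∀ y' ∈ Subgroup.zpowers y, x' * y' ≠ 1 → P (x' * y'))
    (hb : ∀ x y, P x → P y → Commute x y → y ∉ Subgroup.zpowers x → ∀ w, P w →
      ∃ x' ∈ Subgroup.zpowers x, ∃ y' ∈ Subgroup.zpowers y, x' * y' ≠ 1 ∧ Commute (x' * y') w) :
    ∃ v, P v ∧ ∀ w, P w → Commute v w := by
  by_contra hno
  push Not at hno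
  have nc : ∀ {t x y : G}, P x → y ∈ Subgroup.zpowers x → y ≠ 1 → Commute t y → Commute t x :=
    fun hx hy hy1 h => cz h (hpow _ hx _ hy hy1).2
  have partner : ∀ x, P x → ∃ y, P y ∧ Commute x y ∧ y ∉ Subgroup.zpowers x := by
    intro x hx
    obtain ⟨x₀, y₀, hx₀, hy₀, hc₀, hn₀⟩ := hex
    obtain ⟨x', hx', y', hy', hne, hcom⟩ := hb x₀ y₀ hx₀ hy₀ hc₀ hn₀ x hx
    have hPe := ha x₀ y₀ hx₀ hy₀ hc₀ hn₀ x' hx' y' hy' hne
    by_cases he : x' * y' ∈ Subgroup.zpowers x
    · have hxe := (hpow x hx _ he hne).2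
      have hex₀ : Commute x₀ (x' * y') := (cz (Commute.refl x₀) hx').mul_right (cz hc₀ hy')
      have hey₀ : Commute y₀ (x' * y') :=
        (cz hc₀.symm hx').mul_right (cz (Commute.refl y₀) hy')
      have hxx₀ : Commute x₀ x := cz hex₀ hxe
      have hxy₀ : Commute y₀ x := cz hey₀ hxe
      by_cases h0 : x₀ ∈ Subgroup.zpowers x
      · refine ⟨y₀, hy₀, hxy₀.symm, ?_⟩
        intro h1
        apply hn₀
        have := (hpow x hx x₀ h0 (hP1 x₀ hx₀)).2
        exact (Subgroup.zpowers_le.2 this) h1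
      · exact ⟨x₀, hx₀, hxx₀.symm, h0⟩
    · exact ⟨x' * y', hPe, hcom.symm, he⟩
  classical
  obtain ⟨x₀, y₀, hx₀, -⟩ := hex
  have : Nonempty {x // P x} := ⟨⟨x₀, hx₀⟩⟩
  obtain ⟨⟨x, hx⟩, hmax⟩ := Finite.exists_max
    (fun x : {x // P x} => Set.ncard {t | P t ∧ Commute x.1 t})
  obtain ⟨w, hw, hxw⟩ := hno x hx
  obtain ⟨y, hy, hxy, hyn⟩ := partner x hx
  obtain ⟨x2, hx2, y2, hy2, hz1, hzw⟩ := hb x y hx hy hxy hyn w hw
  have hz := ha x y hx hy hxy hyn x2 hx2 y2 hy2 hz1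
  have hxz : Commute x (x2 * y2) := (cz (Commute.refl x) hx2).mul_right (cz hxy hy2)
  generalize x2 * y2 = z at hz1 hzw hz hxz
  have hznx : z ∉ Subgroup.zpowers x := fun h => hxw (nc hx h hz1 hzw.symm).symm
  have hznw : z ∉ Subgroup.zpowers w := fun h => hxw (nc hw h hz1 hxz)
  obtain ⟨u, hu, hzu⟩ := hno z hz
  obtain ⟨a, ha', z₁, hz₁, hx₁1, hx₁u⟩ := hb x z hx hz hxz hznx u hu
  have hPx₁ := ha x z hx hz hxz hznx a ha' z₁ hz₁ hx₁1
  have ha1 : a ≠ 1 := by
    rintro rfl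
    rw [one_mul] at hx₁1 hx₁u
    exact hzu (nc hz hz₁ hx₁1 hx₁u.symm).symm
  obtain ⟨b, hb', z₂, hz₂, hw₁1, hw₁u⟩ := hb w z hw hz hzw.symm hznw u hu
  have hPw₁ := ha w z hw hz hzw.symm hznw b hb' z₂ hz₂ hw₁1
  have hb1 : b ≠ 1 := by
    rintro rfl
    rw [one_mul] at hw₁1 hw₁u
    exact hzu (nc hz hz₂ hw₁1 hw₁u.symm).symm
  have hza : Commute z a := cz hxz.symm ha'
  have hzb : Commute z b := cz hzw hb'
  have hzz₁ : Commute z z₁ := cz (Commute.refl z) hz₁
  have hzz₂ : Commute z z₂ := cz (Commute.refl z) hz₂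
  have hab : ¬ Commute a b := fun h => hxw (nc hx ha' ha1 (nc hw hb' hb1 h).symm).symm
  obtain ⟨x₁, hx₁⟩ : ∃ x₁, x₁ = a * z₁ := ⟨_, rfl⟩
  obtain ⟨w₁, hw₁⟩ : ∃ w₁, w₁ = b * z₂ := ⟨_, rfl⟩
  rw [← hx₁] at hx₁1 hx₁u hPx₁
  rw [← hw₁] at hw₁1 hw₁u hPw₁
  have hzx₁ : Commute z x₁ := hx₁ ▸ hza.mul_right hzz₁
  have hzw₁ : Commute z w₁ := hw₁ ▸ hzb.mul_right hzz₂
  have hx₁w₁ : ¬ Commute x₁ w₁ := by
    intro h
    rw [hw₁] at h
    have h2 : Commute x₁ b := comm_cancel h (cz hzx₁.symm hz₂)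
    have h3 : Commute b (a * z₁) := hx₁ ▸ h2.symm
    exact hab (comm_cancel h3 (cz hzb.symm hz₁)).symm
  have hunw₁ : u ∉ Subgroup.zpowers w₁ := fun h => hzu (cz hzw₁ h)
  have hw₁u1 : w₁ * u ≠ 1 := fun h => hunw₁ (by
    rw [eq_inv_of_mul_eq_one_right h]
    exact inv_mem (Subgroup.mem_zpowers w₁))
  have hPw₁u : P (w₁ * u) := ha w₁ u hPw₁ hu hw₁u hunw₁ w₁ (Subgroup.mem_zpowers _) u
    (Subgroup.mem_zpowers _) hw₁u1
  have hznx₁ : z ∉ Subgroup.zpowers x₁ := fun h => hzu (cz hx₁u.symm h).symm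
  obtain ⟨x', hx', z', hz', hne', hcom'⟩ := hb x₁ z hPx₁ hz hzx₁.symm hznx₁ (w₁ * u) hPw₁u
  have hux' : Commute u x' := cz hx₁u.symm hx'
  have hzx' : Commute z x' := cz hzx₁ hx'
  have hz'w₁ : Commute w₁ z' := cz hzw₁.symm hz'
  have hz'x' : Commute x' z' := cz hzx'.symm hz'
  have hx'1 : x' ≠ 1 := by
    rintro rfl
    rw [one_mul] at hne' hcom'
    have h2 : Commute z' u := comm_cancel' hcom' hz'w₁.symm
    exact hzu (nc hz hz' hne' h2.symm).symm
  have hE : (x' * w₁) * (z' * u) = (w₁ * x') * (u * z') := by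
    have := hcom'.eq
    calc (x' * w₁) * (z' * u) = x' * (w₁ * z') * u := by group
      _ = x' * (z' * w₁) * u := by rw [hz'w₁.eq]
      _ = x' * z' * (w₁ * u) := by group
      _ = w₁ * u * (x' * z') := this
      _ = w₁ * (u * x') * z' := by group
      _ = w₁ * (x' * u) * z' := by rw [hux'.eq]
      _ = _ := by group
  obtain ⟨c, hc⟩ : ∃ c, c = (w₁ * x')⁻¹ * (x' * w₁) := ⟨_, rfl⟩
  have hc2 : c = (u * z') * (z' * u)⁻¹ := by
    rw [hc, inv_mul_eq_iff_eq_mul, ← mul_assoc, ← hE, mul_assoc, mul_inv_cancel, mul_one]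
  have comm1 : ∀ t, Commute t x' → Commute t w₁ → Commute t c := fun t h1 h2 =>
    hc ▸ ((h2.mul_right h1).inv_right).mul_right (h1.mul_right h2)
  have comm2 : ∀ t, Commute t u → Commute t z' → Commute t c := fun t h1 h2 =>
    hc2 ▸ (h1.mul_right h2).mul_right ((h2.mul_right h1).inv_right)
  have hcx' : Commute x' c := comm2 x' hux'.symm hz'x'
  have hcw₁ : Commute w₁ c := comm2 w₁ hw₁u hz'w₁
  have hcz : Commute z c := comm1 z hzx' hzw₁
  have hx'w₁ : ¬ Commute w₁ x' := fun h => hx₁w₁ (nc hPx₁ hx' hx'1 h).symm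
  have hc1 : c ≠ 1 := by
    intro h
    rw [h] at hc
    have h2 : w₁ * x' = x' * w₁ := by
      have := inv_mul_eq_one.1 hc.symm
      exact this
    exact hx'w₁ h2
  have hPx' : P x' := (hpow x₁ hPx₁ x' hx' hx'1).1
  have hconjx : w₁⁻¹ * x' * w₁⁻¹⁻¹ = x' * c := by rw [hc]; group
  have hPx'c : P (x' * c) := hconjx ▸ hconj x' hPx' w₁⁻¹
  have hnx'c : x' * c ∉ Subgroup.zpowers x' := by
    intro h
    have hcm : c ∈ Subgroup.zpowers x' := by
      have : c = x'⁻¹ * (x' * c) := by group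
      rw [this]
      exact mul_mem (inv_mem (Subgroup.mem_zpowers x')) h
    exact hx'w₁ (nc hPx' hcm hc1 hcw₁)
  have hPc : P c := by
    have := ha x' (x' * c) hPx' hPx'c ((Commute.refl x').mul_right hcx') hnx'c x'⁻¹
      (inv_mem (Subgroup.mem_zpowers x')) (x' * c) (Subgroup.mem_zpowers _) (by simpa using hc1)
    simpa using this
  have hcw : Commute c w := by
    have h1 : Commute c (b * z₂) := hw₁ ▸ hcw₁.symm
    exact nc hw hb' hb1 (comm_cancel h1 (cz hcz.symm hz₂))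
  have hcx : Commute c x := by
    have h0 : Commute c x₁ := cz hcx'.symm (hpow x₁ hPx₁ x' hx' hx'1).2
    have h1 : Commute c (a * z₁) := hx₁ ▸ h0
    exact nc hx ha' ha1 (comm_cancel h1 (cz hcz.symm hz₁))
  obtain ⟨k, hk⟩ := Subgroup.mem_zpowers_iff.1 hx'
  have haz₁ : Commute a z₁ := cz hza.symm hz₁
  have hx'dec : x' = a ^ k * z₁ ^ k := by rw [← hk, hx₁, haz₁.mul_zpow]
  have hform : ∀ e, Commute e x → Commute e w → Commute e c := by
    intro e hex hew
    obtain ⟨a', ha'd⟩ : ∃ a', a' = a ^ k := ⟨_, rfl⟩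
    obtain ⟨ζ, hζd⟩ : ∃ ζ, ζ = z₁ ^ k := ⟨_, rfl⟩
    have ha'm : a' ∈ Subgroup.zpowers x := ha'd ▸ Subgroup.zpow_mem _ ha' k
    have hζm : ζ ∈ Subgroup.zpowers z := hζd ▸ Subgroup.zpow_mem _ hz₁ k
    have hea : Commute e a' := cz hex ha'm
    have heb : Commute e b := cz hew hb'
    have hza' : Commute z a' := cz hxz.symm ha'm
    have h1 : Commute a' ζ := cz hza'.symm hζm
    have h2 : Commute a' z₂ := cz hza'.symm hz₂
    have h3 : Commute b ζ := cz hzb.symm hζm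
    have h4 : Commute b z₂ := cz hzb.symm hz₂
    have h5 : Commute ζ z₂ := cz (cz (Commute.refl z) hζm).symm hz₂
    have e1 : x' * w₁ = (a' * b) * (ζ * z₂) := by
      rw [hx'dec, hw₁, ← ha'd, ← hζd]
      calc a' * ζ * (b * z₂) = a' * (ζ * b) * z₂ := by group
        _ = a' * (b * ζ) * z₂ := by rw [h3.eq]
        _ = _ := by group
    have e2 : w₁ * x' = (b * a') * (ζ * z₂) := by
      rw [hx'dec, hw₁, ← ha'd, ← hζd]
      calc b * z₂ * (a' * ζ) = b * (z₂ * a') * ζ := by group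
        _ = b * (a' * z₂) * ζ := by rw [h2.eq]
        _ = b * a' * (z₂ * ζ) := by group
        _ = _ := by rw [h5.eq]
    have hs : Commute (ζ * z₂) ((b * a')⁻¹ * (a' * b)) := by
      have ha : Commute (ζ * z₂) a' := (h1.symm.mul_left h2.symm)
      have hb : Commute (ζ * z₂) b := (h3.symm.mul_left h4.symm)
      exact ((hb.mul_right ha).inv_right).mul_right (ha.mul_right hb)
    have e3 : c = (b * a')⁻¹ * (a' * b) := by
      rw [hc, e1, e2]
      calc (b * a' * (ζ * z₂))⁻¹ * (a' * b * (ζ * z₂))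
          = (ζ * z₂)⁻¹ * ((b * a')⁻¹ * (a' * b)) * (ζ * z₂) := by group
        _ = _ := hs.inv_mul_cancel
    rw [e3]
    exact ((heb.mul_right hea).inv_right).mul_right (hea.mul_right heb)
  have hsub : {t | P t ∧ Commute x t} ⊂ {t | P t ∧ Commute c t} := by
    refine ⟨?_, ?_⟩
    · rintro t ⟨ht, hxt⟩
      refine ⟨ht, ?_⟩
      by_cases htx : t ∈ Subgroup.zpowers x
      · exact cz hcx htx
      · obtain ⟨x'', hx'', t'', ht'', hne'', hcom''⟩ := hb x t hx ht hxt htx w hw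
        have ht''1 : t'' ≠ 1 := by
          rintro rfl
          rw [mul_one] at hne'' hcom''
          exact hxw (nc hx hx'' hne'' hcom''.symm).symm
        have hex : Commute (x'' * t'') x :=
          ((cz (Commute.refl x) hx'').mul_right (cz hxt ht'')).symm
        have hec := hform _ hex hcom''
        exact nc ht ht'' ht''1 (comm_cancel' hec.symm (cz hcx hx''))
    · intro hsub
      exact hxw (hsub ⟨hw, hcw⟩).2
  have hlt := Set.ncard_lt_ncard hsub (Set.toFinite _)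
  have hle := hmax ⟨c, hPc⟩
  simp only at hle
  omega

/-- Let p be a prime and K a set of subgroups of order p of a finite group G, closed under conjugation, such that at least two distinct members of K commute elementwise, and whenever two distinct members X, Y of K commute: every subgroup of order p of the group XY they generate belongs to K, and every member W of K has centralizer meeting XY nontrivially. Then some member V of K commutes elementwise with every member of K and lies in O_p(G); in particular G is not simple. -/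
theorem result {G : Type*} [Group G] [Finite G]
    {p : ℕ} (hp : p.Prime) (K : Set (Subgroup G)) (hK : ∀ X ∈ K, Nat.card ↥X = p)
    (hKc : ∀ X ∈ K, ∀ g : G, X.map (MulAut.conj g).toMonoidHom ∈ K)
    (hex : ∃ X ∈ K, ∃ Y ∈ K, X ≠ Y ∧ ∀ x ∈ X, ∀ y ∈ Y, x * y = y * x)
    (ha : ∀ X ∈ K, ∀ Y ∈ K, X ≠ Y → (∀ x ∈ X, ∀ y ∈ Y, x * y = y * x) →
      ∀ Z : Subgroup G, Z ≤ X ⊔ Y → Nat.card ↥Z = p → Z ∈ K)
    (hb : ∀ X ∈ K, ∀ Y ∈ K, X ≠ Y → (∀ x ∈ X, ∀ y ∈ Y, x * y = y * x) →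
      ∀ W ∈ K, (X ⊔ Y) ⊓ Subgroup.centralizer (W : Set G) ≠ ⊥) :
    (∃ V ∈ K, (∀ W ∈ K, ∀ v ∈ V, ∀ w ∈ W, v * w = w * v) ∧ V ≤ Cfsg.pCore p G) ∧ ¬ IsSimpleGroup G := by
  have : Fact p.Prime := ⟨hp⟩
  have K1 : ∀ X ∈ K, ∀ x ∈ X, x ≠ 1 → Subgroup.zpowers x = X := by
    intro X hX x hx hx1
    apply Subgroup.eq_of_le_of_card_ge (Subgroup.zpowers_le.2 hx)
    have hd : Nat.card (Subgroup.zpowers x) ∣ Nat.card X :=
      Subgroup.card_dvd_of_le (Subgroup.zpowers_le.2 hx)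
    rw [hK X hX] at hd ⊢
    rcases (Nat.dvd_prime hp).1 hd with h | h
    · exfalso
      rw [Nat.card_zpowers, orderOf_eq_one_iff] at h
      exact hx1 h
    · exact h.ge
  have Kne : ∀ X ∈ K, ∃ x ∈ X, x ≠ 1 := by
    intro X hX
    have : X ≠ ⊥ := by
      intro e
      have h := hK X hX
      rw [e] at h
      simp at h
      exact hp.one_lt.ne h
    obtain ⟨⟨x, hx⟩, hx1⟩ := Subgroup.ne_bot_iff_exists_ne_one.1 this
    exact ⟨x, hx, fun e => hx1 (Subtype.ext e)⟩
  have Kpow : ∀ X ∈ K, ∀ x ∈ X, x ^ p = 1 := by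
    intro X hX x hx
    have := pow_card_eq_one' (G := X) (x := ⟨x, hx⟩)
    rw [hK X hX] at this
    exact congrArg Subtype.val this
  obtain ⟨P, hPdef⟩ : ∃ P : G → Prop, ∀ x, P x ↔ (x ≠ 1 ∧ Subgroup.zpowers x ∈ K) :=
    ⟨fun x => x ≠ 1 ∧ Subgroup.zpowers x ∈ K, fun x => Iff.rfl⟩
  have hcommZ : ∀ x y : G, Commute x y → ∀ x' ∈ Subgroup.zpowers x, ∀ y' ∈ Subgroup.zpowers y,
      x' * y' = y' * x' := by
    intro x y hxy x' hx' y' hy'
    exact (cz (cz hxy hy').symm hx').symm.eq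
  have hneZ : ∀ x y : G, y ∉ Subgroup.zpowers x → Subgroup.zpowers x ≠ Subgroup.zpowers y := by
    intro x y hy e
    exact hy (e ▸ Subgroup.mem_zpowers y)
  have hPconj : ∀ x, P x → ∀ g, P (g * x * g⁻¹) := by
    intro x hx g
    obtain ⟨hx1, hxK⟩ := (hPdef x).1 hx
    refine (hPdef _).2 ⟨?_, ?_⟩
    · intro e
      apply hx1
      have : x = g⁻¹ * (g * x * g⁻¹) * g := by group
      rw [this, e]; group
    · have := hKc _ hxK g
      rw [MonoidHom.map_zpowers] at this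
      exact this
  have hcore : ∃ v, P v ∧ ∀ w, P w → Commute v w := by
    apply core P
    · intro x hx
      exact ((hPdef x).1 hx).1
    · intro x hx y hy hy1
      have e := K1 _ ((hPdef x).1 hx).2 y hy hy1
      refine ⟨(hPdef y).2 ⟨hy1, e ▸ ((hPdef x).1 hx).2⟩, e ▸ Subgroup.mem_zpowers x⟩
    · exact hPconj
    · obtain ⟨X, hX, Y, hY, hne, hXY⟩ := hex
      obtain ⟨x, hx, hx1⟩ := Kne X hX
      obtain ⟨y, hy, hy1⟩ := Kne Y hY
      refine ⟨x, y, (hPdef x).2 ⟨hx1, (K1 X hX x hx hx1).symm ▸ hX⟩,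
        (hPdef y).2 ⟨hy1, (K1 Y hY y hy hy1).symm ▸ hY⟩, hXY x hx y hy, ?_⟩
      intro h
      rw [K1 X hX x hx hx1] at h
      exact hne ((K1 X hX y h hy1).symm.trans (K1 Y hY y hy hy1))
    · intro x y hx hy hxy hyn x' hx' y' hy' hne
      obtain ⟨hx1, hxK⟩ := (hPdef x).1 hx
      obtain ⟨hy1, hyK⟩ := (hPdef y).1 hy
      refine (hPdef _).2 ⟨hne, ?_⟩
      apply ha _ hxK _ hyK (hneZ x y hyn) (hcommZ x y hxy)
      · rw [Subgroup.zpowers_le]
        exact mul_mem ((le_sup_left : Subgroup.zpowers x ≤ _) hx')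
          ((le_sup_right : Subgroup.zpowers y ≤ _) hy')
      · rw [Nat.card_zpowers]
        apply orderOf_eq_prime _ hne
        have hc : Commute x' y' := hcommZ x y hxy x' hx' y' hy'
        rw [hc.mul_pow, Kpow _ hxK x' hx', Kpow _ hyK y' hy', one_mul]
    · intro x y hx hy hxy hyn w hw
      obtain ⟨hx1, hxK⟩ := (hPdef x).1 hx
      obtain ⟨hy1, hyK⟩ := (hPdef y).1 hy
      obtain ⟨hw1, hwK⟩ := (hPdef w).1 hw
      have := hb _ hxK _ hyK (hneZ x y hyn) (hcommZ x y hxy) _ hwK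
      obtain ⟨⟨e, he⟩, he1⟩ := Subgroup.ne_bot_iff_exists_ne_one.1 this
      obtain ⟨heS, heC⟩ := Subgroup.mem_inf.1 he
      have hnorm : Subgroup.zpowers x ≤ Subgroup.normalizer (Subgroup.zpowers y : Set G) := by
        refine le_trans ?_ (centralizer_le_normalizer' _)
        intro x' hx'
        rw [Subgroup.mem_centralizer_iff]
        intro y' hy'
        exact (hcommZ x y hxy x' hx' y' hy').symm
      obtain ⟨x', hx', y', hy', rfl⟩ := (mem_sup_of_le_normalizer hnorm).1 heS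
      refine ⟨x', hx', y', hy', fun e => he1 (Subtype.ext e), ?_⟩
      exact (Subgroup.mem_centralizer_iff.1 heC w (Subgroup.mem_zpowers w)).symm
  obtain ⟨v, hv, hvall⟩ := hcore
  obtain ⟨hv1, hvK⟩ := (hPdef v).1 hv
  have hvW : ∀ W ∈ K, ∀ w ∈ W, Commute v w := by
    intro W hW w hw
    by_cases hw1 : w = 1
    · rw [hw1]; exact Commute.one_right v
    · exact hvall w ((hPdef w).2 ⟨hw1, (K1 W hW w hw hw1).symm ▸ hW⟩)
  have hconjall : ∀ g w, P w → Commute (g * v * g⁻¹) w := by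
    intro g w hw
    have hP' : P (g⁻¹ * w * g⁻¹⁻¹) := hPconj w hw g⁻¹
    have h1 := hvall _ hP'
    have h2 : w = g * (g⁻¹ * w * g⁻¹⁻¹) * g⁻¹ := by group
    rw [h2]
    exact (Commute.conj_iff g).2 h1
  have hS : ∀ s ∈ Group.conjugatesOfSet {v}, P s ∧ ∀ w, P w → Commute s w := by
    intro s hs
    obtain ⟨b, hb, hbs⟩ := Group.mem_conjugatesOfSet_iff.1 hs
    rw [Set.mem_singleton_iff] at hb
    subst hb
    obtain ⟨c, rfl⟩ := isConj_iff.1 hbs
    exact ⟨hPconj _ hv c, hconjall c⟩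
  have hNdef : Subgroup.normalClosure {v} = Subgroup.closure (Group.conjugatesOfSet {v}) := rfl
  have hN1 : Subgroup.normalClosure {v} ≤ Subgroup.centralizer (Group.conjugatesOfSet {v}) := by
    rw [hNdef, Subgroup.closure_le]
    intro s hs
    rw [SetLike.mem_coe, Subgroup.mem_centralizer_iff]
    intro t ht
    exact ((hS t ht).2 s (hS s hs).1).eq
  have hN2 : Subgroup.normalClosure {v} ≤
      Subgroup.centralizer (Subgroup.normalClosure {v} : Set G) := by
    refine le_trans ?_ (Subgroup.centralizer_le (show ((Subgroup.normalClosure {v} : Subgroup G) : Set G) ⊆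
      (Subgroup.centralizer (Group.conjugatesOfSet {v}) : Subgroup G) from hN1))
    rw [hNdef]
    exact Subgroup.closure_le_centralizer_centralizer _
  have hNpow : ∀ a ∈ Subgroup.normalClosure {v}, a ^ p = 1 := by
    intro a ha'
    rw [hNdef] at ha'
    induction ha' using Subgroup.closure_induction with
    | mem s hs => exact Kpow _ ((hPdef s).1 (hS s hs).1).2 s (Subgroup.mem_zpowers s)
    | one => exact one_pow p
    | mul a b ha hb iha ihb =>
      have hc : Commute a b := (Subgroup.mem_centralizer_iff.1 (hN2 (hNdef ▸ hb)) a (hNdef ▸ ha))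
      rw [hc.mul_pow, iha, ihb, one_mul]
    | inv a ha iha => rw [inv_pow, iha, inv_one]
  have hNp : IsPGroup p (Subgroup.normalClosure {v} : Subgroup G) := by
    intro a
    exact ⟨1, by rw [pow_one]; exact Subtype.ext (hNpow a a.2)⟩
  have hvN : v ∈ Subgroup.normalClosure {v} := Subgroup.subset_normalClosure rfl
  refine ⟨⟨Subgroup.zpowers v, hvK, ?_, ?_⟩, ?_⟩
  · intro W hW v' hv' w hw
    exact (cz (hvW W hW w hw).symm hv').symm.eq
  · refine le_trans (Subgroup.zpowers_le.2 hvN) ?_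
    exact le_sSup (show Subgroup.normalClosure {v} ∈ {N : Subgroup G | N.Normal ∧ IsPGroup p N}
      from ⟨Subgroup.normalClosure_normal, hNp⟩)
  · intro hs
    rcases hs.eq_bot_or_eq_top_of_normal (Subgroup.normalClosure {v})
      Subgroup.normalClosure_normal with h0 | h0
    · rw [h0] at hvN
      exact hv1 (Subgroup.mem_bot.1 hvN)
    · have hall : ∀ a b : G, a * b = b * a := by
        intro a b
        have ha : a ∈ Subgroup.normalClosure {v} := h0 ▸ Subgroup.mem_top a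
        have hb : b ∈ Subgroup.normalClosure {v} := h0 ▸ Subgroup.mem_top b
        exact Subgroup.mem_centralizer_iff.1 (hN2 hb) a ha
      have htop : ∀ X ∈ K, X = ⊤ := by
        intro X hX
        have hXn : X.Normal := ⟨fun n hn g => by rw [hall g n, mul_assoc, mul_inv_cancel, mul_one]; exact hn⟩
        rcases hs.eq_bot_or_eq_top_of_normal X hXn with h1 | h1
        · obtain ⟨x, hx, hx1⟩ := Kne X hX
          rw [h1] at hx
          exact absurd (Subgroup.mem_bot.1 hx) hx1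
        · exact h1
      obtain ⟨X, hX, Y, hY, hne, -⟩ := hex
      exact hne ((htop X hX).trans (htop Y hY).symm)

end Cfsg.Agent.S3196
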