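import Cfsg.Statements.S3200
-- import your own Cfsg.Agent.* helpers here
import Mathlib
import Cfsg.Agent.S0003
import Cfsg.Agent.S0004
import Cfsg.Agent.S0005
import Cfsg.Agent.S0143
import Cfsg.Agent.Lib.Helper23.Core

set_option autoImplicit false
open Cfsg

namespace Cfsg.Agent.S3200

universe u

/-- `C` is an abelian subgroup of odd order and 2-power index. -/
def AC {H : Type*} [Group H] (C : Subgroup H) : Prop :=
  IsMulCommutative ↥C ∧ Odd (Nat.card C) ∧ ∃ k : ℕ, C.index = 2 ^ k

lemma ac_of_complement {H : Type*} [Group H] [Finite H] (S : Sylow 2 H) (C : Subgroup H)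
    (hC : IsMulCommutative ↥C) (hSC : Subgroup.IsComplement' (S : Subgroup H) C) : AC C := by
  refine ⟨hC, ?_, ?_⟩
  · have h1 : (S : Subgroup H).index = Nat.card C := hSC.symm.index_eq_card
    rw [← h1, ← Nat.not_even_iff_odd, even_iff_two_dvd]
    exact S.not_dvd_index
  · obtain ⟨k, hk⟩ := (IsPGroup.iff_card).mp S.2
    exact ⟨k, by rw [hSC.index_eq_card, hk]⟩

lemma complement_of_ac {H : Type*} [Group H] [Finite H] (C : Subgroup H) (hC : AC C)
    (S : Sylow 2 H) : Subgroup.IsComplement' (S : Subgroup H) C := by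
  obtain ⟨-, hodd, k, hk⟩ := hC
  obtain ⟨j, hj⟩ := (IsPGroup.iff_card).mp S.2
  have h1 : Nat.card C * 2 ^ k = Nat.card H := by rw [← hk]; exact C.card_mul_index
  have h2 : 2 ^ j * (S : Subgroup H).index = Nat.card H := by
    rw [← hj]; exact (S : Subgroup H).card_mul_index
  have hSodd : Nat.Coprime 2 (S : Subgroup H).index :=
    (Nat.Prime.coprime_iff_not_dvd Nat.prime_two).mpr S.not_dvd_index
  have hCodd : Nat.Coprime 2 (Nat.card C) := Nat.coprime_two_left.mpr hodd
  have hjk : 2 ^ j = 2 ^ k := by
    apply Nat.dvd_antisymm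
    · have : 2 ^ j ∣ Nat.card C * 2 ^ k := by rw [h1, ← h2]; exact dvd_mul_right _ _
      exact (Nat.Coprime.pow_left j hCodd).dvd_of_dvd_mul_left this
    · have : 2 ^ k ∣ 2 ^ j * (S : Subgroup H).index := by rw [h2, ← h1]; exact dvd_mul_left _ _
      exact (Nat.Coprime.pow_left k hSodd).dvd_of_dvd_mul_right this
  apply Subgroup.isComplement'_of_coprime
  · rw [hj, hjk, mul_comm]; exact h1
  · rw [hj]; exact Nat.Coprime.pow_left j hCodd

lemma ac_quotient {H : Type*} [Group H] [Finite H] (C : Subgroup H) (hC : AC C)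
    (N : Subgroup H) [N.Normal] : AC (C.map (QuotientGroup.mk' N)) := by
  obtain ⟨hcomm, hodd, k, hk⟩ := hC
  refine ⟨inferInstance, ?_, ?_⟩
  · exact Odd.of_dvd_nat hodd (Subgroup.card_map_dvd C _)
  · have h := C.index_map_dvd (QuotientGroup.mk'_surjective N)
    rw [hk] at h
    obtain ⟨j, -, hj⟩ := (Nat.dvd_prime_pow Nat.prime_two).mp h
    exact ⟨j, hj⟩

lemma ac_normal {H : Type*} [Group H] [Finite H] (C : Subgroup H) (hC : AC C)
    (N : Subgroup H) [N.Normal] : AC (C.subgroupOf N) := by
  obtain ⟨hcomm, hodd, k, hk⟩ := hC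
  refine ⟨inferInstance, ?_, ?_⟩
  · exact Odd.of_dvd_nat hodd (Subgroup.card_comap_dvd_of_injective C N.subtype N.subtype_injective)
  · have h : C.relIndex N ∣ C.index := Cfsg.Agent.Lib.Helper23.relIndex_dvd_index_of_normal_right C N
    rw [hk] at h
    obtain ⟨j, -, hj⟩ := (Nat.dvd_prime_pow Nat.prime_two).mp h
    exact ⟨j, hj⟩

lemma solvable_of_ac : ∀ (n : ℕ) (H : Type u) [Group H] [Finite H], Nat.card H ≤ n →
    ∀ C : Subgroup H, AC C → Group.IsSolvable H := by
  intro n
  induction n with
  | zero =>
    intro H _ _ hn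
    have := Nat.card_pos (α := H)
    omega
  | succ n ih =>
    intro H _ _ hn C hC
    by_cases hsimple : ∃ N : Subgroup H, N.Normal ∧ N ≠ ⊥ ∧ N ≠ ⊤
    · obtain ⟨N, hN, hbot, htop⟩ := hsimple
      have hmul := N.card_mul_index
      have hc1 : 1 < Nat.card N := by
        rw [Subgroup.one_lt_card_iff_ne_bot]; exact hbot
      have hi1 : 1 < N.index := by
        have h0 : N.index ≠ 0 := Subgroup.index_ne_zero_of_finite
        have h1 : N.index ≠ 1 := fun h => htop (Subgroup.index_eq_one.mp h)
        omega
      have hcN : Nat.card N ≤ n := by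
        have : Nat.card N * 2 ≤ Nat.card N * N.index := Nat.mul_le_mul_left _ hi1
        omega
      have hcQ : Nat.card (H ⧸ N) ≤ n := by
        have h3 : Nat.card (H ⧸ N) = N.index := rfl
        have : 2 * N.index ≤ Nat.card N * N.index := Nat.mul_le_mul_right _ hc1
        omega
      rw [Group.isSolvable_iff_subgroup_quotient N]
      exact ⟨ih N hcN _ (ac_normal C hC N), ih (H ⧸ N) hcQ _ (ac_quotient C hC N)⟩
    · push Not at hsimple
      by_cases htriv : Subsingleton H
      · infer_instance
      · rw [not_subsingleton_iff_nontrivial] at htriv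
        have hS : IsSimpleGroup H :=
          { exists_pair_ne := htriv.exists_pair_ne
            eq_bot_or_eq_top_of_normal := fun N hN => by
              by_cases h : N = ⊥
              · exact Or.inl h
              · exact Or.inr (hsimple N hN h) }
        obtain ⟨hcomm, hodd, k, hk⟩ := hC
        by_cases hCbot : C = ⊥
        · have hp : IsPGroup 2 H := by
            apply IsPGroup.of_card (n := k)
            rw [← hk, hCbot, Subgroup.index_bot]
          have := hp.isNilpotent
          infer_instance
        · obtain ⟨c, hcC, hc1⟩ : ∃ c ∈ C, c ≠ 1 := by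
            by_contra hcon
            push Not at hcon
            exact hCbot ((Subgroup.eq_bot_iff_forall C).mpr hcon)
          have hle : C ≤ Subgroup.centralizer ({c} : Set H) := by
            intro d hd
            rw [Subgroup.mem_centralizer_singleton_iff]
            have := setLike_mul_comm (s := C) hd hcC
            exact this
          have hdvd := Subgroup.index_dvd_of_le hle
          rw [hk] at hdvd
          obtain ⟨j, -, hj⟩ := (Nat.dvd_prime_pow Nat.prime_two).mp hdvd
          have hprime := Cfsg.Agent.S0143.result 2 j Nat.prime_two c hc1 hj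
          have : Fact (Nat.card H).Prime := ⟨hprime⟩
          have hcyc : IsCyclic H := isCyclic_of_prime_card rfl
          exact Group.isSolvable_of_comm (isMulCommutative_iff.mp hcyc.isMulCommutative)

/-- Let H be a finite group in which a Sylow 2-subgroup has an abelian complement (an abelian subgroup meeting it trivially whose product with it is all of H). Then H is solvable, and every subgroup and every quotient group of H again has a Sylow 2-subgroup with an abelian complement. -/
theorem result {H : Type*} [Group H] [Finite H]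
    (S : Sylow 2 H) (C : Subgroup H) (hC : IsMulCommutative ↥C) (hSC : Subgroup.IsComplement' (S : Subgroup H) C) :
    Group.IsSolvable H ∧
    (∀ L : Subgroup H, ∃ (P : Sylow 2 ↥L) (D : Subgroup ↥L), IsMulCommutative ↥D ∧ Subgroup.IsComplement' (P : Subgroup ↥L) D) ∧
    (∀ (N : Subgroup H) [N.Normal], ∃ (P : Sylow 2 (H ⧸ N)) (D : Subgroup (H ⧸ N)),
      IsMulCommutative ↥D ∧ Subgroup.IsComplement' (P : Subgroup (H ⧸ N)) D) := by
  open scoped Pointwise in
  have hAC : AC C := ac_of_complement S C hC hSC
  have hsol : Group.IsSolvable H := solvable_of_ac _ H le_rfl C hAC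
  refine ⟨hsol, ?_, ?_⟩
  · intro L
    obtain ⟨P⟩ : Nonempty (Sylow 2 ↥L) := inferInstance
    obtain ⟨j, hj⟩ := (IsPGroup.iff_card).mp P.2
    have hPodd : Nat.Coprime 2 (P : Subgroup L).index :=
      (Nat.Prime.coprime_iff_not_dvd Nat.prime_two).mpr P.not_dvd_index
    have hcardL : Nat.card L = (P : Subgroup L).index * 2 ^ j := by
      rw [← hj, mul_comm]; exact (P : Subgroup L).card_mul_index.symm
    obtain ⟨D, hD⟩ := Cfsg.Agent.S0003.result (G := L) _ _ hcardL
      (Nat.Coprime.pow_right j hPodd.symm)
    obtain ⟨hcomm, hodd, k, hk⟩ := hAC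
    have hcardH : Nat.card H = Nat.card C * 2 ^ k := by rw [← hk]; exact C.card_mul_index.symm
    have hcop : (Nat.card C).Coprime (2 ^ k) :=
      Nat.Coprime.pow_right k (Nat.coprime_two_right.mpr hodd)
    have hD' : (Nat.card (D.map L.subtype)).Coprime (2 ^ k) := by
      rw [Subgroup.card_map_of_injective L.subtype_injective, hD]
      exact Nat.Coprime.pow_right k hPodd.symm
    obtain ⟨H₁, hH₁, hDH₁⟩ := Cfsg.Agent.S0005.result _ _ hcardH hcop (D.map L.subtype) hD'
    obtain ⟨g, hg⟩ := Cfsg.Agent.S0004.result _ _ hcardH hcop C H₁ rfl hH₁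
    have hDcomm : IsMulCommutative ↥D := by
      apply IsMulCommutative.of_setLike_mul_comm
      intro a ha b hb
      have ha' : (a : H) ∈ MulAut.conj g • C := by
        rw [hg]; exact hDH₁ ⟨a, ha, rfl⟩
      have hb' : (b : H) ∈ MulAut.conj g • C := by
        rw [hg]; exact hDH₁ ⟨b, hb, rfl⟩
      obtain ⟨x, hx, hxa⟩ := ha'
      obtain ⟨y, hy, hyb⟩ := hb'
      have hxy : x * y = y * x := setLike_mul_comm (s := C) hx hy
      apply Subtype.ext
      simp only [Subgroup.coe_mul]
      rw [← hxa, ← hyb]
      simp only [MulDistribMulAction.toMonoidEnd_apply, MulDistribMulAction.toMonoidHom_apply,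
        MulAut.smul_def, ← map_mul, hxy]
    have hACD : AC D := by
      refine ⟨hDcomm, ?_, j, ?_⟩
      · rw [hD]; exact Nat.coprime_two_left.mp hPodd
      · have h1 := D.card_mul_index
        rw [hD, hcardL] at h1
        have hpos : 0 < (P : Subgroup L).index := Nat.pos_of_ne_zero Subgroup.index_ne_zero_of_finite
        exact Nat.eq_of_mul_eq_mul_left hpos h1
    exact ⟨P, D, hDcomm, complement_of_ac D hACD P⟩
  · intro N _
    obtain ⟨P⟩ : Nonempty (Sylow 2 (H ⧸ N)) := inferInstance
    have h := ac_quotient C hAC N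
    exact ⟨P, _, h.1, complement_of_ac _ h P⟩

end Cfsg.Agent.S3200
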