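import Cfsg.Statements.S3201
-- import your own Cfsg.Agent.* helpers here
import Mathlib
import Cfsg.Agent.S0016
import Cfsg.Agent.Lib.Helper1.Frattini

set_option autoImplicit false
open Cfsg

namespace Cfsg.Agent.S3201


/-- complement from squares -/
theorem compl_of_sq {S : Type*} [Group S] [Finite S] (F D : Subgroup S)
    (hDZ : D ≤ Subgroup.center S) (hF : ∀ y : S, y ^ 2 ∈ F) (hFD : ∀ x ∈ F, x ∈ D → x = 1) :
    ∃ Q : Subgroup S, F ≤ Q ∧ (∀ x ∈ Q, x ∈ D → x = 1) ∧ D ⊔ Q = ⊤ := by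
  obtain ⟨Q, hFQ, hQ⟩ := Finite.exists_le_maximal
    (p := fun Q : Subgroup S => F ≤ Q ∧ ∀ x ∈ Q, x ∈ D → x = 1) (a := F) ⟨le_rfl, hFD⟩
  refine ⟨Q, hFQ, hQ.prop.2, ?_⟩
  have hQn : Q.Normal := by
    constructor
    intro q hq g
    have : g * q * g⁻¹ = (g * q) ^ 2 * (q⁻¹ * g⁻¹ * q) ^ 2 * (q⁻¹) ^ 2 * q := by
      simp only [pow_two]; group
    rw [this]
    exact Q.mul_mem (Q.mul_mem (Q.mul_mem (hFQ (hF _)) (hFQ (hF _))) (hFQ (hF _))) hq
  by_contra hne
  obtain ⟨x, hx⟩ : ∃ x : S, x ∉ D ⊔ Q := by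
    by_contra hcon
    push Not at hcon
    exact hne (eq_top_iff.mpr fun x _ => hcon x)
  have hQ' : F ≤ Q ⊔ Subgroup.zpowers x ∧ ∀ g ∈ Q ⊔ Subgroup.zpowers x, g ∈ D → g = 1 := by
    refine ⟨hFQ.trans le_sup_left, ?_⟩
    intro g hg hgD
    obtain ⟨q, hq, y, hy, rfl⟩ := Subgroup.mem_sup_of_normal_left.mp hg
    obtain ⟨j, rfl⟩ := Subgroup.mem_zpowers_iff.mp hy
    obtain ⟨k, hk | hk⟩ := Int.even_or_odd' j
    · have h1 : x ^ j ∈ Q := by
        rw [hk, zpow_mul]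
        exact Q.zpow_mem (hFQ (by simpa using hF x)) k
      exact hQ.prop.2 _ (Q.mul_mem hq h1) hgD
    · exfalso
      have h1 : x ^ j = x * (x ^ 2) ^ k := by
        rw [hk, zpow_add, zpow_mul, zpow_one]
        have : x ^ (2 : ℤ) = x ^ 2 := by norm_cast
        rw [this]
        exact ((Commute.refl x).pow_left 2).zpow_left k |>.eq
      have h2 : (x ^ 2) ^ k ∈ Q := Q.zpow_mem (hFQ (hF x)) k
      apply hx
      have h3 : x = (q * x ^ j) * (q⁻¹ * ((x ^ 2) ^ k)⁻¹) := by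
        have hc : ∀ s : S, (q * x ^ j) * s = s * (q * x ^ j) := fun s =>
          (Subgroup.mem_center_iff.mp (hDZ hgD) s).symm
        rw [← mul_assoc, hc q⁻¹, h1]
        group
      rw [h3]
      exact Subgroup.mul_mem_sup hgD (Q.mul_mem (Q.inv_mem hq) (Q.inv_mem h2))
  have hle : Q ⊔ Subgroup.zpowers x ≤ Q := hQ.le_of_ge hQ' le_sup_left
  exact hx ((le_sup_right : Q ≤ D ⊔ Q) (hle ((le_sup_right : _ ≤ Q ⊔ Subgroup.zpowers x)
    (Subgroup.mem_zpowers x))))

theorem core {S : Type*} [Group S] [Finite S] (hS : IsPGroup 2 S) {ι : Type*} (i0 : ι)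
    (D : ι → Subgroup S)
    (hDZ : ∀ i, D i ≤ Subgroup.center S)
    (hsq : ∀ z ∈ Subgroup.center S, z ^ 2 = 1)
    (hne : ∀ i, ∃ z ∈ Subgroup.center S, z ∉ D i)
    (hint : ∀ x, (∀ i, x ∈ D i) → x = 1)
    (hq : ∀ i, ∃ (_ : (D i).Normal), ¬ IsMulCommutative (S ⧸ D i) ∧
      ∃! x : S ⧸ D i, orderOf x = 2) :
    ∃ E Q : Subgroup S, Cfsg.IsInternalDirectProduct E Q ⊤ ∧ Cfsg.IsElementaryAbelian 2 E ∧
      ¬ IsMulCommutative ↥Q ∧ ∃! x : ↥Q, orderOf x = 2 := by
  haveI : Fact (Nat.Prime 2) := ⟨Nat.prime_two⟩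
  have c3 : ∀ i x y, x ^ 2 ∈ D i → x ∉ D i → y ^ 2 ∈ D i → y ∉ D i → x⁻¹ * y ∈ D i := by
    intro i x y hx2 hx hy2 hy
    obtain ⟨hN, -, t, -, huniq⟩ := hq i
    have key : ∀ u : S, u ^ 2 ∈ D i → u ∉ D i → (u : S ⧸ D i) = t := by
      intro u hu2 hu
      apply huniq
      apply orderOf_eq_prime
      · rw [← QuotientGroup.mk_pow]; exact (QuotientGroup.eq_one_iff _).mpr hu2
      · intro h; exact hu ((QuotientGroup.eq_one_iff _).mp h)
    exact QuotientGroup.eq.mp ((key x hx2 hx).trans (key y hy2 hy).symm)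
  have c2 : ∀ i x, x ^ 2 ∈ D i → x ∈ Subgroup.center S := by
    intro i x hx2
    by_cases hx : x ∈ D i
    · exact hDZ i hx
    · obtain ⟨z, hz, hzD⟩ := hne i
      have := c3 i z x (by rw [hsq z hz]; exact one_mem _) hzD hx2 hx
      have h2 := (Subgroup.center S).mul_mem hz (hDZ i this)
      simpa using h2
  have c4 : ∀ y y', y ∉ Subgroup.center S → y ^ 2 ∈ Subgroup.center S →
      y' ∉ Subgroup.center S → y' ^ 2 ∈ Subgroup.center S → y ^ 2 = y' ^ 2 := by
    intro y y' hy hy2 hy' hy2'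
    have : (y ^ 2)⁻¹ * y' ^ 2 = 1 := by
      apply hint
      intro i
      apply c3 i
      · rw [hsq _ hy2]; exact one_mem _
      · intro h; exact hy (c2 i y h)
      · rw [hsq _ hy2']; exact one_mem _
      · intro h; exact hy' (c2 i y' h)
    exact inv_mul_eq_one.mp this
  obtain ⟨hN, hnc, t, ht, huniq⟩ := hq i0
  have hU : ∀ H K : Subgroup (S ⧸ D i0), Nat.card H = 2 → Nat.card K = 2 → H = K := by
    have key : ∀ H : Subgroup (S ⧸ D i0), Nat.card H = 2 → H = Subgroup.zpowers t := by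
      intro H hH
      obtain ⟨g, hg⟩ := exists_prime_orderOf_dvd_card' (G := H) 2 (by rw [hH])
      have hgt : (g : S ⧸ D i0) = t := huniq _ (by
        show orderOf (g : S ⧸ D i0) = 2
        rw [Subgroup.orderOf_coe]; exact hg)
      symm
      apply Subgroup.eq_of_le_of_card_ge
      · rw [Subgroup.zpowers_le, ← hgt]; exact g.2
      · rw [hH, Nat.card_zpowers, ht]
    intro H K hH hK
    rw [key H hH, key K hK]
  rcases Cfsg.Agent.S0016.result 2 (hS.to_quotient (D i0)) hU with hcyc | ⟨-, k, ⟨e⟩⟩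
  · exact absurd IsCyclic.isMulCommutative hnc
  have hk : k ≠ 0 := by
    rintro rfl
    apply hnc
    haveI : IsCyclic (QuaternionGroup (2 ^ 0)) := QuaternionGroup.quaternionGroup_one_isCyclic
    refine ⟨⟨fun a b => ?_⟩⟩
    apply e.injective
    rw [map_mul, map_mul]
    exact (IsCyclic.isMulCommutative (α := QuaternionGroup (2 ^ 0))).is_comm.comm _ _
  obtain ⟨m, rfl⟩ : ∃ m, k = m + 1 := Nat.exists_eq_succ_of_ne_zero hk
  obtain ⟨N, hNdef⟩ : ∃ N, N = 2 ^ (m + 1) := ⟨_, rfl⟩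
  rw [← hNdef] at e
  have hNpos : 0 < N := by rw [hNdef]; positivity
  haveI : NeZero N := ⟨hNpos.ne'⟩
  obtain ⟨π, hπ⟩ : ∃ π : S →* QuaternionGroup N, π = e.toMonoidHom.comp (QuotientGroup.mk' (D i0)) :=
    ⟨_, rfl⟩
  have hπs : Function.Surjective π := by
    rw [hπ]; exact e.surjective.comp (QuotientGroup.mk'_surjective _)
  have hπk : ∀ x, π x = 1 ↔ x ∈ D i0 := by
    intro x
    simp [hπ, QuotientGroup.eq_one_iff]
  obtain ⟨a0, ha0⟩ := hπs (QuaternionGroup.a 1)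
  have hNne : (QuaternionGroup.a (N : ZMod (2 * N)) : QuaternionGroup N) ≠ 1 := by
    rw [QuaternionGroup.one_def]
    intro h
    have h1 : (N : ZMod (2 * N)) = 0 := by injection h
    rw [ZMod.natCast_eq_zero_iff] at h1
    have := Nat.le_of_dvd hNpos h1
    omega
  have hNsq : (QuaternionGroup.a (N : ZMod (2 * N)) : QuaternionGroup N) ^ 2 = 1 := by
    rw [pow_two, QuaternionGroup.a_mul_a, QuaternionGroup.one_def]
    congr 1
    have : ((2 * N : ℕ) : ZMod (2 * N)) = 0 := ZMod.natCast_self _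
    push_cast at this
    rw [← this]; ring
  have P : ∀ y, π (y ^ 2) = QuaternionGroup.a (N : ZMod (2 * N)) →
      y ∉ Subgroup.center S ∧ y ^ 2 ∈ Subgroup.center S ∧ y ^ 2 ∉ D i0 := by
    intro y hy
    have h1 : y ^ 2 ∉ D i0 := fun h => hNne (hy ▸ (hπk _).mpr h)
    have h2 : (y ^ 2) ^ 2 ∈ D i0 := (hπk _).mp (by rw [map_pow, hy, hNsq])
    exact ⟨fun hyZ => h1 (by rw [hsq y hyZ]; exact one_mem _), c2 i0 _ h2, h1⟩
  obtain ⟨v, hvdef⟩ : ∃ v, v = a0 ^ (2 ^ m) := ⟨_, rfl⟩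
  have hv : π (v ^ 2) = QuaternionGroup.a (N : ZMod (2 * N)) := by
    rw [hvdef, ← pow_mul, map_pow, ha0, QuaternionGroup.a_one_pow, ← pow_succ, hNdef]
  have hF : ∀ y : S, y ^ 2 ∈ Subgroup.zpowers (a0 ^ 2) := by
    intro y
    rcases hy : π y with i | i
    · have h1 : π ((a0 ^ i.val)⁻¹ * y) = 1 := by
        rw [map_mul, map_inv, map_pow, ha0, QuaternionGroup.a_one_pow, ZMod.natCast_zmod_val, hy,
          inv_mul_cancel]
      have hd := (hπk _).mp h1
      obtain ⟨d, hddef⟩ : ∃ d, d = (a0 ^ i.val)⁻¹ * y := ⟨_, rfl⟩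
      rw [← hddef] at hd
      have hy' : y = a0 ^ i.val * d := by rw [hddef]; group
      have hdc := hDZ i0 hd
      have hcom : Commute (a0 ^ i.val) d := Subgroup.mem_center_iff.mp hdc _
      have : y ^ 2 = (a0 ^ 2) ^ i.val := by
        rw [hy', hcom.mul_pow, hsq d hdc, mul_one, ← pow_mul, ← pow_mul, mul_comm]
      rw [this]
      exact Subgroup.pow_mem _ (Subgroup.mem_zpowers _) _
    · have h1 : π (y ^ 2) = QuaternionGroup.a (N : ZMod (2 * N)) := by
        rw [map_pow, hy, QuaternionGroup.xa_sq]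
      have := c4 y v (P y h1).1 (P y h1).2.1 (P v hv).1 (P v hv).2.1
      rw [this, hvdef, ← pow_mul, mul_comm, pow_mul]
      exact Subgroup.pow_mem _ (Subgroup.mem_zpowers _) _
  have hFD : ∀ x ∈ Subgroup.zpowers (a0 ^ 2), x ∈ D i0 → x = 1 := by
    intro x hx hxD
    obtain ⟨j, rfl⟩ := Subgroup.mem_zpowers_iff.mp hx
    have h1 : (a0 ^ 2) ^ j = (a0 ^ j) ^ 2 := by
      rw [← zpow_natCast, ← zpow_natCast, ← zpow_mul, ← zpow_mul, mul_comm]
    rw [h1] at hxD ⊢
    exact hsq _ (c2 i0 _ hxD)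
  obtain ⟨Q, hFQ, hQD, hsup⟩ := compl_of_sq _ (D i0) (hDZ i0) hF hFD
  refine ⟨D i0, Q, ⟨le_top, le_top, ?_, ?_, hsup⟩, ⟨?_, ?_⟩, ?_, ?_⟩
  · intro a ha b _
    exact (Subgroup.mem_center_iff.mp (hDZ i0 ha) b).symm
  · rw [eq_bot_iff]
    intro x hx
    exact Subgroup.mem_bot.mpr (hQD x hx.2 hx.1)
  · exact ⟨⟨fun a b => Subtype.ext (Subgroup.mem_center_iff.mp (hDZ i0 a.2) b).symm⟩⟩
  · exact fun a ha => hsq a (hDZ i0 ha)
  · intro hQc
    apply hnc
    have hall : ∀ s : S, ∃ d ∈ D i0, ∃ q ∈ Q, d * q = s := fun s =>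
      Subgroup.mem_sup_of_normal_left.mp (hsup ▸ Subgroup.mem_top s)
    have hcomm : ∀ x y : S, x * y = y * x := by
      intro x y
      obtain ⟨d, hd, q, hq, rfl⟩ := hall x
      obtain ⟨d', hd', q', hq', rfl⟩ := hall y
      have hqq : Commute q q' := congrArg Subtype.val (hQc.is_comm.comm ⟨q, hq⟩ ⟨q', hq'⟩)
      have hcd : ∀ g, Commute d g := fun g => (Subgroup.mem_center_iff.mp (hDZ i0 hd) g).symm
      have hcd' : ∀ g, Commute d' g := fun g => (Subgroup.mem_center_iff.mp (hDZ i0 hd') g).symm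
      exact Commute.mul_left (hcd _) (Commute.mul_right (hcd' q).symm hqq)
    refine ⟨⟨fun x y => ?_⟩⟩
    obtain ⟨x, rfl⟩ := QuotientGroup.mk_surjective x
    obtain ⟨y, rfl⟩ := QuotientGroup.mk_surjective y
    rw [← QuotientGroup.mk_mul, ← QuotientGroup.mk_mul, hcomm]
  · refine ⟨⟨v ^ 2, hFQ (hF v)⟩, ?_, ?_⟩
    · show orderOf (⟨v ^ 2, hFQ (hF v)⟩ : Q) = 2
      rw [Subgroup.orderOf_mk]
      apply orderOf_eq_prime (hsq _ (P v hv).2.1)
      intro h
      exact (P v hv).2.2 (h ▸ one_mem _)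
    · intro x hx
      have hx' : orderOf (x : S) = 2 := by rw [Subgroup.orderOf_coe]; exact hx
      have hx2 : (x : S) ^ 2 = 1 := by rw [← hx']; exact pow_orderOf_eq_one _
      have hx1 : (x : S) ≠ 1 := by
        intro h
        rw [h, orderOf_one] at hx'
        omega
      have hxD : (x : S) ∉ D i0 := fun h => hx1 (hQD _ x.2 h)
      have := c3 i0 x (v ^ 2) (by rw [hx2]; exact one_mem _) hxD
        (by rw [hsq _ (P v hv).2.1]; exact one_mem _) (P v hv).2.2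
      have h1 := hQD _ (Q.mul_mem (Q.inv_mem x.2) (hFQ (hF v))) this
      exact Subtype.ext (inv_mul_eq_one.mp h1)

/-- Let S be a finite 2-group whose centre Z(S) has n ≥ 2 distinct maximal subgroups C₁, …, Cₙ with trivial intersection such that each quotient S/Cᵢ is a non-abelian group with exactly one involution (a generalized quaternion group). Then S is the internal direct product of an elementary abelian subgroup and a non-abelian subgroup with exactly one involution. -/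
theorem result {S : Type*} [Group S] [Finite S]
    (hS : IsPGroup 2 S) (n : ℕ) (hn : 2 ≤ n) (C : Fin n → Subgroup ↥(Subgroup.center S))
    (hCmax : ∀ i, IsCoatom (C i)) (hCinj : Function.Injective C) (hCint : ⨅ i, C i = ⊥)
    (hCq : ∀ i, ∃ (_ : ((C i).map (Subgroup.center S).subtype).Normal),
      ¬ IsMulCommutative (S ⧸ (C i).map (Subgroup.center S).subtype) ∧
      ∃! x : S ⧸ (C i).map (Subgroup.center S).subtype, orderOf x = 2) :
    ∃ E Q : Subgroup S, Cfsg.IsInternalDirectProduct E Q ⊤ ∧ Cfsg.IsElementaryAbelian 2 E ∧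
      ¬ IsMulCommutative ↥Q ∧ ∃! x : ↥Q, orderOf x = 2 := by
  haveI : Fact (Nat.Prime 2) := ⟨Nat.prime_two⟩
  have hZp : IsPGroup 2 (Subgroup.center S) := hS.to_subgroup _
  have hidx : ∀ i, (C i).index = 2 := fun i =>
    (Cfsg.Agent.Lib.Helper1.pgroup_coatom hZp (C i) (hCmax i)).2
  have hsqZ : ∀ z : Subgroup.center S, z ^ 2 = 1 := by
    intro z
    have : z ^ 2 ∈ ⨅ i, C i := by
      rw [Subgroup.mem_iInf]; intro i; exact Subgroup.sq_mem_of_index_two (hidx i) z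
    rw [hCint] at this
    exact Subgroup.mem_bot.mp this
  apply core hS (⟨0, by omega⟩ : Fin n) (fun i => (C i).map (Subgroup.center S).subtype)
  · intro i x hx
    obtain ⟨c, -, rfl⟩ := Subgroup.mem_map.mp hx
    exact c.2
  · intro z hz
    exact congrArg Subtype.val (hsqZ ⟨z, hz⟩)
  · intro i
    obtain ⟨z, hz⟩ : ∃ z, z ∉ C i := by
      by_contra h
      push Not at h
      exact (hCmax i).1 (eq_top_iff.mpr fun x _ => h x)
    refine ⟨z, z.2, ?_⟩
    intro h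
    obtain ⟨c, hc, hcz⟩ := Subgroup.mem_map.mp h
    have : c = z := Subtype.ext hcz
    exact hz (this ▸ hc)
  · intro x hx
    have hxZ : x ∈ Subgroup.center S := by
      obtain ⟨c, -, rfl⟩ := Subgroup.mem_map.mp (hx ⟨0, by omega⟩)
      exact c.2
    have : (⟨x, hxZ⟩ : Subgroup.center S) ∈ ⨅ i, C i := by
      rw [Subgroup.mem_iInf]
      intro i
      obtain ⟨c, hc, hcx⟩ := Subgroup.mem_map.mp (hx i)
      have : c = ⟨x, hxZ⟩ := Subtype.ext hcx
      exact this ▸ hc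
    rw [hCint] at this
    exact congrArg Subtype.val (Subgroup.mem_bot.mp this)
  · exact hCq

end Cfsg.Agent.S3201
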