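import Cfsg.Statements.S3202
-- import your own Cfsg.Agent.* helpers here
import Mathlib
import Cfsg.Agent.S0016

set_option autoImplicit false
open Cfsg

namespace Cfsg.Agent.S3202


open scoped commutatorElement in
theorem core {S : Type*} [Group S] [Finite S] (hS : IsPGroup 2 S) (D : Subgroup S)
    (hDZ : D ≤ Subgroup.center S)
    (hq : ∃ (_ : D.Normal), ¬ IsMulCommutative (S ⧸ D) ∧ ∃! x : S ⧸ D, orderOf x = 2) :
    ∃ C : Subgroup S, C ≠ ⊥ ∧ IsCyclic ↥C ∧ C.Characteristic := by
  haveI : Fact (Nat.Prime 2) := ⟨Nat.prime_two⟩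
  obtain ⟨hN, hnc, t, ht, huniq⟩ := hq
  have hU : ∀ H K : Subgroup (S ⧸ D), Nat.card H = 2 → Nat.card K = 2 → H = K := by
    have key : ∀ H : Subgroup (S ⧸ D), Nat.card H = 2 → H = Subgroup.zpowers t := by
      intro H hH
      obtain ⟨g, hg⟩ := exists_prime_orderOf_dvd_card' (G := H) 2 (by rw [hH])
      have hgt : (g : S ⧸ D) = t := huniq _ (by
        show orderOf (g : S ⧸ D) = 2
        rw [Subgroup.orderOf_coe]; exact hg)
      symm
      apply Subgroup.eq_of_le_of_card_ge
      · rw [Subgroup.zpowers_le, ← hgt]; exact g.2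
      · rw [hH, Nat.card_zpowers, ht]
    intro H K hH hK
    rw [key H hH, key K hK]
  rcases Cfsg.Agent.S0016.result 2 (hS.to_quotient D) hU with hcyc | ⟨-, k, ⟨e⟩⟩
  · exact absurd IsCyclic.isMulCommutative hnc
  obtain ⟨N, hNdef⟩ : ∃ N, N = 2 ^ k := ⟨_, rfl⟩
  rw [← hNdef] at e
  have hNpos : 0 < N := by rw [hNdef]; positivity
  haveI : NeZero N := ⟨hNpos.ne'⟩
  obtain ⟨π, hπ⟩ : ∃ π : S →* QuaternionGroup N, π = e.toMonoidHom.comp (QuotientGroup.mk' D) :=
    ⟨_, rfl⟩
  have hπs : Function.Surjective π := by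
    rw [hπ]; exact e.surjective.comp (QuotientGroup.mk'_surjective _)
  have hπk : ∀ x, π x = 1 ↔ x ∈ D := by
    intro x
    simp [hπ, QuotientGroup.eq_one_iff]
  obtain ⟨x, hx⟩ := hπs (QuaternionGroup.a 1)
  obtain ⟨y, hy⟩ := hπs (QuaternionGroup.xa 0)
  -- normal form
  have hnf : ∀ g : S, ∃ (i : ℕ) (d : S), d ∈ D ∧ (g = x ^ i * d ∨ g = y * (x ^ i * d)) := by
    intro g
    rcases hg : π g with i | i
    · refine ⟨i.val, (x ^ i.val)⁻¹ * g, ?_, Or.inl (by group)⟩
      rw [← hπk, map_mul, map_inv, map_pow, hx, QuaternionGroup.a_one_pow, ZMod.natCast_zmod_val,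
        hg, inv_mul_cancel]
    · refine ⟨i.val, (y * x ^ i.val)⁻¹ * g, ?_, Or.inr (by group)⟩
      rw [← hπk, map_mul, map_inv, map_mul, map_pow, hx, hy, QuaternionGroup.a_one_pow,
        ZMod.natCast_zmod_val, QuaternionGroup.xa_mul_a, zero_add, hg, inv_mul_cancel]
  obtain ⟨w, hw⟩ : ∃ w, w = y * x * y⁻¹ := ⟨_, rfl⟩
  have hxw : x * w ∈ D := by
    rw [← hπk, hw]
    simp only [map_mul, map_inv, hx, hy]
    rw [← mul_assoc, ← mul_assoc, QuaternionGroup.a_mul_xa, QuaternionGroup.xa_mul_a]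
    simp
  have hcen : ∀ g, g * (x * w) = (x * w) * g := Subgroup.mem_center_iff.mp (hDZ hxw)
  have H1 : Commute x w := by
    have := hcen x
    rw [mul_assoc] at this
    exact mul_left_cancel this
  have hyx : y * x = w * y := by rw [hw]; group
  have H3 : y * w * y⁻¹ = x := by
    have h1 := hcen y
    have h2 : w * (y * w) = w * (x * y) := by
      calc w * (y * w) = (w * y) * w := by rw [mul_assoc]
        _ = y * (x * w) := by rw [← hyx, mul_assoc]
        _ = (x * w) * y := h1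
        _ = (w * x) * y := by rw [H1.eq]
        _ = w * (x * y) := by rw [mul_assoc]
    have h3 := mul_left_cancel h2
    rw [h3]; group
  obtain ⟨c, hc⟩ : ∃ c, c = x⁻¹ * w := ⟨_, rfl⟩
  have hxc : Commute x c := by
    rw [hc]; exact (Commute.refl x).inv_right.mul_right H1
  have hyc : y * c * y⁻¹ = c⁻¹ := by
    have h1 : y * c * y⁻¹ = (y * x * y⁻¹)⁻¹ * (y * w * y⁻¹) := by rw [hc]; group
    rw [h1, H3, ← hw, hc, mul_inv_rev, inv_inv]
  have hdc : ∀ d ∈ D, ∀ g, Commute d g := fun d hd g => (Subgroup.mem_center_iff.mp (hDZ hd) g).symm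
  have hKn : (Subgroup.zpowers c).Normal := by
    constructor
    intro n hn g
    obtain ⟨j, rfl⟩ := Subgroup.mem_zpowers_iff.mp hn
    rw [← conj_zpow]
    apply Subgroup.zpow_mem
    obtain ⟨i, d, hd, rfl | rfl⟩ := hnf g
    · have hu : Commute (x ^ i * d) c := (hxc.pow_left i).mul_left (hdc d hd c)
      rw [hu.mul_inv_cancel]
      exact Subgroup.mem_zpowers c
    · have hu : Commute (x ^ i * d) c := (hxc.pow_left i).mul_left (hdc d hd c)
      have h1 : y * (x ^ i * d) * c * (y * (x ^ i * d))⁻¹ = y * ((x ^ i * d) * c * (x ^ i * d)⁻¹) * y⁻¹ := by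
        group
      rw [h1, hu.mul_inv_cancel, hyc]
      exact Subgroup.inv_mem _ (Subgroup.mem_zpowers c)
  have hcomm : IsMulCommutative (S ⧸ Subgroup.zpowers c) := by
    have hxy : Commute (x : S ⧸ Subgroup.zpowers c) (y : S ⧸ Subgroup.zpowers c) := by
      have h1 : ((x⁻¹ * (y * x * y⁻¹) : S) : S ⧸ Subgroup.zpowers c) = 1 := by
        rw [QuotientGroup.eq_one_iff, ← hw, ← hc]
        exact Subgroup.mem_zpowers c
      simp only [QuotientGroup.mk_mul, QuotientGroup.mk_inv] at h1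
      have h2 : (y : S ⧸ Subgroup.zpowers c) * x * (y : S ⧸ Subgroup.zpowers c)⁻¹ = x :=
        (inv_mul_eq_one.mp h1).symm
      have h3 : (y : S ⧸ Subgroup.zpowers c) * x = x * y := by
        conv_rhs => rw [← h2]
        group
      exact h3.symm
    have hd' : ∀ d ∈ D, ∀ g : S ⧸ Subgroup.zpowers c, Commute (d : S ⧸ Subgroup.zpowers c) g := by
      intro d hd g
      obtain ⟨g, rfl⟩ := QuotientGroup.mk_surjective g
      show (d : S ⧸ Subgroup.zpowers c) * g = g * d
      rw [← QuotientGroup.mk_mul, ← QuotientGroup.mk_mul, (hdc d hd g).eq]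
    have hgx : ∀ g : S, Commute (g : S ⧸ Subgroup.zpowers c) x ∧
        Commute (g : S ⧸ Subgroup.zpowers c) y := by
      intro g
      obtain ⟨i, d, hd, rfl | rfl⟩ := hnf g
      · simp only [QuotientGroup.mk_mul, QuotientGroup.mk_pow]
        exact ⟨((Commute.refl _).pow_left i).mul_left (hd' d hd _),
          (hxy.pow_left i).mul_left (hd' d hd _)⟩
      · simp only [QuotientGroup.mk_mul, QuotientGroup.mk_pow]
        exact ⟨hxy.symm.mul_left (((Commute.refl _).pow_left i).mul_left (hd' d hd _)),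
          (Commute.refl _).mul_left ((hxy.pow_left i).mul_left (hd' d hd _))⟩
    refine ⟨⟨fun g h => ?_⟩⟩
    obtain ⟨g, rfl⟩ := QuotientGroup.mk_surjective g
    obtain ⟨h, rfl⟩ := QuotientGroup.mk_surjective h
    obtain ⟨i, d, hd, rfl | rfl⟩ := hnf h
    · simp only [QuotientGroup.mk_mul, QuotientGroup.mk_pow]
      exact (((hgx g).1.pow_right i).mul_right (hd' d hd _).symm).eq
    · simp only [QuotientGroup.mk_mul, QuotientGroup.mk_pow]
      exact ((hgx g).2.mul_right (((hgx g).1.pow_right i).mul_right (hd' d hd _).symm)).eq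
  have hle : commutator S ≤ Subgroup.zpowers c :=
    Subgroup.Normal.quotient_commutative_iff_commutator_le.mp hcomm
  refine ⟨commutator S, ?_, Subgroup.isCyclic_of_le hle, inferInstance⟩
  intro hbot
  apply hnc
  refine ⟨⟨fun g h => ?_⟩⟩
  obtain ⟨g, rfl⟩ := QuotientGroup.mk_surjective g
  obtain ⟨h, rfl⟩ := QuotientGroup.mk_surjective h
  have h1 : ⁅g, h⁆ ∈ commutator S :=
    Subgroup.commutator_mem_commutator (Subgroup.mem_top g) (Subgroup.mem_top h)
  rw [hbot, Subgroup.mem_bot, commutatorElement_eq_one_iff_mul_comm] at h1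
  rw [← QuotientGroup.mk_mul, ← QuotientGroup.mk_mul, h1]

/-- Let S be a finite 2-group of 2-rank exactly 2 and D a maximal subgroup of the centre of S such that S/D is a non-abelian group with exactly one involution (a generalized quaternion group). Then S has a nontrivial cyclic characteristic subgroup. -/
theorem result {S : Type*} [Group S]
    [Finite S] (hS : IsPGroup 2 S) (hr2 : Cfsg.PRankLE 2 2 S) (hr1 : ¬ Cfsg.PRankLE 2 1 S)
    (D : Subgroup ↥(Subgroup.center S)) (hD : IsCoatom D)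
    (hq : ∃ (_ : (D.map (Subgroup.center S).subtype).Normal),
      ¬ IsMulCommutative (S ⧸ D.map (Subgroup.center S).subtype) ∧
      ∃! x : S ⧸ D.map (Subgroup.center S).subtype, orderOf x = 2) :
    ∃ C : Subgroup S, C ≠ ⊥ ∧ IsCyclic ↥C ∧ C.Characteristic := by
  apply core hS (D.map (Subgroup.center S).subtype) _ hq
  intro x hx
  obtain ⟨c, -, rfl⟩ := Subgroup.mem_map.mp hx
  exact c.2

end Cfsg.Agent.S3202
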