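import Cfsg.Statements.S3208
-- import your own Cfsg.Agent.* helpers here
import Mathlib

set_option autoImplicit false
open Cfsg

namespace Cfsg.Agent.S3208

lemma card_mul_relIndex {G : Type*} [Group G] {H K : Subgroup G} (h : H ≤ K) :
    Nat.card H * H.relIndex K = Nat.card K := by
  have := Subgroup.relIndex_mul_relIndex ⊥ H K bot_le h
  simpa [Subgroup.relIndex_bot_left] using this

lemma conj_mem_of_char {G : Type*} [Group G] {T X : Subgroup G}
    (hchar : (X.subgroupOf T).Characteristic) {k : G}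
    (hk : k ∈ Subgroup.normalizer (T : Set G)) {x : G} (hxT : x ∈ T) (hx : x ∈ X) :
    k * x * k⁻¹ ∈ X := by
  have hmap : T.map (MulAut.conj k).toMonoidHom = T :=
    Subgroup.mem_normalizer_iff_map_conj_eq.mp hk
  let φ : T ≃* T := ((MulAut.conj k).subgroupMap T).trans (MulEquiv.subgroupCongr hmap)
  have h1 := (Subgroup.characteristic_iff_le_comap.mp hchar) φ
  have h2 : (⟨x, hxT⟩ : T) ∈ X.subgroupOf T := by
    simpa [Subgroup.mem_subgroupOf] using hx
  have h3 := h1 h2
  have h4 : ((φ ⟨x, hxT⟩ : T) : G) = k * x * k⁻¹ := rfl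
  rw [← h4]
  simpa [Subgroup.mem_subgroupOf] using h3

/-- Let j be an involution of a finite group G, H a subgroup of G, and T a Sylow 2-subgroup of H ∩ C_G(j) containing j such that ⟨j⟩ is a characteristic subgroup of T. Then T is a Sylow 2-subgroup of H. -/
theorem result {G : Type*} [Group G] [Finite G]
    (j : G) (hj : orderOf j = 2) (H T : Subgroup G) (hT : T ≤ H ⊓ Subgroup.centralizer ({j} : Set G)) (h2 : IsPGroup 2 ↥T)
    (hSyl : ¬ 2 ∣ T.relIndex (H ⊓ Subgroup.centralizer ({j} : Set G))) (hjT : j ∈ T)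
    (hchar : ((Subgroup.zpowers j).subgroupOf T).Characteristic) :
    ¬ 2 ∣ T.relIndex H := by
  classical
  intro hdvd
  have : Fact (Nat.Prime 2) := ⟨Nat.prime_two⟩
  have hTH : T ≤ H := hT.trans inf_le_left
  obtain ⟨n, hn⟩ := (IsPGroup.iff_card).mp h2
  -- pass to the group H
  have hcard' : Nat.card (T.subgroupOf H) = 2 ^ n := by
    rw [← hn]; exact Nat.card_congr (Subgroup.subgroupOfEquivOfLe hTH).toEquiv
  have hdvdH : 2 ^ (n + 1) ∣ Nat.card H := by
    rw [← card_mul_relIndex hTH, hn, pow_succ]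
    exact Nat.mul_dvd_mul_left _ hdvd
  obtain ⟨K, hK, hTK⟩ := Sylow.exists_subgroup_card_pow_succ hdvdH hcard'
  set K' : Subgroup G := K.map H.subtype with hK'
  have hK'card : Nat.card K' = 2 ^ (n + 1) := by
    rw [← hK]
    exact Nat.card_congr (K.equivMapOfInjective H.subtype H.subtype_injective).symm.toEquiv
  have hK'H : K' ≤ H := by
    rw [hK']; exact Subgroup.map_subtype_le K
  have hTK' : T ≤ K' := by
    intro x hx
    exact ⟨⟨x, hTH hx⟩, hTK (by simpa [Subgroup.mem_subgroupOf] using hx), rfl⟩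
  have hidx : T.relIndex K' = 2 := by
    have := card_mul_relIndex hTK'
    rw [hn, hK'card, pow_succ] at this
    exact Nat.eq_of_mul_eq_mul_left (by positivity) this
  have hnorm : (T.subgroupOf K').Normal := Subgroup.normal_of_index_eq_two hidx
  have hKN : K' ≤ Subgroup.normalizer (T : Set G) :=
    (Subgroup.normal_subgroupOf_iff_le_normalizer hTK').mp hnorm
  have hKC : K' ≤ H ⊓ Subgroup.centralizer ({j} : Set G) := by
    refine le_inf hK'H ?_
    intro k hk
    rw [Subgroup.mem_centralizer_singleton_iff]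
    have h1 : k * j * k⁻¹ ∈ Subgroup.zpowers j :=
      conj_mem_of_char hchar (hKN hk) hjT (Subgroup.mem_zpowers j)
    obtain ⟨i, hi⟩ := Subgroup.mem_zpowers_iff.mp h1
    have hj2 : j ^ 2 = 1 := by rw [← hj]; exact pow_orderOf_eq_one j
    have hj1 : j ≠ 1 := by
      intro h; rw [h, orderOf_one] at hj; omega
    rcases Int.even_or_odd' i with ⟨m, rfl | rfl⟩
    · exfalso
      have : j ^ (2 * m) = 1 := by
        rw [zpow_mul]; simp [hj2]
      rw [this] at hi
      apply hj1
      have := congrArg (fun t => k⁻¹ * t * k) hi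
      simpa [mul_assoc] using this.symm
    · have : j ^ (2 * m + 1) = j := by
        rw [zpow_add, zpow_mul]; simp [hj2]
      rw [this] at hi
      have := congrArg (fun t => t * k) hi
      simpa [mul_assoc] using this.symm
  apply hSyl
  rw [← Subgroup.relIndex_mul_relIndex _ _ _ hTK' hKC, hidx]
  exact Dvd.intro _ rfl

end Cfsg.Agent.S3208
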