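import Cfsg.Statements.S3209
-- import your own Cfsg.Agent.* helpers here
import Mathlib
import Cfsg.Agent.Lib.Helper19.SL2Four
import Cfsg.Agent.Lib.Helper10.Layer
import Cfsg.Agent.S0268

set_option autoImplicit false
open Cfsg

namespace Cfsg.Agent.S3209

open Matrix in
/-- Data extracted from one factor `L ≅ SL₂(F)` containing the involution `j`. -/
lemma factor {G : Type*} [Group G] {F : Type*} [Field F] [Fintype F]
    (hF : Odd (Fintype.card F)) (L : Subgroup G)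
    (e : ↥L ≃* Matrix.SpecialLinearGroup (Fin 2) F) (j : G) (hj : orderOf j = 2) (hjL : j ∈ L) :
    (∀ a ∈ L, a ^ 2 = 1 → a = 1 ∨ a = j) ∧
    (∃ a₀ ∈ L, a₀ ^ 2 = j ∧ ∀ a ∈ L, a ^ 2 = j → ∃ g ∈ L, g * a₀ * g⁻¹ = a) := by
  have hinv : ∀ g : Matrix.SpecialLinearGroup (Fin 2) F, g ^ 2 = 1 → g = 1 ∨ g = -1 := by
    intro g hg
    by_cases h1 : g = 1
    · exact Or.inl h1
    · right
      apply Subtype.ext
      exact Cfsg.Agent.S0268.result hF g h1 (by rw [← pow_two]; exact hg)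
  have hj1 : j ≠ 1 := by
    intro h; rw [h, orderOf_one] at hj; omega
  have hj2 : j ^ 2 = 1 := by rw [← hj]; exact pow_orderOf_eq_one j
  have hej : e ⟨j, hjL⟩ = -1 := by
    have h1 : (e ⟨j, hjL⟩) ^ 2 = 1 := by
      rw [← map_pow]
      have : (⟨j, hjL⟩ : L) ^ 2 = 1 := Subtype.ext hj2
      rw [this, map_one]
    rcases hinv _ h1 with h | h
    · exfalso
      apply hj1
      have : (⟨j, hjL⟩ : L) = 1 := e.injective (by rw [h, map_one])
      exact congrArg Subtype.val this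
    · exact h
  constructor
  · intro a ha ha2
    have h1 : (e ⟨a, ha⟩) ^ 2 = 1 := by
      rw [← map_pow]
      have : (⟨a, ha⟩ : L) ^ 2 = 1 := Subtype.ext ha2
      rw [this, map_one]
    rcases hinv _ h1 with h | h
    · left
      have : (⟨a, ha⟩ : L) = 1 := e.injective (by rw [h, map_one])
      exact congrArg Subtype.val this
    · right
      have : (⟨a, ha⟩ : L) = ⟨j, hjL⟩ := e.injective (by rw [h, hej])
      exact congrArg Subtype.val this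
  · refine ⟨(e.symm (Cfsg.Agent.Lib.Helper19.sl2W F) : L), (e.symm _).2, ?_, ?_⟩
    · have : (e.symm (Cfsg.Agent.Lib.Helper19.sl2W F)) ^ 2 = (⟨j, hjL⟩ : L) := by
        apply e.injective
        rw [map_pow, e.apply_symm_apply, Cfsg.Agent.Lib.Helper19.sl2W_sq, hej]
      exact congrArg Subtype.val this
    · intro a ha haj
      have h1 : (e ⟨a, ha⟩) ^ 2 = -1 := by
        rw [← map_pow, ← hej]
        congr 1
        exact Subtype.ext haj
      have hc := Cfsg.Agent.Lib.Helper19.isConj_of_sq_eq_neg_one hF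
        (Cfsg.Agent.Lib.Helper19.sl2W F) (e ⟨a, ha⟩) (Cfsg.Agent.Lib.Helper19.sl2W_sq F) h1
      rw [isConj_iff] at hc
      obtain ⟨c, hc⟩ := hc
      refine ⟨(e.symm c : L), (e.symm c).2, ?_⟩
      have : e.symm c * e.symm (Cfsg.Agent.Lib.Helper19.sl2W F) * (e.symm c)⁻¹ = (⟨a, ha⟩ : L) := by
        apply e.injective
        rw [map_mul, map_mul, map_inv, e.apply_symm_apply, e.apply_symm_apply, hc]
      exact congrArg Subtype.val this

lemma mem_zpowers_two {G : Type*} [Group G] (j : G) (hj : orderOf j = 2) (x : G)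
    (hx : x ∈ Subgroup.zpowers j) : x = 1 ∨ x = j := by
  have hj2 : j ^ 2 = 1 := by rw [← hj]; exact pow_orderOf_eq_one j
  obtain ⟨k, rfl⟩ := Subgroup.mem_zpowers_iff.mp hx
  rcases Int.even_or_odd' k with ⟨m, rfl | rfl⟩
  · left
    rw [zpow_mul, zpow_ofNat, hj2, one_zpow]
  · right
    rw [zpow_add, zpow_mul, zpow_ofNat, hj2, one_zpow, one_mul, zpow_one]

/-- Let L₁ ≅ SL₂(q₁) and L₂ ≅ SL₂(q₂), q₁ and q₂ odd, be elementwise-commuting subgroups of a finite group meeting in ⟨j⟩ for an involution j. Then L₁L₂ has exactly two conjugacy classes of involutions: the central involution j, and one further class (there is an involution x ≠ j in L₁L₂, and every involution of L₁L₂ other than j is conjugate to x by an element of L₁L₂). -/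
theorem result {G : Type*} [Group G] [Finite G]
    {F₁ : Type*} [Field F₁] [Fintype F₁] {F₂ : Type*} [Field F₂] [Fintype F₂]
    (hF₁ : Odd (Fintype.card F₁)) (hF₂ : Odd (Fintype.card F₂)) (L₁ L₂ : Subgroup G)
    (e₁ : ↥L₁ ≃* Matrix.SpecialLinearGroup (Fin 2) F₁) (e₂ : ↥L₂ ≃* Matrix.SpecialLinearGroup (Fin 2) F₂)
    (hc : ∀ x ∈ L₁, ∀ y ∈ L₂, x * y = y * x) (j : G) (hj : orderOf j = 2) (hm : L₁ ⊓ L₂ = Subgroup.zpowers j) :
    ∃ x ∈ L₁ ⊔ L₂, orderOf x = 2 ∧ x ≠ j ∧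
      ∀ y ∈ L₁ ⊔ L₂, orderOf y = 2 → y = j ∨ ∃ g ∈ L₁ ⊔ L₂, g * x * g⁻¹ = y := by
  have hjm : j ∈ L₁ ⊓ L₂ := by rw [hm]; exact Subgroup.mem_zpowers j
  have hj1 : j ≠ 1 := by
    intro h; rw [h, orderOf_one] at hj; omega
  have hj2 : j ^ 2 = 1 := by rw [← hj]; exact pow_orderOf_eq_one j
  obtain ⟨hinv₁, a₀, ha₀, ha₀j, hconj₁⟩ := factor hF₁ L₁ e₁ j hj hjm.1
  obtain ⟨hinv₂, b₀, hb₀, hb₀j, hconj₂⟩ := factor hF₂ L₂ e₂ j hj hjm.2
  have hmemj : ∀ x, x ∈ L₁ → x ∈ L₂ → x = 1 ∨ x = j := by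
    intro x h1 h2
    apply mem_zpowers_two j hj
    rw [← hm]; exact ⟨h1, h2⟩
  have ha₀not : a₀ ∉ L₂ := by
    intro h
    rcases hmemj a₀ ha₀ h with h | h
    · rw [h, one_pow] at ha₀j; exact hj1 ha₀j.symm
    · rw [h, hj2] at ha₀j; exact hj1 ha₀j.symm
  have hsq : ∀ a ∈ L₁, ∀ b ∈ L₂, (a * b) ^ 2 = a ^ 2 * b ^ 2 := by
    intro a ha b hb
    have := hc a ha b hb
    calc (a * b) ^ 2 = a * (b * a) * b := by rw [pow_two]; group
      _ = a * (a * b) * b := by rw [this]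
      _ = a ^ 2 * b ^ 2 := by rw [pow_two, pow_two]; group
  refine ⟨a₀ * b₀, Subgroup.mul_mem _ (Subgroup.mem_sup_left ha₀) (Subgroup.mem_sup_right hb₀),
    ?_, ?_, ?_⟩
  · apply orderOf_eq_prime
    · rw [hsq a₀ ha₀ b₀ hb₀, ha₀j, hb₀j, ← pow_two, hj2]
    · intro h
      apply ha₀not
      have : a₀ = b₀⁻¹ := eq_inv_of_mul_eq_one_left h
      rw [this]; exact L₂.inv_mem hb₀
  · intro h
    apply ha₀not
    have : a₀ = j * b₀⁻¹ := by rw [← h]; group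
    rw [this]; exact L₂.mul_mem hjm.2 (L₂.inv_mem hb₀)
  · intro y hy hy2
    obtain ⟨a, ha, b, hb, rfl⟩ := Cfsg.Agent.Lib.Helper10.mem_sup_of_commute hc hy
    have hy1 : a * b ≠ 1 := by
      intro h; rw [h, orderOf_one] at hy2; omega
    have hysq : a ^ 2 * b ^ 2 = 1 := by
      rw [← hsq a ha b hb, ← hy2]; exact pow_orderOf_eq_one _
    have ha2 : a ^ 2 = (b ^ 2)⁻¹ := eq_inv_of_mul_eq_one_left hysq
    have ha2L : a ^ 2 ∈ L₂ := by rw [ha2]; exact L₂.inv_mem (L₂.pow_mem hb 2)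
    rcases hmemj (a ^ 2) (L₁.pow_mem ha 2) ha2L with h | h
    · left
      have hb2 : b ^ 2 = 1 := by rw [h, one_mul] at hysq; exact hysq
      rcases hinv₁ a ha h with rfl | rfl <;> rcases hinv₂ b hb hb2 with rfl | rfl
      · exact absurd (one_mul 1) hy1
      · rw [one_mul]
      · rw [mul_one]
      · exact absurd (by rw [← pow_two]; exact hj2) hy1
    · right
      have hb2 : b ^ 2 = j := by
        rw [h] at hysq
        have : b ^ 2 = j⁻¹ := eq_inv_of_mul_eq_one_right hysq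
        rw [this]
        exact inv_eq_of_mul_eq_one_left (by rw [← pow_two]; exact hj2)
      obtain ⟨g₁, hg₁, hga⟩ := hconj₁ a ha h
      obtain ⟨g₂, hg₂, hgb⟩ := hconj₂ b hb hb2
      refine ⟨g₁ * g₂, Subgroup.mul_mem _ (Subgroup.mem_sup_left hg₁) (Subgroup.mem_sup_right hg₂), ?_⟩
      rw [← hga, ← hgb]
      have c1 := hc a₀ ha₀ g₂ hg₂
      have c2 := hc g₁⁻¹ (L₁.inv_mem hg₁) g₂ hg₂
      have c3 := hc g₁⁻¹ (L₁.inv_mem hg₁) b₀ hb₀
      have c4 := hc g₁⁻¹ (L₁.inv_mem hg₁) g₂⁻¹ (L₂.inv_mem hg₂)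
      calc g₁ * g₂ * (a₀ * b₀) * (g₁ * g₂)⁻¹
          = g₁ * (g₂ * a₀) * b₀ * (g₂⁻¹ * g₁⁻¹) := by group
        _ = g₁ * (a₀ * g₂) * b₀ * (g₁⁻¹ * g₂⁻¹) := by rw [c1, c4]
        _ = g₁ * a₀ * g₂ * (b₀ * g₁⁻¹) * g₂⁻¹ := by group
        _ = g₁ * a₀ * g₂ * (g₁⁻¹ * b₀) * g₂⁻¹ := by rw [c3]
        _ = g₁ * a₀ * (g₂ * g₁⁻¹) * b₀ * g₂⁻¹ := by group
        _ = g₁ * a₀ * (g₁⁻¹ * g₂) * b₀ * g₂⁻¹ := by rw [c2]
        _ = g₁ * a₀ * g₁⁻¹ * (g₂ * b₀ * g₂⁻¹) := by group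

end Cfsg.Agent.S3209
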