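import Cfsg.Statements.S3225
-- import your own Cfsg.Agent.* helpers here
import Mathlib

set_option autoImplicit false
open Cfsg

namespace Cfsg.Agent.S3225

/-- Let G be a finite group of even order with no subgroup of index 2, S a Sylow 2-subgroup of G and M a subgroup of index 2 in S such that, for some n ≥ 1, every element of S outside M has order greater than 2^(n−1). Then every element of S of order 2ⁿ is conjugate in G to an element of M. -/
theorem result {G : Type*} [Group G] [Finite G] (hev : Even (Nat.card G))
    (hG : ∀ H : Subgroup G, H.index ≠ 2) (S : Sylow 2 G) (M : Subgroup G) (hMS : M ≤ (S : Subgroup G)) (hM : M.relIndex (S : Subgroup G) = 2)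
    (n : ℕ) (hn : 1 ≤ n) (hord : ∀ y ∈ (S : Subgroup G), y ∉ M → 2 ^ (n - 1) < orderOf y)
    (x : G) (hx : x ∈ (S : Subgroup G)) (hxn : orderOf x = 2 ^ n) :
    ∃ g : G, g * x * g⁻¹ ∈ M := by
  classical
  by_contra hcon
  push Not at hcon
  set M' : Subgroup (S : Subgroup G) := M.subgroupOf (S : Subgroup G) with hM'def
  have hM' : M'.index = 2 := hM
  let ϕ : (S : Subgroup G) →* ℤˣ :=
    { toFun := fun s => if s ∈ M' then 1 else -1
      map_one' := by simp [M'.one_mem]
      map_mul' := fun a b => by
        have := Subgroup.mul_mem_iff_of_index_two hM' (a := a) (b := b)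
        by_cases ha : a ∈ M' <;> by_cases hb : b ∈ M' <;> simp [this, ha, hb] }
  have hϕ : ∀ s : (S : Subgroup G), ϕ s = if (s : G) ∈ M then 1 else -1 := by
    intro s
    show (if s ∈ M' then (1 : ℤˣ) else -1) = _
    simp only [hM'def, Subgroup.mem_subgroupOf]
  have : Fintype (Quotient (MulAction.orbitRel (Subgroup.zpowers x) (G ⧸ (S : Subgroup G)))) :=
    Fintype.ofFinite _
  have hodd : Odd (S : Subgroup G).index := by
    rw [← Nat.not_even_iff_odd, even_iff_two_dvd]
    exact S.not_dvd_index
  have hV : MonoidHom.transfer ϕ x = -1 := by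
    rw [MonoidHom.transfer_eq_prod_quotient_orbitRel_zpowers_quot]
    have key : ∀ q : Quotient (MulAction.orbitRel (Subgroup.zpowers x) (G ⧸ (S : Subgroup G))),
        ϕ ⟨q.out.out⁻¹ * x ^ Function.minimalPeriod (x • ·) q.out * q.out.out,
            QuotientGroup.out_conj_pow_minimalPeriod_mem (S : Subgroup G) x q.out⟩
          = (-1) ^ (Function.minimalPeriod (x • ·) q.out) := by
      intro q
      rw [hϕ]
      set l := Function.minimalPeriod (x • ·) q.out with hl
      set g := q.out.out with hg
      have hmemS : g⁻¹ * x ^ l * g ∈ (S : Subgroup G) :=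
        QuotientGroup.out_conj_pow_minimalPeriod_mem (S : Subgroup G) x q.out
      have hdvd : l ∣ 2 ^ n := by
        apply Function.IsPeriodicPt.minimalPeriod_dvd
        show (x • ·)^[2 ^ n] q.out = q.out
        rw [smul_iterate, ← hxn, pow_orderOf_eq_one]
        exact one_smul _ _
      obtain ⟨j, hjn, hj⟩ := (Nat.dvd_prime_pow Nat.prime_two).mp hdvd
      show (if g⁻¹ * x ^ l * g ∈ M then (1 : ℤˣ) else -1) = (-1) ^ l
      rcases Nat.eq_zero_or_pos j with hj0 | hjpos
      · have hl1 : l = 1 := by rw [hj, hj0, pow_zero]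
        rw [hl1, pow_one, pow_one]
        have := hcon g⁻¹
        rw [inv_inv] at this
        rw [if_neg this]
      · have hmem : g⁻¹ * x ^ l * g ∈ M := by
          by_contra hnot
          have h1 := hord _ hmemS hnot
          have h2 : (g⁻¹ * x ^ l * g) ^ (2 ^ (n - 1)) = 1 := by
            have : g⁻¹ * x ^ l * g = g⁻¹ * x ^ l * g⁻¹⁻¹ := by rw [inv_inv]
            rw [this, conj_pow, ← pow_mul, hj, ← pow_add]
            have : j + (n - 1) = n + (j - 1) := by omega
            rw [this, pow_add, pow_mul, ← hxn, pow_orderOf_eq_one, one_pow]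
            group
          have h3 := orderOf_le_of_pow_eq_one (by positivity) h2
          omega
        rw [if_pos hmem]
        have : Even l := by
          rw [hj]
          exact (Nat.even_pow.mpr ⟨even_two, by omega⟩)
        rw [this.neg_one_pow]
    rw [Finset.prod_congr rfl (fun q _ => key q), Finset.prod_pow_eq_pow_sum,
      ← Subgroup.index_eq_sum_minimalPeriod]
    exact hodd.neg_one_pow
  apply hG (MonoidHom.transfer ϕ).ker
  rw [Subgroup.index_ker]
  have hr : (MonoidHom.transfer ϕ).range = ⊤ := by
    rw [eq_top_iff]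
    intro y _
    rcases Int.units_eq_one_or y with rfl | rfl
    · exact one_mem _
    · exact ⟨x, hV⟩
  rw [hr]
  simp

end Cfsg.Agent.S3225
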