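import Cfsg.Statements.S3247
import Cfsg.Agent.Lib.Helper10.PCons2
import Cfsg.Agent.S1327

set_option autoImplicit false
open Cfsg
open Cfsg.Agent.Lib.Helper10

namespace Cfsg.Agent.S3247

/-- Let G be a finite group and p a prime; here a p-local subgroup means the normalizer of a nontrivial p-subgroup, other than G itself. If every p-local subgroup of G that is maximal among p-local subgroups is p-constrained, or if the centralizer of every element of order p of G is p-constrained, then every p-local subgroup of G is p-constrained. -/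
theorem result {G : Type*} [Group G] [Finite G] (p : ℕ) [hp : Fact p.Prime]
    (h : (∀ M : Subgroup G, (∃ T : Subgroup G, IsPGroup p ↥T ∧ T ≠ ⊥ ∧ M = Subgroup.normalizer (T : Set G)) → M ≠ ⊤ →
        (∀ M' : Subgroup G, (∃ T' : Subgroup G, IsPGroup p ↥T' ∧ T' ≠ ⊥ ∧ M' = Subgroup.normalizer (T' : Set G)) → M' ≠ ⊤ → M ≤ M' → M = M') →
        Cfsg.IsPConstrained p ↥M) ∨
      (∀ x : G, orderOf x = p → Cfsg.IsPConstrained p ↥(Subgroup.centralizer ({x} : Set G))))
    (T : Subgroup G) (hT : IsPGroup p ↥T) (hT1 : T ≠ ⊥) (hTG : Subgroup.normalizer (T : Set G) ≠ ⊤) :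
    Cfsg.IsPConstrained p ↥(Subgroup.normalizer (T : Set G)) := by
  rw [Cfsg.Agent.S1327.result]
  rcases h with h | h
  · let 𝓛 : Set (Subgroup G) := {M | (∃ T : Subgroup G, IsPGroup p ↥T ∧ T ≠ ⊥ ∧
      M = Subgroup.normalizer (T : Set G)) ∧ M ≠ ⊤}
    have hN : Subgroup.normalizer (T : Set G) ∈ 𝓛 := ⟨⟨T, hT, hT1, rfl⟩, hTG⟩
    obtain ⟨M, hNM, hM⟩ := (Set.toFinite 𝓛).exists_le_maximal hN
    have hMc := h M hM.prop.1 hM.prop.2 (fun M' h1 h2 h3 => hM.eq_of_le ⟨h1, h2⟩ h3)
    rw [Cfsg.Agent.S1327.result] at hMc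
    exact pLayer_normalizer_of_le hT hNM hMc
  · obtain ⟨t, htT, htc, hto⟩ := exists_central_orderOf_eq hT hT1
    have h1 := h t hto
    rw [Cfsg.Agent.S1327.result] at h1
    exact pLayer_normalizer_of_centralizer hT htT htc h1

end Cfsg.Agent.S3247
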