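import Cfsg.Statements.S3269
import Cfsg.Agent.S0215
import Cfsg.Agent.Lib.Helper2.Quat6

set_option autoImplicit false
open Cfsg

namespace Cfsg.Agent.S3269

theorem multiset_noncommProd_congr {G : Type*} [Monoid G] {m₁ m₂ : Multiset G} (h : m₁ = m₂)
    (c₁ : {x | x ∈ m₁}.Pairwise Commute) (c₂ : {x | x ∈ m₂}.Pairwise Commute) :
    m₁.noncommProd c₁ = m₂.noncommProd c₂ := by
  subst h; rfl

theorem conj_noncommProd {G : Type*} [Group G] [DecidableEq G] (T : Finset G)
    (comm : (T : Set G).Pairwise (Function.onFun Commute id)) (n : G)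
    (hT : T.image (fun w => n * w * n⁻¹) = T) :
    n * T.noncommProd id comm * n⁻¹ = T.noncommProd id comm := by
  have h1 : n * T.noncommProd id comm * n⁻¹ = MulAut.conj n (T.noncommProd id comm) := rfl
  rw [h1, Finset.map_noncommProd]
  unfold Finset.noncommProd
  apply multiset_noncommProd_congr
  have h2 : (T.image (fun w => n * w * n⁻¹)).1 = T.1.map (fun w => n * w * n⁻¹) := by
    apply Finset.image_val_of_injOn
    intro a _ b _ hab
    simpa using hab
  rw [hT] at h2
  simp only [id, Multiset.map_id']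
  exact h2.symm

/-- the product of the (pairwise commuting) `N`-conjugates of `z`. -/
theorem exists_fixed_prod {G : Type*} [Group G] [Finite G] (N : Subgroup G) (z : G)
    (hcomm : ∀ n ∈ N, Commute z (n * z * n⁻¹)) :
    ∃ v ∈ Subgroup.closure {w | (∃ n ∈ N, w = n * z * n⁻¹) ∧ w ≠ z},
      ∀ n ∈ N, n * (z * v) * n⁻¹ = z * v := by
  classical
  have hfin : {w | ∃ n ∈ N, w = n * z * n⁻¹}.Finite := Set.toFinite _
  set O : Finset G := hfin.toFinset with hO
  have hmem : ∀ w, w ∈ O ↔ ∃ n ∈ N, w = n * z * n⁻¹ := by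
    intro w; simp [hO]
  have comm : (O : Set G).Pairwise (Function.onFun Commute id) := by
    intro a ha b hb _
    obtain ⟨n, hn, rfl⟩ := (hmem a).1 ha
    obtain ⟨m, hm, rfl⟩ := (hmem b).1 hb
    have h := hcomm (n⁻¹ * m) (N.mul_mem (N.inv_mem hn) hm)
    have h2 : Commute (n * z * n⁻¹) (n * ((n⁻¹ * m) * z * (n⁻¹ * m)⁻¹) * n⁻¹) := by
      have := h.map (MulAut.conj n).toMonoidHom
      simpa using this
    have h3 : n * ((n⁻¹ * m) * z * (n⁻¹ * m)⁻¹) * n⁻¹ = m * z * m⁻¹ := by group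
    rw [h3] at h2
    exact h2
  have hz : z ∈ O := (hmem z).2 ⟨1, N.one_mem, by simp⟩
  refine ⟨(O.erase z).noncommProd id
    (fun _ hx _ hy hxy ↦ comm (O.mem_of_mem_erase hx) (O.mem_of_mem_erase hy) hxy), ?_, ?_⟩
  · apply Subgroup.noncommProd_mem
    intro c hc
    apply Subgroup.subset_closure
    rw [Finset.mem_erase] at hc
    exact ⟨(hmem c).1 hc.2, hc.1⟩
  · intro n hn
    have h1 := Finset.mul_noncommProd_erase O hz id comm
    simp only [id] at h1
    rw [h1]
    apply conj_noncommProd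
    ext w
    simp only [Finset.mem_image, hmem]
    constructor
    · rintro ⟨a, ⟨m, hm, rfl⟩, rfl⟩
      exact ⟨n * m, N.mul_mem hn hm, by group⟩
    · rintro ⟨m, hm, rfl⟩
      exact ⟨n⁻¹ * m * z * (n⁻¹ * m)⁻¹, ⟨n⁻¹ * m, N.mul_mem (N.inv_mem hn) hm, rfl⟩, by group⟩

theorem orderOf_conj' {G : Type*} [Group G] (g x : G) : orderOf (g * x * g⁻¹) = orderOf x := by
  have := MulEquiv.orderOf_eq (MulAut.conj g) x
  simpa using this

theorem exists_pow_invol {G : Type*} [Group G] (c : G) (m : ℕ) (hc : c ^ (2 ^ m) = 1)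
    (hc1 : c ≠ 1) : ∃ k : ℕ, orderOf (c ^ k) = 2 := by
  have h1 : orderOf c ∣ 2 ^ m := orderOf_dvd_of_pow_eq_one hc
  obtain ⟨j, _, hj⟩ := (Nat.dvd_prime_pow Nat.prime_two).1 h1
  have hj0 : j ≠ 0 := by
    rintro rfl
    rw [pow_zero, orderOf_eq_one_iff] at hj
    exact hc1 hj
  obtain ⟨i, rfl⟩ := Nat.exists_eq_succ_of_ne_zero hj0
  refine ⟨2 ^ i, ?_⟩
  rw [orderOf_pow_of_dvd (by positivity) (by rw [hj]; exact pow_dvd_pow 2 (Nat.le_succ i)), hj,
    Nat.succ_eq_add_one, pow_succ]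
  exact Nat.mul_div_cancel_left 2 (by positivity)

theorem not_simple_aux {G : Type*} [Group G] [Finite G]
    (S : Sylow 2 G) (Q R : Subgroup G) (hQR : Cfsg.IsInternalDirectProduct Q R (S : Subgroup G))
    (z q y : G) (hz2 : orderOf z = 2)
    (huniq : ∀ x ∈ Q, orderOf x = 2 → x = z)
    (hq : q ∈ Q) (hqz : q * q = z) (hy : y ∈ Q) (hqy : q * y ≠ y * q)
    (hcen : ∀ c ∈ Q, (∀ x ∈ Q, c * x = x * c) → c * c = 1)
    (hR : ∀ r ∈ R, orderOf r = 2 → ∀ s ∈ R, r * s = s * r) :
    ¬ IsSimpleGroup G := by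
  intro hsimple
  haveI : Fact (Nat.Prime 2) := ⟨Nat.prime_two⟩
  obtain ⟨hQS, hRS, hcQR, hdisj, hsup⟩ := hQR
  have hzQ : z ∈ Q := hqz ▸ Q.mul_mem hq hq
  have hzz : z * z = 1 := by rw [← sq, ← hz2]; exact pow_orderOf_eq_one z
  have hz1 : z ≠ 1 := by
    rintro rfl
    rw [orderOf_one] at hz2; omega
  have hinv : ∀ x : G, x * x = 1 → x ≠ 1 → orderOf x = 2 := by
    intro x hx hx1
    exact orderOf_eq_prime (by rw [sq]; exact hx) hx1
  have hbot : ∀ x, x ∈ Q → x ∈ R → x = 1 := by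
    intro x h1 h2
    have : x ∈ Q ⊓ R := ⟨h1, h2⟩
    rw [hdisj] at this
    exact Subgroup.mem_bot.1 this
  have hdec : ∀ s ∈ (S : Subgroup G), ∃ a ∈ Q, ∃ b ∈ R, s = a * b := by
    intro s hs
    rw [← hsup, Subgroup.sup_eq_closure] at hs
    induction hs using Subgroup.closure_induction with
    | mem x hx =>
      rcases hx with hx | hx
      · exact ⟨x, hx, 1, R.one_mem, by simp⟩
      · exact ⟨1, Q.one_mem, x, hx, by simp⟩
    | one => exact ⟨1, Q.one_mem, 1, R.one_mem, by simp⟩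
    | mul x y _ _ hx hy =>
      obtain ⟨a, ha, b, hb, rfl⟩ := hx
      obtain ⟨c, hc, d, hd, rfl⟩ := hy
      refine ⟨a * c, Q.mul_mem ha hc, b * d, R.mul_mem hb hd, ?_⟩
      rw [mul_assoc, ← mul_assoc b c, ← hcQR c hc b hb]
      simp only [mul_assoc]
    | inv x _ hx =>
      obtain ⟨a, ha, b, hb, rfl⟩ := hx
      exact ⟨a⁻¹, Q.inv_mem ha, b⁻¹, R.inv_mem hb, by
        rw [mul_inv_rev, hcQR _ (Q.inv_mem ha) _ (R.inv_mem hb)]⟩
  have hzc : ∀ x ∈ Q, Commute z x := by
    intro x hx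
    have h1 : x * z * x⁻¹ = z :=
      huniq _ (Q.mul_mem (Q.mul_mem hx hzQ) (Q.inv_mem hx)) (by rw [orderOf_conj', hz2])
    have h2 : x * z = z * x := by
      rw [mul_inv_eq_iff_eq_mul] at h1; exact h1
    exact h2.symm
  -- squares
  have hsq : ∀ a ∈ Q, ∀ b ∈ R, (a * b) * (a * b) = (a * a) * (b * b) := by
    intro a ha b hb
    rw [mul_assoc, ← mul_assoc b a, ← hcQR a ha b hb]
    simp only [mul_assoc]
  have hE : ∀ x ∈ (S : Subgroup G), x * x = 1 → ∀ s ∈ (S : Subgroup G), Commute x s := by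
    intro x hx hxx s hs
    obtain ⟨a, ha, b, hb, rfl⟩ := hdec x hx
    obtain ⟨c, hc, d, hd, rfl⟩ := hdec s hs
    rw [hsq a ha b hb] at hxx
    have h1 : a * a = (b * b)⁻¹ := eq_inv_of_mul_eq_one_left hxx
    have haa : a * a = 1 := hbot _ (Q.mul_mem ha ha) (h1 ▸ R.inv_mem (R.mul_mem hb hb))
    have hbb : b * b = 1 := by rw [haa, one_mul] at hxx; exact hxx
    have hac : Commute a c := by
      by_cases ha1 : a = 1
      · rw [ha1]; exact Commute.one_left c
      · rw [huniq a ha (hinv a haa ha1)]; exact hzc c hc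
    have hbd : Commute b d := by
      by_cases hb1 : b = 1
      · rw [hb1]; exact Commute.one_left d
      · exact hR b hb (hinv b hbb hb1) d hd
    have had : Commute a d := hcQR a ha d hd
    have hbc : Commute b c := (hcQR c hc b hb).symm
    exact (hac.mul_right had).mul_left (hbc.mul_right hbd)
  have hQn : ∀ s ∈ (S : Subgroup G), ∀ x ∈ Q, s * x * s⁻¹ ∈ Q := by
    intro s hs x hx
    obtain ⟨a, ha, b, hb, rfl⟩ := hdec s hs
    have h1 : a * b * x * (a * b)⁻¹ = a * x * a⁻¹ := by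
      rw [mul_assoc a b x, ← hcQR x hx b hb]; group
    rw [h1]
    exact Q.mul_mem (Q.mul_mem ha hx) (Q.inv_mem ha)
  set N : Subgroup G := Subgroup.normalizer (S : Subgroup G) with hN
  have hNS : ∀ n ∈ N, ∀ s ∈ (S : Subgroup G), n * s * n⁻¹ ∈ (S : Subgroup G) := by
    intro n hn s hs
    exact (Subgroup.mem_normalizer_iff.1 hn s).1 hs
  have hzS : z ∈ (S : Subgroup G) := hQS hzQ
  have hcomm : ∀ n ∈ N, Commute z (n * z * n⁻¹) := fun n hn => hE z hzS hzz _ (hNS n hn z hzS)
  obtain ⟨v, hv, hfix⟩ := exists_fixed_prod N z hcomm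
  -- conjugates of z other than z lie in R
  have hwR : ∀ n ∈ N, n * z * n⁻¹ ≠ z → n * z * n⁻¹ ∈ R := by
    intro n hn hne
    have hn' : n⁻¹ ∈ N := N.inv_mem hn
    have hi : ∀ x ∈ Q, ∀ x' ∈ Q, Commute x (n * x' * n⁻¹) := by
      intro x hx x' hx'
      by_contra hnc
      set c : G := x * (n * x' * n⁻¹) * x⁻¹ * (n * x' * n⁻¹)⁻¹ with hc
      have hc1 : c ≠ 1 := by
        intro h
        apply hnc
        rw [hc, mul_inv_eq_one, mul_inv_eq_iff_eq_mul] at h
        exact h
      have hcQ : c ∈ Q := by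
        have h1 : c = x * ((n * x' * n⁻¹) * x⁻¹ * (n * x' * n⁻¹)⁻¹) := by rw [hc]; group
        rw [h1]
        exact Q.mul_mem hx (hQn _ (hNS n hn x' (hQS hx')) _ (Q.inv_mem hx))
      have hcQ' : n⁻¹ * c * n ∈ Q := by
        have h1 : n⁻¹ * c * n = ((n⁻¹ * x * n⁻¹⁻¹) * x' * (n⁻¹ * x * n⁻¹⁻¹)⁻¹) * x'⁻¹ := by
          rw [hc]; group
        rw [h1]
        exact Q.mul_mem (hQn _ (hNS n⁻¹ hn' x (hQS hx)) _ hx') (Q.inv_mem hx')
      obtain ⟨m, hm⟩ := S.2 ⟨c, hQS hcQ⟩
      have hm' : c ^ (2 ^ m) = 1 := by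
        have := congrArg Subtype.val hm
        simpa using this
      obtain ⟨k, hk⟩ := exists_pow_invol c m hm' hc1
      have h1 : c ^ k = z := huniq _ (Q.pow_mem hcQ k) hk
      have h2 : n⁻¹ * c ^ k * n = z := by
        apply huniq
        · have : n⁻¹ * c ^ k * n = (n⁻¹ * c * n) ^ k := by
            have := conj_pow (a := n⁻¹) (b := c) (i := k)
            simpa using this.symm
          rw [this]
          exact Q.pow_mem hcQ' k
        · have := orderOf_conj' n⁻¹ (c ^ k)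
          rw [inv_inv] at this
          rw [this, hk]
      apply hne
      rw [h1] at h2
      nth_rewrite 1 [← h2]
      group
    obtain ⟨a, ha, b, hb, hab⟩ := hdec _ (hNS n hn q (hQS hq))
    have hac : ∀ x ∈ Q, a * x = x * a := by
      intro x hx
      have h1 : Commute x (a * b) := hab ▸ hi x hx q hq
      have h2 : Commute x b := hcQR x hx b hb
      have h3 : Commute x (a * b * b⁻¹) := h1.mul_right h2.inv_right
      rw [mul_inv_cancel_right] at h3
      exact h3.symm
    have haa := hcen a ha hac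
    have h1 : n * z * n⁻¹ = (n * q * n⁻¹) * (n * q * n⁻¹) := by rw [← hqz]; group
    rw [h1, hab, hsq a ha b hb, haa, one_mul]
    exact R.mul_mem hb hb
  -- the subgroup of elements of R of square one
  let E : Subgroup G :=
    { carrier := {x | x ∈ R ∧ x * x = 1}
      one_mem' := ⟨R.one_mem, by simp⟩
      mul_mem' := by
        rintro x y ⟨hx, hxx⟩ ⟨hy, hyy⟩
        refine ⟨R.mul_mem hx hy, ?_⟩
        have h := hE x (hRS hx) hxx y (hRS hy)
        rw [h.symm.mul_mul_mul_comm, hxx, hyy, one_mul]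
      inv_mem' := by
        rintro x ⟨hx, hxx⟩
        refine ⟨R.inv_mem hx, ?_⟩
        rw [← mul_inv_rev, hxx, inv_one] }
  have hvE : v ∈ E := by
    refine (Subgroup.closure_le E).2 ?_ hv
    rintro w ⟨⟨n, hn, rfl⟩, hne⟩
    refine ⟨hwR n hn hne, ?_⟩
    have : n * z * n⁻¹ * (n * z * n⁻¹) = n * (z * z) * n⁻¹ := by group
    rw [this, hzz]; group
  obtain ⟨hvR, hvv⟩ := hvE
  set u : G := z * v with hu
  have huS : u ∈ (S : Subgroup G) := (S : Subgroup G).mul_mem hzS (hRS hvR)
  have huu : u * u = 1 := by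
    have h := hE z hzS hzz v (hRS hvR)
    rw [hu, h.symm.mul_mul_mul_comm, hzz, hvv, one_mul]
  have hu1 : u ≠ 1 := by
    intro h
    have h1 : z = v⁻¹ := eq_inv_of_mul_eq_one_left h
    exact hz1 (hbot z hzQ (h1 ▸ R.inv_mem hvR))
  have hu2 : orderOf u = 2 := hinv u huu hu1
  have hiso : ∀ g : G, g * u * g⁻¹ ∈ S → g * u * g⁻¹ = u := by
    intro g hg
    have h1 : u ∈ Subgroup.centralizer ((S : Subgroup G) : Set G) := by
      rw [Subgroup.mem_centralizer_iff]
      intro s hs
      exact (hE u huS huu s hs).symm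
    have h2 : g⁻¹⁻¹ * u * g⁻¹ ∈ Subgroup.centralizer ((S : Subgroup G) : Set G) := by
      rw [inv_inv, Subgroup.mem_centralizer_iff]
      intro s hs
      refine (hE _ hg ?_ s hs).symm
      have : g * u * g⁻¹ * (g * u * g⁻¹) = g * (u * u) * g⁻¹ := by group
      rw [this, huu]; group
    obtain ⟨n, hn, hn2⟩ := S.conj_eq_normalizer_conj_of_mem_centralizer u g⁻¹ h1 h2
    rw [inv_inv] at hn2
    rw [hn2]
    have := hfix n⁻¹ (N.inv_mem hn)
    rw [inv_inv] at this
    exact this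
  obtain ⟨M, hMn, hMo, hM⟩ := Cfsg.Agent.S0215.result S u hu2 huS hiso
  rcases hMn.eq_bot_or_eq_top with h | h
  · -- u central
    have huc : u ∈ Subgroup.center G := by
      rw [Subgroup.mem_center_iff]
      intro g
      have := hM g
      rw [h, Subgroup.mem_bot, mul_inv_eq_one, mul_inv_eq_iff_eq_mul] at this
      exact this.symm
    rcases (inferInstance : (Subgroup.center G).Normal).eq_bot_or_eq_top with h' | h'
    · rw [h', Subgroup.mem_bot] at huc
      exact hu1 huc
    · have : q ∈ Subgroup.center G := by rw [h']; trivial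
      rw [Subgroup.mem_center_iff] at this
      exact hqy (this y).symm
  · rw [h, Subgroup.card_top] at hMo
    have h2 : 2 ∣ Nat.card G := hu2 ▸ orderOf_dvd_natCard u
    exact (Nat.not_even_iff_odd.2 hMo) (even_iff_two_dvd.2 h2)

theorem quat_facts (N : ℕ) (hN : 2 ≤ N) :
    ((QuaternionGroup.xa 0 : QuaternionGroup N) * QuaternionGroup.a 1
      ≠ QuaternionGroup.a 1 * QuaternionGroup.xa 0) ∧
    ∀ c : QuaternionGroup N, (∀ x, c * x = x * c) → c * c = 1 := by
  have h11 : (1 : ZMod (2 * N)) ≠ -1 := by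
    intro h
    have h2 : ((2 : ℕ) : ZMod (2 * N)) = 0 := by
      have : (1 : ZMod (2 * N)) + 1 = 0 := by nth_rewrite 1 [h]; ring
      push_cast
      rw [← this]; ring
    rw [ZMod.natCast_eq_zero_iff] at h2
    have := Nat.le_of_dvd (by norm_num) h2
    omega
  constructor
  · rw [QuaternionGroup.xa_mul_a, QuaternionGroup.a_mul_xa]
    intro h
    rw [QuaternionGroup.xa.injEq] at h
    apply h11
    simpa using h
  · intro c hc
    cases c with
    | a i =>
      have h := hc (QuaternionGroup.xa 0)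
      rw [QuaternionGroup.xa_mul_a, QuaternionGroup.a_mul_xa, QuaternionGroup.xa.injEq] at h
      rw [QuaternionGroup.a_mul_a, QuaternionGroup.one_def, QuaternionGroup.a.injEq]
      have : i + i = (0 + i) - (0 - i) := by ring
      rw [this, ← h]; ring
    | xa i =>
      exfalso
      have h := hc (QuaternionGroup.a 1)
      rw [QuaternionGroup.xa_mul_a, QuaternionGroup.a_mul_xa, QuaternionGroup.xa.injEq] at h
      apply h11
      calc (1 : ZMod (2 * N)) = (i + 1) - i := by ring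
        _ = (i - 1) - i := by rw [h]
        _ = -1 := by ring

/-- Let G be a finite group whose Sylow 2-subgroup S is an internal direct product Q × R with Q generalized quaternion (of order at least 8) and R a subgroup all of whose involutions are central in R. Then G is not simple. In particular no finite simple group has a Sylow 2-subgroup that is a direct product of one or more generalized quaternion groups. -/
theorem result {G : Type*} [Group G] [Finite G]
    (S : Sylow 2 G) (Q R : Subgroup G) (hQR : Cfsg.IsInternalDirectProduct Q R (S : Subgroup G))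
    (n : ℕ) (hn : 1 ≤ n) (eQ : ↥Q ≃* QuaternionGroup (2 ^ n))
    (hR : ∀ r ∈ R, orderOf r = 2 → ∀ s ∈ R, r * s = s * r) :
    ¬ IsSimpleGroup G := by
  have hN : 2 ≤ 2 ^ n := by
    calc 2 = 2 ^ 1 := by norm_num
      _ ≤ 2 ^ n := Nat.pow_le_pow_right (by norm_num) hn
  obtain ⟨hf1, hf2⟩ := quat_facts (2 ^ n) hN
  set q : Q := eQ.symm (QuaternionGroup.xa 0) with hq
  set y : Q := eQ.symm (QuaternionGroup.a 1) with hy
  have hq4 : orderOf (q : G) = 4 := by
    rw [Subgroup.orderOf_coe, hq, MulEquiv.orderOf_eq, QuaternionGroup.orderOf_xa]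
  have hz2 : orderOf ((q : G) * (q : G)) = 2 := by
    rw [← sq, orderOf_pow_of_dvd (by norm_num) (by rw [hq4]; norm_num), hq4]
  refine not_simple_aux S Q R hQR ((q : G) * (q : G)) (q : G) (y : G) hz2 ?_ q.2 rfl y.2 ?_ ?_ hR
  · intro x hx hx2
    exact Cfsg.Agent.Lib.Helper2.quat_unique_invol' (2 ^ n) eQ hx (Q.mul_mem q.2 q.2) hx2 hz2
  · intro h
    apply hf1
    have h1 : q * y = y * q := Subtype.ext h
    have h2 := congrArg eQ h1
    simpa [hq, hy] using h2
  · intro c hc hcc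
    have h1 : eQ ⟨c, hc⟩ * eQ ⟨c, hc⟩ = 1 := by
      apply hf2
      intro x
      have h2 : (⟨c, hc⟩ : Q) * eQ.symm x = eQ.symm x * ⟨c, hc⟩ := Subtype.ext (hcc _ (eQ.symm x).2)
      have h3 := congrArg eQ h2
      simpa using h3
    rw [← map_mul, map_eq_one_iff eQ eQ.injective] at h1
    exact congrArg Subtype.val h1

end Cfsg.Agent.S3269
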