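import Cfsg.Statements.S3276
-- import your own Cfsg.Agent.* helpers here
import Mathlib
import Cfsg.Agent.S0208
import Cfsg.Agent.S0209

set_option autoImplicit false
open Cfsg

namespace Cfsg.Agent.S3276

/-- Let x and y be commuting, non-conjugate involutions of a finite group G, and suppose that for every involution u commuting with x, each conjugate of y that commutes with u also commutes with y. Then the normal closure of y is a proper, normal, elementary abelian 2-subgroup of G; and if y is the only involution of that normal closure commuting with x, it has order at most 4. -/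
theorem result {G : Type*} [Group G] [Finite G] (x y : G) (hx : orderOf x = 2) (hy : orderOf y = 2)
    (hxy : Commute x y) (hnc : ¬ IsConj x y)
    (hstar : ∀ u : G, orderOf u = 2 → Commute u x → ∀ g : G, Commute (g * y * g⁻¹) u → Commute (g * y * g⁻¹) y) :
    Subgroup.normalClosure ({y} : Set G) ≠ ⊤ ∧ Cfsg.IsElementaryAbelian 2 (Subgroup.normalClosure ({y} : Set G)) ∧
      ((∀ u ∈ Subgroup.normalClosure ({y} : Set G), orderOf u = 2 → Commute u x → u = y) →
        Nat.card ↥(Subgroup.normalClosure ({y} : Set G)) ≤ 4) := by
  classical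
  set M := Subgroup.normalClosure ({y} : Set G) with hM
  have hMn : M.Normal := Subgroup.normalClosure_normal
  have hy2 : y * y = 1 := by
    have := pow_orderOf_eq_one y
    rwa [hy, pow_two] at this
  have hx2 : x * x = 1 := by
    have := pow_orderOf_eq_one x
    rwa [hx, pow_two] at this
  have hxinv : x⁻¹ = x := inv_eq_of_mul_eq_one_left hx2
  -- Step 1
  have h1 : ∀ g : G, Commute (g * y * g⁻¹) y := by
    intro g
    have hy' : orderOf (g * y * g⁻¹) = 2 := by
      have : g * y * g⁻¹ = MulAut.conj g y := rfl
      rw [this, MulEquiv.orderOf_eq, hy]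
    have heven : Even (orderOf (x * (g * y * g⁻¹))) := by
      by_contra hodd
      rw [Nat.not_even_iff_odd] at hodd
      obtain ⟨d, -, hd⟩ := Cfsg.Agent.S0208.result x (g * y * g⁻¹) hx hy' hodd
      apply hnc
      rw [isConj_iff]
      refine ⟨g⁻¹ * d, ?_⟩
      calc g⁻¹ * d * x * (g⁻¹ * d)⁻¹ = g⁻¹ * (d * x * d⁻¹) * g := by group
        _ = g⁻¹ * (g * y * g⁻¹) * g := by rw [hd]
        _ = y := by group
    obtain ⟨hu2, hux, huy⟩ := Cfsg.Agent.S0209.result x (g * y * g⁻¹) hx hy' heven
    exact hstar _ hu2 hux g huy.symm
  -- Step 2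
  have h2 : ∀ a ∈ Group.conjugatesOfSet ({y} : Set G), ∀ b ∈ Group.conjugatesOfSet ({y} : Set G),
      a * b = b * a := by
    intro a ha b hb
    rw [Group.mem_conjugatesOfSet_iff] at ha hb
    obtain ⟨w, hw, ha⟩ := ha
    obtain ⟨w', hw', hb⟩ := hb
    rw [Set.mem_singleton_iff] at hw hw'
    rw [hw] at ha
    rw [hw'] at hb
    rw [isConj_iff] at ha hb
    obtain ⟨g, rfl⟩ := ha
    obtain ⟨h, rfl⟩ := hb
    have := (h1 (h⁻¹ * g)).eq
    calc g * y * g⁻¹ * (h * y * h⁻¹) = h * ((h⁻¹ * g) * y * (h⁻¹ * g)⁻¹ * y) * h⁻¹ := by group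
      _ = h * (y * ((h⁻¹ * g) * y * (h⁻¹ * g)⁻¹)) * h⁻¹ := by rw [this]
      _ = h * y * h⁻¹ * (g * y * g⁻¹) := by group
  have hMc : IsMulCommutative M := Subgroup.isMulCommutative_closure h2
  have hMcomm : ∀ a ∈ M, ∀ b ∈ M, a * b = b * a := by
    intro a ha b hb
    have := hMc.is_comm.comm ⟨a, ha⟩ ⟨b, hb⟩
    exact congrArg Subtype.val this
  have hMsq : ∀ a ∈ M, a * a = 1 := by
    intro a ha
    induction ha using Subgroup.closure_induction with
    | mem a ha =>
      rw [Group.mem_conjugatesOfSet_iff] at ha
      obtain ⟨w, hw, ha⟩ := ha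
      rw [Set.mem_singleton_iff] at hw
      rw [hw] at ha
      rw [isConj_iff] at ha
      obtain ⟨g, rfl⟩ := ha
      calc g * y * g⁻¹ * (g * y * g⁻¹) = g * (y * y) * g⁻¹ := by group
        _ = 1 := by rw [hy2]; group
    | one => simp
    | mul a b ha hb iha ihb =>
      calc a * b * (a * b) = a * (b * a) * b := by group
        _ = a * (a * b) * b := by rw [hMcomm a ha b hb]
        _ = (a * a) * (b * b) := by group
        _ = 1 := by rw [iha, ihb, one_mul]
    | inv a ha iha =>
      have : a⁻¹ = a := inv_eq_of_mul_eq_one_left iha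
      rw [this, iha]
  have hyM : y ∈ M := Subgroup.subset_normalClosure (Set.mem_singleton y)
  have hzp : ∀ z ∈ Subgroup.zpowers y, z = 1 ∨ z = y := by
    intro z hz
    obtain ⟨k, rfl⟩ := Subgroup.mem_zpowers_iff.1 hz
    rw [← zpow_mod_orderOf, hy]
    rcases Int.emod_two_eq_zero_or_one k with h | h
    · left; simp [h]
    · right; simp [h]
  refine ⟨?_, ⟨hMc, fun a ha => by rw [pow_two]; exact hMsq a ha⟩, ?_⟩
  · intro htop
    have hcomm : ∀ a b : G, a * b = b * a := fun a b =>
      hMcomm a (by rw [htop]; trivial) b (by rw [htop]; trivial)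
    haveI : (Subgroup.zpowers y).Normal := ⟨fun n hn g => by
      rw [hcomm g n, mul_assoc, mul_inv_cancel, mul_one]; exact hn⟩
    have hle : M ≤ Subgroup.zpowers y :=
      Subgroup.normalClosure_le_normal (by
        rw [Set.singleton_subset_iff]; exact Subgroup.mem_zpowers y)
    have hxz : x ∈ Subgroup.zpowers y := hle (by rw [htop]; trivial)
    rcases hzp x hxz with h | h
    · rw [h, orderOf_one] at hx; omega
    · exact hnc (by rw [h])
  · intro huniq
    have hCM : ∀ u ∈ M, u * x = x * u → u = 1 ∨ u = y := by
      intro u hu hc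
      by_cases hu1 : u = 1
      · exact Or.inl hu1
      · right
        apply huniq u hu _ hc
        exact orderOf_eq_prime (by rw [pow_two]; exact hMsq u hu) hu1
    have hconj : ∀ m ∈ M, x * m * x ∈ M := by
      intro m hm
      have := hMn.conj_mem m hm x
      rwa [hxinv] at this
    let f : M →* M :=
      { toFun := fun m => ⟨m * (x * m * x), M.mul_mem m.2 (hconj m m.2)⟩
        map_one' := by
          apply Subtype.ext
          simp [hx2]
        map_mul' := by
          intro a b
          apply Subtype.ext
          show (a : G) * b * (x * (a * b) * x) = a * (x * a * x) * (b * (x * b * x))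
          calc (a : G) * b * (x * (a * b) * x) = a * b * (x * a * (x * x) * b * x) := by
                rw [hx2]; group
            _ = a * (b * (x * a * x)) * (x * b * x) := by group
            _ = a * ((x * a * x) * b) * (x * b * x) := by
                rw [hMcomm b b.2 _ (hconj a a.2)]
            _ = a * (x * a * x) * (b * (x * b * x)) := by group }
    set C : Subgroup M := Subgroup.zpowers ⟨y, hyM⟩ with hC
    have hCcard : Nat.card C = 2 := by
      rw [hC, Nat.card_zpowers]
      rw [← hy]
      exact Subgroup.orderOf_mk y hyM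
    have hmemC : ∀ m : M, ((m : G) = 1 ∨ (m : G) = y) → m ∈ C := by
      intro m hm
      rcases hm with h | h
      · have : m = 1 := Subtype.ext h
        rw [this]; exact C.one_mem
      · have : m = ⟨y, hyM⟩ := Subtype.ext h
        rw [this]; exact Subgroup.mem_zpowers _
    have hker : f.ker ≤ C := by
      intro m hm
      rw [MonoidHom.mem_ker] at hm
      have hm' : (m : G) * (x * m * x) = 1 := congrArg Subtype.val hm
      apply hmemC
      apply hCM m m.2
      have e1 : x * m * x = (m : G) := by
        have : (m : G) * (x * m * x) = m * m := by rw [hm', hMsq m m.2]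
        exact mul_left_cancel this
      calc (m : G) * x = (x * m * x) * x := by rw [e1]
        _ = x * m * (x * x) := by group
        _ = x * m := by rw [hx2, mul_one]
    have hrange : f.range ≤ C := by
      rintro _ ⟨m, rfl⟩
      apply hmemC
      apply hCM _ (f m).2
      show (m : G) * (x * m * x) * x = x * (m * (x * m * x))
      calc (m : G) * (x * m * x) * x = m * (x * m) * (x * x) := by group
        _ = m * (x * m) := by rw [hx2, mul_one]
        _ = (m * (x * m * x)) * x⁻¹ := by group
        _ = ((x * m * x) * m) * x := by rw [hMcomm m m.2 _ (hconj m m.2), hxinv]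
        _ = x * (m * (x * m * x)) := by group
    have hcard : Nat.card f.ker * Nat.card f.range = Nat.card M := by
      rw [← Subgroup.index_ker, Subgroup.card_mul_index]
    have hk := Subgroup.card_le_of_le hker
    have hr := Subgroup.card_le_of_le hrange
    rw [hCcard] at hk hr
    calc Nat.card M = Nat.card f.ker * Nat.card f.range := hcard.symm
      _ ≤ 2 * 2 := Nat.mul_le_mul hk hr
      _ = 4 := by norm_num

end Cfsg.Agent.S3276
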