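import Cfsg.Statements.S3278
import Cfsg.Agent.Lib.Helper1.FourCent
import Cfsg.Agent.S0494

set_option autoImplicit false
open Cfsg

namespace Cfsg.Agent.S3278

open Cfsg.Agent.Lib.Helper24 Cfsg.Agent.Lib.Helper1

/-- Let G be a finite simple group with an involution x such that a Sylow 2-subgroup of C_G(x) is a Klein four-group which is normal in C_G(x). Then G is isomorphic to the alternating group of degree 5 (that is, to PSL(2, 5)). -/
theorem result {G : Type*} [Group G] [Finite G] [IsSimpleGroup G] (x : G) (hx : orderOf x = 2)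
    (S₀ : Subgroup G) (hle : S₀ ≤ Subgroup.centralizer ({x} : Set G)) (hK : IsKleinFour ↥S₀)
    (hodd : ¬ 2 ∣ S₀.relIndex (Subgroup.centralizer ({x} : Set G))) (hn : (S₀.subgroupOf (Subgroup.centralizer ({x} : Set G))).Normal) :
    Nonempty (G ≃* ↥(alternatingGroup (Fin 5))) := by
  classical
  haveI : Fact (Nat.Prime 2) := ⟨Nat.prime_two⟩
  have hS4 : Nat.card S₀ = 4 := hK.card_four
  have hcardsub : Nat.card (S₀.subgroupOf (Subgroup.centralizer ({x} : Set G))) = 4 := by
    rw [Nat.card_congr (Subgroup.subgroupOfEquivOfLe hle).toEquiv, hS4]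
  have hpg : IsPGroup 2 (S₀.subgroupOf (Subgroup.centralizer ({x} : Set G))) :=
    IsPGroup.of_card (n := 2) (by rw [hcardsub]; norm_num)
  let Q : Sylow 2 (Subgroup.centralizer ({x} : Set G)) := hpg.toSylow hodd
  have hQ : (Q : Subgroup (Subgroup.centralizer ({x} : Set G)))
      = S₀.subgroupOf (Subgroup.centralizer ({x} : Set G)) := rfl
  have hQ4 : Nat.card Q = 4 := hcardsub
  have hxC : x ∈ Subgroup.centralizer ({x} : Set G) := Subgroup.mem_centralizer_singleton_iff.mpr rfl
  have htc : ∀ h : Subgroup.centralizer ({x} : Set G), (⟨x, hxC⟩ : Subgroup.centralizer ({x} : Set G)) * h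
      = h * ⟨x, hxC⟩ := by
    intro h
    apply Subtype.ext
    exact (Subgroup.mem_centralizer_singleton_iff.mp h.2).symm
  have ht2 : orderOf (⟨x, hxC⟩ : Subgroup.centralizer ({x} : Set G)) = 2 := by
    rw [← Subgroup.orderOf_coe]; exact hx
  have hNC := normalizer_le_centralizer_of_card_four Q hQ4 htc ht2
  have hNtop : Subgroup.normalizer ((Q : Subgroup (Subgroup.centralizer ({x} : Set G))) : Set (Subgroup.centralizer ({x} : Set G))) = ⊤ := by
    rw [hQ]; exact Subgroup.normalizer_eq_top_iff.mpr hn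
  have hmem2 : ∀ h : G, h ∈ Subgroup.centralizer ({x} : Set G) → (∃ k : ℕ, orderOf h = 2 ^ k) → h ∈ S₀ := by
    intro h hh hk
    have h1 := mem_sylow_of_mem_normalizer Q (x := ⟨h, hh⟩) (by rw [← Subgroup.orderOf_coe]; exact hk)
      (by rw [hNtop]; trivial)
    rw [hQ, Subgroup.mem_subgroupOf] at h1
    exact h1
  have hxS : x ∈ S₀ := hmem2 x hxC ⟨1, by rw [hx]; norm_num⟩
  have hcommS : ∀ g ∈ Subgroup.centralizer ({x} : Set G), ∀ t ∈ S₀, t * g = g * t := by
    intro g hg t ht
    have h1 : (⟨g, hg⟩ : Subgroup.centralizer ({x} : Set G)) ∈ Subgroup.centralizer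
        ((Q : Subgroup (Subgroup.centralizer ({x} : Set G))) : Set (Subgroup.centralizer ({x} : Set G))) := hNC (by rw [hNtop]; trivial)
    rw [Subgroup.mem_centralizer_iff] at h1
    have h2 := h1 ⟨t, hle ht⟩ (by
      show (⟨t, hle ht⟩ : Subgroup.centralizer ({x} : Set G)) ∈ (Q : Subgroup _)
      rw [hQ, Subgroup.mem_subgroupOf]; exact ht)
    exact congrArg Subtype.val h2
  have hpS : IsPGroup 2 S₀ := IsPGroup.of_card (n := 2) (by rw [hS4]; norm_num)
  obtain ⟨T, hT⟩ := hpS.exists_le_sylow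
  have hcent : ∀ Q' : Subgroup G, IsPGroup 2 Q' → Q' ≤ Subgroup.centralizer {x} → Nat.card Q' ≤ 4 := by
    intro Q' hQ' hQle
    have h1 : Q' ≤ S₀ := by
      intro q hq
      apply hmem2 q (hQle hq)
      obtain ⟨k, hk⟩ := (IsPGroup.iff_orderOf.mp hQ') ⟨q, hq⟩
      exact ⟨k, by rw [← hk, Subgroup.orderOf_mk]⟩
    rw [← hS4]
    exact Nat.le_of_dvd Nat.card_pos (Subgroup.card_dvd_of_le h1)
  have hncyc : ¬ IsCyclic T := by
    intro hcyc
    have h1 : IsCyclic (S₀.subgroupOf (T : Subgroup G)) := inferInstance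
    have h2 : IsCyclic S₀ := isCyclic_of_surjective (Subgroup.subgroupOfEquivOfLe hT).toMonoidHom
      (Subgroup.subgroupOfEquivOfLe hT).surjective
    exact hK.not_isCyclic h2
  have h4G : 4 ∣ Nat.card G := hS4 ▸ Subgroup.card_subgroup_dvd_card S₀
  have hno2 : ∀ M : Subgroup G, M.Normal → M.index ≠ 2 := by
    intro M hM hMi
    rcases hM.eq_bot_or_eq_top with rfl | rfl
    · rw [Subgroup.index_bot] at hMi
      rw [hMi] at h4G
      omega
    · rw [Subgroup.index_top] at hMi; omega
  have h8 := sylow_card_lt_eight hno2 x hx T (hT hxS) hncyc hcent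
  have h4T : 4 ∣ Nat.card (T : Subgroup G) := hS4 ▸ Subgroup.card_dvd_of_le hT
  have hTpos : 0 < Nat.card (T : Subgroup G) := Nat.card_pos
  have hT4 : Nat.card (T : Subgroup G) = 4 := by
    have h8' : Nat.card (T : Subgroup G) < 8 := h8
    omega
  have hTS : S₀ = (T : Subgroup G) := Subgroup.eq_of_le_of_card_ge hT (by rw [hT4, hS4])
  have hcc : Subgroup.centralizer ({x} : Set G) = Subgroup.centralizer ((T : Subgroup G) : Set G) := by
    apply le_antisymm
    · intro g hg
      rw [Subgroup.mem_centralizer_iff]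
      intro t ht
      exact hcommS g hg t (by rw [hTS]; exact ht)
    · exact Subgroup.centralizer_le (Set.singleton_subset_iff.mpr (hT hxS))
  have h60 := card_eq_sixty_of_klein T hT4 x (hT hxS) hx (by rw [hcc])
  exact Cfsg.Agent.S0494.result h60

end Cfsg.Agent.S3278
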