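import Cfsg.Statements.S3279
import Cfsg.Agent.Lib.Helper9.ZStar
import Cfsg.Agent.Lib.Helper9.Invol
import Cfsg.Agent.Lib.Helper14.PGroupRel

set_option autoImplicit false
open Cfsg

namespace Cfsg.Agent.S3279

open Cfsg.Agent.Lib.Helper9
open scoped Pointwise

/-- non-conjugate involutions commute with a common involution -/
theorem common_invol {G : Type*} [Group G] [Finite G] (a b : G) (ha : orderOf a = 2)
    (hb : orderOf b = 2) (hn : ¬ IsConj a b) :
    ∃ u : G, orderOf u = 2 ∧ u * a = a * u ∧ u * b = b * u := by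
  have ha2 := mul_self_of_orderOf_two ha
  have hb2 := mul_self_of_orderOf_two hb
  rcases Nat.even_or_odd' (orderOf (a * b)) with ⟨k, hk | hk⟩
  · have hk0 : 0 < k := by
      have := orderOf_pos (a * b)
      omega
    obtain ⟨h1, h2, h3, h4⟩ := even_central ha2 hb2 hk hk0
    exact ⟨(a * b) ^ k, orderOf_two_of h2 h1, h3.symm, h4.symm⟩
  · exfalso
    apply hn
    rw [isConj_iff]
    exact ⟨_, odd_conj ha2 hb2 hk⟩

/-- the centralizer of `a` has at most three involutions -/
def K {G : Type*} [Group G] (a : G) : Prop :=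
  ∀ u v : G, orderOf u = 2 → orderOf v = 2 → u * a = a * u → v * a = a * v → u ≠ a → v ≠ a →
    u ≠ v → v = a * u

theorem orderOf_mul_two {G : Type*} [Group G] {a u : G} (ha : orderOf a = 2) (hu : orderOf u = 2)
    (hc : u * a = a * u) (hne : u ≠ a) : orderOf (a * u) = 2 := by
  have ha2 := mul_self_of_orderOf_two ha
  have hu2 := mul_self_of_orderOf_two hu
  apply orderOf_two_of
  · calc a * u * (a * u) = a * (u * a) * u := by group
      _ = a * (a * u) * u := by rw [hc]
      _ = (a * a) * (u * u) := by group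
      _ = 1 := by rw [ha2, hu2, one_mul]
  · intro h
    apply hne
    calc u = (a * a) * u := by rw [ha2, one_mul]
      _ = a * (a * u) := by group
      _ = a := by rw [h, mul_one]

theorem K_of_card {G : Type*} [Group G] [Finite G] (x : G) (hx : orderOf x = 2)
    (h3 : Nat.card {u : ↥(Subgroup.centralizer ({x} : Set G)) // orderOf u = 2} ≤ 3) : K x := by
  intro u v hu hv huc hvc hux hvx huv
  by_contra hne
  let f : {u : ↥(Subgroup.centralizer ({x} : Set G)) // orderOf u = 2} → G := fun w => ((w : ↥(Subgroup.centralizer ({x} : Set G))) : G)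
  have hf : Function.Injective f := fun a b h => Subtype.ext (Subtype.ext h)
  have hmem : ∀ w : G, orderOf w = 2 → w * x = x * w → w ∈ Set.range f := by
    intro w hw hwc
    exact ⟨⟨⟨w, Subgroup.mem_centralizer_singleton_iff.2 hwc⟩, by rw [Subgroup.orderOf_mk]; exact hw⟩, rfl⟩
  have hx1 : x ≠ 1 := ne_one_of_orderOf_two hx
  have hu1 : u ≠ 1 := ne_one_of_orderOf_two hu
  have hxu : orderOf (x * u) = 2 := orderOf_mul_two hx hu huc hux
  have hsub : ({x, u, x * u, v} : Set G) ⊆ Set.range f := by
    intro w hw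
    simp only [Set.mem_insert_iff, Set.mem_singleton_iff] at hw
    rcases hw with rfl | rfl | rfl | rfl
    · exact hmem _ hx rfl
    · exact hmem _ hu huc
    · exact hmem _ hxu (by rw [mul_assoc, huc])
    · exact hmem _ hv hvc
  have h4 : ({x, u, x * u, v} : Set G).ncard = 4 := by
    rw [Set.ncard_insert_of_notMem, Set.ncard_insert_of_notMem, Set.ncard_pair (Ne.symm hne)]
    · simp only [Set.mem_insert_iff, Set.mem_singleton_iff, not_or]
      refine ⟨fun h => hx1 ?_, huv⟩
      have : x * u = 1 * u := by rw [one_mul]; exact h.symm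
      exact mul_right_cancel this
    · simp only [Set.mem_insert_iff, Set.mem_singleton_iff, not_or]
      refine ⟨Ne.symm hux, fun h => hu1 ?_, Ne.symm hvx⟩
      have : x * u = x * 1 := by rw [mul_one]; exact h.symm
      exact mul_left_cancel this
  have h5 := Set.ncard_le_ncard hsub (Set.toFinite _)
  rw [h4, ← Nat.card_coe_set_eq, Nat.card_range_of_injective hf] at h5
  omega

theorem orderOf_conj_two {G : Type*} [Group G] {a : G} (ha : orderOf a = 2) (g : G) :
    orderOf (g * a * g⁻¹) = 2 := by
  have := (MulAut.conj g).orderOf_eq a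
  rw [MulAut.conj_apply] at this
  rw [this, ha]

theorem K_conj {G : Type*} [Group G] {x : G} (hK : K x) (g : G) : K (g * x * g⁻¹) := by
  intro u v hu hv huc hvc hux hvx huv
  have h1 := hK (g⁻¹ * u * g⁻¹⁻¹) (g⁻¹ * v * g⁻¹⁻¹) (orderOf_conj_two hu _) (orderOf_conj_two hv _)
    (by
      rw [inv_inv]
      calc g⁻¹ * u * g * x = g⁻¹ * (u * (g * x * g⁻¹)) * g := by group
        _ = g⁻¹ * ((g * x * g⁻¹) * u) * g := by rw [huc]
        _ = x * (g⁻¹ * u * g) := by group)
    (by
      rw [inv_inv]
      calc g⁻¹ * v * g * x = g⁻¹ * (v * (g * x * g⁻¹)) * g := by group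
        _ = g⁻¹ * ((g * x * g⁻¹) * v) * g := by rw [hvc]
        _ = x * (g⁻¹ * v * g) := by group)
    (by
      rw [inv_inv]
      intro h
      apply hux
      rw [← h]; group)
    (by
      rw [inv_inv]
      intro h
      apply hvx
      rw [← h]; group)
    (by
      rw [inv_inv]
      intro h
      apply huv
      have h2 : g * (g⁻¹ * u * g) * g⁻¹ = g * (g⁻¹ * v * g) * g⁻¹ := by rw [h]
      simpa [mul_assoc] using h2)
  rw [inv_inv] at h1
  calc v = g * (g⁻¹ * v * g) * g⁻¹ := by group
    _ = g * (x * (g⁻¹ * u * g)) * g⁻¹ := by rw [h1]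
    _ = g * x * g⁻¹ * u := by group

theorem central_all {G : Type*} [Group G] [IsSimpleGroup G] (c : G) (hc : orderOf c = 2)
    (hcen : ∀ g, g * c = c * g) : ∀ u, orderOf u = 2 → u = c := by
  have hn : (Subgroup.zpowers c).Normal := by
    refine ⟨fun n hn g => ?_⟩
    obtain ⟨k, rfl⟩ := hn
    have hcomm : Commute g (c ^ k) := (show Commute g c from hcen g).zpow_right k
    have : g * c ^ k * g⁻¹ = c ^ k := by rw [hcomm.eq, mul_inv_cancel_right]
    change g * c ^ k * g⁻¹ ∈ _
    rw [this]
    exact ⟨k, rfl⟩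
  have hc2 : c ^ 2 = 1 := by rw [← hc]; exact pow_orderOf_eq_one c
  rcases hn.eq_bot_or_eq_top with h | h
  · exfalso
    have h1 : c ∈ Subgroup.zpowers c := Subgroup.mem_zpowers c
    rw [h, Subgroup.mem_bot] at h1
    exact ne_one_of_orderOf_two hc h1
  · intro u hu
    have h1 : u ∈ Subgroup.zpowers c := h ▸ Subgroup.mem_top u
    obtain ⟨k, rfl⟩ := h1
    rcases Int.even_or_odd' k with ⟨j, rfl | rfl⟩
    · exfalso
      apply ne_one_of_orderOf_two hu
      change c ^ (2 * j) = 1
      rw [zpow_mul, zpow_ofNat, hc2, one_zpow]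
    · change c ^ (2 * j + 1) = c
      rw [zpow_add, zpow_mul, zpow_ofNat, hc2, one_zpow, one_mul, zpow_one]

theorem comm_conj_central {G : Type*} [Group G] [IsSimpleGroup G] (z : G) (hz : orderOf z = 2)
    (h : ∀ g, (g * z * g⁻¹) * z = z * (g * z * g⁻¹)) : ∀ g, g * z = z * g := by
  have hN : Subgroup.normalClosure ({z} : Set G) = ⊤ := by
    rcases (Subgroup.normalClosure_normal (s := ({z} : Set G))).eq_bot_or_eq_top with h1 | h1
    · exfalso
      have h2 : z ∈ Subgroup.normalClosure ({z} : Set G) :=
        Subgroup.subset_normalClosure (Set.mem_singleton z)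
      rw [h1, Subgroup.mem_bot] at h2
      exact ne_one_of_orderOf_two hz h2
    · exact h1
  have hle : Subgroup.normalClosure ({z} : Set G) ≤ Subgroup.centralizer {z} := by
    rw [Subgroup.normalClosure, Subgroup.closure_le]
    intro c hc
    rw [Group.mem_conjugatesOfSet_iff] at hc
    obtain ⟨a, ha, hac⟩ := hc
    rw [Set.mem_singleton_iff] at ha
    subst ha
    obtain ⟨g, rfl⟩ := isConj_iff.1 hac
    exact Subgroup.mem_centralizer_singleton_iff.2 (h g)
  intro g
  have : g ∈ Subgroup.centralizer {z} := hle (hN ▸ Subgroup.mem_top g)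
  exact Subgroup.mem_centralizer_singleton_iff.1 this

theorem iso_central {G : Type*} [Group G] [Finite G] [IsSimpleGroup G] (x : G)
    (hiso : Cfsg.IsIsolatedInvolution x) : ∀ g, g * x = x * g := by
  have hO : Cfsg.oddCore G = ⊥ := by
    rcases (oddCore_normal (G := G)).eq_bot_or_eq_top with h | h
    · exact h
    · exfalso
      have h1 : Odd (Nat.card (Cfsg.oddCore G)) := oddCore_odd
      rw [h, Subgroup.card_top] at h1
      have h2 : 2 ∣ Nat.card G := hiso.1 ▸ orderOf_dvd_natCard x
      exact (Nat.not_even_iff_odd.2 h1) (even_iff_two_dvd.2 h2)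
  intro g
  have h1 := iso_zstar hiso g
  rw [hO, Subgroup.mem_bot] at h1
  calc g * x = (x * g * x⁻¹ * g⁻¹)⁻¹ * (x * g) := by group
    _ = x * g := by rw [h1, inv_one, one_mul]

theorem all_conj {G : Type*} [Group G] [Finite G] [IsSimpleGroup G] (x : G) (hx : orderOf x = 2)
    (hK : K x) : ∀ u v : G, orderOf u = 2 → orderOf v = 2 → IsConj u v := by
  by_cases hiso : Cfsg.IsIsolatedInvolution x
  · have hall := central_all x hx (iso_central x hiso)
    intro u v hu hv
    rw [hall u hu, hall v hv]
  · obtain ⟨g, hgc, hgne⟩ : ∃ g, Commute x (g * x * g⁻¹) ∧ g * x * g⁻¹ ≠ x := by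
      by_contra hcon
      push Not at hcon
      exact hiso ⟨hx, hcon⟩
    obtain ⟨y, hyd⟩ : ∃ y, y = g * x * g⁻¹ := ⟨_, rfl⟩
    rw [← hyd] at hgc hgne
    have hKy : K y := hyd ▸ K_conj hK g
    have hy : orderOf y = 2 := hyd ▸ orderOf_conj_two hx g
    have hxy : IsConj x y := isConj_iff.2 ⟨g, hyd.symm⟩
    have hyx : y * x = x * y := hgc.eq.symm
    have hz : orderOf (x * y) = 2 := orderOf_mul_two hx hy hyx hgne
    have hx2 := mul_self_of_orderOf_two hx
    have hy2 := mul_self_of_orderOf_two hy
    have hIx : ∀ w, orderOf w = 2 → w * x = x * w → w = x ∨ w = y ∨ w = x * y := by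
      intro w hw hwc
      by_cases h1 : w = x
      · exact Or.inl h1
      by_cases h2 : w = y
      · exact Or.inr (Or.inl h2)
      exact Or.inr (Or.inr (hK y w hy hw hyx hwc hgne h1 (Ne.symm h2)))
    have hIy : ∀ w, orderOf w = 2 → w * y = y * w → w = x ∨ w = y ∨ w = x * y := by
      intro w hw hwc
      by_cases h1 : w = x
      · exact Or.inl h1
      by_cases h2 : w = y
      · exact Or.inr (Or.inl h2)
      right; right
      rw [← hyx]
      exact hKy x w hx hw hyx.symm hwc (Ne.symm hgne) h2 (Ne.symm h1)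
    by_cases hzx : IsConj x (x * y)
    · obtain ⟨k, hk⟩ := isConj_iff.1 hzx
      have hKz : K (x * y) := hk ▸ K_conj hK k
      have hxz : x * (x * y) = (x * y) * x := by rw [mul_assoc, hyx]
      have hxnez : x ≠ x * y := by
        intro h
        apply ne_one_of_orderOf_two hy
        have : x * y = x * 1 := by rw [mul_one]; exact h.symm
        exact mul_left_cancel this
      have hIz : ∀ w, orderOf w = 2 → w * (x * y) = (x * y) * w → w = x ∨ w = y ∨ w = x * y := by
        intro w hw hwc
        by_cases h1 : w = x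
        · exact Or.inl h1
        by_cases h2 : w = x * y
        · exact Or.inr (Or.inr h2)
        right; left
        have h3 := hKz x w hx hw hxz hwc hxnez h2 (Ne.symm h1)
        rw [h3]
        calc x * y * x = x * (y * x) := by group
          _ = x * (x * y) := by rw [hyx]
          _ = (x * x) * y := by group
          _ = y := by rw [hx2, one_mul]
      have hV : ∀ w, (w = x ∨ w = y ∨ w = x * y) → IsConj x w := by
        rintro w (rfl | rfl | rfl)
        · exact IsConj.refl _
        · exact hxy
        · exact hzx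
      have key : ∀ w, orderOf w = 2 → IsConj x w := by
        intro w hw
        by_contra hn
        obtain ⟨u, hu, hux, huw⟩ := common_invol x w hx hw hn
        rcases hIx u hu hux with h | h | h
        · rw [h] at huw
          exact hn (hV w (hIx w hw huw.symm))
        · rw [h] at huw
          exact hn (hV w (hIy w hw huw.symm))
        · rw [h] at huw
          exact hn (hV w (hIz w hw huw.symm))
      exact fun u v hu hv => (key u hu).symm.trans (key v hv)
    · have hzc : ∀ h, (h * (x * y) * h⁻¹) * (x * y) = (x * y) * (h * (x * y) * h⁻¹) := by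
        intro h
        obtain ⟨z', hz'd⟩ : ∃ z', z' = h * (x * y) * h⁻¹ := ⟨_, rfl⟩
        rw [← hz'd]
        have hz' : orderOf z' = 2 := hz'd ▸ orderOf_conj_two hz h
        have hzz' : IsConj (x * y) z' := isConj_iff.2 ⟨h, hz'd.symm⟩
        have hn : ¬ IsConj x z' := fun hc => hzx (hc.trans hzz'.symm)
        obtain ⟨u, hu, hux, huz'⟩ := common_invol x z' hx hz' hn
        have hfin : (z' = x ∨ z' = y ∨ z' = x * y) → z' * (x * y) = x * y * z' := by
          rintro (h1 | h1 | h1)
          · exact absurd (h1 ▸ IsConj.refl x) hn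
          · exact absurd (h1 ▸ hxy) hn
          · rw [h1]
        rcases hIx u hu hux with h1 | h1 | h1
        · rw [h1] at huz'
          exact hfin (hIx z' hz' huz'.symm)
        · rw [h1] at huz'
          exact hfin (hIy z' hz' huz'.symm)
        · rw [h1] at huz'
          exact huz'.symm
      have hall := central_all (x * y) hz (comm_conj_central (x * y) hz hzc)
      intro u v hu hv
      rw [hall u hu, hall v hv]

/-- Let G be a finite simple group and x an involution of G whose centralizer contains at most three involutions. Then C_G(x) contains a Sylow 2-subgroup of G, and all involutions of G are conjugate. -/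
theorem result {G : Type*} [Group G] [Finite G] [IsSimpleGroup G] (x : G) (hx : orderOf x = 2)
    (h3 : Nat.card {u : ↥(Subgroup.centralizer ({x} : Set G)) // orderOf u = 2} ≤ 3) :
    (∃ S : Sylow 2 G, (S : Subgroup G) ≤ Subgroup.centralizer ({x} : Set G)) ∧
      ∀ u v : G, orderOf u = 2 → orderOf v = 2 → IsConj u v := by
  haveI : Fact (Nat.Prime 2) := ⟨Nat.prime_two⟩
  have hall := all_conj x hx (K_of_card x hx h3)
  refine ⟨?_, hall⟩
  obtain ⟨S0⟩ : Nonempty (Sylow 2 G) := inferInstance
  have hne : (⊤ : Subgroup (S0 : Subgroup G)) ≠ ⊥ := by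
    intro h
    have h1 : Nat.card (S0 : Subgroup G) = 1 := by
      rw [← Subgroup.card_top, h, Subgroup.card_bot]
    have h2 : (S0 : Subgroup G) = ⊥ := Subgroup.card_eq_one.mp h1
    have h3 := S0.not_dvd_index
    rw [h2, Subgroup.index_bot] at h3
    exact h3 (hx ▸ orderOf_dvd_natCard x)
  obtain ⟨c, -, hc1, hcc, hc2⟩ := Cfsg.Agent.Lib.Helper14.exists_central_order_p 2 S0.2 ⊤ hne
  have hco : orderOf (c : G) = 2 := by
    rw [Subgroup.orderOf_coe]
    exact orderOf_eq_prime hc2 hc1
  obtain ⟨g, hg⟩ := isConj_iff.1 (hall (c : G) x hco hx)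
  refine ⟨MulAut.conj g • S0, ?_⟩
  intro s hs
  replace hs : s ∈ (MulAut.conj g • (S0 : Subgroup G)) := hs
  rw [Subgroup.mem_pointwise_smul_iff_inv_smul_mem] at hs
  rw [Subgroup.mem_centralizer_singleton_iff]
  have hs' : g⁻¹ * s * g ∈ (S0 : Subgroup G) := by
    simpa [MulAut.smul_def] using hs
  have h1 := Subgroup.mem_center_iff.mp hcc ⟨_, hs'⟩
  have h2 : g⁻¹ * s * g * (c : G) = (c : G) * (g⁻¹ * s * g) := congrArg Subtype.val h1
  rw [← hg]
  calc s * (g * c * g⁻¹) = g * (g⁻¹ * s * g * c) * g⁻¹ := by group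
    _ = g * (c * (g⁻¹ * s * g)) * g⁻¹ := by rw [h2]
    _ = g * c * g⁻¹ * s := by group

end Cfsg.Agent.S3279
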