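import Cfsg.Statements.S3305
-- import your own Cfsg.Agent.* helpers here
import Mathlib

set_option autoImplicit false
open Cfsg

namespace Cfsg.Agent.S3305

/-- Lifting `p`-subgroups through a surjection, above a given `p`-subgroup. -/
lemma lift_pgroup {G G' : Type*} [Group G] [Finite G] [Group G'] {f : G →* G'}
    (hf : Function.Surjective f) (p : ℕ) [Fact p.Prime] (X : Subgroup G') (hX : IsPGroup p X)
    (Q : Subgroup G) (hQ : IsPGroup p Q) (hQX : Q.map f ≤ X) :
    ∃ Q₁ : Subgroup G, Q ≤ Q₁ ∧ IsPGroup p Q₁ ∧ Q₁.map f = X ∧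
      (¬ p ∣ X.index → ¬ p ∣ Q₁.index) := by
  have hQK : Q ≤ X.comap f := Subgroup.map_le_iff_le_comap.mp hQX
  obtain ⟨Q₀, hQ₀⟩ := (hQ.comap_subtype (K := X.comap f)).exists_le_sylow
  have hf' : Function.Surjective (f.subgroupComap X) :=
    f.subgroupComap_surjective_of_surjective X hf
  refine ⟨(Q₀ : Subgroup (X.comap f)).map (X.comap f).subtype, ?_, Q₀.2.map _, ?_, ?_⟩
  · intro q hq
    exact ⟨⟨q, hQK hq⟩, hQ₀ hq, rfl⟩
  · apply le_antisymm
    · rintro _ ⟨_, ⟨k, _, rfl⟩, rfl⟩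
      exact k.2
    · intro x hx
      have htop : IsPGroup p (⊤ : Subgroup X) := by
        intro y
        obtain ⟨k, hk⟩ := hX y.1
        exact ⟨k, Subtype.ext hk⟩
      have h1 := (Q₀.mapSurjective hf').is_maximal' htop le_top
      have h2 : (⟨x, hx⟩ : X) ∈ (Q₀ : Subgroup (X.comap f)).map (f.subgroupComap X) := by
        have : (⟨x, hx⟩ : X) ∈ (⊤ : Subgroup X) := Subgroup.mem_top _
        rw [h1] at this
        exact this
      obtain ⟨k, hk, hkx⟩ := h2
      exact ⟨k, ⟨k, hk, rfl⟩, congrArg Subtype.val hkx⟩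
  · intro hXi
    rw [Subgroup.index_map_subtype, X.index_comap_of_surjective hf]
    exact Nat.Prime.not_dvd_mul Fact.out Q₀.not_dvd_index hXi

/-- If any two distinct Sylow 2-subgroups of the finite group G intersect in a cyclic group, then the same holds in every quotient group G/H, H a normal subgroup of G. -/
theorem result {G : Type*} [Group G] [Finite G]
    (hC : ∀ S T : Sylow 2 G, S ≠ T → IsCyclic ↥((S : Subgroup G) ⊓ (T : Subgroup G))) (H : Subgroup G) [H.Normal] :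
    ∀ S T : Sylow 2 (G ⧸ H), S ≠ T → IsCyclic ↥((S : Subgroup (G ⧸ H)) ⊓ (T : Subgroup (G ⧸ H))) := by
  intro S T hST
  have hf : Function.Surjective (QuotientGroup.mk' H) := QuotientGroup.mk'_surjective H
  have hD : IsPGroup 2 ↥((S : Subgroup (G ⧸ H)) ⊓ (T : Subgroup (G ⧸ H))) :=
    S.2.to_le inf_le_left
  obtain ⟨Q, -, hQ, hQD, -⟩ := lift_pgroup hf 2 _ hD ⊥ IsPGroup.of_bot (by simp)
  obtain ⟨S₁, hQS, hS₁, hS₁map, hS₁i⟩ := lift_pgroup hf 2 (S : Subgroup (G ⧸ H)) S.2 Q hQ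
    (by rw [hQD]; exact inf_le_left)
  obtain ⟨T₁, hQT, hT₁, hT₁map, hT₁i⟩ := lift_pgroup hf 2 (T : Subgroup (G ⧸ H)) T.2 Q hQ
    (by rw [hQD]; exact inf_le_right)
  have hne : hS₁.toSylow (hS₁i S.not_dvd_index) ≠ hT₁.toSylow (hT₁i T.not_dvd_index) := by
    intro h
    apply hST
    have h' : S₁ = T₁ := by
      have := congrArg (fun P : Sylow 2 G => (P : Subgroup G)) h
      simpa using this
    apply Sylow.ext
    rw [← hS₁map, ← hT₁map, h']
  have hcyc := hC _ _ hne
  rw [IsPGroup.toSylow_coe, IsPGroup.toSylow_coe] at hcyc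
  have hQcyc : IsCyclic Q :=
    isCyclic_of_injective (Subgroup.inclusion (le_inf hQS hQT)) (Subgroup.inclusion_injective _)
  have hmap : IsCyclic (Q.map (QuotientGroup.mk' H)) :=
    isCyclic_of_surjective ((QuotientGroup.mk' H).subgroupMap Q)
      ((QuotientGroup.mk' H).subgroupMap_surjective Q)
  rw [hQD] at hmap
  exact hmap

end Cfsg.Agent.S3305
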