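import Cfsg.Statements.S3303
-- import your own Cfsg.Agent.* helpers here
import Mathlib
import Cfsg.Agent.Lib.Helper19.Cores
import Cfsg.Agent.S3305

set_option autoImplicit false
open Cfsg

namespace Cfsg.Agent.S3303

/-- Let G be a finite solvable group in which the intersection of any two distinct Sylow 2-subgroups is cyclic. Then G/O(G) has a normal Sylow 2-subgroup, where O(G) is the largest normal subgroup of odd order. -/
theorem result {G : Type*} [Group G] [Finite G] (hs : Group.IsSolvable G)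
    (hC : ∀ S T : Sylow 2 G, S ≠ T → IsCyclic ↥((S : Subgroup G) ⊓ (T : Subgroup G))) :
    ∃ P : Sylow 2 (G ⧸ Cfsg.oddCore G), (P : Subgroup (G ⧸ Cfsg.oddCore G)).Normal := by
  classical
  have hC' := Cfsg.Agent.S3305.result hC (Cfsg.oddCore G)
  by_cases hex : ∃ S T : Sylow 2 (G ⧸ Cfsg.oddCore G), S ≠ T
  · obtain ⟨S, T, hST⟩ := hex
    have hcyc := hC' S T hST
    have hO : Cfsg.pPrimeCore 2 (G ⧸ Cfsg.oddCore G) = ⊥ :=
      Cfsg.Agent.Lib.Helper19.pPrimeCore_quotient_eq_bot 2 G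
    have hcent := Cfsg.Agent.Lib.Helper19.centralizer_pCore_le_of_solvable 2
      (G ⧸ Cfsg.oddCore G) hO
    set R := Cfsg.pCore 2 (G ⧸ Cfsg.oddCore G) with hR
    have hRle : R ≤ (S : Subgroup (G ⧸ Cfsg.oddCore G)) ⊓ (T : Subgroup (G ⧸ Cfsg.oddCore G)) :=
      le_inf (Cfsg.Agent.Lib.Helper5.pCore_le_sylow S) (Cfsg.Agent.Lib.Helper5.pCore_le_sylow T)
    have hRcyc : IsCyclic R :=
      isCyclic_of_injective (Subgroup.inclusion hRle) (Subgroup.inclusion_injective _)
    have hRp : IsPGroup 2 R := Cfsg.Agent.Lib.Helper5.pCore_isPGroup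
    have hAut : IsPGroup 2 (MulAut R) := by
      obtain ⟨k, hk⟩ := (IsPGroup.iff_card).mp hRp
      rcases Nat.eq_zero_or_pos k with h0 | h0
      · apply IsPGroup.of_card (n := 0)
        rw [IsCyclic.card_mulAut, hk, h0, pow_zero, Nat.totient_one]
      · apply IsPGroup.of_card (n := k - 1)
        rw [IsCyclic.card_mulAut, hk, Nat.totient_prime_pow Nat.prime_two h0]
        simp
    have hall : IsPGroup 2 (G ⧸ Cfsg.oddCore G) := by
      intro g
      obtain ⟨a, ha⟩ := hAut (MulAut.conjNormal (H := R) g)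
      rw [← map_pow] at ha
      have hmem : g ^ 2 ^ a ∈ Subgroup.centralizer (R : Set (G ⧸ Cfsg.oddCore G)) := by
        rw [Subgroup.mem_centralizer_iff]
        intro r hr
        have h1 := congrArg (fun f : MulAut R => ((f ⟨r, hr⟩ : R) : G ⧸ Cfsg.oddCore G)) ha
        simp only [MulAut.conjNormal_apply, MulAut.one_apply] at h1
        calc r * g ^ 2 ^ a = g ^ 2 ^ a * r * (g ^ 2 ^ a)⁻¹ * g ^ 2 ^ a := by rw [h1]
          _ = g ^ 2 ^ a * r := by group
      obtain ⟨b, hb⟩ := hRp ⟨g ^ 2 ^ a, hcent hmem⟩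
      refine ⟨a + b, ?_⟩
      have := congrArg Subtype.val hb
      simp only [Subgroup.coe_pow, Subgroup.coe_one] at this
      rw [pow_add, pow_mul, this]
    refine ⟨S, ?_⟩
    have htop : (S : Subgroup (G ⧸ Cfsg.oddCore G)) = ⊤ := by
      have h1 : IsPGroup 2 (⊤ : Subgroup (G ⧸ Cfsg.oddCore G)) := by
        intro y
        obtain ⟨k, hk⟩ := hall y.1
        exact ⟨k, Subtype.ext hk⟩
      exact (S.is_maximal' h1 le_top).symm
    rw [htop]
    infer_instance
  · push Not at hex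
    obtain ⟨P⟩ : Nonempty (Sylow 2 (G ⧸ Cfsg.oddCore G)) := inferInstance
    refine ⟨P, ?_⟩
    rw [← Subgroup.normalizer_eq_top_iff, eq_top_iff]
    intro g _
    exact Sylow.smul_eq_iff_mem_normalizer.mp (hex _ _)

end Cfsg.Agent.S3303
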