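import Cfsg.Statements.S3349
-- import your own Cfsg.Agent.* helpers here
import Mathlib

set_option autoImplicit false
open Cfsg

namespace Cfsg.Agent.S3349

/-- Let Q be a finite extraspecial p-group and α an automorphism of Q fixing every element of some maximal abelian subgroup of Q. Then the order of α is a power of p. -/
theorem result {Q : Type*} [Group Q] [Finite Q]
    (p : ℕ) [Fact p.Prime] (hQ : Cfsg.IsExtraspecial p Q) (α : MulAut Q)
    (A : Subgroup Q) (hA : IsMulCommutative A) (hmax : ∀ B : Subgroup Q, A ≤ B → IsMulCommutative B → B = A)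
    (hfix : ∀ a ∈ A, α a = a) :
    ∃ k : ℕ, orderOf α = p ^ k := by
  classical
  obtain ⟨⟨hP, -, hcomm⟩, -⟩ := hQ
  have hAc : ∀ a ∈ A, ∀ b ∈ A, a * b = b * a := fun a ha b hb => setLike_mul_comm ha hb
  -- the centralizer of A is contained in A
  have hCA : ∀ c : Q, (∀ a ∈ A, c * a = a * c) → c ∈ A := by
    intro c hc
    have hB : IsMulCommutative (Subgroup.closure ((A : Set Q) ∪ {c})) := by
      apply Subgroup.isMulCommutative_closure
      rintro x (hx | hx) y (hy | hy)
      · exact hAc x hx y hy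
      · rw [Set.mem_singleton_iff] at hy; subst hy; exact (hc x hx).symm
      · rw [Set.mem_singleton_iff] at hx; subst hx; exact hc y hy
      · rw [Set.mem_singleton_iff] at hx hy; subst hx; subst hy; rfl
    have hle : A ≤ Subgroup.closure ((A : Set Q) ∪ {c}) := fun x hx =>
      Subgroup.subset_closure (Or.inl hx)
    have := hmax _ hle hB
    rw [← this]
    exact Subgroup.subset_closure (Or.inr rfl)
  have hZA : Subgroup.center Q ≤ A := by
    intro z hz
    apply hCA
    intro a _
    exact (Subgroup.mem_center_iff.mp hz a).symm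
  -- A is normal
  have hAn : ∀ q : Q, ∀ a ∈ A, q * a * q⁻¹ ∈ A := by
    intro q a ha
    have h1 : q * a * q⁻¹ * a⁻¹ ∈ commutator Q :=
      Subgroup.commutator_mem_commutator (Subgroup.mem_top q) (Subgroup.mem_top a)
    rw [hcomm] at h1
    have h2 := A.mul_mem (hZA h1) ha
    simpa [mul_assoc] using h2
  have hc : ∀ q : Q, q⁻¹ * α q ∈ A := by
    intro q
    apply hCA
    intro a ha
    have h1 : α (q * a * q⁻¹) = q * a * q⁻¹ := hfix _ (hAn q a ha)
    rw [map_mul, map_mul, map_inv, hfix a ha] at h1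
    have h2 : α q * a = q * a * q⁻¹ * α q := by
      rw [← h1]; group
    calc q⁻¹ * α q * a = q⁻¹ * (α q * a) := by group
      _ = q⁻¹ * (q * a * q⁻¹ * α q) := by rw [h2]
      _ = a * (q⁻¹ * α q) := by group
  have hpow : ∀ (n : ℕ) (q : Q), (α ^ n) q = q * (q⁻¹ * α q) ^ n := by
    intro n q
    induction n with
    | zero => simp
    | succ n ih =>
      rw [pow_succ', MulAut.mul_apply, ih, map_mul, map_pow, hfix _ (hc q), pow_succ']
      simp only [mul_assoc, mul_inv_cancel_left]
  obtain ⟨m, hm⟩ := (IsPGroup.iff_card).mp hP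
  have hα : α ^ (p ^ m) = 1 := by
    ext q
    rw [hpow, ← hm, pow_card_eq_one']
    simp
  obtain ⟨k, -, hk⟩ := (Nat.dvd_prime_pow (Fact.out : p.Prime)).mp (orderOf_dvd_of_pow_eq_one hα)
  exact ⟨k, hk⟩

end Cfsg.Agent.S3349
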