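import Cfsg.Statements.S3377
import Mathlib
import Cfsg.Agent.Lib.Helper21.Tri235

set_option autoImplicit false
open Cfsg

namespace Cfsg.Agent.S3377

def X : alternatingGroup (Fin 5) :=
  ⟨Equiv.swap 0 1 * Equiv.swap 1 2, by
    rw [Equiv.Perm.mem_alternatingGroup, map_mul, Equiv.Perm.sign_swap (by decide),
      Equiv.Perm.sign_swap (by decide)]
    rfl⟩

def Y : alternatingGroup (Fin 5) :=
  ⟨Equiv.swap 0 2 * Equiv.swap 2 4 * Equiv.swap 4 1 * Equiv.swap 1 3, by
    rw [Equiv.Perm.mem_alternatingGroup, map_mul, map_mul, map_mul,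
      Equiv.Perm.sign_swap (by decide), Equiv.Perm.sign_swap (by decide),
      Equiv.Perm.sign_swap (by decide), Equiv.Perm.sign_swap (by decide)]
    rfl⟩

lemma X3 : X ^ 3 = 1 := Subtype.ext (by decide)
lemma Y5 : Y ^ 5 = 1 := Subtype.ext (by decide)
lemma XY2 : (X * Y) ^ 2 = 1 := Subtype.ext (by decide)
lemma X_ne : X ≠ 1 := fun h => absurd (congrArg Subtype.val h) (by decide)
lemma Y_ne : Y ≠ 1 := fun h => absurd (congrArg Subtype.val h) (by decide)
lemma XY_ne : X * Y ≠ 1 := fun h => absurd (congrArg Subtype.val h) (by decide)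

abbrev rels : Set (FreeGroup (Fin 2)) :=
  {FreeGroup.of (0 : Fin 2) ^ 3, FreeGroup.of (1 : Fin 2) ^ 5,
        (FreeGroup.of (0 : Fin 2) * FreeGroup.of 1) ^ 2}

lemma lift_rels : ∀ r ∈ rels, FreeGroup.lift (![X, Y] : Fin 2 → alternatingGroup (Fin 5)) r = 1 := by
  rintro r (rfl | rfl | rfl)
  · simpa using X3
  · simpa using Y5
  · simpa using XY2

noncomputable def F : PresentedGroup rels →* alternatingGroup (Fin 5) :=
  PresentedGroup.toGroup lift_rels

lemma F_zero : F (PresentedGroup.of 0) = X := PresentedGroup.toGroup.of _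
lemma F_one : F (PresentedGroup.of 1) = Y := PresentedGroup.toGroup.of _

lemma card_A5 : Nat.card (alternatingGroup (Fin 5)) = 60 := by
  rw [nat_card_alternatingGroup]
  simp [Nat.factorial]

lemma F_surj : Function.Surjective F := by
  rw [← MonoidHom.range_eq_top]
  have hX : X ∈ F.range := ⟨_, F_zero⟩
  have hY : Y ∈ F.range := ⟨_, F_one⟩
  have hXY : X * Y ∈ F.range := mul_mem hX hY
  have o3 : orderOf X = 3 := orderOf_eq_prime X3 X_ne
  haveI : Fact (Nat.Prime 5) := ⟨by norm_num⟩
  have o5 : orderOf Y = 5 := orderOf_eq_prime Y5 Y_ne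
  have o2 : orderOf (X * Y) = 2 := orderOf_eq_prime XY2 XY_ne
  have d : ∀ g ∈ F.range, orderOf g ∣ Nat.card F.range := by
    intro g hg
    have := orderOf_dvd_natCard (⟨g, hg⟩ : F.range)
    rwa [Subgroup.orderOf_mk] at this
  have d3 : 3 ∣ Nat.card F.range := by
    have := d X hX
    rwa [o3] at this
  have d5 : 5 ∣ Nat.card F.range := by
    have := d Y hY
    rwa [o5] at this
  have d2 : 2 ∣ Nat.card F.range := by
    have := d _ hXY
    rwa [o2] at this
  have hci := F.range.card_mul_index
  rw [card_A5] at hci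
  have d30 : 30 ∣ Nat.card F.range := by omega
  obtain ⟨c, hc⟩ := d30
  rw [hc] at hci
  have hidx : F.range.index = 1 ∨ F.range.index = 2 := by
    have h1 : c * F.range.index = 2 := by nlinarith
    have h2 : F.range.index ∣ 2 := Dvd.intro_left _ h1
    have h3 := Nat.le_of_dvd (by norm_num) h2
    have h4 : F.range.index ≠ 0 := by
      intro h; rw [h] at h1; simp at h1
    omega
  rcases hidx with h | h
  · exact Subgroup.index_eq_one.mp h
  · exfalso
    haveI := Subgroup.normal_of_index_eq_two h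
    haveI := alternatingGroup.isSimpleGroup_five
    rcases Subgroup.Normal.eq_bot_or_eq_top (H := F.range) inferInstance with h' | h'
    · rw [h'] at hX
      exact X_ne (Subgroup.mem_bot.mp hX)
    · rw [h', Subgroup.index_top] at h
      norm_num at h


/-- The alternating group of degree 5 has the presentation ⟨x, y | x³ = 1, y⁵ = 1, (xy)² = 1⟩: the group so presented is isomorphic to Alt(5). -/
theorem result :
    Nonempty (PresentedGroup ({FreeGroup.of (0 : Fin 2) ^ 3, FreeGroup.of (1 : Fin 2) ^ 5,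
        (FreeGroup.of (0 : Fin 2) * FreeGroup.of 1) ^ 2} : Set (FreeGroup (Fin 2))) ≃* alternatingGroup (Fin 5)) := by
  have hgen : Subgroup.closure {(PresentedGroup.of 0 : PresentedGroup rels), PresentedGroup.of 1}
      = ⊤ := by
    rw [← PresentedGroup.closure_range_of rels]
    congr 1
    ext g
    constructor
    · rintro (rfl | rfl)
      · exact ⟨0, rfl⟩
      · exact ⟨1, rfl⟩
    · rintro ⟨i, rfl⟩
      fin_cases i
      · exact Or.inl rfl
      · exact Or.inr rfl
  have h3 : (PresentedGroup.of 0 : PresentedGroup rels) ^ 3 = 1 := by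
    have := PresentedGroup.one_of_mem (rels := rels) (x := FreeGroup.of (0 : Fin 2) ^ 3)
      (Or.inl rfl)
    rw [map_pow] at this
    exact this
  have h5 : (PresentedGroup.of 1 : PresentedGroup rels) ^ 5 = 1 := by
    have := PresentedGroup.one_of_mem (rels := rels) (x := FreeGroup.of (1 : Fin 2) ^ 5)
      (Or.inr (Or.inl rfl))
    rw [map_pow] at this
    exact this
  have h2 : ((PresentedGroup.of 0 : PresentedGroup rels) * PresentedGroup.of 1) ^ 2 = 1 := by
    have := PresentedGroup.one_of_mem (rels := rels)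
      (x := (FreeGroup.of (0 : Fin 2) * FreeGroup.of 1) ^ 2) (Or.inr (Or.inr rfl))
    rw [map_pow, map_mul] at this
    exact this
  obtain ⟨hfin, hcard⟩ := Cfsg.Agent.Lib.Helper21.Tri235.tri_card _ _ h3 h5 h2 hgen
  haveI := hfin
  refine ⟨MulEquiv.ofBijective F (F_surj.bijective_of_nat_card_le ?_)⟩
  rw [card_A5]
  exact hcard

end Cfsg.Agent.S3377
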