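import Cfsg.Statements.S3378
import Mathlib
import Cfsg.Agent.S3377
import Cfsg.Agent.S0201
import Cfsg.Agent.S0493
import Cfsg.Agent.S0494
import Cfsg.Agent.Lib.Helper14.ClassCard

set_option autoImplicit false
open Cfsg

namespace Cfsg.Agent.S3378

universe u

abbrev rels3 : Set (FreeGroup (Fin 3)) :=
  {FreeGroup.of (0 : Fin 3) ^ 3, FreeGroup.of (1 : Fin 3) ^ 5, FreeGroup.of (2 : Fin 3) ^ 2,
        (FreeGroup.of (2 : Fin 3))⁻¹ * FreeGroup.of 0 * FreeGroup.of 2 * (FreeGroup.of (0 : Fin 3))⁻¹,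
        (FreeGroup.of (2 : Fin 3))⁻¹ * FreeGroup.of 1 * FreeGroup.of 2 * (FreeGroup.of (1 : Fin 3))⁻¹,
        (FreeGroup.of (0 : Fin 3) * FreeGroup.of 1) ^ 2 * (FreeGroup.of (2 : Fin 3))⁻¹}

abbrev Pr := PresentedGroup rels3

structure Rel3 {X : Type*} [Group X] (x y z : X) : Prop where
  hx : x ^ 3 = 1
  hy : y ^ 5 = 1
  hz : z ^ 2 = 1
  hzx : z * x = x * z
  hzy : z * y = y * z
  hxy : (x * y) ^ 2 = z

lemma Rel3.lift {X : Type*} [Group X] {x y z : X} (h : Rel3 x y z) :
    ∀ r ∈ rels3, FreeGroup.lift (![x, y, z] : Fin 3 → X) r = 1 := by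
  have e0 : FreeGroup.lift (![x, y, z] : Fin 3 → X) (FreeGroup.of 0) = x := by simp
  have e1 : FreeGroup.lift (![x, y, z] : Fin 3 → X) (FreeGroup.of 1) = y := by simp
  have e2 : FreeGroup.lift (![x, y, z] : Fin 3 → X) (FreeGroup.of 2) = z := by simp
  rintro r (rfl | rfl | rfl | rfl | rfl | rfl)
  · rw [map_pow, e0, h.hx]
  · rw [map_pow, e1, h.hy]
  · rw [map_pow, e2, h.hz]
  · rw [map_mul, map_mul, map_mul, map_inv, map_inv, e0, e2, mul_assoc z⁻¹, ← h.hzx,
      inv_mul_cancel_left, mul_inv_cancel]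
  · rw [map_mul, map_mul, map_mul, map_inv, map_inv, e1, e2, mul_assoc z⁻¹, ← h.hzy,
      inv_mul_cancel_left, mul_inv_cancel]
  · rw [map_mul, map_pow, map_mul, map_inv, e0, e1, e2, h.hxy, mul_inv_cancel]

lemma rel3_of : Rel3 (PresentedGroup.of 0 : Pr) (PresentedGroup.of 1) (PresentedGroup.of 2) where
  hx := by
    have := PresentedGroup.one_of_mem (rels := rels3) (x := FreeGroup.of (0 : Fin 3) ^ 3)
      (Or.inl rfl)
    rw [map_pow] at this
    exact this
  hy := by
    have := PresentedGroup.one_of_mem (rels := rels3) (x := FreeGroup.of (1 : Fin 3) ^ 5)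
      (Or.inr (Or.inl rfl))
    rw [map_pow] at this
    exact this
  hz := by
    have := PresentedGroup.one_of_mem (rels := rels3) (x := FreeGroup.of (2 : Fin 3) ^ 2)
      (Or.inr (Or.inr (Or.inl rfl)))
    rw [map_pow] at this
    exact this
  hzx := by
    have := PresentedGroup.one_of_mem (rels := rels3)
      (x := (FreeGroup.of (2 : Fin 3))⁻¹ * FreeGroup.of 0 * FreeGroup.of 2 *
        (FreeGroup.of (0 : Fin 3))⁻¹)
      (Or.inr (Or.inr (Or.inr (Or.inl rfl))))
    rw [map_mul, map_mul, map_mul, map_inv, map_inv, mul_inv_eq_one, mul_assoc,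
      inv_mul_eq_iff_eq_mul] at this
    exact this.symm
  hzy := by
    have := PresentedGroup.one_of_mem (rels := rels3)
      (x := (FreeGroup.of (2 : Fin 3))⁻¹ * FreeGroup.of 1 * FreeGroup.of 2 *
        (FreeGroup.of (1 : Fin 3))⁻¹)
      (Or.inr (Or.inr (Or.inr (Or.inr (Or.inl rfl)))))
    rw [map_mul, map_mul, map_mul, map_inv, map_inv, mul_inv_eq_one, mul_assoc,
      inv_mul_eq_iff_eq_mul] at this
    exact this.symm
  hxy := by
    have := PresentedGroup.one_of_mem (rels := rels3)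
      (x := (FreeGroup.of (0 : Fin 3) * FreeGroup.of 1) ^ 2 * (FreeGroup.of (2 : Fin 3))⁻¹)
      (Or.inr (Or.inr (Or.inr (Or.inr (Or.inr rfl)))))
    rw [map_mul, map_inv, mul_inv_eq_one, map_pow, map_mul] at this
    exact this

lemma normal_zp {G : Type*} [Group G] (z : G) (hz : z ∈ Subgroup.center G) :
    (Subgroup.zpowers z).Normal := by
  constructor
  intro n hn g
  have hn' : n ∈ Subgroup.center G := (Subgroup.zpowers_le.mpr hz) hn
  have : g * n * g⁻¹ = n := by
    rw [Subgroup.mem_center_iff.mp hn' g, mul_assoc, mul_inv_cancel, mul_one]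
  rw [this]
  exact hn

lemma rel3_card {X : Type*} [Group X] (x y z : X) (h : Rel3 x y z)
    (hgen : Subgroup.closure {x, y, z} = ⊤) : Finite X ∧ Nat.card X ≤ 120 := by
  have hzc : z ∈ Subgroup.center X := by
    rw [Subgroup.mem_center_iff]
    intro g
    have hg : g ∈ Subgroup.closure {x, y, z} := by rw [hgen]; trivial
    show Commute g z
    induction hg using Subgroup.closure_induction with
    | mem w hw =>
      rcases hw with rfl | rfl | rfl
      · exact h.hzx.symm
      · exact h.hzy.symm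
      · exact Commute.refl _
    | one => exact Commute.one_left _
    | mul a b _ _ ha hb => exact Commute.mul_left ha hb
    | inv a _ ha => exact Commute.inv_left ha
  haveI hN := normal_zp z hzc
  have hzN : (QuotientGroup.mk' (Subgroup.zpowers z)) z = 1 := by
    rw [QuotientGroup.mk'_apply, QuotientGroup.eq_one_iff]
    exact Subgroup.mem_zpowers _
  have hgen2 : Subgroup.closure {(QuotientGroup.mk' (Subgroup.zpowers z)) x,
      (QuotientGroup.mk' (Subgroup.zpowers z)) y} = ⊤ := by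
    have h1 : (Subgroup.closure {x, y, z}).map (QuotientGroup.mk' (Subgroup.zpowers z)) = ⊤ := by
      rw [hgen]
      exact Subgroup.map_top_of_surjective _ (QuotientGroup.mk'_surjective _)
    rw [eq_top_iff, ← h1, MonoidHom.map_closure, Subgroup.closure_le]
    rintro _ ⟨w, (rfl | rfl | rfl), rfl⟩
    · exact Subgroup.subset_closure (Or.inl rfl)
    · exact Subgroup.subset_closure (Or.inr rfl)
    · rw [hzN]; exact one_mem _
  obtain ⟨hf, hc⟩ := Cfsg.Agent.Lib.Helper21.Tri235.tri_card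
    ((QuotientGroup.mk' (Subgroup.zpowers z)) x) ((QuotientGroup.mk' (Subgroup.zpowers z)) y)
    (by rw [← map_pow, h.hx, map_one]) (by rw [← map_pow, h.hy, map_one])
    (by rw [← map_mul, ← map_pow, h.hxy, hzN]) hgen2
  haveI := hf
  haveI : Finite (Subgroup.zpowers z) :=
    (isOfFinOrder_iff_pow_eq_one.mpr ⟨2, by norm_num, h.hz⟩).finite_zpowers
  refine ⟨Finite.of_subgroup_quotient (Subgroup.zpowers z), ?_⟩
  rw [Subgroup.card_eq_card_quotient_mul_card_subgroup (Subgroup.zpowers z), Nat.card_zpowers]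
  have h2 : orderOf z ≤ 2 := orderOf_le_of_pow_eq_one (by norm_num) h.hz
  calc Nat.card (X ⧸ Subgroup.zpowers z) * orderOf z ≤ 60 * 2 := Nat.mul_le_mul hc h2
    _ = 120 := by norm_num

lemma card_Pr : Finite Pr ∧ Nat.card Pr ≤ 120 := by
  apply rel3_card _ _ _ rel3_of
  rw [← PresentedGroup.closure_range_of rels3]
  congr 1
  ext g
  constructor
  · rintro (rfl | rfl | rfl)
    · exact ⟨0, rfl⟩
    · exact ⟨1, rfl⟩
    · exact ⟨2, rfl⟩
  · rintro ⟨i, rfl⟩
    fin_cases i
    · exact Or.inl rfl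
    · exact Or.inr (Or.inl rfl)
    · exact Or.inr (Or.inr rfl)

theorem recog {G : Type*} [Group G] [Finite G] (hG : Nat.card G = 120) (x y z : G)
    (h : Rel3 x y z) (hzc : z ∈ Subgroup.center G) (hz1 : z ≠ 1) (hx1 : x ≠ 1) :
    Nonempty (Pr ≃* G) := by
  obtain ⟨ψ, hψ⟩ : ∃ ψ : Pr →* G, ψ = PresentedGroup.toGroup h.lift := ⟨_, rfl⟩
  have hψ0 : ψ (PresentedGroup.of 0) = x := by rw [hψ]; exact PresentedGroup.toGroup.of _
  have hψ1 : ψ (PresentedGroup.of 1) = y := by rw [hψ]; exact PresentedGroup.toGroup.of _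
  have hψ2 : ψ (PresentedGroup.of 2) = z := by rw [hψ]; exact PresentedGroup.toGroup.of _
  haveI hN := normal_zp z hzc
  obtain ⟨π, hπ⟩ : ∃ π : G →* G ⧸ Subgroup.zpowers z, π = QuotientGroup.mk' _ := ⟨_, rfl⟩
  have hπz : π z = 1 := by
    rw [hπ, QuotientGroup.mk'_apply, QuotientGroup.eq_one_iff]
    exact Subgroup.mem_zpowers _
  have hoz : orderOf z = 2 := orderOf_eq_prime h.hz hz1
  have hcq : Nat.card (G ⧸ Subgroup.zpowers z) = 60 := by
    have h1 := Subgroup.card_eq_card_quotient_mul_card_subgroup (Subgroup.zpowers z)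
    rw [Nat.card_zpowers, hoz, hG] at h1
    omega
  have hπx : π x ≠ 1 := by
    intro h1
    rw [hπ, QuotientGroup.mk'_apply, QuotientGroup.eq_one_iff] at h1
    obtain ⟨m, hm⟩ := Subgroup.mem_zpowers_iff.mp h1
    apply hx1
    have h2 : x ^ 2 = 1 := by
      rw [← hm, ← zpow_natCast, ← zpow_mul, mul_comm, zpow_mul, zpow_natCast, h.hz, one_zpow]
    have h3 := h.hx
    rw [pow_succ, h2, one_mul] at h3
    exact h3
  have hrels : ∀ r ∈ Cfsg.Agent.S3377.rels,
      FreeGroup.lift (![π x, π y] : Fin 2 → G ⧸ Subgroup.zpowers z) r = 1 := by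
    rintro r (rfl | rfl | rfl)
    · simp only [map_pow, FreeGroup.lift_apply_of, Matrix.cons_val_zero]
      rw [← map_pow, h.hx, map_one]
    · simp only [map_pow, FreeGroup.lift_apply_of, Matrix.cons_val_one, Matrix.cons_val_zero]
      rw [← map_pow, h.hy, map_one]
    · simp only [map_pow, map_mul, FreeGroup.lift_apply_of, Matrix.cons_val_one,
        Matrix.cons_val_zero]
      rw [← map_mul, ← map_pow, h.hxy, hπz]
  obtain ⟨θ, hθ⟩ : ∃ θ : PresentedGroup Cfsg.Agent.S3377.rels →* G ⧸ Subgroup.zpowers z,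
      θ = PresentedGroup.toGroup hrels := ⟨_, rfl⟩
  have hθ0 : θ (PresentedGroup.of 0) = π x := by rw [hθ]; exact PresentedGroup.toGroup.of _
  have hθ1 : θ (PresentedGroup.of 1) = π y := by rw [hθ]; exact PresentedGroup.toGroup.of _
  obtain ⟨e⟩ := Cfsg.Agent.S3377.result
  obtain ⟨φ, hφ⟩ : ∃ φ : alternatingGroup (Fin 5) →* G ⧸ Subgroup.zpowers z,
      φ = θ.comp e.symm.toMonoidHom := ⟨_, rfl⟩
  haveI : IsSimpleGroup (alternatingGroup (Fin 5)) :=
    alternatingGroup.isSimpleGroup (by simp)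
  have hinj : Function.Injective φ := by
    rw [← MonoidHom.ker_eq_bot_iff]
    rcases Subgroup.Normal.eq_bot_or_eq_top (H := φ.ker) inferInstance with h1 | h1
    · exact h1
    · exfalso
      apply hπx
      have h2 : e (PresentedGroup.of 0) ∈ φ.ker := by rw [h1]; trivial
      rw [MonoidHom.mem_ker, hφ] at h2
      rw [← hθ0]
      simpa using h2
  have hbij : Function.Bijective φ :=
    (Nat.bijective_iff_injective_and_card φ).mpr
      ⟨hinj, by rw [hcq]; exact Cfsg.Agent.S3377.card_A5⟩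
  have hθs : Function.Surjective θ := by
    intro q
    obtain ⟨a, ha⟩ := hbij.2 q
    refine ⟨e.symm a, ?_⟩
    rw [← ha, hφ]
    rfl
  have hle : θ.range ≤ (ψ.range).map π := by
    rw [MonoidHom.range_eq_map, ← PresentedGroup.closure_range_of, MonoidHom.map_closure,
      Subgroup.closure_le]
    rintro _ ⟨_, ⟨i, rfl⟩, rfl⟩
    fin_cases i
    · exact ⟨x, ⟨_, hψ0⟩, hθ0.symm⟩
    · exact ⟨y, ⟨_, hψ1⟩, hθ1.symm⟩
  have hsurj : Function.Surjective ψ := by
    intro g
    obtain ⟨w, hw⟩ := hθs (π g)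
    obtain ⟨r, hr, hrg⟩ := hle ⟨w, hw⟩
    have h1 : r⁻¹ * g ∈ Subgroup.zpowers z := by
      rw [hπ] at hrg
      exact QuotientGroup.eq.mp hrg
    have h2 : Subgroup.zpowers z ≤ ψ.range := Subgroup.zpowers_le.mpr ⟨_, hψ2⟩
    have h3 : r * (r⁻¹ * g) ∈ ψ.range := mul_mem hr (h2 h1)
    rw [mul_inv_cancel_left] at h3
    exact h3
  obtain ⟨hf, hc⟩ := card_Pr
  haveI := hf
  exact ⟨MulEquiv.ofBijective ψ (hsurj.bijective_of_nat_card_le (by rw [hG]; exact hc))⟩

lemma ext_solv {G : Type*} [Group G] (N : Subgroup G) [N.Normal] (h1 : Group.IsSolvable N)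
    (h2 : Group.IsSolvable (G ⧸ N)) : Group.IsSolvable G :=
  Group.isSolvable_of_ker_le_range N.subtype (QuotientGroup.mk' N)
    (by rw [QuotientGroup.ker_mk', Subgroup.range_subtype])

lemma card_bounds {H : Type*} [Group H] [Finite H] (N : Subgroup H) (hb : N ≠ ⊥) (ht : N ≠ ⊤) :
    Nat.card N < Nat.card H ∧ N.index < Nat.card H := by
  have h1 := N.card_mul_index
  have h2 : Nat.card N ≠ 1 := fun h => hb (Subgroup.card_eq_one.mp h)
  have h3 : N.index ≠ 1 := fun h => ht (Subgroup.index_eq_one.mp h)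
  have h4 : 0 < Nat.card N := Nat.card_pos
  have h5 : N.index ≠ 0 := Subgroup.index_ne_zero_of_finite
  have h6 : 2 ≤ Nat.card N := by omega
  have h7 : 2 ≤ N.index := by omega
  rw [← h1]
  constructor <;> nlinarith

theorem solv_lt60 (n : ℕ) : ∀ (H : Type u) [Group H] [Finite H], Nat.card H = n → n < 60 →
    Group.IsSolvable H := by
  induction n using Nat.strong_induction_on with
  | _ n ih =>
    intro H _ _ hn h60
    by_cases hs : IsSimpleGroup H
    · by_cases hc : IsCyclic H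
      · letI := IsCyclic.commGroup (α := H)
        exact Group.isSolvable_of_comm (fun a b => mul_comm a b)
      · have := Cfsg.Agent.S0493.result hc (by omega)
        omega
    · by_cases hsub : Subsingleton H
      · infer_instance
      · have hex : ∃ N : Subgroup H, N.Normal ∧ N ≠ ⊥ ∧ N ≠ ⊤ := by
          by_contra hcon
          push Not at hcon
          apply hs
          haveI : Nontrivial H := not_subsingleton_iff_nontrivial.mp hsub
          refine ⟨fun N hN => ?_⟩
          by_cases h : N = ⊥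
          · exact Or.inl h
          · exact Or.inr (hcon N hN h)
        obtain ⟨N, hN, hb, ht⟩ := hex
        obtain ⟨c1, c2⟩ := card_bounds N hb ht
        have s1 := ih (Nat.card N) (by omega) N rfl (by omega)
        have s2 := ih N.index (by omega) (H ⧸ N) rfl (by omega)
        exact ext_solv N s1 s2

lemma q8_invol : ∀ a b : QuaternionGroup 2, a * a = 1 → a ≠ 1 → b * b = 1 → b ≠ 1 → a = b := by
  decide

theorem part1 (G : Type u) [Group G] [Finite G] (hG : Nat.card G = 120)
    (hns : ¬ Group.IsSolvable G)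
    (hQ : ∀ P : Sylow 2 G, Nonempty ((P : Subgroup G) ≃* QuaternionGroup 2)) :
    Nonempty (Pr ≃* G) := by
  haveI : Fact (Nat.Prime 2) := ⟨Nat.prime_two⟩
  have hO : ∀ N : Subgroup G, N.Normal → Odd (Nat.card N) → N = ⊥ := by
    intro N hN hodd
    by_contra hb
    have h1 := N.card_mul_index
    rw [hG] at h1
    have h2 : Nat.card N ≠ 1 := fun h => hb (Subgroup.card_eq_one.mp h)
    obtain ⟨m, hm⟩ := hodd
    have hc : Nat.card N < 60 := by
      by_contra hcon
      have h3 : N.index ≤ 2 := by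
        by_contra h4
        nlinarith
      interval_cases hi : N.index <;> omega
    have hi : N.index < 60 := by
      by_contra hcon
      have h3 : Nat.card N ≤ 2 := by
        by_contra h4
        nlinarith
      omega
    exact hns (ext_solv N (solv_lt60 _ N rfl hc) (solv_lt60 _ (G ⧸ N) rfl hi))
  obtain ⟨P0⟩ : Nonempty (Sylow 2 G) := inferInstance
  obtain ⟨e0⟩ := hQ P0
  have hZ : Nat.card (Subgroup.center G) = 2 := Cfsg.Agent.S0201.result P0 0 e0 hO
  have hcq : Nat.card (G ⧸ Subgroup.center G) = 60 := by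
    have h1 := Subgroup.card_eq_card_quotient_mul_card_subgroup (Subgroup.center G)
    rw [hZ, hG] at h1
    omega
  have hnsq : ¬ Group.IsSolvable (G ⧸ Subgroup.center G) := by
    intro h
    exact hns (ext_solv (Subgroup.center G) (Group.isSolvable_of_comm (fun a b =>
      Subtype.ext (Subgroup.mem_center_iff.mp b.2 a.1))) h)
  haveI hsimple : IsSimpleGroup (G ⧸ Subgroup.center G) := by
    haveI : Nontrivial (G ⧸ Subgroup.center G) := by
      apply (Finite.one_lt_card_iff_nontrivial).mp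
      rw [hcq]; norm_num
    refine ⟨fun M hM => ?_⟩
    by_contra hcon
    push Not at hcon
    obtain ⟨c1, c2⟩ := card_bounds M hcon.1 hcon.2
    rw [hcq] at c1 c2
    exact hnsq (ext_solv M (solv_lt60 _ M rfl c1) (solv_lt60 _ (_ ⧸ M) rfl c2))
  obtain ⟨e⟩ := Cfsg.Agent.S0494.result hcq
  obtain ⟨π, hπ⟩ : ∃ π : G →* G ⧸ Subgroup.center G, π = QuotientGroup.mk' _ := ⟨_, rfl⟩
  have hπs : Function.Surjective π := by rw [hπ]; exact QuotientGroup.mk'_surjective _
  have hπ1 : ∀ g, π g = 1 ↔ g ∈ Subgroup.center G := by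
    intro g
    rw [hπ, QuotientGroup.mk'_apply, QuotientGroup.eq_one_iff]
  obtain ⟨⟨z, hzc⟩, hz1, hzu⟩ := (Nat.card_eq_two_iff' (1 : Subgroup.center G)).mp hZ
  have hz1' : z ≠ 1 := fun h => hz1 (Subtype.ext h)
  have hzu' : ∀ c ∈ Subgroup.center G, c = 1 ∨ c = z := by
    intro c hc
    by_cases h : c = 1
    · exact Or.inl h
    · right
      have := hzu ⟨c, hc⟩ (fun h' => h (congrArg Subtype.val h'))
      exact congrArg Subtype.val this
  have hz2 : z ^ 2 = 1 := by
    rcases hzu' (z ^ 2) (pow_mem hzc 2) with h | h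
    · exact h
    · exfalso
      apply hz1'
      rw [pow_two] at h
      exact mul_eq_right.mp h
  have hcomm : ∀ g, z * g = g * z := fun g => (Subgroup.mem_center_iff.mp hzc g).symm
  have adjust : ∀ (n : ℕ) (g : G), z ^ (n + 1) = 1 → g ^ n ∈ Subgroup.center G →
      ∃ x, π x = π g ∧ x ^ n = 1 := by
    intro n g hn hg
    rcases hzu' _ hg with h | h
    · exact ⟨g, rfl, h⟩
    · refine ⟨g * z, ?_, ?_⟩
      · rw [map_mul, (hπ1 z).mpr hzc, mul_one]
      · rw [(show Commute g z from (hcomm g).symm).mul_pow, h, ← pow_succ', hn]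
  obtain ⟨gx, hgx⟩ := hπs (e.symm Cfsg.Agent.S3377.X)
  obtain ⟨gy, hgy⟩ := hπs (e.symm Cfsg.Agent.S3377.Y)
  obtain ⟨x, hxπ, hx3⟩ := adjust 3 gx
    (by rw [show 3 + 1 = 2 * 2 from rfl, pow_mul, hz2, one_pow])
    (by rw [← hπ1, map_pow, hgx, ← map_pow, Cfsg.Agent.S3377.X3, map_one])
  obtain ⟨y, hyπ, hy5⟩ := adjust 5 gy
    (by rw [show 5 + 1 = 2 * 3 from rfl, pow_mul, hz2, one_pow])
    (by rw [← hπ1, map_pow, hgy, ← map_pow, Cfsg.Agent.S3377.Y5, map_one])
  rw [hgx] at hxπ
  rw [hgy] at hyπ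
  have hx1 : x ≠ 1 := by
    intro h
    rw [h, map_one] at hxπ
    apply Cfsg.Agent.S3377.X_ne
    have := congrArg e hxπ
    simpa using this.symm
  have hxyπ : π (x * y) = e.symm (Cfsg.Agent.S3377.X * Cfsg.Agent.S3377.Y) := by
    rw [map_mul, map_mul, hxπ, hyπ]
  have hxyc : (x * y) ^ 2 ∈ Subgroup.center G := by
    rw [← hπ1, map_pow, hxyπ, ← map_pow, Cfsg.Agent.S3377.XY2, map_one]
  have hxyn : π (x * y) ≠ 1 := by
    intro h
    rw [h] at hxyπ
    apply Cfsg.Agent.S3377.XY_ne
    have := congrArg e hxyπ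
    simpa using this.symm
  have hxy : (x * y) ^ 2 = z := by
    rcases hzu' _ hxyc with h | h
    · exfalso
      obtain ⟨t, ht⟩ : ∃ t, t = x * y := ⟨_, rfl⟩
      rw [← ht] at h hxyn
      have ht1 : t ≠ 1 := fun h' => hxyn (by rw [h', map_one])
      have htz : t ≠ z := fun h' => hxyn (by rw [h']; exact (hπ1 z).mpr hzc)
      have hpt : IsPGroup 2 (Subgroup.zpowers t) := by
        rw [IsPGroup.iff_card]
        exact ⟨1, by rw [Nat.card_zpowers, orderOf_eq_prime h ht1, pow_one]⟩
      obtain ⟨P, hP⟩ := hpt.exists_le_sylow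
      have htP : t ∈ (P : Subgroup G) := hP (Subgroup.mem_zpowers t)
      have hzP : z ∈ (P : Subgroup G) := by
        haveI := normal_zp z hzc
        have hpz : IsPGroup 2 (Subgroup.zpowers z) := by
          rw [IsPGroup.iff_card]
          exact ⟨1, by rw [Nat.card_zpowers, orderOf_eq_prime hz2 hz1', pow_one]⟩
        have hsup : IsPGroup 2 ((P : Subgroup G) ⊔ Subgroup.zpowers z : Subgroup G) :=
          IsPGroup.to_sup_of_normal_right P.2 hpz
        have heq := P.3 hsup le_sup_left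
        have : z ∈ ((P : Subgroup G) ⊔ Subgroup.zpowers z : Subgroup G) :=
          (le_sup_right : Subgroup.zpowers z ≤ _) (Subgroup.mem_zpowers z)
        rw [heq] at this
        exact this
      obtain ⟨eP⟩ := hQ P
      have key := q8_invol (eP ⟨t, htP⟩) (eP ⟨z, hzP⟩)
        (by rw [← map_mul, ← map_one eP]; congr 1; exact Subtype.ext (by show t * t = 1; rw [← pow_two]; exact h))
        (by
          intro h'
          rw [← map_one eP] at h'
          exact ht1 (congrArg Subtype.val (eP.injective h')))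
        (by rw [← map_mul, ← map_one eP]; congr 1; exact Subtype.ext (by show z * z = 1; rw [← pow_two]; exact hz2))
        (by
          intro h'
          rw [← map_one eP] at h'
          exact hz1' (congrArg Subtype.val (eP.injective h')))
      exact htz (congrArg Subtype.val (eP.injective key))
    · exact h
  exact recog hG x y z ⟨hx3, hy5, hz2, hcomm x, hcomm y, hxy⟩ hzc hz1' hx1

def mX : Matrix.SpecialLinearGroup (Fin 2) (ZMod 5) := ⟨!![0, 1; 4, 4], by decide⟩
def mY : Matrix.SpecialLinearGroup (Fin 2) (ZMod 5) := ⟨!![0, 4; 1, 2], by decide⟩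
def mZ : Matrix.SpecialLinearGroup (Fin 2) (ZMod 5) := ⟨!![4, 0; 0, 4], by decide⟩

instance fact5 : Fact (Nat.Prime 5) := ⟨by norm_num⟩

theorem part2 : Nonempty (Pr ≃* Matrix.SpecialLinearGroup (Fin 2) (ZMod 5)) := by
  have hcard : Nat.card (Matrix.SpecialLinearGroup (Fin 2) (ZMod 5)) = 120 := by
    rw [Cfsg.Agent.Lib.Helper14.card_SL2, ZMod.card]
    norm_num
  have hzc : mZ ∈ Subgroup.center (Matrix.SpecialLinearGroup (Fin 2) (ZMod 5)) := by
    rw [Matrix.SpecialLinearGroup.mem_center_iff]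
    exact ⟨4, by decide, by decide⟩
  have hc : ∀ g, mZ * g = g * mZ := fun g => (Subgroup.mem_center_iff.mp hzc g).symm
  refine recog hcard mX mY mZ ⟨Subtype.ext (by decide), Subtype.ext (by decide),
    Subtype.ext (by decide), hc _, hc _, Subtype.ext (by decide)⟩ hzc ?_ ?_
  · intro h
    exact absurd (congrArg Subtype.val h) (by decide)
  · intro h
    exact absurd (congrArg Subtype.val h) (by decide)


/-- Every non-solvable group of order 120 whose Sylow 2-subgroups are quaternion of order 8 is isomorphic to SL(2,5), and SL(2,5) has the presentation ⟨x, y, z | x³ = y⁵ = z² = 1, z⁻¹xz = x, z⁻¹yz = y, (xy)² = z⟩. -/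
theorem result :
    (∀ (G : Type*) [Group G] [Finite G], Nat.card G = 120 → ¬ Group.IsSolvable G →
      (∀ P : Sylow 2 G, Nonempty ((P : Subgroup G) ≃* QuaternionGroup 2)) →
      Nonempty (G ≃* Matrix.SpecialLinearGroup (Fin 2) (ZMod 5))) ∧
    Nonempty (PresentedGroup ({FreeGroup.of (0 : Fin 3) ^ 3, FreeGroup.of (1 : Fin 3) ^ 5, FreeGroup.of (2 : Fin 3) ^ 2,
        (FreeGroup.of (2 : Fin 3))⁻¹ * FreeGroup.of 0 * FreeGroup.of 2 * (FreeGroup.of (0 : Fin 3))⁻¹,
        (FreeGroup.of (2 : Fin 3))⁻¹ * FreeGroup.of 1 * FreeGroup.of 2 * (FreeGroup.of (1 : Fin 3))⁻¹,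
        (FreeGroup.of (0 : Fin 3) * FreeGroup.of 1) ^ 2 * (FreeGroup.of (2 : Fin 3))⁻¹} : Set (FreeGroup (Fin 3)))
      ≃* Matrix.SpecialLinearGroup (Fin 2) (ZMod 5)) := by
  obtain ⟨e2⟩ := part2
  refine ⟨?_, ⟨e2⟩⟩
  intro G _ _ hG hns hQ
  obtain ⟨e1⟩ := part1 G hG hns hQ
  exact ⟨e1.symm.trans e2⟩

end Cfsg.Agent.S3378
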