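import Cfsg.Statements.S3389
-- import your own Cfsg.Agent.* helpers here
import Mathlib
import Cfsg.Agent.Lib.Helper20.Derangement

set_option autoImplicit false
open Cfsg

namespace Cfsg.Agent.S3389

theorem fixedPoints_zpowers_eq {G Ω : Type*} [Group G] [MulAction G Ω] (g : G) :
    MulAction.fixedPoints (Subgroup.zpowers g) Ω = MulAction.fixedBy Ω g := by
  ext ω
  constructor
  · intro h
    exact h ⟨g, Subgroup.mem_zpowers g⟩
  · rintro hω ⟨m, hm⟩
    obtain ⟨j, rfl⟩ := Subgroup.mem_zpowers_iff.1 hm
    exact MulAction.fixedBy_subset_fixedBy_zpow Ω g j hω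

theorem modEq_fix {G Ω : Type*} [Group G] [MulAction G Ω] [Finite Ω] (p : ℕ) [Fact p.Prime] (h : G)
    (hh : orderOf h = p) : Nat.card Ω ≡ Nat.card (MulAction.fixedBy Ω h) [MOD p] := by
  have hP : IsPGroup p (Subgroup.zpowers h) :=
    IsPGroup.of_card (n := 1) (by rw [Nat.card_zpowers, hh, pow_one])
  have := hP.card_modEq_card_fixedPoints Ω
  rwa [fixedPoints_zpowers_eq] at this

theorem card_center_dvd {G : Type*} [Group G] [Finite G] {Ω : Type*} [Finite Ω] [MulAction G Ω]
    [FaithfulSMul G Ω] [MulAction.IsPretransitive G Ω] (g : G) :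
    Nat.card (Subgroup.center G) ∣ Nat.card (MulAction.fixedBy Ω g) := by
  classical
  let F : SubMulAction (Subgroup.center G) Ω :=
    { carrier := MulAction.fixedBy Ω g
      smul_mem' := by
        intro z ω hω
        rw [MulAction.mem_fixedBy] at hω ⊢
        show g • ((z : G) • ω) = (z : G) • ω
        rw [← mul_smul, (Subgroup.mem_center_iff.1 z.2 g), mul_smul, hω] }
  have hfree : ∀ z : Subgroup.center G, z ≠ 1 → ∀ ω : Ω, (z : G) • ω ≠ ω := by
    intro z hz ω hω
    apply hz
    apply Subtype.ext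
    apply FaithfulSMul.eq_of_smul_eq_smul (α := Ω)
    intro a
    obtain ⟨x, rfl⟩ := MulAction.exists_smul_eq G ω a
    rw [Subgroup.coe_one, one_smul, ← mul_smul, ← (Subgroup.mem_center_iff.1 z.2 x), mul_smul, hω]
  haveI : Fintype (Subgroup.center G) := Fintype.ofFinite _
  have hB := Cfsg.Agent.Lib.Helper20.burnside_natCard (Subgroup.center G) F
  rw [Finset.sum_eq_single (1 : Subgroup.center G)] at hB
  · have h1 : Nat.card (MulAction.fixedBy F (1 : Subgroup.center G)) = Nat.card F := by
      exact Nat.card_congr (Equiv.subtypeUnivEquiv (fun x => by simp [MulAction.mem_fixedBy]))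
    rw [h1] at hB
    have h2 : Nat.card F = Nat.card (MulAction.fixedBy Ω g) := rfl
    rw [← h2, hB]
    exact Dvd.intro_left _ rfl
  · intro z _ hz
    rw [Nat.card_eq_zero]
    left
    constructor
    rintro ⟨ω, hω⟩
    rw [MulAction.mem_fixedBy] at hω
    exact hfree z hz ω (congrArg Subtype.val hω)
  · intro h
    exact absurd (Finset.mem_univ _) h

/-- Let G be a finite group acting faithfully and transitively on a finite set Ω with fixity k ≥ 1: every non-identity element fixes at most k points and some non-identity element fixes exactly k points. Then |Z(G)| divides k; if k = 2 then |G| is even; and for every prime p > k dividing |G| and every point α, either p does not divide |G_α| or G_α contains a Sylow p-subgroup of G. -/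
theorem result {G : Type*} [Group G] [Finite G] {Ω : Type*} [Fintype Ω] [MulAction G Ω] [FaithfulSMul G Ω]
    (htr : MulAction.IsPretransitive G Ω) (k : ℕ) (hk : 1 ≤ k)
    (hfix : ∀ g : G, g ≠ 1 → Nat.card (MulAction.fixedBy Ω g) ≤ k) (hex : ∃ g : G, g ≠ 1 ∧ Nat.card (MulAction.fixedBy Ω g) = k) :
    Nat.card (Subgroup.center G) ∣ k ∧ (k = 2 → 2 ∣ Nat.card G) ∧
      ∀ (p : ℕ), p.Prime → k < p → p ∣ Nat.card G → ∀ α : Ω,
        ¬ p ∣ Nat.card (MulAction.stabilizer G α) ∨ ¬ p ∣ (MulAction.stabilizer G α).index := by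
  classical
  obtain ⟨g, hg1, hgk⟩ := hex
  refine ⟨?_, ?_, ?_⟩
  · rw [← hgk]
    exact card_center_dvd g
  · intro hk2
    subst hk2
    by_contra hodd
    -- a prime dividing the order of g
    have hog : orderOf g ≠ 1 := by
      rw [Ne, orderOf_eq_one_iff]; exact hg1
    obtain ⟨p, hp, hpg⟩ := Nat.exists_prime_and_dvd hog
    haveI : Fact p.Prime := ⟨hp⟩
    have hpG : p ∣ Nat.card G := hpg.trans (orderOf_dvd_natCard g)
    have hp3 : 3 ≤ p := by
      have h2 := hp.two_le
      rcases h2.lt_or_eq with h | h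
      · exact h
      · exfalso; apply hodd; rw [h]; exact hpG
    set g' := g ^ (orderOf g / p) with hg'
    have hog' : orderOf g' = p := orderOf_pow_orderOf_div (orderOf_pos g).ne' hpg
    have hg'1 : g' ≠ 1 := by
      intro h
      rw [h, orderOf_one] at hog'
      exact hp.one_lt.ne hog'
    have hsub : MulAction.fixedBy Ω g ⊆ MulAction.fixedBy Ω g' := by
      have := MulAction.fixedBy_subset_fixedBy_zpow Ω g ((orderOf g / p : ℕ) : ℤ)
      rwa [zpow_natCast] at this
    have hfg' : Nat.card (MulAction.fixedBy Ω g') = 2 := by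
      apply le_antisymm (hfix g' hg'1)
      rw [← hgk]
      exact Nat.card_mono (Set.toFinite _) hsub
    have hΩ : Nat.card Ω ≡ 2 [MOD p] := by
      have := modEq_fix (Ω := Ω) p g' hog'
      rwa [hfg'] at this
    obtain ⟨P⟩ : Nonempty (Sylow p G) := inferInstance
    have hPne : (P : Subgroup G) ≠ ⊥ := by
      intro h
      have h1 := P.card_eq_multiplicity
      rw [h, Subgroup.card_bot] at h1
      have h2 : 1 ≤ (Nat.card G).factorization p :=
        (hp.dvd_iff_one_le_factorization Nat.card_pos.ne').1 hpG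
      have h3 : p ^ 1 ≤ p ^ (Nat.card G).factorization p := Nat.pow_le_pow_right hp.pos h2
      rw [pow_one] at h3
      omega
    obtain ⟨⟨h, hhP⟩, hh1'⟩ := Subgroup.ne_bot_iff_exists_ne_one.1 hPne
    have hh1 : h ≠ 1 := fun e => hh1' (Subtype.ext e)
    set FP := MulAction.fixedPoints (P : Subgroup G) Ω with hFP
    have hFPsub : FP ⊆ MulAction.fixedBy Ω h := fun ω hω => hω ⟨h, hhP⟩
    have hFPle : Nat.card FP ≤ 2 := (Nat.card_mono (Set.toFinite _) hFPsub).trans (hfix h hh1)
    have hFPmod : Nat.card FP ≡ 2 [MOD p] :=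
      (P.isPGroup'.card_modEq_card_fixedPoints Ω).symm.trans hΩ
    have hFP2 : Nat.card FP = 2 := by
      rcases Nat.lt_or_ge (Nat.card FP) 2 with hlt | hge
      · exfalso
        have hd : p ∣ 2 - Nat.card FP := (Nat.modEq_iff_dvd' hlt.le).1 hFPmod
        have := Nat.le_of_dvd (by omega) hd
        omega
      · omega
    rw [Nat.card_coe_set_eq, Set.ncard_eq_two] at hFP2
    obtain ⟨a, b, hab, hFPab⟩ := hFP2
    have haF : a ∈ FP := by rw [hFPab]; simp
    have hbF : b ∈ FP := by rw [hFPab]; simp
    obtain ⟨x, hx⟩ := MulAction.exists_smul_eq G a b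
    have hPb : (P : Subgroup G) ≤ MulAction.stabilizer G b := fun m hm => hbF ⟨m, hm⟩
    have hxPb : ((x • P : Sylow p G) : Subgroup G) ≤ MulAction.stabilizer G b := by
      intro m hm
      rw [Sylow.coe_subgroup_smul, Subgroup.mem_smul_pointwise_iff_exists] at hm
      obtain ⟨q, hq, rfl⟩ := hm
      rw [MulAction.mem_stabilizer_iff]
      show (x * q * x⁻¹) • b = b
      rw [← hx, ← mul_smul, inv_mul_cancel_right, mul_smul]
      congr 1
      exact haF ⟨q, hq⟩
    obtain ⟨y, hy⟩ := MulAction.exists_smul_eq (MulAction.stabilizer G b)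
      ((x • P).subtype hxPb) (P.subtype hPb)
    rw [Sylow.smul_subtype] at hy
    have hy' : (y : G) • x • P = P := Sylow.subtype_injective hy
    set n := (y : G) * x with hn
    have hnP : n • P = P := by rw [hn, mul_smul]; exact hy'
    rw [Sylow.smul_eq_iff_mem_normalizer] at hnP
    have hna : n • a = b := by
      rw [hn, mul_smul, hx]; exact y.2
    have hnbF : n • b ∈ FP := by
      rintro ⟨m, hm⟩
      show m • n • b = n • b
      have h1 : n⁻¹ * m * n ∈ (P : Subgroup G) := (Subgroup.mem_normalizer_iff''.1 hnP m).1 hm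
      have h2 : (n⁻¹ * m * n) • b = b := hbF ⟨_, h1⟩
      calc m • n • b = n • (n⁻¹ * m * n) • b := by
            rw [← mul_smul, ← mul_smul]; congr 1; group
        _ = n • b := by rw [h2]
    have hnb : n • b = a := by
      rw [hFPab] at hnbF
      rcases hnbF with h | h
      · exact h
      · exfalso
        rw [Set.mem_singleton_iff] at h
        apply hab
        have : n • b = n • a := by rw [h, hna]
        exact (smul_left_cancel n this).symm
    have hn2 : n ^ 2 ∈ MulAction.stabilizer G a := by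
      rw [MulAction.mem_stabilizer_iff, pow_two, mul_smul, hna, hnb]
    have hoddn : ¬ 2 ∣ orderOf n := fun h => hodd (h.trans (orderOf_dvd_natCard n))
    obtain ⟨j, hj⟩ : ∃ j, orderOf n = 2 * j + 1 := ⟨orderOf n / 2, by omega⟩
    have hnn : n = (n ^ 2) ^ (j + 1) := by
      rw [← pow_mul]
      have : 2 * (j + 1) = orderOf n + 1 := by omega
      rw [this, pow_succ, pow_orderOf_eq_one, one_mul]
    have hnst : n ∈ MulAction.stabilizer G a := by
      rw [hnn]; exact Subgroup.pow_mem _ hn2 _
    rw [MulAction.mem_stabilizer_iff, hna] at hnst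
    exact hab hnst.symm
  · intro p hp hkp hpG α
    haveI : Fact p.Prime := ⟨hp⟩
    by_contra hcon
    push Not at hcon
    obtain ⟨h1, h2⟩ := hcon
    obtain ⟨h, hh⟩ := exists_prime_orderOf_dvd_card' p h1
    have hh' : orderOf (h : G) = p := by rw [Subgroup.orderOf_coe, hh]
    have hmod := modEq_fix (Ω := Ω) p (h : G) hh'
    rw [MulAction.index_stabilizer_of_transitive] at h2
    have h3 : p ∣ Nat.card (MulAction.fixedBy Ω (h : G)) :=
      (Nat.modEq_zero_iff_dvd.1 (hmod.symm.trans (Nat.modEq_zero_iff_dvd.2 h2)))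
    have h4 : 0 < Nat.card (MulAction.fixedBy Ω (h : G)) := by
      haveI : Nonempty (MulAction.fixedBy Ω (h : G)) := ⟨⟨α, h.2⟩⟩
      exact Nat.card_pos
    have h5 := Nat.le_of_dvd h4 h3
    have h6 : (h : G) ≠ 1 := by
      intro e
      rw [e, orderOf_one] at hh'
      exact hp.one_lt.ne hh'
    have := hfix h h6
    omega

end Cfsg.Agent.S3389
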