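import Cfsg.Statements.S3495
-- import your own Cfsg.Agent.* helpers here
import Mathlib
import Cfsg.Agent.Lib.Helper19.ExtPrim2

set_option autoImplicit false
open Cfsg

namespace Cfsg.Agent.S3495

/-- Let a finite group G act faithfully and primitively on a finite set Ω with non-trivial point stabilizers, each acting primitively on every one of its orbits (an extremely primitive group), and suppose G has an elementary abelian normal p-subgroup N acting regularly on Ω (affine type). Then every non-trivial subgroup M of a point stabilizer G_α that is normal in G_α has the same orbits on Ω as G_α, and normalizes no subgroup of N other than 1 and N. -/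
theorem result {G : Type*} [Group G] [Finite G] {Ω : Type*} [Fintype Ω] [MulAction G Ω] [FaithfulSMul G Ω] (hprim : MulAction.IsPreprimitive G Ω) (hH : ∀ α : Ω, MulAction.stabilizer G α ≠ ⊥) (hep : ∀ (α : Ω) (ω : Ω), MulAction.IsPreprimitive (MulAction.stabilizer G α) (MulAction.orbit (MulAction.stabilizer G α) ω))
    (N : Subgroup G) [N.Normal] (hNc : IsMulCommutative N) (p : ℕ) (hp : p.Prime) (hNp : ∀ n ∈ N, n ^ p = 1)
    (hNtr : MulAction.IsPretransitive N Ω) (hNreg : ∀ ω : Ω, MulAction.stabilizer N ω = ⊥) (α : Ω) (M : Subgroup G) (hM : M ≠ ⊥) (hMle : M ≤ MulAction.stabilizer G α)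
    (hMn : MulAction.stabilizer G α ≤ Subgroup.normalizer (M : Set G)) :
    (∀ ω : Ω, MulAction.orbit M ω = MulAction.orbit (MulAction.stabilizer G α) ω) ∧
    (∀ L : Subgroup G, L ≤ N → M ≤ Subgroup.normalizer (L : Set G) → L = ⊥ ∨ L = N) := by
  classical
  have horb := Cfsg.Agent.Lib.Helper19.orbit_eq_of_normal_stabilizer hprim hH hep α M hM hMle hMn
  refine ⟨horb, ?_⟩
  intro L hLN hML
  by_cases hL : L = ⊥
  · exact Or.inl hL
  right
  -- regularity of N
  have hreg : ∀ n₁ ∈ N, ∀ n₂ ∈ N, n₁ • α = n₂ • α → n₁ = n₂ := by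
    intro n₁ h₁ n₂ h₂ h
    have hmem : (⟨n₂⁻¹ * n₁, N.mul_mem (N.inv_mem h₂) h₁⟩ : N) ∈ MulAction.stabilizer N α := by
      rw [MulAction.mem_stabilizer_iff]
      show (n₂⁻¹ * n₁) • α = α
      rw [mul_smul, h, inv_smul_smul]
    rw [hNreg α, Subgroup.mem_bot] at hmem
    have := congrArg Subtype.val hmem
    simp only [Subgroup.coe_one] at this
    exact (inv_mul_eq_one.mp this).symm
  -- G_α normalizes L
  have hstabL : ∀ h ∈ MulAction.stabilizer G α, ∀ l ∈ L, h * l * h⁻¹ ∈ L := by
    intro h hh l hl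
    have hmem : h • (l • α) ∈ MulAction.orbit M (l • α) := by
      rw [horb]; exact ⟨⟨h, hh⟩, rfl⟩
    obtain ⟨⟨m, hm⟩, hmω⟩ := hmem
    have hmω' : m • (l • α) = h • (l • α) := hmω
    have hmα : m • α = α := hMle hm
    have hhα : h • α = α := hh
    have hmL : m * l * m⁻¹ ∈ L := by
      have := (Subgroup.mem_normalizer_iff.mp (hML hm) l).mp hl
      exact this
    have heq : h * l * h⁻¹ = m * l * m⁻¹ := by
      apply hreg _ (‹N.Normal›.conj_mem l (hLN hl) h) _ (‹N.Normal›.conj_mem l (hLN hl) m)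
      have e1 : h⁻¹ • α = α := by rw [inv_smul_eq_iff, hhα]
      have e2 : m⁻¹ • α = α := by rw [inv_smul_eq_iff, hmα]
      rw [mul_smul, mul_smul, mul_smul, mul_smul, e1, e2, hmω']
    rw [heq]; exact hmL
  -- L is normal in G
  have hLnormal : L.Normal := by
    constructor
    intro l hl g
    obtain ⟨⟨n, hn⟩, hnα⟩ := hNtr.exists_smul_eq α (g • α)
    have hnα' : n • α = g • α := hnα
    have hh : n⁻¹ * g ∈ MulAction.stabilizer G α := by
      rw [MulAction.mem_stabilizer_iff, mul_smul, ← hnα', inv_smul_smul]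
    have h1 := hstabL _ hh l hl
    have h2 : n * ((n⁻¹ * g) * l * (n⁻¹ * g)⁻¹) = ((n⁻¹ * g) * l * (n⁻¹ * g)⁻¹) * n :=
      setLike_mul_comm (s := N) hn (hLN h1)
    have h3 : g * l * g⁻¹ = n * ((n⁻¹ * g) * l * (n⁻¹ * g)⁻¹) * n⁻¹ := by group
    rw [h3, h2, mul_inv_cancel_right]
    exact h1
  have hnf : MulAction.fixedPoints L Ω ≠ Set.univ := by
    intro hu
    apply hL
    refine (Subgroup.eq_bot_iff_forall _).mpr fun l hl => ?_
    apply FaithfulSMul.eq_of_smul_eq_smul (α := Ω)
    intro c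
    have h1 : c ∈ MulAction.fixedPoints L Ω := by rw [hu]; trivial
    rw [one_smul]
    exact h1 ⟨l, hl⟩
  have htr := MulAction.IsQuasiPreprimitive.isPretransitive_of_normal (G := G) (X := Ω) hnf
  apply le_antisymm hLN
  intro n hn
  obtain ⟨⟨l, hl⟩, hlα⟩ := htr.exists_smul_eq α (n • α)
  have : l = n := hreg l (hLN hl) n hn hlα
  rw [← this]; exact hl

end Cfsg.Agent.S3495
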