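import Cfsg.Statements.S3498
-- import your own Cfsg.Agent.* helpers here
import Mathlib

set_option autoImplicit false
open Cfsg

namespace Cfsg.Agent.S3498

/-- A maximal subgroup of a finite almost simple group does not have prime order. Here G is almost simple in the sense that it has a non-abelian simple normal subgroup T with trivial centralizer. -/
theorem result {G : Type*} [Group G] [Finite G] (T : Subgroup G) [T.Normal] (hT : IsSimpleGroup T) (hTc : ¬ IsMulCommutative T)
    (hC : Subgroup.centralizer (T : Set G) = ⊥) (H : Subgroup G) (hmax : IsCoatom H) : ¬ (Nat.card H).Prime := by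
  classical
  intro hp
  set p := Nat.card H with hpdef
  haveI : Fact p.Prime := ⟨hp⟩
  have hTn : T.Normal := inferInstance
  -- subgroups of a commutative group
  have hcomm_of_le : ∀ X : Subgroup G, IsMulCommutative X → T ≤ X → False := by
    intro X hX hTX
    apply hTc
    refine ⟨⟨fun a b => ?_⟩⟩
    have := hX.is_comm.comm ⟨a, hTX a.2⟩ ⟨b, hTX b.2⟩
    have h2 : (a : G) * b = b * a := congrArg Subtype.val this
    exact Subtype.ext h2
  have hHcyc : IsCyclic H := isCyclic_of_prime_card hpdef.symm
  have hHcomm : IsMulCommutative H := IsCyclic.isMulCommutative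
  have hHbot : H ≠ ⊥ := by
    intro h
    rw [h] at hpdef
    simp at hpdef
    exact hp.one_lt.ne' hpdef
  -- a normal subgroup of G is trivial or contains T
  have hnorm : ∀ K : Subgroup G, K.Normal → K = ⊥ ∨ T ≤ K := by
    intro K hK
    haveI : (K.subgroupOf T).Normal := hK.subgroupOf T
    rcases hT.eq_bot_or_eq_top_of_normal (K.subgroupOf T) inferInstance with h | h
    · left
      rw [Subgroup.subgroupOf_eq_bot] at h
      rw [eq_bot_iff, ← hC]
      intro k hk
      rw [Subgroup.mem_centralizer_iff]
      intro t ht
      exact (Subgroup.commute_of_normal_of_disjoint K T hK hTn h k t hk ht).symm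
    · right
      rwa [Subgroup.subgroupOf_eq_top] at h
  -- H is not normal
  have hHnn : ¬ H.Normal := by
    intro hn
    rcases hnorm H hn with h | h
    · exact hHbot h
    · exact hcomm_of_le H hHcomm h
  have hNH : Subgroup.normalizer (H : Set G) = H := by
    by_contra hne
    have hlt : H < Subgroup.normalizer (H : Set G) :=
      lt_of_le_of_ne Subgroup.le_normalizer (Ne.symm hne)
    exact hHnn (Subgroup.normalizer_eq_top_iff.1 (hmax.2 _ hlt))
  -- p² does not divide |G|
  have hp2 : ¬ p ^ 2 ∣ Nat.card G := by
    intro hd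
    obtain ⟨K, hKc, hHK⟩ := Sylow.exists_subgroup_card_pow_succ (p := p) (n := 1) hd
      (H := H) (by rw [pow_one])
    have hlt : H < K := by
      refine lt_of_le_of_ne hHK ?_
      intro h
      rw [← h, ← hpdef] at hKc
      have : p ^ 1 = p ^ (1 + 1) := by rw [pow_one]; exact hKc
      have := Nat.pow_right_injective hp.two_le this
      omega
    have hKtop := hmax.2 _ hlt
    have hKcomm : IsMulCommutative K := IsPGroup.isMulCommutative_of_card_eq_prime_sq (p := p) hKc
    exact hcomm_of_le K hKcomm (by rw [hKtop]; exact le_top)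
  have hpG : p ∣ Nat.card G := Subgroup.card_subgroup_dvd_card H
  have hfac : (Nat.card G).factorization p = 1 := by
    have h1 : 1 ≤ (Nat.card G).factorization p :=
      (hp.dvd_iff_one_le_factorization Nat.card_pos.ne').1 hpG
    have h2 : ¬ 2 ≤ (Nat.card G).factorization p := by
      intro h
      exact hp2 ((hp.pow_dvd_iff_le_factorization Nat.card_pos.ne').2 h)
    omega
  let P : Sylow p G := Sylow.ofCard H (by rw [hfac, pow_one])
  have hPH : (P : Subgroup G) = H := rfl
  have hPc : Subgroup.normalizer ((P : Subgroup G) : Set G) ≤ Subgroup.centralizer ((P : Subgroup G) : Set G) := by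
    rw [hPH, hNH]
    exact Subgroup.le_centralizer_iff_isMulCommutative.2 hHcomm
  have hcompl := MonoidHom.ker_transferSylow_isComplement' P hPc
  set K := (MonoidHom.transferSylow P hPc).ker with hKdef
  have hKn : K.Normal := MonoidHom.normal_ker _
  have hcard : Nat.card K * p = Nat.card G := by
    have := hcompl.card_mul_card
    rwa [hPH] at this
  have hTK : T ≤ K := by
    rcases hnorm K hKn with h | h
    · exfalso
      rw [h] at hcard
      simp at hcard
      apply hmax.1
      exact Subgroup.eq_top_of_card_eq H hcard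
    · exact h
  have hpK : ¬ p ∣ Nat.card K := by
    intro ⟨c, hc⟩
    apply hp2
    rw [← hcard, hc]
    exact ⟨c, by ring⟩
  have hpT : ¬ p ∣ Nat.card T := fun h => hpK (h.trans (Subgroup.card_dvd_of_le hTK))
  -- choose a prime r dividing |T|
  have hT1 : Nat.card T ≠ 1 := by
    intro h
    apply hTc
    haveI : Subsingleton T := (Nat.card_eq_one_iff_unique.1 h).1
    exact ⟨⟨fun a b => Subsingleton.elim _ _⟩⟩
  obtain ⟨r, hr, hrT⟩ := Nat.exists_prime_and_dvd hT1
  haveI : Fact r.Prime := ⟨hr⟩
  obtain ⟨R⟩ : Nonempty (Sylow r T) := inferInstance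
  set R' := (R : Subgroup T).map T.subtype with hR'
  have hfrat := Sylow.normalizer_sup_eq_top R
  set N := Subgroup.normalizer (R' : Set G) with hN
  have hpN : p ∣ Nat.card N := by
    have h1 : T.relIndex N = T.index := by
      rw [← Subgroup.relIndex_sup_right N T, hfrat, Subgroup.relIndex_top_right]
    have h2 : p ∣ T.index := by
      have h3 : p ∣ Nat.card T * T.index := by rw [Subgroup.card_mul_index]; exact hpG
      exact (hp.dvd_mul.1 h3).resolve_left hpT
    rw [← h1] at h2
    exact h2.trans (Subgroup.relIndex_dvd_card _ _)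
  obtain ⟨x, hx⟩ := exists_prime_orderOf_dvd_card' p hpN
  set Q := Subgroup.zpowers (x : G) with hQ
  have hQc : Nat.card Q = p := by
    rw [hQ, Nat.card_zpowers, Subgroup.orderOf_coe, hx]
  have hQN : Q ≤ N := by
    rw [hQ, Subgroup.zpowers_le]; exact x.2
  let Q' : Sylow p G := Sylow.ofCard Q (by rw [hfac, pow_one, hQc])
  obtain ⟨g, hg⟩ := MulAction.exists_smul_eq G P Q'
  have hQco : IsCoatom Q := by
    have h1 : Q = (MulAut.conj g).mapSubgroup H := by
      have := congrArg (fun S : Sylow p G => (S : Subgroup G)) hg
      exact this.symm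
    rw [h1, OrderIso.isCoatom_iff]
    exact hmax
  have hRbot : (R : Subgroup T) ≠ ⊥ := by
    intro h
    have h1 := R.card_eq_multiplicity
    rw [h] at h1
    rw [Subgroup.card_bot] at h1
    have h2 : 1 ≤ (Nat.card T).factorization r :=
      (hr.dvd_iff_one_le_factorization Nat.card_pos.ne').1 hrT
    have h3 : r ^ 1 ≤ r ^ (Nat.card T).factorization r := Nat.pow_le_pow_right hr.pos h2
    have := hr.one_lt
    rw [pow_one] at h3
    omega
  have hR'card : Nat.card R' = Nat.card (R : Subgroup T) :=
    Subgroup.card_map_of_injective T.subtype_injective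
  have hR'Q : ¬ R' ≤ Q := by
    intro hle
    have h1 : Nat.card R' ∣ p := by rw [← hQc]; exact Subgroup.card_dvd_of_le hle
    rw [hR'card] at h1
    rcases (Nat.dvd_prime hp).1 h1 with h | h
    · exact hRbot ((Subgroup.card_eq_one).1 h)
    · apply hpT
      rw [← h]
      exact Subgroup.card_subgroup_dvd_card _
  have hNtop : N = ⊤ := by
    have hlt : Q < N := by
      refine lt_of_le_of_ne hQN ?_
      intro h
      apply hR'Q
      rw [h]
      exact Subgroup.le_normalizer
    exact hQco.2 _ hlt
  have hR'n : R'.Normal := Subgroup.normalizer_eq_top_iff.1 hNtop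
  have hRn : (R : Subgroup T).Normal := by
    have h1 : (R : Subgroup T) = R'.comap T.subtype := by
      rw [hR', Subgroup.comap_map_eq_self_of_injective T.subtype_injective]
    rw [h1]
    exact hR'n.comap _
  have hRtop : (R : Subgroup T) = ⊤ :=
    (hT.eq_bot_or_eq_top_of_normal _ hRn).resolve_left hRbot
  have hTp : IsPGroup r T := by
    have h1 : IsPGroup r (⊤ : Subgroup T) := by rw [← hRtop]; exact R.isPGroup'
    exact h1.of_equiv Subgroup.topEquiv
  haveI : Group.IsNilpotent T := hTp.isNilpotent
  have hsol : Group.IsSolvable T := inferInstance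
  have := IsSimpleGroup.comm_iff_isSolvable.2 hsol
  exact hTc ⟨⟨this⟩⟩

end Cfsg.Agent.S3498
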