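import Cfsg.Statements.S3504
-- import your own Cfsg.Agent.* helpers here
import Mathlib

set_option autoImplicit false
open Cfsg

namespace Cfsg.Agent.S3504

theorem cycleType_of_fpf {n : ℕ} (g : Equiv.Perm (Fin n)) (hg : (orderOf g).Prime)
    (hfix : ∀ i : Fin n, g i ≠ i) :
    orderOf g ∣ n ∧ g.cycleType = Multiset.replicate (n / orderOf g) (orderOf g) := by
  obtain ⟨m, hm⟩ := Equiv.Perm.cycleType_prime_order hg
  have hsum := Equiv.Perm.sum_cycleType g
  have hsupp : g.support = Finset.univ := by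
    ext i
    simp [Equiv.Perm.mem_support, hfix i]
  rw [hsupp, hm, Multiset.sum_replicate, Finset.card_univ, Fintype.card_fin, smul_eq_mul] at hsum
  refine ⟨⟨m + 1, by rw [mul_comm]; exact hsum.symm⟩, ?_⟩
  have h1 : n / orderOf g = m + 1 := Nat.div_eq_of_eq_mul_left hg.pos hsum.symm
  rw [hm, h1]

theorem exists_fpf {n p : ℕ} (hp : p.Prime) (hn : 0 < n) (hpn : p ∣ n) :
    ∃ g : Equiv.Perm (Fin n), orderOf g = p ∧ ∀ i : Fin n, g i ≠ i := by
  have hsum : (Multiset.replicate (n / p) p).sum = n := by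
    rw [Multiset.sum_replicate, smul_eq_mul, Nat.div_mul_cancel hpn]
  obtain ⟨g, hg⟩ := (Equiv.Perm.exists_with_cycleType_iff (Fin n)
    (m := Multiset.replicate (n / p) p)).2 ⟨by rw [hsum, Fintype.card_fin], by
      intro a ha
      rw [Multiset.eq_of_mem_replicate ha]
      exact hp.two_le⟩
  have hnp : 0 < n / p := Nat.div_pos (Nat.le_of_dvd hn hpn) hp.pos
  refine ⟨g, ?_, ?_⟩
  · have h1 : orderOf g ∣ p := by
      rw [← Equiv.Perm.lcm_cycleType, hg, Multiset.lcm_dvd]
      intro b hb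
      rw [Multiset.eq_of_mem_replicate hb]
    rcases (Nat.dvd_prime hp).1 h1 with h | h
    · exfalso
      rw [orderOf_eq_one_iff] at h
      rw [h, Equiv.Perm.cycleType_one] at hg
      have := congrArg Multiset.card hg
      rw [Multiset.card_replicate, Multiset.card_zero] at this
      omega
    · exact h
  · have h1 := Equiv.Perm.sum_cycleType g
    rw [hg, hsum] at h1
    have h2 : g.support = Finset.univ := by
      apply Finset.eq_univ_of_card
      rw [← h1, Fintype.card_fin]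
    intro i
    rw [← Equiv.Perm.mem_support, h2]
    exact Finset.mem_univ i

/-- For n ≥ 5, the fixed-point-free permutations of prime order in the symmetric group of degree n form a single conjugacy class if and only if n is a prime power. -/
theorem result (n : ℕ) (hn : 5 ≤ n) :
    Nat.card {c : ConjClasses (Equiv.Perm (Fin n)) // ∃ g : Equiv.Perm (Fin n), ConjClasses.mk g = c ∧ (orderOf g).Prime ∧ ∀ i : Fin n, g i ≠ i} = 1 ↔ IsPrimePow n := by
  classical
  have hn0 : 0 < n := by omega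
  rw [isPrimePow_iff_unique_prime_dvd, Nat.card_eq_one_iff_unique]
  constructor
  · rintro ⟨hsub, -⟩
    obtain ⟨p, hp, hpn⟩ := Nat.exists_prime_and_dvd (show n ≠ 1 by omega)
    refine ⟨p, ⟨hp, hpn⟩, ?_⟩
    rintro q ⟨hq, hqn⟩
    obtain ⟨g, hg, hgf⟩ := exists_fpf hp hn0 hpn
    obtain ⟨h, hh, hhf⟩ := exists_fpf hq hn0 hqn
    have := hsub.elim ⟨ConjClasses.mk g, g, rfl, by rw [hg]; exact hp, hgf⟩
      ⟨ConjClasses.mk h, h, rfl, by rw [hh]; exact hq, hhf⟩
    have h1 : ConjClasses.mk g = ConjClasses.mk h := congrArg Subtype.val this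
    rw [ConjClasses.mk_eq_mk_iff_isConj, Equiv.Perm.isConj_iff_cycleType_eq] at h1
    rw [← hg, ← hh, ← Equiv.Perm.lcm_cycleType, ← Equiv.Perm.lcm_cycleType, h1]
  · rintro ⟨p, ⟨hp, hpn⟩, huniq⟩
    constructor
    · constructor
      rintro ⟨_, g, rfl, hg, hgf⟩ ⟨_, h, rfl, hh, hhf⟩
      apply Subtype.ext
      show ConjClasses.mk g = ConjClasses.mk h
      rw [ConjClasses.mk_eq_mk_iff_isConj, Equiv.Perm.isConj_iff_cycleType_eq]
      obtain ⟨h1, h2⟩ := cycleType_of_fpf g hg hgf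
      obtain ⟨h3, h4⟩ := cycleType_of_fpf h hh hhf
      rw [h2, h4, huniq _ ⟨hg, h1⟩, huniq _ ⟨hh, h3⟩]
    · obtain ⟨g, hg, hgf⟩ := exists_fpf hp hn0 hpn
      exact ⟨⟨ConjClasses.mk g, g, rfl, by rw [hg]; exact hp, hgf⟩⟩

end Cfsg.Agent.S3504
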