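import Cfsg.Statements.S3508
import Mathlib

set_option autoImplicit false
open Cfsg

namespace Cfsg.Agent.S3508

open Polynomial in
theorem lin (p : ℕ) [Fact p.Prime] {A : Type*} [AddCommGroup A] [Module (ZMod p) A]
    [Module.Finite (ZMod p) A] (T : Module.End (ZMod p) A) (r j : ℕ) (hT : T ^ (p ^ r) = 1)
    (hj : Module.finrank (ZMod p) A < p ^ j) : ∑ i ∈ Finset.range (p ^ j), T ^ i = 0 := by
  have poly1 : ∀ k : ℕ, ((X : (ZMod p)[X]) - 1) ^ (p ^ k) = X ^ (p ^ k) - 1 := by
    intro k
    rw [sub_pow_char_pow, one_pow]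
  have h1 : (T - 1) ^ (p ^ r) = 0 := by
    have := congrArg (aeval T) (poly1 r)
    simp only [map_pow, map_sub, aeval_X, map_one] at this
    rw [this, hT, sub_self]
  have h2 : (T - 1) ^ (Module.finrank (ZMod p) A) = 0 := by
    have := Module.End.ker_pow_le_ker_pow_finrank (T - 1) (p ^ r)
    rw [h1] at this
    rw [← LinearMap.ker_eq_top]
    apply top_le_iff.mp
    refine le_trans ?_ this
    rw [LinearMap.ker_zero]
  have hne : ((X : (ZMod p)[X]) - 1) ≠ 0 := by
    have := (monic_X_sub_C (1 : ZMod p)).ne_zero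
    simpa using this
  have hpos : 0 < p ^ j := by
    have := (Fact.out : p.Prime).pos
    positivity
  have poly2 : ∑ i ∈ Finset.range (p ^ j), (X : (ZMod p)[X]) ^ i = (X - 1) ^ (p ^ j - 1) := by
    apply mul_right_cancel₀ hne
    rw [geom_sum_mul, ← pow_succ, Nat.sub_add_cancel hpos, poly1]
  have h3 := congrArg (aeval T) poly2
  simp only [map_sum, map_pow, map_sub, aeval_X, map_one] at h3
  rw [h3]
  have : p ^ j - 1 = Module.finrank (ZMod p) A + (p ^ j - 1 - Module.finrank (ZMod p) A) := by omega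
  rw [this, pow_add, h2, zero_mul]

def sp {M : Type*} [Group M] (f : M ≃* M) (x : M) : ℕ → M
  | 0 => 1
  | (k + 1) => sp f x k * (f ^ k) x

theorem lin2 (p : ℕ) [hp : Fact p.Prime] {M : Type*} [CommGroup M] [Finite M] (hM : ∀ x : M, x ^ p = 1)
    (m : ℕ) (hc : Nat.card M = p ^ m) (f : M ≃* M) (r j : ℕ) (hf : f ^ (p ^ r) = 1) (hj : m < p ^ j)
    (x : M) : sp f x (p ^ j) = 1 := by
  classical
  have hpA : ∀ x : Additive M, p • x = 0 := by
    intro x
    have h2 : p • x = Additive.ofMul ((Additive.toMul x) ^ p) := rfl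
    rw [h2, hM]; rfl
  obtain ⟨inst⟩ : Nonempty (Module (ZMod p) (Additive M)) := ⟨AddCommGroup.zmodModule hpA⟩
  let T : Additive M →ₗ[ZMod p] Additive M := (MonoidHom.toAdditive f.toMonoidHom).toZModLinearMap p
  have hT : ∀ (k : ℕ) (a : Additive M), (T ^ k) a = Additive.ofMul ((f ^ k) (Additive.toMul a)) := by
    intro k
    induction k with
    | zero => intro a; rfl
    | succ k ih =>
      intro a
      rw [pow_succ, Module.End.mul_apply, ih, pow_succ]
      rfl
  haveI : Finite (Additive M) := inferInstanceAs (Finite M)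
  haveI : Module.Finite (ZMod p) (Additive M) := Module.Finite.of_finite
  have hfr : Module.finrank (ZMod p) (Additive M) = m := by
    haveI := Fintype.ofFinite (Additive M)
    have h1 := Module.card_eq_pow_finrank (K := ZMod p) (V := Additive M)
    rw [ZMod.card, ← Nat.card_eq_fintype_card] at h1
    have h2 : Nat.card (Additive M) = p ^ m := hc
    rw [h2] at h1
    exact (Nat.pow_right_injective hp.out.two_le h1).symm
  have hsum := lin p T r j (by
    apply LinearMap.ext
    intro a
    rw [hT, hf]; rfl) (by rw [hfr]; exact hj)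
  have key : ∀ k : ℕ, Additive.ofMul (sp f x k) = (∑ i ∈ Finset.range k, T ^ i) (Additive.ofMul x) := by
    intro k
    induction k with
    | zero => simp [sp]
    | succ k ih =>
      rw [Finset.sum_range_succ, LinearMap.add_apply, ← ih, hT]
      rfl
  have h1 := key (p ^ j)
  rw [hsum] at h1
  exact h1

open scoped IsMulCommutative in
theorem aux {G : Type*} [Group G] [Finite G] {Ω : Type*} [Fintype Ω] [MulAction G Ω] [FaithfulSMul G Ω]
    (p m : ℕ) (hp : p.Prime) (hcard : Fintype.card Ω = p ^ m)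
    (N : Subgroup G) [hNn : N.Normal] [hNc : IsMulCommutative N] (hNp : ∀ n ∈ N, n ^ p = 1)
    (hNtr : MulAction.IsPretransitive N Ω) (hNreg : ∀ ω : Ω, MulAction.stabilizer N ω = ⊥)
    (g : G) (r : ℕ) (hr : 1 ≤ r) (hg : orderOf g = p ^ r) : p ^ (r - 1) ≤ m := by
  classical
  haveI : Fact p.Prime := ⟨hp⟩
  by_contra hcon
  push Not at hcon
  have hΩ : Nonempty Ω := by
    apply Fintype.card_pos_iff.mp
    rw [hcard]
    exact pow_pos hp.pos m
  obtain ⟨ω0⟩ := hΩ
  have hcN : Nat.card N = p ^ m := by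
    rw [← hcard, ← Nat.card_eq_fintype_card]
    apply Nat.card_eq_of_bijective (fun n : N => n • ω0)
    constructor
    · intro a b hab
      have h1 : a⁻¹ * b ∈ MulAction.stabilizer N ω0 := by
        rw [MulAction.mem_stabilizer_iff, mul_smul]
        have : a • ω0 = b • ω0 := hab
        rw [← this, inv_smul_smul]
      rw [hNreg, Subgroup.mem_bot] at h1
      exact (inv_mul_eq_one.mp h1)
    · intro ω
      exact MulAction.exists_smul_eq N ω0 ω
  have hpow : ∀ k : ℕ, (MulAut.conjNormal g : N ≃* N) ^ k = MulAut.conjNormal (g ^ k) := fun k =>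
    (map_pow _ _ _).symm
  have hsum : ∀ n : N, sp (MulAut.conjNormal g : N ≃* N) n (p ^ (r - 1)) = 1 := by
    intro n
    exact lin2 p (fun x => Subtype.ext (hNp x.1 x.2)) m hcN (MulAut.conjNormal g : N ≃* N) r (r - 1)
      (by rw [hpow, ← hg, pow_orderOf_eq_one, map_one]) hcon n
  have hfix : ∀ ω : Ω, g ^ (p ^ (r - 1)) • ω = ω := by
    intro ω
    obtain ⟨n, hn⟩ := MulAction.exists_smul_eq N ω (g • ω)
    have key : ∀ k : ℕ, g ^ k • ω = (sp (MulAut.conjNormal g : N ≃* N) n k) • ω := by
      intro k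
      induction k with
      | zero => simp [sp]
      | succ k ih =>
        have e1 : sp (MulAut.conjNormal g : N ≃* N) n (k + 1) =
            ((MulAut.conjNormal g : N ≃* N) ^ k) n * sp (MulAut.conjNormal g : N ≃* N) n k :=
          hNc.is_comm.comm _ _
        rw [e1, mul_smul, ← ih, hpow, pow_succ, mul_smul, ← hn]
        show g ^ k • ((n : G) • ω) = (g ^ k * (n : G) * (g ^ k)⁻¹) • (g ^ k • ω)
        rw [← mul_smul, ← mul_smul]
        congr 1
        group
    rw [key, hsum, one_smul]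
  have h1 : g ^ (p ^ (r - 1)) = 1 := by
    apply FaithfulSMul.eq_of_smul_eq_smul (α := Ω)
    intro ω
    rw [hfix, one_smul]
  have h2 := orderOf_dvd_of_pow_eq_one h1
  rw [hg] at h2
  have h3 := Nat.le_of_dvd (pow_pos hp.pos _) h2
  have h4 : p ^ (r - 1) < p ^ r := Nat.pow_lt_pow_right hp.one_lt (by omega)
  omega

/-- Let a finite group G act faithfully on a set Ω with p ^ m points (p prime) and have an elementary abelian normal p-subgroup N acting regularly on Ω (so G is a group of affine transformations of an m-dimensional space over the field with p elements). If G contains an element of order p ^ r with r ≥ 1, then p ^ (r − 1) ≤ m. In particular an element of order p ^ m forces m ≤ 2, and m ≤ 1 when p is odd. -/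
theorem result {G : Type*} [Group G] [Finite G] {Ω : Type*} [Fintype Ω] [MulAction G Ω] [FaithfulSMul G Ω] (p m : ℕ) (hp : p.Prime) (hcard : Fintype.card Ω = p ^ m)
    (N : Subgroup G) [N.Normal] (hNc : IsMulCommutative N) (hNp : ∀ n ∈ N, n ^ p = 1)
    (hNtr : MulAction.IsPretransitive N Ω) (hNreg : ∀ ω : Ω, MulAction.stabilizer N ω = ⊥)
    (g : G) (r : ℕ) (hr : 1 ≤ r) (hg : orderOf g = p ^ r) :
    p ^ (r - 1) ≤ m ∧ (r = m → m ≤ 2 ∧ (2 < p → m ≤ 1)) := by
  have h1 := aux p m hp hcard N hNp hNtr hNreg g r hr hg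
  refine ⟨h1, ?_⟩
  rintro rfl
  have key : ∀ (b k : ℕ), 2 ≤ b → k + 1 ≤ b ^ k := by
    intro b k hb
    exact Nat.lt_pow_self (by omega)
  constructor
  · by_contra hcon
    push Not at hcon
    obtain ⟨k, rfl⟩ : ∃ k, r = k + 3 := ⟨r - 3, by omega⟩
    have h2 : 2 ^ (k + 3 - 1) ≤ p ^ (k + 3 - 1) := Nat.pow_le_pow_left hp.two_le _
    have h3 : k + 3 - 1 = k + 2 := by omega
    rw [h3] at h2 h1
    have h4 := key 2 k le_rfl
    have h5 : 2 ^ (k + 2) = 4 * 2 ^ k := by ring
    omega
  · intro hp2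
    by_contra hcon
    push Not at hcon
    obtain ⟨k, rfl⟩ : ∃ k, r = k + 2 := ⟨r - 2, by omega⟩
    have h2 : 3 ^ (k + 2 - 1) ≤ p ^ (k + 2 - 1) := Nat.pow_le_pow_left (by omega) _
    have h3 : k + 2 - 1 = k + 1 := by omega
    rw [h3] at h2 h1
    have h4 := key 3 k (by norm_num)
    have h5 : 3 ^ (k + 1) = 3 * 3 ^ k := by ring
    omega

end Cfsg.Agent.S3508
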