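import Cfsg.Statements.S3511
-- import your own Cfsg.Agent.* helpers here
import Mathlib

set_option autoImplicit false
open Cfsg

namespace Cfsg.Agent.S3511

/-- Let a finite group G act faithfully on a set Ω. If every element of G of square-free order has a regular cycle (an orbit of the cyclic group it generates with trivial stabilizer), then every element of G has a regular cycle. -/
theorem result {G : Type*} [Group G] [Finite G] {Ω : Type*} [MulAction G Ω] [FaithfulSMul G Ω]
    (h : ∀ g : G, Squarefree (orderOf g) → ∃ ω : Ω, MulAction.stabilizer (Subgroup.zpowers g) ω = ⊥) (g : G) :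
    ∃ ω : Ω, MulAction.stabilizer (Subgroup.zpowers g) ω = ⊥ := by
  classical
  induction hn : orderOf g using Nat.strong_induction_on generalizing g with
  | _ n ih =>
    by_cases hsq : Squarefree (orderOf g)
    · exact h g hsq
    · rw [Nat.squarefree_iff_prime_squarefree] at hsq
      push Not at hsq
      obtain ⟨p, hp, hpp⟩ := hsq
      have hpos : 0 < orderOf g := orderOf_pos g
      have hpd : p ∣ orderOf g := (Dvd.intro _ rfl).trans hpp
      have hord : orderOf (g ^ p) = orderOf g / p := orderOf_pow_of_dvd hp.ne_zero hpd
      have hlt : orderOf (g ^ p) < n := by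
        rw [hord, ← hn]
        exact Nat.div_lt_self hpos hp.one_lt
      obtain ⟨ω, hω⟩ := ih _ hlt (g ^ p) rfl
      refine ⟨ω, ?_⟩
      rw [eq_bot_iff]
      rintro ⟨x, hx⟩ hxω
      rw [MulAction.mem_stabilizer_iff] at hxω
      have hxω' : x • ω = ω := hxω
      obtain ⟨k, rfl⟩ := Subgroup.mem_zpowers_iff.mp hx
      -- helper: elements of zpowers (g^p) fixing ω are trivial
      have triv : ∀ y : G, y ∈ Subgroup.zpowers (g ^ p) → y • ω = ω → y = 1 := by
        intro y hy hyω
        have : (⟨y, hy⟩ : Subgroup.zpowers (g ^ p)) ∈ MulAction.stabilizer (Subgroup.zpowers (g ^ p)) ω := by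
          rw [MulAction.mem_stabilizer_iff]; exact hyω
        rw [hω, Subgroup.mem_bot] at this
        exact congrArg Subtype.val this
      have h1 : (g ^ k) ^ p = 1 := by
        apply triv
        · refine Subgroup.mem_zpowers_iff.mpr ⟨k, ?_⟩
          rw [← zpow_natCast, ← zpow_natCast, ← zpow_mul, ← zpow_mul, mul_comm]
        · have : ∀ m : ℕ, (g ^ k) ^ m • ω = ω := by
            intro m
            induction m with
            | zero => simp
            | succ m ihm => rw [pow_succ, mul_smul, hxω', ihm]
          exact this p
      have h2 : (orderOf g : ℤ) ∣ k * p := by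
        rw [orderOf_dvd_iff_zpow_eq_one, zpow_mul, zpow_natCast]
        exact h1
      have h3 : (p : ℤ) ∣ k := by
        have h4 : ((p * p : ℕ) : ℤ) ∣ k * p := (Int.natCast_dvd_natCast.mpr hpp).trans h2
        push_cast at h4
        exact Int.dvd_of_mul_dvd_mul_right (by exact_mod_cast hp.ne_zero) h4
      obtain ⟨c, rfl⟩ := h3
      have h5 : g ^ ((p : ℤ) * c) = 1 := by
        apply triv
        · refine Subgroup.mem_zpowers_iff.mpr ⟨c, ?_⟩
          rw [← zpow_natCast, ← zpow_mul]
        · exact hxω'
      rw [Subgroup.mem_bot]
      exact Subtype.ext h5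

end Cfsg.Agent.S3511
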