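import Cfsg.Statements.S3514
-- import your own Cfsg.Agent.* helpers here
import Mathlib
import Cfsg.Agent.Lib.Helper23.Core

set_option autoImplicit false
open Cfsg

namespace Cfsg.Agent.S3514

theorem relIndex_sup_of_le_normalizer {G : Type*} [Group G] [Finite G] (H N : Subgroup G)
    (h : H ≤ Subgroup.normalizer (N : Set G)) : H.relIndex (N ⊔ H) = H.relIndex N := by
  have hN : N ≤ N ⊔ H := le_sup_left
  have hH : H ≤ N ⊔ H := le_sup_right
  haveI : (N.subgroupOf (N ⊔ H)).Normal := by
    rw [Subgroup.normal_subgroupOf_iff_le_normalizer hN]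
    exact sup_le Subgroup.le_normalizer h
  have key := Cfsg.Agent.Lib.Helper23.relIndex_eq_relIndex_sup (H.subgroupOf (N ⊔ H))
    (N.subgroupOf (N ⊔ H))
  rw [← Subgroup.subgroupOf_sup hH hN, Subgroup.relIndex_subgroupOf hN,
    Subgroup.relIndex_subgroupOf (sup_le hH hN), sup_comm] at key
  exact key.symm

theorem relIndex_dvd_of_le_normalizer {G : Type*} [Group G] [Finite G] (S K H : Subgroup G)
    (hKH : K ≤ H) (h : H ≤ Subgroup.normalizer (K : Set G)) : S.relIndex K ∣ S.relIndex H := by
  haveI : (K.subgroupOf H).Normal := by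
    rw [Subgroup.normal_subgroupOf_iff_le_normalizer hKH]
    exact h
  have key := Cfsg.Agent.Lib.Helper23.relIndex_dvd_index_of_normal_right (S.subgroupOf H)
    (K.subgroupOf H)
  rw [Subgroup.relIndex_subgroupOf hKH] at key
  exact key

theorem card_orb {p : ℕ} {V : Type*} [AddCommGroup V] [Module (ZMod p) V]
    (X : Subgroup (V ≃ₗ[ZMod p] V)) (v : V) :
    Nat.card {u : V | ∃ x ∈ X, x v = u} =
      (MulAction.stabilizer (V ≃ₗ[ZMod p] V) v).relIndex X := by
  have h1 : {u : V | ∃ x ∈ X, x v = u} = MulAction.orbit X v := by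
    ext u
    constructor
    · rintro ⟨x, hx, rfl⟩
      exact ⟨⟨x, hx⟩, rfl⟩
    · rintro ⟨⟨x, hx⟩, rfl⟩
      exact ⟨x, hx, rfl⟩
  rw [h1, Nat.card_coe_set_eq, ← MulAction.index_stabilizer]
  congr 1

/-- Let p be a prime, V a finite vector space over the field with p elements, and H a group of linear transformations of V all of whose orbits on V have size coprime to p. (i) Every normal subgroup K of H has all its orbits on V of size coprime to p. (ii) If N is a group of linear transformations of V of order coprime to p that is normalized by H, then the group generated by N and H has all its orbits on V of size coprime to p. -/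
theorem result (p : ℕ) [Fact p.Prime] {V : Type*} [AddCommGroup V] [Module (ZMod p) V] [Finite V]
    (H : Subgroup (V ≃ₗ[ZMod p] V)) (hH : ∀ v : V, ¬ p ∣ Nat.card {u : V | ∃ h ∈ H, h v = u}) :
    (∀ K : Subgroup (V ≃ₗ[ZMod p] V), K ≤ H → H ≤ Subgroup.normalizer (K : Set (V ≃ₗ[ZMod p] V)) →
        ∀ v : V, ¬ p ∣ Nat.card {u : V | ∃ k ∈ K, k v = u}) ∧
    (∀ N : Subgroup (V ≃ₗ[ZMod p] V), ¬ p ∣ Nat.card N → H ≤ Subgroup.normalizer (N : Set (V ≃ₗ[ZMod p] V)) →
        ∀ v : V, ¬ p ∣ Nat.card {u : V | ∃ x ∈ N ⊔ H, x v = u}) := by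
  haveI : Finite (V ≃ₗ[ZMod p] V) :=
    Finite.of_injective (fun f => (f : V → V)) DFunLike.coe_injective
  have hp : p.Prime := Fact.out
  constructor
  · intro K hKH hn v hdvd
    apply hH v
    rw [card_orb] at hdvd ⊢
    exact hdvd.trans (relIndex_dvd_of_le_normalizer _ K H hKH hn)
  · intro N hN hn v hdvd
    rw [card_orb] at hdvd
    set S := MulAction.stabilizer (V ≃ₗ[ZMod p] V) v with hS
    have h1 : S.relIndex (N ⊔ H) ∣ (S ⊓ H).relIndex (N ⊔ H) :=
      Subgroup.relIndex_dvd_of_le_left _ inf_le_left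
    have h2 : (S ⊓ H).relIndex H * H.relIndex (N ⊔ H) = (S ⊓ H).relIndex (N ⊔ H) :=
      Subgroup.relIndex_mul_relIndex _ _ _ inf_le_right le_sup_right
    rw [Subgroup.inf_relIndex_right, relIndex_sup_of_le_normalizer H N hn] at h2
    have h3 : p ∣ S.relIndex H * H.relIndex N := by
      rw [h2]; exact hdvd.trans h1
    rcases hp.dvd_mul.1 h3 with h | h
    · apply hH v
      rw [card_orb]; exact h
    · exact hN (h.trans (Subgroup.relIndex_dvd_card _ _))

end Cfsg.Agent.S3514
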