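import Cfsg.Statements.S3515
-- import your own Cfsg.Agent.* helpers here
import Mathlib

set_option autoImplicit false
open Cfsg

namespace Cfsg.Agent.S3515

lemma all_two : ∀ x : Fin 2 → ZMod 2, x = 0 ∨ x = ![1, 0] ∨ x = ![0, 1] ∨ x = ![1, 1] := by
  decide

lemma ne_a : (0 : Fin 2 → ZMod 2) ≠ ![1, 1] := by decide
lemma ne_b : (![1, 0] : Fin 2 → ZMod 2) ≠ ![1, 1] := by decide
lemma ne_c : (![0, 1] : Fin 2 → ZMod 2) ≠ ![1, 1] := by decide

/-- Every primitive affine permutation group of degree p² is 3-closed. Let p be a prime and G a group of permutations of the plane V = F_p² consisting of affine maps x ↦ Ax + b, containing all translations, and acting primitively on V. Then any permutation σ of V that agrees on every triple of points with some element of G (σ preserves every G-orbit on ordered triples) already lies in G. -/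
theorem result (p : ℕ) [Fact p.Prime] (G : Subgroup (Equiv.Perm (Fin 2 → ZMod p)))
    (haff : (G : Set (Equiv.Perm (Fin 2 → ZMod p))) ⊆ {τ : Equiv.Perm (Fin 2 → ZMod p) | ∃ (A : (Fin 2 → ZMod p) ≃ₗ[ZMod p] (Fin 2 → ZMod p)) (b : Fin 2 → ZMod p), ∀ x, τ x = A x + b})
    (htrans : ∀ b : Fin 2 → ZMod p, ∃ g ∈ G, ∀ x, g x = x + b) (hprim : MulAction.IsPreprimitive G (Fin 2 → ZMod p))
    (σ : Equiv.Perm (Fin 2 → ZMod p)) (hσ : (∀ t : Fin 3 → (Fin 2 → ZMod p), ∃ g ∈ G, ∀ i, σ (t i) = g (t i))) : σ ∈ G := by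
  classical
  -- abbreviations
  set e1 : Fin 2 → ZMod p := ![1, 0] with he1
  set e2 : Fin 2 → ZMod p := ![0, 1] with he2
  obtain ⟨g₀, hg₀, h₀⟩ := hσ ![0, e1, e2]
  set τ : Equiv.Perm (Fin 2 → ZMod p) := g₀⁻¹ * σ with hτ
  have hτprop : ∀ t : Fin 3 → (Fin 2 → ZMod p), ∃ g ∈ G, ∀ i, τ (t i) = g (t i) := by
    intro t
    obtain ⟨g, hg, h⟩ := hσ t
    refine ⟨g₀⁻¹ * g, G.mul_mem (G.inv_mem hg₀) hg, fun i => ?_⟩
    simp only [hτ, Equiv.Perm.mul_apply, h i]
  have hfix0 : τ 0 = 0 := by
    have := h₀ 0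
    simp only [Matrix.cons_val_zero] at this
    simp [hτ, Equiv.Perm.mul_apply, this]
  have hfix1 : τ e1 = e1 := by
    have := h₀ 1
    simp only [Matrix.cons_val_one, Matrix.cons_val_zero] at this
    simp [hτ, Equiv.Perm.mul_apply, this]
  have hfix2 : τ e2 = e2 := by
    have := h₀ 2
    simp only [Matrix.cons_val] at this
    simp [hτ, Equiv.Perm.mul_apply, this]
  -- the line lemma
  have hline : ∀ (u v : Fin 2 → ZMod p) (c : ZMod p), τ u = u → τ v = v →
      τ ((1 - c) • u + c • v) = (1 - c) • u + c • v := by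
    intro u v c hu hv
    obtain ⟨g, hg, h⟩ := hτprop ![u, v, (1 - c) • u + c • v]
    obtain ⟨A, b, hA⟩ := haff hg
    have h0 := h 0
    have h1 := h 1
    have h2 := h 2
    simp only [Matrix.cons_val_zero, Matrix.cons_val_one, Matrix.cons_val] at h0 h1 h2
    rw [hu, hA] at h0
    rw [hv, hA] at h1
    rw [h2, hA, map_add, map_smul, map_smul]
    have hAu : A u = u - b := eq_sub_of_add_eq h0.symm
    have hAv : A v = v - b := eq_sub_of_add_eq h1.symm
    rw [hAu, hAv]
    ext i
    simp only [Pi.add_apply, Pi.smul_apply, Pi.sub_apply, smul_eq_mul]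
    ring
  have hτ1 : τ = 1 := by
    ext1 x
    rw [Equiv.Perm.one_apply]
    by_cases hp2 : p = 2
    · subst hp2
      have hall := all_two
      have hne : ∀ y : Fin 2 → ZMod 2, τ y = y → y ≠ ![1, 1] → τ ![1, 1] ≠ y := by
        intro y hy hne h
        apply hne
        apply τ.injective
        rw [hy, h]
      rcases hall x with rfl | rfl | rfl | rfl
      · exact hfix0
      · exact hfix1
      · exact hfix2
      · rcases hall (τ ![1, 1]) with h | h | h | h
        · exact absurd h (hne 0 hfix0 ne_a)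
        · exact absurd h (hne _ hfix1 ne_b)
        · exact absurd h (hne _ hfix2 ne_c)
        · exact h
    · have h2 : (2 : ZMod p) ≠ 0 := by
        intro h
        have h' : ((2 : ℕ) : ZMod p) = 0 := by exact_mod_cast h
        rw [ZMod.natCast_eq_zero_iff] at h'
        have := (Nat.prime_dvd_prime_iff_eq (Fact.out : p.Prime) Nat.prime_two).mp h'
        exact hp2 this
      have ha : τ ((2 * x 0) • e1) = (2 * x 0) • e1 := by
        have := hline 0 e1 (2 * x 0) hfix0 hfix1
        simpa using this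
      have hb : τ ((2 * x 1) • e2) = (2 * x 1) • e2 := by
        have := hline 0 e2 (2 * x 1) hfix0 hfix2
        simpa using this
      have hx : x = (1 - (2 : ZMod p)⁻¹) • ((2 * x 0) • e1) + (2 : ZMod p)⁻¹ • ((2 * x 1) • e2) := by
        ext i
        fin_cases i
        · simp [he1, he2]
          field_simp
          ring
        · simp [he1, he2]
          field_simp
      rw [hx]
      exact hline _ _ _ ha hb
  have : σ = g₀ := by
    have h := congrArg (fun t => g₀ * t) hτ1
    simpa [hτ] using h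
  rw [this]; exact hg₀

end Cfsg.Agent.S3515
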