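import Cfsg.Statements.S3516
-- import your own Cfsg.Agent.* helpers here
import Mathlib
import Cfsg.Agent.Lib.Helper19.LinExt

set_option autoImplicit false
open Cfsg

namespace Cfsg.Agent.S3516

/-- Let p be an odd prime, d ≥ 3, and G a group of affine permutations x ↦ Ax + b of V = F_p^d containing all translations and all maps x ↦ Ax with A of determinant 1. Then the 3-closure of G is the full affine group: a permutation σ of V agrees on every triple of points with some element of G if and only if σ is an affine map. -/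
theorem result (p : ℕ) [Fact p.Prime] (hp : p ≠ 2) (d : ℕ) (hd : 3 ≤ d) (G : Subgroup (Equiv.Perm (Fin d → ZMod p)))
    (haff : (G : Set (Equiv.Perm (Fin d → ZMod p))) ⊆ {τ : Equiv.Perm (Fin d → ZMod p) | ∃ (A : (Fin d → ZMod p) ≃ₗ[ZMod p] (Fin d → ZMod p)) (b : Fin d → ZMod p), ∀ x, τ x = A x + b})
    (htrans : ∀ b : Fin d → ZMod p, ∃ g ∈ G, ∀ x, g x = x + b)
    (hsl : ∀ A : (Fin d → ZMod p) ≃ₗ[ZMod p] (Fin d → ZMod p), LinearMap.det (A : (Fin d → ZMod p) →ₗ[ZMod p] (Fin d → ZMod p)) = 1 → ∃ g ∈ G, ∀ x, g x = A x)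
    (σ : Equiv.Perm (Fin d → ZMod p)) :
    (∀ t : Fin 3 → (Fin d → ZMod p), ∃ g ∈ G, ∀ i, σ (t i) = g (t i)) ↔ σ ∈ {τ : Equiv.Perm (Fin d → ZMod p) | ∃ (A : (Fin d → ZMod p) ≃ₗ[ZMod p] (Fin d → ZMod p)) (b : Fin d → ZMod p), ∀ x, τ x = A x + b} := by
  classical
  have h2 : (2 : ZMod p) ≠ 0 := by
    intro h
    have h' : ((2 : ℕ) : ZMod p) = 0 := by exact_mod_cast h
    rw [ZMod.natCast_eq_zero_iff] at h'
    have := (Nat.prime_dvd_prime_iff_eq (Fact.out : p.Prime) Nat.prime_two).mp h'
    exact hp this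
  constructor
  · intro hσ
    have hcomb : ∀ (u v : Fin d → ZMod p) (c : ZMod p),
        σ ((1 - c) • u + c • v) = (1 - c) • σ u + c • σ v := by
      intro u v c
      obtain ⟨g, hg, h⟩ := hσ ![u, v, (1 - c) • u + c • v]
      obtain ⟨A, b, hA⟩ := haff hg
      have h0 := h 0
      have h1 := h 1
      have h2 := h 2
      simp only [Matrix.cons_val_zero, Matrix.cons_val_one, Matrix.cons_val] at h0 h1 h2
      rw [h0, h1, h2, hA, hA, hA, map_add, map_smul, map_smul]
      ext i
      simp only [Pi.add_apply, Pi.smul_apply, smul_eq_mul]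
      ring
    have hsmul : ∀ (c : ZMod p) (v : Fin d → ZMod p), σ (c • v) - σ 0 = c • (σ v - σ 0) := by
      intro c v
      have := hcomb 0 v c
      rw [smul_zero, zero_add] at this
      rw [this]
      ext i
      simp only [Pi.add_apply, Pi.smul_apply, Pi.sub_apply, smul_eq_mul]
      ring
    have hadd : ∀ (u v : Fin d → ZMod p), σ (u + v) - σ 0 = (σ u - σ 0) + (σ v - σ 0) := by
      intro u v
      have h := hcomb ((2 : ZMod p) • u) ((2 : ZMod p) • v) (2 : ZMod p)⁻¹
      have e1 : (1 - (2 : ZMod p)⁻¹) • ((2 : ZMod p) • u) + (2 : ZMod p)⁻¹ • ((2 : ZMod p) • v)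
          = u + v := by
        ext i
        simp only [Pi.add_apply, Pi.smul_apply, smul_eq_mul]
        field_simp
        ring
      rw [e1] at h
      have hu : σ ((2 : ZMod p) • u) = (2 : ZMod p) • (σ u - σ 0) + σ 0 := by
        rw [← hsmul]; abel
      have hv : σ ((2 : ZMod p) • v) = (2 : ZMod p) • (σ v - σ 0) + σ 0 := by
        rw [← hsmul]; abel
      rw [h, hu, hv]
      ext i
      simp only [Pi.add_apply, Pi.smul_apply, Pi.sub_apply, smul_eq_mul]
      field_simp
      ring
    let L : (Fin d → ZMod p) →ₗ[ZMod p] (Fin d → ZMod p) :=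
      { toFun := fun x => σ x - σ 0
        map_add' := hadd
        map_smul' := fun c v => by simpa using hsmul c v }
    have hLbij : Function.Bijective L := by
      constructor
      · intro x y hxy
        have : σ x - σ 0 = σ y - σ 0 := hxy
        exact σ.injective (sub_left_injective this)
      · intro y
        obtain ⟨x, hx⟩ := σ.surjective (y + σ 0)
        refine ⟨x, ?_⟩
        show σ x - σ 0 = y
        rw [hx]; abel
    refine ⟨LinearEquiv.ofBijective L hLbij, σ 0, fun x => ?_⟩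
    show σ x = (σ x - σ 0) + σ 0
    abel
  · rintro ⟨A, b, hA⟩ t
    set W : Submodule (ZMod p) (Fin d → ZMod p) :=
      Submodule.span (ZMod p) (Set.range ![t 1 - t 0, t 2 - t 0]) with hW
    have hWlt : W < ⊤ := by
      rw [lt_top_iff_ne_top]
      intro htop
      have h1 : Module.finrank (ZMod p) W ≤ 2 := by
        have := finrank_range_le_card (R := ZMod p) ![t 1 - t 0, t 2 - t 0]
        simpa [Set.finrank] using this
      rw [htop, finrank_top, Module.finrank_fin_fun] at h1
      omega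
    have hmem : ∀ i, t i - t 0 ∈ W := by
      intro i
      fin_cases i
      · simp
      · exact Submodule.subset_span ⟨0, rfl⟩
      · exact Submodule.subset_span ⟨1, rfl⟩
    have hdetA : LinearMap.det (A : (Fin d → ZMod p) →ₗ[ZMod p] (Fin d → ZMod p)) ≠ 0 :=
      (LinearEquiv.isUnit_det' A).ne_zero
    obtain ⟨D, hD, hdetD⟩ := Cfsg.Agent.Lib.Helper19.exists_linearEquiv_fix_det W hWlt
      (LinearMap.det (A : (Fin d → ZMod p) →ₗ[ZMod p] (Fin d → ZMod p)))⁻¹ (inv_ne_zero hdetA)
    have hdetB : LinearMap.det ((D.trans A : (Fin d → ZMod p) ≃ₗ[ZMod p] (Fin d → ZMod p)) :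
        (Fin d → ZMod p) →ₗ[ZMod p] (Fin d → ZMod p)) = 1 := by
      rw [LinearEquiv.coe_trans, LinearMap.det_comp, hdetD, mul_inv_cancel₀ hdetA]
    obtain ⟨g₁, hg₁, h₁⟩ := hsl (D.trans A) hdetB
    obtain ⟨g₂, hg₂, h₂⟩ := htrans (σ (t 0) - A (D (t 0)))
    refine ⟨g₂ * g₁, G.mul_mem hg₂ hg₁, fun i => ?_⟩
    rw [Equiv.Perm.mul_apply, h₂, h₁, LinearEquiv.trans_apply, hA, hA]
    have h3 := hD _ (hmem i)
    rw [map_sub] at h3
    have h4 : D (t i) = t i - t 0 + D (t 0) := by rw [← h3]; abel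
    rw [h4, map_add, map_sub]
    abel

end Cfsg.Agent.S3516
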