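import Cfsg.Statements.S3517
-- import your own Cfsg.Agent.* helpers here
import Mathlib
import Cfsg.Agent.Lib.Helper19.LinExt

set_option autoImplicit false
open Cfsg

namespace Cfsg.Agent.S3517

/-- For d ≥ 3, the 3-closure of the affine group AGL_d(2) acting on F_2^d is the full symmetric group: every permutation of F_2^d agrees on every ordered triple of points with some affine map (AGL_d(2) is 3-transitive). -/
theorem result (d : ℕ) (hd : 3 ≤ d) (σ : Equiv.Perm (Fin d → ZMod 2)) (t : Fin 3 → (Fin d → ZMod 2)) :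
    ∃ (A : (Fin d → ZMod 2) ≃ₗ[ZMod 2] (Fin d → ZMod 2)) (b : Fin d → ZMod 2), ∀ i, σ (t i) = A (t i) + b := by
  classical
  have hinj : ∀ i j, σ (t i) = σ (t j) ↔ t i = t j := fun i j => σ.injective.eq_iff
  suffices h : ∃ A : (Fin d → ZMod 2) ≃ₗ[ZMod 2] (Fin d → ZMod 2),
      A (t 1 - t 0) = σ (t 1) - σ (t 0) ∧ A (t 2 - t 0) = σ (t 2) - σ (t 0) by
    obtain ⟨A, h1, h2⟩ := h
    refine ⟨A, σ (t 0) - A (t 0), fun i => ?_⟩
    rw [map_sub] at h1 h2
    fin_cases i
    · simp
    · show σ (t 1) = A (t 1) + (σ (t 0) - A (t 0))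
      have : σ (t 1) = A (t 1) - A (t 0) + σ (t 0) := by rw [h1]; abel
      rw [this]; abel
    · show σ (t 2) = A (t 2) + (σ (t 0) - A (t 0))
      have : σ (t 2) = A (t 2) - A (t 0) + σ (t 0) := by rw [h2]; abel
      rw [this]; abel
  by_cases h10 : t 1 = t 0
  · by_cases h20 : t 2 = t 0
    · exact ⟨LinearEquiv.refl _ _, by simp [h10], by simp [h20]⟩
    · have hw : σ (t 2) - σ (t 0) ≠ 0 := by
        rw [sub_ne_zero]; exact fun h => h20 ((hinj 2 0).mp h)
      obtain ⟨A, hA⟩ := Cfsg.Agent.Lib.Helper19.exists_linearEquiv_single (K := ZMod 2)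
        (sub_ne_zero.mpr h20) hw
      exact ⟨A, by simp [h10], hA⟩
  · have hw1 : σ (t 1) - σ (t 0) ≠ 0 := by
      rw [sub_ne_zero]; exact fun h => h10 ((hinj 1 0).mp h)
    by_cases h20 : t 2 = t 0
    · obtain ⟨A, hA⟩ := Cfsg.Agent.Lib.Helper19.exists_linearEquiv_single (K := ZMod 2)
        (sub_ne_zero.mpr h10) hw1
      exact ⟨A, hA, by simp [h20]⟩
    · have hw2 : σ (t 2) - σ (t 0) ≠ 0 := by
        rw [sub_ne_zero]; exact fun h => h20 ((hinj 2 0).mp h)
      by_cases h12 : t 1 = t 2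
      · obtain ⟨A, hA⟩ := Cfsg.Agent.Lib.Helper19.exists_linearEquiv_single (K := ZMod 2)
          (sub_ne_zero.mpr h10) hw1
        exact ⟨A, hA, by rw [← h12]; exact hA⟩
      · have hu := Cfsg.Agent.Lib.Helper19.linearIndependent_pair_zmod_two
          (sub_ne_zero.mpr h10) (sub_ne_zero.mpr h20) (fun h => h12 (sub_left_injective h))
        have hw := Cfsg.Agent.Lib.Helper19.linearIndependent_pair_zmod_two
          hw1 hw2 (fun h => h12 ((hinj 1 2).mp (sub_left_injective h)))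
        exact Cfsg.Agent.Lib.Helper19.exists_linearEquiv_pair hu hw

end Cfsg.Agent.S3517
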