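import Cfsg.Statements.S3518
-- import your own Cfsg.Agent.* helpers here
import Mathlib
import Cfsg.Agent.Lib.Helper29.PrimeDeg2
import Cfsg.Agent.S0671

set_option autoImplicit false
open Cfsg

namespace Cfsg.Agent.S3518

section aux
open Cfsg.Agent.Lib.Helper29.PrimeDeg

theorem heart {α : Type*} [Fintype α] [DecidableEq α] {p : ℕ} [Fact p.Prime]
    (S : Shift α (ZMod p) p) (G : Subgroup (Equiv.Perm α)) [MulAction.IsPretransitive G α]
    (hSc : S.c ∈ G) (haff : ¬ ∀ g ∈ G, (fun a => S.x (g a)) ∈ S.V 2)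
    (W : Subrepresentation (Cfsg.permRep (ZMod p) G α))
    (h₁ : (Cfsg.permConstants (ZMod p) G α).toSubmodule ≤ W.toSubmodule)
    (h₂ : W.toSubmodule ≤ (Cfsg.permSumZero (ZMod p) G α).toSubmodule) :
    W = Cfsg.permConstants (ZMod p) G α ∨ W = Cfsg.permSumZero (ZMod p) G α := by
  classical
  have hp : p.Prime := Fact.out
  have hinv : ∀ g ∈ G, ∀ f ∈ W.toSubmodule, (fun a => f (g a)) ∈ W.toSubmodule := by
    intro g hg f hf
    have h := W.apply_mem_toSubmodule (⟨g, hg⟩ : G)⁻¹ hf
    have e : Cfsg.permRep (ZMod p) G α (⟨g, hg⟩ : G)⁻¹ f = fun a => f (g a) := by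
      ext a
      change f (((⟨g, hg⟩ : G)⁻¹)⁻¹ • a) = f (g a)
      rw [inv_inv]
      rfl
    rwa [e] at h
  obtain ⟨hr, hWr⟩ := S.classify W.toSubmodule (hinv S.c hSc)
  set r := Module.finrank (ZMod p) W.toSubmodule with hr_def
  have hC : (Cfsg.permConstants (ZMod p) G α).toSubmodule = S.V 1 := S.V_one.symm
  have hZ : (Cfsg.permSumZero (ZMod p) G α).toSubmodule = S.V (p - 1) := by
    rw [← S.sz_eq]
    ext f
    exact Iff.rfl
  have hr1 : 1 ≤ r := by
    have := Submodule.finrank_mono h₁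
    rw [hC, S.finrank_V hp.pos] at this
    exact this
  have hr2 : r ≤ p - 1 := by
    have := Submodule.finrank_mono h₂
    rw [hZ, S.finrank_V (Nat.sub_le p 1)] at this
    exact this
  by_cases e1 : r = 1
  · left
    apply Subrepresentation.toSubmodule_injective
    rw [hC, hWr, e1]
  by_cases e2 : r = p - 1
  · right
    apply Subrepresentation.toSubmodule_injective
    rw [hZ, hWr, e2]
  exfalso
  apply haff
  apply S.affine_of_inv (r := r) (by omega) (by omega) G
  intro g hg f hf
  rw [← hWr] at hf ⊢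
  exact hinv g hg f hf

theorem affine_or_two {α : Type*} [Fintype α] [DecidableEq α] {p : ℕ} [Fact p.Prime]
    (S : Shift α (ZMod p) p) (G : Subgroup (Equiv.Perm α)) [MulAction.IsPretransitive G α]
    (hSc : S.c ∈ G) :
    (∀ g ∈ G, (fun a => S.x (g a)) ∈ S.V 2) ∨ MulAction.IsMultiplyPretransitive G α 2 := by
  classical
  by_cases hs : ∀ g ∈ G, (fun a => S.x (g a)) ∈ S.V 2
  · exact Or.inl hs
  right
  have hp4 : 4 ≤ p := by
    by_contra h
    push Not at h
    apply hs
    intro g _
    exact S.affine_of_le_three (by omega) g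
  have hC : (Cfsg.permConstants (ZMod p) G α).toSubmodule = S.V 1 := S.V_one.symm
  have hZ : (Cfsg.permSumZero (ZMod p) G α).toSubmodule = S.V (p - 1) := by
    rw [← S.sz_eq]
    ext f
    exact Iff.rfl
  apply Cfsg.Agent.S0671.result (G := G) (K := ZMod p) (p := p) (f := 1) le_rfl
    (by rw [pow_one]; exact S.card)
  intro W W' h1 h2 h3
  have hW := heart S G hSc hs W h1 (h2.le.trans h3)
  have hW' := heart S G hSc hs W' (h1.trans h2.le) h3
  have eW : W = Cfsg.permConstants (ZMod p) G α := by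
    rcases hW with h | h
    · exact h
    · exfalso
      rw [h] at h2
      exact absurd h3 (not_le_of_gt h2)
  have eW' : W' = Cfsg.permSumZero (ZMod p) G α := by
    rcases hW' with h | h
    · exfalso
      rw [h] at h2
      exact absurd h1 (not_le_of_gt h2)
    · exact h
  obtain ⟨k1, k2⟩ := S.sq_not_mem hp4
  refine ⟨(⟨S.c, hSc⟩ : G)⁻¹, S.ev (Polynomial.X ^ 2), ?_, ?_⟩
  · rw [eW', hZ]; exact k1
  · rw [eW, hC]
    have e : Cfsg.permRep (ZMod p) G α (⟨S.c, hSc⟩ : G)⁻¹ (S.ev (Polynomial.X ^ 2))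
        - S.ev (Polynomial.X ^ 2) = S.D (S.ev (Polynomial.X ^ 2)) := by
      ext a
      rw [Cfsg.Agent.Lib.Helper29.PrimeDeg.Shift.D_apply]
      change (S.ev (Polynomial.X ^ 2)) (((⟨S.c, hSc⟩ : G)⁻¹)⁻¹ • a) - _ = _
      rw [inv_inv]
      rfl
    rw [e]
    exact k2

/-- the 2-closure as a subgroup -/
def cl2 {α : Type*} (G : Subgroup (Equiv.Perm α)) : Subgroup (Equiv.Perm α) where
  carrier := {σ | ∀ t : Fin 2 → α, ∃ g ∈ G, ∀ i, σ (t i) = g (t i)}
  one_mem' := fun t => ⟨1, G.one_mem, fun i => rfl⟩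
  mul_mem' := by
    intro σ τ hσ hτ t
    obtain ⟨g, hg, h1⟩ := hτ t
    obtain ⟨g', hg', h2⟩ := hσ (fun i => g (t i))
    refine ⟨g' * g, G.mul_mem hg' hg, fun i => ?_⟩
    rw [Equiv.Perm.mul_apply, Equiv.Perm.mul_apply, h1, h2]
  inv_mem' := by
    intro σ hσ t
    obtain ⟨g, hg, h1⟩ := hσ (fun i => σ⁻¹ (t i))
    refine ⟨g⁻¹, G.inv_mem hg, fun i => ?_⟩
    have := h1 i
    rw [Equiv.Perm.eq_inv_iff_eq, ← this]
    simp

/-- the standard shift on `ZMod p` -/
def stdShift (p : ℕ) [Fact p.Prime] : Shift (ZMod p) (ZMod p) p where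
  x := id
  inj := Function.injective_id
  c := Equiv.addRight 1
  s := 1
  s_ne := one_ne_zero
  shift := fun _ => rfl
  card := ZMod.card p

theorem mem_affine_of_form {p : ℕ} [Fact p.Prime] (σ : Equiv.Perm (ZMod p)) (u v : ZMod p)
    (h : ∀ a, σ a = u * a + v) : σ ∈ Cfsg.affineGroup (ZMod p) := by
  have hu : u ≠ 0 := by
    rintro rfl
    have h0 := h 0
    have h1 := h 1
    rw [zero_mul] at h0 h1
    exact zero_ne_one (σ.injective (h0.trans h1.symm))
  exact ⟨Units.mk0 u hu, v, h⟩

end aux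

/-- Closures of subgroups of the one-dimensional affine group. Let p be a prime and G a group of permutations of F_p lying in the affine group AGL₁(p) = {x ↦ ax + b, a ≠ 0} and containing all translations. (1) If G is a proper subgroup of AGL₁(p), then G is 2-closed: a permutation of F_p agreeing on every ordered pair of points with some element of G lies in G. (2) Every permutation of F_p agrees on every ordered pair with some element of AGL₁(p) (the 2-closure of AGL₁(p) is the symmetric group). (3) AGL₁(p) is 3-closed: a permutation agreeing on every ordered triple with some affine map is affine. -/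
theorem result (p : ℕ) [Fact p.Prime] (G : Subgroup (Equiv.Perm (ZMod p))) (hG : G ≤ Cfsg.affineGroup (ZMod p))
    (htrans : ∀ b : ZMod p, ∃ g ∈ G, ∀ x, g x = x + b) :
    (G ≠ Cfsg.affineGroup (ZMod p) → ∀ σ : Equiv.Perm (ZMod p), (∀ t : Fin 2 → ZMod p, ∃ g ∈ G, ∀ i, σ (t i) = g (t i)) → σ ∈ G) ∧
    (∀ σ : Equiv.Perm (ZMod p), (∀ t : Fin 2 → ZMod p, ∃ g ∈ Cfsg.affineGroup (ZMod p), ∀ i, σ (t i) = g (t i))) ∧
    (∀ σ : Equiv.Perm (ZMod p), (∀ t : Fin 3 → ZMod p, ∃ g ∈ Cfsg.affineGroup (ZMod p), ∀ i, σ (t i) = g (t i)) → σ ∈ Cfsg.affineGroup (ZMod p)) := by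
  classical
  refine ⟨?_, ?_, ?_⟩
  · intro hne σ hσ
    -- the 2-closure
    have hle : G ≤ cl2 G := fun g hg t => ⟨g, hg, fun i => rfl⟩
    have hσ' : σ ∈ cl2 G := hσ
    have hc : (stdShift p).c ∈ cl2 G := by
      obtain ⟨g, hg, h⟩ := htrans 1
      have : g = (stdShift p).c := Equiv.ext h
      exact this ▸ hle hg
    haveI : MulAction.IsPretransitive (cl2 G) (ZMod p) := by
      constructor
      intro x y
      obtain ⟨g, hg, h⟩ := htrans (y - x)
      exact ⟨⟨g, hle hg⟩, by change g x = y; rw [h]; ring⟩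
    -- two affine maps agreeing at 0 and 1 are equal
    rcases affine_or_two (stdShift p) (cl2 G) hc with haff | h2
    · obtain ⟨u, v, huv⟩ := (stdShift p).affine_form (haff σ hσ')
      obtain ⟨g, hg, hgt⟩ := hσ ![0, 1]
      obtain ⟨a, b, hab⟩ := hG hg
      have e0 : σ 0 = g 0 := hgt 0
      have e1 : σ 1 = g 1 := hgt 1
      have f0 : σ 0 = u * 0 + v := huv 0
      have f1 : σ 1 = u * 1 + v := huv 1
      have hgσ : σ = g := by
        ext1 x
        have fx : σ x = u * x + v := huv x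
        rw [fx, hab x]
        rw [f0, hab 0] at e0
        rw [f1, hab 1] at e1
        have hv : v = b := by linear_combination e0
        have hu : u = a := by linear_combination e1 - e0
        rw [hv, hu]
      exact hgσ ▸ hg
    · exfalso
      apply hne
      apply le_antisymm hG
      rintro τ ⟨a, b, hτ⟩
      rw [MulAction.is_two_pretransitive_iff] at h2
      obtain ⟨γ, h0, h1⟩ := h2 (a := (0 : ZMod p)) (b := 1) (c := b) (d := (a : ZMod p) + b)
        zero_ne_one (by
          intro h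
          have : (a : ZMod p) = 0 := by linear_combination -h
          exact a.ne_zero this)
      obtain ⟨g, hg, hgt⟩ := γ.2 ![0, 1]
      obtain ⟨a', b', hab⟩ := hG hg
      have e0 : (γ : Equiv.Perm (ZMod p)) 0 = g 0 := hgt 0
      have e1 : (γ : Equiv.Perm (ZMod p)) 1 = g 1 := hgt 1
      have h0' : (γ : Equiv.Perm (ZMod p)) 0 = b := h0
      have h1' : (γ : Equiv.Perm (ZMod p)) 1 = (a : ZMod p) + b := h1
      have : τ = g := by
        ext1 x
        rw [hτ x, hab x]
        rw [h0', hab 0] at e0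
        rw [h1', hab 1] at e1
        have hv : b = b' := by linear_combination e0
        have hu : (a : ZMod p) = a' := by linear_combination e1 - e0
        rw [hv, hu]
      exact this ▸ hg
  · intro σ t
    by_cases h : t 0 = t 1
    · refine ⟨Equiv.addRight (σ (t 0) - t 0), ⟨1, σ (t 0) - t 0, fun x => by simp⟩, fun i => ?_⟩
      have hi : t i = t 0 := by
        fin_cases i
        · rfl
        · exact h.symm
      rw [hi]
      simp
    · have hd : t 1 - t 0 ≠ 0 := sub_ne_zero.mpr (Ne.symm h)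
      have hs : σ (t 1) - σ (t 0) ≠ 0 := sub_ne_zero.mpr (fun e => h (σ.injective e).symm)
      set u : ZMod p := (σ (t 1) - σ (t 0)) / (t 1 - t 0) with hu
      have hu0 : u ≠ 0 := div_ne_zero hs hd
      have hmul : u * (t 1 - t 0) = σ (t 1) - σ (t 0) := by
        rw [hu]; field_simp
      let g : Equiv.Perm (ZMod p) :=
        (Equiv.mulLeft₀ u hu0).trans (Equiv.addRight (σ (t 0) - u * t 0))
      have hgx : ∀ x, g x = u * x + (σ (t 0) - u * t 0) := fun x => rfl
      refine ⟨g, ⟨Units.mk0 u hu0, _, hgx⟩, fun i => ?_⟩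
      fin_cases i
      · change σ (t 0) = g (t 0)
        rw [hgx]; ring
      · change σ (t 1) = g (t 1)
        rw [hgx]; linear_combination -hmul
  · intro σ hσ
    apply mem_affine_of_form σ (σ 1 - σ 0) (σ 0)
    intro x
    obtain ⟨g, ⟨a, b, hab⟩, hgt⟩ := hσ ![0, 1, x]
    have e0 : σ 0 = g 0 := hgt 0
    have e1 : σ 1 = g 1 := hgt 1
    have e2 : σ x = g x := hgt 2
    rw [e2, e1, e0, hab, hab, hab]
    ring

end Cfsg.Agent.S3518
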