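import Cfsg.Statements.S3546
-- import your own Cfsg.Agent.* helpers here
import Cfsg.Agent.Lib.Helper20.Derangement

set_option autoImplicit false
open Cfsg

namespace Cfsg.Agent.S3546

open Cfsg.Agent.Lib.Helper20 MulAction

/-- Let G act faithfully and transitively on a finite set and let D be the subgroup of G generated by the derangements (the elements fixing no point). Then D is itself transitive, and D contains every element of G whose number of fixed points is different from 1. -/
theorem result {G Ω : Type*} [Group G] [Finite G] [MulAction G Ω] [FaithfulSMul G Ω] [Finite Ω]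
    (htrans : MulAction.IsPretransitive G Ω) :
    MulAction.IsPretransitive ↥(Subgroup.closure {g : G | ∀ ω : Ω, g • ω ≠ ω}) Ω ∧
    ∀ g : G, Nat.card (MulAction.fixedBy Ω g) ≠ 1 → g ∈ Subgroup.closure {g : G | ∀ ω : Ω, g • ω ≠ ω} := by
  have := htrans
  exact ⟨der_transitive, fun g hg => mem_der_of_card_ne_one g hg⟩

end Cfsg.Agent.S3546
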