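import Cfsg.Statements.S3547
-- import your own Cfsg.Agent.* helpers here
import Cfsg.Agent.Lib.Helper20.Derangement

set_option autoImplicit false
open Cfsg

namespace Cfsg.Agent.S3547

open Cfsg.Agent.Lib.Helper20 MulAction

/-- Let G act faithfully and transitively on a finite set Ω, let D be the subgroup generated by the derangements, and let r_G and r_D be the numbers of orbits of G and of D on ordered pairs of points (the permutation ranks). Then r_D − 1 = (r_G − 1)·[G : D]. -/
theorem result {G Ω : Type*} [Group G] [Finite G] [MulAction G Ω] [FaithfulSMul G Ω] [Finite Ω]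
    (htrans : MulAction.IsPretransitive G Ω) :
    Nat.card (MulAction.orbitRel.Quotient ↥(Subgroup.closure {g : G | ∀ ω : Ω, g • ω ≠ ω}) (Ω × Ω)) - 1 =
      (Nat.card (MulAction.orbitRel.Quotient G (Ω × Ω)) - 1) * (Subgroup.closure {g : G | ∀ ω : Ω, g • ω ≠ ω}).index := by
  classical
  have := htrans
  rcases isEmpty_or_nonempty Ω with h | h
  · have h1 : Nat.card (orbitRel.Quotient G (Ω × Ω)) = 0 := by
      have : IsEmpty (orbitRel.Quotient G (Ω × Ω)) :=
        ⟨fun x => Quotient.inductionOn' x (fun p => isEmptyElim p.1)⟩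
      exact Nat.card_of_isEmpty
    have h2 : Nat.card (orbitRel.Quotient (derSub G Ω) (Ω × Ω)) = 0 := by
      have : IsEmpty (orbitRel.Quotient (derSub G Ω) (Ω × Ω)) :=
        ⟨fun x => Quotient.inductionOn' x (fun p => isEmptyElim p.1)⟩
      exact Nat.card_of_isEmpty
    rw [h1, h2]
    simp
  · have := Fintype.ofFinite G
    have hG := burnside_natCard G (Ω × Ω)
    have hD := burnside_natCard (derSub G Ω) (Ω × Ω)
    rw [sum_split_subgroup (derSub G Ω)] at hG
    have hfix : ∑ d : derSub G Ω, Nat.card (fixedBy (Ω × Ω) (d : G))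
        = ∑ d : derSub G Ω, Nat.card (fixedBy (Ω × Ω) d) := rfl
    rw [hfix, hD] at hG
    have h1 : ∀ g ∈ Finset.univ.filter (fun g => g ∉ derSub G Ω),
        Nat.card (fixedBy (Ω × Ω) g) = 1 := by
      intro g hg
      have hg' := (der_main (G := G) (Ω := Ω)).2 g (Finset.mem_filter.1 hg).2
      have e : fixedBy (Ω × Ω) g ≃ fixedBy Ω g × fixedBy Ω g :=
        { toFun := fun p => (⟨p.1.1, congrArg Prod.fst p.2⟩, ⟨p.1.2, congrArg Prod.snd p.2⟩)
          invFun := fun p => ⟨(p.1.1, p.2.1), Prod.ext p.1.2 p.2.2⟩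
          left_inv := fun p => rfl
          right_inv := fun p => rfl }
      rw [Nat.card_congr e, Nat.card_prod, hg']
    rw [Finset.sum_congr rfl h1] at hG
    simp only [Finset.sum_const, smul_eq_mul, mul_one] at hG
    have hc := card_compl_subgroup (derSub G Ω)
    have hi := (derSub G Ω).card_mul_index
    have hDpos : 0 < Nat.card (derSub G Ω) := Nat.card_pos
    have hne1 : Nonempty (orbitRel.Quotient (derSub G Ω) (Ω × Ω)) :=
      ⟨Quotient.mk'' (Classical.arbitrary Ω, Classical.arbitrary Ω)⟩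
    have hne2 : Nonempty (orbitRel.Quotient G (Ω × Ω)) :=
      ⟨Quotient.mk'' (Classical.arbitrary Ω, Classical.arbitrary Ω)⟩
    have hr1 : 0 < Nat.card (orbitRel.Quotient (derSub G Ω) (Ω × Ω)) := Nat.card_pos
    have hr2 : 0 < Nat.card (orbitRel.Quotient G (Ω × Ω)) := Nat.card_pos
    obtain ⟨rd, hrd⟩ := Nat.exists_eq_succ_of_ne_zero hr1.ne'
    obtain ⟨rg, hrg⟩ := Nat.exists_eq_succ_of_ne_zero hr2.ne'
    change Nat.card (orbitRel.Quotient (derSub G Ω) (Ω × Ω)) - 1
      = (Nat.card (orbitRel.Quotient G (Ω × Ω)) - 1) * (derSub G Ω).index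
    rw [hrd, hrg] at hG ⊢
    rw [← hi] at hG hc
    simp only [Nat.succ_eq_add_one, Nat.add_sub_cancel]
    apply Nat.eq_of_mul_eq_mul_left hDpos
    simp only [Nat.succ_eq_add_one] at hG
    nlinarith

end Cfsg.Agent.S3547
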