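import Cfsg.Statements.S3548
-- import your own Cfsg.Agent.* helpers here
import Cfsg.Agent.Lib.Helper20.Derangement

set_option autoImplicit false
open Cfsg

namespace Cfsg.Agent.S3548

open Cfsg.Agent.Lib.Helper20 MulAction

/-- Let G act faithfully and transitively on a finite set with n ≥ 2 points and let D be the subgroup generated by the derangements. Then the index of D in G divides n − 1, and if it equals n − 1 then n is a prime power. -/
theorem result {G Ω : Type*} [Group G] [Finite G] [MulAction G Ω] [FaithfulSMul G Ω] [Finite Ω]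
    (htrans : MulAction.IsPretransitive G Ω) (hΩ : 2 ≤ Nat.card Ω) :
    (Subgroup.closure {g : G | ∀ ω : Ω, g • ω ≠ ω}).index ∣ Nat.card Ω - 1 ∧
    ((Subgroup.closure {g : G | ∀ ω : Ω, g • ω ≠ ω}).index = Nat.card Ω - 1 → IsPrimePow (Nat.card Ω)) := by
  classical
  have := htrans
  have hne : Nonempty Ω := by
    by_contra h
    rw [not_nonempty_iff] at h
    rw [Nat.card_of_isEmpty] at hΩ
    omega
  obtain ⟨a⟩ := hne
  change (derSub G Ω).index ∣ Nat.card Ω - 1 ∧
    ((derSub G Ω).index = Nat.card Ω - 1 → IsPrimePow (Nat.card Ω))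
  refine ⟨der_index_dvd_pred a, fun hidx => ?_⟩
  have hcompl : ({a}ᶜ : Set Ω).ncard = Nat.card Ω - 1 := by
    rw [Set.ncard_compl, Set.ncard_singleton]
  -- orbits of the stabilizer
  have horb : ∀ b : Ω, b ≠ a → (stabilizer (stabilizer G a) b).index = Nat.card Ω - 1 ∧
      orbit (stabilizer G a) b = {a}ᶜ := by
    intro b hb
    have h1 := der_index_dvd (G := G) a b hb
    have hsub : orbit (stabilizer G a) b ⊆ {a}ᶜ := by
      rintro _ ⟨h, rfl⟩ hh
      apply hb
      have h2 : (h : G) • b = a := hh
      have h3 : (h : G) • a = a := h.2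
      exact smul_left_cancel (h : G) (h2.trans h3.symm)
    have h2 : (orbit (stabilizer G a) b).ncard ≤ Nat.card Ω - 1 := by
      rw [← hcompl]
      exact Set.ncard_le_ncard hsub (Set.toFinite _)
    rw [index_stabilizer] at h1 ⊢
    have h3 : 0 < (orbit (stabilizer G a) b).ncard := by
      rw [Set.ncard_pos (Set.toFinite _)]
      exact nonempty_orbit b
    have h4 := Nat.le_of_dvd h3 h1
    rw [hidx] at h4
    refine ⟨le_antisymm h2 h4, ?_⟩
    apply Set.eq_of_subset_of_ncard_le hsub _ (Set.toFinite _)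
    rw [hcompl]; exact h4
  -- point stabilizer in D is trivial
  have hDa : ∀ d : G, d ∈ derSub G Ω → d • a = a → d = 1 := by
    intro d hd hda
    apply FaithfulSMul.eq_of_smul_eq_smul (α := Ω)
    intro b
    rw [one_smul]
    by_cases hb : b = a
    · rw [hb, hda]
    have hle := stab_stab_le (G := G) a b hb
    have h1 := Subgroup.relIndex_mul_index hle
    have h2 : ((derSub G Ω).subgroupOf (stabilizer G a)).index = Nat.card Ω - 1 := by
      have := der_relIndex (G := G) a
      rw [hidx] at this
      exact this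
    rw [h2, (horb b hb).1] at h1
    have h3 : (stabilizer (stabilizer G a) b).relIndex ((derSub G Ω).subgroupOf (stabilizer G a)) = 1 := by
      have hpos : 0 < Nat.card Ω - 1 := by omega
      apply Nat.eq_of_mul_eq_mul_right hpos
      rw [h1, one_mul]
    have h4 := Subgroup.relIndex_eq_one.1 h3
    have h5 : (⟨d, hda⟩ : stabilizer G a) ∈ (derSub G Ω).subgroupOf (stabilizer G a) := by
      rw [Subgroup.mem_subgroupOf]; exact hd
    exact h4 h5
  -- all nonidentity elements of D are conjugate
  have hconj : ∀ d d' : G, d ∈ derSub G Ω → d' ∈ derSub G Ω → d ≠ 1 → d' ≠ 1 →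
      orderOf d' = orderOf d := by
    intro d d' hd hd' hd1 hd1'
    have h1 : d • a ≠ a := fun h => hd1 (hDa d hd h)
    have h2 : d' • a ≠ a := fun h => hd1' (hDa d' hd' h)
    have h3 : d' • a ∈ orbit (stabilizer G a) (d • a) := by
      rw [(horb _ h1).2]; exact h2
    obtain ⟨h, hh⟩ := h3
    have hh' : (h : G) • d • a = d' • a := hh
    have h4 : d'⁻¹ * ((h : G) * d * (h : G)⁻¹) = 1 := by
      apply hDa
      · exact mul_mem (inv_mem hd') ((derSub_normal G Ω).conj_mem d hd h)
      · have h5 : (h : G)⁻¹ • a = a := by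
          rw [inv_smul_eq_iff]; exact h.2.symm
        rw [mul_smul, mul_smul, mul_smul, h5, hh', inv_smul_smul]
    have h5 : d' = (h : G) * d * (h : G)⁻¹ := by
      rw [inv_mul_eq_one] at h4; exact h4
    rw [h5]
    exact (MulAut.conj (h : G)).orderOf_eq d
  have hDt := der_transitive (G := G) (Ω := Ω)
  have hcardD : Nat.card (derSub G Ω) = Nat.card Ω := by
    rw [← index_stabilizer_of_transitive (derSub G Ω) a]
    have : stabilizer (derSub G Ω) a = ⊥ := by
      rw [eq_bot_iff]
      intro d hd
      rw [Subgroup.mem_bot]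
      exact Subtype.ext (hDa d d.2 hd)
    rw [this, Subgroup.index_bot]
  obtain ⟨p, hp, hpd⟩ := Nat.exists_prime_and_dvd (show Nat.card Ω ≠ 1 by omega)
  have := Fact.mk hp
  rw [← hcardD] at hpd
  obtain ⟨x, hx⟩ := exists_prime_orderOf_dvd_card' p hpd
  have hx1 : (x : G) ≠ 1 := by
    intro h
    have : x = 1 := Subtype.ext h
    rw [this, orderOf_one] at hx
    exact hp.one_lt.ne hx
  have hP : IsPGroup p (derSub G Ω) := by
    intro d
    by_cases hd : (d : G) = 1
    · have hd' : d = 1 := Subtype.ext hd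
      exact ⟨0, by rw [hd']; simp⟩
    · refine ⟨1, ?_⟩
      have h1 := hconj x d x.2 d.2 hx1 hd
      rw [Subgroup.orderOf_coe, Subgroup.orderOf_coe, hx] at h1
      rw [pow_one, ← h1, pow_orderOf_eq_one]
  obtain ⟨k, hk⟩ := IsPGroup.iff_card.1 hP
  rw [isPrimePow_nat_iff]
  refine ⟨p, k, hp, ?_, ?_⟩
  · rcases Nat.eq_zero_or_pos k with h | h
    · rw [h, pow_zero, hcardD] at hk
      omega
    · exact h
  · rw [← hk, hcardD]

end Cfsg.Agent.S3548
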