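import Cfsg.Statements.S3549
-- import your own Cfsg.Agent.* helpers here
import Cfsg.Agent.Lib.Helper20.Derangement

set_option autoImplicit false
open Cfsg

namespace Cfsg.Agent.S3549

open Cfsg.Agent.Lib.Helper20 MulAction
open scoped Pointwise

/-- Let G act faithfully, transitively but imprimitively on a finite set with n points, and let D be the subgroup generated by the derangements. Then the index of D in G is at most √n − 1. -/
theorem result {G Ω : Type*} [Group G] [Finite G] [MulAction G Ω] [FaithfulSMul G Ω] [Finite Ω]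
    (htrans : MulAction.IsPretransitive G Ω) (himp : ¬ MulAction.IsPreprimitive G Ω) :
    ((Subgroup.closure {g : G | ∀ ω : Ω, g • ω ≠ ω}).index : ℝ) ≤ Real.sqrt (Nat.card Ω) - 1 := by
  classical
  have := htrans
  change ((derSub G Ω).index : ℝ) ≤ Real.sqrt (Nat.card Ω) - 1
  have hex : ∃ B : Set Ω, IsBlock G B ∧ ¬ IsTrivialBlock B := by
    by_contra hcon
    push Not at hcon
    exact himp ⟨fun {B} hB => hcon B hB⟩
  obtain ⟨B, hB, hBt⟩ := hex
  unfold IsTrivialBlock at hBt
  push Not at hBt
  obtain ⟨hBs, hBu⟩ := hBt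
  obtain ⟨a, ha, b, hb, hab⟩ := hBs
  let Y : SubMulAction (stabilizer G a) Ω :=
    { carrier := B \ {a}
      smul_mem' := by
        rintro h y ⟨hy, hya⟩
        have hfix : (h : G) • a = a := h.2
        have hBB : (h : G) • B = B := hB.smul_eq_of_mem ha (by rw [hfix]; exact ha)
        refine ⟨?_, ?_⟩
        · show (h : G) • y ∈ B
          rw [← hBB]
          exact Set.smul_mem_smul_set hy
        · intro hh
          apply hya
          have h2 : (h : G) • y = a := hh
          exact smul_left_cancel (h : G) (h2.trans hfix.symm) }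
  have h1 : (derSub G Ω).index ∣ Nat.card Y := by
    apply dvd_card_of_invariant
    intro y hy
    exact der_index_dvd a y hy.2
  have hY : Nat.card Y = B.ncard - 1 := by
    have : Nat.card Y = (B \ {a}).ncard := Nat.card_coe_set_eq _
    rw [this, Set.ncard_sdiff_singleton_of_mem ha]
  rw [hY] at h1
  have h2 := der_index_dvd_pred (G := G) a
  obtain ⟨m, hm⟩ := hB.ncard_dvd_card ⟨a, ha⟩
  have hk2 : 2 ≤ B.ncard := by
    have : 1 < B.ncard := Set.one_lt_ncard_iff_nontrivial.2 ⟨a, ha, b, hb, hab⟩
    omega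
  have hlt : B.ncard < Nat.card Ω := by
    rw [← Set.ncard_univ]
    apply Set.ncard_lt_ncard _ (Set.toFinite _)
    exact Set.ssubset_univ_iff.2 hBu
  have hm2 : 2 ≤ m := by
    by_contra hcon
    have : m = 0 ∨ m = 1 := by omega
    rcases this with rfl | rfl
    · omega
    · omega
  set k := B.ncard with hk
  set i := (derSub G Ω).index with hi
  have hcop : Nat.Coprime i k := by
    have h3 : Nat.gcd i k ∣ k - 1 := (Nat.gcd_dvd_left i k).trans h1
    have h4 : Nat.gcd i k ∣ k := Nat.gcd_dvd_right i k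
    have h5 : Nat.gcd i k ∣ k - (k - 1) := Nat.dvd_sub h4 h3
    have h6 : k - (k - 1) = 1 := by omega
    rw [h6] at h5
    exact Nat.dvd_one.1 h5
  have h7 : i ∣ k * (m - 1) := by
    have h8 : k * (m - 1) = (Nat.card Ω - 1) - (k - 1) := by
      rw [hm]
      obtain ⟨m', rfl⟩ : ∃ m', m = m' + 1 := ⟨m - 1, by omega⟩
      simp only [Nat.add_sub_cancel]
      have : k * (m' + 1) = k * m' + k := by ring
      omega
    rw [h8]
    exact Nat.dvd_sub h2 h1
  have h9 : i ∣ m - 1 := hcop.dvd_of_dvd_mul_left h7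
  have h10 : i ≤ k - 1 := Nat.le_of_dvd (by omega) h1
  have h11 : i ≤ m - 1 := Nat.le_of_dvd (by omega) h9
  have h12 : (i + 1) * (i + 1) ≤ Nat.card Ω := by
    rw [hm]
    exact Nat.mul_le_mul (by omega) (by omega)
  have h13 : ((i : ℝ) + 1) ≤ Real.sqrt (Nat.card Ω) := by
    apply Real.le_sqrt_of_sq_le
    have : (((i + 1) * (i + 1) : ℕ) : ℝ) ≤ (Nat.card Ω : ℝ) := by exact_mod_cast h12
    push_cast at this
    nlinarith
  linarith

end Cfsg.Agent.S3549
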