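import Cfsg.Statements.S3560
-- import your own Cfsg.Agent.* helpers here
import Mathlib

set_option autoImplicit false
open Cfsg

namespace Cfsg.Agent.S3560

section aux
open MulAction
open scoped Pointwise

variable {ι : Type*} [Fintype ι] [DecidableEq ι] {m : ℕ}

/-- the group of Hamming isometries -/
def iso (ι : Type*) [Fintype ι] (m : ℕ) : Subgroup (Equiv.Perm (ι → Fin m)) where
  carrier := {σ | ∀ x y, hammingDist (σ x) (σ y) = hammingDist x y}
  one_mem' := fun _ _ => rfl
  mul_mem' := by
    intro σ τ hσ hτ x y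
    rw [Equiv.Perm.mul_apply, Equiv.Perm.mul_apply, hσ, hτ]
  inv_mem' := by
    intro σ hσ x y
    have := hσ (σ⁻¹ x) (σ⁻¹ y)
    simpa using this.symm

/-- coordinatewise permutations -/
def cw (π : ι → Equiv.Perm (Fin m)) : Equiv.Perm (ι → Fin m) := Equiv.piCongrRight π

omit [Fintype ι] [DecidableEq ι] in
@[simp] theorem cw_apply (π : ι → Equiv.Perm (Fin m)) (x : ι → Fin m) (i : ι) :
    cw π x i = π i (x i) := rfl

omit [DecidableEq ι] in
theorem cw_mem (π : ι → Equiv.Perm (Fin m)) : cw π ∈ iso ι m := by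
  intro x y
  exact hammingDist_comp (fun i => π i) (fun i => (π i).injective)

/-- permutations of the coordinates -/
def cp (τ : Equiv.Perm ι) : Equiv.Perm (ι → Fin m) := Equiv.arrowCongr τ.symm (Equiv.refl _)

omit [Fintype ι] [DecidableEq ι] in
@[simp] theorem cp_apply (τ : Equiv.Perm ι) (x : ι → Fin m) (i : ι) :
    cp τ x i = x (τ i) := rfl

omit [DecidableEq ι] in
theorem cp_mem (τ : Equiv.Perm ι) : (cp τ : Equiv.Perm (ι → Fin m)) ∈ iso ι m := by
  intro x y
  unfold hammingDist
  apply Finset.card_bij (fun i _ => τ i)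
  · intro i hi
    rw [Finset.mem_filter] at hi ⊢
    exact ⟨Finset.mem_univ _, hi.2⟩
  · intro i _ j _ h
    exact τ.injective h
  · intro j hj
    rw [Finset.mem_filter] at hj
    refine ⟨τ.symm j, ?_, by simp⟩
    rw [Finset.mem_filter]
    refine ⟨Finset.mem_univ _, ?_⟩
    rw [cp_apply, cp_apply, Equiv.apply_symm_apply]
    exact hj.2

theorem exists_perm (u a v b : Fin m) (h1 : a ≠ u) (h2 : b ≠ v) :
    ∃ π : Equiv.Perm (Fin m), π u = v ∧ π a = b := by
  refine ⟨Equiv.swap (Equiv.swap u v a) b * Equiv.swap u v, ?_, ?_⟩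
  · rw [Equiv.Perm.mul_apply, Equiv.swap_apply_left]
    apply Equiv.swap_apply_of_ne_of_ne
    · intro h
      apply h1
      apply (Equiv.swap u v).injective
      rw [← h, Equiv.swap_apply_left]
    · exact h2.symm
  · rw [Equiv.Perm.mul_apply, Equiv.swap_apply_left]

/-- adjacency -/
def Adj (y y' : ι → Fin m) : Prop := ∃ i a, a ≠ y i ∧ y' = Function.update y i a

theorem arc {y y' z z' : ι → Fin m} (h1 : Adj y y') (h2 : Adj z z') :
    ∃ g ∈ iso ι m, g y = z ∧ g y' = z' := by
  obtain ⟨i, a, ha, rfl⟩ := h1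
  obtain ⟨j, b, hb, rfl⟩ := h2
  have hex : ∀ l, ∃ π : Equiv.Perm (Fin m), π (y (Equiv.swap i j l)) = z l ∧ (l = j → π a = b) := by
    intro l
    by_cases hl : l = j
    · subst hl
      obtain ⟨π, h1, h2⟩ := exists_perm (y (Equiv.swap i l l)) a (z l) b
        (by rw [Equiv.swap_apply_right]; exact ha) hb
      exact ⟨π, h1, fun _ => h2⟩
    · exact ⟨Equiv.swap (y (Equiv.swap i j l)) (z l), Equiv.swap_apply_left _ _, fun h => absurd h hl⟩
  choose π hπ1 hπ2 using hex
  refine ⟨cw π * cp (Equiv.swap i j), (iso ι m).mul_mem (cw_mem π) (cp_mem _), ?_, ?_⟩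
  · ext1 l
    rw [Equiv.Perm.mul_apply, cw_apply, cp_apply, hπ1]
  · ext1 l
    rw [Equiv.Perm.mul_apply, cw_apply, cp_apply]
    by_cases hl : l = j
    · subst hl
      rw [Equiv.swap_apply_right, Function.update_self, Function.update_self, hπ2 l rfl]
    · have hne : Equiv.swap i j l ≠ i := by
        intro h
        apply hl
        have := congrArg (Equiv.swap i j) h
        rwa [Equiv.swap_apply_self, Equiv.swap_apply_left] at this
      rw [Function.update_of_ne hne, Function.update_of_ne hl, hπ1]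

omit [DecidableEq ι] in
theorem trans_iso : IsPretransitive (iso ι m) (ι → Fin m) := by
  constructor
  intro x y
  refine ⟨⟨cw (fun l => Equiv.swap (x l) (y l)), cw_mem _⟩, ?_⟩
  ext1 l
  exact Equiv.swap_apply_left _ _

theorem exists_third (hm : 3 ≤ m) (u v : Fin m) : ∃ c : Fin m, c ≠ u ∧ c ≠ v := by
  by_contra h
  push Not at h
  have hsub : (Finset.univ : Finset (Fin m)) ⊆ {u, v} := by
    intro c _
    by_cases hc : c = u
    · simp [hc]
    · simp [h c hc]
  have := Finset.card_le_card hsub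
  rw [Finset.card_univ, Fintype.card_fin] at this
  have h2 : ({u, v} : Finset (Fin m)).card ≤ 2 := Finset.card_le_two
  omega

theorem block_univ (hm : 3 ≤ m) {B : Set (ι → Fin m)} (hB : IsBlock (iso ι m) B)
    (hns : ¬ B.Subsingleton) : B = Set.univ := by
  rw [Set.not_subsingleton_iff] at hns
  obtain ⟨x₀, hx₀, y, hy, hne⟩ := hns
  obtain ⟨i, hi⟩ : ∃ i, x₀ i ≠ y i := Function.ne_iff.mp hne
  obtain ⟨c, hc1, hc2⟩ := exists_third hm (x₀ i) (y i)
  have hy' : Function.update y i c ∈ B := by
    let g : iso ι m := ⟨cw (fun l => if l = i then Equiv.swap (y i) c else 1), cw_mem _⟩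
    have hgx : g • x₀ = x₀ := by
      ext1 l
      change (if l = i then Equiv.swap (y i) c else 1 : Equiv.Perm (Fin m)) (x₀ l) = x₀ l
      split_ifs with h
      · subst h
        exact Equiv.swap_apply_of_ne_of_ne hi hc1.symm
      · rfl
    have hgB : g • B = B := hB.smul_eq_of_mem hx₀ (hgx.symm ▸ hx₀)
    have hgy : g • y = Function.update y i c := by
      ext1 l
      change (if l = i then Equiv.swap (y i) c else 1 : Equiv.Perm (Fin m)) (y l) = _
      split_ifs with h
      · subst h
        rw [Equiv.swap_apply_left, Function.update_self]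
      · rw [Function.update_of_ne h]; rfl
    rw [← hgy, ← hgB]
    exact Set.smul_mem_smul_set hy
  have hadj : Adj y (Function.update y i c) := ⟨i, c, hc2, rfl⟩
  have hstep : ∀ z ∈ B, ∀ z', Adj z z' → z' ∈ B := by
    intro z hz z' hzz
    obtain ⟨g, hg, h1, h2⟩ := arc hadj hzz
    have hgB : (⟨g, hg⟩ : iso ι m) • B = B :=
      hB.smul_eq_of_mem hy (by change g y ∈ B; rw [h1]; exact hz)
    rw [← hgB, ← h2]
    exact Set.smul_mem_smul_set (a := (⟨g, hg⟩ : iso ι m)) hy'
  rw [Set.eq_univ_iff_forall]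
  intro w
  have key : ∀ s : Finset ι, (fun l => if l ∈ s then w l else x₀ l) ∈ B := by
    intro s
    induction s using Finset.induction_on with
    | empty => simpa using hx₀
    | insert i s his ih =>
      have e : (fun l => if l ∈ insert i s then w l else x₀ l)
          = Function.update (fun l => if l ∈ s then w l else x₀ l) i (w i) := by
        ext1 l
        by_cases hl : l = i
        · subst hl; simp
        · simp [hl]
      rw [e]
      by_cases hw : w i = (fun l => if l ∈ s then w l else x₀ l) i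
      · rw [hw, Function.update_eq_self]; exact ih
      · exact hstep _ ih _ ⟨i, w i, hw, rfl⟩
  simpa using key Finset.univ

theorem prim_iso (hm : 3 ≤ m) : IsPreprimitive (iso ι m) (ι → Fin m) := by
  haveI := trans_iso (ι := ι) (m := m)
  constructor
  intro B hB
  by_cases hs : B.Subsingleton
  · exact Or.inl hs
  · exact Or.inr (block_univ hm hB hs)

theorem not_two (hm : 3 ≤ m) (hr : 2 ≤ Fintype.card ι) :
    ¬ IsMultiplyPretransitive (iso ι m) (ι → Fin m) 2 := by
  intro h
  rw [is_two_pretransitive_iff] at h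
  obtain ⟨i, j, hij⟩ := Fintype.one_lt_card_iff.mp (by omega : 1 < Fintype.card ι)
  let z : Fin m := ⟨0, by omega⟩
  let o : Fin m := ⟨1, by omega⟩
  have hzo : o ≠ z := by
    intro h
    have := congrArg Fin.val h
    simp [o, z] at this
  let x₀ : ι → Fin m := fun _ => z
  let x₁ : ι → Fin m := Function.update x₀ i o
  let x₂ : ι → Fin m := Function.update x₁ j o
  have d1 : hammingDist x₀ x₁ = 1 := by
    unfold hammingDist
    rw [Finset.card_eq_one]
    refine ⟨i, ?_⟩
    ext l
    rw [Finset.mem_filter, Finset.mem_singleton]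
    constructor
    · rintro ⟨-, h⟩
      by_contra hl
      exact h (by simp [x₁, Function.update_of_ne hl])
    · rintro rfl
      refine ⟨Finset.mem_univ _, ?_⟩
      simp only [x₁, Function.update_self, x₀]
      exact hzo.symm
  have d2 : hammingDist x₀ x₂ = 2 := by
    unfold hammingDist
    rw [Finset.card_eq_two]
    refine ⟨i, j, hij, ?_⟩
    ext l
    rw [Finset.mem_filter, Finset.mem_insert, Finset.mem_singleton]
    constructor
    · rintro ⟨-, h⟩
      by_contra hl
      push Not at hl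
      exact h (by simp [x₂, x₁, Function.update_of_ne hl.1, Function.update_of_ne hl.2])
    · rintro (rfl | rfl)
      · refine ⟨Finset.mem_univ _, ?_⟩
        simp only [x₂, x₁, Function.update_of_ne hij, Function.update_self, x₀]
        exact hzo.symm
      · refine ⟨Finset.mem_univ _, ?_⟩
        simp only [x₂, Function.update_self, x₀]
        exact hzo.symm
  have n1 : x₀ ≠ x₁ := by
    rw [← hammingDist_ne_zero, d1]; norm_num
  have n2 : x₀ ≠ x₂ := by
    rw [← hammingDist_ne_zero, d2]; norm_num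
  obtain ⟨g, h0, h1⟩ := h n1 n2
  have := g.2 x₀ x₁
  have e0 : (g : Equiv.Perm (ι → Fin m)) x₀ = x₀ := h0
  have e1 : (g : Equiv.Perm (ι → Fin m)) x₁ = x₂ := h1
  rw [e0, e1, d1, d2] at this
  omega

/-- the equivariant map used for transporting a permutation group along a bijection -/
def tmap {X Y : Type*} (ε : X ≃ Y) (H : Subgroup (Equiv.Perm X)) :
    X →ₑ[⇑(H.equivMapOfInjective ε.permCongrHom.toMonoidHom ε.permCongrHom.injective)] Y where
  toFun := ε
  map_smul' := by
    intro g x
    change ε ((g : Equiv.Perm X) x) = ε.permCongr (g : Equiv.Perm X) (ε x)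
    simp [Equiv.permCongr_apply]

theorem transport {X : Type*} [Fintype X] (G₀ R₀ : Subgroup (Equiv.Perm X)) (hle : R₀ ≤ G₀)
    {K : Type*} [Group K] (hK : Nonempty (R₀ ≃* K)) (h1 : IsPretransitive R₀ X)
    (h2 : ∀ a : X, stabilizer R₀ a = ⊥) (h3 : IsPreprimitive G₀ X)
    (h4 : ¬ IsMultiplyPretransitive G₀ X 2) :
    ∃ (n : ℕ) (G R : Subgroup (Equiv.Perm (Fin n))), R ≤ G ∧ Nonempty (↥R ≃* K) ∧
      MulAction.IsPretransitive ↥R (Fin n) ∧ (∀ a : Fin n, MulAction.stabilizer ↥R a = ⊥) ∧
      MulAction.IsPreprimitive ↥G (Fin n) ∧ ¬ MulAction.IsMultiplyPretransitive ↥G (Fin n) 2 := by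
  classical
  let ε : X ≃ Fin (Fintype.card X) := Fintype.equivFin X
  obtain ⟨eK⟩ := hK
  refine ⟨Fintype.card X, G₀.map ε.permCongrHom.toMonoidHom, R₀.map ε.permCongrHom.toMonoidHom,
    Subgroup.map_mono hle,
    ⟨(R₀.equivMapOfInjective ε.permCongrHom.toMonoidHom ε.permCongrHom.injective).symm.trans eK⟩,
    ?_, ?_, ?_, ?_⟩
  · exact (isPretransitive_congr (f := tmap ε R₀) (MulEquiv.surjective _) ε.bijective).mp h1
  · intro a
    rw [eq_bot_iff]
    rintro ⟨σ, hσ⟩ hs
    obtain ⟨g, hg, rfl⟩ := Subgroup.mem_map.mp hσ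
    rw [mem_stabilizer_iff] at hs
    have hs' : ε.permCongr g a = a := hs
    rw [Equiv.permCongr_apply] at hs'
    have h5 : (⟨g, hg⟩ : R₀) ∈ stabilizer R₀ (ε.symm a) := by
      rw [mem_stabilizer_iff]
      change g (ε.symm a) = ε.symm a
      rw [Equiv.eq_symm_apply]
      exact hs'
    rw [h2, Subgroup.mem_bot] at h5
    have h6 : g = 1 := congrArg Subtype.val h5
    rw [Subgroup.mem_bot]
    apply Subtype.ext
    change ε.permCongrHom.toMonoidHom g = 1
    rw [h6, map_one]
  · exact (isPreprimitive_congr (f := tmap ε G₀) (MulEquiv.surjective _) ε.bijective).mp h3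
  · intro h
    exact h4 ((IsPretransitive.of_embedding_congr (f := tmap ε G₀) (MulEquiv.surjective _)
      ε.bijective).mpr h)

end aux

/-- Let K be a finite group isomorphic to a direct product of r ≥ 2 groups all of the same order m ≥ 3. Then K is not a B-group: there is a primitive but not doubly transitive permutation group (on some finite set) containing a regular subgroup isomorphic to K. -/
theorem result {K : Type*} [Group K] [Finite K] {ι : Type*} [Fintype ι] (F : ι → Type*) [∀ i, Group (F i)]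
    (hr : 2 ≤ Fintype.card ι) (m : ℕ) (hm : 3 ≤ m) (hcard : ∀ i, Nat.card (F i) = m) (e : K ≃* (∀ i, F i)) :
    ∃ (n : ℕ) (G R : Subgroup (Equiv.Perm (Fin n))), R ≤ G ∧ Nonempty (↥R ≃* K) ∧
      MulAction.IsPretransitive ↥R (Fin n) ∧ (∀ a : Fin n, MulAction.stabilizer ↥R a = ⊥) ∧
      MulAction.IsPreprimitive ↥G (Fin n) ∧ ¬ MulAction.IsMultiplyPretransitive ↥G (Fin n) 2 := by
  classical
  haveI : ∀ i, Finite (F i) := fun i => Nat.finite_of_card_ne_zero (by rw [hcard i]; omega)
  let ei : ∀ i, F i ≃ Fin m := fun i => Finite.equivFinOfCardEq (hcard i)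
  let Φ : (∀ i, F i) ≃ (ι → Fin m) := Equiv.piCongrRight ei
  let ρ : K →* Equiv.Perm (ι → Fin m) :=
    (Φ.permCongrHom.toMonoidHom).comp
      ((MulAction.toPermHom (∀ i, F i) (∀ i, F i)).comp e.toMonoidHom)
  have hρ : ∀ (k : K) (x : ι → Fin m), ρ k x = Φ (e k * Φ.symm x) := fun k x => rfl
  have hinj : Function.Injective ρ := by
    intro k k' h
    have h1 := congrArg (fun σ : Equiv.Perm (ι → Fin m) => σ (Φ 1)) h
    simp only [hρ, Equiv.symm_apply_apply, mul_one] at h1
    exact e.injective (Φ.injective h1)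
  apply transport (iso ι m) ρ.range
  · rintro _ ⟨k, rfl⟩
    intro x y
    exact hammingDist_comp (fun i v => ei i ((e k) i * (ei i).symm v))
      (fun i a b hab => (ei i).symm.injective (mul_left_cancel ((ei i).injective hab)))
  · exact ⟨(MonoidHom.ofInjective hinj).symm⟩
  · constructor
    intro x y
    refine ⟨⟨ρ (e.symm (Φ.symm y * (Φ.symm x)⁻¹)), ⟨_, rfl⟩⟩, ?_⟩
    change ρ (e.symm (Φ.symm y * (Φ.symm x)⁻¹)) x = y
    rw [hρ, MulEquiv.apply_symm_apply, inv_mul_cancel_right, Equiv.apply_symm_apply]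
  · intro a
    rw [eq_bot_iff]
    rintro ⟨_, ⟨k, rfl⟩⟩ hs
    rw [MulAction.mem_stabilizer_iff] at hs
    have hs' : ρ k a = a := hs
    rw [hρ, ← Equiv.eq_symm_apply] at hs'
    have h1 : e k = 1 := mul_eq_right.mp hs'
    have h2 : k = 1 := e.injective (by rw [h1, map_one])
    rw [Subgroup.mem_bot]
    apply Subtype.ext
    change ρ k = 1
    rw [h2, map_one]
  · exact prim_iso hm
  · exact not_two hm hr

end Cfsg.Agent.S3560
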