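import Cfsg.Statements.S3573
-- import your own Cfsg.Agent.* helpers here

set_option autoImplicit false
open Cfsg

namespace Cfsg.Agent.S3573

open Equiv Finset

theorem not_dvd_choose {r a b : ℕ} (hr : r.Prime) (ha : a < r) (hb : b ≤ a) :
    ¬ r ∣ a.choose b := by
  intro h
  have h1 := Nat.choose_mul_factorial_mul_factorial hb
  have h2 : r ∣ a.factorial := by
    rw [← h1]
    exact Dvd.dvd.mul_right (Dvd.dvd.mul_right h _) _
  have := (hr.dvd_factorial).mp h2
  omega

theorem inv_iff {n : ℕ} {σ : Perm (Fin n)} {s : Finset (Fin n)} (hs : s.image σ = s)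
    (y : Fin n) : σ y ∈ s ↔ y ∈ s := by
  constructor
  · intro h
    rw [← hs] at h
    obtain ⟨z, hz, he⟩ := Finset.mem_image.mp h
    rw [← σ.injective he]
    exact hz
  · intro h
    rw [← hs]
    exact Finset.mem_image_of_mem σ h

theorem inv_iter {n : ℕ} {σ : Perm (Fin n)} {s : Finset (Fin n)} (hs : s.image σ = s)
    (y : Fin n) (m : ℕ) : σ^[m] y ∈ s ↔ y ∈ s := by
  induction m with
  | zero => simp
  | succ m ih => rw [Function.iterate_succ_apply', inv_iff hs, ih]

theorem image_fixed {n : ℕ} {σ : Perm (Fin n)} {t : Finset (Fin n)} (h : ∀ x ∈ t, σ x = x) :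
    t.image σ = t := by
  ext y
  constructor
  · intro hy
    obtain ⟨z, hz, he⟩ := Finset.mem_image.mp hy
    rw [← he, h z hz]
    exact hz
  · intro hy
    exact Finset.mem_image.mpr ⟨y, hy, h y hy⟩

theorem step {n r : ℕ} (hr : r.Prime) (σ : Perm (Fin n)) (hσ : σ ^ r = 1) (s : Finset (Fin n))
    (hs : s.image σ = s) (hc : s.card + r ≤ n) :
    ∃ s' : Finset (Fin n), s'.card = s.card + r ∧ s'.image σ = s' := by
  by_cases h : ∃ x, x ∉ s ∧ σ x ≠ x
  · obtain ⟨x, hxs, hx⟩ := h
    obtain ⟨O, hO⟩ : ∃ O : Finset (Fin n), O = (Finset.range r).image (fun m => σ^[m] x) :=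
      ⟨_, rfl⟩
    have hper : Function.IsPeriodicPt σ r x := by
      change σ^[r] x = x
      rw [Equiv.Perm.iterate_eq_pow, hσ]
      rfl
    have hmin : Function.minimalPeriod σ x = r := by
      rcases (Nat.dvd_prime hr).mp hper.minimalPeriod_dvd with h1 | h1
      · exact absurd (Function.minimalPeriod_eq_one_iff_isFixedPt.mp h1) hx
      · exact h1
    have hOc : O.card = r := by
      rw [hO, Finset.card_image_of_injOn, Finset.card_range]
      intro a ha b hb hab
      have ha' : a ∈ Set.Iio (Function.minimalPeriod σ x) := by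
        rw [hmin]; simpa using ha
      have hb' : b ∈ Set.Iio (Function.minimalPeriod σ x) := by
        rw [hmin]; simpa using hb
      exact Function.iterate_injOn_Iio_minimalPeriod ha' hb' hab
    have hOs : Disjoint s O := by
      rw [Finset.disjoint_left]
      intro y hys hyO
      rw [hO] at hyO
      obtain ⟨m, -, rfl⟩ := Finset.mem_image.mp hyO
      exact hxs ((inv_iter hs x m).mp hys)
    have hOi : O.image σ = O := by
      apply Finset.eq_of_subset_of_card_le
      · intro y hy
        obtain ⟨z, hz, rfl⟩ := Finset.mem_image.mp hy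
        rw [hO] at hz ⊢
        obtain ⟨m, hm, rfl⟩ := Finset.mem_image.mp hz
        rw [Finset.mem_range] at hm
        by_cases hm1 : m + 1 < r
        · exact Finset.mem_image.mpr ⟨m + 1, Finset.mem_range.mpr hm1,
            Function.iterate_succ_apply' _ _ _⟩
        · have hmr : m + 1 = r := by omega
          refine Finset.mem_image.mpr ⟨0, Finset.mem_range.mpr hr.pos, ?_⟩
          have e : σ (σ^[m] x) = σ^[m + 1] x := (Function.iterate_succ_apply' _ _ _).symm
          rw [e, hmr]
          exact hper.symm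
      · rw [Finset.card_image_of_injective _ σ.injective]
    refine ⟨s ∪ O, ?_, ?_⟩
    · rw [Finset.card_union_of_disjoint hOs, hOc]
    · rw [Finset.image_union, hs, hOi]
  · push Not at h
    have h1 : r ≤ sᶜ.card := by
      rw [Finset.card_compl, Fintype.card_fin]
      omega
    obtain ⟨t, hts, htc⟩ := Finset.exists_subset_card_eq h1
    have hd : Disjoint s t := by
      rw [Finset.disjoint_left]
      intro y hys hyt
      exact (Finset.mem_compl.mp (hts hyt)) hys
    refine ⟨s ∪ t, ?_, ?_⟩
    · rw [Finset.card_union_of_disjoint hd, htc]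
    · rw [Finset.image_union, hs, image_fixed (fun x hx => h x (Finset.mem_compl.mp (hts hx)))]

theorem backward {n r k : ℕ} (hr : r.Prime) (σ : Perm (Fin n)) (hσ : σ ^ r = 1) (hkn : k ≤ n)
    (hmod : k % r ≤ n % r) : ∃ s : Finset (Fin n), s.card = k ∧ s.image σ = s := by
  have : Fact r.Prime := ⟨hr⟩
  have h1 := Equiv.Perm.card_compl_support_modEq (p := r) (n := 1) (σ := σ) (by rwa [pow_one])
  rw [Fintype.card_fin] at h1
  have h2 : n % r ≤ σ.supportᶜ.card := by
    have : σ.supportᶜ.card % r = n % r := h1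
    rw [← this]
    exact Nat.mod_le _ _
  obtain ⟨s0, hs0, hs0c⟩ := Finset.exists_subset_card_eq (hmod.trans h2)
  have hs0i : s0.image σ = s0 := image_fixed (fun x hx => by
    have := Finset.mem_compl.mp (hs0 hx)
    simpa [Equiv.Perm.mem_support] using this)
  have key : ∀ i : ℕ, k % r + r * i ≤ n →
      ∃ s : Finset (Fin n), s.card = k % r + r * i ∧ s.image σ = s := by
    intro i
    induction i with
    | zero => intro _; exact ⟨s0, by simpa using hs0c, hs0i⟩
    | succ i ih =>
      intro hi
      obtain ⟨s, hsc, hsi⟩ := ih (by rw [Nat.mul_succ] at hi; omega)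
      obtain ⟨s', hs'c, hs'i⟩ := step hr σ hσ s hsi (by rw [hsc]; rw [Nat.mul_succ] at hi; omega)
      exact ⟨s', by rw [hs'c, hsc, Nat.mul_succ]; omega, hs'i⟩
  have := key (k / r) (by rw [Nat.mod_add_div]; exact hkn)
  rwa [Nat.mod_add_div] at this

theorem forward {n r k : ℕ} (hr : r.Prime) (hrn : r ≤ n)
    (h : ∀ σ : Perm (Fin n), orderOf σ = r → ∃ s : Finset (Fin n), s.card = k ∧ s.image σ = s) :
    k % r ≤ n % r := by
  have : Fact r.Prime := ⟨hr⟩
  have hq : 1 ≤ n / r := (Nat.one_le_div_iff hr.pos).mpr hrn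
  obtain ⟨σ, hσ⟩ := (Equiv.Perm.exists_with_cycleType_iff (α := Fin n)
    (m := Multiset.replicate (n / r) r)).mpr ⟨by
      rw [Multiset.sum_replicate, Fintype.card_fin, smul_eq_mul]
      exact Nat.div_mul_le_self n r, by
      intro a ha
      rw [Multiset.eq_of_mem_replicate ha]
      exact hr.two_le⟩
  have hpow : σ ^ r = 1 := by
    apply orderOf_dvd_iff_pow_eq_one.mp
    rw [← Equiv.Perm.lcm_cycleType, hσ, Multiset.lcm_dvd]
    intro b hb
    rw [Multiset.eq_of_mem_replicate hb]
  have hne : σ ≠ 1 := by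
    intro h1
    have := Equiv.Perm.cycleType_eq_zero.mpr h1
    rw [hσ] at this
    have h2 := congrArg Multiset.card this
    rw [Multiset.card_replicate, Multiset.card_zero] at h2
    omega
  have hord : orderOf σ = r := orderOf_eq_prime hpow hne
  have hsupp : σ.support.card = (n / r) * r := by
    rw [← Equiv.Perm.sum_cycleType, hσ, Multiset.sum_replicate, smul_eq_mul]
  have hfix : σ.supportᶜ.card = n % r := by
    rw [Finset.card_compl, Fintype.card_fin, hsupp]
    have := Nat.mod_add_div n r
    rw [Nat.mul_comm] at this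
    omega
  obtain ⟨s, hsc, hs⟩ := h σ hord
  let τ : Perm {x // x ∈ s} := σ.subtypePerm (inv_iff hs)
  have hτ : τ ^ r ^ 1 = 1 := by
    rw [pow_one, show τ = σ.subtypePerm (inv_iff hs) from rfl, Equiv.Perm.subtypePerm_pow]
    apply Equiv.ext
    intro x
    apply Subtype.ext
    simp [hpow]
  have h1 := Equiv.Perm.card_compl_support_modEq (p := r) (n := 1) (σ := τ) hτ
  rw [Fintype.card_coe, hsc] at h1
  have h2 : τ.supportᶜ.card ≤ σ.supportᶜ.card := by
    apply Finset.card_le_card_of_injOn (fun x : {x // x ∈ s} => (x : Fin n))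
    · intro x hx
      have hx' : τ x = x := by
        have := Finset.mem_compl.mp hx
        simpa [Equiv.Perm.mem_support] using this
      have hx2 : σ (x : Fin n) = x := congrArg Subtype.val hx'
      simp [Equiv.Perm.mem_support, hx2]
    · intro a _ b _ hab
      exact Subtype.ext hab
  rw [hfix] at h2
  have h3 : τ.supportᶜ.card % r = k % r := h1
  have h4 : n % r < r := Nat.mod_lt _ hr.pos
  rw [← h3, Nat.mod_eq_of_lt (lt_of_le_of_lt h2 h4)]
  exact h2

theorem main {n r k : ℕ} (hr : r.Prime) (hrn : r ≤ n) (hkn : k ≤ n) :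
    (∀ σ : Perm (Fin n), orderOf σ = r → ∃ s : Finset (Fin n), s.card = k ∧ s.image σ = s) ↔
      k % r ≤ n % r :=
  ⟨forward hr hrn, fun h σ hσ => backward hr σ (hσ ▸ pow_orderOf_eq_one σ) hkn h⟩


/-- Let 1 ≤ k with 2k < n and consider the symmetric group of degree n acting on the k-subsets of an n-set. Let r be a prime dividing the number C(n,k) of k-subsets. If r is odd, then every permutation of order r fixes some k-subset if and only if r ≤ k and the remainder of k modulo r is at most the remainder of n modulo r. If r = 2, then every involution fixes some k-subset if and only if k is even or n is odd. -/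
theorem result (n k : ℕ) (hk : 1 ≤ k) (hkn : 2 * k < n) (r : ℕ) (hr : r.Prime) (hrd : r ∣ Nat.choose n k) :
    (r ≠ 2 → ((∀ σ : Equiv.Perm (Fin n), orderOf σ = r → ∃ s : Finset (Fin n), s.card = k ∧ s.image σ = s) ↔
      (r ≤ k ∧ k % r ≤ n % r))) ∧
    (r = 2 → ((∀ σ : Equiv.Perm (Fin n), orderOf σ = 2 → ∃ s : Finset (Fin n), s.card = k ∧ s.image σ = s) ↔
      (Even k ∨ Odd n))) := by
  have hkn' : k ≤ n := by omega
  have hrn : r ≤ n := by
    by_contra hlt
    exact not_dvd_choose hr (not_le.mp hlt) hkn' hrd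
  have : Fact r.Prime := ⟨hr⟩
  have hluc : k % r ≤ n % r → r ≤ k := by
    intro hmod
    by_contra hlt
    have hkr : k < r := not_le.mp hlt
    have h1 := Choose.choose_modEq_choose_mod_mul_choose_div_nat (n := n) (k := k) (p := r)
    rw [Nat.mod_eq_of_lt hkr, Nat.div_eq_of_lt hkr, Nat.choose_zero_right, mul_one] at h1
    rw [Nat.mod_eq_of_lt hkr] at hmod
    have h2 : r ∣ (n % r).choose k := (Nat.modEq_zero_iff_dvd.mp
      (h1.symm.trans (Nat.modEq_zero_iff_dvd.mpr hrd)))
    exact not_dvd_choose hr (Nat.mod_lt _ hr.pos) hmod h2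
  refine ⟨fun _ => ?_, fun h2 => ?_⟩
  · rw [main hr hrn hkn']
    exact ⟨fun h => ⟨hluc h, h⟩, fun h => h.2⟩
  · subst h2
    rw [main hr hrn hkn', Nat.even_iff, Nat.odd_iff]
    omega

end Cfsg.Agent.S3573
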