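import Cfsg.Statements.S3619
-- import your own Cfsg.Agent.* helpers here

set_option autoImplicit false
open Cfsg

namespace Cfsg.Agent.S3619

open MulAction Subgroup
open scoped Pointwise

/-- Let G act faithfully on a finite set in such a way that every non-trivial normal subgroup of G is transitive (G is quasiprimitive). Let Γ be a subset with more than one point and not the whole set, such that the pointwise stabilizer of the complement of Γ acts transitively on Γ (a Jordan set). If that pointwise stabilizer acts primitively on Γ, then G is k-fold transitive where k is one more than the number of points outside Γ (the Jordan set is a trivial one). -/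
theorem result {G Ω : Type*} [Group G] [Finite G] [MulAction G Ω] [FaithfulSMul G Ω] [Finite Ω]
    (hqp : ∀ N : Subgroup G, N.Normal → N ≠ ⊥ → MulAction.IsPretransitive ↥N Ω)
    (Γ : Set Ω) (hΓ1 : 1 < Γ.ncard) (hΓ2 : Γ.ncard < Nat.card Ω)
    (hJ : MulAction.IsPretransitive ↥(fixingSubgroup G Γᶜ) ↥(SubMulAction.ofFixingSubgroup G Γᶜ))
    (hJp : MulAction.IsPreprimitive ↥(fixingSubgroup G Γᶜ) ↥(SubMulAction.ofFixingSubgroup G Γᶜ)) :
    MulAction.IsMultiplyPretransitive G Ω (Nat.card Ω - Γ.ncard + 1) := by
  classical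
  obtain ⟨γ, γ', hγ, hγ', hne⟩ := (Set.one_lt_ncard_iff (Set.toFinite Γ)).1 hΓ1
  have hmem : ∀ x, x ∈ Γ → x ∈ SubMulAction.ofFixingSubgroup G Γᶜ := fun x hx => by
    rw [SubMulAction.mem_ofFixingSubgroup_iff]; exact fun h => h hx
  obtain ⟨h0, hh0⟩ := hJ.exists_smul_eq ⟨γ, hmem γ hγ⟩ ⟨γ', hmem γ' hγ'⟩
  have hh0' : (h0 : G) • γ = γ' := congrArg Subtype.val hh0
  have hHΓ : ∀ h ∈ fixingSubgroup G Γᶜ, ∀ x ∈ Γ, h • x ∈ Γ := by
    intro h hh x hx
    have h1 := ((⟨h, hh⟩ : fixingSubgroup G Γᶜ) •
      (⟨x, hmem x hx⟩ : SubMulAction.ofFixingSubgroup G Γᶜ)).2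
    rw [SubMulAction.mem_ofFixingSubgroup_iff] at h1
    by_contra h2
    exact h1 h2
  have h0ne : (h0 : G) ≠ 1 := by
    intro h
    rw [h, one_smul] at hh0'
    exact hne hh0'
  have htop : (⊤ : Subgroup G) ≠ ⊥ := by
    intro h
    have h1 : (h0 : G) ∈ (⊥ : Subgroup G) := h ▸ mem_top _
    exact h0ne (mem_bot.1 h1)
  have htrans : IsPretransitive G Ω := by
    have h1 := hqp ⊤ inferInstance htop
    exact ⟨fun x y => by obtain ⟨g, hg⟩ := h1.exists_smul_eq x y; exact ⟨g, hg⟩⟩
  have hprim : IsPreprimitive G Ω := by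
    refine { toIsPretransitive := htrans, isTrivialBlock_of_isBlock := fun {B} hB => ?_ }
    by_cases hBs : B.Subsingleton
    · exact Or.inl hBs
    right
    obtain ⟨a, ha, a', ha', haa'⟩ := Set.not_subsingleton_iff.1 hBs
    obtain ⟨g, hg⟩ := exists_smul_eq G a γ
    have hB' : IsBlock G (g • B) := hB.translate g
    have hγB : γ ∈ g • B := hg ▸ Set.smul_mem_smul_set ha
    have hδB : g • a' ∈ g • B := Set.smul_mem_smul_set ha'
    have hδγ : g • a' ≠ γ := by
      rw [← hg]
      intro h
      exact haa' (smul_left_cancel g h).symm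
    have hblk : IsBlock (fixingSubgroup G Γᶜ)
        (Subtype.val ⁻¹' (g • B) : Set (SubMulAction.ofFixingSubgroup G Γᶜ)) :=
      (hB'.subgroup (H := fixingSubgroup G Γᶜ)).subtype_val_preimage
    have huniv : g • B = Set.univ := by
      rcases hJp.isTrivialBlock_of_isBlock hblk with hsub | huniv
      · -- the block meets Γ in one point
        exfalso
        have hδ : g • a' ∉ Γ := by
          intro hδ
          have := hsub (x := ⟨g • a', hmem _ hδ⟩) hδB (y := ⟨γ, hmem γ hγ⟩) hγB
          exact hδγ (congrArg Subtype.val this)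
        have hfix : (h0 : G) • (g • a') = g • a' := (mem_fixingSubgroup_iff G).1 h0.2 _ hδ
        have heq : (h0 : G) • (g • B) = g • B :=
          hB'.smul_eq_of_mem hδB (by rw [hfix]; exact hδB)
        have hγ'B : γ' ∈ g • B := by
          rw [← heq, ← hh0']
          exact Set.smul_mem_smul_set hγB
        have := hsub (x := ⟨γ', hmem _ hγ'⟩) hγ'B (y := ⟨γ, hmem γ hγ⟩) hγB
        exact hne (congrArg Subtype.val this).symm
      · -- Γ ⊆ g • B
        have hΓB : Γ ⊆ g • B := by
          intro x hx
          have : (⟨x, hmem x hx⟩ : SubMulAction.ofFixingSubgroup G Γᶜ) ∈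
            (Subtype.val ⁻¹' (g • B) : Set (SubMulAction.ofFixingSubgroup G Γᶜ)) := by
            rw [huniv]; trivial
          exact this
        have hle : fixingSubgroup G Γᶜ ≤ (stabilizer G (g • B)).normalCore := by
          intro h hh b
          rw [mem_stabilizer_iff, mul_smul, mul_smul, smul_eq_iff_eq_inv_smul]
          have hB'' : IsBlock G (b⁻¹ • (g • B)) := hB'.translate b⁻¹
          by_cases hcase : ∃ x ∈ b⁻¹ • (g • B), x ∉ Γ
          · obtain ⟨x, hx, hxΓ⟩ := hcase
            have hfix : h • x = x := (mem_fixingSubgroup_iff G).1 hh _ hxΓ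
            exact hB''.smul_eq_of_mem hx (by rw [hfix]; exact hx)
          · push Not at hcase
            have hsub : b⁻¹ • (g • B) ⊆ (1 : G) • (g • B) := by
              rw [one_smul]
              exact fun x hx => hΓB (hcase x hx)
            have heq := hB'.smul_eq_smul_of_subset hsub
            rw [one_smul] at heq
            rw [heq]
            exact hB'.smul_eq_of_mem hγB (hΓB (hHΓ h hh γ hγ))
        have hKne : (stabilizer G (g • B)).normalCore ≠ ⊥ := by
          intro h
          have h1 := hle h0.2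
          rw [h, mem_bot] at h1
          exact h0ne h1
        have hKt := hqp _ inferInstance hKne
        rw [Set.eq_univ_iff_forall]
        intro x
        obtain ⟨k, hk⟩ := hKt.exists_smul_eq γ x
        have hk1 : (k : G) • (g • B) = g • B := normalCore_le _ k.2
        have hk2 : (k : G) • γ = x := hk
        rw [← hk1, ← hk2]
        exact Set.smul_mem_smul_set hγB
    have : B = g⁻¹ • (g • B) := (inv_smul_smul g B).symm
    rw [this, huniv, Set.smul_set_univ]
  have hs : (Γᶜ).ncard = (Nat.card Ω - Γ.ncard - 1) + 1 := by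
    rw [Set.ncard_compl]; omega
  have h1 := hprim.isMultiplyPreprimitive hs (by omega) hJp
  have h2 := IsMultiplyPreprimitive.isMultiplyPretransitive G Ω (Nat.card Ω - Γ.ncard - 1 + 2)
  have h3 : Nat.card Ω - Γ.ncard - 1 + 2 = Nat.card Ω - Γ.ncard + 1 := by omega
  rwa [h3] at h2

end Cfsg.Agent.S3619
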