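import Cfsg.Statements.S3633
-- import your own Cfsg.Agent.* helpers here
import Cfsg.Agent.Lib.Helper20.PrimeGraphSolv

set_option autoImplicit false
open Cfsg

namespace Cfsg.Agent.S3633

open Cfsg.Agent.Lib.Helper20 Subgroup

/-- Let G be a finite group and ρ a set of at least three prime divisors of the order of G that are pairwise non-adjacent in the prime graph (no element of order rs for distinct r, s ∈ ρ). Then at most one prime of ρ divides the order of any given solvable normal subgroup of G; in particular G is not solvable. -/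
theorem result {G : Type*} [Group G] [Finite G] (ρ : Finset ℕ) (hρ : 3 ≤ ρ.card) (hc : ((∀ r ∈ ρ, r.Prime ∧ r ∣ Nat.card G) ∧ (∀ r ∈ ρ, ∀ s ∈ ρ, r ≠ s → ¬ ∃ x : G, orderOf x = r * s)))
    (K : Subgroup G) [K.Normal] (hK : Group.IsSolvable ↥K) :
    (∀ r ∈ ρ, ∀ s ∈ ρ, r ∣ Nat.card ↥K → s ∣ Nat.card ↥K → r = s) ∧ ¬ Group.IsSolvable G := by
  classical
  have partA : ∀ (K : Subgroup G) [K.Normal], Group.IsSolvable K → ∀ r ∈ ρ, ∀ s ∈ ρ,
      r ∣ Nat.card K → s ∣ Nat.card K → r = s := by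
    intro K _ hK r hr s hs hrK hsK
    by_contra hrs
    obtain ⟨K₁, hK₁n, hK₁K, p₁, hp₁, hp₁p, hp₁d, hp₁u⟩ :=
      exists_normal_one_prime K hK ρ ⟨r, hr, (hc.1 r hr).1, hrK⟩
    have hKbn : (K.map (QuotientGroup.mk' K₁)).Normal :=
      Normal.map inferInstance _ (QuotientGroup.mk'_surjective K₁)
    have hKbs : Group.IsSolvable (K.map (QuotientGroup.mk' K₁)) :=
      Group.isSolvable_of_surjective ((QuotientGroup.mk' K₁).subgroupMap_surjective K)
    have hcardK : Nat.card K = Nat.card K₁ * Nat.card (K.map (QuotientGroup.mk' K₁)) := by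
      have h1 : (K.map (QuotientGroup.mk' K₁)).comap (QuotientGroup.mk' K₁) = K := by
        rw [comap_map_eq, QuotientGroup.ker_mk']
        exact sup_eq_left.2 hK₁K
      have h2 := QuotientGroup.card_preimage_mk K₁ ((K.map (QuotientGroup.mk' K₁) : Subgroup (G ⧸ K₁)) : Set (G ⧸ K₁))
      have h3 : Nat.card ((K.map (QuotientGroup.mk' K₁)).comap (QuotientGroup.mk' K₁))
        = Nat.card K₁ * Nat.card (K.map (QuotientGroup.mk' K₁)) := h2
      rwa [h1] at h3
    have haux : ∀ u ∈ ρ, u ≠ p₁ → u ∣ Nat.card K → u ∣ Nat.card (K.map (QuotientGroup.mk' K₁)) := by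
      intro u hu hup hud
      rw [hcardK] at hud
      rcases ((hc.1 u hu).1.dvd_mul).1 hud with h | h
      · exact absurd (hp₁u u hu (hc.1 u hu).1 h) hup
      · exact h
    have hex2 : ∃ u ∈ ρ.erase p₁, u.Prime ∧ u ∣ Nat.card (K.map (QuotientGroup.mk' K₁)) := by
      by_cases h : r = p₁
      · have hsp : s ≠ p₁ := fun h' => hrs (h.trans h'.symm)
        exact ⟨s, Finset.mem_erase.2 ⟨hsp, hs⟩, (hc.1 s hs).1, haux s hs hsp hsK⟩
      · exact ⟨r, Finset.mem_erase.2 ⟨h, hr⟩, (hc.1 r hr).1, haux r hr h hrK⟩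
    obtain ⟨Mb, hMn, hMK, p₂, hp₂, hp₂p, hp₂d, hp₂u⟩ :=
      exists_normal_one_prime _ hKbs (ρ.erase p₁) hex2
    have hMn' : (Mb.comap (QuotientGroup.mk' K₁)).Normal := hMn.comap _
    have hcardM : Nat.card (Mb.comap (QuotientGroup.mk' K₁)) = Nat.card K₁ * Nat.card Mb :=
      QuotientGroup.card_preimage_mk K₁ (Mb : Set (G ⧸ K₁))
    have hK₁M : K₁ ≤ Mb.comap (QuotientGroup.mk' K₁) := by
      intro x hx
      rw [mem_comap]
      have : QuotientGroup.mk' K₁ x = 1 := (QuotientGroup.eq_one_iff x).mpr hx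
      rw [this]
      exact one_mem _
    have hcard3 : 0 < ((ρ.erase p₁).erase p₂).card := by
      rw [Finset.card_erase_of_mem hp₂, Finset.card_erase_of_mem hp₁]
      omega
    obtain ⟨p₃, hp₃⟩ := Finset.card_pos.1 hcard3
    have hp₃2 : p₃ ≠ p₂ := (Finset.mem_erase.1 hp₃).1
    have hp₃' : p₃ ∈ ρ.erase p₁ := (Finset.mem_erase.1 hp₃).2
    have hp₃1 : p₃ ≠ p₁ := (Finset.mem_erase.1 hp₃').1
    have hp₃ρ : p₃ ∈ ρ := (Finset.mem_erase.1 hp₃').2
    have hp₂1 : p₂ ≠ p₁ := (Finset.mem_erase.1 hp₂).1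
    have hp₂ρ : p₂ ∈ ρ := (Finset.mem_erase.1 hp₂).2
    have hp₃p := (hc.1 p₃ hp₃ρ).1
    have hnd : ¬ p₃ ∣ Nat.card (Mb.comap (QuotientGroup.mk' K₁)) := by
      rw [hcardM]
      intro h
      rcases (hp₃p.dvd_mul).1 h with h | h
      · exact hp₃1 (hp₁u p₃ hp₃ρ hp₃p h)
      · exact hp₃2 (hp₂u p₃ hp₃' hp₃p h)
    have hd3 : p₃ ∣ Nat.card G / Nat.card (Mb.comap (QuotientGroup.mk' K₁)) := by
      have h1 := (Mb.comap (QuotientGroup.mk' K₁)).index_mul_card
      have h2 : Nat.card G / Nat.card (Mb.comap (QuotientGroup.mk' K₁))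
          = (Mb.comap (QuotientGroup.mk' K₁)).index := by
        rw [← h1]
        exact Nat.mul_div_cancel _ Nat.card_pos
      rw [h2]
      have h3 := (hc.1 p₃ hp₃ρ).2
      rw [← h1] at h3
      rcases (hp₃p.dvd_mul).1 h3 with h | h
      · exact h
      · exact absurd h hnd
    have hd2 : p₂ ∣ Nat.card (Mb.comap (QuotientGroup.mk' K₁)) / Nat.card K₁ := by
      rw [hcardM, Nat.mul_div_cancel_left _ Nat.card_pos]
      exact hp₂d
    rcases adj_of_normal_series K₁ (Mb.comap (QuotientGroup.mk' K₁)) hK₁M p₁ p₂ p₃ hp₁p hp₂p hp₃p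
      hp₂1.symm hp₃1.symm hp₃2.symm hp₁d hd2 hd3 with h | h | h
    · exact hc.2 p₁ hp₁ p₂ hp₂ρ hp₂1.symm h
    · exact hc.2 p₁ hp₁ p₃ hp₃ρ hp₃1.symm h
    · exact hc.2 p₂ hp₂ρ p₃ hp₃ρ hp₃2.symm h
  refine ⟨partA K hK, ?_⟩
  intro hG
  obtain ⟨r, hr, s, hs, hrs⟩ := Finset.one_lt_card.1 (show 1 < ρ.card by omega)
  apply hrs
  apply partA ⊤ inferInstance r hr s hs
  · rw [card_top]; exact (hc.1 r hr).2
  · rw [card_top]; exact (hc.1 s hs).2

end Cfsg.Agent.S3633
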