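import Cfsg.Statements.S3680
-- import your own Cfsg.Agent.* helpers here
import Cfsg.Agent.S0721

set_option autoImplicit false
open Cfsg

namespace Cfsg.Agent.S3680


/-- minimal normal subgroup -/
def IsMin {G : Type*} [Group G] (V : Subgroup G) : Prop :=
  V.Normal ∧ V ≠ ⊥ ∧ ∀ M : Subgroup G, M.Normal → M ≤ V → M = ⊥ ∨ M = V

theorem exists_min {G : Type*} [Group G] [Finite G] (K : Subgroup G) (hK : K.Normal)
    (hne : K ≠ ⊥) : ∃ V : Subgroup G, IsMin V ∧ V ≤ K := by
  obtain ⟨L, ⟨hLn, hLne, hLK⟩, hLmin⟩ := Set.exists_min_image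
    {M : Subgroup G | M.Normal ∧ M ≠ ⊥ ∧ M ≤ K} (fun M => Nat.card M) (Set.toFinite _)
    ⟨K, hK, hne, le_rfl⟩
  refine ⟨L, ⟨hLn, hLne, fun M hM hML => ?_⟩, hLK⟩
  by_cases h0 : M = ⊥
  · exact Or.inl h0
  · exact Or.inr (Subgroup.eq_of_le_of_card_ge hML (hLmin M ⟨hM, h0, hML.trans hLK⟩))

/-- `(α ⊕ β → T) ≃* (α → T) × (β → T)` -/
def sumArrowMulEquiv (α β T : Type*) [Group T] : (α ⊕ β → T) ≃* (α → T) × (β → T) :=
  { Equiv.sumArrowEquivProdArrow α β T with map_mul' := fun _ _ => rfl }

theorem min_le_centralizer {G : Type*} [Group G] {M V : Subgroup G} (hM : IsMin M) (hV : IsMin V)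
    (hne : V ≠ M) : V ≤ Subgroup.centralizer (M : Set G) := by
  have hMn := hM.1
  have hVn := hV.1
  have hdis : V ⊓ M = ⊥ := by
    rcases hM.2.2 (V ⊓ M) inferInstance inf_le_right with h0 | h0
    · exact h0
    · exfalso
      have hMV : M ≤ V := by rw [← h0]; exact inf_le_left
      rcases hV.2.2 M hMn hMV with h1 | h1
      · exact hM.2.1 h1
      · exact hne h1.symm
  intro v hv
  rw [Subgroup.mem_centralizer_iff]
  intro m hm
  exact (Subgroup.commute_of_normal_of_disjoint V M hVn hMn (disjoint_iff.mpr hdis) v m hv hm).eq.symm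

/-- The socle of a finite primitive permutation group. Let a finite group G act faithfully and primitively on a set Ω, and let N be the subgroup generated by the minimal normal subgroups of G. Then either N is an elementary abelian p-group for some prime p and acts regularly on Ω (transitively with trivial point stabilizers), or N is isomorphic to a direct product of m ≥ 1 copies of a non-abelian simple group. -/
theorem result {G Ω : Type*} [Group G] [Finite G] [MulAction G Ω] [FaithfulSMul G Ω] [Finite Ω]
    (hprim : MulAction.IsPreprimitive G Ω) (N : Subgroup G)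
    (hN : N = sSup {V : Subgroup G | V.Normal ∧ V ≠ ⊥ ∧ ∀ M : Subgroup G, M.Normal → M ≤ V → M = ⊥ ∨ M = V}) :
    (∃ p : ℕ, p.Prime ∧ IsMulCommutative N ∧ (∀ x : N, x ^ p = 1) ∧
      MulAction.IsPretransitive N Ω ∧ ∀ ω : Ω, MulAction.stabilizer N ω = ⊥) ∨
    (∃ (T : Type) (_ : Group T) (m : ℕ), 1 ≤ m ∧ IsSimpleGroup T ∧ ¬ IsMulCommutative T ∧ Nonempty (N ≃* (Fin m → T))) := by
  classical
  by_cases hG : Subsingleton G
  · left
    refine ⟨2, Nat.prime_two, ⟨⟨fun a b => Subsingleton.elim _ _⟩⟩, fun x => Subsingleton.elim _ _,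
      ?_, fun ω => Subsingleton.elim _ _⟩
    have := hprim.toIsPretransitive
    refine ⟨fun x y => ⟨1, ?_⟩⟩
    obtain ⟨g, hg⟩ := MulAction.exists_smul_eq G x y
    rw [one_smul, ← hg, Subsingleton.elim g 1, one_smul]
  have hGnt : Nontrivial G := not_subsingleton_iff_nontrivial.mp hG
  change N = sSup {V : Subgroup G | IsMin V} at hN
  -- a point
  obtain ⟨ω₀⟩ : Nonempty Ω := by
    by_contra hemp
    rw [not_nonempty_iff] at hemp
    apply hG
    refine ⟨fun a b => FaithfulSMul.eq_of_smul_eq_smul (α := Ω) (fun x => hemp.elim x)⟩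
  have semireg : ∀ (M : Subgroup G), MulAction.IsPretransitive M Ω →
      ∀ c ∈ Subgroup.centralizer (M : Set G), ∀ ω : Ω, c • ω = ω → c = 1 := by
    intro M hM c hc ω hω
    apply FaithfulSMul.eq_of_smul_eq_smul (α := Ω)
    intro a
    obtain ⟨m, hm⟩ := MulAction.exists_smul_eq M ω a
    have hm' : (m : G) • ω = a := hm
    rw [one_smul, ← hm', smul_smul, ← (Subgroup.mem_centralizer_iff.mp hc m m.2), ← smul_smul, hω]
  have trans : ∀ M : Subgroup G, M.Normal → M ≠ ⊥ → MulAction.IsPretransitive M Ω := by
    intro M hM hne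
    apply MulAction.IsQuasiPreprimitive.isPretransitive_of_normal (G := G)
    intro hfix
    apply hne
    rw [eq_bot_iff]
    intro m hm
    rw [Subgroup.mem_bot]
    apply FaithfulSMul.eq_of_smul_eq_smul (α := Ω)
    intro a
    have ha : a ∈ MulAction.fixedPoints M Ω := by rw [hfix]; trivial
    exact (ha ⟨m, hm⟩).trans (one_smul _ _).symm
  have eqlem : ∀ A B : Subgroup G, A ≤ B → MulAction.IsPretransitive A Ω →
      (∀ b ∈ B, ∀ ω : Ω, b • ω = ω → b = 1) → A = B := by
    intro A B hAB hA hB
    apply le_antisymm hAB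
    intro b hb
    obtain ⟨a, ha⟩ := MulAction.exists_smul_eq A ω₀ (b • ω₀)
    have ha' : (a : G) • ω₀ = b • ω₀ := ha
    have h1 : ((a : G)⁻¹ * b) = 1 := by
      apply hB _ (B.mul_mem (B.inv_mem (hAB a.2)) hb) ω₀
      rw [mul_smul, ← ha', inv_smul_smul]
    have h2 : b = a := by
      rw [inv_mul_eq_one] at h1; exact h1.symm
    rw [h2]; exact a.2
  obtain ⟨M, hMmin, -⟩ := exists_min (⊤ : Subgroup G) inferInstance top_ne_bot
  have hMn : M.Normal := hMmin.1
  have hMt := trans M hMn hMmin.2.1
  have hCn : (Subgroup.centralizer (M : Set G)).Normal := inferInstance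
  have hCs := semireg M hMt
  by_cases hMc : ∀ a ∈ M, ∀ b ∈ M, a * b = b * a
  · -- abelian case
    left
    have hMC : M ≤ Subgroup.centralizer (M : Set G) := by
      intro a ha
      rw [Subgroup.mem_centralizer_iff]
      intro b hb
      exact hMc b hb a ha
    have hMeq : M = Subgroup.centralizer (M : Set G) := eqlem _ _ hMC hMt hCs
    have hNM : N = M := by
      rw [hN]
      apply le_antisymm
      · apply sSup_le
        intro V hV
        by_cases hVM : V = M
        · rw [hVM]
        · have := min_le_centralizer hMmin hV hVM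
          rwa [← hMeq] at this
      · exact le_sSup hMmin
    subst hNM
    have hNnt : Nontrivial N := (Subgroup.nontrivial_iff_ne_bot N).mpr hMmin.2.1
    obtain ⟨p, hp, hpd⟩ := Nat.exists_prime_and_dvd (Finite.one_lt_card (α := N)).ne'
    have := Fact.mk hp
    obtain ⟨y, hy⟩ := exists_prime_orderOf_dvd_card' (G := N) p hpd
    let K : Subgroup G :=
      { carrier := {x | x ∈ N ∧ x ^ p = 1}
        one_mem' := ⟨N.one_mem, one_pow _⟩
        mul_mem' := by
          rintro a b ⟨ha, ha'⟩ ⟨hb, hb'⟩
          refine ⟨N.mul_mem ha hb, ?_⟩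
          rw [(show Commute a b from hMc a ha b hb).mul_pow, ha', hb', one_mul]
        inv_mem' := by
          rintro a ⟨ha, ha'⟩
          exact ⟨N.inv_mem ha, by rw [inv_pow, ha', inv_one]⟩ }
    have hKn : K.Normal := by
      refine ⟨?_⟩
      rintro a ⟨ha, ha'⟩ g
      exact ⟨hMn.conj_mem a ha g, by rw [conj_pow, ha', mul_one, mul_inv_cancel]⟩
    have hKN : K = N := by
      rcases hMmin.2.2 K hKn (fun a ha => ha.1) with h0 | h0
      · exfalso
        have hyK : (y : G) ∈ K := by
          refine ⟨y.2, ?_⟩
          have : y ^ p = 1 := by rw [← hy]; exact pow_orderOf_eq_one y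
          have h2 := congrArg Subtype.val this
          simpa using h2
        rw [h0, Subgroup.mem_bot] at hyK
        have : y = 1 := Subtype.ext hyK
        rw [this, orderOf_one] at hy
        exact hp.one_lt.ne hy
      · exact h0
    refine ⟨p, hp, ⟨⟨fun a b => Subtype.ext (hMc a a.2 b b.2)⟩⟩, ?_, hMt, ?_⟩
    · intro x
      have : (x : G) ∈ K := by rw [hKN]; exact x.2
      exact Subtype.ext (by simpa using this.2)
    · intro ω
      rw [eq_bot_iff]
      intro x hx
      rw [Subgroup.mem_bot]
      have hx' : (x : G) • ω = ω := hx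
      exact Subtype.ext (hCs x (hMC x.2) ω hx')
  · -- nonabelian case
    right
    have hdis : M ⊓ Subgroup.centralizer (M : Set G) = ⊥ := by
      rcases hMmin.2.2 (M ⊓ Subgroup.centralizer (M : Set G)) inferInstance inf_le_left with h0 | h0
      · exact h0
      · exfalso
        apply hMc
        intro a ha b hb
        have hb' : b ∈ Subgroup.centralizer (M : Set G) := by
          have : b ∈ M ⊓ Subgroup.centralizer (M : Set G) := by rw [h0]; exact hb
          exact this.2
        exact Subgroup.mem_centralizer_iff.mp hb' a ha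
    obtain ⟨T, iT, k, hT, hk, ⟨e⟩⟩ := Cfsg.Agent.S0721.result M hMmin.2.1 hMmin.2.2
    have hTnc : ¬ IsMulCommutative T := by
      intro hTc
      apply hMc
      intro a ha b hb
      have h1 : e ⟨a, ha⟩ * e ⟨b, hb⟩ = e ⟨b, hb⟩ * e ⟨a, ha⟩ := by
        funext i
        exact hTc.is_comm.comm _ _
      rw [← map_mul, ← map_mul] at h1
      exact congrArg Subtype.val (e.injective h1)
    by_cases hC : Subgroup.centralizer (M : Set G) = ⊥
    · have hNM : N = M := by
        rw [hN]
        apply le_antisymm
        · apply sSup_le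
          intro V hV
          by_cases hVM : V = M
          · rw [hVM]
          · have := min_le_centralizer hMmin hV hVM
            rw [hC] at this
            exact this.trans bot_le
        · exact le_sSup hMmin
      exact ⟨T, iT, k, hk, hT, hTnc, ⟨(MulEquiv.subgroupCongr hNM).trans e⟩⟩
    · have hCt := trans _ hCn hC
      have hMs : ∀ b ∈ M, ∀ ω : Ω, b • ω = ω → b = 1 := by
        intro b hb ω hω
        apply semireg _ hCt b _ ω hω
        rw [Subgroup.mem_centralizer_iff]
        intro c hc
        exact (Subgroup.mem_centralizer_iff.mp hc b hb).symm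
      have hVC : ∀ V : Subgroup G, IsMin V → V ≠ M → V = Subgroup.centralizer (M : Set G) := by
        intro V hV hVM
        exact eqlem _ _ (min_le_centralizer hMmin hV hVM) (trans V hV.1 hV.2.1) hCs
      have hCmin : IsMin (Subgroup.centralizer (M : Set G)) := by
        obtain ⟨V, hV, hVle⟩ := exists_min _ hCn hC
        have hVM : V ≠ M := by
          intro h
          apply hMmin.2.1
          rw [eq_bot_iff, ← hdis]
          exact le_inf le_rfl (h ▸ hVle)
        rw [← hVC V hV hVM]; exact hV
      have hNM : N = M ⊔ Subgroup.centralizer (M : Set G) := by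
        rw [hN]
        apply le_antisymm
        · apply sSup_le
          intro V hV
          by_cases hVM : V = M
          · rw [hVM]; exact le_sup_left
          · rw [hVC V hV hVM]; exact le_sup_right
        · exact sup_le (le_sSup hMmin) (le_sSup hCmin)
      -- the isomorphism M ≃* C
      have hex : ∀ m : M, ∃ c : Subgroup.centralizer (M : Set G), (c : G) • ω₀ = (m : G)⁻¹ • ω₀ := by
        intro m
        obtain ⟨c, hc⟩ := MulAction.exists_smul_eq (Subgroup.centralizer (M : Set G)) ω₀
          ((m : G)⁻¹ • ω₀)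
        exact ⟨c, hc⟩
      choose ψ hψ using hex
      have huniq : ∀ c c' : Subgroup.centralizer (M : Set G), (c : G) • ω₀ = (c' : G) • ω₀ →
          c = c' := by
        intro c c' h
        have h1 : ((c' : G)⁻¹ * c) = 1 := by
          apply hCs _ (Subgroup.mul_mem _ (Subgroup.inv_mem _ c'.2) c.2) ω₀
          rw [mul_smul, h, inv_smul_smul]
        rw [inv_mul_eq_one] at h1
        exact Subtype.ext h1.symm
      have hmul : ∀ a b : M, ψ (a * b) = ψ a * ψ b := by
        intro a b
        apply huniq
        rw [hψ]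
        push_cast
        rw [mul_inv_rev, mul_smul, ← hψ a, mul_smul, hψ b, smul_smul, smul_smul]
        congr 1
        exact Subgroup.mem_centralizer_iff.mp (ψ a).2 _ (M.inv_mem b.2)
      let Ψ : M →* Subgroup.centralizer (M : Set G) := MonoidHom.mk' ψ hmul
      have hbij : Function.Bijective Ψ := by
        constructor
        · rw [injective_iff_map_eq_one]
          intro a ha
          have h1 : ψ a = 1 := ha
          have h2 := hψ a
          rw [h1] at h2
          simp only [Subgroup.coe_one, one_smul] at h2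
          have h3 := hMs _ (M.inv_mem a.2) ω₀ h2.symm
          rw [inv_eq_one] at h3
          exact Subtype.ext h3
        · intro c
          obtain ⟨m, hm⟩ := MulAction.exists_smul_eq M ω₀ ((c : G) • ω₀)
          have hm' : (m : G) • ω₀ = (c : G) • ω₀ := hm
          refine ⟨m⁻¹, ?_⟩
          apply huniq
          change ((ψ m⁻¹ : _) : G) • ω₀ = _
          rw [hψ]
          simpa using hm'
      let E : M ≃* Subgroup.centralizer (M : Set G) := MulEquiv.ofBijective Ψ hbij
      obtain ⟨e1⟩ := Cfsg.Agent.Lib.Helper20.nonempty_sup_mulEquiv_prod M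
        (Subgroup.centralizer (M : Set G)) (disjoint_iff.mpr hdis)
      refine ⟨T, iT, k + k, by omega, hT, hTnc, ⟨?_⟩⟩
      exact (((MulEquiv.subgroupCongr hNM).trans e1).trans
        (MulEquiv.prodCongr e (E.symm.trans e))).trans
        ((sumArrowMulEquiv (Fin k) (Fin k) T).symm.trans
          (MulEquiv.arrowCongr finSumFinEquiv (MulEquiv.refl T)))

end Cfsg.Agent.S3680
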