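import Cfsg.Statements.S3683
-- import your own Cfsg.Agent.* helpers here

set_option autoImplicit false
open Cfsg

namespace Cfsg.Agent.S3683

open MulAction Subgroup

/-- Let a finite group G act faithfully and primitively on a set Ω, and suppose the stabilizer of a point a fixes a second point b ≠ a (a suborbit of length 1 other than {a}). Then the stabilizer of a is trivial and G is cyclic of prime order. -/
theorem result {G Ω : Type*} [Group G] [Finite G] [MulAction G Ω] [FaithfulSMul G Ω] [Finite Ω]
    (hprim : MulAction.IsPreprimitive G Ω) (a b : Ω) (hab : a ≠ b) (hfix : ∀ g : G, g • a = a → g • b = b) :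
    MulAction.stabilizer G a = ⊥ ∧ IsCyclic G ∧ (Nat.card G).Prime := by
  classical
  have := hprim
  have : Nontrivial Ω := ⟨a, b, hab⟩
  have hca : IsCoatom (stabilizer G a) := IsPreprimitive.isCoatom_stabilizer_of_isPreprimitive G a
  have hcb : IsCoatom (stabilizer G b) := IsPreprimitive.isCoatom_stabilizer_of_isPreprimitive G b
  have hle : stabilizer G a ≤ stabilizer G b := fun g hg => hfix g hg
  have heq : stabilizer G b = stabilizer G a := (hca.le_iff_eq hcb.1).1 hle
  obtain ⟨g, hg⟩ := exists_smul_eq G a b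
  have hgN : g ∈ normalizer (stabilizer G a : Set G) := by
    rw [mem_normalizer_iff]
    intro h
    have h1 : g * h * g⁻¹ ∈ stabilizer G a ↔ g * h * g⁻¹ ∈ stabilizer G b := by rw [heq]
    rw [h1, mem_stabilizer_iff, mem_stabilizer_iff, ← hg, mul_smul, mul_smul, inv_smul_smul,
      smul_left_cancel_iff]
  have hgna : g ∉ stabilizer G a := fun h => hab ((mem_stabilizer_iff.1 h).symm.trans hg)
  have hNtop : normalizer (stabilizer G a : Set G) = ⊤ := by
    by_contra hne
    have h1 := (hca.le_iff_eq hne).1 le_normalizer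
    exact hgna (h1 ▸ hgN)
  have hnormal : (stabilizer G a).Normal := normalizer_eq_top_iff.1 hNtop
  have hbot : stabilizer G a = ⊥ := by
    rw [eq_bot_iff]
    intro h hh
    rw [mem_bot]
    apply FaithfulSMul.eq_of_smul_eq_smul (α := Ω)
    intro c
    obtain ⟨k, rfl⟩ := exists_smul_eq G a c
    have h1 := hnormal.conj_mem h hh k⁻¹
    rw [mem_stabilizer_iff, mul_smul, mul_smul, inv_inv, inv_smul_eq_iff] at h1
    rw [one_smul, h1]
  refine ⟨hbot, ?_⟩
  rw [hbot] at hca
  have hne1 : Nat.card G ≠ 1 := by
    intro h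
    have := (Nat.card_eq_one_iff_unique.1 h).1
    apply hca.1
    ext x
    simp [Subsingleton.elim x 1]
  obtain ⟨p, hp, hpd⟩ := Nat.exists_prime_and_dvd hne1
  have := Fact.mk hp
  obtain ⟨x, hx⟩ := exists_prime_orderOf_dvd_card' p hpd
  have hz : zpowers x = ⊤ := by
    by_contra hne
    have h1 := (hca.le_iff_eq hne).1 bot_le
    rw [zpowers_eq_bot] at h1
    rw [h1, orderOf_one] at hx
    exact hp.one_lt.ne hx
  refine ⟨⟨x, fun y => ?_⟩, ?_⟩
  · have : y ∈ zpowers x := hz ▸ mem_top y
    exact this
  · rw [← card_top, ← hz, Nat.card_zpowers, hx]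
    exact hp

end Cfsg.Agent.S3683
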