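import Cfsg.Statements.S3684
import Mathlib
import Cfsg.Agent.S0206

set_option autoImplicit false
open Cfsg

namespace Cfsg.Agent.S3684

section aux

theorem mem_normalizer_of_inv {G : Type*} [Group G] (g c : G) (h : g * c * g⁻¹ = c⁻¹) :
    g ∈ Subgroup.normalizer ((Subgroup.zpowers c : Subgroup G) : Set G) := by
  have h' : g⁻¹ * c * g = c⁻¹ := by
    have h1 : c = g⁻¹ * c⁻¹ * g := by rw [← h]; group
    have h2 := congrArg (fun z => z⁻¹) h1
    simp only [mul_inv_rev, inv_inv] at h2
    rw [h2]; group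
  rw [Subgroup.mem_normalizer_iff]
  intro x
  constructor
  · intro hx
    obtain ⟨k, rfl⟩ := Subgroup.mem_zpowers_iff.1 hx
    rw [← conj_zpow, h]
    exact Subgroup.zpow_mem _ (Subgroup.inv_mem _ (Subgroup.mem_zpowers c)) k
  · intro hx
    obtain ⟨k, hk⟩ := Subgroup.mem_zpowers_iff.1 hx
    have : x = (g⁻¹ * c * g) ^ k := by
      have h1 : g⁻¹ * c * g = g⁻¹ * c * (g⁻¹)⁻¹ := by rw [inv_inv]
      rw [h1, conj_zpow, hk]; group
    rw [this, h']
    exact Subgroup.zpow_mem _ (Subgroup.inv_mem _ (Subgroup.mem_zpowers c)) k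

end aux

/-- Let a finite group G act faithfully and primitively on a set Ω, and suppose the stabilizer of a point a has an orbit of length 2. Then the stabilizer of a has order 2 and G is isomorphic to the dihedral group of order 2p for some prime p. -/
theorem result {G Ω : Type*} [Group G] [Finite G] [MulAction G Ω] [FaithfulSMul G Ω] [Finite Ω]
    (hprim : MulAction.IsPreprimitive G Ω) (a b : Ω) (h2 : Nat.card (MulAction.orbit (MulAction.stabilizer G a) b) = 2) :
    Nat.card (MulAction.stabilizer G a) = 2 ∧ ∃ p : ℕ, p.Prime ∧ Nonempty (G ≃* DihedralGroup p) := by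
  classical
  haveI := hprim.toIsPretransitive
  haveI : Fact (Nat.Prime 2) := ⟨Nat.prime_two⟩
  set A := MulAction.stabilizer G a with hA
  set B := MulAction.stabilizer G b with hB
  have hstab : MulAction.stabilizer (↥A) b = B.subgroupOf A := by
    ext x
    rw [MulAction.mem_stabilizer_iff, Subgroup.mem_subgroupOf, hB, MulAction.mem_stabilizer_iff]
    rfl
  have hBA : B.relIndex A = 2 := by
    have h1 := MulAction.index_stabilizer (↥A) b
    rw [hstab, ← Nat.card_coe_set_eq, h2] at h1
    exact h1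
  have hcA : Nat.card (A ⊓ B : Subgroup G) * 2 = Nat.card A := by
    have h1 := Subgroup.relIndex_mul_relIndex ⊥ (A ⊓ B) A bot_le inf_le_left
    rw [Subgroup.relIndex_bot_left, Subgroup.relIndex_bot_left, Subgroup.inf_relIndex_left,
      hBA] at h1
    exact h1
  have hAB : Nat.card A = Nat.card B := by
    have h1 := A.card_mul_index
    have h2' := B.card_mul_index
    rw [hA, MulAction.index_stabilizer_of_transitive G a] at h1
    rw [hB, MulAction.index_stabilizer_of_transitive G b] at h2'
    have hpos : 0 < Nat.card Ω := by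
      haveI : Nonempty Ω := ⟨a⟩
      exact Nat.card_pos
    exact Nat.eq_of_mul_eq_mul_right hpos (h1.trans h2'.symm)
  have hAB2 : A.relIndex B = 2 := by
    have h1 := Subgroup.relIndex_mul_relIndex ⊥ (A ⊓ B) B bot_le inf_le_right
    rw [Subgroup.relIndex_bot_left, Subgroup.relIndex_bot_left, Subgroup.inf_relIndex_right,
      ← hAB, ← hcA] at h1
    exact Nat.eq_of_mul_eq_mul_left Nat.card_pos h1
  have hnt : Nontrivial Ω := by
    refine ⟨a, b, fun hab => ?_⟩
    have : B.relIndex A = 1 := by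
      rw [hB, ← hab, ← hA]; exact Subgroup.relIndex_self A
    omega
  have hco : IsCoatom A := (MulAction.isCoatom_stabilizer_iff_preprimitive G a).2 hprim
  have hN1 : A ≤ Subgroup.normalizer ((A ⊓ B : Subgroup G) : Set G) := by
    rw [← Subgroup.normal_subgroupOf_iff_le_normalizer inf_le_left, Subgroup.inf_subgroupOf_left]
    exact Subgroup.normal_of_index_eq_two hBA
  have hN2 : B ≤ Subgroup.normalizer ((A ⊓ B : Subgroup G) : Set G) := by
    rw [← Subgroup.normal_subgroupOf_iff_le_normalizer inf_le_right, Subgroup.inf_subgroupOf_right]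
    exact Subgroup.normal_of_index_eq_two hAB2
  have hBnA : ¬ B ≤ A := by
    intro h
    have : A.relIndex B = 1 := Subgroup.relIndex_eq_one.2 h
    omega
  have hNtop : Subgroup.normalizer ((A ⊓ B : Subgroup G) : Set G) = ⊤ := by
    rcases eq_or_lt_of_le hN1 with h | h
    · exact absurd (h ▸ hN2) hBnA
    · exact hco.2 _ h
  have hKn : (A ⊓ B : Subgroup G).Normal := Subgroup.normalizer_eq_top_iff.1 hNtop
  have hK : (A ⊓ B : Subgroup G) = ⊥ := by
    rw [eq_bot_iff]
    intro k hk
    rw [Subgroup.mem_bot]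
    apply FaithfulSMul.eq_of_smul_eq_smul (α := Ω)
    intro x
    obtain ⟨g, rfl⟩ := MulAction.exists_smul_eq G a x
    have h1 : g⁻¹ * k * g⁻¹⁻¹ ∈ (A ⊓ B : Subgroup G) := hKn.conj_mem k hk g⁻¹
    have h2' : (g⁻¹ * k * g⁻¹⁻¹) • a = a := h1.1
    rw [one_smul]
    have h3 : k • g • a = g • ((g⁻¹ * k * g⁻¹⁻¹) • a) := by
      simp [mul_smul]
    rw [h3, h2']
  have hA2 : Nat.card A = 2 := by
    rw [← hcA, hK, Subgroup.card_bot]
  refine ⟨hA2, ?_⟩
  obtain ⟨s, hs⟩ := exists_prime_orderOf_dvd_card' (G := A) 2 (by rw [hA2])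
  obtain ⟨t, ht⟩ := exists_prime_orderOf_dvd_card' (G := B) 2 (by rw [← hAB, hA2])
  have hs2 : orderOf (s : G) = 2 := by rw [Subgroup.orderOf_coe]; exact hs
  have ht2 : orderOf (t : G) = 2 := by rw [Subgroup.orderOf_coe]; exact ht
  have ht1 : (t : G) ≠ 1 := by
    intro h
    rw [h, orderOf_one] at ht2
    omega
  have htA : (t : G) ∉ A := by
    intro h
    have : (t : G) ∈ (A ⊓ B : Subgroup G) := ⟨h, t.2⟩
    rw [hK, Subgroup.mem_bot] at this
    exact ht1 this
  have hst : (s : G) ≠ t := fun h => htA (h ▸ s.2)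
  have hzA : Subgroup.zpowers (s : G) = A :=
    Subgroup.eq_of_le_of_card_ge (by rw [Subgroup.zpowers_le]; exact s.2)
      (by rw [Nat.card_zpowers, hs2, hA2])
  have hC : Subgroup.closure ({(s : G), (t : G)} : Set G) = ⊤ := by
    have h1 : A ≤ Subgroup.closure ({(s : G), (t : G)} : Set G) := by
      have h0 : Subgroup.zpowers (s : G) ≤ Subgroup.closure ({(s : G), (t : G)} : Set G) := by
        rw [Subgroup.zpowers_le]
        exact Subgroup.subset_closure (by simp)
      exact hzA.symm.le.trans h0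
    rcases eq_or_lt_of_le h1 with h | h
    · exfalso
      apply htA
      rw [h]
      exact Subgroup.subset_closure (by simp)
    · exact hco.2 _ h
  obtain ⟨e⟩ := Cfsg.Agent.S0206.result (s : G) (t : G) hs2 ht2 hst
  set m := orderOf ((s : G) * (t : G)) with hm
  have eG : G ≃* DihedralGroup m :=
    (Subgroup.topEquiv.symm.trans (MulEquiv.subgroupCongr hC.symm)).trans e
  refine ⟨m, ?_, ⟨eG⟩⟩
  have hcG : Nat.card G = 2 * m := by
    rw [Nat.card_congr eG.toEquiv, DihedralGroup.nat_card]
  have hΩ : Nat.card Ω = m := by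
    have h1 := A.card_mul_index
    rw [hA2, hcG, hA, MulAction.index_stabilizer_of_transitive G a] at h1
    omega
  have hss : (s : G) * s = 1 := by
    rw [← pow_two, ← hs2]; exact pow_orderOf_eq_one _
  have htt : (t : G) * t = 1 := by
    rw [← pow_two, ← ht2]; exact pow_orderOf_eq_one _
  have hsi : (s : G)⁻¹ = s := inv_eq_of_mul_eq_one_left hss
  have hti : (t : G)⁻¹ = t := inv_eq_of_mul_eq_one_left htt
  have hm1 : m ≠ 1 := by
    intro h
    rw [hm, orderOf_eq_one_iff] at h
    apply hst
    rw [← hti]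
    exact eq_inv_of_mul_eq_one_left h
  obtain ⟨l, hl, hlm⟩ := Nat.exists_prime_and_dvd hm1
  have hm0 : m ≠ 0 := (orderOf_pos _).ne'
  set c := ((s : G) * (t : G)) ^ (m / l) with hc
  have hcl : orderOf c = l := orderOf_pow_orderOf_div hm0 hlm
  have hsc : (s : G) * c * (s : G)⁻¹ = c⁻¹ := by
    rw [hc, ← conj_pow, ← inv_pow]
    congr 1
    rw [mul_inv_rev, hsi, hti]
    calc (s : G) * (s * t) * s = (s * s) * t * s := by group
      _ = t * s := by rw [hss, one_mul]
  have htc : (t : G) * c * (t : G)⁻¹ = c⁻¹ := by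
    rw [hc, ← conj_pow, ← inv_pow]
    congr 1
    rw [mul_inv_rev, hsi, hti]
    calc (t : G) * (s * t) * t = t * s * (t * t) := by group
      _ = t * s := by rw [htt, mul_one]
  have hRn : (Subgroup.zpowers c).Normal := by
    rw [← Subgroup.normalizer_eq_top_iff, eq_top_iff, ← hC, Subgroup.closure_le]
    rintro x (rfl | rfl)
    · exact mem_normalizer_of_inv _ _ hsc
    · exact mem_normalizer_of_inv _ _ htc
  have hfp : MulAction.fixedPoints (↥(Subgroup.zpowers c)) Ω ≠ Set.univ := by
    intro h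
    have hc1 : c = 1 := by
      apply FaithfulSMul.eq_of_smul_eq_smul (α := Ω)
      intro x
      have hx : x ∈ MulAction.fixedPoints (↥(Subgroup.zpowers c)) Ω := h ▸ Set.mem_univ x
      rw [one_smul]
      exact hx ⟨c, Subgroup.mem_zpowers c⟩
    rw [hc1, orderOf_one] at hcl
    exact hl.one_lt.ne hcl
  haveI := MulAction.IsQuasiPreprimitive.isPretransitive_of_normal (G := G) hfp
  have h1 := MulAction.index_stabilizer_of_transitive (↥(Subgroup.zpowers c)) a
  have h2' := Subgroup.index_dvd_card (MulAction.stabilizer (↥(Subgroup.zpowers c)) a)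
  rw [h1, hΩ, Nat.card_zpowers, hcl] at h2'
  rcases (Nat.dvd_prime hl).1 h2' with h | h
  · exact absurd h hm1
  · rw [h]; exact hl

end Cfsg.Agent.S3684
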