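import Cfsg.Statements.S3696
-- import your own Cfsg.Agent.* helpers here

set_option autoImplicit false
open Cfsg

namespace Cfsg.Agent.S3696

theorem amgm2 (x y d k : ℕ) : x ^ d * y ^ k * (k + d) ^ (k + d) ≤ (y + x) ^ (k + d) * d ^ d * k ^ k := by
  rcases Nat.eq_zero_or_pos d with rfl | hd
  · simp only [pow_zero, one_mul, add_zero, mul_one]
    gcongr
    omega
  rcases Nat.eq_zero_or_pos k with rfl | hk
  · simp
    gcongr
    omega
  have hK : (0:ℝ) < (k:ℝ) + d := by positivity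
  have hdR : (0:ℝ) < d := by exact_mod_cast hd
  have hkR : (0:ℝ) < k := by exact_mod_cast hk
  have h := Real.geom_mean_le_arith_mean2_weighted (w₁ := (d:ℝ) / (k + d)) (w₂ := (k:ℝ) / (k + d))
    (p₁ := (x:ℝ) / d) (p₂ := (y:ℝ) / k) (by positivity) (by positivity) (by positivity) (by positivity)
    (by field_simp; ring)
  have h2 : ((d:ℝ) / (k + d)) * ((x:ℝ) / d) + ((k:ℝ) / (k + d)) * ((y:ℝ) / k) = ((y:ℝ) + x) / (k + d) := by
    field_simp; ring
  rw [h2] at h
  have h3 := pow_le_pow_left₀ (by positivity) h (k + d)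
  have h4 : (((x:ℝ) / d) ^ ((d:ℝ) / (k + d)) * ((y:ℝ) / k) ^ ((k:ℝ) / (k + d))) ^ (k + d)
      = ((x:ℝ) / d) ^ d * ((y:ℝ) / k) ^ k := by
    rw [mul_pow, ← Real.rpow_natCast, ← Real.rpow_natCast, ← Real.rpow_mul (by positivity),
      ← Real.rpow_mul (by positivity)]
    have e1 : (d:ℝ) / (k + d) * ((k + d : ℕ) : ℝ) = d := by push_cast; field_simp
    have e2 : (k:ℝ) / (k + d) * ((k + d : ℕ) : ℝ) = k := by push_cast; field_simp
    rw [e1, e2, Real.rpow_natCast, Real.rpow_natCast]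
  rw [h4] at h3
  have h5 : ((x:ℝ)) ^ d * (y:ℝ) ^ k * ((k:ℝ) + d) ^ (k + d) ≤ ((y:ℝ) + x) ^ (k + d) * (d:ℝ) ^ d * (k:ℝ) ^ k := by
    rw [div_pow, div_pow, div_pow] at h3
    rw [div_mul_div_comm, div_le_div_iff₀ (by positivity) (by positivity)] at h3
    nlinarith [h3]
  exact_mod_cast h5

theorem num (a n' n₁ k' d : ℕ) (hd : 1 ≤ d) (h1 : 2 ^ d ≤ n₁) (h : a * k' ^ k' ≤ n' ^ k') :
    a * n₁ * (k' + d) ^ (k' + d) ≤ (n' + n₁) ^ (k' + d) := by
  have hdd : d ^ d ≤ n₁ ^ (d - 1) := by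
    have h2 : d ≤ 2 ^ (d - 1) := by
      have := Nat.lt_two_pow_self (n := d - 1)
      omega
    calc d ^ d ≤ (2 ^ (d - 1)) ^ d := Nat.pow_le_pow_left h2 d
      _ = (2 ^ d) ^ (d - 1) := by rw [← pow_mul, ← pow_mul, mul_comm]
      _ ≤ n₁ ^ (d - 1) := Nat.pow_le_pow_left h1 _
  have hi : n₁ * d ^ d ≤ n₁ ^ d := by
    calc n₁ * d ^ d ≤ n₁ * n₁ ^ (d - 1) := Nat.mul_le_mul_left _ hdd
      _ = n₁ ^ d := by
        obtain ⟨e, rfl⟩ : ∃ e, d = e + 1 := ⟨d - 1, by omega⟩
        simp [pow_succ, mul_comm]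
  have hii := amgm2 n₁ n' d k'
  have hpos1 : 0 < d ^ d := by positivity
  have hpos2 : 0 < k' ^ k' := by
    rcases Nat.eq_zero_or_pos k' with rfl | hk
    · simp
    · positivity
  have : a * n₁ * (k' + d) ^ (k' + d) * (d ^ d * k' ^ k') ≤ (n' + n₁) ^ (k' + d) * (d ^ d * k' ^ k') := by
    calc a * n₁ * (k' + d) ^ (k' + d) * (d ^ d * k' ^ k')
        = (n₁ * d ^ d) * (a * k' ^ k') * (k' + d) ^ (k' + d) := by ring
      _ ≤ n₁ ^ d * n' ^ k' * (k' + d) ^ (k' + d) := by gcongr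
      _ ≤ (n' + n₁) ^ (k' + d) * d ^ d * k' ^ k' := hii
      _ = (n' + n₁) ^ (k' + d) * (d ^ d * k' ^ k') := by ring
  exact Nat.le_of_mul_le_mul_right this (by positivity)

universe u v

theorem main (p : ℕ) (hp : p.Prime) {Ω : Type v} [DecidableEq Ω] :
    ∀ (m : ℕ) (A : Type u) [CommGroup A] [Finite A] [MulAction A Ω], Nat.card A = m → IsPGroup p A →
    ∀ (S : Finset Ω), (∀ (a : A), ∀ x ∈ S, a • x ∈ S) → (∀ a : A, (∀ x ∈ S, a • x = x) → a = 1) →
    ∀ k, Nat.card {a : A // a ^ p = 1} = p ^ k → Nat.card A * k ^ k ≤ S.card ^ k := by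
  intro m
  induction m using Nat.strong_induction_on with
  | _ m ih =>
  intro A _ _ _ hm hA S hinv hfaith k hk
  have : Fact p.Prime := ⟨hp⟩
  by_cases hA1 : ∀ a : A, a = 1
  · have hsub : Subsingleton A := ⟨fun a b => by rw [hA1 a, hA1 b]⟩
    have h1 : Nat.card {a : A // a ^ p = 1} = 1 := by
      have : Nonempty {a : A // a ^ p = 1} := ⟨⟨1, one_pow p⟩⟩
      exact Nat.card_of_subsingleton ⟨1, one_pow p⟩
    rw [h1] at hk
    have hk0 : k = 0 := by
      by_contra hk0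
      have := Nat.one_lt_pow hk0 hp.one_lt
      omega
    subst hk0
    simp
  push Not at hA1
  obtain ⟨a0, ha0⟩ := hA1
  have hnt : Nontrivial A := ⟨⟨a0, 1, ha0⟩⟩
  obtain ⟨n, hn⟩ := IsPGroup.iff_card.1 hA
  have hpd : p ∣ Nat.card A := by
    rw [hn]
    apply dvd_pow_self
    rintro rfl
    rw [pow_zero] at hn
    have := Finite.one_lt_card (α := A)
    omega
  obtain ⟨z, hz⟩ := exists_prime_orderOf_dvd_card' p hpd
  have hz1 : z ≠ 1 := by
    rintro rfl
    rw [orderOf_one] at hz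
    exact hp.one_lt.ne hz
  obtain ⟨x, hxS, hzx⟩ : ∃ x ∈ S, z • x ≠ x := by
    by_contra hcon
    push Not at hcon
    exact hz1 (hfaith z hcon)
  set A₁ := MulAction.stabilizer A x with hA₁
  set V := (powMonoidHom p : A →* A).ker with hV
  have hmemV : ∀ a : A, a ∈ V ↔ a ^ p = 1 := fun a => by
    rw [hV, MonoidHom.mem_ker, powMonoidHom_apply]
  set n₁ := A₁.index with hn₁
  have hcardA : Nat.card A₁ * n₁ = Nat.card A := A₁.card_mul_index
  have hfinO' : Finite (MulAction.orbit A x) := Set.finite_range _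
  have hfinO : Fintype (MulAction.orbit A x) := Fintype.ofFinite _
  set O := (MulAction.orbit A x).toFinset with hO
  have hOcard : O.card = n₁ := by
    rw [hn₁, hA₁, MulAction.index_stabilizer, hO, Set.ncard_eq_toFinset_card']
  have hOS : O ⊆ S := by
    intro y hy
    rw [hO, Set.mem_toFinset] at hy
    obtain ⟨b, rfl⟩ := hy
    exact hinv b x hxS
  have hScard : S.card = (S \ O).card + n₁ := by
    rw [← hOcard, Finset.card_sdiff_add_card_eq_card hOS]
  have hVcard : Nat.card V = p ^ k := by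
    rw [← hk]
    exact Nat.card_congr (Equiv.subtypeEquivRight hmemV)
  have hWV : A₁ ⊓ V ≤ V := inf_le_right
  have hW1 : Nat.card ↥(A₁ ⊓ V) * A₁.relIndex V = Nat.card V := by
    have := Subgroup.relIndex_mul_relIndex ⊥ (A₁ ⊓ V) V bot_le hWV
    rwa [Subgroup.relIndex_bot_left, Subgroup.relIndex_bot_left, Subgroup.inf_relIndex_right] at this
  obtain ⟨k', hk'k, hk'⟩ := (Nat.dvd_prime_pow hp).1 (hVcard ▸ Dvd.intro _ hW1)
  have hk'ne : k' ≠ k := by
    rintro rfl
    have : A₁ ⊓ V = V := Subgroup.eq_of_le_of_card_ge hWV (by rw [hk', hVcard])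
    have hzV : z ∈ V := (hmemV z).2 (by rw [← hz, pow_orderOf_eq_one])
    have h5 : z ∈ A₁ ⊓ V := by rw [this]; exact hzV
    exact hzx h5.1
  have hrel : A₁.relIndex V = p ^ (k - k') := by
    have h2 : p ^ k' * A₁.relIndex V = p ^ k' * p ^ (k - k') := by
      rw [← pow_add, ← hk', hW1, hVcard]; congr 1; omega
    exact Nat.eq_of_mul_eq_mul_left (pow_pos hp.pos _) h2
  have hn₁ge : p ^ (k - k') ≤ n₁ := by
    rw [← hrel]
    apply Nat.le_of_dvd
    · rw [hn₁]; exact Nat.pos_of_ne_zero (Subgroup.index_ne_zero_of_finite)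
    · exact Subgroup.relIndex_dvd_index_of_normal A₁ V
  have hcard₁ : Nat.card {a : ↥A₁ // a ^ p = 1} = p ^ k' := by
    rw [← hk']
    apply Nat.card_congr
    refine ⟨fun a => ⟨a.1.1, a.1.2, (hmemV _).2 (by simpa using congrArg Subtype.val a.2)⟩,
      fun a => ⟨⟨a.1, a.2.1⟩, Subtype.ext (by simpa using (hmemV _).1 a.2.2)⟩, ?_, ?_⟩
    · intro a; rfl
    · intro a; rfl
  have hn₁2 : 2 ≤ n₁ := by
    have : 2 ≤ p ^ (k - k') := by
      calc 2 ≤ p := hp.two_le
        _ = p ^ 1 := (pow_one p).symm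
        _ ≤ p ^ (k - k') := Nat.pow_le_pow_right hp.pos (by omega)
    omega
  have hlt : Nat.card A₁ < m := by
    rw [← hm, ← hcardA]
    have : 0 < Nat.card A₁ := Nat.card_pos
    nlinarith
  have hfixO : ∀ a : ↥A₁, ∀ y ∈ O, (a : A) • y = y := by
    intro a y hy
    rw [hO, Set.mem_toFinset] at hy
    obtain ⟨b, rfl⟩ := hy
    change (a : A) • b • x = b • x
    rw [← mul_smul, mul_comm, mul_smul]
    congr 1
    exact a.2
  have hIH := ih _ hlt ↥A₁ rfl (hA.to_subgroup A₁) (S \ O) (by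
    intro a y hy
    rw [Finset.mem_sdiff] at hy ⊢
    refine ⟨hinv a y hy.1, ?_⟩
    intro hcon
    apply hy.2
    have h3 := hfixO a⁻¹ _ hcon
    have h4 : ((a⁻¹ : ↥A₁) : A) • (a • y) = y := by
      change ((a⁻¹ : ↥A₁) : A) • ((a : A) • y) = y
      simp
    rw [h4] at h3
    rw [h3]; exact hcon) (by
    intro a ha
    apply Subtype.ext
    apply hfaith
    intro y hy
    by_cases hyO : y ∈ O
    · exact hfixO a y hyO
    · exact ha y (Finset.mem_sdiff.2 ⟨hy, hyO⟩)) k' hcard₁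
  have hfin := num (Nat.card A₁) (S \ O).card n₁ k' (k - k') (by omega)
    (le_trans (Nat.pow_le_pow_left hp.two_le _) hn₁ge) hIH
  have hkk : k' + (k - k') = k := by omega
  rw [hkk, hcardA, ← hScard] at hfin
  exact hfin

/-- Let p be a prime, Ω a finite set with n ≥ p elements, and A an abelian p-subgroup of the symmetric group on Ω whose elements of order dividing p number p^k (so k is the rank of A). Then |A| · k^k ≤ n^k, that is, |A| ≤ (n/k)^k. -/
theorem result {Ω : Type*} [Fintype Ω] [DecidableEq Ω]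
    (p : ℕ) (hp : p.Prime) (hn : p ≤ Fintype.card Ω) (A : Subgroup (Equiv.Perm Ω)) (hA : IsPGroup p A) (hab : IsMulCommutative A)
    (k : ℕ) (hk : Nat.card {x : A // x ^ p = 1} = p ^ k) :
    Nat.card A * k ^ k ≤ Fintype.card Ω ^ k := by
  letI : CommGroup ↥A := { (inferInstance : Group ↥A) with mul_comm := hab.is_comm.comm }
  have h := main p hp (Ω := Ω) _ ↥A rfl hA Finset.univ (fun _ _ _ => Finset.mem_univ _) (by
    intro a ha
    apply Subtype.ext
    ext x
    exact ha x (Finset.mem_univ x)) k hk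
  rwa [Finset.card_univ] at h

end Cfsg.Agent.S3696
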