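import Cfsg.Statements.S3802
-- import your own Cfsg.Agent.* helpers here
import Cfsg.Agent.Lib.Helper20.SubnCore

set_option autoImplicit false
open Cfsg

namespace Cfsg.Agent.S3802

open Cfsg.Agent.Lib.Helper20 Subgroup

/-- Let G be a finite group, M a maximal subgroup of G and N a subnormal subgroup of G contained in M. Then N is contained in every conjugate of M, that is, N lies in the core of M in G. -/
theorem result {G : Type*} [Group G] [Finite G] (M N : Subgroup G) (hM : IsCoatom M) (hN : N.IsSubnormal) (hNM : N ≤ M) :
    N ≤ Subgroup.normalCore M := by
  have h1 : N ≤ subnCore M := le_subnCore hN hNM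
  have h2 : (subnCore M).Normal := by
    rw [← normalizer_eq_top_iff]
    by_contra hne
    have h3 : normalizer (subnCore M : Set G) = M :=
      ((hM.le_iff_eq hne).1 (le_normalizer_subnCore M))
    have h4 := subnCore_eq_top_of_normalizer_le M h3.le
    apply hM.1
    rw [eq_top_iff, ← h4]
    exact subnCore_le M
  exact h1.trans ((normal_le_normalCore).2 (subnCore_le M))

end Cfsg.Agent.S3802
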