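import Cfsg.Statements.S3815
import Mathlib

set_option autoImplicit false
open Cfsg

namespace Cfsg.Agent.S3815

/-- Let G be a finite group, p a prime and d ∈ G an element of order prime to p. If dg has order prime to p for every element g ∈ G of order prime to p, then d ∈ O_{p'}(G). -/
theorem result {G : Type*} [Group G] [Finite G] {p : ℕ} [Fact p.Prime]
    (d : G) (hd : (orderOf d).Coprime p)
    (h : ∀ g : G, (orderOf g).Coprime p → (orderOf (d * g)).Coprime p) :
    d ∈ Cfsg.pPrimeCore p G := by
  let S : Set G := {d | (orderOf d).Coprime p ∧ ∀ g : G, (orderOf g).Coprime p → (orderOf (d * g)).Coprime p}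
  have hone : (1 : G) ∈ S := ⟨by simp, fun g hg => by simpa using hg⟩
  have hmul : ∀ {a b : G}, a ∈ S → b ∈ S → a * b ∈ S := by
    intro a b ha hb
    refine ⟨ha.2 b hb.1, fun g hg => ?_⟩
    rw [mul_assoc]
    exact ha.2 _ (hb.2 g hg)
  have hpow : ∀ {a : G}, a ∈ S → ∀ k : ℕ, a ^ k ∈ S := by
    intro a ha k
    induction k with
    | zero => simpa using hone
    | succ k ih => rw [pow_succ]; exact hmul ih ha
  let D : Subgroup G :=
    { carrier := S
      one_mem' := hone
      mul_mem' := hmul
      inv_mem' := by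
        intro a ha
        have : a⁻¹ = a ^ (orderOf a - 1) := by
          rw [eq_comm, ← mul_eq_one_iff_eq_inv, ← pow_succ,
            Nat.sub_add_cancel (orderOf_pos a), pow_orderOf_eq_one]
        rw [this]
        exact hpow ha _ }
  have hDn : D.Normal := by
    constructor
    intro a ha g
    have hc : ∀ x : G, orderOf (g * x * g⁻¹) = orderOf x := fun x => (MulAut.conj g).orderOf_eq x
    refine ⟨by rw [hc]; exact ha.1, fun x hx => ?_⟩
    have : g * a * g⁻¹ * x = g * (a * (g⁻¹ * x * g⁻¹⁻¹)) * g⁻¹ := by group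
    rw [this, hc]
    apply ha.2
    have h2 : orderOf (g⁻¹ * x * g⁻¹⁻¹) = orderOf x := (MulAut.conj g⁻¹).orderOf_eq x
    rw [h2]; exact hx
  have hDc : (Nat.card D).Coprime p := by
    rw [Nat.coprime_comm, Nat.Prime.coprime_iff_not_dvd Fact.out]
    intro hdvd
    obtain ⟨x, hx⟩ := exists_prime_orderOf_dvd_card' (G := D) p hdvd
    have h1 : (orderOf (x : G)).Coprime p := x.2.1
    rw [Subgroup.orderOf_coe, hx] at h1
    exact (Fact.out : p.Prime).one_lt.ne' (by simpa using h1)
  have hle : D ≤ Cfsg.pPrimeCore p G := le_sSup ⟨hDn, hDc⟩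
  exact hle ⟨hd, h⟩

end Cfsg.Agent.S3815
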