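import Cfsg.Statements.S3821
-- import your own Cfsg.Agent.* helpers here
import Mathlib
import Cfsg.Agent.Lib.Helper17.Syl

set_option autoImplicit false
open Cfsg

namespace Cfsg.Agent.S3821
open Cfsg.Agent.Lib.Helper17

theorem map_sub {G : Type*} [Group G] (A H : Subgroup G) (a : A) :
    (H.subgroupOf A).map (MulAut.conj a).toMonoidHom =
      (H.map (MulAut.conj (a : G)).toMonoidHom).subgroupOf A := by
  ext x
  rw [mem_map_conj, Subgroup.mem_subgroupOf, Subgroup.mem_subgroupOf, mem_map_conj]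
  rfl

theorem pron_iff {G : Type*} [Group G] (A H : Subgroup G) (hHA : H ≤ A) :
    Cfsg.IsPronormal (H.subgroupOf A) ↔ ∀ a ∈ A, ∃ x ∈ H ⊔ H.map (MulAut.conj a).toMonoidHom,
      H.map (MulAut.conj a).toMonoidHom = H.map (MulAut.conj x).toMonoidHom := by
  have hc : ∀ a ∈ A, H.map (MulAut.conj a).toMonoidHom ≤ A := fun a ha =>
    map_conj_le_of_le_of_mem hHA ha
  constructor
  · intro h a ha
    obtain ⟨x, hx, he⟩ := h ⟨a, ha⟩
    rw [map_sub, ← Subgroup.subgroupOf_sup hHA (hc a ha)] at hx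
    rw [map_sub, map_sub, Subgroup.subgroupOf_inj, inf_of_le_left (hc a ha),
      inf_of_le_left (hc x x.2)] at he
    exact ⟨x, hx, he⟩
  · intro h a
    obtain ⟨x, hx, he⟩ := h a a.2
    have hxA : x ∈ A := (sup_le hHA (hc a a.2)) hx
    refine ⟨⟨x, hxA⟩, ?_, ?_⟩
    · rw [map_sub, ← Subgroup.subgroupOf_sup hHA (hc a a.2)]
      exact hx
    · rw [map_sub, map_sub, he]

/-- Let A be a normal subgroup of the finite group G and H a subgroup of A. Then H is pronormal in G (H and gHg⁻¹ conjugate inside ⟨H, gHg⁻¹⟩ for every g ∈ G) if and only if H is pronormal in A and G = A · N_G(H). -/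
theorem result {G : Type*} [Group G] [Finite G] (A H : Subgroup G) [A.Normal] (hHA : H ≤ A) :
    Cfsg.IsPronormal H ↔ (Cfsg.IsPronormal (H.subgroupOf A) ∧ A ⊔ Subgroup.normalizer (H : Set G) = ⊤) := by
  rw [pron_iff A H hHA]
  have hAn : A.Normal := inferInstance
  constructor
  · intro h
    refine ⟨fun a _ => h a, ?_⟩
    rw [eq_top_iff]
    intro g _
    obtain ⟨x, hx, he⟩ := h g
    have hgA : H.map (MulAut.conj g).toMonoidHom ≤ A := by
      rintro _ ⟨y, hy, rfl⟩
      exact hAn.conj_mem y (hHA hy) g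
    have hxA : x ∈ A := (sup_le hHA hgA) hx
    have hn : x⁻¹ * g ∈ Subgroup.normalizer (H : Set G) := by
      rw [mem_normalizer_iff_map_conj, ← map_conj_map_conj, he, map_conj_map_conj,
        inv_mul_cancel, map_conj_one]
    have : g = x * (x⁻¹ * g) := by group
    rw [this]
    exact mul_mem ((le_sup_left : A ≤ A ⊔ Subgroup.normalizer (H : Set G)) hxA)
      ((le_sup_right : _ ≤ A ⊔ Subgroup.normalizer (H : Set G)) hn)
  · rintro ⟨h, htop⟩ g
    have hg : g ∈ Subgroup.normalizer (H : Set G) ⊔ A := by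
      rw [sup_comm, htop]; trivial
    have hle : Subgroup.normalizer (H : Set G) ≤ Subgroup.normalizer (A : Set G) :=
      le_top.trans (Subgroup.normalizer_eq_top (H := A)).ge
    obtain ⟨n, hn, a, ha, rfl⟩ := (mem_sup_of_le_normalizer hle).mp hg
    have ha' : n * a * n⁻¹ ∈ A := hAn.conj_mem a ha n
    have e : H.map (MulAut.conj (n * a)).toMonoidHom
        = H.map (MulAut.conj (n * a * n⁻¹)).toMonoidHom := by
      conv_rhs => rw [← map_conj_eq_of_mem_normalizer hn]
      rw [map_conj_map_conj]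
      congr 3
      group
    rw [e]
    exact h _ ha'

end Cfsg.Agent.S3821
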