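import Cfsg.Statements.S3825
-- import your own Cfsg.Agent.* helpers here
import Mathlib

set_option autoImplicit false
open Cfsg

namespace Cfsg.Agent.S3825

theorem fpf_inv {K : Type*} [Group K] [Finite K] (σ : K →* K) (h2 : ∀ x, σ (σ x) = x)
    (hfix : ∀ x, σ x = x → x = 1) : ∀ x, σ x = x⁻¹ := by
  have hinj : Function.Injective (fun x => x⁻¹ * σ x) := by
    intro r s h
    have h' : r⁻¹ * σ r = s⁻¹ * σ s := h
    have h1 : σ (s * r⁻¹) = s * r⁻¹ := by
      rw [map_mul, map_inv]
      have e : σ r = r * (s⁻¹ * σ s) := by rw [← h']; group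
      rw [e]; group
    have := hfix _ h1
    exact (mul_inv_eq_one.mp this).symm
  have hsurj := Finite.injective_iff_surjective.mp hinj
  intro x
  obtain ⟨s, hs⟩ := hsurj x
  have hs' : s⁻¹ * σ s = x := hs
  rw [← hs']; simp only [map_mul, map_inv, h2]; group

/-- Let U be a subgroup of a finite group H and w an involution of H normalizing U and commuting with exactly two elements of U, the identity and y. If V is a non-cyclic elementary abelian 2-subgroup of U containing y which is normal in U and invariant under w, then V is a Sylow 2-subgroup of U, V has order 4, and U/V is abelian. -/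
theorem result {H : Type*} [Group H] [Finite H] (U : Subgroup H) (w : H) (hw : orderOf w = 2)
    (hwU : w ∈ Subgroup.normalizer (U : Set H)) (y : H) (hy : y ≠ 1) (hyU : y ∈ U)
    (hfix : ∀ u ∈ U, w * u * w⁻¹ = u ↔ (u = 1 ∨ u = y))
    (V : Subgroup H) (hVU : V ≤ U) (hVn : (V.subgroupOf U).Normal) (hVw : ∀ v ∈ V, w * v * w⁻¹ ∈ V)
    (hVe : Cfsg.IsElementaryAbelian 2 V) (hVc : ¬ IsCyclic ↥V) (hyV : y ∈ V) :
    ¬ 2 ∣ V.relIndex U ∧ Nat.card ↥V = 4 ∧ ⁅U, U⁆ ≤ V := by
  classical
  have hw2 : w * w = 1 := by rw [← sq, ← hw, pow_orderOf_eq_one]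
  have hwinv : w⁻¹ = w := inv_eq_of_mul_eq_one_left hw2
  have hcc : ∀ u : H, w * (w * u * w⁻¹) * w⁻¹ = u := by
    intro u
    rw [hwinv]
    have : w * (w * u * w) * w = (w * w) * u * (w * w) := by group
    rw [this, hw2]; simp
  have hcm : ∀ a b : H, w * (a * b) * w⁻¹ = (w * a * w⁻¹) * (w * b * w⁻¹) := by
    intro a b; group
  have hVcomm : ∀ a ∈ V, ∀ b ∈ V, a * b = b * a := by
    intro a ha b hb
    have := hVe.1.is_comm.comm ⟨a, ha⟩ ⟨b, hb⟩
    exact congrArg Subtype.val this
  have hVinv : ∀ a ∈ V, a⁻¹ = a := by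
    intro a ha
    have := hVe.2 a ha
    rw [sq] at this
    exact inv_eq_of_mul_eq_one_left this
  have hVsq : ∀ a ∈ V, a * a = 1 := by
    intro a ha
    have := hVe.2 a ha
    rwa [sq] at this
  -- elements of V with v * c v = 1 are fixed
  have hV1 : ∀ v ∈ V, v * (w * v * w⁻¹) = 1 → v = 1 ∨ v = y := by
    intro v hv h
    apply (hfix v (hVU hv)).mp
    have h1 := eq_inv_of_mul_eq_one_right h
    rw [h1, hVinv v hv]
  have hVfix : ∀ v ∈ V, v * (w * v * w⁻¹) = 1 ∨ v * (w * v * w⁻¹) = y := by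
    intro v hv
    apply (hfix _ (hVU (V.mul_mem hv (hVw v hv)))).mp
    rw [hcm, hcc]
    exact hVcomm _ (hVw v hv) _ hv
  obtain ⟨v0, hv0, hv01, hv0y⟩ : ∃ v0 ∈ V, v0 ≠ 1 ∧ v0 ≠ y := by
    by_contra hcon
    push Not at hcon
    apply hVc
    refine ⟨⟨⟨y, hyV⟩, fun v => ?_⟩⟩
    by_cases hv1 : (v : H) = 1
    · have : v = 1 := Subtype.ext hv1
      rw [this]; exact Subgroup.one_mem (Subgroup.zpowers _)
    · have := hcon v v.2 hv1
      have : v = ⟨y, hyV⟩ := Subtype.ext this
      rw [this]; exact Subgroup.mem_zpowers _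
  have hy0 : v0 * (w * v0 * w⁻¹) = y := by
    rcases hVfix v0 hv0 with h | h
    · rcases hV1 v0 hv0 h with h | h
      · exact absurd h hv01
      · exact absurd h hv0y
    · exact h
  have hVall : ∀ v ∈ V, v = 1 ∨ v = y ∨ v = v0 ∨ v = y * v0 := by
    intro v hv
    rcases hVfix v hv with h | h
    · rcases hV1 v hv h with h | h
      · exact Or.inl h
      · exact Or.inr (Or.inl h)
    · have ht : (v * v0) * (w * (v * v0) * w⁻¹) = 1 := by
        rw [hcm]
        have e1 : v * v0 * (w * v * w⁻¹ * (w * v0 * w⁻¹)) =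
            v * (v0 * (w * v * w⁻¹)) * (w * v0 * w⁻¹) := by group
        rw [e1, hVcomm v0 hv0 _ (hVw v hv)]
        have e2 : v * (w * v * w⁻¹ * v0) * (w * v0 * w⁻¹) =
            (v * (w * v * w⁻¹)) * (v0 * (w * v0 * w⁻¹)) := by group
        rw [e2, h, hy0, hVsq y hyV]
      rcases hV1 _ (V.mul_mem hv hv0) ht with h1 | h1
      · right; right; left
        rw [← hVinv v0 hv0]
        exact eq_inv_of_mul_eq_one_left h1
      · right; right; right
        rw [← h1, mul_assoc, hVsq v0 hv0, mul_one]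
  have hVcard : Nat.card ↥V = 4 := by
    have hle : Nat.card ↥V ≤ 4 := by
      have hsub : (V : Set H) ⊆ (({1, y, v0, y * v0} : Finset H) : Set H) := by
        intro v hv
        have := hVall v hv
        simpa using this
      calc Nat.card ↥V = (V : Set H).ncard := rfl
        _ ≤ (({1, y, v0, y * v0} : Finset H) : Set H).ncard :=
            Set.ncard_le_ncard hsub (Finset.finite_toSet _)
        _ = ({1, y, v0, y * v0} : Finset H).card := Set.ncard_coe_finset _
        _ ≤ 4 := Finset.card_le_four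
    have hVp : IsPGroup 2 V := by
      intro v
      refine ⟨1, ?_⟩
      apply Subtype.ext
      simpa using hVe.2 v v.2
    obtain ⟨k, hk⟩ := hVp.exists_card_eq
    have hk0 : k ≠ 0 := by
      rintro rfl
      apply hVc
      have : Subsingleton V := (Nat.card_eq_one_iff_unique.mp (by simpa using hk)).1
      infer_instance
    have hk1 : k ≠ 1 := by
      rintro rfl
      apply hVc
      have : Fact (Nat.Prime 2) := ⟨Nat.prime_two⟩
      exact isCyclic_of_prime_card (p := 2) (by simpa using hk)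
    have hk2 : k < 3 := by
      by_contra hlt
      push Not at hlt
      have : 2 ^ 3 ≤ 2 ^ k := Nat.pow_le_pow_right (by norm_num) hlt
      omega
    have : k = 2 := by omega
    rw [hk, this]; norm_num
  -- claim A
  have hA : ∀ u ∈ U, u⁻¹ * (w * u * w⁻¹) ∈ V → u ∈ V := by
    intro u hu hv
    set v := u⁻¹ * (w * u * w⁻¹) with hvdef
    have hcu : w * u * w⁻¹ = u * v := by rw [hvdef]; group
    have h1 : v * (w * v * w⁻¹) = 1 := by
      have h2 := hcc u
      rw [hcu, hcm, hcu] at h2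
      have : u * (v * (w * v * w⁻¹)) = u * 1 := by rw [mul_one, ← mul_assoc]; exact h2
      exact mul_left_cancel this
    rcases hV1 v hv h1 with h | h
    · rw [h, mul_one] at hcu
      rcases (hfix u hu).mp hcu with h3 | h3
      · rw [h3]; exact V.one_mem
      · rw [h3]; exact hyV
    · rw [h] at hcu
      have h4 : w * (u * v0) * w⁻¹ = u * v0 := by
        rw [hcm, hcu]
        have e1 : w * v0 * w⁻¹ = v0 * y := by
          rw [← hy0, ← mul_assoc, hVsq v0 hv0, one_mul]
        rw [e1, mul_assoc, ← mul_assoc y, hVcomm y hyV v0 hv0, mul_assoc v0, hVsq y hyV, mul_one]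
      have h5 : u * v0 ∈ V := by
        rcases (hfix _ (U.mul_mem hu (hVU hv0))).mp h4 with h3 | h3
        · rw [h3]; exact V.one_mem
        · rw [h3]; exact hyV
      have : u = (u * v0) * v0⁻¹ := by group
      rw [this]
      exact V.mul_mem h5 (V.inv_mem hv0)
  -- the quotient
  let φ : ↥U →* ↥U :=
    { toFun := fun u => ⟨w * u * w⁻¹, (Subgroup.mem_normalizer_iff.mp hwU u).mp u.2⟩
      map_one' := by apply Subtype.ext; simp
      map_mul' := by intro a b; apply Subtype.ext; exact hcm a b }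
  have hφV : V.subgroupOf U ≤ (V.subgroupOf U).comap φ := by
    intro u hu
    exact hVw u hu
  let σ : (↥U ⧸ V.subgroupOf U) →* (↥U ⧸ V.subgroupOf U) :=
    QuotientGroup.map (V.subgroupOf U) (V.subgroupOf U) φ hφV
  have hσ2 : ∀ x, σ (σ x) = x := by
    intro x
    obtain ⟨u, rfl⟩ := QuotientGroup.mk_surjective x
    show QuotientGroup.mk (φ (φ u)) = QuotientGroup.mk u
    congr 1
    apply Subtype.ext
    exact hcc u
  have hσfix : ∀ x, σ x = x → x = 1 := by
    intro x hx
    obtain ⟨u, rfl⟩ := QuotientGroup.mk_surjective x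
    have h1 : (QuotientGroup.mk u : ↥U ⧸ V.subgroupOf U) = QuotientGroup.mk (φ u) := hx.symm
    rw [QuotientGroup.eq] at h1
    rw [QuotientGroup.eq_one_iff]
    exact hA u u.2 h1
  have hσinv := fpf_inv σ hσ2 hσfix
  refine ⟨?_, hVcard, ?_⟩
  · intro h2
    have h3 : 2 ∣ Nat.card (↥U ⧸ V.subgroupOf U) := by
      rw [← Subgroup.index_eq_card]; exact h2
    have : Fact (Nat.Prime 2) := ⟨Nat.prime_two⟩
    obtain ⟨t, ht⟩ := exists_prime_orderOf_dvd_card' 2 h3
    have h4 : t * t = 1 := by rw [← sq, ← ht, pow_orderOf_eq_one]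
    have h5 : σ t = t := by rw [hσinv]; exact inv_eq_of_mul_eq_one_left h4
    have h6 := hσfix t h5
    rw [h6, orderOf_one] at ht
    omega
  · rw [Subgroup.commutator_le]
    intro a ha b hb
    have hc : ∀ x z : ↥U ⧸ V.subgroupOf U, x * z = z * x := by
      intro x z
      have h1 := hσinv (x * z)
      rw [map_mul, hσinv, hσinv] at h1
      have h3 : (x⁻¹ * z⁻¹)⁻¹ = ((x * z)⁻¹)⁻¹ := by rw [h1]
      simpa using h3.symm
    have h1 : (QuotientGroup.mk ((⟨a, ha⟩ : ↥U) * ⟨b, hb⟩ * (⟨a, ha⟩ : ↥U)⁻¹ * (⟨b, hb⟩ : ↥U)⁻¹) :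
        ↥U ⧸ V.subgroupOf U) = 1 := by
      simp only [QuotientGroup.mk_mul, QuotientGroup.mk_inv]
      rw [hc (QuotientGroup.mk ⟨a, ha⟩) (QuotientGroup.mk ⟨b, hb⟩)]
      group
    rw [QuotientGroup.eq_one_iff] at h1
    exact h1

end Cfsg.Agent.S3825
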