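import Cfsg.Statements.S3838
import Mathlib.GroupTheory.Transfer
import Cfsg.Agent.Lib.Helper5.NPC
import Cfsg.Agent.Lib.Helper1.SZSub
import Cfsg.Agent.Lib.Helper1.Wielandt
import Cfsg.Agent.Lib.Helper22.Basic

set_option autoImplicit false
open Cfsg

namespace Cfsg.Agent.S3838

open scoped Pointwise
open scoped commutatorElement

theorem mem_normalizer_of_forall' {G : Type*} [Group G] [Finite G] (K : Subgroup G) (g : G)
    (h : ∀ k ∈ K, g * k * g⁻¹ ∈ K) : g ∈ Subgroup.normalizer (K : Set G) := by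
  have hmap : K.map (MulAut.conj g).toMonoidHom = K := by
    apply Subgroup.eq_of_le_of_card_ge
    · rintro _ ⟨k, hk, rfl⟩
      exact h k hk
    · rw [Subgroup.card_map_of_injective (MulAut.conj g).injective]
  rw [Subgroup.mem_normalizer_iff]
  intro n
  constructor
  · exact h n
  · intro hn
    rw [← hmap] at hn
    obtain ⟨k, hk, hkn⟩ := hn
    have : k = n := by
      have h2 : g * k * g⁻¹ = g * n * g⁻¹ := hkn
      exact mul_left_cancel (mul_right_cancel h2)
    exact this ▸ hk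

theorem mem_conj_smul {G : Type*} [Group G] (m y : G) (H : Subgroup G) :
    y ∈ MulAut.conj m • H ↔ ∃ h ∈ H, y = m * h * m⁻¹ := by
  constructor
  · rintro ⟨h, hh, rfl⟩; exact ⟨h, hh, rfl⟩
  · rintro ⟨h, hh, rfl⟩; exact ⟨h, hh, rfl⟩

theorem lemX {M : Type*} [Group M] [Finite M] {p : ℕ} [Fact p.Prime] (P : Sylow p M)
    (Q : Subgroup M) [Q.Normal] (hQP : Q ≤ P)
    (hfr : ∀ A : Subgroup M, A ≤ P → (∀ x ∈ P, ∃ a ∈ A, ∃ q ∈ Q, x = a * q) →
      (P : Subgroup M) ≤ A)
    (hNC : ∀ g : M, (∀ x ∈ P, g * x * g⁻¹ ∈ P) → ∀ x ∈ P, g * x * g⁻¹ * x⁻¹ ∈ Q) :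
    Lib.Helper5.NPC p M := by
  classical
  have hp : p.Prime := Fact.out
  let f := QuotientGroup.mk' Q
  have hf : Function.Surjective f := QuotientGroup.mk'_surjective Q
  let Pb : Sylow p (M ⧸ Q) := P.mapSurjective hf
  have hPb : ∀ y, y ∈ Pb ↔ ∃ x ∈ P, f x = y := fun y => Iff.rfl
  have hNCb : Subgroup.normalizer ((Pb : Subgroup (M ⧸ Q)) : Set (M ⧸ Q)) ≤
      Subgroup.centralizer ((Pb : Subgroup (M ⧸ Q)) : Set (M ⧸ Q)) := by
    intro gb hgb
    obtain ⟨g, rfl⟩ := hf gb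
    have hgP : ∀ x ∈ P, g * x * g⁻¹ ∈ P := by
      intro x hx
      have h1 : f g * f x * (f g)⁻¹ ∈ Pb :=
        (Subgroup.mem_normalizer_iff.1 hgb (f x)).1 ((hPb _).2 ⟨x, hx, rfl⟩)
      obtain ⟨y, hy, hyx⟩ := (hPb _).1 h1
      have h2 : y⁻¹ * (g * x * g⁻¹) ∈ Q := by
        apply (QuotientGroup.eq_one_iff _).1
        show f (y⁻¹ * (g * x * g⁻¹)) = 1
        rw [map_mul, map_inv, hyx, map_mul, map_mul, map_inv]
        group
      have h3 : g * x * g⁻¹ = y * (y⁻¹ * (g * x * g⁻¹)) := by group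
      rw [h3]; exact P.mul_mem hy (hQP h2)
    rw [Subgroup.mem_centralizer_iff]
    intro xb hxb
    obtain ⟨x, hx, rfl⟩ := (hPb _).1 hxb
    have h3 : f (g * x * g⁻¹ * x⁻¹) = 1 := (QuotientGroup.eq_one_iff _).2 (hNC g hgP x hx)
    rw [map_mul, map_mul, map_mul, map_inv, map_inv] at h3
    have h4 := mul_inv_eq_one.1 h3
    exact (mul_inv_eq_iff_eq_mul.1 h4).symm
  have hnpc : Lib.Helper5.NPC p (M ⧸ Q) := Lib.Helper5.npc_iff.1
    ⟨Pb, _, inferInstance, MonoidHom.ker_transferSylow_isComplement' Pb hNCb⟩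
  obtain ⟨Lb, hLbn, hLbc, r, hLbi⟩ := hnpc
  set L := Lb.comap f with hL
  have hLn : L.Normal := hLbn.comap f
  have hQL : Q ≤ L := Lib.Helper1.le_comap_mk' Q Lb
  have hrel : Q.relIndex L = Nat.card Lb := Lib.Helper1.relIndex_comap_mk' Q Lb
  have hQp : IsPGroup p Q := P.2.to_le hQP
  obtain ⟨k, hk⟩ := hQp.exists_card_eq
  have hcop : (Nat.card Q).Coprime (Q.relIndex L) := by
    rw [hk, hrel]; exact Nat.Coprime.pow_left k hLbc.symm
  have hnorm : L ≤ Subgroup.normalizer (Q : Set M) := by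
    rw [Subgroup.normalizer_eq_top]; exact le_top
  obtain ⟨H, hHL, hHc⟩ := Lib.Helper1.sz_exists_sub Q L hQL hnorm hcop
  have hQsolv : Group.IsSolvable Q := by
    haveI := hQp.isNilpotent
    infer_instance
  have hfrat : ∀ m : M, ∃ q ∈ Q, ∃ n ∈ Subgroup.normalizer (H : Set M), m = q * n := by
    intro m
    have hKL : MulAut.conj m • H ≤ L := by
      intro y hy
      obtain ⟨h, hh, rfl⟩ := (mem_conj_smul m y H).1 hy
      exact hLn.conj_mem h (hHL hh) m
    have hKc : Nat.card (MulAut.conj m • H : Subgroup M) = Q.relIndex L := by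
      rw [← hHc]
      exact (Nat.card_congr (Subgroup.equivSMul (MulAut.conj m) H).toEquiv).symm
    obtain ⟨x, hx, hxe⟩ := Lib.Helper1.sz_conj_sub Q L hQL hnorm hcop H _ hHL hKL hHc hKc
      (Or.inl hQsolv)
    refine ⟨x, hx, x⁻¹ * m, ?_, by group⟩
    apply mem_normalizer_of_forall'
    intro h hh
    have h1 : m * h * m⁻¹ ∈ MulAut.conj x • H := by
      rw [hxe]; exact (mem_conj_smul m _ H).2 ⟨h, hh, rfl⟩
    obtain ⟨h', hh', he⟩ := (mem_conj_smul x _ H).1 h1
    have h2 : x⁻¹ * m * h * (x⁻¹ * m)⁻¹ = x⁻¹ * (m * h * m⁻¹) * x := by group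
    rw [h2, he]
    have h3 : x⁻¹ * (x * h' * x⁻¹) * x = h' := by group
    rw [h3]; exact hh'
  have hPN : (P : Subgroup M) ≤ Subgroup.normalizer (H : Set M) := by
    have h0 := hfr ((P : Subgroup M) ⊓ Subgroup.normalizer (H : Set M)) inf_le_left (by
      intro y hy
      obtain ⟨q, hq, n, hn, he⟩ := hfrat y⁻¹
      have hn' : n⁻¹ = y * q := by
        have : n = q⁻¹ * y⁻¹ := by rw [he]; group
        rw [this]; group
      refine ⟨n⁻¹, ?_, q⁻¹, Q.inv_mem hq, ?_⟩
      · rw [Subgroup.mem_inf]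
        exact ⟨hn' ▸ P.mul_mem hy (hQP hq), Subgroup.inv_mem _ hn⟩
      · rw [hn']; group)
    exact h0.trans inf_le_right
  have hHn : H.Normal := by
    rw [← Subgroup.normalizer_eq_top_iff, eq_top_iff]
    intro m _
    obtain ⟨q, hq, n, hn, rfl⟩ := hfrat m
    exact Subgroup.mul_mem _ (hPN (hQP hq)) hn
  refine ⟨H, hHn, ?_, k + r, ?_⟩
  · rw [hHc, hrel]; exact hLbc
  · have e1 := Subgroup.card_mul_index H
    have e2 := Subgroup.card_mul_index L
    have e3 : Nat.card L = Nat.card Q * Nat.card Lb := Lib.Helper1.card_comap_mk' Q Lb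
    have e4 : L.index = p ^ r := by rw [hL, Subgroup.index_comap_of_surjective _ hf, hLbi]
    have e5 : Nat.card H = Nat.card Lb := hHc.trans hrel
    have e6 : Nat.card H * H.index = Nat.card H * p ^ (k + r) := by
      rw [e1, ← e2, e3, e4, hk, e5, pow_add]; ring
    exact Nat.eq_of_mul_eq_mul_left Nat.card_pos e6

/-- Let G be a finite group with Sylow p-subgroup P such that N_G(P) has a normal p-complement. Then N_G(Q) has a normal p-complement for every subgroup Q with [P, P] ≤ Q ≤ Φ(P). -/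
theorem result {G : Type*} [Group G] [Finite G] {p : ℕ} [Fact p.Prime] (P : Sylow p G) (hN : Cfsg.HasNormalPComplement p ↥(Subgroup.normalizer ((P : Subgroup G) : Set G))) (Q : Subgroup G) (h1 : (commutator ↥(P : Subgroup G)).map (P : Subgroup G).subtype ≤ Q) (h2 : Q ≤ (frattini ↥(P : Subgroup G)).map (P : Subgroup G).subtype) : Cfsg.HasNormalPComplement p ↥(Subgroup.normalizer (Q : Set G)) := by
  classical
  have hp : p.Prime := Fact.out
  rw [Lib.Helper5.npc_iff]
  rw [Lib.Helper5.npc_iff] at hN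
  have hQP : Q ≤ (P : Subgroup G) := h2.trans (Subgroup.map_subtype_le _)
  have hcomm : ∀ x ∈ (P : Subgroup G), ∀ y ∈ (P : Subgroup G), x * y * x⁻¹ * y⁻¹ ∈ Q := by
    intro x hx y hy
    apply h1
    refine ⟨⁅(⟨x, hx⟩ : (P : Subgroup G)), ⟨y, hy⟩⁆, ?_, rfl⟩
    exact Subgroup.commutator_mem_commutator (Subgroup.mem_top _) (Subgroup.mem_top _)
  set Mg := Subgroup.normalizer (Q : Set G) with hMg
  have hPM : (P : Subgroup G) ≤ Mg := by
    intro x hx
    apply mem_normalizer_of_forall'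
    intro q hq
    have h3 : x * q * x⁻¹ = (x * q * x⁻¹ * q⁻¹) * q := by group
    rw [h3]
    exact Q.mul_mem (hcomm x hx q (hQP hq)) hq
  -- p'-elements of N_G(P) centralize P
  have hcent : ∀ z ∈ Subgroup.normalizer ((P : Subgroup G) : Set G), (orderOf z).Coprime p →
      ∀ x ∈ (P : Subgroup G), z * x * z⁻¹ = x := by
    intro z hz hzo x hx
    obtain ⟨K₀, hK₀n, hK₀c, k, hK₀i⟩ := hN
    haveI := hK₀n
    have hzK : (⟨z, hz⟩ : Subgroup.normalizer ((P : Subgroup G) : Set G)) ∈ K₀ := by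
      apply Lib.Helper22.mem_of_pow_mem_of_coprime K₀ _ (orderOf z) (p ^ k)
        (Nat.Coprime.pow_right k hzo)
      · have : (⟨z, hz⟩ : Subgroup.normalizer ((P : Subgroup G) : Set G)) ^ orderOf z = 1 := by
          apply Subtype.ext
          simp [pow_orderOf_eq_one]
        rw [this]; exact K₀.one_mem
      · rw [← hK₀i]; exact K₀.pow_index_mem _
    have hxN : x ∈ Subgroup.normalizer ((P : Subgroup G) : Set G) := Subgroup.le_normalizer hx
    have hcK : (⟨z, hz⟩ : Subgroup.normalizer ((P : Subgroup G) : Set G)) *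
        (⟨x, hxN⟩ * (⟨z, hz⟩ : Subgroup.normalizer ((P : Subgroup G) : Set G))⁻¹ * ⟨x, hxN⟩⁻¹) ∈ K₀ :=
      K₀.mul_mem hzK (hK₀n.conj_mem _ (K₀.inv_mem hzK) _)
    set c := z * x * z⁻¹ * x⁻¹ with hc
    have hcP : c ∈ (P : Subgroup G) :=
      (P : Subgroup G).mul_mem ((Subgroup.mem_normalizer_iff.1 hz x).1 hx)
        ((P : Subgroup G).inv_mem hx)
    have hco1 : (orderOf c).Coprime p := by
      have h3 : orderOf c = orderOf ((⟨z, hz⟩ : Subgroup.normalizer ((P : Subgroup G) : Set G)) *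
        (⟨x, hxN⟩ * (⟨z, hz⟩ : Subgroup.normalizer ((P : Subgroup G) : Set G))⁻¹ * ⟨x, hxN⟩⁻¹)) := by
        rw [← Subgroup.orderOf_coe]
        congr 1
        rw [hc]
        simp [mul_assoc]
      rw [h3]
      exact Nat.Coprime.coprime_dvd_left (Subgroup.orderOf_dvd_natCard K₀ hcK) hK₀c
    obtain ⟨j, hj⟩ := (IsPGroup.iff_orderOf.1 P.2) ⟨c, hcP⟩
    rw [Subgroup.orderOf_mk] at hj
    have hc1 : c = 1 := by
      rw [hj] at hco1
      rcases Nat.eq_zero_or_pos j with rfl | hj0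
      · rw [pow_zero, orderOf_eq_one_iff] at hj; exact hj
      · exfalso
        have : p ∣ Nat.gcd (p ^ j) p := Nat.dvd_gcd (dvd_pow_self p hj0.ne') dvd_rfl
        rw [hco1] at this
        exact hp.one_lt.ne' (Nat.dvd_one.1 this)
    have h4 : z * x * z⁻¹ = c * x := by rw [hc]; group
    rw [h4, hc1, one_mul]
  refine lemX (P.subtype hPM) (Q.subgroupOf Mg) ?_ ?_ ?_
  · intro x hx
    exact hQP hx
  · intro A hA hgen
    let K : Subgroup (P : Subgroup G) := (A.map Mg.subtype).subgroupOf (P : Subgroup G)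
    have hK : K = ⊤ := by
      apply frattini_nongenerating
      rw [eq_top_iff]
      intro x _
      obtain ⟨a, ha, q, hq, he⟩ := hgen ⟨x.1, hPM x.2⟩ x.2
      obtain ⟨φ, hφ, hφq⟩ := h2 hq
      have haP : (a : G) ∈ (P : Subgroup G) := hA ha
      have hx : x = ⟨(a : G), haP⟩ * φ := by
        apply Subtype.ext
        have := congrArg Subtype.val he
        rw [Subgroup.coe_mul]
        rw [show ((φ : (P : Subgroup G)) : G) = (q : G) from hφq]
        exact this
      rw [hx]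
      exact Subgroup.mul_mem_sup (show (⟨(a : G), haP⟩ : (P : Subgroup G)) ∈ K from ⟨a, ha, rfl⟩) hφ
    intro x hx
    have h3 : (⟨x.1, hx⟩ : (P : Subgroup G)) ∈ K := hK ▸ Subgroup.mem_top _
    obtain ⟨a, ha, hax⟩ := h3
    have : a = x := Subtype.ext hax
    exact this ▸ ha
  · intro g hg x hx
    have hgN : (g : G) ∈ Subgroup.normalizer ((P : Subgroup G) : Set G) := by
      apply mem_normalizer_of_forall'
      intro y hy
      exact hg ⟨y, hPM hy⟩ hy
    obtain ⟨z, y, hz, hy, hgzy, hzo, a, hya⟩ := Lib.Helper1.exists_pPart_decomp hp (g : G)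
    have hzpN : Subgroup.zpowers (g : G) ≤ Subgroup.normalizer ((P : Subgroup G) : Set G) := by
      rw [Subgroup.zpowers_le]; exact hgN
    have hyP : y ∈ (P : Subgroup G) := by
      have hzy : IsPGroup p (Subgroup.zpowers y) := by
        rw [IsPGroup.iff_orderOf]
        rintro ⟨w, hw⟩
        obtain ⟨n, rfl⟩ := Subgroup.mem_zpowers_iff.1 hw
        have h3 : orderOf (⟨y ^ n, hw⟩ : Subgroup.zpowers y) ∣ p ^ a := by
          apply orderOf_dvd_of_pow_eq_one
          apply Subtype.ext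
          show (y ^ n) ^ p ^ a = 1
          rw [← zpow_natCast, ← zpow_mul, mul_comm, zpow_mul, zpow_natCast, hya, one_zpow]
        obtain ⟨j, _, hj⟩ := (Nat.dvd_prime_pow hp).1 h3
        exact ⟨j, hj⟩
      have h4 := hzy.inf_normalizer_sylow P
      have h5 : y ∈ Subgroup.zpowers y ⊓ (P : Subgroup G) := by
        rw [← h4]
        exact Subgroup.mem_inf.2 ⟨Subgroup.mem_zpowers _, hzpN hy⟩
      exact (Subgroup.mem_inf.1 h5).2
    have hxP : (x : G) ∈ (P : Subgroup G) := hx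
    show (g : G) * x * (g : G)⁻¹ * (x : G)⁻¹ ∈ Q
    have h6 : (g : G) * x * (g : G)⁻¹ = z * (y * x * y⁻¹) * z⁻¹ := by
      conv_lhs => rw [hgzy]
      group
    rw [h6, hcent z (hzpN hz) hzo _
      ((P : Subgroup G).mul_mem ((P : Subgroup G).mul_mem hyP hxP) ((P : Subgroup G).inv_mem hyP))]
    exact hcomm y hyP x hxP

end Cfsg.Agent.S3838
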