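import Cfsg.Statements.S3858
import Cfsg.Agent.Lib.Helper18.AlmostSimpleSyl
import Mathlib

set_option autoImplicit false
open Cfsg

namespace Cfsg.Agent.S3858

open Cfsg.Agent.Lib.Helper18 Cfsg.Agent.Lib.Helper17

theorem coatom_conj {G : Type*} [Group G] {M : Subgroup G} (hM : IsCoatom M) (g : G) :
    IsCoatom (M.map (MulAut.conj g).toMonoidHom) := by
  refine ⟨?_, ?_⟩
  · intro h
    apply hM.1
    have h2 : (M.map (MulAut.conj g).toMonoidHom).map (MulAut.conj g⁻¹).toMonoidHom = M := by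
      rw [map_conj_map_conj, inv_mul_cancel, map_conj_one]
    rw [← h2, h, eq_top_iff]
    intro x _
    rw [mem_map_conj]
    trivial
  · intro K hK
    have h1 : M < K.map (MulAut.conj g⁻¹).toMonoidHom := by
      constructor
      · rw [le_map_conj_iff, inv_inv]; exact hK.le
      · intro h
        apply hK.not_ge
        rw [le_map_conj_iff]
        exact h
    have h2 := hM.2 _ h1
    have h3 : (K.map (MulAut.conj g⁻¹).toMonoidHom).map (MulAut.conj g).toMonoidHom = K := by
      rw [map_conj_map_conj, mul_inv_cancel, map_conj_one]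
    rw [← h3, h2, eq_top_iff]
    intro x _
    rw [mem_map_conj]
    trivial

/-- a subgroup of index prime to `r` contains a conjugate of `R` -/
theorem exists_conj_le {G : Type*} [Group G] [Finite G] {r : ℕ} [Fact r.Prime] (R : Sylow r G)
    (M : Subgroup G) (hM : ¬ r ∣ M.index) :
    ∃ g : G, (R : Subgroup G) ≤ M.map (MulAut.conj g).toMonoidHom := by
  obtain ⟨T1, hT1⟩ := exists_isSyl r M
  have h1 : IsSyl r T1 ⊤ := by
    apply isSyl_of_not_dvd_relIndex le_top hT1.isPGroup
    rw [Subgroup.relIndex_top_right, ← Subgroup.relIndex_mul_index hT1.le]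
    intro h
    rcases (Nat.Prime.dvd_mul Fact.out).mp h with h | h
    · exact hT1.not_dvd_relIndex h
    · exact hM h
  obtain ⟨g, _, hg⟩ := h1.conj (isSyl_top R)
  exact ⟨g, by rw [hg]; exact Subgroup.map_mono hT1.le⟩

/-- Let G be a finite group with a normal non-abelian simple subgroup T whose centralizer is trivial (G almost simple with socle T), r a prime and R a Sylow r-subgroup of G meeting T nontrivially. Then R lies in exactly one maximal subgroup of G if and only if G has exactly one conjugacy class of maximal subgroups whose index is prime to r. -/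
theorem result {G : Type*} [Group G] [Finite G] (T : Subgroup G) [T.Normal] (hT : IsSimpleGroup T) (hna : ¬ IsMulCommutative T)
    (hC : Subgroup.centralizer (T : Set G) = ⊥) {r : ℕ} [Fact r.Prime] (R : Sylow r G) (hR0 : (R : Subgroup G) ⊓ T ≠ ⊥) :
    (∃! M : Subgroup G, IsCoatom M ∧ (R : Subgroup G) ≤ M) ↔
      ((∃ M : Subgroup G, IsCoatom M ∧ ¬ r ∣ M.index) ∧
        ∀ M₁ M₂ : Subgroup G, IsCoatom M₁ → ¬ r ∣ M₁.index → IsCoatom M₂ → ¬ r ∣ M₂.index → ∃ g : G, M₂ = M₁.map (MulAut.conj g).toMonoidHom) := by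
  have hne := normalizer_inf_simple_ne_top T hT hna R hR0
  have hidx : ∀ M : Subgroup G, (R : Subgroup G) ≤ M → ¬ r ∣ M.index := fun M hRM h =>
    R.not_dvd_index (h.trans (Subgroup.index_dvd_of_le hRM))
  constructor
  · rintro ⟨M, ⟨hM, hRM⟩, huM⟩
    refine ⟨⟨M, hM, hidx M hRM⟩, ?_⟩
    intro M₁ M₂ h1 h1' h2 h2'
    obtain ⟨g1, hg1⟩ := exists_conj_le R M₁ h1'
    obtain ⟨g2, hg2⟩ := exists_conj_le R M₂ h2'
    have e1 := huM _ ⟨coatom_conj h1 g1, hg1⟩
    have e2 := huM _ ⟨coatom_conj h2 g2, hg2⟩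
    refine ⟨g2⁻¹ * g1, ?_⟩
    rw [← map_conj_map_conj, e1, ← e2, map_conj_map_conj, inv_mul_cancel, map_conj_one]
  · rintro ⟨-, hconj⟩
    obtain ⟨M0, hM0, hNM0⟩ := (eq_top_or_exists_le_coatom _).resolve_left hne
    have hNR : Subgroup.normalizer ((R : Subgroup G) : Set G) ≤ M0 :=
      (sylow_le_normalizer_inf T R).trans hNM0
    have hRM0 : (R : Subgroup G) ≤ M0 := Subgroup.le_normalizer.trans hNR
    refine ⟨M0, ⟨hM0, hRM0⟩, ?_⟩
    rintro M' ⟨hM', hRM'⟩
    obtain ⟨g, hg⟩ := hconj M0 M' hM0 (hidx _ hRM0) hM' (hidx _ hRM')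
    -- R and g R g⁻¹ are Sylow in M'
    have hs1 : IsSyl r (R : Subgroup G) M' := (isSyl_top R).of_le hRM' le_top
    have hs2 : IsSyl r ((R : Subgroup G).map (MulAut.conj g).toMonoidHom) M' := by
      have := ((isSyl_top R).of_le hRM0 le_top).map_conj g
      rwa [← hg] at this
    obtain ⟨m, hm, hmR⟩ := hs2.conj hs1
    rw [map_conj_map_conj] at hmR
    have hn : m * g ∈ Subgroup.normalizer ((R : Subgroup G) : Set G) := by
      rw [mem_normalizer_iff_map_conj]; exact hmR.symm
    have hmg : m * g ∈ M0 := hNR hn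
    have h3 : M0.map (MulAut.conj (m * g)).toMonoidHom = M0 :=
      map_conj_eq_of_mem_normalizer (Subgroup.le_normalizer hmg)
    have h4 : M'.map (MulAut.conj m).toMonoidHom = M' :=
      map_conj_eq_of_mem_normalizer (Subgroup.le_normalizer hm)
    rw [← h4, hg, map_conj_map_conj, h3]

end Cfsg.Agent.S3858
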