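import Cfsg.Statements.S3859
import Cfsg.Agent.Lib.Helper18.AlmostSimpleSyl
import Mathlib

set_option autoImplicit false
open Cfsg

namespace Cfsg.Agent.S3859

open Cfsg.Agent.Lib.Helper18 Cfsg.Agent.Lib.Helper17

/-- Let G be a finite group with a normal non-abelian simple subgroup T whose centralizer is trivial (G almost simple with socle T), r a prime and R a Sylow r-subgroup of G meeting T nontrivially. If R lies in exactly one maximal subgroup of G, then G/T is an r-group. -/
theorem result {G : Type*} [Group G] [Finite G] (T : Subgroup G) [T.Normal] (hT : IsSimpleGroup T) (hna : ¬ IsMulCommutative T)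
    (hC : Subgroup.centralizer (T : Set G) = ⊥) {r : ℕ} [Fact r.Prime] (R : Sylow r G) (hR0 : (R : Subgroup G) ⊓ T ≠ ⊥)
    (huniq : ∃! M : Subgroup G, IsCoatom M ∧ (R : Subgroup G) ≤ M) : IsPGroup r (G ⧸ T) := by
  obtain ⟨M, ⟨hM, hRM⟩, huM⟩ := huniq
  have hne := normalizer_inf_simple_ne_top T hT hna R hR0
  have hfr := sup_normalizer_inf_eq_top T R
  have hRN : (R : Subgroup G) ≤ Subgroup.normalizer (((R : Subgroup G) ⊓ T : Subgroup G) : Set G) :=
    Subgroup.le_normalizer.trans (sylow_le_normalizer_inf T R)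
  obtain ⟨M0, hM0, hNM0⟩ := (eq_top_or_exists_le_coatom _).resolve_left hne
  have hM0M : M0 = M := huM M0 ⟨hM0, hRN.trans hNM0⟩
  have hTM : ¬ T ≤ M := by
    intro hTM
    apply hM.1
    rw [eq_top_iff, ← hfr]
    exact sup_le hTM (hM0M ▸ hNM0)
  have htop : (R : Subgroup G) ⊔ T = ⊤ := by
    rcases eq_top_or_exists_le_coatom ((R : Subgroup G) ⊔ T) with h | ⟨M1, hM1, hle⟩
    · exact h
    · exfalso
      have : M1 = M := huM M1 ⟨hM1, le_sup_left.trans hle⟩
      exact hTM (this ▸ le_sup_right.trans hle)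
  intro x
  obtain ⟨g, rfl⟩ := QuotientGroup.mk_surjective x
  have hg : g ∈ (R : Subgroup G) ⊔ T := by rw [htop]; trivial
  rw [Subgroup.mem_sup_of_normal_right] at hg
  obtain ⟨a, ha, b, hb, rfl⟩ := hg
  obtain ⟨k, hk⟩ := R.2 ⟨a, ha⟩
  refine ⟨k, ?_⟩
  have h1 : (QuotientGroup.mk (a * b) : G ⧸ T) = QuotientGroup.mk a := by
    rw [QuotientGroup.mk_mul, (QuotientGroup.eq_one_iff b).mpr hb, mul_one]
  rw [h1, ← QuotientGroup.mk_pow]
  have : a ^ r ^ k = 1 := congrArg Subtype.val hk
  rw [this]; rfl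

end Cfsg.Agent.S3859
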