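import Cfsg.Statements.S3863
import Mathlib
-- import your own Cfsg.Agent.* helpers here

set_option autoImplicit false
open Cfsg

namespace Cfsg.Agent.S3863

theorem conj_pow_odd {G : Type*} [Group G] (x g : G) (h : g * x * g⁻¹ = x⁻¹) (m : ℕ) (hm : Odd m) :
    g ^ m * x * (g ^ m)⁻¹ = x⁻¹ := by
  obtain ⟨k, rfl⟩ := hm
  have h2 : Commute (g ^ 2) x := by
    have h3 : g * x⁻¹ * g⁻¹ = x := by
      have := congrArg (·⁻¹) h
      simp only [mul_inv_rev, inv_inv] at this
      rw [← mul_assoc] at this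
      exact this
    change g ^ 2 * x = x * g ^ 2
    calc g ^ 2 * x = g * (g * x * g⁻¹) * g⁻¹ * g ^ 2 := by rw [pow_two]; group
      _ = x * g ^ 2 := by rw [h, h3]
  have h4 : Commute (g ^ (2 * k)) x := by rw [pow_mul]; exact h2.pow_left k
  calc g ^ (2 * k + 1) * x * (g ^ (2 * k + 1))⁻¹
      = g * (g ^ (2 * k) * x) * (g ^ (2 * k))⁻¹ * g⁻¹ := by rw [pow_succ']; group
    _ = g * (x * g ^ (2 * k)) * (g ^ (2 * k))⁻¹ * g⁻¹ := by rw [h4.eq]
    _ = g * x * g⁻¹ := by group
    _ = x⁻¹ := h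

theorem exists_two_elt {G : Type*} [Group G] [Finite G] (x g : G) (h : g * x * g⁻¹ = x⁻¹) :
    ∃ t : G, (∃ j : ℕ, orderOf t = 2 ^ j) ∧ t * x * t⁻¹ = x⁻¹ := by
  obtain ⟨a, m, hm, hgm⟩ := Nat.exists_eq_two_pow_mul_odd (orderOf_pos g).ne'
  refine ⟨g ^ m, ⟨a, ?_⟩, conj_pow_odd x g h m hm⟩
  rw [orderOf_pow_of_dvd hm.pos.ne' (by rw [hgm]; exact dvd_mul_left m _), hgm,
    Nat.mul_div_cancel _ hm.pos]

/-- in a group of odd order a 2-element is trivial -/
theorem eq_one_of_odd {Q : Type*} [Group Q] [Finite Q] (hQ : Odd (Nat.card Q)) (t : Q) (j : ℕ)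
    (ht : t ^ 2 ^ j = 1) : t = 1 := by
  have h1 : orderOf t ∣ 2 ^ j := orderOf_dvd_of_pow_eq_one ht
  have h2 : orderOf t ∣ Nat.card Q := orderOf_dvd_natCard t
  have h3 : Nat.Coprime (2 ^ j) (Nat.card Q) := Nat.Coprime.pow_left j (Nat.coprime_two_left.mpr hQ)
  exact orderOf_eq_one_iff.mp (Nat.eq_one_of_dvd_coprimes h3 h1 h2)

/-- Let x be an element of the finite group G that is conjugate to its inverse. Then some 2-element conjugates x to its inverse; if the conjugacy class of x has odd size then x ^ 2 = 1; and x lies in, and is conjugate to its inverse inside, every normal subgroup of odd index. -/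
theorem result {G : Type*} [Group G] [Finite G] (x : G) (hx : IsConj x x⁻¹) : (∃ t : G, (∃ j : ℕ, orderOf t = 2 ^ j) ∧ t * x * t⁻¹ = x⁻¹) ∧ (Odd (Subgroup.centralizer ({x} : Set G)).index → x ^ 2 = 1) ∧ ∀ (N : Subgroup G) [N.Normal], Odd N.index → ∃ hxN : x ∈ N, IsConj (⟨x, hxN⟩ : N) (⟨x, hxN⟩ : N)⁻¹ := by
  obtain ⟨g, hg⟩ := isConj_iff.mp hx
  obtain ⟨t, ⟨j, hj⟩, ht⟩ := exists_two_elt x g hg
  refine ⟨⟨t, ⟨j, hj⟩, ht⟩, ?_, ?_⟩
  · intro hodd
    by_contra hx2
    -- `t ∉ C(x)` but `t² ∈ C(x)` and `t` normalizes `C(x)`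
    obtain ⟨C, hC⟩ : ∃ C, C = Subgroup.centralizer ({x} : Set G) := ⟨_, rfl⟩
    rw [← hC] at hodd
    have hmem : ∀ c, c ∈ C ↔ c * x = x * c := by
      intro c
      rw [hC, Subgroup.mem_centralizer_iff]
      constructor
      · intro hc; exact (hc x rfl).symm
      · intro hc z hz; rw [Set.mem_singleton_iff.mp hz]; exact hc.symm
    -- the extended centralizer
    let D : Subgroup G :=
      { carrier := {c | c * x * c⁻¹ = x ∨ c * x * c⁻¹ = x⁻¹}
        one_mem' := Or.inl (by group)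
        mul_mem' := by
          intro a b ha hb
          have hinv : ∀ c : G, c * x⁻¹ * c⁻¹ = (c * x * c⁻¹)⁻¹ := by intro c; group
          have e : a * b * x * (a * b)⁻¹ = a * (b * x * b⁻¹) * a⁻¹ := by group
          rcases ha with ha | ha <;> rcases hb with hb | hb
          · left; rw [e, hb, ha]
          · right; rw [e, hb, hinv, ha]
          · right; rw [e, hb, ha]
          · left; rw [e, hb, hinv, ha, inv_inv]
        inv_mem' := by
          intro a ha
          rcases ha with ha | ha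
          · left
            calc a⁻¹ * x * a⁻¹⁻¹ = a⁻¹ * (a * x * a⁻¹) * a := by rw [ha, inv_inv]
              _ = x := by group
          · right
            have : x = a * x⁻¹ * a⁻¹ := by
              have h1 : a * x⁻¹ * a⁻¹ = (a * x * a⁻¹)⁻¹ := by group
              rw [h1, ha, inv_inv]
            calc a⁻¹ * x * a⁻¹⁻¹ = a⁻¹ * (a * x⁻¹ * a⁻¹) * a := by rw [← this, inv_inv]
              _ = x⁻¹ := by group }
    have hCD : C ≤ D := by
      intro c hc
      left
      rw [(hmem c).mp hc]; group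
    have htD : t ∈ D := Or.inr ht
    have htC : t ∉ C := by
      intro h
      apply hx2
      have h1 : t * x * t⁻¹ = x := by rw [(hmem t).mp h]; group
      rw [h1] at ht
      rw [pow_two]
      calc x * x = x * x⁻¹ := by rw [← ht]
        _ = 1 := mul_inv_cancel x
    have hrel : C.relIndex D = 2 := by
      rw [Subgroup.relIndex_eq_two_iff_exists_notMem_and']
      refine ⟨t, htD, htC, ?_⟩
      intro b hb
      rcases hb with hb | hb
      · right
        rw [hmem]
        calc b * x = b * x * b⁻¹ * b := by group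
          _ = x * b := by rw [hb]
      · left
        rw [hmem]
        have hinv : t * x⁻¹ * t⁻¹ = x := by
          have h1 : t * x⁻¹ * t⁻¹ = (t * x * t⁻¹)⁻¹ := by group
          rw [h1, ht, inv_inv]
        calc t * b * x = t * (b * x * b⁻¹) * t⁻¹ * (t * b) := by group
          _ = x * (t * b) := by rw [hb, hinv]
    have h2 : 2 ∣ C.index := by
      rw [← Subgroup.relIndex_mul_index hCD, hrel]
      exact dvd_mul_right 2 _
    exact (Nat.not_even_iff_odd.mpr hodd) (even_iff_two_dvd.mpr h2)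
  · intro N hN hodd
    have hQ : Odd (Nat.card (G ⧸ N)) := hodd
    have htN : t ∈ N := by
      rw [← QuotientGroup.eq_one_iff]
      apply eq_one_of_odd hQ _ j
      rw [← QuotientGroup.mk_pow, ← hj, pow_orderOf_eq_one]
      rfl
    have hxN : x ∈ N := by
      -- `x⁻² = t x t⁻¹ x⁻¹ ∈ N`
      have h1 : x⁻¹ * x⁻¹ ∈ N := by
        have : x⁻¹ * x⁻¹ = t * (x * t⁻¹ * x⁻¹) := by
          calc x⁻¹ * x⁻¹ = t * x * t⁻¹ * x⁻¹ := by rw [ht]
            _ = t * (x * t⁻¹ * x⁻¹) := by group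
        rw [this]
        exact N.mul_mem htN (hN.conj_mem _ (N.inv_mem htN) x)
      rw [← QuotientGroup.eq_one_iff]
      apply eq_one_of_odd hQ _ 1
      rw [pow_one, ← QuotientGroup.mk_pow, QuotientGroup.eq_one_iff]
      have : x ^ 2 = (x⁻¹ * x⁻¹)⁻¹ := by group
      rw [this]
      exact N.inv_mem h1
    refine ⟨hxN, ?_⟩
    rw [isConj_iff]
    exact ⟨⟨t, htN⟩, Subtype.ext ht⟩

end Cfsg.Agent.S3863
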