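import Cfsg.Statements.S3861
import Mathlib
import Cfsg.Agent.Lib.Helper17.Core
import Cfsg.Agent.Lib.Helper1.SZSub
import Cfsg.Agent.S3863
import Cfsg.Agent.S0067
-- import your own Cfsg.Agent.* helpers here

set_option autoImplicit false
open Cfsg

namespace Cfsg.Agent.S3861

open Cfsg.Agent.Lib.Helper17 Cfsg.Agent.Lib.Helper1
open scoped Pointwise

/-- no non-identity real element of odd order -/
def NoOddReal (G : Type*) [Group G] : Prop :=
  ∀ x : G, x ≠ 1 → Odd (orderOf x) → ¬ IsConj x x⁻¹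

theorem isPGroup_zpowers_of_pow {G : Type*} [Group G] (y : G) (a : ℕ) (h : y ^ 2 ^ a = 1) :
    IsPGroup 2 (Subgroup.zpowers y) := by
  have h1 : orderOf y ∣ 2 ^ a := orderOf_dvd_of_pow_eq_one h
  obtain ⟨k, -, hk⟩ := (Nat.dvd_prime_pow Nat.prime_two).mp h1
  exact IsPGroup.of_card (n := k) (by rw [Nat.card_zpowers, hk])

/-- two involutions generate a 2-group -/
theorem two_invol {G : Type*} [Group G] [Finite G] (hno : NoOddReal G) (t s : G)
    (ht : t * t = 1) (hs : s * s = 1) :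
    IsPGroup 2 (Subgroup.zpowers t ⊔ Subgroup.zpowers s : Subgroup G) := by
  have : Fact (Nat.Prime 2) := ⟨Nat.prime_two⟩
  have htinv : t⁻¹ = t := inv_eq_of_mul_eq_one_left ht
  have hsinv : s⁻¹ = s := inv_eq_of_mul_eq_one_left hs
  obtain ⟨y, hy⟩ : ∃ y, y = t * s := ⟨_, rfl⟩
  have hinv : t * y * t⁻¹ = y⁻¹ := by
    rw [hy, mul_inv_rev, htinv, hsinv, ← mul_assoc, ht, one_mul]
  obtain ⟨a, m, hm, hym⟩ := Nat.exists_eq_two_pow_mul_odd (orderOf_pos y).ne'
  have hy2 : y ^ 2 ^ a = 1 := by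
    by_contra hne
    apply hno _ hne
    · rw [orderOf_pow_of_dvd (pow_pos (by norm_num) a).ne' (by rw [hym]; exact dvd_mul_right _ m), hym,
        Nat.mul_div_cancel_left _ (pow_pos (by norm_num) a)]
      exact hm
    · rw [isConj_iff]
      exact ⟨t, by rw [← conj_pow, hinv, inv_pow]⟩
  have hyp := isPGroup_zpowers_of_pow y a hy2
  have htp : IsPGroup 2 (Subgroup.zpowers t) := isPGroup_zpowers_of_pow t 1 (by rw [pow_one, pow_two, ht])
  have hn : Subgroup.zpowers t ≤ Subgroup.normalizer (Subgroup.zpowers y : Set G) := by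
    rw [Subgroup.zpowers_le, mem_normalizer_iff_map_conj, MonoidHom.map_zpowers]
    have : (MulAut.conj t).toMonoidHom y = y⁻¹ := hinv
    rw [this, Subgroup.zpowers_inv]
  have hsup := IsPGroup.to_sup_of_normal_right' htp hyp hn
  apply hsup.to_le
  apply sup_le le_sup_left
  rw [Subgroup.zpowers_le]
  have : s = t * y := by rw [hy, ← mul_assoc, ht, one_mul]
  rw [this]
  exact Subgroup.mul_mem _ ((le_sup_left : Subgroup.zpowers t ≤ _) (Subgroup.mem_zpowers t))
    ((le_sup_right : Subgroup.zpowers y ≤ _) (Subgroup.mem_zpowers y))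

/-- the property passes to quotients by normal 2-subgroups -/
theorem quot {G : Type*} [Group G] [Finite G] (hno : NoOddReal G) (R : Subgroup G) [R.Normal]
    (hR : IsPGroup 2 R) : NoOddReal (G ⧸ R) := by
  have : Fact (Nat.Prime 2) := ⟨Nat.prime_two⟩
  intro xb hxb1 hxbo hconj
  obtain ⟨gb, hgb⟩ := isConj_iff.mp hconj
  obtain ⟨x0, rfl⟩ := QuotientGroup.mk_surjective xb
  obtain ⟨g, rfl⟩ := QuotientGroup.mk_surjective gb
  obtain ⟨a, m, hm, hxm⟩ := Nat.exists_eq_two_pow_mul_odd (orderOf_pos x0).ne'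
  obtain ⟨x, hx⟩ : ∃ x, x = x0 ^ 2 ^ a := ⟨_, rfl⟩
  have hxo : orderOf x = m := by
    rw [hx, orderOf_pow_of_dvd (pow_pos (by norm_num) a).ne' (by rw [hxm]; exact dvd_mul_right _ m), hxm,
        Nat.mul_div_cancel_left _ (pow_pos (by norm_num) a)]
  have hxR : x ∉ R := by
    intro h
    rw [← QuotientGroup.eq_one_iff, hx, QuotientGroup.mk_pow] at h
    have h1 := orderOf_dvd_of_pow_eq_one h
    have h2 : Nat.Coprime (orderOf (x0 : G ⧸ R)) (2 ^ a) :=
      (Nat.Coprime.pow_left a (Nat.coprime_two_left.mpr hxbo)).symm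
    exact hxb1 (orderOf_eq_one_iff.mp (Nat.eq_one_of_dvd_coprimes h2 dvd_rfl h1))
  have hx1 : x ≠ 1 := fun h => hxR (h ▸ R.one_mem)
  have hgx : x * (g * x * g⁻¹) ∈ R := by
    rw [← QuotientGroup.eq_one_iff, hx]
    simp only [QuotientGroup.mk_mul, QuotientGroup.mk_pow, QuotientGroup.mk_inv]
    rw [← conj_pow, hgb, inv_pow, mul_inv_cancel]
  obtain ⟨X, hX⟩ : ∃ X, X = Subgroup.zpowers x := ⟨_, rfl⟩
  have hXcard : Nat.card X = m := by rw [hX, Nat.card_zpowers, hxo]
  obtain ⟨k, hk⟩ := hR.exists_card_eq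
  have hcopRX : (Nat.card R).Coprime (Nat.card X) := by
    rw [hk, hXcard]; exact Nat.Coprime.pow_left k (Nat.coprime_two_left.mpr hm)
  have hRX : R ⊓ X = ⊥ := disjoint_iff.mp (Subgroup.disjoint_of_coprime_natCard hcopRX)
  have hrel : R.relIndex (R ⊔ X) = Nat.card X := by
    rw [Subgroup.relIndex_sup_left, ← Subgroup.inf_relIndex_right, hRX, Subgroup.relIndex_bot_left]
  have hxX : x ∈ X := by rw [hX]; exact Subgroup.mem_zpowers x
  have hgX : MulAut.conj g • X ≤ R ⊔ X := by
    have h1 : MulAut.conj g • X = Subgroup.zpowers (g * x * g⁻¹) := by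
      rw [hX]
      exact MonoidHom.map_zpowers (MulAut.conj g).toMonoidHom x
    rw [h1, Subgroup.zpowers_le]
    have : g * x * g⁻¹ = x⁻¹ * (x * (g * x * g⁻¹)) := by group
    rw [this]
    exact Subgroup.mul_mem _ ((le_sup_right : X ≤ R ⊔ X) (X.inv_mem hxX))
      ((le_sup_left : R ≤ R ⊔ X) hgx)
  obtain ⟨r, hr, hrX⟩ := sz_conj_sub R (R ⊔ X) le_sup_left
    (by rw [Subgroup.normalizer_eq_top]; exact le_top) (by rw [hrel]; exact hcopRX)
    (MulAut.conj g • X) X hgX le_sup_right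
    (by rw [hrel]; exact Subgroup.card_map_of_injective (MulAut.conj g).injective) hrel.symm
    (Or.inl (by
      have := hR.isNilpotent
      infer_instance))
  have hmem : r * (g * x * g⁻¹) * r⁻¹ ∈ X := by
    rw [← hrX]
    exact ⟨g * x * g⁻¹, ⟨x, hxX, rfl⟩, rfl⟩
  have hfin : x * (r * (g * x * g⁻¹) * r⁻¹) ∈ R ⊓ X := by
    refine ⟨?_, X.mul_mem hxX hmem⟩
    have : x * (r * (g * x * g⁻¹) * r⁻¹) =
        (x * r * x⁻¹) * (x * (g * x * g⁻¹)) * r⁻¹ := by group
    rw [this]
    exact R.mul_mem (R.mul_mem ((inferInstance : R.Normal).conj_mem r hr x) hgx) (R.inv_mem hr)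
  rw [hRX, Subgroup.mem_bot] at hfin
  apply hno x hx1 (by rw [hxo]; exact hm)
  rw [isConj_iff]
  refine ⟨r * g, ?_⟩
  have : r * g * x * (r * g)⁻¹ = r * (g * x * g⁻¹) * r⁻¹ := by group
  rw [this]
  exact (eq_inv_of_mul_eq_one_right hfin)

theorem main : ∀ (n : ℕ) (G : Type*) [Group G] [Finite G], Nat.card G = n → NoOddReal G →
    ∀ P : Sylow 2 G, (P : Subgroup G).Normal := by
  intro n
  induction n using Nat.strong_induction_on with
  | _ n ih =>
  intro G _ _ hn hno P
  have : Fact (Nat.Prime 2) := ⟨Nat.prime_two⟩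
  by_cases h2 : 2 ∣ Nat.card G
  · obtain ⟨t, ht⟩ := exists_prime_orderOf_dvd_card' (G := G) 2 h2
    have htt : t * t = 1 := by rw [← pow_two, ← ht, pow_orderOf_eq_one]
    have ht1 : t ≠ 1 := by
      intro h; rw [h, orderOf_one] at ht; omega
    have h67 := Cfsg.Agent.S0067.result (Subgroup.zpowers t) (by
      intro g
      have h1 : MulAut.conj g • Subgroup.zpowers t = Subgroup.zpowers (g * t * g⁻¹) :=
        MonoidHom.map_zpowers (MulAut.conj g).toMonoidHom t
      rw [h1]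
      exact (two_invol hno t (g * t * g⁻¹) htt (by
        calc g * t * g⁻¹ * (g * t * g⁻¹) = g * (t * t) * g⁻¹ := by group
          _ = 1 := by rw [htt]; group)).isNilpotent)
    have htR : Subgroup.zpowers t ≤ pCore 2 G :=
      subnormal_pgroup_le_pCore h67.1 (isPGroup_zpowers_of_pow t 1 (by rw [pow_one, pow_two, htt]))
    have hRn : (pCore 2 G).Normal := inferInstance
    have hRp : IsPGroup 2 (pCore 2 G) := pCore_isPGroup
    have hRne : pCore 2 G ≠ ⊥ := by
      intro h
      rw [h, le_bot_iff, Subgroup.zpowers_eq_bot] at htR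
      exact ht1 htR
    have hlt : Nat.card (G ⧸ pCore 2 G) < n := by
      rw [← hn, ← (pCore 2 G).card_mul_index]
      have h1 : 1 < Nat.card (pCore 2 G) := by
        rw [Subgroup.one_lt_card_iff_ne_bot]; exact hRne
      have h2 : 0 < (pCore 2 G).index := Nat.pos_of_ne_zero (Subgroup.index_ne_zero_of_finite)
      change (pCore 2 G).index < _
      nlinarith
    have hsurj := QuotientGroup.mk'_surjective (pCore 2 G)
    have hnorm := ih _ hlt (G ⧸ pCore 2 G) rfl (quot hno (pCore 2 G) hRp) (P.mapSurjective hsurj)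
    rw [Sylow.coe_mapSurjective] at hnorm
    have hcomap := hnorm.comap (QuotientGroup.mk' (pCore 2 G))
    rwa [Subgroup.comap_map_eq_self (by rw [QuotientGroup.ker_mk']; exact pCore_le_sylow P)] at hcomap
  · have : (P : Subgroup G) = ⊥ := by
      obtain ⟨k, hk⟩ := P.2.exists_card_eq
      have hk0 : k = 0 := by
        by_contra hk0
        apply h2
        have : 2 ∣ Nat.card (P : Subgroup G) := by rw [hk]; exact dvd_pow_self 2 hk0
        exact this.trans (Subgroup.card_subgroup_dvd_card _)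
      rw [hk0, pow_zero] at hk
      exact Subgroup.card_eq_one.mp hk
    rw [this]; infer_instance

/-- A finite group G has no non-identity element of odd order that is conjugate to its inverse if and only if the Sylow 2-subgroups of G are normal. -/
theorem result {G : Type*} [Group G] [Finite G] (P : Sylow 2 G) : (∀ x : G, x ≠ 1 → Odd (orderOf x) → ¬ IsConj x x⁻¹) ↔ (P : Subgroup G).Normal := by
  constructor
  · intro h
    exact main _ G rfl h P
  · intro hP x hx1 hxo hconj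
    obtain ⟨g, hg⟩ := isConj_iff.mp hconj
    obtain ⟨t, ⟨j, hj⟩, ht⟩ := Cfsg.Agent.S3863.exists_two_elt x g hg
    have : Fact (Nat.Prime 2) := ⟨Nat.prime_two⟩
    have htP : t ∈ (P : Subgroup G) := by
      have h1 : IsPGroup 2 (Subgroup.zpowers t) := IsPGroup.of_card (n := j) (by rw [Nat.card_zpowers, hj])
      obtain ⟨Q, hQ⟩ := h1.exists_le_sylow
      have : Q = P := by
        have := Sylow.unique_of_normal P hP
        exact Subsingleton.elim _ _
      rw [← this]
      exact hQ (Subgroup.mem_zpowers t)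
    have h1 : x⁻¹ * x⁻¹ ∈ (P : Subgroup G) := by
      have : x⁻¹ * x⁻¹ = t * (x * t⁻¹ * x⁻¹) := by
        calc x⁻¹ * x⁻¹ = t * x * t⁻¹ * x⁻¹ := by rw [ht]
          _ = t * (x * t⁻¹ * x⁻¹) := by group
      rw [this]
      exact Subgroup.mul_mem _ htP (hP.conj_mem _ (Subgroup.inv_mem _ htP) x)
    obtain ⟨k, hk⟩ := (IsPGroup.iff_orderOf.mp P.2) ⟨_, h1⟩
    rw [Subgroup.orderOf_mk] at hk
    have h2 : x⁻¹ * x⁻¹ = (x ^ 2)⁻¹ := by group
    rw [h2, orderOf_inv] at hk
    have h3 : orderOf (x ^ 2) ∣ orderOf x := orderOf_pow_dvd 2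
    have h4 : Nat.Coprime (orderOf (x ^ 2)) (orderOf x) := by
      rw [hk]; exact Nat.Coprime.pow_left k (Nat.coprime_two_left.mpr hxo)
    have h5 : x ^ 2 = 1 := orderOf_eq_one_iff.mp (Nat.eq_one_of_dvd_coprimes h4 dvd_rfl h3)
    have h6 : orderOf x ∣ 2 := orderOf_dvd_of_pow_eq_one h5
    rcases (Nat.dvd_prime Nat.prime_two).mp h6 with h | h
    · exact hx1 (orderOf_eq_one_iff.mp h)
    · rw [h] at hxo
      exact absurd hxo (by decide)

end Cfsg.Agent.S3861
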