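import Cfsg.Statements.S3862
import Mathlib
import Cfsg.Agent.S0071
-- import your own Cfsg.Agent.* helpers here

set_option autoImplicit false
open Cfsg

namespace Cfsg.Agent.S3862

theorem key {G : Type*} [Group G] [Finite G]
    (h : ∀ x : G, (∃ j : ℕ, orderOf x = 2 ^ j) → IsConj x x⁻¹ → x ∈ Subgroup.center G)
    (g : G) (hg : Nat.Coprime (orderOf g) 2) :
    ∀ (n : ℕ) (Q : Subgroup G), Nat.card Q = n → IsPGroup 2 Q →
      g ∈ Subgroup.normalizer (Q : Set G) → g ∈ Subgroup.centralizer (Q : Set G) := by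
  have : Fact (Nat.Prime 2) := ⟨Nat.prime_two⟩
  intro n
  induction n using Nat.strong_induction_on with
  | _ n ih =>
  intro Q hn hQ hgQ
  by_cases hbot : Q = ⊥
  · rw [hbot, Subgroup.mem_centralizer_iff]
    intro x hx
    rw [SetLike.mem_coe, Subgroup.mem_bot] at hx
    rw [hx, one_mul, mul_one]
  obtain ⟨T, hT⟩ : ∃ T, T = Subgroup.closure ((fun u : G => u ^ 2) '' (Q : Set G)) := ⟨_, rfl⟩
  have hTQ : T ≤ Q := by
    rw [hT, Subgroup.closure_le]
    rintro _ ⟨u, hu, rfl⟩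
    exact Q.pow_mem hu 2
  have hTlt : Nat.card T < n := by
    obtain ⟨k, hk⟩ := hQ.exists_card_eq
    have hk0 : k ≠ 0 := by
      rintro rfl
      rw [pow_zero, Subgroup.card_eq_one] at hk
      exact hbot hk
    obtain ⟨j, rfl⟩ := Nat.exists_eq_succ_of_ne_zero hk0
    obtain ⟨M, hM⟩ := Sylow.exists_subgroup_card_pow_prime (G := Q) 2 (n := j)
      (by rw [hk]; exact pow_dvd_pow 2 (Nat.le_succ j))
    have hMi : M.index = 2 := by
      have := M.card_mul_index
      rw [hM, hk, pow_succ] at this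
      exact Nat.eq_of_mul_eq_mul_left (pow_pos (by norm_num) j) this
    have hTM : T ≤ M.map Q.subtype := by
      rw [hT, Subgroup.closure_le]
      rintro _ ⟨u, hu, rfl⟩
      exact ⟨⟨u, hu⟩ ^ 2, Subgroup.sq_mem_of_index_two hMi _, rfl⟩
    calc Nat.card T ≤ Nat.card (M.map Q.subtype) := Subgroup.card_le_of_le hTM
      _ = 2 ^ j := by rw [Subgroup.card_map_of_injective Q.subtype_injective, hM]
      _ < 2 ^ (j + 1) := Nat.pow_lt_pow_right (by norm_num) (Nat.lt_succ_self j)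
      _ = n := by rw [← hn, hk]
  have hgT : g ∈ Subgroup.normalizer (T : Set G) := by
    have h1 : Subgroup.zpowers g ≤ Subgroup.normalizer (T : Set G) := by
      rw [hT, Subgroup.le_normalizer_closure_iff]
      rintro k hk _ ⟨u, hu, rfl⟩
      apply Subgroup.subset_closure
      have hkQ : k ∈ Subgroup.normalizer (Q : Set G) :=
        (Subgroup.zpowers_le.mpr hgQ) hk
      exact ⟨k * u * k⁻¹, (Subgroup.mem_normalizer_iff.mp hkQ u).mp hu, by
        simp only [conj_pow]⟩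
    exact h1 (Subgroup.mem_zpowers g)
  have hcT := ih _ hTlt T rfl (hQ.to_le hTQ) hgT
  rw [Subgroup.mem_centralizer_iff]
  intro u hu
  have hgu : g * u * g⁻¹ ∈ Q := (Subgroup.mem_normalizer_iff.mp hgQ u).mp hu
  obtain ⟨w, hw⟩ : ∃ w, w = u⁻¹ * (g * u * g⁻¹) := ⟨_, rfl⟩
  have hwQ : w ∈ Q := by rw [hw]; exact Q.mul_mem (Q.inv_mem hu) hgu
  have hguw : g * u * g⁻¹ = u * w := by rw [hw, mul_inv_cancel_left]
  have hu2 : g * u ^ 2 * g⁻¹ = u ^ 2 := by
    have h1 : u ^ 2 ∈ T := by rw [hT]; exact Subgroup.subset_closure ⟨u, hu, rfl⟩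
    have h2 := Subgroup.mem_centralizer_iff.mp hcT _ h1
    rw [← h2]; group
  have hsq : (u * w) ^ 2 = u ^ 2 := by rw [← hguw, conj_pow, hu2]
  have hwuw : w * u * w = u := by
    have h1 : u * (w * u * w) = u * u := by
      rw [pow_two, pow_two] at hsq
      calc u * (w * u * w) = u * w * (u * w) := by group
        _ = u * u := hsq
    exact mul_left_cancel h1
  have hreal : IsConj w w⁻¹ := by
    rw [isConj_iff]
    refine ⟨u⁻¹, ?_⟩
    calc u⁻¹ * w * u⁻¹⁻¹ = u⁻¹ * (w * u * w) * w⁻¹ := by group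
      _ = w⁻¹ := by rw [hwuw]; group
  obtain ⟨a, ha⟩ := (IsPGroup.iff_orderOf.mp hQ) ⟨w, hwQ⟩
  rw [Subgroup.orderOf_mk] at ha
  have hwc := h w ⟨a, ha⟩ hreal
  have hgw : g * w * g⁻¹ = w := by
    rw [Subgroup.mem_center_iff.mp hwc g]; group
  have hpow : ∀ m : ℕ, g ^ m * u * (g ^ m)⁻¹ = u * w ^ m := by
    intro m
    induction m with
    | zero => simp
    | succ m ihm =>
      have h1 : g ^ (m + 1) * u * (g ^ (m + 1))⁻¹ = g * (g ^ m * u * (g ^ m)⁻¹) * g⁻¹ := by
        rw [pow_succ']; group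
      have h2 : g * w ^ m * g⁻¹ = w ^ m := by
        rw [← conj_pow, hgw]
      rw [h1, ihm]
      calc g * (u * w ^ m) * g⁻¹ = (g * u * g⁻¹) * (g * w ^ m * g⁻¹) := by group
        _ = u * w * w ^ m := by rw [hguw, h2]
        _ = u * w ^ (m + 1) := by rw [pow_succ', mul_assoc]
  have h3 := hpow (orderOf g)
  rw [pow_orderOf_eq_one, one_mul, inv_one, mul_one] at h3
  have h4 : w ^ orderOf g = 1 := by
    have := h3.symm
    rwa [mul_eq_left] at this
  have h5 : orderOf w ∣ orderOf g := orderOf_dvd_of_pow_eq_one h4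
  have h6 : Nat.Coprime (orderOf w) (orderOf g) := by
    rw [ha]; exact (Nat.Coprime.pow_left a hg.symm)
  have h7 : orderOf w = 1 := Nat.eq_one_of_dvd_coprimes h6 dvd_rfl h5
  rw [orderOf_eq_one_iff] at h7
  rw [h7, mul_one] at hguw
  calc u * g = g * u * g⁻¹ * g := by rw [hguw]
    _ = g * u := by group

/-- If every 2-element of the finite group G that is conjugate to its inverse lies in the centre of G, then G has a normal 2-complement. -/
theorem result {G : Type*} [Group G] [Finite G] (h : ∀ x : G, (∃ j : ℕ, orderOf x = 2 ^ j) → IsConj x x⁻¹ → x ∈ Subgroup.center G) : Cfsg.HasNormalPComplement 2 G := by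
  have : Fact (Nat.Prime 2) := ⟨Nat.prime_two⟩
  obtain ⟨P⟩ : Nonempty (Sylow 2 G) := inferInstance
  obtain ⟨N, hN, hc⟩ := (Cfsg.Agent.S0071.result P).mpr (fun Q hQP g hg hgp =>
    key h g hgp _ Q rfl (P.2.to_le hQP) hg)
  exact ⟨P, N, hN, hc⟩

end Cfsg.Agent.S3862
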