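import Cfsg.Statements.S3866
import Mathlib
import Cfsg.Agent.Lib.Helper21.CommMap

set_option autoImplicit false
open Cfsg

namespace Cfsg.Agent.S3866

/-- Let A be a commutative normal subgroup of the finite group G with G generated by A and an element x. Then a ↦ x a x⁻¹ a⁻¹ is a surjective homomorphism from A onto the commutator subgroup of G whose kernel is the centralizer of x in A; in particular the commutator subgroup has order equal to the index in A of that centralizer. -/
theorem result {G : Type*} [Group G] [Finite G] (A : Subgroup G) [A.Normal] (hA : IsMulCommutative A) (x : G) (hgen : A ⊔ Subgroup.zpowers x = ⊤) : (∀ a ∈ A, x * a * x⁻¹ * a⁻¹ ∈ commutator G) ∧ (∀ c ∈ commutator G, ∃ a ∈ A, x * a * x⁻¹ * a⁻¹ = c) ∧ (∀ a ∈ A, ∀ b ∈ A, x * (a * b) * x⁻¹ * (a * b)⁻¹ = (x * a * x⁻¹ * a⁻¹) * (x * b * x⁻¹ * b⁻¹)) ∧ Nat.card (commutator G) * Nat.card ↥(A ⊓ Subgroup.centralizer ({x} : Set G)) = Nat.card A := by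
  have hA' : ∀ a ∈ A, ∀ b ∈ A, a * b = b * a := by
    intro a ha b hb
    exact congrArg Subtype.val (hA.is_comm.comm ⟨a, ha⟩ ⟨b, hb⟩)
  have hr := Cfsg.Agent.Lib.Helper21.commMap_range_map A hA' x hgen
  refine ⟨?_, ?_, ?_, ?_⟩
  · intro a ha
    rw [commutator_def]
    exact Subgroup.commutator_mem_commutator (Subgroup.mem_top x) (Subgroup.mem_top a)
  · intro c hc
    rw [← hr] at hc
    obtain ⟨_, ⟨a, rfl⟩, rfl⟩ := hc
    exact ⟨a, a.2, rfl⟩
  · intro a ha b hb
    exact Cfsg.Agent.Lib.Helper21.commMap_mul A hA' x a ha b hb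
  · exact Cfsg.Agent.Lib.Helper21.card_commutator_mul_card_centralizer A hA' x hgen

end Cfsg.Agent.S3866
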