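import Cfsg.Statements.S3867
import Cfsg.Agent.Lib.Helper23.SylNum
import Cfsg.Agent.Lib.Helper5.Card
import Mathlib

set_option autoImplicit false
open Cfsg

namespace Cfsg.Agent.S3867

open Cfsg.Agent.Lib.Helper17 Cfsg.Agent.Lib.Helper23 Cfsg.Agent.Lib.Helper5

theorem pow_mem_of_mem_sup {G : Type*} [Group G] {p : ℕ} (P : Sylow p G) (M : Subgroup G) [M.Normal]
    {d : G} (hd : d ∈ (P : Subgroup G) ⊔ M) : ∃ a : ℕ, d ^ p ^ a ∈ M := by
  rw [Subgroup.mem_sup_of_normal_right] at hd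
  obtain ⟨x, hx, m, hm, rfl⟩ := hd
  obtain ⟨a, ha⟩ := P.2 ⟨x, hx⟩
  have ha' : x ^ p ^ a = 1 := congrArg Subtype.val ha
  refine ⟨a, ?_⟩
  rw [← QuotientGroup.eq_one_iff, QuotientGroup.mk_pow, QuotientGroup.mk_mul,
    (QuotientGroup.eq_one_iff m).mpr hm, mul_one, ← QuotientGroup.mk_pow, ha']
  rfl

theorem normalizer_sup {G : Type*} [Group G] [Finite G] {p : ℕ} [Fact p.Prime] (P : Sylow p G)
    (K : Subgroup G) [K.Normal] :
    Subgroup.normalizer (((P : Subgroup G) ⊔ K : Subgroup G) : Set G) =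
      Subgroup.normalizer ((P : Subgroup G) : Set G) ⊔ K := by
  have hKn : ∀ X : Subgroup G, X ≤ Subgroup.normalizer (K : Set G) := by
    intro X; rw [Subgroup.normalizer_eq_top]; exact le_top
  apply le_antisymm
  · intro g hg
    have hs : IsSyl p (P : Subgroup G) ((P : Subgroup G) ⊔ K) := (isSyl_top P).of_le le_sup_left le_top
    obtain ⟨n, hn, h⟩ := frattini_arg hs le_rfl hg
    have : g = n * (n⁻¹ * g) := by group
    rw [this]
    refine Subgroup.mul_mem _ ?_ (Subgroup.mem_sup_left h)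
    exact (sup_le_sup_right Subgroup.le_normalizer K) hn
  · apply sup_le
    · exact le_normalizer_sup le_rfl (hKn _)
    · exact le_sup_right.trans Subgroup.le_normalizer

/-- Let M and N be nontrivial normal subgroups of the finite group G with M ⊓ N trivial, and let p be a prime. Writing n(X) for the number of Sylow p-subgroups of a group X, one has n(G) · n(G/MN) = n(G/M) · n(G/N). -/
theorem result {G : Type*} [Group G] [Finite G] (p : ℕ) [Fact p.Prime] (M N : Subgroup G) [M.Normal] [N.Normal] (hM : M ≠ ⊥) (hN : N ≠ ⊥) (hMN : M ⊓ N = ⊥) : Nat.card (Sylow p G) * Nat.card (Sylow p (G ⧸ (M ⊔ N))) = Nat.card (Sylow p (G ⧸ M)) * Nat.card (Sylow p (G ⧸ N)) := by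
  obtain ⟨P⟩ : Nonempty (Sylow p G) := inferInstance
  rw [card_sylow_eq_index P, card_sylow_quotient (M ⊔ N) P, card_sylow_quotient M P,
    card_sylow_quotient N P, normalizer_sup, normalizer_sup, normalizer_sup]
  set L := Subgroup.normalizer ((P : Subgroup G) : Set G) with hL
  -- (P ⊔ M) ⊓ (P ⊔ N) = P
  have hD : ((P : Subgroup G) ⊔ M) ⊓ ((P : Subgroup G) ⊔ N) = P := by
    apply P.3 _ (le_inf le_sup_left le_sup_left)
    intro d
    obtain ⟨a, ha⟩ := pow_mem_of_mem_sup P M d.2.1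
    obtain ⟨b, hb⟩ := pow_mem_of_mem_sup P N d.2.2
    refine ⟨a + b, ?_⟩
    apply Subtype.ext
    have h1 : (d : G) ^ p ^ (a + b) ∈ M ⊓ N := by
      refine ⟨?_, ?_⟩
      · rw [pow_add, pow_mul]; exact M.pow_mem ha _
      · rw [pow_add, mul_comm, pow_mul]; exact N.pow_mem hb _
    rw [hMN, Subgroup.mem_bot] at h1
    simpa using h1
  have hi : (L ⊔ M) ⊓ (L ⊔ N) = L := by
    apply le_antisymm _ (le_inf le_sup_left le_sup_left)
    rintro g ⟨h1, h2⟩
    rw [hL, mem_normalizer_iff_map_conj]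
    have h1' : g ∈ Subgroup.normalizer (((P : Subgroup G) ⊔ M : Subgroup G) : Set G) := by
      rw [normalizer_sup]; exact h1
    have h2' : g ∈ Subgroup.normalizer (((P : Subgroup G) ⊔ N : Subgroup G) : Set G) := by
      rw [normalizer_sup]; exact h2
    apply Subgroup.eq_of_le_of_card_ge
    · conv_rhs => rw [← hD]
      apply le_inf
      · rw [← map_conj_eq_of_mem_normalizer h1']
        exact Subgroup.map_mono le_sup_left
      · rw [← map_conj_eq_of_mem_normalizer h2']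
        exact Subgroup.map_mono le_sup_left
    · rw [card_map_conj]
  have hKn : ∀ (K : Subgroup G) [K.Normal] (X : Subgroup G), X ≤ Subgroup.normalizer (K : Set G) := by
    intro K _ X; rw [Subgroup.normalizer_eq_top]; exact le_top
  have hinf : (L ⊔ M) ⊓ N = L ⊓ N := by
    apply le_antisymm
    · intro x hx
      refine ⟨?_, hx.2⟩
      rw [← hi]
      exact ⟨hx.1, Subgroup.mem_sup_right hx.2⟩
    · exact inf_le_inf_right N le_sup_left
  have e1 := card_sup_mul_card_inf (L ⊔ M) N (hKn N _)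
  have e2 := card_sup_mul_card_inf L N (hKn N _)
  rw [hinf] at e1
  have e3 : L ⊔ (M ⊔ N) = L ⊔ M ⊔ N := (sup_assoc _ _ _).symm
  rw [e3]
  have c1 := L.index_mul_card
  have c2 := (L ⊔ M ⊔ N).index_mul_card
  have c3 := (L ⊔ M).index_mul_card
  have c4 := (L ⊔ N).index_mul_card
  -- |L ⊔ M ⊔ N| * |L| = |L ⊔ M| * |L ⊔ N|
  have hpos : 0 < Nat.card ↥(L ⊓ N) := Nat.card_pos
  have hposN : 0 < Nat.card N := Nat.card_pos
  have key : Nat.card ↥(L ⊔ M ⊔ N) * Nat.card L = Nat.card ↥(L ⊔ M) * Nat.card ↥(L ⊔ N) := by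
    apply Nat.eq_of_mul_eq_mul_right (Nat.mul_pos hpos hposN)
    calc Nat.card ↥(L ⊔ M ⊔ N) * Nat.card L * (Nat.card ↥(L ⊓ N) * Nat.card N)
        = (Nat.card ↥(L ⊔ M ⊔ N) * Nat.card ↥(L ⊓ N)) * (Nat.card L * Nat.card N) := by ring
      _ = (Nat.card ↥(L ⊔ M) * Nat.card N) * (Nat.card ↥(L ⊔ N) * Nat.card ↥(L ⊓ N)) := by
          rw [e1, e2]
      _ = Nat.card ↥(L ⊔ M) * Nat.card ↥(L ⊔ N) * (Nat.card ↥(L ⊓ N) * Nat.card N) := by ring
  have hpos2 : 0 < Nat.card ↥(L ⊔ M ⊔ N) * Nat.card L := Nat.mul_pos Nat.card_pos Nat.card_pos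
  apply Nat.eq_of_mul_eq_mul_right hpos2
  calc L.index * (L ⊔ M ⊔ N).index * (Nat.card ↥(L ⊔ M ⊔ N) * Nat.card L)
      = (L.index * Nat.card L) * ((L ⊔ M ⊔ N).index * Nat.card ↥(L ⊔ M ⊔ N)) := by ring
    _ = ((L ⊔ M).index * Nat.card ↥(L ⊔ M)) * ((L ⊔ N).index * Nat.card ↥(L ⊔ N)) := by
        rw [c1, c2, c3, c4]
    _ = (L ⊔ M).index * (L ⊔ N).index * (Nat.card ↥(L ⊔ M) * Nat.card ↥(L ⊔ N)) := by ring
    _ = (L ⊔ M).index * (L ⊔ N).index * (Nat.card ↥(L ⊔ M ⊔ N) * Nat.card L) := by rw [key]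

end Cfsg.Agent.S3867
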