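import Cfsg.Statements.S3880
import Cfsg.Agent.Lib.Helper4.Metacyclic4

set_option autoImplicit false
open Cfsg

namespace Cfsg.Agent.S3880

open Cfsg.Agent.Lib.Helper4.MC in
theorem abel_iff {G : Type*} [Group G] [Finite G] {p : ℕ} [Fact p.Prime] (hp : p ≠ 2) (hG : IsPGroup p G) (hmc : MCyc G) (L : Subgroup G) :
    IsMulCommutative ↥L ↔ Nat.card ↥L ≤ (commutator G).index := by
  rw [← comm_bot_iff_isMulCommutative]
  constructor
  · intro hb
    rcases key_card hp hG hmc L with ⟨_, h⟩ | ⟨h, _⟩
    · exact h
    · exact absurd hb h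
  · intro hle
    rcases key_card hp hG hmc L with ⟨h, _⟩ | ⟨h, he⟩
    · exact h
    · exfalso
      have h1 : 1 < Nat.card (commutator L) := by
        rw [Subgroup.one_lt_card_iff_ne_bot]; exact h
      have h2 : 0 < (commutator G).index := Nat.pos_of_ne_zero Subgroup.index_ne_zero_of_finite
      nlinarith

open Cfsg.Agent.Lib.Helper4.MC in
theorem max_iff {G : Type*} [Group G] [Finite G] {p : ℕ} [Fact p.Prime] (hp : p ≠ 2) (hG : IsPGroup p G) (hmc : MCyc G) (L : Subgroup G) :
    Maximal (fun K : Subgroup G => IsMulCommutative ↥K) L ↔ Nat.card ↥L = (commutator G).index := by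
  have hpp : p.Prime := Fact.out
  constructor
  · rintro ⟨hL, hmax⟩
    have hle := (abel_iff hp hG hmc L).mp hL
    by_contra hne
    have hlt : Nat.card L < (commutator G).index := lt_of_le_of_ne hle hne
    have hLtop : L < ⊤ := by
      rw [lt_top_iff_ne_top]
      rintro rfl
      rw [Subgroup.card_top] at hlt
      have := (commutator G).card_mul_index
      have h1 : 0 < Nat.card (commutator G) := Nat.card_pos
      nlinarith
    obtain ⟨L1, h1, _, h3⟩ := exists_step hG hLtop
    obtain ⟨i, hi⟩ := (hG.to_subgroup L).exists_card_eq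
    obtain ⟨j, hj⟩ := hG.index (commutator G)
    rw [hi, hj] at hlt
    have hij : i < j := (Nat.pow_lt_pow_iff_right hpp.one_lt).mp hlt
    have h4 : Nat.card L1 ≤ (commutator G).index := by
      rw [h3, hi, hj, ← pow_succ']
      exact Nat.pow_le_pow_right hpp.pos hij
    have h5 := hmax ((abel_iff hp hG hmc L1).mpr h4) h1
    have h6 := Subgroup.card_le_of_le h5
    rw [h3] at h6
    have h7 : 0 < Nat.card L := Nat.card_pos
    have := hpp.one_lt
    nlinarith
  · intro he
    refine ⟨(abel_iff hp hG hmc L).mpr he.le, ?_⟩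
    intro K hK hLK
    have := (abel_iff hp hG hmc K).mp hK
    rw [← he] at this
    exact (Subgroup.eq_of_le_of_card_ge hLK this).ge

/-- Let p be an odd prime and G a finite metacyclic p-group (G has a cyclic normal subgroup with cyclic quotient). Then a subgroup L of G is abelian if and only if |L| ≤ |G : G'|, and L is a maximal abelian subgroup of G if and only if |L| = |G : G'|. -/
theorem result {G : Type*} [Group G] [Finite G] {p : ℕ} [Fact p.Prime] (hp : p ≠ 2) (hG : IsPGroup p G) (hmc : Cfsg.IsMetacyclic G) (L : Subgroup G) :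
    (IsMulCommutative ↥L ↔ Nat.card ↥L ≤ (commutator G).index) ∧
      (Maximal (fun K : Subgroup G => IsMulCommutative ↥K) L ↔ Nat.card ↥L = (commutator G).index) := by
  exact ⟨abel_iff hp hG hmc L, max_iff hp hG hmc L⟩

end Cfsg.Agent.S3880
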