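import Cfsg.Statements.S3883
import Cfsg.Agent.Lib.Helper4.Metacyclic5
import Cfsg.Agent.S3880

set_option autoImplicit false
open Cfsg

namespace Cfsg.Agent.S3883

open scoped commutatorElement

/-- Let p be an odd prime and G a finite metacyclic p-group (G has a cyclic normal subgroup with cyclic quotient). Suppose G is non-abelian. Then an element g of G lies outside the Frattini subgroup if and only if its centralizer C_G(g) is abelian. -/
theorem result {G : Type*} [Group G] [Finite G] {p : ℕ} [Fact p.Prime] (hp : p ≠ 2) (hG : IsPGroup p G) (hmc : Cfsg.IsMetacyclic G) (hna : ¬ IsMulCommutative G) (g : G) :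
    g ∉ frattini G ↔ IsMulCommutative ↥(Subgroup.centralizer ({g} : Set G)) := by
  have hpp : p.Prime := Fact.out
  have habel := (Cfsg.Agent.S3880.result hp hG hmc (Subgroup.centralizer ({g} : Set G))).1
  obtain ⟨N, hN, hc, hq⟩ := hmc
  obtain ⟨a, b, h⟩ := Cfsg.Agent.Lib.Helper4.MC.exists_setup hG N hc hq
  have hna' : ∃ x y : G, x * y ≠ y * x := by
    by_contra hcon
    push Not at hcon
    exact hna ⟨⟨hcon⟩⟩
  obtain ⟨n, hn⟩ := (hG.to_subgroup (commutator G)).exists_card_eq
  have hn0 : n ≠ 0 := by
    rintro rfl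
    rw [pow_zero, Subgroup.card_eq_one] at hn
    obtain ⟨x, y, hxy⟩ := hna'
    apply hxy
    have hm : ⁅x, y⁆ ∈ commutator G := by
      rw [commutator_def]
      exact Subgroup.commutator_mem_commutator (Subgroup.mem_top _) (Subgroup.mem_top _)
    rw [hn, Subgroup.mem_bot, commutatorElement_eq_one_iff_mul_comm] at hm
    exact hm
  rw [habel, h.frattini_eq hna', h.mem_closure_pow_iff hp n hn 1 (by omega)]
  obtain ⟨k, hk⟩ := hG.index (Subgroup.centralizer ({g} : Set G))
  have c1 := (Subgroup.centralizer ({g} : Set G)).card_mul_index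
  have c2 := (commutator G).card_mul_index
  rw [hk] at c1 ⊢
  rw [hn] at c2
  rw [Nat.pow_le_pow_iff_right hpp.one_lt]
  have hpos1 : 0 < Nat.card (Subgroup.centralizer ({g} : Set G)) := Nat.card_pos
  have hpos2 : 0 < (commutator G).index := Nat.pos_of_ne_zero Subgroup.index_ne_zero_of_finite
  constructor
  · intro hlt
    have hnk : n ≤ k := by omega
    have h1 : p ^ n ≤ p ^ k := Nat.pow_le_pow_right hpp.pos hnk
    have h2 : Nat.card (Subgroup.centralizer ({g} : Set G)) * p ^ n ≤ (commutator G).index * p ^ n := by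
      calc _ ≤ Nat.card (Subgroup.centralizer ({g} : Set G)) * p ^ k := Nat.mul_le_mul_left _ h1
        _ = (commutator G).index * p ^ n := by rw [c1, ← c2, mul_comm]
    exact Nat.le_of_mul_le_mul_right h2 (pow_pos hpp.pos n)
  · intro hle hkn
    have h1 : p ^ k < p ^ n := Nat.pow_lt_pow_right hpp.one_lt (by omega)
    have h2 : Nat.card (Subgroup.centralizer ({g} : Set G)) * p ^ k < (commutator G).index * p ^ n := by
      calc _ ≤ (commutator G).index * p ^ k := Nat.mul_le_mul_right _ hle
        _ < (commutator G).index * p ^ n := Nat.mul_lt_mul_of_pos_left h1 hpos2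
    rw [c1, ← c2, mul_comm] at h2
    exact lt_irrefl _ h2

end Cfsg.Agent.S3883
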