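import Cfsg.Statements.S3885
import Cfsg.Agent.Lib.Helper4.Metacyclic3

set_option autoImplicit false
open Cfsg

namespace Cfsg.Agent.S3885

/-- Let p be an odd prime and G a finite metacyclic p-group (G has a cyclic normal subgroup with cyclic quotient). Then every abelian subgroup K of G containing the center of G is the center of its own centralizer: K = Z(C_G(K)). -/
theorem result {G : Type*} [Group G] [Finite G] {p : ℕ} [Fact p.Prime] (hp : p ≠ 2) (hG : IsPGroup p G) (hmc : Cfsg.IsMetacyclic G) (K : Subgroup G) (hK : IsMulCommutative ↥K) (hZ : Subgroup.center G ≤ K) :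
    K = Subgroup.centralizer (K : Set G) ⊓ Subgroup.centralizer (Subgroup.centralizer (K : Set G) : Set G) := by
  obtain ⟨N, hN, hc, hq⟩ := hmc
  obtain ⟨a, b, h⟩ := Cfsg.Agent.Lib.Helper4.MC.exists_setup hG N hc hq
  have h1 : K ≤ Subgroup.centralizer (K : Set G) := by
    intro x hx y hy
    have := hK.is_comm.comm ⟨y, hy⟩ ⟨x, hx⟩
    exact congrArg Subtype.val this
  have h2 : K ≤ Subgroup.centralizer (Subgroup.centralizer (K : Set G) : Set G) := by
    intro x hx c hc
    exact (hc x hx).symm
  have e1 := h.cdm_eq hp hZ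
  have e2 := h.cdm_eq hp (Subgroup.center_le_centralizer (K : Set G))
  unfold Cfsg.Agent.Lib.Helper4.MC.cdm at e1 e2
  rw [← e1, mul_comm] at e2
  have e3 : Nat.card (Subgroup.centralizer (Subgroup.centralizer (K : Set G) : Set G)) = Nat.card K :=
    Nat.eq_of_mul_eq_mul_right Nat.card_pos e2
  have e4 := Subgroup.eq_of_le_of_card_ge h2 e3.le
  apply le_antisymm
  · exact le_inf h1 h2
  · rw [← e4]
    exact inf_le_right

end Cfsg.Agent.S3885
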