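import Cfsg.Statements.S3886
import Cfsg.Agent.Lib.Helper4.Metacyclic5
import Cfsg.Agent.S3880

set_option autoImplicit false
open Cfsg

namespace Cfsg.Agent.S3886

/-- Let p be an odd prime and G a finite metacyclic p-group (G has a cyclic normal subgroup with cyclic quotient). Then the largest value of |R| · |Z(R)| over subgroups R of G is |G : G'|², and the subgroups attaining it (the centrally large subgroups) are exactly the non-abelian subgroups together with the maximal abelian subgroups of G. -/
theorem result {G : Type*} [Group G] [Finite G] {p : ℕ} [Fact p.Prime] (hp : p ≠ 2) (hG : IsPGroup p G) (hmc : Cfsg.IsMetacyclic G) : Cfsg.maxCentralProduct G = (commutator G).index ^ 2 ∧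
    ∀ R : Subgroup G, Cfsg.IsCentrallyLarge R ↔ (¬ IsMulCommutative ↥R ∨ Maximal (fun K : Subgroup G => IsMulCommutative ↥K) R) := by
  have hpp : p.Prime := Fact.out
  have habel := fun L => (Cfsg.Agent.S3880.result hp hG hmc L).1
  have hmaxi := fun L => (Cfsg.Agent.S3880.result hp hG hmc L).2
  have hN0 : 0 < (commutator G).index := Nat.pos_of_ne_zero Subgroup.index_ne_zero_of_finite
  have cpA : ∀ R : Subgroup G, IsMulCommutative R →
      Nat.card R * Nat.card (Subgroup.center R) = Nat.card R ^ 2 := by
    intro R hR
    have : Subgroup.center R = ⊤ := by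
      rw [eq_top_iff]
      intro x _
      rw [Subgroup.mem_center_iff]
      intro y
      exact hR.is_comm.comm y x
    rw [this, Subgroup.card_top, sq]
  have cpN : ∀ R : Subgroup G, ¬ IsMulCommutative R →
      Nat.card R * Nat.card (Subgroup.center R) = (commutator G).index ^ 2 := by
    intro R hR
    rcases Cfsg.Agent.Lib.Helper4.MC.key_card hp hG hmc R with ⟨hb, _⟩ | ⟨_, he⟩
    · exact absurd ((Cfsg.Agent.Lib.Helper4.MC.comm_bot_iff_isMulCommutative R).mp hb) hR
    · have t1 := Cfsg.Agent.Lib.Helper4.MC.index_center_of_mcyc hp (hG.to_subgroup R)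
        (Cfsg.Agent.Lib.Helper4.MC.MCyc.subgroup hmc R)
      have c1 := (Subgroup.center R).card_mul_index
      rw [t1] at c1
      have hd : 0 < Nat.card (commutator R) ^ 2 := pow_pos Nat.card_pos 2
      apply Nat.eq_of_mul_eq_mul_right hd
      calc Nat.card R * Nat.card (Subgroup.center R) * Nat.card (commutator R) ^ 2
          = Nat.card R * (Nat.card (Subgroup.center R) * Nat.card (commutator R) ^ 2) := by ring
        _ = Nat.card R * Nat.card R := by rw [c1]
        _ = (commutator G).index ^ 2 * Nat.card (commutator R) ^ 2 := by rw [he]; ring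
  have hmax : Cfsg.maxCentralProduct G = (commutator G).index ^ 2 := by
    unfold Cfsg.maxCentralProduct
    apply IsGreatest.csSup_eq
    constructor
    · refine ⟨⊤, ?_⟩
      by_cases hT : IsMulCommutative (⊤ : Subgroup G)
      · rw [cpA _ hT]
        have h1 := (habel ⊤).mp hT
        have h2 : (commutator G).index ≤ Nat.card (⊤ : Subgroup G) := by
          rw [Subgroup.card_top]
          exact Nat.le_of_dvd Nat.card_pos (commutator G).index_dvd_card
        rw [le_antisymm h1 h2]
      · exact cpN _ hT
    · rintro k ⟨R, rfl⟩
      by_cases hR : IsMulCommutative R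
      · rw [cpA _ hR]
        exact Nat.pow_le_pow_left ((habel R).mp hR) 2
      · exact (cpN _ hR).le
  refine ⟨hmax, ?_⟩
  intro R
  unfold Cfsg.IsCentrallyLarge
  rw [hmax]
  constructor
  · intro he
    by_cases hR : IsMulCommutative R
    · right
      rw [cpA _ hR] at he
      exact (hmaxi R).mpr (Nat.pow_left_injective (n := 2) (by norm_num) he)
    · left; exact hR
  · rintro (hR | hR)
    · exact cpN _ hR
    · rw [cpA _ hR.prop, (hmaxi R).mp hR]

end Cfsg.Agent.S3886
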