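import Cfsg.Statements.S3895
import Mathlib
import Cfsg.Agent.Lib.Helper21.KPi4

set_option autoImplicit false
open Cfsg

namespace Cfsg.Agent.S3895

open Cfsg.Agent.Lib.Helper21 in
theorem sylow_quot_bijective {G : Type*} [Group G] [Finite G] {p : ℕ} [Fact p.Prime]
    (P : Sylow p G) (N : Subgroup G) [N.Normal]
    (hNcop : (Nat.card N).Coprime p) (hcardQ : Nat.card (G ⧸ N) = Nat.card (P : Subgroup G)) :
    Function.Bijective ((QuotientGroup.mk' N).comp (P : Subgroup G).subtype) := by
  have hinj : Function.Injective ((QuotientGroup.mk' N).comp (P : Subgroup G).subtype) := by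
    rw [injective_iff_map_eq_one]
    intro x hx
    have hxN : (x : G) ∈ N := by
      have : (QuotientGroup.mk' N) (x : G) = 1 := hx
      rwa [← MonoidHom.mem_ker, QuotientGroup.ker_mk'] at this
    obtain ⟨k, hk⟩ := isPElt_of_mem P x x.2
    have h3 : orderOf (x : G) ∣ Nat.card N := by
      have := orderOf_dvd_natCard (⟨x, hxN⟩ : N)
      rwa [← Subgroup.orderOf_coe] at this
    have h4 : orderOf (x : G) = 1 := by
      apply Nat.Coprime.eq_one_of_dvd _ h3
      rw [hk]
      exact Nat.Coprime.pow_left k hNcop.symm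
    exact Subtype.ext (orderOf_eq_one_iff.1 h4)
  exact hinj.bijective_of_nat_card_le hcardQ.le

open Cfsg.Agent.Lib.Helper21 in
theorem kp_le_k {G : Type*} [Group G] [Finite G] (P : Sylow 2 G) (N : Subgroup G) [N.Normal]
    (hNcop : (Nat.card N).Coprime 2) (hcardQ : Nat.card (G ⧸ N) = Nat.card (P : Subgroup G)) :
    kOf G (fun x => ∃ k : ℕ, orderOf x = 2 ^ k) ≤ Nat.card (ConjClasses (P : Subgroup G)) := by
  have hk := kp_le_mul N 2 Nat.prime_two
  have hnd : ¬ 2 ∣ Nat.card N := (Nat.Prime.coprime_iff_not_dvd Nat.prime_two).1 hNcop.symm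
  have hkN : kOf N (fun x => ∃ k : ℕ, orderOf x = 2 ^ k) ≤ 1 := by
    have := kr_le N 2 Nat.prime_two
    rwa [Nat.factorization_eq_zero_of_not_dvd hnd, pow_zero] at this
  have h1 : kOf (G ⧸ N) (fun x => ∃ k : ℕ, orderOf x = 2 ^ k) ≤ Nat.card (ConjClasses (G ⧸ N)) :=
    Finite.card_subtype_le _
  have h2 : Nat.card (ConjClasses (G ⧸ N)) ≤ Nat.card (ConjClasses (P : Subgroup G)) :=
    Nat.card_le_card_of_surjective _
      (ConjClasses.map_surjective (sylow_quot_bijective P N hNcop hcardQ).2)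
  calc _ ≤ _ := hk
    _ ≤ 1 * kOf (G ⧸ N) (fun x => ∃ k : ℕ, orderOf x = 2 ^ k) := Nat.mul_le_mul_right _ hkN
    _ = kOf (G ⧸ N) (fun x => ∃ k : ℕ, orderOf x = 2 ^ k) := one_mul _
    _ ≤ _ := h1.trans h2

open Cfsg.Agent.Lib.Helper21 in
theorem k_le_kp {G : Type*} [Group G] [Finite G] (P : Sylow 2 G) (N : Subgroup G) [N.Normal]
    (hNcop : (Nat.card N).Coprime 2) (hcardQ : Nat.card (G ⧸ N) = Nat.card (P : Subgroup G)) :
    Nat.card (ConjClasses (P : Subgroup G)) ≤ kOf G (fun x => ∃ k : ℕ, orderOf x = 2 ^ k) := by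
  have hbij := sylow_quot_bijective P N hNcop hcardQ
  let f : ConjClasses (P : Subgroup G) →
      {c : ConjClasses G // ∀ x ∈ c.carrier, ∃ k : ℕ, orderOf x = 2 ^ k} :=
    Quotient.lift (classOfMem P) (by
      intro a b hab
      have hab' : IsConj a b := hab
      obtain ⟨c, hc⟩ := isConj_iff.1 hab'
      apply Subtype.ext
      change ConjClasses.mk (a : G) = ConjClasses.mk (b : G)
      rw [ConjClasses.mk_eq_mk_iff_isConj, isConj_iff]
      exact ⟨c, by rw [← hc]; rfl⟩)
  apply Nat.card_le_card_of_injective f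
  intro A B hAB
  obtain ⟨a, rfl⟩ := ConjClasses.mk_surjective A
  obtain ⟨b, rfl⟩ := ConjClasses.mk_surjective B
  have h1 : classOfMem P a = classOfMem P b := hAB
  have h2 : ConjClasses.mk (a : G) = ConjClasses.mk (b : G) := congrArg Subtype.val h1
  rw [ConjClasses.mk_eq_mk_iff_isConj, isConj_iff] at h2
  obtain ⟨g, hg⟩ := h2
  obtain ⟨y, hy⟩ := hbij.2 (QuotientGroup.mk' N g)
  rw [ConjClasses.mk_eq_mk_iff_isConj, isConj_iff]
  refine ⟨y, hbij.1 ?_⟩
  rw [map_mul, map_mul, map_inv, hy]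
  change (QuotientGroup.mk' N) g * (QuotientGroup.mk' N) (a : G) * ((QuotientGroup.mk' N) g)⁻¹ =
    (QuotientGroup.mk' N) (b : G)
  rw [← hg, map_mul, map_mul, map_inv]

/-- Let G be a finite group with Sylow 2-subgroup P, and write k₂(G) for the number of conjugacy classes of G consisting of 2-elements (elements of 2-power order, the identity included). Then k₂(G) > |P|/2 if and only if G has a normal 2-complement and P has more than |P|/2 conjugacy classes. -/
theorem result {G : Type*} [Group G] [Finite G] (P : Sylow 2 G) :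
    Nat.card ↥(P : Subgroup G) < 2 * Nat.card {c : ConjClasses G // ∀ x ∈ c.carrier, ∃ k : ℕ, orderOf x = 2 ^ k} ↔
      Cfsg.HasNormalPComplement 2 G ∧ Nat.card ↥(P : Subgroup G) < 2 * Nat.card (ConjClasses ↥(P : Subgroup G)) := by
  have hPc : Nat.card (P : Subgroup G) = 2 ^ (Nat.card G).factorization 2 :=
    Sylow.card_eq_multiplicity P
  constructor
  · intro h
    obtain ⟨m, hm⟩ := Cfsg.Agent.Lib.Helper21.index_pPrimeCore_two G (by rw [← hPc]; exact h)
    have hOcop : (Nat.card (Cfsg.pPrimeCore 2 G)).Coprime 2 :=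
      Cfsg.Agent.Lib.Helper5.pPrimeCore_coprime
    have hnd : ¬ 2 ∣ Nat.card (Cfsg.pPrimeCore 2 G) :=
      (Nat.Prime.coprime_iff_not_dvd Nat.prime_two).1 hOcop.symm
    have hcard : Nat.card (Cfsg.pPrimeCore 2 G) * (Cfsg.pPrimeCore 2 G).index = Nat.card G :=
      (Cfsg.pPrimeCore 2 G).card_mul_index
    have hv : (Nat.card G).factorization 2 = m := by
      rw [← hcard, hm, Nat.factorization_mul Nat.card_pos.ne' (pow_ne_zero _ two_ne_zero)]
      simp [Nat.factorization_eq_zero_of_not_dvd hnd, Nat.Prime.factorization_self Nat.prime_two]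
    have hcardQ : Nat.card (G ⧸ Cfsg.pPrimeCore 2 G) = Nat.card (P : Subgroup G) := by
      rw [hPc, hv]; exact hm
    refine ⟨⟨P, Cfsg.pPrimeCore 2 G, inferInstance, ?_⟩, ?_⟩
    · apply Subgroup.isComplement'_of_coprime
      · rw [← hcard, hPc, hv, hm]
      · rw [hPc]; exact Nat.Coprime.pow_right _ hOcop
    · exact lt_of_lt_of_le h (Nat.mul_le_mul_left _ (kp_le_k P _ hOcop hcardQ))
  · rintro ⟨⟨P', N, hN, hc⟩, h2⟩
    haveI := hN
    have hcardP : Nat.card (P : Subgroup G) = Nat.card (P' : Subgroup G) := by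
      rw [Sylow.card_eq_multiplicity, Sylow.card_eq_multiplicity]
    have hNcop : (Nat.card N).Coprime 2 := by
      have h3 := hc.card_mul_card
      have h4 := (P' : Subgroup G).card_mul_index
      have h5 : Nat.card N = (P' : Subgroup G).index := by
        have hpos : 0 < Nat.card (P' : Subgroup G) := Nat.card_pos
        apply Nat.eq_of_mul_eq_mul_right hpos
        rw [h3, ← h4, mul_comm]
      rw [h5]
      exact ((Nat.Prime.coprime_iff_not_dvd Nat.prime_two).2 P'.not_dvd_index).symm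
    have hcardQ : Nat.card (G ⧸ N) = Nat.card (P : Subgroup G) := by
      have h3 := hc.card_mul_card
      have h4 := N.card_mul_index
      have hpos : 0 < Nat.card N := Nat.card_pos
      rw [hcardP]
      apply Nat.eq_of_mul_eq_mul_left hpos
      rw [h3]
      exact h4
    exact lt_of_lt_of_le h2 (Nat.mul_le_mul_left _ (k_le_kp P N hNcop hcardQ))

end Cfsg.Agent.S3895
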