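import Cfsg.Statements.S3898
import Mathlib
import Cfsg.Agent.Lib.Helper21.KPi4
import Cfsg.Agent.Lib.Helper21.Pullback

set_option autoImplicit false
open Cfsg

namespace Cfsg.Agent.S3898

open MulAction in
/-- Burnside orbit counting with a bound on the fixed points outside a subgroup. -/
theorem orbit_bound' {N X : Type*} [Group N] [Finite N] [Finite X] [MulAction N X] (p : ℕ)
    (hp : 1 ≤ p) (C : Subgroup N)
    (hfix : ∀ n : N, n ∉ C → p * Nat.card (fixedBy X n) ≤ Nat.card X) :
    p * C.index * Nat.card (Quotient (orbitRel N X)) ≤ (p + C.index - 1) * Nat.card X := by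
  classical
  haveI := Fintype.ofFinite N
  haveI := Fintype.ofFinite X
  haveI : ∀ n : N, Fintype (fixedBy X n) := fun n => Fintype.ofFinite _
  haveI : Fintype (Quotient (orbitRel N X)) := Fintype.ofFinite _
  have hB := sum_card_fixedBy_eq_card_orbits_mul_card_group N X
  simp only [← Nat.card_eq_fintype_card] at hB
  have h1 : ∀ n : N, p * Nat.card (fixedBy X n) ≤
      Nat.card X + (if n ∈ C then (p - 1) * Nat.card X else 0) := by
    intro n
    by_cases hn : n ∈ C
    · rw [if_pos hn]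
      have h2 : Nat.card (fixedBy X n) ≤ Nat.card X :=
        Nat.card_le_card_of_injective _ Subtype.val_injective
      calc p * Nat.card (fixedBy X n) ≤ p * Nat.card X := Nat.mul_le_mul_left _ h2
        _ = Nat.card X + (p - 1) * Nat.card X := by
          obtain ⟨q, rfl⟩ := Nat.exists_eq_add_of_le hp
          simp only [Nat.add_sub_cancel_left]; ring
    · rw [if_neg hn]; exact hfix n hn
  have h2 : ∑ n : N, p * Nat.card (fixedBy X n) ≤
      Nat.card N * Nat.card X + Nat.card C * ((p - 1) * Nat.card X) := by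
    refine (Finset.sum_le_sum (fun n _ => h1 n)).trans (le_of_eq ?_)
    rw [Finset.sum_add_distrib, Finset.sum_const, Finset.card_univ, smul_eq_mul,
      ← Nat.card_eq_fintype_card, ← Finset.sum_filter, Finset.sum_const, smul_eq_mul]
    congr 2
    rw [Nat.card_eq_fintype_card, Fintype.card_subtype]
  rw [← Finset.mul_sum, hB] at h2
  have h4 := C.card_mul_index
  have hC : 0 < Nat.card C := Nat.card_pos
  apply Nat.le_of_mul_le_mul_right _ hC
  obtain ⟨q, rfl⟩ := Nat.exists_eq_add_of_le hp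
  simp only [Nat.add_sub_cancel_left] at h2
  rw [← h4] at h2
  have h5 : 1 + q + C.index - 1 = q + C.index := by omega
  rw [h5]
  calc (1 + q) * C.index * Nat.card (Quotient (orbitRel N X)) * Nat.card C
      = (1 + q) * (Nat.card (Quotient (orbitRel N X)) * (Nat.card C * C.index)) := by ring
    _ ≤ _ := h2
    _ = (q + C.index) * Nat.card X * Nat.card C := by ring

open MulAction Cfsg.Agent.Lib.Helper21 in
theorem kp_le_of_not_le_odd {G : Type*} [Group G] [Finite G] {p : ℕ} [Fact p.Prime]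
    (P : Sylow p G) (hodd : Odd (Nat.card G))
    (h : ¬ Subgroup.normalizer ((P : Subgroup G) : Set G) ≤
      Subgroup.centralizer ((P : Subgroup G) : Set G)) :
    2 * kOf G (fun x => ∃ k : ℕ, orderOf x = p ^ k) ≤ Nat.card (P : Subgroup G) := by
  letI := normalizerAct P
  have hp : p.Prime := Fact.out
  have hsm : ∀ (n : Subgroup.normalizer ((P : Subgroup G) : Set G)) (x : (P : Subgroup G)),
      ((n • x : (P : Subgroup G)) : G) = n * x * (n : G)⁻¹ := fun _ _ => rfl
  have h1 := orbit_bound' (N := Subgroup.normalizer ((P : Subgroup G) : Set G))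
    (X := (P : Subgroup G)) p hp.one_lt.le
    ((Subgroup.centralizer ((P : Subgroup G) : Set G)).subgroupOf _) (by
    intro n hn
    let H : Subgroup (P : Subgroup G) := (Subgroup.centralizer {(n : G)}).subgroupOf P
    have hH : (fixedBy (P : Subgroup G) n : Set (P : Subgroup G)) = (H : Set (P : Subgroup G)) := by
      ext x
      rw [mem_fixedBy, SetLike.mem_coe, Subgroup.mem_subgroupOf,
        Subgroup.mem_centralizer_singleton_iff, Subtype.ext_iff, hsm, mul_inv_eq_iff_eq_mul]
      exact eq_comm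
    have hcard : Nat.card (fixedBy (P : Subgroup G) n) = Nat.card H := by
      rw [hH]; rfl
    rw [hcard]
    have hne : H ≠ ⊤ := by
      intro htop
      apply hn
      rw [Subgroup.mem_subgroupOf, Subgroup.mem_centralizer_iff]
      intro x hx
      have : (⟨x, hx⟩ : (P : Subgroup G)) ∈ H := by rw [htop]; exact Subgroup.mem_top _
      rw [Subgroup.mem_subgroupOf, Subgroup.mem_centralizer_singleton_iff] at this
      exact this
    obtain ⟨k, hk⟩ := IsPGroup.index P.2 H
    have hk0 : k ≠ 0 := by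
      rintro rfl
      exact hne (Subgroup.index_eq_one.1 (by simpa using hk))
    have h3 := H.card_mul_index
    rw [← h3, hk, mul_comm]
    apply Nat.mul_le_mul_left
    calc p = p ^ 1 := (pow_one p).symm
      _ ≤ p ^ k := Nat.pow_le_pow_right hp.pos (Nat.one_le_iff_ne_zero.2 hk0))
  have hsurj : kOf G (fun x => ∃ k : ℕ, orderOf x = p ^ k) ≤ Nat.card
      (Quotient (orbitRel (Subgroup.normalizer ((P : Subgroup G) : Set G)) (P : Subgroup G))) := by
    let f : Quotient (orbitRel (Subgroup.normalizer ((P : Subgroup G) : Set G)) (P : Subgroup G)) →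
        {c : ConjClasses G // ∀ x ∈ c.carrier, ∃ k : ℕ, orderOf x = p ^ k} :=
      Quotient.lift (classOfMem P) (by
        intro a b hab
        obtain ⟨n, hn⟩ := hab
        apply Subtype.ext
        change ConjClasses.mk (a : G) = ConjClasses.mk (b : G)
        rw [ConjClasses.mk_eq_mk_iff_isConj]
        have : (a : G) = n * b * (n : G)⁻¹ := by rw [← hsm, ← hn]
        rw [this]
        exact (isConj_iff.2 ⟨(n : G), rfl⟩).symm)
    apply Nat.card_le_card_of_surjective f
    intro c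
    obtain ⟨x, hx⟩ := classOfMem_surjective P c
    exact ⟨Quotient.mk _ x, hx⟩
  set C' := (Subgroup.centralizer ((P : Subgroup G) : Set G)).subgroupOf
    (Subgroup.normalizer ((P : Subgroup G) : Set G)) with hC'
  have hi1 : C'.index ≠ 1 := fun hh => h (Subgroup.subgroupOf_eq_top.1 (Subgroup.index_eq_one.1 hh))
  have hNodd : Odd (Nat.card (Subgroup.normalizer ((P : Subgroup G) : Set G))) :=
    hodd.of_dvd_nat (Subgroup.card_subgroup_dvd_card _)
  have hiodd : Odd C'.index := hNodd.of_dvd_nat (Subgroup.index_dvd_card C')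
  have hPbot : (P : Subgroup G) ≠ ⊥ := by
    intro hb
    apply h
    intro n _
    rw [Subgroup.mem_centralizer_iff]
    intro x hx
    have hx' : x ∈ (P : Subgroup G) := hx
    rw [hb, Subgroup.mem_bot] at hx'
    rw [hx']; simp
  have hpodd : Odd p := by
    obtain ⟨k, hk⟩ := IsPGroup.iff_card.1 P.2
    have hk0 : k ≠ 0 := by
      rintro rfl
      rw [pow_zero] at hk
      exact hPbot (Subgroup.card_eq_one.1 hk)
    have h3 : p ∣ Nat.card (P : Subgroup G) := by rw [hk]; exact dvd_pow_self p hk0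
    exact hodd.of_dvd_nat (h3.trans (Subgroup.card_subgroup_dvd_card _))
  have hC'n : C'.Normal := by
    constructor
    intro c hc n
    rw [hC', Subgroup.mem_subgroupOf, Subgroup.mem_centralizer_iff] at hc ⊢
    intro x hx
    have hx2 : (n : G)⁻¹ * x * n ∈ (P : Subgroup G) := by
      have := (Subgroup.mem_normalizer_iff.1 (Subgroup.inv_mem _ n.2) x).1 hx
      simpa using this
    have h3 := hc _ hx2
    have e1 : ((n * c * n⁻¹ : Subgroup.normalizer ((P : Subgroup G) : Set G)) : G) =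
        (n : G) * c * (n : G)⁻¹ := rfl
    rw [e1]
    calc x * ((n : G) * c * (n : G)⁻¹) = n * (((n : G)⁻¹ * x * n) * c) * (n : G)⁻¹ := by group
      _ = n * ((c : G) * ((n : G)⁻¹ * x * n)) * (n : G)⁻¹ := by rw [h3]
      _ = (n : G) * c * (n : G)⁻¹ * x := by group
  have hip : C'.index ≠ p := by
    intro hidx
    haveI : IsCyclic (Subgroup.normalizer ((P : Subgroup G) : Set G) ⧸ C') :=
      isCyclic_of_prime_card (p := p) hidx
    let f : (P : Subgroup G) →* (Subgroup.normalizer ((P : Subgroup G) : Set G) ⧸ C') :=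
      (QuotientGroup.mk' C').comp (Subgroup.inclusion Subgroup.le_normalizer)
    have hker : f.ker ≤ Subgroup.center (P : Subgroup G) := by
      intro y hy
      have h3 : Subgroup.inclusion Subgroup.le_normalizer y ∈ C' := by
        rw [← QuotientGroup.ker_mk' C']; exact hy
      rw [hC', Subgroup.mem_subgroupOf, Subgroup.mem_centralizer_iff] at h3
      rw [Subgroup.mem_center_iff]
      intro z
      exact Subtype.ext (h3 z z.2)
    have hcomm := commutative_of_cyclic_center_quotient f hker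
    have hle : (P : Subgroup G).subgroupOf (Subgroup.normalizer ((P : Subgroup G) : Set G)) ≤ C' := by
      intro y hy
      rw [hC', Subgroup.mem_subgroupOf, Subgroup.mem_centralizer_iff]
      intro x hx
      exact congrArg Subtype.val (hcomm ⟨x, hx⟩ ⟨y, hy⟩)
    have h3 := Subgroup.index_dvd_of_le hle
    rw [hidx] at h3
    have h4 := (P.subtype Subgroup.le_normalizer).not_dvd_index
    rw [Sylow.coe_subtype] at h4
    exact h4 h3
  have hi3 : 3 ≤ C'.index := by
    obtain ⟨b, hb⟩ := hiodd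
    omega
  have hp3 : 3 ≤ p := by
    obtain ⟨b, hb⟩ := hpodd
    have := hp.two_le
    omega
  obtain ⟨a, ha⟩ := Nat.exists_eq_add_of_le hp3
  obtain ⟨b, hb⟩ := Nat.exists_eq_add_of_le hi3
  have hab : a ≠ b := fun e => hip (by rw [hb, ha, e])
  have harith : 2 * (p + C'.index - 1) ≤ p * C'.index := by
    rw [hb, ha]
    have e1 : 3 + a + (3 + b) - 1 = a + b + 5 := by omega
    rw [e1]
    have e2 : (3 + a) * (3 + b) = a * b + 3 * a + 3 * b + 9 := by ring
    rw [e2]
    have : 1 ≤ a + b := by omega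
    nlinarith [Nat.zero_le (a * b)]
  have hpos : 0 < p * C'.index := Nat.mul_pos hp.pos (by omega)
  apply Nat.le_of_mul_le_mul_left _ hpos
  calc p * C'.index * (2 * kOf G (fun x => ∃ k : ℕ, orderOf x = p ^ k))
      ≤ p * C'.index * (2 * Nat.card (Quotient
        (orbitRel (Subgroup.normalizer ((P : Subgroup G) : Set G)) (P : Subgroup G)))) :=
        Nat.mul_le_mul_left _ (Nat.mul_le_mul_left _ hsurj)
    _ = 2 * (p * C'.index * Nat.card (Quotient
        (orbitRel (Subgroup.normalizer ((P : Subgroup G) : Set G)) (P : Subgroup G)))) := by ring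
    _ ≤ 2 * ((p + C'.index - 1) * Nat.card (P : Subgroup G)) := Nat.mul_le_mul_left _ h1
    _ = (2 * (p + C'.index - 1)) * Nat.card (P : Subgroup G) := by ring
    _ ≤ p * C'.index * Nat.card (P : Subgroup G) := Nat.mul_le_mul_right _ harith

open Cfsg.Agent.Lib.Helper21 in
theorem exists_good_complement_odd {G : Type*} [Group G] [Finite G] (r : ℕ) (hr : r.Prime)
    (hodd : Odd (Nat.card G))
    (h : r ^ (Nat.card G).factorization r < 2 * kOf G (fun x => ∃ k : ℕ, orderOf x = r ^ k)) :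
    ∃ K : Subgroup G, K.Normal ∧ (Nat.card K).Coprime r ∧ commutator G ≤ K ∧
      ∃ n : ℕ, K.index = r ^ n := by
  haveI : Fact r.Prime := ⟨hr⟩
  obtain ⟨P⟩ := (inferInstance : Nonempty (Sylow r G))
  rw [← Sylow.card_eq_multiplicity P] at h
  have hle : Subgroup.normalizer ((P : Subgroup G) : Set G) ≤
      Subgroup.centralizer ((P : Subgroup G) : Set G) := by
    by_contra hcon
    exact absurd h (not_lt.2 (kp_le_of_not_le_odd P hodd hcon))
  have hc := MonoidHom.ker_transferSylow_isComplement' P hle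
  have hab := (npc_of_le P hle).2
  refine ⟨(MonoidHom.transferSylow P hle).ker, inferInstance, ?_, ?_, ?_⟩
  · rw [← hc.index_eq_card]
    exact ((Nat.Prime.coprime_iff_not_dvd hr).2 P.not_dvd_index).symm
  · exact commutator_le_ker_of_comm (fun a b => hab.is_comm.comm a b) _
  · rw [hc.symm.index_eq_card, Sylow.card_eq_multiplicity]
    exact ⟨_, rfl⟩

open Cfsg.Agent.Lib.Helper21 in
theorem piPart_mul (σ : Finset ℕ) {a b : ℕ} (ha : a ≠ 0) (hb : b ≠ 0) :
    piPart σ (a * b) = piPart σ a * piPart σ b := by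
  unfold piPart
  rw [← Finset.prod_mul_distrib]
  apply Finset.prod_congr rfl
  intro r _
  rw [Nat.factorization_mul ha hb, Finsupp.add_apply, pow_add]

theorem mem_of_pow_mem_coprime {G : Type*} [Group G] (H : Subgroup G) (g : G) (a b : ℕ)
    (hab : Nat.Coprime a b) (ha : g ^ a ∈ H) (hb : g ^ b ∈ H) : g ∈ H := by
  have h3 : g ^ (Nat.gcd a b) ∈ H := by
    rw [← zpow_natCast, Nat.gcd_eq_gcd_ab, zpow_add, zpow_mul, zpow_mul, zpow_natCast,
      zpow_natCast]
    exact Subgroup.mul_mem _ (Subgroup.zpow_mem _ ha _) (Subgroup.zpow_mem _ hb _)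
  rwa [hab, pow_one] at h3

/-- Let π be a finite set of primes containing 2 and G a finite group. Write k_π(G) for the number of conjugacy classes of G consisting of π-elements (elements all of whose order's prime divisors lie in π) and |G|_π for the π-part of the order of G. If k_π(G) > |G|_π/2, then G has a normal π-complement (a normal subgroup of order prime to π whose index is a π-number) and an abelian Hall subgroup for the set of odd primes in π. -/
theorem result {G : Type*} [Group G] [Finite G] (π : Finset ℕ) (hπ : ∀ r ∈ π, r.Prime) (h2 : 2 ∈ π)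
    (hk : π.prod (fun r => r ^ (Nat.card G).factorization r) < 2 * Nat.card {c : ConjClasses G // ∀ x ∈ c.carrier, ∀ r : ℕ, r.Prime → r ∣ orderOf x → r ∈ π}) :
    (∃ N : Subgroup G, N.Normal ∧ (∀ r : ℕ, r.Prime → r ∣ Nat.card ↥N → r ∉ π) ∧ ∀ r : ℕ, r.Prime → r ∣ N.index → r ∈ π) ∧ ∃ H : Subgroup G, Cfsg.IsPiHall ((↑π : Set ℕ) \ {2}) H ∧ IsMulCommutative ↥H := by
  classical
  change Cfsg.Agent.Lib.Helper21.piPart π (Nat.card G) <
    2 * Cfsg.Agent.Lib.Helper21.kOf G (Cfsg.Agent.Lib.Helper21.piElt π) at hk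
  have hA : 2 ^ (Nat.card G).factorization 2 <
      2 * Cfsg.Agent.Lib.Helper21.kOf G (fun x => ∃ k : ℕ, orderOf x = 2 ^ k) := by
    have h1 := Cfsg.Agent.Lib.Helper21.kOf_le_kr_mul G π hπ 2 h2
    rw [Cfsg.Agent.Lib.Helper21.piPart_eq_mul π 2 h2] at hk
    by_contra hcon
    push Not at hcon
    have := Nat.mul_le_mul_right
      (Cfsg.Agent.Lib.Helper21.piPart (π.erase 2) (Nat.card G)) hcon
    nlinarith
  obtain ⟨m, hm⟩ := Cfsg.Agent.Lib.Helper21.index_pPrimeCore_two G hA
  have hKcop : (Nat.card (Cfsg.pPrimeCore 2 G)).Coprime 2 :=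
    Cfsg.Agent.Lib.Helper5.pPrimeCore_coprime
  have hKodd : Odd (Nat.card (Cfsg.pPrimeCore 2 G)) := Nat.coprime_two_right.1 hKcop
  have hkK : Cfsg.Agent.Lib.Helper21.piPart π (Nat.card (Cfsg.pPrimeCore 2 G)) <
      2 * Cfsg.Agent.Lib.Helper21.kOf (Cfsg.pPrimeCore 2 G) (Cfsg.Agent.Lib.Helper21.piElt π) := by
    have h1 := Cfsg.Agent.Lib.Helper21.kOf_piElt_le_mul (Cfsg.pPrimeCore 2 G) π
    have h2' := Cfsg.Agent.Lib.Helper21.kOf_le_piPart π hπ (G ⧸ Cfsg.pPrimeCore 2 G)
    have h3 : Cfsg.Agent.Lib.Helper21.piPart π (Nat.card G) =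
        Cfsg.Agent.Lib.Helper21.piPart π (Nat.card (G ⧸ Cfsg.pPrimeCore 2 G)) *
        Cfsg.Agent.Lib.Helper21.piPart π (Nat.card (Cfsg.pPrimeCore 2 G)) := by
      rw [← piPart_mul π Nat.card_pos.ne' Nat.card_pos.ne',
        ← Subgroup.card_eq_card_quotient_mul_card_subgroup]
    rw [h3] at hk
    by_contra hcon
    push Not at hcon
    have h4 := Nat.mul_le_mul h2' hcon
    have h5 := Nat.mul_le_mul_left 2 h1
    nlinarith
  have hgood : ∀ r ∈ π, ∃ Kr : Subgroup (Cfsg.pPrimeCore 2 G), Kr.Normal ∧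
      (Nat.card Kr).Coprime r ∧ commutator (Cfsg.pPrimeCore 2 G) ≤ Kr ∧
      ∃ n : ℕ, Kr.index = r ^ n := by
    intro r hr
    apply exists_good_complement_odd r (hπ r hr) hKodd
    have h1 := Cfsg.Agent.Lib.Helper21.kOf_le_kr_mul (Cfsg.pPrimeCore 2 G) π hπ r hr
    rw [Cfsg.Agent.Lib.Helper21.piPart_eq_mul π r hr] at hkK
    by_contra hcon
    push Not at hcon
    have := Nat.mul_le_mul_right
      (Cfsg.Agent.Lib.Helper21.piPart (π.erase r) (Nat.card (Cfsg.pPrimeCore 2 G))) hcon
    nlinarith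
  choose Kr hKn hKc hKcomm hKi using hgood
  have hKrle : ∀ r (hr : r ∈ π), (Kr r hr).map (Cfsg.pPrimeCore 2 G).subtype ≤
      Cfsg.pPrimeCore r G := by
    intro r hr
    apply Cfsg.Agent.Lib.Helper18.le_pPrimeCore_of_normal_normal (Cfsg.pPrimeCore 2 G)
      (Subgroup.map_subtype_le _)
    · intro k hk'
      apply Cfsg.Agent.Lib.Helper5.mem_normalizer_of_conj_le
      rintro y ⟨y0, hy0, rfl⟩
      exact ⟨⟨k, hk'⟩ * y0 * ⟨k, hk'⟩⁻¹, (hKn r hr).conj_mem y0 hy0 _, rfl⟩
    · rw [Subgroup.card_map_of_injective (Subgroup.subtype_injective _)]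
      exact hKc r hr
  let N : Subgroup G := ⨅ r : π, Cfsg.pPrimeCore r.1 G
  have hNn : N.Normal := Subgroup.normal_iInf_normal (fun r => inferInstance)
  have hNle : ∀ r (_ : r ∈ π), N ≤ Cfsg.pPrimeCore r G :=
    fun r hr => iInf_le (fun r : π => Cfsg.pPrimeCore r.1 G) ⟨r, hr⟩
  have hN1 : ∀ r : ℕ, r.Prime → r ∣ Nat.card ↥N → r ∉ π := by
    intro r hrp hd hr
    have h1 := hd.trans (Subgroup.card_dvd_of_le (hNle r hr))
    exact (Nat.Prime.coprime_iff_not_dvd hrp).1
      (Cfsg.Agent.Lib.Helper5.pPrimeCore_coprime (p := r) (G := G)).symm h1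
  have hN2 : ∀ r : ℕ, r.Prime → r ∣ N.index → r ∈ π := by
    intro q hq hd
    by_contra hqπ
    haveI : Fact q.Prime := ⟨hq⟩
    obtain ⟨x, hx⟩ := exists_prime_orderOf_dvd_card' (G := G ⧸ N) q hd
    obtain ⟨g, rfl⟩ := QuotientGroup.mk_surjective x
    have hgq : g ^ q ∈ N := by
      rw [← QuotientGroup.eq_one_iff, QuotientGroup.mk_pow, ← hx, pow_orderOf_eq_one]
    have hcopq : ∀ r ∈ π, ∀ n : ℕ, Nat.Coprime (r ^ n) q := by
      intro r hr n
      apply Nat.Coprime.pow_left
      rw [Nat.coprime_primes (hπ r hr) hq]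
      rintro rfl
      exact hqπ hr
    have hgK : g ∈ Cfsg.pPrimeCore 2 G := by
      apply mem_of_pow_mem_coprime _ g (2 ^ m) q (hcopq 2 h2 m)
      · rw [← hm]; exact Subgroup.pow_index_mem _ g
      · exact hNle 2 h2 hgq
    have hgN : g ∈ N := by
      rw [Subgroup.mem_iInf]
      intro r
      haveI := hKn r.1 r.2
      obtain ⟨n, hn⟩ := hKi r.1 r.2
      apply mem_of_pow_mem_coprime _ g (r.1 ^ n) q (hcopq r.1 r.2 n)
      · apply hKrle r.1 r.2
        have h1 : (⟨g, hgK⟩ : Cfsg.pPrimeCore 2 G) ^ (r.1 ^ n) ∈ Kr r.1 r.2 :=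
          hn ▸ Subgroup.pow_index_mem (Kr r.1 r.2) _
        exact ⟨_, h1, rfl⟩
      · exact hNle r.1 r.2 hgq
    have : (QuotientGroup.mk g : G ⧸ N) = 1 := (QuotientGroup.eq_one_iff g).2 hgN
    rw [this, orderOf_one] at hx
    exact hq.one_lt.ne hx
  refine ⟨⟨N, hNn, hN1, hN2⟩, ?_⟩
  have hcop : (Nat.card N).Coprime N.index :=
    Nat.coprime_of_dvd (fun q hq h1 h2 => hN1 q hq h1 (hN2 q hq h2))
  obtain ⟨H1, hH1⟩ := Subgroup.exists_right_complement'_of_coprime hcop
  refine ⟨H1 ⊓ Cfsg.pPrimeCore 2 G, ⟨?_, ?_⟩, ?_⟩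
  · intro q hq hd
    refine ⟨?_, ?_⟩
    · have h1 := hd.trans (Subgroup.card_dvd_of_le (inf_le_left : H1 ⊓ Cfsg.pPrimeCore 2 G ≤ H1))
      rw [← hH1.symm.index_eq_card] at h1
      exact hN2 q hq h1
    · intro hq2
      rw [Set.mem_singleton_iff] at hq2
      subst hq2
      have h1 := hd.trans (Subgroup.card_dvd_of_le
        (inf_le_right : H1 ⊓ Cfsg.pPrimeCore 2 G ≤ Cfsg.pPrimeCore 2 G))
      exact (Nat.Prime.coprime_iff_not_dvd Nat.prime_two).1 hKcop.symm h1
  · rintro q hq ⟨hqπ, hq2⟩ hd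
    rw [← Subgroup.relIndex_mul_index (inf_le_left : H1 ⊓ Cfsg.pPrimeCore 2 G ≤ H1),
      Subgroup.inf_relIndex_left, hH1.index_eq_card] at hd
    rcases (Nat.Prime.dvd_mul hq).1 hd with h1 | h1
    · have h3 := h1.trans (Subgroup.relIndex_dvd_index_of_normal (Cfsg.pPrimeCore 2 G) H1)
      rw [hm] at h3
      exact hq2 (Set.mem_singleton_iff.2
        ((Nat.prime_dvd_prime_iff_eq hq Nat.prime_two).1 (hq.dvd_of_dvd_pow h3)))
    · exact hN1 q hq h1 hqπ
  · constructor
    constructor
    intro a b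
    have haK : (a : G) ∈ Cfsg.pPrimeCore 2 G := (Subgroup.mem_inf.1 a.2).2
    have hbK : (b : G) ∈ Cfsg.pPrimeCore 2 G := (Subgroup.mem_inf.1 b.2).2
    have h1 : (a : G) * b * (a : G)⁻¹ * (b : G)⁻¹ ∈ N := by
      rw [Subgroup.mem_iInf]
      intro r
      apply hKrle r.1 r.2
      refine ⟨(⟨a, haK⟩ : Cfsg.pPrimeCore 2 G) * ⟨b, hbK⟩ * (⟨a, haK⟩)⁻¹ * (⟨b, hbK⟩)⁻¹, ?_, rfl⟩
      apply hKcomm r.1 r.2
      have := Subgroup.commutator_mem_commutator
        (Subgroup.mem_top (⟨a, haK⟩ : Cfsg.pPrimeCore 2 G))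
        (Subgroup.mem_top (⟨b, hbK⟩ : Cfsg.pPrimeCore 2 G))
      rw [commutatorElement_def] at this
      rw [commutator_def]
      exact this
    have haH : (a : G) ∈ H1 := (Subgroup.mem_inf.1 a.2).1
    have hbH : (b : G) ∈ H1 := (Subgroup.mem_inf.1 b.2).1
    have h2' : (a : G) * b * (a : G)⁻¹ * (b : G)⁻¹ ∈ H1 :=
      H1.mul_mem (H1.mul_mem (H1.mul_mem haH hbH) (H1.inv_mem haH)) (H1.inv_mem hbH)
    have h3 := Subgroup.disjoint_def.1 hH1.disjoint h1 h2'
    apply Subtype.ext
    change (a : G) * b = b * a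
    calc (a : G) * b = ((a : G) * b * (a : G)⁻¹ * (b : G)⁻¹) * (b * a) := by group
      _ = b * a := by rw [h3, one_mul]

end Cfsg.Agent.S3898
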