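import Cfsg.Statements.S3899
import Mathlib
import Cfsg.Agent.Lib.Helper21.KPi2
import Cfsg.Agent.Lib.Helper21.Pullback

set_option autoImplicit false
open Cfsg
open Cfsg.Agent.Lib.Helper21

namespace Cfsg.Agent.S3899

lemma exists_good_complement {G : Type*} [Group G] [Finite G] (r : ℕ) (hr : r.Prime)
    (h : (r + 1) * r ^ (Nat.card G).factorization r <
      2 * r * kOf G (fun x => ∃ k : ℕ, orderOf x = r ^ k)) :
    ∃ K : Subgroup G, K.Normal ∧ (Nat.card K).Coprime r ∧ commutator G ≤ K ∧
      ∃ n : ℕ, K.index = r ^ n := by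
  haveI : Fact r.Prime := ⟨hr⟩
  obtain ⟨P⟩ := (inferInstance : Nonempty (Sylow r G))
  rw [← Sylow.card_eq_multiplicity P] at h
  have hle : Subgroup.normalizer ((P : Subgroup G) : Set G) ≤
      Subgroup.centralizer ((P : Subgroup G) : Set G) := by
    by_contra hcon
    exact absurd h (not_lt.2 (kp_le_of_not_le P hcon))
  have hc := MonoidHom.ker_transferSylow_isComplement' P hle
  have hab := (npc_of_le P hle).2
  refine ⟨(MonoidHom.transferSylow P hle).ker, inferInstance, ?_, ?_, ?_⟩
  · rw [← hc.index_eq_card]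
    exact ((Nat.Prime.coprime_iff_not_dvd hr).2 P.not_dvd_index).symm
  · exact commutator_le_ker_of_comm (fun a b => hab.is_comm.comm a b) _
  · rw [hc.symm.index_eq_card, Sylow.card_eq_multiplicity]
    exact ⟨_, rfl⟩

/-- Let π be a finite non-empty set of odd primes with smallest member p and G a finite group. Write k_π(G) for the number of conjugacy classes of G consisting of π-elements (elements all of whose order's prime divisors lie in π) and |G|_π for the π-part of the order of G. If k_π(G) > (p + 1)|G|_π/(2p), then G has a normal π-complement (a normal subgroup of order prime to π whose index is a π-number) and an abelian Hall π-subgroup. -/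
theorem result {G : Type*} [Group G] [Finite G] (π : Finset ℕ) (hπ : ∀ r ∈ π, r.Prime) (h2 : 2 ∉ π) (p : ℕ) (hp : p ∈ π)
    (hmin : ∀ r ∈ π, p ≤ r) (hk : (p + 1) * π.prod (fun r => r ^ (Nat.card G).factorization r) < 2 * p * Nat.card {c : ConjClasses G // ∀ x ∈ c.carrier, ∀ r : ℕ, r.Prime → r ∣ orderOf x → r ∈ π}) :
    (∃ N : Subgroup G, N.Normal ∧ (∀ r : ℕ, r.Prime → r ∣ Nat.card ↥N → r ∉ π) ∧ ∀ r : ℕ, r.Prime → r ∣ N.index → r ∈ π) ∧ ∃ H : Subgroup G, Cfsg.IsPiHall (↑π : Set ℕ) H ∧ IsMulCommutative ↥H := by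
  classical
  have hpp : p.Prime := hπ p hp
  change (p + 1) * piPart π (Nat.card G) < 2 * p * kOf G (piElt π) at hk
  have hgood : ∀ r ∈ π, ∃ K : Subgroup G, K.Normal ∧ (Nat.card K).Coprime r ∧ commutator G ≤ K ∧
      ∃ n : ℕ, K.index = r ^ n := by
    intro r hr
    apply exists_good_complement r (hπ r hr)
    have h1 := kOf_le_kr_mul G π hπ r hr
    rw [piPart_eq_mul π r hr] at hk
    set X := piPart (π.erase r) (Nat.card G) with hX
    set k := kOf G (fun x => ∃ k : ℕ, orderOf x = r ^ k) with hkdef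
    set a := r ^ (Nat.card G).factorization r with ha
    have h3 : (p + 1) * (a * X) < 2 * p * (k * X) :=
      lt_of_lt_of_le hk (Nat.mul_le_mul_left _ h1)
    have h4 : (p + 1) * a < 2 * p * k := by
      by_contra hcon
      push Not at hcon
      have := Nat.mul_le_mul_right X hcon
      nlinarith
    have hpr : p ≤ r := hmin r hr
    have h5 : ((r + 1) * a) * p < (2 * r * k) * p := by
      calc ((r + 1) * a) * p = (r * p + p) * a := by ring
        _ ≤ (r * p + r) * a := Nat.mul_le_mul_right _ (by omega)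
        _ = ((p + 1) * a) * r := by ring
        _ < (2 * p * k) * r := Nat.mul_lt_mul_of_pos_right h4 (hπ r hr).pos
        _ = (2 * r * k) * p := by ring
    exact Nat.lt_of_mul_lt_mul_right h5
  choose K hKn hKc hKcomm hKi using hgood
  let N : Subgroup G := ⨅ r : π, K r.1 r.2
  have hNn : N.Normal := Subgroup.normal_iInf_normal (fun r => hKn r.1 r.2)
  have hNle : ∀ r (hr : r ∈ π), N ≤ K r hr := fun r hr => iInf_le (fun r : π => K r.1 r.2) ⟨r, hr⟩
  have hN1 : ∀ r : ℕ, r.Prime → r ∣ Nat.card ↥N → r ∉ π := by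
    intro r hrp hd hr
    have h1 := hd.trans (Subgroup.card_dvd_of_le (hNle r hr))
    exact (Nat.Prime.coprime_iff_not_dvd hrp).1 (hKc r hr).symm h1
  have hN2 : ∀ r : ℕ, r.Prime → r ∣ N.index → r ∈ π := by
    intro q hq hd
    by_contra hqπ
    haveI : Fact q.Prime := ⟨hq⟩
    obtain ⟨x, hx⟩ := exists_prime_orderOf_dvd_card' (G := G ⧸ N) q hd
    obtain ⟨g, rfl⟩ := QuotientGroup.mk_surjective x
    have hgq : g ^ q ∈ N := by
      rw [← QuotientGroup.eq_one_iff, QuotientGroup.mk_pow, ← hx, pow_orderOf_eq_one]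
    have hgN : g ∈ N := by
      rw [Subgroup.mem_iInf]
      intro r
      haveI := hKn r.1 r.2
      obtain ⟨n, hn⟩ := hKi r.1 r.2
      have h1 : g ^ (r.1 ^ n) ∈ K r.1 r.2 := hn ▸ Subgroup.pow_index_mem (K r.1 r.2) g
      have h2 : g ^ q ∈ K r.1 r.2 := hNle r.1 r.2 hgq
      have hcop : Nat.Coprime (r.1 ^ n) q := by
        apply Nat.Coprime.pow_left
        rw [Nat.coprime_primes (hπ r.1 r.2) hq]
        rintro rfl
        exact hqπ r.2
      have h3 : g ^ (Nat.gcd (r.1 ^ n) q) ∈ K r.1 r.2 := by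
        rw [← zpow_natCast, Nat.gcd_eq_gcd_ab, zpow_add, zpow_mul, zpow_mul, zpow_natCast,
          zpow_natCast]
        exact Subgroup.mul_mem _ (Subgroup.zpow_mem _ h1 _) (Subgroup.zpow_mem _ h2 _)
      rwa [hcop, pow_one] at h3
    have : (QuotientGroup.mk g : G ⧸ N) = 1 := (QuotientGroup.eq_one_iff g).2 hgN
    rw [this, orderOf_one] at hx
    exact hq.one_lt.ne hx
  refine ⟨⟨N, hNn, hN1, hN2⟩, ?_⟩
  have hcop : (Nat.card N).Coprime N.index :=
    Nat.coprime_of_dvd (fun q hq h1 h2 => hN1 q hq h1 (hN2 q hq h2))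
  obtain ⟨H, hH⟩ := Subgroup.exists_right_complement'_of_coprime hcop
  refine ⟨H, ⟨?_, ?_⟩, ?_⟩
  · intro q hq hd
    rw [← hH.symm.index_eq_card] at hd
    exact hN2 q hq hd
  · intro q hq hqπ hd
    rw [hH.index_eq_card] at hd
    exact hN1 q hq hd hqπ
  · constructor
    constructor
    intro a b
    have h1 : (a : G) * b * (a : G)⁻¹ * (b : G)⁻¹ ∈ N := by
      rw [Subgroup.mem_iInf]
      intro r
      apply hKcomm r.1 r.2
      have := Subgroup.commutator_mem_commutator (Subgroup.mem_top (a : G)) (Subgroup.mem_top (b : G))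
      rw [commutatorElement_def] at this
      rw [commutator_def]
      exact this
    have h2 : (a : G) * b * (a : G)⁻¹ * (b : G)⁻¹ ∈ H :=
      H.mul_mem (H.mul_mem (H.mul_mem a.2 b.2) (H.inv_mem a.2)) (H.inv_mem b.2)
    have h3 := Subgroup.disjoint_def.1 hH.disjoint h1 h2
    apply Subtype.ext
    change (a : G) * b = b * a
    calc (a : G) * b = ((a : G) * b * (a : G)⁻¹ * (b : G)⁻¹) * (b * a) := by group
      _ = b * a := by rw [h3, one_mul]

end Cfsg.Agent.S3899
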