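import Cfsg.Statements.S3903
import Mathlib

set_option autoImplicit false
open Cfsg

namespace Cfsg.Agent.S3903

section aux
variable {G : Type*} [Group G] [Finite G]


lemma centralizer_isPGroup (N : Subgroup G)
    (h : ∀ x : G, x ∉ N → IsPrimePow (orderOf x))
    (x : G) (hx : x ∉ N) (q a : ℕ) (hq : q.Prime) (hxo : orderOf x = q ^ a) :
    IsPGroup q (Subgroup.centralizer ({x} : Set G)) := by
  have key : ∀ r : ℕ, r.Prime → r ∣ Nat.card (Subgroup.centralizer ({x} : Set G)) → r = q := by
    intro r hr hdvd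
    haveI := Fact.mk hr
    obtain ⟨c, hc⟩ := exists_prime_orderOf_dvd_card' (G := Subgroup.centralizer ({x} : Set G)) r hdvd
    by_contra hne
    have hcomm : Commute x (c : G) := by
      have := c.2
      rw [Subgroup.mem_centralizer_singleton_iff] at this
      exact this.symm
    have hco : orderOf (c : G) = r := by rw [Subgroup.orderOf_coe]; exact hc
    have hqr : Nat.Coprime q r := (Nat.coprime_primes hq hr).2 (Ne.symm hne)
    have hcop : Nat.Coprime (orderOf x) (orderOf (c:G)) := by
      rw [hxo, hco]; exact Nat.Coprime.pow_left _ hqr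
    have hord : orderOf (x * c) = q ^ a * r := by
      rw [hcomm.orderOf_mul_eq_mul_orderOf_of_coprime hcop, hxo, hco]
    have ha : a ≠ 0 := by
      rintro rfl
      simp at hxo
      exact hx (hxo ▸ N.one_mem)
    by_cases hxc : x * c ∈ N
    · have h1 : x ^ r ∈ N := by
        have : (x * c) ^ r = x ^ r := by
          rw [hcomm.mul_pow, ← hco, pow_orderOf_eq_one, mul_one]
        rw [← this]; exact N.pow_mem hxc r
      obtain ⟨m, hm⟩ := exists_pow_eq_self_of_coprime (x := x) (n := r)
        (by rw [hxo]; exact (Nat.Coprime.pow_left _ hqr).symm)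
      exact hx (hm ▸ N.pow_mem h1 m)
    · have hpp := h _ hxc
      rw [hord] at hpp
      obtain ⟨s, k, hs, hk, hsk⟩ := (isPrimePow_nat_iff _).1 hpp
      have h1 : q ∣ s ^ k := hsk ▸ (dvd_mul_of_dvd_left (dvd_pow_self q ha) r)
      have h2 : r ∣ s ^ k := hsk ▸ (dvd_mul_left r _)
      have h3 := (Nat.prime_dvd_prime_iff_eq hq hs).1 (hq.dvd_of_dvd_pow h1)
      have h4 := (Nat.prime_dvd_prime_iff_eq hr hs).1 (hr.dvd_of_dvd_pow h2)
      exact hne (h4.trans h3.symm)
  exact IsPGroup.of_card (Nat.eq_prime_pow_of_unique_prime_dvd Nat.card_pos.ne' (fun {r} hr hd => key r hr hd))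



omit [Finite G] in
lemma card_mul_relIndex' {H K : Subgroup G} (h : H ≤ K) :
    Nat.card H * H.relIndex K = Nat.card K := by
  rw [← Subgroup.relIndex_bot_left, ← Subgroup.relIndex_bot_left]
  exact Subgroup.relIndex_mul_relIndex ⊥ H K bot_le h

lemma isSolvable_of_isPGroup {H : Type*} [Group H] [Finite H] (p : ℕ) [Fact p.Prime] (h : IsPGroup p H) :
    Group.IsSolvable H := by
  have := h.isNilpotent
  infer_instance

lemma index_dvd_card_of_sup_eq_top (H K : Subgroup G) [K.Normal] (h : H ⊔ K = ⊤) :
    H.index ∣ Nat.card K := by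
  have h1 : K.relIndex (H ⊔ K) = K.relIndex H := Subgroup.relIndex_sup_right _ _
  rw [h, Subgroup.relIndex_top_right] at h1
  have h2 : Nat.card (K ⊓ H : Subgroup G) * K.index = Nat.card H := by
    rw [h1, ← Subgroup.inf_relIndex_right]
    exact card_mul_relIndex' inf_le_right
  have h3 : Nat.card H * H.index = Nat.card G := Subgroup.card_mul_index _
  have h4 : Nat.card K * K.index = Nat.card G := Subgroup.card_mul_index _
  have hK0 : 0 < K.index := Nat.pos_of_ne_zero Subgroup.index_ne_zero_of_finite
  refine ⟨Nat.card (K ⊓ H : Subgroup G), ?_⟩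
  apply Nat.eq_of_mul_eq_mul_right hK0
  rw [h4, ← h3, ← h2]
  ring

/-- normal r-subgroup R with a q-group supplement gives solvable. -/
lemma solvable_of_normal_pgroup_sup (q r : ℕ) [Fact q.Prime] [Fact r.Prime] (R Q : Subgroup G) [R.Normal]
    (hR : IsPGroup r R) (hQ : IsPGroup q Q) (h : R ⊔ Q = ⊤) : Group.IsSolvable G := by
  rw [Group.isSolvable_iff_subgroup_quotient R]
  refine ⟨isSolvable_of_isPGroup r hR, ?_⟩
  have hsurj : Function.Surjective ((QuotientGroup.mk' R).comp Q.subtype) := by
    intro x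
    obtain ⟨g, rfl⟩ := QuotientGroup.mk'_surjective R x
    have hg : g ∈ R ⊔ Q := h ▸ Subgroup.mem_top g
    rw [Subgroup.mem_sup_of_normal_left] at hg
    obtain ⟨y, hy, z, hz, rfl⟩ := hg
    refine ⟨⟨z, hz⟩, ?_⟩
    simp only [MonoidHom.comp_apply, Subgroup.subtype_apply, QuotientGroup.mk'_apply]
    rw [QuotientGroup.eq]
    simpa [mul_assoc] using (Subgroup.Normal.conj_mem' inferInstance y hy z)
  exact isSolvable_of_isPGroup q (hQ.of_surjective _ hsurj)

lemma solvable_of_maximal_abelian_sylow (q : ℕ) [Fact q.Prime] (Q : Sylow q G)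
    (hmax : IsCoatom (Q : Subgroup G))
    (hab : Subgroup.normalizer ((Q : Subgroup G) : Set G) = Q →
      ∀ a ∈ (Q : Subgroup G), ∀ b ∈ (Q : Subgroup G), a * b = b * a) : Group.IsSolvable G := by
  by_cases hn : (Q : Subgroup G).Normal
  · -- G / Q cyclic
    rw [Group.isSolvable_iff_subgroup_quotient (Q : Subgroup G)]
    refine ⟨isSolvable_of_isPGroup q Q.2, ?_⟩
    obtain ⟨g, hg⟩ : ∃ g : G, g ∉ (Q : Subgroup G) := by
      by_contra hcon
      push Not at hcon
      exact hmax.1 (eq_top_iff.2 (fun x _ => hcon x))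
    have htop : (Q : Subgroup G) ⊔ Subgroup.zpowers g = ⊤ := by
      apply hmax.2
      refine lt_of_le_of_ne le_sup_left ?_
      intro heq
      apply hg
      rw [heq]
      exact (le_sup_right : Subgroup.zpowers g ≤ _) (Subgroup.mem_zpowers g)
    have hcyc : IsCyclic (G ⧸ (Q : Subgroup G)) := by
      refine ⟨⟨QuotientGroup.mk g, ?_⟩⟩
      intro x
      obtain ⟨y, rfl⟩ := QuotientGroup.mk'_surjective _ x
      have hy : y ∈ (Q : Subgroup G) ⊔ Subgroup.zpowers g := htop ▸ Subgroup.mem_top y
      rw [Subgroup.mem_sup_of_normal_left] at hy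
      obtain ⟨u, hu, z, hz, rfl⟩ := hy
      obtain ⟨k, rfl⟩ := Subgroup.mem_zpowers_iff.1 hz
      refine Subgroup.mem_zpowers_iff.2 ⟨k, ?_⟩
      simp only [QuotientGroup.mk'_apply]
      rw [← QuotientGroup.mk_zpow, QuotientGroup.eq]
      simpa [mul_assoc] using (Subgroup.Normal.conj_mem' hn u hu (g ^ k))
    exact Group.isSolvable_of_comm (fun a b => (isMulCommutative_iff.1 inferInstance) a b)
  · have hnorm : Subgroup.normalizer ((Q : Subgroup G) : Set G) = Q := by
      by_contra hne
      have hlt : (Q : Subgroup G) < Subgroup.normalizer ((Q : Subgroup G) : Set G) :=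
        lt_of_le_of_ne Subgroup.le_normalizer (Ne.symm hne)
      exact hn (Subgroup.normalizer_eq_top_iff.1 (hmax.2 _ hlt))
    have hP : Subgroup.normalizer (Q : Set G) ≤ Subgroup.centralizer (Q : Set G) := by
      intro g hg
      have hg' : g ∈ (Q : Subgroup G) := by
        rw [← hnorm]; exact hg
      rw [Subgroup.mem_centralizer_iff]
      intro b hb
      exact hab hnorm b hb g hg'
    set K := (MonoidHom.transferSylow Q hP).ker with hK
    have hcompl : K.IsComplement' Q := MonoidHom.ker_transferSylow_isComplement' Q hP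
    have hqK : ¬ q ∣ Nat.card K := MonoidHom.not_dvd_card_ker_transferSylow Q hP
    have hcard : Nat.card K * Nat.card (Q : Subgroup G) = Nat.card G := hcompl.card_mul_card
    have hK1 : Nat.card K ≠ 1 := by
      intro h1
      rw [h1, one_mul] at hcard
      exact hmax.1 (Subgroup.eq_top_of_card_eq _ hcard)
    set r := (Nat.card K).minFac with hr
    have hrp : r.Prime := Nat.minFac_prime hK1
    have hrK : r ∣ Nat.card K := Nat.minFac_dvd _
    have hrq : r ≠ q := fun h => hqK (h ▸ hrK)
    have := Fact.mk hrp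
    -- every Sylow r-subgroup of G lies in K
    have hRK : ∀ R : Sylow r G, (R : Subgroup G) ≤ K := by
      intro R u hu
      rw [hK, MonoidHom.mem_ker]
      obtain ⟨j, hj⟩ := (R.2 ⟨u, hu⟩)
      have hj' : u ^ r ^ j = 1 := by simpa using congrArg Subtype.val hj
      obtain ⟨k, hk⟩ := Q.2 (MonoidHom.transferSylow Q hP u)
      have h1 : (MonoidHom.transferSylow Q hP u) ^ r ^ j = 1 := by rw [← map_pow, hj', map_one]
      have hcop : Nat.Coprime (r ^ j) (q ^ k) :=
        Nat.Coprime.pow _ _ ((Nat.coprime_primes hrp (Fact.out)).2 hrq)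
      have := pow_gcd_eq_one.2 ⟨h1, hk⟩
      rwa [hcop.gcd_eq_one, pow_one] at this
    have hnr : ¬ q ∣ Nat.card (Sylow r G) := by
      intro hdvd
      obtain ⟨R⟩ : Nonempty (Sylow r G) := inferInstance
      rw [R.card_eq_index_normalizer] at hdvd
      have := index_dvd_card_of_sup_eq_top _ K (Sylow.normalizer_sup_eq_top' R (hRK R))
      exact hqK (hdvd.trans this)
    obtain ⟨R, hR⟩ := Q.2.nonempty_fixed_point_of_prime_not_dvd_card (Sylow r G) hnr
    have hQR : (Q : Subgroup G) ≤ Subgroup.normalizer ((R : Subgroup G) : Set G) := by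
      intro u hu
      have := hR ⟨u, hu⟩
      exact Sylow.smul_eq_iff_mem_normalizer.1 this
    have hRne : ¬ (R : Subgroup G) ≤ Q := by
      intro hle
      have h1 : r ∣ Nat.card (R : Subgroup G) := by
        have : r ∣ Nat.card G := hrK.trans (Subgroup.card_subgroup_dvd_card K)
        exact R.dvd_card_of_dvd_card this
      have h2 : Nat.card (R : Subgroup G) ∣ Nat.card (Q : Subgroup G) := Subgroup.card_dvd_of_le hle
      obtain ⟨k, hk⟩ := Q.2.exists_card_eq
      have h3 : r ∣ q ^ k := hk ▸ (h1.trans h2)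
      exact hrq ((Nat.prime_dvd_prime_iff_eq hrp Fact.out).1 (hrp.dvd_of_dvd_pow h3))
    have htop : (R : Subgroup G) ⊔ Q = ⊤ := by
      apply hmax.2
      refine lt_of_le_of_ne le_sup_right ?_
      intro heq
      apply hRne
      rw [heq]
      exact le_sup_left
    have hRn : (R : Subgroup G).Normal := by
      rw [← Subgroup.normalizer_eq_top_iff, eq_top_iff, ← htop]
      exact sup_le Subgroup.le_normalizer hQR
    exact solvable_of_normal_pgroup_sup q r R Q R.2 Q.2 htop

lemma count_lemma (q : ℕ) [Fact q.Prime] (N : Subgroup G) [N.Normal]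
    (Q : Sylow q G) (hQn : Subgroup.normalizer ((Q : Subgroup G) : Set G) = Q)
    (hsup : ∀ P : Sylow q G, (P : Subgroup G) ⊔ N = ⊤)
    (hcent : ∀ y : G, y ∉ N → ∃ P : Sylow q G, (P : Subgroup G) = Subgroup.centralizer ({y} : Set G)) :
    ∀ P : Sylow q G, ∀ y ∈ (P : Subgroup G), y ∉ N → Subgroup.centralizer ({y} : Set G) = P := by
  classical
  have := Fintype.ofFinite G
  have := Fintype.ofFinite (Sylow q G)
  let f : G → Sylow q G := fun y => if hy : y ∉ N then (hcent y hy).choose else Q
  have hf : ∀ y, y ∉ N → ((f y : Sylow q G) : Subgroup G) = Subgroup.centralizer ({y} : Set G) := by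
    intro y hy
    simp only [f, dif_pos hy]
    exact (hcent y hy).choose_spec
  let X : Finset G := Finset.univ.filter (· ∉ N)
  let A : Sylow q G → Finset G := fun P => Finset.univ.filter (fun y => y ∈ (P : Subgroup G) ∧ y ∉ N)
  let F : Sylow q G → Finset G := fun P => X.filter (fun y => f y = P)
  have hFA : ∀ P, F P ⊆ A P := by
    intro P y hy
    simp only [F, X, A, Finset.mem_filter, Finset.mem_univ, true_and] at hy ⊢
    refine ⟨?_, hy.1⟩
    have := hf y hy.1
    rw [hy.2] at this
    rw [this]
    exact Subgroup.mem_centralizer_singleton_iff.2 rfl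
  have hX : X.card = ∑ P : Sylow q G, (F P).card :=
    Finset.card_eq_sum_card_fiberwise (fun _ _ => Finset.mem_univ _)
  set a := Nat.card (Q : Subgroup G) with ha
  set i := N.index with hi
  have hi0 : 0 < i := Nat.pos_of_ne_zero (Subgroup.index_ne_zero_of_finite)
  have hcardP : ∀ P : Sylow q G, Nat.card (P : Subgroup G) = a := by
    intro P
    rw [ha, P.card_eq_multiplicity, Q.card_eq_multiplicity]
  have hinf : ∀ P : Sylow q G, Nat.card ((P : Subgroup G) ⊓ N : Subgroup G) * i = a := by
    intro P
    have h1 : N.relIndex ((P : Subgroup G) ⊔ N) = N.relIndex P := Subgroup.relIndex_sup_right _ _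
    rw [hsup P, Subgroup.relIndex_top_right] at h1
    rw [hi, h1, ← hcardP P, ← Subgroup.inf_relIndex_right, inf_comm]
    exact card_mul_relIndex' inf_le_right
  set c := Nat.card ((Q : Subgroup G) ⊓ N : Subgroup G) with hc
  have hinf' : ∀ P : Sylow q G, Nat.card ((P : Subgroup G) ⊓ N : Subgroup G) = c := by
    intro P
    exact Nat.eq_of_mul_eq_mul_right hi0 ((hinf P).trans (hinf Q).symm)
  have hA : ∀ P : Sylow q G, (A P).card + c = a := by
    intro P
    rw [← hinf' P, ← hcardP P]
    have h1 : Nat.card (P : Subgroup G) = (Finset.univ.filter (fun y => y ∈ (P : Subgroup G))).card := by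
      rw [Nat.card_eq_fintype_card, Fintype.card_subtype]
    have h2 : Nat.card ((P : Subgroup G) ⊓ N : Subgroup G) =
        (Finset.univ.filter (fun y => y ∈ (P : Subgroup G) ∧ y ∈ N)).card := by
      rw [Nat.card_eq_fintype_card, Fintype.card_subtype]
      simp only [Subgroup.mem_inf]
    rw [h1, h2, add_comm]
    have := Finset.card_filter_add_card_filter_not (s := Finset.univ.filter (fun y => y ∈ (P : Subgroup G))) (fun y => y ∈ N)
    rw [Finset.filter_filter, Finset.filter_filter] at this
    exact this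
  have hnq : Nat.card (Sylow q G) * a = Nat.card G := by
    rw [Q.card_eq_index_normalizer]
    change (Subgroup.normalizer ((Q : Subgroup G) : Set G)).index * a = _
    rw [hQn, mul_comm]
    exact Subgroup.card_mul_index _
  have hnc : Nat.card (Sylow q G) * c = Nat.card N := by
    apply Nat.eq_of_mul_eq_mul_right hi0
    rw [mul_assoc, hinf Q, hnq, hi, Subgroup.card_mul_index]
  have hXc : X.card + Nat.card N = Nat.card G := by
    have h1 : Nat.card N = (Finset.univ.filter (fun y => y ∈ N)).card := by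
      rw [Nat.card_eq_fintype_card, Fintype.card_subtype]
    have := Finset.card_filter_add_card_filter_not (s := (Finset.univ : Finset G)) (fun y => y ∈ N)
    rw [h1, add_comm, this, Nat.card_eq_fintype_card, Finset.card_univ]
  have hsumA : ∑ P : Sylow q G, (A P).card = X.card := by
    have h1 : ∑ P : Sylow q G, ((A P).card + c) = ∑ P : Sylow q G, a := Finset.sum_congr rfl (fun P _ => hA P)
    rw [Finset.sum_add_distrib, Finset.sum_const, Finset.sum_const, Finset.card_univ, smul_eq_mul, smul_eq_mul,
      ← Nat.card_eq_fintype_card, hnq, hnc] at h1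
    omega
  have heq : ∀ P ∈ (Finset.univ : Finset (Sylow q G)), (F P).card = (A P).card :=
    (Finset.sum_eq_sum_iff_of_le (fun P _ => Finset.card_le_card (hFA P))).1 (hX.symm.trans hsumA.symm)
  intro P y hyP hyN
  have hFP : F P = A P := Finset.eq_of_subset_of_card_le (hFA P) (heq P (Finset.mem_univ _)).ge
  have hy : y ∈ F P := by
    rw [hFP]
    simp only [A, Finset.mem_filter, Finset.mem_univ, true_and]
    exact ⟨hyP, hyN⟩
  simp only [F, X, Finset.mem_filter, Finset.mem_univ, true_and] at hy
  rw [← hf y hyN, hy.2]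


end aux

/-- Let N be a proper normal subgroup of the finite group G such that every element x of G outside N has prime power order and has centralizer C_G(x) a maximal subgroup of G. Then N is solvable. -/
theorem result {G : Type*} [Group G] [Finite G] (N : Subgroup G) [N.Normal] (hN : N ≠ ⊤)
    (h : ∀ x : G, x ∉ N → IsPrimePow (orderOf x) ∧ IsCoatom (Subgroup.centralizer ({x} : Set G))) : Group.IsSolvable ↥N := by
  obtain ⟨x, hx⟩ : ∃ x, x ∉ N := by
    by_contra hcon
    push Not at hcon
    exact hN (eq_top_iff.2 fun y _ => hcon y)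
  obtain ⟨q, a, hq, ha, hqa⟩ := (isPrimePow_nat_iff _).1 (h x hx).1
  have := Fact.mk hq
  have hpp : ∀ x, x ∉ N → IsPrimePow (orderOf x) := fun x hx => (h x hx).1
  have hCx : IsPGroup q (Subgroup.centralizer ({x} : Set G)) :=
    centralizer_isPGroup N hpp x hx q a hq hqa.symm
  by_cases hGq : IsPGroup q G
  · exact isSolvable_of_isPGroup q (hGq.to_subgroup N)
  by_cases hNC : N ≤ Subgroup.centralizer ({x} : Set G)
  · exact isSolvable_of_isPGroup q (hCx.to_le hNC)
  have hsupx : Subgroup.centralizer ({x} : Set G) ⊔ N = ⊤ :=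
    (h x hx).2.2 _ (lt_of_le_of_ne le_sup_left (fun heq => hNC (heq ▸ le_sup_right)))
  have hGN : IsPGroup q (G ⧸ N) := by
    have hsurj : Function.Surjective
        ((QuotientGroup.mk' N).comp (Subgroup.centralizer ({x} : Set G)).subtype) := by
      intro z
      obtain ⟨g, rfl⟩ := QuotientGroup.mk'_surjective N z
      have hg : g ∈ Subgroup.centralizer ({x} : Set G) ⊔ N := hsupx ▸ Subgroup.mem_top g
      rw [Subgroup.mem_sup_of_normal_right] at hg
      obtain ⟨y, hy, z, hz, rfl⟩ := hg
      refine ⟨⟨y, hy⟩, ?_⟩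
      simp only [MonoidHom.comp_apply, Subgroup.subtype_apply, QuotientGroup.mk'_apply]
      rw [QuotientGroup.eq]
      simpa using hz
    exact hCx.of_surjective _ hsurj
  have hord : ∀ y, y ∉ N → ∃ b, orderOf y = q ^ b := by
    intro y hy
    obtain ⟨r, b, hr, hb, hrb⟩ := (isPrimePow_nat_iff _).1 (h y hy).1
    obtain ⟨k, hk⟩ := hGN (QuotientGroup.mk y)
    have hk' : y ^ q ^ k ∈ N := by
      rw [← QuotientGroup.eq_one_iff, QuotientGroup.mk_pow]; exact hk
    by_cases hrq : r = q
    · exact ⟨b, by rw [← hrb, hrq]⟩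
    · exfalso
      obtain ⟨m, hm⟩ := exists_pow_eq_self_of_coprime (x := y) (n := q ^ k)
        (by rw [← hrb]; exact Nat.Coprime.pow _ _ ((Nat.coprime_primes hq hr).2 (Ne.symm hrq)))
      exact hy (hm ▸ N.pow_mem hk' m)
  have hcent : ∀ y, y ∉ N →
      ∃ P : Sylow q G, (P : Subgroup G) = Subgroup.centralizer ({y} : Set G) := by
    intro y hy
    obtain ⟨b, hb⟩ := hord y hy
    have h1 := centralizer_isPGroup N hpp y hy q b hq hb
    obtain ⟨P, hP⟩ := h1.exists_le_sylow
    refine ⟨P, ?_⟩
    by_contra hne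
    have htop := (h y hy).2.2 _ (lt_of_le_of_ne hP (Ne.symm hne))
    apply hGq
    have h2 := P.2
    rw [htop] at h2
    exact h2.of_equiv Subgroup.topEquiv
  have hsup : ∀ P : Sylow q G, (P : Subgroup G) ⊔ N = ⊤ := by
    intro P
    rw [← Subgroup.index_eq_one]
    obtain ⟨k, hk⟩ := hGN.exists_card_eq
    have h1 : ((P : Subgroup G) ⊔ N).index ∣ (P : Subgroup G).index := Subgroup.index_dvd_of_le le_sup_left
    have h2 : ((P : Subgroup G) ⊔ N).index ∣ q ^ k := by
      rw [← hk]; exact Subgroup.index_dvd_of_le le_sup_right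
    have hcop : Nat.Coprime (P : Subgroup G).index (q ^ k) :=
      Nat.Coprime.pow_right _ ((Nat.Prime.coprime_iff_not_dvd hq).2 P.not_dvd_index).symm
    exact Nat.eq_one_of_dvd_coprimes hcop h1 h2
  obtain ⟨Q, hQ⟩ := hcent x hx
  have hmax : IsCoatom (Q : Subgroup G) := hQ ▸ (h x hx).2
  have hsolv : Group.IsSolvable G := by
    apply solvable_of_maximal_abelian_sylow q Q hmax
    intro hQn
    have hTI := count_lemma q N Q hQn hsup hcent
    have hxQ : x ∈ (Q : Subgroup G) := by
      rw [hQ]; exact Subgroup.mem_centralizer_singleton_iff.2 rfl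
    intro a ha b hb
    by_cases haN : a ∈ N
    · by_cases hbN : b ∈ N
      · have hxa : x * a ∉ N := fun hmem => hx (by simpa using N.mul_mem hmem (N.inv_mem haN))
        have h1 : b ∈ Subgroup.centralizer ({x * a} : Set G) := by
          rw [hTI Q (x * a) (Subgroup.mul_mem _ hxQ ha) hxa]; exact hb
        have h2 : b ∈ Subgroup.centralizer ({x} : Set G) := by
          rw [← hQ]; exact hb
        rw [Subgroup.mem_centralizer_singleton_iff] at h1 h2
        have h3 : x * (b * a) = x * (a * b) := by
          rw [← mul_assoc, ← h2, mul_assoc, h1, mul_assoc]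
        exact (mul_left_cancel h3).symm
      · have h1 : a ∈ Subgroup.centralizer ({b} : Set G) := by
          rw [hTI Q b hb hbN]; exact ha
        exact Subgroup.mem_centralizer_singleton_iff.1 h1
    · have h1 : b ∈ Subgroup.centralizer ({a} : Set G) := by
        rw [hTI Q a ha haN]; exact hb
      exact (Subgroup.mem_centralizer_singleton_iff.1 h1).symm
  infer_instance

end Cfsg.Agent.S3903
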