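import Cfsg.Statements.S3908
import Mathlib
import Cfsg.Agent.S0016

set_option autoImplicit false
open Cfsg

namespace Cfsg.Agent.S3908

lemma exists_elemAb_sq {G : Type*} [Group G] [Finite G] (p : ℕ) [Fact p.Prime] (z h : G)
    (hz : orderOf z = p) (hh : orderOf h = p) (hc : Commute z h)
    (hne : h ∉ Subgroup.zpowers z) :
    ∃ E : Subgroup G, IsMulCommutative E ∧ Nat.card E = p ^ 2 ∧ ∀ e ∈ E, e ^ p = 1 := by
  have hpp : p.Prime := Fact.out
  have comm : ∀ (m : Subgroup.zpowers z) (n : Subgroup.zpowers h),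
      Commute ((Subgroup.zpowers z).subtype m) ((Subgroup.zpowers h).subtype n) := by
    rintro ⟨m, hm⟩ ⟨n, hn⟩
    obtain ⟨i, rfl⟩ := Subgroup.mem_zpowers_iff.mp hm
    obtain ⟨j, rfl⟩ := Subgroup.mem_zpowers_iff.mp hn
    exact (hc.zpow_left i).zpow_right j
  have hdisj : Disjoint (Subgroup.zpowers z) (Subgroup.zpowers h) := by
    rw [Subgroup.disjoint_def]
    intro x hx1 hx2
    by_contra hx
    rw [← mem_powers_iff_mem_zpowers, Submonoid.mem_powers_iff] at hx2
    obtain ⟨k, rfl⟩ := hx2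
    have hk : Nat.Coprime k (orderOf h) := by
      rw [hh, Nat.coprime_comm, Nat.Prime.coprime_iff_not_dvd hpp]
      intro hd
      apply hx
      rw [← hh] at hd
      exact orderOf_dvd_iff_pow_eq_one.mp hd
    obtain ⟨m, hm⟩ := exists_pow_eq_self_of_coprime hk
    apply hne
    rw [← hm]
    exact Subgroup.pow_mem _ hx1 m
  have hinj : Function.Injective (MonoidHom.noncommCoprod (Subgroup.zpowers z).subtype
      (Subgroup.zpowers h).subtype comm) := by
    rw [MonoidHom.noncommCoprod_injective]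
    refine ⟨Subgroup.subtype_injective _, Subgroup.subtype_injective _, ?_⟩
    simpa using hdisj
  refine ⟨(MonoidHom.noncommCoprod (Subgroup.zpowers z).subtype
      (Subgroup.zpowers h).subtype comm).range, ?_, ?_, ?_⟩
  · constructor
    constructor
    rintro ⟨_, ⟨a, rfl⟩⟩ ⟨_, ⟨b, rfl⟩⟩
    apply Subtype.ext
    show (MonoidHom.noncommCoprod _ _ comm) a * (MonoidHom.noncommCoprod _ _ comm) b =
      (MonoidHom.noncommCoprod _ _ comm) b * (MonoidHom.noncommCoprod _ _ comm) a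
    rw [← map_mul, ← map_mul]
    congr 1
    obtain ⟨⟨a1, ha1⟩, ⟨a2, ha2⟩⟩ := a
    obtain ⟨⟨b1, hb1⟩, ⟨b2, hb2⟩⟩ := b
    obtain ⟨i, rfl⟩ := Subgroup.mem_zpowers_iff.mp ha1
    obtain ⟨j, rfl⟩ := Subgroup.mem_zpowers_iff.mp ha2
    obtain ⟨i', rfl⟩ := Subgroup.mem_zpowers_iff.mp hb1
    obtain ⟨j', rfl⟩ := Subgroup.mem_zpowers_iff.mp hb2
    apply Prod.ext
    · apply Subtype.ext
      show z ^ i * z ^ i' = z ^ i' * z ^ i
      rw [← zpow_add, ← zpow_add, add_comm]
    · apply Subtype.ext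
      show h ^ j * h ^ j' = h ^ j' * h ^ j
      rw [← zpow_add, ← zpow_add, add_comm]
  · rw [← Nat.card_congr (MonoidHom.ofInjective hinj).toEquiv, Nat.card_prod, Nat.card_zpowers,
      Nat.card_zpowers, hz, hh, sq]
  · rintro _ ⟨⟨⟨a1, ha1⟩, ⟨a2, ha2⟩⟩, rfl⟩
    obtain ⟨i, rfl⟩ := Subgroup.mem_zpowers_iff.mp ha1
    obtain ⟨j, rfl⟩ := Subgroup.mem_zpowers_iff.mp ha2
    show (z ^ i * h ^ j) ^ p = 1
    rw [((hc.zpow_left i).zpow_right j).mul_pow, ← zpow_natCast, ← zpow_natCast, ← zpow_mul,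
      ← zpow_mul, mul_comm i, mul_comm j, zpow_mul, zpow_mul, zpow_natCast, zpow_natCast,
      ← hz, pow_orderOf_eq_one, hz, ← hh, pow_orderOf_eq_one, one_zpow, one_zpow, one_mul]

lemma key {G : Type*} [Group G] [Finite G] (hB : ∀ A B : Subgroup G, IsMulCommutative ↥A → IsMulCommutative ↥B → Nat.card ↥A = Nat.card ↥B → ∃ g : G, B = A.map (MulAut.conj g).toMonoidHom)
    (p : ℕ) [Fact p.Prime] (P : Sylow p G) :
    (∀ H K : Subgroup (P : Subgroup G), Nat.card H = p → Nat.card K = p → H = K) ∨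
      ∀ x ∈ (P : Subgroup G), x ^ p = 1 := by
  have hpp : p.Prime := Fact.out
  by_cases huniq : ∀ H K : Subgroup (P : Subgroup G), Nat.card H = p → Nat.card K = p → H = K
  · exact Or.inl huniq
  right
  push Not at huniq
  obtain ⟨H, K, hH, hK, hHK⟩ := huniq
  -- a central element of order p
  haveI : Nontrivial (P : Subgroup G) := by
    by_contra hnt
    rw [not_nontrivial_iff_subsingleton] at hnt
    have : Nat.card H = 1 := Nat.card_eq_one_iff_unique.mpr ⟨inferInstance, ⟨1⟩⟩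
    rw [hH] at this
    exact hpp.one_lt.ne' this
  haveI := P.2.center_nontrivial
  obtain ⟨k, hk⟩ := (P.2.to_subgroup (Subgroup.center (P : Subgroup G))).exists_card_eq
  have hk0 : k ≠ 0 := by
    rintro rfl
    rw [pow_zero] at hk
    have := Finite.one_lt_card (α := Subgroup.center (P : Subgroup G))
    omega
  have hpd : p ∣ Nat.card (Subgroup.center (P : Subgroup G)) := by
    rw [hk]
    exact dvd_pow_self p hk0
  obtain ⟨z', hz'⟩ := exists_prime_orderOf_dvd_card' p hpd
  set z0 : (P : Subgroup G) := z'.1 with hz0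
  have hz0o : orderOf z0 = p := by rw [hz0, Subgroup.orderOf_coe, hz']
  have hz0c : ∀ y : (P : Subgroup G), y * z0 = z0 * y := fun y =>
    Subgroup.mem_center_iff.mp z'.2 y
  -- a subgroup of order p different from ⟨z0⟩
  obtain ⟨L, hL, hLz⟩ : ∃ L : Subgroup (P : Subgroup G), Nat.card L = p ∧
      L ≠ Subgroup.zpowers z0 := by
    by_cases h1 : H = Subgroup.zpowers z0
    · exact ⟨K, hK, fun h2 => hHK (h1.trans h2.symm)⟩
    · exact ⟨H, hH, h1⟩
  obtain ⟨h0, hh0L, hh01⟩ : ∃ h0 ∈ L, h0 ≠ 1 := by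
    by_contra hcon
    push Not at hcon
    have : L = ⊥ := (Subgroup.eq_bot_iff_forall L).mpr hcon
    rw [this, Subgroup.card_bot] at hL
    exact hpp.one_lt.ne hL
  have hh0o : orderOf h0 = p := by
    have h1 : orderOf (⟨h0, hh0L⟩ : L) ∣ p := by
      have h9 := orderOf_dvd_natCard (⟨h0, hh0L⟩ : L)
      rwa [hL] at h9
    rw [Subgroup.orderOf_mk] at h1
    rcases (Nat.dvd_prime hpp).mp h1 with h2 | h2
    · exact absurd (orderOf_eq_one_iff.mp h2) hh01
    · exact h2
  have hLeq : Subgroup.zpowers h0 = L := by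
    apply Subgroup.eq_of_le_of_card_ge
    · rw [Subgroup.zpowers_le]; exact hh0L
    · rw [Nat.card_zpowers, hh0o, hL]
  have hh0z : h0 ∉ Subgroup.zpowers z0 := by
    intro hmem
    apply hLz
    rw [← hLeq]
    apply Subgroup.eq_of_le_of_card_ge
    · rw [Subgroup.zpowers_le]; exact hmem
    · rw [Nat.card_zpowers, Nat.card_zpowers, hh0o, hz0o]
  obtain ⟨E, hEc, hEcard, hEexp⟩ := exists_elemAb_sq p (z0 : G) (h0 : G)
    (by rw [Subgroup.orderOf_coe, hz0o]) (by rw [Subgroup.orderOf_coe, hh0o])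
    (by
      have := hz0c h0
      exact (congrArg Subtype.val this).symm)
    (by
      intro hmem
      apply hh0z
      obtain ⟨i, hi⟩ := Subgroup.mem_zpowers_iff.mp hmem
      rw [Subgroup.mem_zpowers_iff]
      refine ⟨i, Subtype.ext ?_⟩
      rw [← hi]
      simp)
  intro x hx
  obtain ⟨k, hk⟩ := (IsPGroup.iff_orderOf.mp P.2) ⟨x, hx⟩
  rw [Subgroup.orderOf_mk] at hk
  rcases Nat.lt_or_ge k 2 with hk2 | hk2
  · apply orderOf_dvd_iff_pow_eq_one.mp
    rw [hk]
    calc p ^ k ∣ p ^ 1 := pow_dvd_pow p (by omega)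
      _ = p := pow_one p
  · exfalso
    have hy : orderOf (x ^ p ^ (k - 2)) = p ^ 2 := by
      rw [orderOf_pow_of_dvd (pow_ne_zero _ hpp.ne_zero) (by rw [hk]; exact pow_dvd_pow p (by omega)),
        hk, Nat.pow_div (by omega) hpp.pos]
      congr 1
      omega
    obtain ⟨g, hg⟩ := hB (Subgroup.zpowers (x ^ p ^ (k - 2))) E inferInstance hEc
      (by rw [Nat.card_zpowers, hy, hEcard])
    have h1 : g * (x ^ p ^ (k - 2)) * g⁻¹ ∈ E := by
      rw [hg]
      exact ⟨_, Subgroup.mem_zpowers _, rfl⟩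
    have h2 := hEexp _ h1
    rw [conj_pow] at h2
    have h3 : (x ^ p ^ (k - 2)) ^ p = 1 := by
      have : g * (x ^ p ^ (k - 2)) ^ p * g⁻¹ = g * 1 * g⁻¹ := by rw [h2]; group
      exact mul_left_cancel (mul_right_cancel this)
    have h4 := orderOf_dvd_of_pow_eq_one h3
    rw [hy] at h4
    have h5 := Nat.le_of_dvd hpp.pos h4
    have h6 : p < p ^ 2 := by
      calc p = p ^ 1 := (pow_one p).symm
        _ < p ^ 2 := Nat.pow_lt_pow_right hpp.one_lt (by norm_num)
    omega

/-- Let G be a finite group in which any two abelian subgroups of the same order are conjugate. Then a Sylow 2-subgroup of G is cyclic, elementary abelian or generalized quaternion, and for an odd prime p a Sylow p-subgroup of G is cyclic or has exponent dividing p. -/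
theorem result {G : Type*} [Group G] [Finite G] (hB : ∀ A B : Subgroup G, IsMulCommutative ↥A → IsMulCommutative ↥B → Nat.card ↥A = Nat.card ↥B → ∃ g : G, B = A.map (MulAut.conj g).toMonoidHom) :
    (∀ P : Sylow 2 G, IsCyclic ↥(P : Subgroup G) ∨ Cfsg.IsElementaryAbelian 2 (P : Subgroup G) ∨ ∃ k : ℕ, Nonempty (↥(P : Subgroup G) ≃* QuaternionGroup (2 ^ k))) ∧
    ∀ (p : ℕ) [Fact p.Prime], p ≠ 2 → ∀ P : Sylow p G, IsCyclic ↥(P : Subgroup G) ∨ ∀ x ∈ (P : Subgroup G), x ^ p = 1 := by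
  constructor
  · intro P
    rcases key hB 2 P with h | h
    · rcases Cfsg.Agent.S0016.result 2 P.2 h with h1 | ⟨_, h1⟩
      · exact Or.inl h1
      · exact Or.inr (Or.inr h1)
    · right
      left
      refine ⟨?_, h⟩
      constructor
      constructor
      rintro ⟨a, ha⟩ ⟨b, hb⟩
      apply Subtype.ext
      show a * b = b * a
      have h1 := h a ha
      have h2 := h b hb
      have h3 := h (a * b) (mul_mem ha hb)
      have ha' : a⁻¹ = a := by rw [inv_eq_iff_mul_eq_one, ← sq, h1]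
      have hb' : b⁻¹ = b := by rw [inv_eq_iff_mul_eq_one, ← sq, h2]
      have hab' : (a * b)⁻¹ = a * b := by rw [inv_eq_iff_mul_eq_one, ← sq, h3]
      rw [← hab', mul_inv_rev, ha', hb']
  · intro p _ hp2 P
    rcases key hB p P with h | h
    · rcases Cfsg.Agent.S0016.result p P.2 h with h1 | ⟨h1, _⟩
      · exact Or.inl h1
      · exact absurd h1 hp2
    · exact Or.inr h

end Cfsg.Agent.S3908
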