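import Cfsg.Statements.S3909
import Mathlib

set_option autoImplicit false
open Cfsg

namespace Cfsg.Agent.S3909

/-- Let G be a finite group in which any two abelian subgroups of the same order are conjugate. Let M be a normal subgroup of G. If M contains an element of the same order as a ∈ G, then a ∈ M; and if M is elementary abelian of order p^t with p prime and t ≥ 2, then M is the unique Sylow p-subgroup of G. -/
theorem result {G : Type*} [Group G] [Finite G] (hB : ∀ A B : Subgroup G, IsMulCommutative ↥A → IsMulCommutative ↥B → Nat.card ↥A = Nat.card ↥B → ∃ g : G, B = A.map (MulAut.conj g).toMonoidHom) (M : Subgroup G) [M.Normal] :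
    (∀ a : G, (∃ m ∈ M, orderOf m = orderOf a) → a ∈ M) ∧
    ∀ (p t : ℕ) [Fact p.Prime], 2 ≤ t → Nat.card ↥M = p ^ t → Cfsg.IsElementaryAbelian p M → ∀ P : Sylow p G, (P : Subgroup G) = M := by
  have h1 : ∀ a : G, (∃ m ∈ M, orderOf m = orderOf a) → a ∈ M := by
    rintro a ⟨m, hm, hma⟩
    obtain ⟨g, hg⟩ := hB (Subgroup.zpowers m) (Subgroup.zpowers a) inferInstance inferInstance
      (by rw [Nat.card_zpowers, Nat.card_zpowers, hma])
    have h2 : a ∈ (Subgroup.zpowers m).map (MulAut.conj g).toMonoidHom := hg ▸ Subgroup.mem_zpowers a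
    obtain ⟨y, hy, rfl⟩ := h2
    have hyM : y ∈ M := (Subgroup.zpowers_le.mpr hm) hy
    exact (inferInstance : M.Normal).conj_mem y hyM g
  refine ⟨h1, ?_⟩
  intro p t _ ht hcard hM P
  have hpp : p.Prime := Fact.out
  have hMp : IsPGroup p M := IsPGroup.of_card hcard
  -- M ≤ P
  have hMP : M ≤ (P : Subgroup G) := by
    obtain ⟨Q, hQ⟩ := hMp.exists_le_sylow
    obtain ⟨g, hg⟩ := MulAction.exists_smul_eq G Q P
    intro x hx
    rw [← hg, Sylow.coe_subgroup_smul, Subgroup.mem_pointwise_smul_iff_inv_smul_mem]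
    apply hQ
    have := (inferInstance : M.Normal).conj_mem x hx g⁻¹
    simpa [MulAut.smul_def] using this
  -- an abelian subgroup of order p^2 and exponent p
  obtain ⟨E', hE'⟩ := Sylow.exists_subgroup_card_pow_prime (G := M) p
    (n := 2) (by rw [hcard]; exact pow_dvd_pow p ht)
  set E : Subgroup G := E'.map M.subtype with hE
  have hEM : E ≤ M := Subgroup.map_subtype_le _
  have hEcard : Nat.card E = p ^ 2 := by
    rw [hE, Subgroup.card_map_of_injective M.subtype_injective, hE']
  have hEc : IsMulCommutative E := by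
    constructor
    constructor
    rintro ⟨a, ha⟩ ⟨b, hb⟩
    apply Subtype.ext
    have := hM.1.is_comm.comm ⟨a, hEM ha⟩ ⟨b, hEM hb⟩
    show a * b = b * a
    exact congrArg Subtype.val this
  -- an element of order p in M
  have hpd : p ∣ Nat.card M := by rw [hcard]; exact dvd_pow_self p (by omega)
  obtain ⟨m0, hm0⟩ := exists_prime_orderOf_dvd_card' p hpd
  apply le_antisymm _ hMP
  intro x hx
  obtain ⟨k, hk⟩ := (IsPGroup.iff_orderOf.mp P.2) ⟨x, hx⟩
  rw [Subgroup.orderOf_mk] at hk
  rcases Nat.lt_or_ge k 2 with hk2 | hk2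
  · interval_cases k
    · rw [pow_zero, orderOf_eq_one_iff] at hk
      rw [hk]; exact M.one_mem
    · apply h1
      exact ⟨m0, m0.2, by rw [Subgroup.orderOf_coe, hm0, hk, pow_one]⟩
  · exfalso
    have hy : orderOf (x ^ p ^ (k - 2)) = p ^ 2 := by
      rw [orderOf_pow_of_dvd (pow_ne_zero _ hpp.ne_zero) (by rw [hk]; exact pow_dvd_pow p (by omega)),
        hk, Nat.pow_div (by omega) hpp.pos]
      congr 1
      omega
    obtain ⟨g, hg⟩ := hB (Subgroup.zpowers (x ^ p ^ (k - 2))) E inferInstance hEc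
      (by rw [Nat.card_zpowers, hy, hEcard])
    have h2 : g * (x ^ p ^ (k - 2)) * g⁻¹ ∈ E := by
      rw [hg]
      exact ⟨_, Subgroup.mem_zpowers _, rfl⟩
    have h3 := hM.2 _ (hEM h2)
    rw [conj_pow] at h3
    have h4 : (x ^ p ^ (k - 2)) ^ p = 1 := by
      have : g * (x ^ p ^ (k - 2)) ^ p * g⁻¹ = g * 1 * g⁻¹ := by rw [h3]; group
      exact mul_left_cancel (mul_right_cancel this)
    have h5 := orderOf_dvd_of_pow_eq_one h4
    rw [hy] at h5
    have h6 := Nat.le_of_dvd hpp.pos h5
    have h7 : p < p ^ 2 := by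
      calc p = p ^ 1 := (pow_one p).symm
        _ < p ^ 2 := Nat.pow_lt_pow_right hpp.one_lt (by norm_num)
    omega

end Cfsg.Agent.S3909
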