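import Cfsg.Statements.S3910
-- import your own Cfsg.Agent.* helpers here
import Mathlib
import Cfsg.Agent.Lib.Helper17.SE
import Cfsg.Agent.Lib.Helper14.NormalChain
import Cfsg.Agent.Lib.Helper10.Fitting

set_option autoImplicit false
open Cfsg

namespace Cfsg.Agent.S3910
open Cfsg.Agent.Lib.Helper17 Cfsg.Agent.Lib.Helper14 Cfsg.Agent.Lib.Helper10
open scoped commutatorElement

/-- A finite nilpotent group in which any two abelian subgroups of the same order are conjugate is cyclic. -/
theorem result {G : Type*} [Group G] [Finite G] (hB : ∀ A B : Subgroup G, IsMulCommutative ↥A → IsMulCommutative ↥B → Nat.card ↥A = Nat.card ↥B → ∃ g : G, B = A.map (MulAut.conj g).toMonoidHom) (hnil : Group.IsNilpotent G) : IsCyclic G := by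
  have hZ : IsZGroup G := by
    refine ⟨fun p hp P => ?_⟩
    have : Fact p.Prime := ⟨hp⟩
    obtain ⟨n, hn⟩ := IsPGroup.iff_card.mp P.2
    have hPG : p ^ n ∣ Nat.card G := hn ▸ Subgroup.card_subgroup_dvd_card (P : Subgroup G)
    have claim : ∀ k ≤ n, ∃ N : Subgroup G, Nat.card N = p ^ k ∧ IsCyclic N ∧
        ∀ K : Subgroup G, Nat.card K = p ^ k → K = N := by
      intro k
      induction k with
      | zero =>
        intro _
        refine ⟨⊥, by simp, inferInstance, fun K hK => ?_⟩
        rw [pow_zero] at hK
        exact Subgroup.card_eq_one.mp hK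
      | succ k ih =>
        intro hk
        obtain ⟨N, hNc, hNcyc, huniq⟩ := ih (by omega)
        have hNn : N.Normal := by
          constructor
          intro x hx g
          have h1 := huniq (N.map (MulAut.conj g).toMonoidHom) (by rw [card_map_conj, hNc])
          rw [← h1]
          exact conj_mem_map_conj hx
        have hkG : p ^ k ∣ Nat.card G := (pow_dvd_pow p (by omega)).trans hPG
        have hcycK : ∀ K : Subgroup G, Nat.card K = p ^ (k + 1) → IsCyclic K := by
          intro K hK
          obtain ⟨x, hxK, hxN⟩ : ∃ x ∈ K, x ∉ N := by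
            by_contra hcon
            push Not at hcon
            have := Subgroup.card_le_of_le (show K ≤ N from hcon)
            rw [hK, hNc] at this
            exact absurd this (not_le.mpr (Nat.pow_lt_pow_right hp.one_lt (Nat.lt_succ_self k)))
          have hxd : orderOf x ∣ p ^ (k + 1) := by
            rw [← hK, ← Nat.card_zpowers]
            exact Subgroup.card_dvd_of_le (Subgroup.zpowers_le.mpr hxK)
          obtain ⟨j, hj, hxo⟩ := (Nat.dvd_prime_pow hp).mp hxd
          have hj' : j = k + 1 := by
            by_contra hne
            obtain ⟨K', hK', hle⟩ := Sylow.exists_subgroup_card_pow_prime_le p hkG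
              (Subgroup.zpowers x) (by rw [Nat.card_zpowers, hxo]) (by omega : j ≤ k)
            rw [huniq K' hK'] at hle
            exact hxN (hle (Subgroup.mem_zpowers x))
          have he : Subgroup.zpowers x = K := Subgroup.eq_of_le_of_card_ge
            (Subgroup.zpowers_le.mpr hxK) (by rw [Nat.card_zpowers, hxo, hj', hK])
          rw [← he]
          infer_instance
        -- a normal subgroup of order p^(k+1)
        obtain ⟨K₀, hK₀n, hK₀c⟩ : ∃ K₀ : Subgroup G, K₀.Normal ∧ Nat.card K₀ = p ^ (k + 1) := by
          have hPn : (P : Subgroup G).Normal :=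
            ((Group.isNilpotent_of_finite_tfae (G := G)).out 0 3 rfl rfl).mp hnil p inferInstance P
          set π := QuotientGroup.mk' N with hπ
          have hPbar : ((P : Subgroup G).map π).Normal :=
            hPn.map π (QuotientGroup.mk'_surjective N)
          have hPne : (P : Subgroup G).map π ≠ ⊥ := by
            intro h0
            rw [Subgroup.map_eq_bot_iff, QuotientGroup.ker_mk'] at h0
            have := Subgroup.card_le_of_le h0
            rw [hn, hNc] at this
            exact absurd this (not_le.mpr (Nat.pow_lt_pow_right hp.one_lt (by omega)))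
          have h1 := normal_inf_center_ne_bot _ hPbar hPne
          have h2 : IsPGroup p ↥((P : Subgroup G).map π ⊓ Subgroup.center (G ⧸ N)) :=
            (P.2.map π).to_le inf_le_left
          obtain ⟨z, hz, hzo⟩ := exists_orderOf_eq_of_ne_bot h2 h1
          obtain ⟨x, rfl⟩ := QuotientGroup.mk'_surjective N z
          have hx1 : x ∉ N := by
            intro hx
            have : π x = 1 := (QuotientGroup.eq_one_iff x).mpr hx
            rw [this, orderOf_one] at hzo
            exact hp.one_lt.ne hzo
          have hx2 : x ^ p ∈ N := by
            rw [← QuotientGroup.eq_one_iff]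
            have : (π x) ^ p = 1 := by rw [← hzo, pow_orderOf_eq_one]
            exact this
          have hx3 : ∀ g : G, ⁅x, g⁆ ∈ N := by
            intro g
            rw [← QuotientGroup.eq_one_iff]
            have h3 := Subgroup.mem_center_iff.mp hz.2 (π g)
            change π ⁅x, g⁆ = 1
            rw [map_commutatorElement, commutatorElement_eq_one_iff_mul_comm]
            exact h3.symm
          obtain ⟨K, hKn, -, -, hKc, -⟩ := exists_step p N x hx1 hx2 hx3
          exact ⟨K, hKn, by rw [hKc, hNc, pow_succ']⟩
        refine ⟨K₀, hK₀c, hcycK K₀ hK₀c, fun K hK => ?_⟩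
        have c1 := hcycK K₀ hK₀c
        have c2 := hcycK K hK
        obtain ⟨g, hg⟩ := hB K₀ K inferInstance inferInstance (by rw [hK₀c, hK])
        rw [hg]
        exact map_conj_eq_of_mem_normalizer (by rw [Subgroup.normalizer_eq_top]; trivial)
    obtain ⟨N, -, hNcyc, huniq⟩ := claim n le_rfl
    have := huniq P hn
    rw [this]
    exact hNcyc
  infer_instance

end Cfsg.Agent.S3910
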