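import Cfsg.Statements.S3917
import Cfsg.Agent.Lib.Helper18.MinNonCyclic
import Mathlib

set_option autoImplicit false
open Cfsg

namespace Cfsg.Agent.S3917

/-- Say that a group has self-centralizing non-cyclic subgroups when every non-cyclic subgroup H satisfies C_G(H) ≤ H. A finite abelian group with self-centralizing non-cyclic subgroups is cyclic or elementary abelian of order p² for a prime p. -/
theorem result {G : Type*} [CommGroup G] [Finite G] (hX : (∀ H : Subgroup G, ¬ IsCyclic ↥H → Subgroup.centralizer (H : Set G) ≤ H)) :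
    IsCyclic G ∨ ∃ p : ℕ, p.Prime ∧ Nat.card G = p ^ 2 ∧ Monoid.exponent G = p := by
  classical
  have htop : ∀ H : Subgroup G, ¬ IsCyclic ↥H → H = ⊤ := by
    intro H hH
    have := hX H hH
    rw [Subgroup.centralizer_eq_top_iff_subset.mpr (by
      intro x _
      exact Subgroup.mem_center_iff.mpr (fun g => mul_comm _ _))] at this
    exact top_le_iff.mp this
  by_cases hc : IsCyclic G
  · exact Or.inl hc
  right
  have hZ : ¬ IsZGroup G := by
    intro hz
    exact hc inferInstance
  have : ∃ (p : ℕ) (_ : p.Prime) (P : Sylow p G), ¬ IsCyclic P := by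
    by_contra hcon
    push Not at hcon
    exact hZ ⟨fun p hp P => hcon p hp P⟩
  obtain ⟨p, hp, P, hP⟩ := this
  have : Fact p.Prime := ⟨hp⟩
  have hPtop : (P : Subgroup G) = ⊤ := htop _ hP
  have hG : IsPGroup p G := by
    have := P.2
    rw [hPtop] at this
    exact (IsPGroup.of_surjective this (Subgroup.topEquiv (G := G)).toMonoidHom (Subgroup.topEquiv (G := G)).surjective)
  obtain ⟨n, hn⟩ := IsPGroup.iff_card.mp hG
  have hprop : ∀ H : Subgroup G, H ≠ ⊤ → IsCyclic H := by
    intro H hH
    by_contra h
    exact hH (htop H h)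
  obtain ⟨hn2, D, M, hDZ, hDc, hDp, hDcard, hM, hDM⟩ := Lib.Helper18.mnc_structure hn hc hprop
  have hker : (powMonoidHom p : G →* G).ker = ⊤ := by
    apply htop
    intro hcyc
    have h1 : Nat.card (powMonoidHom p : G →* G).ker ≤ p := by
      apply Lib.Helper18.card_le_of_isCyclic_of_pow hcyc hp.pos
      intro x
      have := x.2
      rw [MonoidHom.mem_ker] at this
      exact Subtype.ext this
    have h2 : Nat.card (powMonoidHom p : G →* G).range ≤ p ^ (n - 2) := by
      have h3 : (powMonoidHom p : G →* G).range ≤ D := by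
        rintro _ ⟨x, rfl⟩
        exact hDp x
      exact (Nat.le_of_dvd Nat.card_pos (Subgroup.card_dvd_of_le h3)).trans
        (Nat.le_of_dvd (pow_pos hp.pos _) hDcard)
    have h4 : Nat.card (powMonoidHom p : G →* G).ker * Nat.card (powMonoidHom p : G →* G).range = p ^ n := by
      rw [← hn, ← Subgroup.index_ker, mul_comm, Subgroup.index_mul_card]
    have h5 : p ^ n = p ^ 2 * p ^ (n - 2) := by
      rw [← pow_add]; congr 1; omega
    have h6 : p ^ n ≤ p * p ^ (n - 2) := by
      rw [← h4]; exact Nat.mul_le_mul h1 h2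
    rw [h5] at h6
    have h7 : 0 < p ^ (n - 2) := pow_pos hp.pos _
    have h8 : p ^ 2 ≤ p := Nat.le_of_mul_le_mul_right h6 h7
    have := hp.two_le
    nlinarith
  have hexp : ∀ x : G, x ^ p = 1 := by
    intro x
    have : x ∈ (powMonoidHom p : G →* G).ker := by rw [hker]; trivial
    exact this
  refine ⟨p, hp, ?_, ?_⟩
  · obtain ⟨H, hH⟩ := Sylow.exists_subgroup_card_pow_prime (G := G) p (n := 2) (by
      rw [hn]; exact pow_dvd_pow p hn2)
    have hHt : H = ⊤ := by
      apply htop
      intro hcyc
      have h1 : Nat.card H ≤ p := by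
        apply Lib.Helper18.card_le_of_isCyclic_of_pow hcyc hp.pos
        intro x
        exact Subtype.ext (hexp x)
      rw [hH] at h1
      have := hp.two_le
      nlinarith
    rw [← hH, hHt, Subgroup.card_top]
  · have h1 : Monoid.exponent G ∣ p := Monoid.exponent_dvd_of_forall_pow_eq_one hexp
    rcases (Nat.dvd_prime hp).mp h1 with h | h
    · exfalso
      apply hc
      have : Subsingleton G := Monoid.exp_eq_one_iff.mp h
      infer_instance
    · exact h

end Cfsg.Agent.S3917
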