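import Cfsg.Statements.S3918
import Cfsg.Agent.S0126
import Cfsg.Agent.Lib.Helper11.PGroup

set_option autoImplicit false
open Cfsg

namespace Cfsg.Agent.S3918

theorem top_of_card_gt {G : Type*} [Group G] [Finite G] {p : ℕ} [Fact p.Prime] {k : ℕ}
    (hG : Nat.card G = p ^ (k + 1)) (K : Subgroup G) (hK : p ^ k < Nat.card K) : K = ⊤ := by
  have hpp : p.Prime := Fact.out
  have hd : Nat.card K ∣ p ^ (k + 1) := hG ▸ Subgroup.card_subgroup_dvd_card K
  obtain ⟨j, hj, hjc⟩ := (Nat.dvd_prime_pow hpp).1 hd
  have : k < j := by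
    rw [hjc] at hK
    exact (Nat.pow_lt_pow_iff_right hpp.one_lt).1 hK
  have hj' : j = k + 1 := by omega
  apply Subgroup.eq_top_of_card_eq
  rw [hjc, hG, hj']

theorem comm_of_sup {G : Type*} [Group G] (H : Subgroup G) (x : G)
    (hH : ∀ a ∈ H, ∀ b ∈ H, a * b = b * a) (hx : ∀ a ∈ H, a * x = x * a)
    (htop : H ⊔ Subgroup.zpowers x = ⊤) : ∀ a b : G, a * b = b * a := by
  have h1 : ∀ a ∈ H, a ∈ Subgroup.center G := by
    intro a ha
    have : H ⊔ Subgroup.zpowers x ≤ Subgroup.centralizer {a} := by
      apply sup_le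
      · intro b hb
        rw [Subgroup.mem_centralizer_singleton_iff]
        exact hH b hb a ha
      · rw [Subgroup.zpowers_le, Subgroup.mem_centralizer_singleton_iff]
        exact (hx a ha).symm
    rw [htop] at this
    rw [Subgroup.mem_center_iff]
    intro g
    have := this (Subgroup.mem_top g)
    rw [Subgroup.mem_centralizer_singleton_iff] at this
    exact this
  have h2 : x ∈ Subgroup.center G := by
    have : H ⊔ Subgroup.zpowers x ≤ Subgroup.centralizer {x} := by
      apply sup_le
      · intro b hb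
        rw [Subgroup.mem_centralizer_singleton_iff]
        exact hx b hb
      · rw [Subgroup.zpowers_le, Subgroup.mem_centralizer_singleton_iff]
    rw [htop] at this
    rw [Subgroup.mem_center_iff]
    intro g
    have := this (Subgroup.mem_top g)
    rw [Subgroup.mem_centralizer_singleton_iff] at this
    exact this
  have h3 : (⊤ : Subgroup G) ≤ Subgroup.center G := by
    rw [← htop]
    apply sup_le
    · exact h1
    · rw [Subgroup.zpowers_le]; exact h2
  intro a b
  have := h3 (Subgroup.mem_top b)
  rw [Subgroup.mem_center_iff] at this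
  exact this a


theorem backward {G : Type*} [Group G] [Finite G] {p : ℕ} [Fact p.Prime]
    (hna : ¬ IsMulCommutative G) (hc : Nat.card G = p ^ 3) (H : Subgroup G)
    (hH : ¬ IsCyclic ↥H) : Subgroup.centralizer (H : Set G) ≤ H := by
  have hpp : p.Prime := Fact.out
  have hd : Nat.card H ∣ p ^ 3 := hc ▸ Subgroup.card_subgroup_dvd_card H
  obtain ⟨j, hj, hjc⟩ := (Nat.dvd_prime_pow hpp).1 hd
  interval_cases j
  · exfalso; apply hH
    have : Subsingleton H := (Nat.card_eq_one_iff_unique.1 (by simpa using hjc)).1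
    infer_instance
  · exfalso; apply hH
    exact isCyclic_of_prime_card (p := p) (by simpa using hjc)
  · intro x hx
    by_contra hxH
    apply hna
    have hlt : H < H ⊔ Subgroup.zpowers x := by
      refine lt_of_le_of_ne le_sup_left ?_
      intro he
      apply hxH
      rw [he]
      exact (le_sup_right : Subgroup.zpowers x ≤ _) (Subgroup.mem_zpowers x)
    have htop : H ⊔ Subgroup.zpowers x = ⊤ := by
      apply top_of_card_gt (p := p) (k := 2) hc
      rw [← hjc]
      exact Set.ncard_lt_ncard (s := (H : Set G)) (t := ((H ⊔ Subgroup.zpowers x : Subgroup G) : Set G)) (SetLike.coe_ssubset_coe.2 hlt) (Set.toFinite _)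
    have hHc : ∀ a ∈ H, ∀ b ∈ H, a * b = b * a := by
      intro a ha b hb
      have := (IsPGroup.isMulCommutative_of_card_eq_prime_sq hjc).is_comm.comm ⟨a, ha⟩ ⟨b, hb⟩
      exact congrArg Subtype.val this
    have hxc : ∀ a ∈ H, a * x = x * a := by
      intro a ha
      exact (Subgroup.mem_centralizer_iff.1 hx a ha)
    exact ⟨⟨comm_of_sup H x hHc hxc htop⟩⟩
  · have : H = ⊤ := Subgroup.eq_top_of_card_eq H (by rw [hjc, hc])
    rw [this]; exact le_top

theorem index_lt {G : Type*} [Group G] [Finite G] (E : Subgroup G) [E.Normal] (e : G)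
    (heE : e ∈ E) (he1 : e ≠ 1) :
    (Subgroup.centralizer ({e} : Set G)).index < Nat.card E := by
  classical
  let φ : G ⧸ Subgroup.centralizer ({e} : Set G) → {y : E // y ≠ 1} :=
    Quotient.lift (fun g : G => (⟨⟨g * e * g⁻¹, Subgroup.Normal.conj_mem inferInstance e heE g⟩, by
      intro h
      apply he1
      have h' : g * e * g⁻¹ = 1 := congrArg Subtype.val h
      have : e = g⁻¹ * (g * e * g⁻¹) * g := by group
      rw [this, h']; group⟩ : {y : E // y ≠ 1})) (by
      intro a b hab
      have hab' : a⁻¹ * b ∈ Subgroup.centralizer ({e} : Set G) := QuotientGroup.leftRel_apply.1 hab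
      rw [Subgroup.mem_centralizer_singleton_iff] at hab'
      apply Subtype.ext; apply Subtype.ext
      show a * e * a⁻¹ = b * e * b⁻¹
      have : b * e * b⁻¹ = a * ((a⁻¹ * b) * e) * b⁻¹ := by group
      rw [this, hab']; group)
  have hφ : Function.Injective φ := by
    intro a b
    induction a using QuotientGroup.induction_on with | _ a => ?_
    induction b using QuotientGroup.induction_on with | _ b => ?_
    intro hab
    have h1 : a * e * a⁻¹ = b * e * b⁻¹ := congrArg (fun y => ((y : {y : E // y ≠ 1}) : E).1) hab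
    apply QuotientGroup.eq.2
    rw [Subgroup.mem_centralizer_singleton_iff]
    have : a⁻¹ * b * e = a⁻¹ * (b * e * b⁻¹) * b := by group
    rw [this, ← h1]; group
  have h1 : (Subgroup.centralizer ({e} : Set G)).index ≤ Nat.card {y : E // y ≠ 1} := by
    rw [Subgroup.index_eq_card]
    exact Nat.card_le_card_of_injective φ hφ
  have h2 : Nat.card {y : E // y ≠ 1} < Nat.card E := by
    have : Fintype E := Fintype.ofFinite E
    rw [Nat.card_eq_fintype_card, Nat.card_eq_fintype_card]
    exact Fintype.card_subtype_lt (x := (1 : E)) (by simp)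
  omega


theorem forward {G : Type*} [Group G] [Finite G] {p : ℕ} [Fact p.Prime] (hp : p ≠ 2)
    (hG : IsPGroup p G) (hna : ¬ IsMulCommutative G)
    (h : ∀ H : Subgroup G, ¬ IsCyclic ↥H → Subgroup.centralizer (H : Set G) ≤ H) :
    Nat.card G = p ^ 3 := by
  have hpp : p.Prime := Fact.out
  have hnc : ¬ IsCyclic G := by
    intro hc
    exact hna inferInstance
  obtain ⟨E, hEn, ⟨hEc, hEe⟩, hEcard⟩ := Cfsg.Agent.S0126.result hp hG hnc
  have hEnc : ¬ IsCyclic E := by
    intro hcyc
    obtain ⟨g, hg⟩ := hcyc.exists_generator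
    have h1 : orderOf g = Nat.card E := orderOf_eq_card_of_forall_mem_zpowers hg
    have h2 : orderOf g ∣ p := orderOf_dvd_of_pow_eq_one (Subtype.ext (hEe g g.2))
    rw [h1, hEcard] at h2
    have := Nat.le_of_dvd hpp.pos h2
    nlinarith [hpp.two_le]
  have hCE := h E hEnc
  have hEbot : E ≠ ⊥ := by
    intro hb
    rw [hb] at hEcard
    simp at hEcard
    have := hpp.two_le
    have h4 : 4 ≤ p ^ 2 := by nlinarith
    omega
  obtain ⟨z, hzE, hz1, hzc⟩ := Cfsg.Agent.Lib.Helper11.exists_mem_center_of_normal_ne_bot p hG E hEbot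
  have hzo : Nat.card (Subgroup.zpowers z) = p := by
    rw [Nat.card_zpowers]
    exact orderOf_eq_prime (hEe z hzE) hz1
  have hzle : Subgroup.zpowers z ≤ E := by rwa [Subgroup.zpowers_le]
  obtain ⟨e, heE, hez⟩ : ∃ e ∈ E, e ∉ Subgroup.zpowers z := by
    by_contra hcon
    push Not at hcon
    have : E = Subgroup.zpowers z := le_antisymm hcon hzle
    rw [this, hzo] at hEcard
    have := hpp.two_le
    nlinarith
  have he1 : e ≠ 1 := by
    intro h1; apply hez; rw [h1]; exact one_mem _
  have hK : Subgroup.zpowers z ⊔ Subgroup.zpowers e = E := by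
    have hle : Subgroup.zpowers z ⊔ Subgroup.zpowers e ≤ E :=
      sup_le hzle (by rwa [Subgroup.zpowers_le])
    have hlt : Subgroup.zpowers z < Subgroup.zpowers z ⊔ Subgroup.zpowers e := by
      refine lt_of_le_of_ne le_sup_left ?_
      intro he
      apply hez
      rw [he]
      exact (le_sup_right : Subgroup.zpowers e ≤ _) (Subgroup.mem_zpowers e)
    have hcl : p < Nat.card (Subgroup.zpowers z ⊔ Subgroup.zpowers e : Subgroup G) := by
      rw [← hzo]
      exact Set.ncard_lt_ncard (s := (Subgroup.zpowers z : Set G))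
        (t := ((Subgroup.zpowers z ⊔ Subgroup.zpowers e : Subgroup G) : Set G))
        (SetLike.coe_ssubset_coe.2 hlt) (Set.toFinite _)
    have hdv : Nat.card (Subgroup.zpowers z ⊔ Subgroup.zpowers e : Subgroup G) ∣ p ^ 2 := by
      rw [← hEcard]; exact Subgroup.card_dvd_of_le hle
    obtain ⟨j, hj, hjc⟩ := (Nat.dvd_prime_pow hpp).1 hdv
    have hj2 : j = 2 := by
      have h2le := hpp.two_le
      interval_cases j
      · rw [pow_zero] at hjc; omega
      · rw [pow_one] at hjc; omega
      · rfl
    apply Subgroup.eq_of_le_of_card_ge hle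
    rw [hjc, hj2, hEcard]
  have hCe : Subgroup.centralizer ({e} : Set G) = E := by
    apply le_antisymm
    · refine le_trans ?_ hCE
      intro x hx
      rw [Subgroup.mem_centralizer_singleton_iff] at hx
      have : E ≤ Subgroup.centralizer ({x} : Set G) := by
        rw [← hK]
        apply sup_le
        · rw [Subgroup.zpowers_le, Subgroup.mem_centralizer_singleton_iff]
          exact ((Subgroup.mem_center_iff.1 hzc) x).symm
        · rw [Subgroup.zpowers_le, Subgroup.mem_centralizer_singleton_iff]
          exact hx.symm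
      rw [Subgroup.mem_centralizer_iff]
      intro y hy
      have := this hy
      rw [Subgroup.mem_centralizer_singleton_iff] at this
      exact this
    · intro x hx
      rw [Subgroup.mem_centralizer_singleton_iff]
      exact congrArg Subtype.val (hEc.is_comm.comm ⟨x, hx⟩ ⟨e, heE⟩)
  have hlt := index_lt E e heE he1
  rw [hEcard] at hlt
  obtain ⟨j, hj⟩ := hG.index (Subgroup.centralizer ({e} : Set G))
  have hmul := Subgroup.card_mul_index (Subgroup.centralizer ({e} : Set G))
  rw [hj] at hlt hmul
  rw [hCe, hEcard] at hmul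
  have hj2 : j < 2 := (Nat.pow_lt_pow_iff_right hpp.one_lt).1 hlt
  interval_cases j
  · exfalso
    apply hna
    exact IsPGroup.isMulCommutative_of_card_eq_prime_sq (p := p) (by rw [← hmul]; ring)
  · rw [← hmul]; ring

theorem result {G : Type*} [Group G] [Finite G] {p : ℕ} [Fact p.Prime] (hp : p ≠ 2) (hG : IsPGroup p G) (hna : ¬ IsMulCommutative G) :
    (∀ H : Subgroup G, ¬ IsCyclic ↥H → Subgroup.centralizer (H : Set G) ≤ H) ↔ Nat.card G = p ^ 3 := by
  constructor
  · exact forward hp hG hna
  · intro hc H hH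
    exact backward hna hc H hH

end Cfsg.Agent.S3918
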