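import Cfsg.Statements.S3920
import Mathlib

set_option autoImplicit false
open Cfsg

namespace Cfsg.Agent.S3920

noncomputable def red (n d : ℕ) (h : d ∣ n) : DihedralGroup n →* DihedralGroup d :=
  MonoidHom.mk' (fun g => match g with
    | .r i => .r (ZMod.castHom h (ZMod d) i)
    | .sr i => .sr (ZMod.castHom h (ZMod d) i)) (by
    rintro (i | i) (j | j)
    · show DihedralGroup.r (ZMod.castHom h (ZMod d) (i + j))
        = DihedralGroup.r _ * DihedralGroup.r _
      rw [map_add, DihedralGroup.r_mul_r]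
    · show DihedralGroup.sr (ZMod.castHom h (ZMod d) (j - i))
        = DihedralGroup.r _ * DihedralGroup.sr _
      rw [map_sub, DihedralGroup.r_mul_sr]
    · show DihedralGroup.sr (ZMod.castHom h (ZMod d) (i + j))
        = DihedralGroup.sr _ * DihedralGroup.r _
      rw [map_add, DihedralGroup.sr_mul_r]
    · show DihedralGroup.r (ZMod.castHom h (ZMod d) (j - i))
        = DihedralGroup.sr _ * DihedralGroup.sr _
      rw [map_sub, DihedralGroup.sr_mul_sr])

lemma r_pow' {n : ℕ} (a : ZMod n) (k : ℕ) :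
    (DihedralGroup.r a) ^ k = DihedralGroup.r ((k : ZMod n) * a) := by
  induction k with
  | zero => simp
  | succ k ih =>
    rw [pow_succ, ih, DihedralGroup.r_mul_r]
    congr 1
    push_cast
    ring

lemma two_tors {n : ℕ} [NeZero n] (x t : ZMod n) (hx : x + x = 0) (ht : t + t = 0) (ht0 : t ≠ 0) :
    x = 0 ∨ x = t := by
  have key : ∀ y : ZMod n, y + y = 0 → y ≠ 0 → 2 * y.val = n := by
    intro y hy hy0
    have h1 : ((2 * y.val : ℕ) : ZMod n) = 0 := by
      push_cast
      rw [ZMod.natCast_zmod_val, two_mul]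
      exact hy
    obtain ⟨c, hc⟩ := (ZMod.natCast_eq_zero_iff _ n).1 h1
    have h2 : y.val < n := ZMod.val_lt y
    have h3 : y.val ≠ 0 := fun h => hy0 ((ZMod.val_eq_zero y).1 h)
    have hc1 : c = 1 := by
      rcases c with _ | _ | c
      · omega
      · rfl
      · exfalso
        have : n * (c + 1 + 1) = n * c + n + n := by ring
        have h4 : 0 ≤ n * c := Nat.zero_le _
        omega
    rw [hc, hc1, mul_one]
  by_cases hx0 : x = 0
  · exact Or.inl hx0
  · right
    apply ZMod.val_injective n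
    have h1 := key x hx hx0
    have h2 := key t ht ht0
    omega

lemma cyclic_of_le {X : Type*} [Group X] (H : Subgroup X) (g : X) (h : H ≤ Subgroup.zpowers g) :
    IsCyclic H :=
  isCyclic_of_injective (Subgroup.inclusion h) (Subgroup.inclusion_injective h)

lemma exists_sr {n : ℕ} (H : Subgroup (DihedralGroup n)) (hH : ¬ IsCyclic ↥H) :
    ∃ i : ZMod n, DihedralGroup.sr i ∈ H := by
  by_contra hcon
  push Not at hcon
  apply hH
  apply cyclic_of_le H (DihedralGroup.r 1)
  intro g hg
  rcases g with j | j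
  · obtain ⟨k, hk⟩ : ∃ k : ℤ, (k : ZMod n) = j := ⟨_, ZMod.intCast_zmod_cast j⟩
    refine Subgroup.mem_zpowers_iff.2 ⟨k, ?_⟩
    rw [← hk]
    exact DihedralGroup.r_one_zpow k
  · exact absurd hg (hcon j)

lemma comm_r {n : ℕ} (i j : ZMod n)
    (h : DihedralGroup.sr i * DihedralGroup.r j = DihedralGroup.r j * DihedralGroup.sr i) :
    j + j = 0 := by
  rw [DihedralGroup.sr_mul_r, DihedralGroup.r_mul_sr] at h
  have h1 : i + j = i - j := by injection h
  linear_combination h1

lemma comm_sr {n : ℕ} (i j : ZMod n)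
    (h : DihedralGroup.sr i * DihedralGroup.sr j = DihedralGroup.sr j * DihedralGroup.sr i) :
    (j - i) + (j - i) = 0 := by
  rw [DihedralGroup.sr_mul_sr, DihedralGroup.sr_mul_sr] at h
  have h1 : j - i = i - j := by injection h
  linear_combination h1

/-- Say that a group has self-centralizing non-cyclic subgroups when every non-cyclic subgroup H satisfies C_G(H) ≤ H. For n ≥ 3, the dihedral group of order 2n has self-centralizing non-cyclic subgroups if and only if n is odd or a power of 2. -/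
theorem result (n : ℕ) (hn : 3 ≤ n) : (∀ H : Subgroup (DihedralGroup n), ¬ IsCyclic ↥H → Subgroup.centralizer (H : Set (DihedralGroup n)) ≤ H) ↔ (Odd n ∨ ∃ k : ℕ, n = 2 ^ k) := by
  classical
  haveI : NeZero n := ⟨by omega⟩
  constructor
  · intro h
    by_contra hcon
    push Not at hcon
    obtain ⟨hodd, hpow⟩ := hcon
    obtain ⟨k, m, hm, hnkm⟩ := Nat.exists_eq_two_pow_mul_odd (show n ≠ 0 by omega)
    have hk0 : k ≠ 0 := by
      rintro rfl
      rw [pow_zero, one_mul] at hnkm
      exact hodd (hnkm ▸ hm)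
    obtain ⟨k', rfl⟩ := Nat.exists_eq_succ_of_ne_zero hk0
    have hm1 : m ≠ 1 := by
      rintro rfl
      exact hpow (k' + 1) (by rw [hnkm, mul_one])
    have hm2 : ¬ m ∣ 2 := by
      intro hd
      have := Nat.le_of_dvd (by norm_num) hd
      obtain ⟨c, hc⟩ := hm
      omega
    have hm3 : ¬ 2 ∣ m := by
      obtain ⟨c, hc⟩ := hm
      omega
    have hd : 2 ^ (k' + 1) ∣ n := Dvd.intro _ hnkm.symm
    obtain ⟨H, hHdef⟩ : ∃ H : Subgroup (DihedralGroup n),
        H = (Subgroup.zpowers (DihedralGroup.sr 0 : DihedralGroup (2 ^ (k' + 1)))).comap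
          (red n (2 ^ (k' + 1)) hd) := ⟨_, rfl⟩
    have hrd : DihedralGroup.r (((2 ^ (k' + 1) : ℕ) : ZMod n)) ∈ H := by
      rw [hHdef, Subgroup.mem_comap]
      show DihedralGroup.r (ZMod.castHom hd (ZMod (2 ^ (k' + 1))) ((2 ^ (k' + 1) : ℕ) : ZMod n)) ∈ _
      rw [map_natCast, ZMod.natCast_self]
      exact Subgroup.one_mem _
    have hs0 : DihedralGroup.sr (0 : ZMod n) ∈ H := by
      rw [hHdef, Subgroup.mem_comap]
      show DihedralGroup.sr (ZMod.castHom hd (ZMod (2 ^ (k' + 1))) (0 : ZMod n)) ∈ _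
      rw [map_zero]
      exact Subgroup.mem_zpowers _
    have hnc : ¬ IsCyclic ↥H := by
      intro hc
      obtain ⟨g, hg⟩ := hc.exists_generator
      obtain ⟨a, ha⟩ := Subgroup.mem_zpowers_iff.1 (hg ⟨_, hrd⟩)
      obtain ⟨b, hb⟩ := Subgroup.mem_zpowers_iff.1 (hg ⟨_, hs0⟩)
      have h1 : (⟨_, hs0⟩ : ↥H) * ⟨_, hrd⟩ = ⟨_, hrd⟩ * ⟨_, hs0⟩ := by
        rw [← ha, ← hb, ← zpow_add, ← zpow_add, add_comm]
      have h2 := comm_r _ _ (congrArg Subtype.val h1)
      have h3 : ((2 * 2 ^ (k' + 1) : ℕ) : ZMod n) = 0 := by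
        rw [two_mul]
        push_cast
        push_cast at h2
        exact h2
      have h4 := (ZMod.natCast_eq_zero_iff _ n).1 h3
      rw [hnkm, mul_comm 2] at h4
      exact hm2 (Nat.dvd_of_mul_dvd_mul_left (pow_pos (by norm_num) _) h4)
    have hz0 : (((2 ^ k' * m : ℕ) : ZMod n)) + ((2 ^ k' * m : ℕ) : ZMod n) = 0 := by
      have h1 : ((n : ℕ) : ZMod n) = 0 := ZMod.natCast_self n
      have h2 : n = 2 ^ k' * m + 2 ^ k' * m := by rw [hnkm, Nat.succ_eq_add_one, pow_succ]; ring
      rw [h2] at h1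
      rw [h2]
      push_cast at h1 ⊢
      exact h1
    have hzc : DihedralGroup.r (((2 ^ k' * m : ℕ) : ZMod n)) ∈
        Subgroup.centralizer (H : Set (DihedralGroup n)) := by
      rw [Subgroup.mem_centralizer_iff]
      intro g _
      rcases g with a | a
      · rw [DihedralGroup.r_mul_r, DihedralGroup.r_mul_r, add_comm]
      · rw [DihedralGroup.sr_mul_r, DihedralGroup.r_mul_sr]
        congr 1
        linear_combination hz0
    have hzH := h H hnc hzc
    rw [hHdef, Subgroup.mem_comap] at hzH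
    have hzH' : DihedralGroup.r (ZMod.castHom hd (ZMod (2 ^ (k' + 1)))
        ((2 ^ k' * m : ℕ) : ZMod n)) ∈
        Subgroup.zpowers (DihedralGroup.sr 0 : DihedralGroup (2 ^ (k' + 1))) := hzH
    rw [map_natCast] at hzH'
    obtain ⟨e, he⟩ := Subgroup.mem_zpowers_iff.1 hzH'
    have hsq : (DihedralGroup.sr 0 : DihedralGroup (2 ^ (k' + 1))) ^ (2 : ℤ) = 1 := by
      rw [zpow_two, DihedralGroup.sr_mul_sr, sub_self]
      rfl
    rcases Int.even_or_odd' e with ⟨c, hc | hc⟩
    · rw [hc, zpow_mul, hsq, one_zpow, DihedralGroup.one_def] at he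
      have h5 : (0 : ZMod (2 ^ (k' + 1))) = ((2 ^ k' * m : ℕ) : ZMod (2 ^ (k' + 1))) := by
        injection he
      have h6 := (ZMod.natCast_eq_zero_iff _ _).1 h5.symm
      rw [pow_succ] at h6
      exact hm3 (Nat.dvd_of_mul_dvd_mul_left (pow_pos (by norm_num) _) h6)
    · rw [hc, zpow_add, zpow_mul, hsq, one_zpow, one_mul, zpow_one] at he
      exact absurd he (by simp)
  · intro hn' H hH g hg
    obtain ⟨i, hi⟩ := exists_sr H hH
    have hgi := Subgroup.mem_centralizer_iff.1 hg _ hi
    rcases hn' with hodd | ⟨k, hk⟩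
    · obtain ⟨m, hm⟩ := hodd
      have hn0 : ((2 : ZMod n) * (m : ZMod n) + 1) = 0 := by
        have := ZMod.natCast_self n
        rw [hm] at this
        rw [hm]
        push_cast at this
        exact this
      have hz : ∀ x : ZMod n, x + x = 0 → x = 0 := by
        intro x hx
        linear_combination x * hn0 - (m : ZMod n) * hx
      rcases g with j | j
      · rw [hz j (comm_r i j hgi)]
        exact H.one_mem
      · have := hz _ (comm_sr i j hgi)
        rw [sub_eq_zero.1 this]
        exact hi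
    · -- a nontrivial rotation in `H`
      obtain ⟨a, haH, ha0⟩ : ∃ a : ZMod n, DihedralGroup.r a ∈ H ∧ a ≠ 0 := by
        by_contra hcon
        push Not at hcon
        apply hH
        apply cyclic_of_le H (DihedralGroup.sr i)
        intro x hx
        rcases x with b | b
        · rw [hcon b hx]
          exact Subgroup.one_mem _
        · have h1 := H.mul_mem hi hx
          rw [DihedralGroup.sr_mul_sr] at h1
          rw [sub_eq_zero.1 (hcon _ h1)]
          exact Subgroup.mem_zpowers _
      have hex : ∃ e : ℕ, ((2 ^ e : ℕ) : ZMod n) * a = 0 := ⟨k, by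
        rw [← hk, ZMod.natCast_self, zero_mul]⟩
      obtain ⟨e, he, hemin⟩ : ∃ e : ℕ, ((2 ^ e : ℕ) : ZMod n) * a = 0 ∧
          ∀ f < e, ((2 ^ f : ℕ) : ZMod n) * a ≠ 0 :=
        ⟨Nat.find hex, Nat.find_spec hex, fun f hf => Nat.find_min hex hf⟩
      have he0 : e ≠ 0 := by
        rintro rfl
        rw [pow_zero, Nat.cast_one, one_mul] at he
        exact ha0 he
      obtain ⟨e', rfl⟩ := Nat.exists_eq_succ_of_ne_zero he0
      have ht0 := hemin e' (Nat.lt_succ_self e')
      have ht : ((2 ^ e' : ℕ) : ZMod n) * a + ((2 ^ e' : ℕ) : ZMod n) * a = 0 := by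
        rw [← he, pow_succ]
        push_cast
        ring
      have htH : DihedralGroup.r (((2 ^ e' : ℕ) : ZMod n) * a) ∈ H := by
        rw [← r_pow']
        exact H.pow_mem haH _
      rcases g with j | j
      · rcases two_tors j _ (comm_r i j hgi) ht ht0 with h | h
        · rw [h]
          exact H.one_mem
        · rw [h]
          exact htH
      · rcases two_tors _ _ (comm_sr i j hgi) ht ht0 with h | h
        · rw [sub_eq_zero.1 h]
          exact hi
        · have h1 := H.mul_mem hi htH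
          rw [DihedralGroup.sr_mul_r, ← h] at h1
          have e1 : i + (j - i) = j := by ring
          rwa [e1] at h1

end Cfsg.Agent.S3920
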