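import Cfsg.Statements.S3947
import Cfsg.Agent.Lib.Helper4.Subnormal
import Cfsg.Agent.Lib.Helper4.Subnormal2
import Cfsg.Agent.Lib.Helper15.Frob
import Cfsg.Agent.S0540

set_option autoImplicit false
open Cfsg

namespace Cfsg.Agent.S3947

open Subgroup
open scoped Pointwise
open Cfsg.Agent.Lib.Helper15 (mem_conj_smul_iff)
open Cfsg.Agent.Lib.Helper4 (isSubnormal_sup isSubnormal_sSup subgroupOf_sSup exists_conj_le_normalizer)

universe u

variable {G : Type u} [Group G]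

/-- conjugate subgroup -/
abbrev cj (g : G) (H : Subgroup G) : Subgroup G := MulAut.conj g • H

theorem mem_cj {g x : G} {H : Subgroup G} : x ∈ cj g H ↔ g⁻¹ * x * g ∈ H := mem_conj_smul_iff

theorem cj_le_iff {g : G} {U V : Subgroup G} : cj g U ≤ V ↔ ∀ u ∈ U, g * u * g⁻¹ ∈ V := by
  constructor
  · intro h u hu
    apply h
    rw [mem_cj]
    have e : g⁻¹ * (g * u * g⁻¹) * g = u := by group
    rwa [e]
  · intro h x hx
    rw [mem_cj] at hx
    have := h _ hx
    have e : g * (g⁻¹ * x * g) * g⁻¹ = x := by group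
    rwa [e] at this

theorem cj_mul (g h : G) (H : Subgroup G) : cj (g * h) H = cj g (cj h H) := by
  unfold cj; rw [map_mul, mul_smul]

theorem cj_one (H : Subgroup G) : cj 1 H = H := by
  unfold cj; rw [map_one, one_smul]

theorem cj_inv_cj (g : G) (H : Subgroup G) : cj g⁻¹ (cj g H) = H := by
  rw [← cj_mul, inv_mul_cancel, cj_one]

theorem cj_cj_inv (g : G) (H : Subgroup G) : cj g (cj g⁻¹ H) = H := by
  rw [← cj_mul, mul_inv_cancel, cj_one]

theorem cj_mono {g : G} {U V : Subgroup G} (h : U ≤ V) : cj g U ≤ cj g V :=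
  pointwise_smul_le_pointwise_smul_iff.2 h

theorem cj_le_swap {g : G} {U V : Subgroup G} : cj g U ≤ V ↔ U ≤ cj g⁻¹ V := by
  constructor
  · intro h
    have := cj_mono (g := g⁻¹) h
    rwa [cj_inv_cj] at this
  · intro h
    have := cj_mono (g := g) h
    rwa [cj_cj_inv] at this

theorem card_cj (g : G) (H : Subgroup G) : Nat.card ↥(cj g H) = Nat.card H :=
  (Nat.card_congr (equivSMul (MulAut.conj g) H).toEquiv).symm

theorem cj_eq_of_le [Finite G] {g : G} {K : Subgroup G} (h : cj g K ≤ K) : cj g K = K :=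
  eq_of_le_of_card_ge h (by rw [card_cj])

theorem cj_of_mem {g : G} {H : Subgroup G} (h : g ∈ H) : cj g H = H := conj_smul_eq_self_of_mem h

theorem mem_normalizer_of_cj_le [Finite G] {g : G} {K : Subgroup G} (h : cj g K ≤ K) :
    g ∈ normalizer (K : Set G) := by
  have e := cj_eq_of_le h
  rw [mem_normalizer_iff]
  intro x
  constructor
  · intro hx; exact cj_le_iff.1 h x hx
  · intro hx
    rw [← e, mem_cj] at hx
    have e2 : g⁻¹ * (g * x * g⁻¹) * g = x := by group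
    rwa [e2] at hx

theorem cj_le_of_mem_normalizer {g : G} {K : Subgroup G} (h : g ∈ normalizer (K : Set G)) :
    cj g K ≤ K :=
  cj_le_iff.2 (fun u hu => (mem_normalizer_iff.1 h u).1 hu)

theorem cj_top (g : G) : cj g (⊤ : Subgroup G) = ⊤ := by
  rw [eq_top_iff]; intro x _; rw [mem_cj]; trivial

theorem cj_ne_top {g : G} {H : Subgroup G} (h : H ≠ ⊤) : cj g H ≠ ⊤ := by
  intro e; apply h
  have := congrArg (cj g⁻¹) e
  rwa [cj_inv_cj, cj_top] at this

theorem isCoatom_cj {g : G} {M : Subgroup G} (h : IsCoatom M) : IsCoatom (cj g M) := by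
  refine ⟨cj_ne_top h.1, fun K hK => ?_⟩
  have h1 : M < cj g⁻¹ K := by
    refine lt_of_le_of_ne (cj_le_swap.1 hK.le) ?_
    intro e
    apply hK.ne
    rw [e, cj_cj_inv]
  have := h.2 _ h1
  have h2 := congrArg (cj g) this
  rwa [cj_cj_inv, cj_top] at h2

/-- `H` is generated by its own conjugates of `A` -/
def Perf (A H : Subgroup G) : Prop :=
  ∀ K : Subgroup G, A ≤ K → K ≤ H → H ≤ normalizer (K : Set G) → K = H

/-- relative subnormality -/
def SN (S L : Subgroup G) : Prop := S ≤ L ∧ (S.subgroupOf L).IsSubnormal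

theorem Perf.cj' [Finite G] {A H : Subgroup G} (h : Perf A H) (g : G) :
    Perf (cj g A) (cj g H) := by
  intro K hAK hKH hN
  have h1 : cj g⁻¹ K = H := by
    apply h
    · exact cj_le_swap.1 hAK
    · rw [cj_le_swap, inv_inv]; exact hKH
    · intro x hx
      apply mem_normalizer_of_cj_le
      have hx' : g * x * g⁻¹ ∈ normalizer (K : Set G) := hN (cj_le_iff.1 le_rfl x hx)
      have h2 := cj_le_of_mem_normalizer hx'
      have e : cj x (cj g⁻¹ K) = cj g⁻¹ (cj (g * x * g⁻¹) K) := by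
        rw [← cj_mul, ← cj_mul]; congr 1; group
      rw [e]; exact cj_mono h2
  rw [← h1, cj_cj_inv]

theorem SN.refl (L : Subgroup G) : SN L L :=
  ⟨le_rfl, by rw [subgroupOf_self]; exact IsSubnormal.top⟩

theorem sub_restrict {S X H : Subgroup G} (h : (S.subgroupOf X).IsSubnormal) (hHX : H ≤ X) :
    (S.subgroupOf H).IsSubnormal := by
  have := h.comap (inclusion hHX)
  convert this using 1
  ext x
  rfl

theorem SN.step {S K L : Subgroup G} (h : SN S K) (hKL : K ≤ L)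
    (hN : L ≤ normalizer (K : Set G)) : SN S L := by
  refine ⟨h.1.trans hKL, ?_⟩
  have hKn : (K.subgroupOf L).Normal := (normal_subgroupOf_iff_le_normalizer hKL).2 hN
  refine IsSubnormal.trans (K := K.subgroupOf L) (comap_mono h.1) ?_ hKn.isSubnormal
  have := h.2.comap (subgroupOfEquivOfLe hKL).toMonoidHom
  convert this using 1
  ext x
  rfl

theorem SN.cj' {S L : Subgroup G} (h : SN S L) (g : G) : SN (cj g S) (cj g L) := by
  refine ⟨cj_mono h.1, ?_⟩
  let f : ↥(cj g L) →* ↥L :=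
    { toFun := fun x => ⟨g⁻¹ * x * g, mem_cj.1 x.2⟩
      map_one' := by apply Subtype.ext; simp
      map_mul' := by intro x y; apply Subtype.ext; simp [mul_assoc] }
  have := h.2.comap f
  convert this using 1
  ext x
  rw [mem_subgroupOf, mem_comap, mem_subgroupOf, mem_cj]
  exact Iff.rfl

theorem SN.sup [Finite G] {S1 S2 L : Subgroup G} (h1 : SN S1 L) (h2 : SN S2 L) :
    SN (S1 ⊔ S2) L :=
  ⟨sup_le h1.1 h2.1, by rw [subgroupOf_sup h1.1 h2.1]; exact isSubnormal_sup h1.2 h2.2⟩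

theorem SN.sSup' [Finite G] (𝒮 : Set (Subgroup G)) (L : Subgroup G) (h : ∀ X ∈ 𝒮, SN X L) :
    SN (sSup 𝒮) L := by
  refine ⟨sSup_le (fun X hX => (h X hX).1), ?_⟩
  rw [subgroupOf_sSup L 𝒮 (fun B hB => (h B hB).1)]
  apply isSubnormal_sSup
  rintro _ ⟨B, hB, rfl⟩
  exact (h B hB).2

theorem le_of_perf {J H T : Subgroup G} (hJ : (J.subgroupOf H).IsSubnormal) (hTJ : T ≤ J)
    (hTH : T ≤ H) (hP : Perf T H) : H ≤ J := by
  by_contra hcon
  have hne : J.subgroupOf H ≠ ⊤ := by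
    intro e; exact hcon (subgroupOf_eq_top.1 e)
  obtain ⟨K', hK'n, hJK', hK'⟩ := hJ.exists_normal_and_le_and_lt_top_of_ne hne
  have h1 : K'.map H.subtype = H := by
    apply hP
    · intro t ht
      exact ⟨⟨t, hTH ht⟩, hJK' (mem_subgroupOf.2 (hTJ ht)), rfl⟩
    · exact map_subtype_le K'
    · have h2 := le_normalizer_map (H := K') H.subtype
      rw [normalizer_eq_top_iff.2 hK'n, ← MonoidHom.range_eq_map, range_subtype] at h2
      exact h2
  apply hK'.ne
  apply map_injective H.subtype_injective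
  rw [h1, ← MonoidHom.range_eq_map, range_subtype]

theorem exists_closure [Finite G] : ∀ (n : ℕ) (B H : Subgroup G), Nat.card H = n → B ≤ H →
    ∃ S, B ≤ S ∧ SN S H ∧ Perf B S := by
  intro n
  induction n using Nat.strong_induction_on with
  | _ n ih =>
    intro B H hn hBH
    by_cases hP : Perf B H
    · exact ⟨H, hBH, SN.refl H, hP⟩
    · unfold Perf at hP
      push Not at hP
      obtain ⟨K, hBK, hKH, hN, hne⟩ := hP
      have hlt : Nat.card K < n := by
        by_contra hc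
        push Not at hc
        rw [← hn] at hc
        exact hne (eq_of_le_of_card_ge hKH hc)
      obtain ⟨S, h1, h2, h3⟩ := ih _ hlt B K rfl hBK
      exact ⟨S, h1, h2.step hKH hN, h3⟩

theorem perf_sSup (A : Subgroup G) (𝒮 : Set (Subgroup G)) (h : ∀ H ∈ 𝒮, A ≤ H ∧ Perf A H) :
    Perf A (sSup 𝒮) := by
  intro K hAK hK hN
  apply le_antisymm hK
  apply sSup_le
  intro H hH
  have h1 : K ⊓ H = H := by
    apply (h H hH).2
    · exact le_inf hAK (h H hH).1
    · exact inf_le_right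
    · intro x hx
      have hxK := hN (le_sSup hH hx)
      rw [mem_normalizer_iff] at hxK ⊢
      intro y
      have e : y ∈ H ↔ x * y * x⁻¹ ∈ H :=
        ⟨fun hy => H.mul_mem (H.mul_mem hx hy) (H.inv_mem hx), fun hy => by
          have := H.mul_mem (H.mul_mem (H.inv_mem hx) hy) hx
          have e : x⁻¹ * (x * y * x⁻¹) * x = y := by group
          rwa [e] at this⟩
      rw [mem_inf, mem_inf, hxK y, e]
  exact inf_eq_right.1 h1

theorem Zrel [Finite G] (U X D : Subgroup G) (h : SN U X)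
    (h1 : ∀ x ∈ X, cj x U ≤ D → cj x U ≤ U) (h2 : ¬ X ≤ D) :
    ∃ x ∈ X, cj x U ≤ U ∧ x ∉ D := by
  by_contra hcon
  push Not at hcon
  have key : ∀ x : ↥X, x ∈ normalizer ((U.subgroupOf X : Subgroup ↥X) : Set ↥X) →
      cj (x : G) U ≤ U := by
    intro x hx
    rw [cj_le_iff]
    intro u hu
    have := (mem_normalizer_iff.1 hx ⟨u, h.1 hu⟩).1 (mem_subgroupOf.2 hu)
    exact mem_subgroupOf.1 this
  have hn : (U.subgroupOf X).Normal := by
    by_contra hn
    obtain ⟨g, hg, hg'⟩ := exists_conj_le_normalizer h.2 hn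
    apply hg
    have h3 : cj (g : G) U ≤ D := by
      rw [cj_le_iff]
      intro u hu
      have h4 := hg' ⟨u, h.1 hu⟩ (mem_subgroupOf.2 hu)
      exact hcon _ (g * ⟨u, h.1 hu⟩ * g⁻¹ : ↥X).2 (key _ h4)
    have h5 := h1 g g.2 h3
    apply mem_normalizer_of_cj_le
    rw [cj_le_iff]
    intro u hu
    rw [mem_subgroupOf] at hu ⊢
    exact cj_le_iff.1 h5 _ hu
  apply h2
  intro x hx
  apply hcon x hx
  apply key ⟨x, hx⟩
  rw [normalizer_eq_top_iff.2 hn]; trivial


def HH (A : Subgroup G) : Set (Subgroup G) := {H | A ≤ H ∧ H ≠ ⊤ ∧ Perf A H}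

def SS (Y V : Subgroup G) : Set (Subgroup G) :=
  {B | (∃ g : G, B = MulAut.conj g • Y) ∧ B ≤ V ∧ (B.subgroupOf V).IsSubnormal}

def CC (A D : Subgroup G) : Set (Subgroup G) := {X | (∃ g, X = cj g A) ∧ X ≤ D}

theorem cj_sSup_le {g : G} {𝒮 : Set (Subgroup G)} {V : Subgroup G} (h : ∀ X ∈ 𝒮, cj g X ≤ V) :
    cj g (sSup 𝒮) ≤ V := by
  rw [cj_le_swap]
  exact sSup_le (fun X hX => cj_le_swap.1 (h X hX))

theorem perf_self (A : Subgroup G) : Perf A A := fun _ h1 h2 _ => le_antisymm h2 h1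

theorem coatom_eq {L M : Subgroup G} (hL : IsCoatom L) (hM : IsCoatom M) (h : L ≤ M) : L = M := by
  by_contra hne
  exact hM.1 (hL.2 M (lt_of_le_of_ne h hne))

theorem cj_le_of_mem {x : G} {X V : Subgroup G} (hx : x ∈ V) (h : X ≤ V) : cj x X ≤ V := by
  have := cj_mono (g := x) h
  rwa [cj_of_mem hx] at this

theorem main [Finite G] : ∀ (n : ℕ) (A : Subgroup G), Nat.card G - Nat.card A = n → Perf A ⊤ →
    A ≠ ⊤ → sSup (HH A) = ⊤ ∨ ∃! M : Subgroup G, IsCoatom M ∧ A ≤ M := by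
  intro n
  induction n using Nat.strong_induction_on with
  | _ n ih =>
  intro A hn hAP hAT
  by_cases hYT : sSup (HH A) = ⊤
  · exact Or.inl hYT
  right
  obtain ⟨Y, hY⟩ : ∃ Y, Y = sSup (HH A) := ⟨_, rfl⟩
  rw [← hY] at hYT
  have hleY : ∀ H, A ≤ H → H ≠ ⊤ → Perf A H → H ≤ Y := fun H h1 h2 h3 => by
    rw [hY]; exact le_sSup ⟨h1, h2, h3⟩
  have hAY : A ≤ Y := hleY A le_rfl hAT (perf_self A)
  have hYP : Perf A Y := by
    rw [hY]; exact perf_sSup A _ (fun H hH => ⟨hH.1, hH.2.2⟩)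
  have hleYg : ∀ g H, cj g A ≤ H → H ≠ ⊤ → Perf (cj g A) H → H ≤ cj g Y := by
    intro g H h1 h2 h3
    have h4 := h3.cj' g⁻¹
    rw [cj_inv_cj] at h4
    have h5 := hleY _ (cj_le_swap.1 h1) (cj_ne_top h2) h4
    rw [cj_le_swap, inv_inv] at h5
    exact h5
  have hnn : ∀ E : Subgroup G, A ≤ E → E ≠ ⊤ → normalizer (E : Set G) ≠ ⊤ := by
    intro E h1 h2 h3
    exact h2 (hAP E h1 le_top (by rw [h3]))
  have hYS : ∀ V, Y ≤ V → V ≠ ⊤ → SN Y V := by
    intro V h1 h2
    obtain ⟨S, hS1, hS2, hS3⟩ := exists_closure _ A V rfl (hAY.trans h1)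
    have hSV : S ≠ ⊤ := by
      intro e
      rw [e] at hS2
      exact h2 (top_le_iff.1 hS2.1)
    have hSY : S ≤ Y := hleY S hS1 hSV hS3
    have hYS : Y ≤ S := le_of_perf (sub_restrict hS2.2 h1) hS1 hAY hYP
    have e : Y = S := le_antisymm hYS hSY
    rw [e]
    exact hS2
  have hYSS : ∀ V, Y ≤ V → V ≠ ⊤ → Y ∈ SS Y V := fun V h1 h2 =>
    ⟨⟨1, (cj_one Y).symm⟩, h1, (hYS V h1 h2).2⟩
  obtain ⟨M, ⟨hYM, hMT⟩, hMmax⟩ := Cfsg.Agent.S0540.result Y {V | Y ≤ V ∧ V ≠ ⊤} ⟨Y, le_rfl, hYT⟩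
    (SS Y) (fun _ _ => Iff.rfl)
    (by
      intro V hV
      exact hYSS V hV.1 hV.2)
    (by
      rintro V hV W hW B ⟨⟨g, rfl⟩, -, -⟩ hBV
      refine ⟨⟨g, rfl⟩, hBV, ?_⟩
      have h1 := hYS (cj g⁻¹ V) (cj_le_swap.1 hBV) (cj_ne_top hV.2)
      have h2 := h1.cj' g
      rw [cj_cj_inv] at h2
      exact h2.2)
    (by
      intro V hV W hW
      have hYE : Y ≤ sSup (SS Y V ∩ SS Y W) := le_sSup ⟨hYSS V hV.1 hV.2, hYSS W hW.1 hW.2⟩
      have hEV : sSup (SS Y V ∩ SS Y W) ≤ V := sSup_le (fun B hB => hB.1.2.1)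
      have hET : sSup (SS Y V ∩ SS Y W) ≠ ⊤ := by
        intro e
        rw [e] at hEV
        exact hV.2 (top_le_iff.1 hEV)
      exact ⟨normalizer _, ⟨hYE.trans le_normalizer, hnn _ (hAY.trans hYE) hET⟩, le_rfl⟩)
  have hMco : IsCoatom M := ⟨hMT, fun K hK => by
    by_contra hKT
    exact absurd (hMmax K ⟨hYM.trans hK.le, hKT⟩) (not_le_of_gt hK)⟩
  have hAM : A ≤ M := hAY.trans hYM
  have hM0 : ∀ g, cj g M = M → g ∈ M := by
    intro g hg
    have h1 : normalizer (M : Set G) ≤ M := hMmax _ ⟨hYM.trans le_normalizer, hnn M hAM hMT⟩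
    exact h1 (mem_normalizer_of_cj_le hg.le)
  have hM1 : ∀ x, cj x A = A → x ∈ M := by
    intro x hx
    have h1 : cj x Y ≤ Y := by
      apply hleY
      · have := cj_mono (g := x) hAY
        rwa [hx] at this
      · exact cj_ne_top hYT
      · have := hYP.cj' x
        rwa [hx] at this
    have h2 : normalizer (Y : Set G) ≤ M := hMmax _ ⟨le_normalizer, hnn Y hAY hYT⟩
    exact h2 (mem_normalizer_of_cj_le h1)
  have hIH : ∀ g Z, cj g A ≠ A → Z ≠ ⊤ →
      (∀ H, A ⊔ cj g A ≤ H → H ≠ ⊤ → Perf (A ⊔ cj g A) H → H ≤ Z) →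
      ∀ L1 L2, IsCoatom L1 → IsCoatom L2 → A ⊔ cj g A ≤ L1 → A ⊔ cj g A ≤ L2 → L1 = L2 := by
    intro g Z hg hZ hb L1 L2 hL1 hL2 h1 h2
    have hTT : A ⊔ cj g A ≠ ⊤ := by
      intro e; rw [e] at h1; exact hL1.1 (top_le_iff.1 h1)
    have hlt : Nat.card A < Nat.card ↥(A ⊔ cj g A) := by
      by_contra hc
      push Not at hc
      have e : A = A ⊔ cj g A := eq_of_le_of_card_ge le_sup_left hc
      have h3 : cj g A ≤ A := by
        have : cj g A ≤ A ⊔ cj g A := le_sup_right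
        rwa [← e] at this
      exact hg (cj_eq_of_le h3)
    have hle : Nat.card ↥(A ⊔ cj g A) ≤ Nat.card G := Subgroup.card_le_card_group _
    have hPT : Perf (A ⊔ cj g A) ⊤ := fun K hK1 hK2 hK3 => hAP K (le_sup_left.trans hK1) hK2 hK3
    rcases ih (Nat.card G - Nat.card ↥(A ⊔ cj g A)) (by omega) (A ⊔ cj g A) rfl hPT hTT with h | h
    · exfalso
      apply hZ
      rw [eq_top_iff, ← h]
      exact sSup_le (fun H hH => hb H hH.1 hH.2.1 hH.2.2)
    · exact h.unique ⟨hL1, h1⟩ ⟨hL2, h2⟩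
  have hdec : ∀ g H, A ⊔ cj g A ≤ H → H ≠ ⊤ → Perf (A ⊔ cj g A) H → H ≤ Y ⊔ cj g Y := by
    intro g H h1 h2 h3
    obtain ⟨S1, a1, a2, a3⟩ := exists_closure _ A H rfl (le_sup_left.trans h1)
    obtain ⟨S2, b1, b2, b3⟩ := exists_closure _ (cj g A) H rfl (le_sup_right.trans h1)
    have hne : ∀ S, S ≤ H → S ≠ ⊤ := by
      intro S hS e
      rw [e] at hS
      exact h2 (top_le_iff.1 hS)
    have c1 : S1 ≤ Y := hleY S1 a1 (hne S1 a2.1) a3
    have c2 : S2 ≤ cj g Y := hleYg g S2 b1 (hne S2 b2.1) b3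
    have c3 : H ≤ S1 ⊔ S2 := le_of_perf (a2.sup b2).2 (sup_le_sup a1 b1) h1 h3
    exact c3.trans (sup_le_sup c1 c2)
  have hN2 : ∀ m L, m ∈ M → IsCoatom L → L ≠ M → A ≤ L → cj m A ≤ L → cj m A = A := by
    intro m L hm hL hLM hAL hmL
    by_contra hne
    apply hLM
    apply hIH m M hne hMT _ L M hL hMco (sup_le hAL hmL) (sup_le hAM (cj_le_of_mem hm hAM))
    intro H h1 h2 h3
    exact (hdec m H h1 h2 h3).trans (sup_le hYM (cj_le_of_mem hm hYM))
  have hN1 : ∀ L, IsCoatom L → L ≠ M → A ≤ L → SN A L := by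
    intro L hL hLM hAL
    obtain ⟨S, a1, a2, a3⟩ := exists_closure _ A L rfl hAL
    have hST : S ≠ ⊤ := by
      intro e
      rw [e] at a2
      exact hL.1 (top_le_iff.1 a2.1)
    have hSM : S ≤ M := (hleY S a1 hST a3).trans hYM
    have e : A = S := by
      apply a3 A le_rfl a1
      intro s hs
      apply mem_normalizer_of_cj_le
      exact (hN2 s L (hSM hs) hL hLM hAL ((cj_le_of_mem hs a1).trans a2.1)).le
    have a2' := a2
    rw [← e] at a2'
    exact a2'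
  have hN1g : ∀ g L, IsCoatom L → L ≠ cj g M → cj g A ≤ L → SN (cj g A) L := by
    intro g L hL hLM hAL
    have h1 : SN A (cj g⁻¹ L) := by
      apply hN1 _ (isCoatom_cj hL) _ (cj_le_swap.1 hAL)
      intro e
      apply hLM
      rw [← e, cj_cj_inv]
    have h2 := h1.cj' g
    rwa [cj_cj_inv] at h2
  have hN3 : ∀ g, g ∉ M → cj g A ≤ M → SN (cj g A) M := fun g hg h =>
    hN1g g M hMco (fun e => hg (hM0 g e.symm)) h
  have hN5 : ∀ g L, IsCoatom L → L ≠ M → A ≤ L → cj g A ≤ L → cj g A ≤ M → cj g A ≠ A →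
      A ≤ cj g M := by
    intro g L hL hLM hAL hgL hgM hne
    by_contra hcon
    apply hLM
    apply hIH g M hne hMT _ L M hL hMco (sup_le hAL hgL) (sup_le hAM hgM)
    intro H h1 h2 h3
    obtain ⟨L', hL', hHL'⟩ := (eq_top_or_exists_le_coatom H).resolve_left h2
    by_cases e1 : L' = M
    · rw [← e1]; exact hHL'
    by_cases e2 : L' = cj g M
    · exfalso; apply hcon; rw [← e2]; exact (le_sup_left.trans h1).trans hHL'
    have s1 : SN A L' := hN1 L' hL' e1 ((le_sup_left.trans h1).trans hHL')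
    have s2 : SN (cj g A) L' := hN1g g L' hL' e2 ((le_sup_right.trans h1).trans hHL')
    have s3 := s1.sup s2
    have h4 : H ≤ A ⊔ cj g A := le_of_perf (sub_restrict s3.2 hHL') le_rfl h1 h3
    exact h4.trans (sup_le hAM hgM)
  have lemM : ∀ L, IsCoatom L → L ≠ M → A ≤ L →
      ∃ m ∈ M, m ∉ L ∧ cj m (sSup (CC A (L ⊓ M))) ≤ sSup (CC A (L ⊓ M)) := by
    intro L hL hLM hAL
    have hML : ¬ M ≤ L := fun h => hLM (coatom_eq hMco hL h).symm
    have hLM' : ¬ L ≤ M := fun h => hLM (coatom_eq hL hMco h)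
    obtain ⟨g, hgL, hgM, hgA⟩ : ∃ g, cj g A ≤ L ∧ cj g A ≤ M ∧ cj g A ≠ A := by
      by_contra hc
      push Not at hc
      obtain ⟨x, hxL, hx1, hx2⟩ := Zrel A L M (hN1 L hL hLM hAL) (by
        intro x hx h1
        exact (hc x (cj_le_of_mem hx hAL) h1).le) hLM'
      exact hx2 (hM1 x (cj_eq_of_le hx1))
    have hnotM : ∀ g, cj g A ≤ L → cj g A ≠ A → g ∉ M :=
      fun g h1 h2 h3 => h2 (hN2 g L h3 hL hLM hAL h1)
    obtain ⟨𝒞', h𝒞'⟩ : ∃ 𝒞' : Set (Subgroup G), 𝒞' = {X | X ∈ CC A (L ⊓ M) ∧ X ≠ A} := ⟨_, rfl⟩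
    have hmem : ∀ X, X ∈ 𝒞' ↔ (X ∈ CC A (L ⊓ M) ∧ X ≠ A) := by
      intro X; rw [h𝒞']; exact Iff.rfl
    have hFM : SN (sSup 𝒞') M := by
      apply SN.sSup'
      intro X hX
      obtain ⟨⟨⟨k, rfl⟩, hk⟩, hkA⟩ := (hmem X).1 hX
      exact hN3 k (hnotM k (hk.trans inf_le_left) hkA) (hk.trans inf_le_right)
    have hstab : ∀ x ∈ M, ∀ X ∈ 𝒞', cj x X ≤ L → cj x X ∈ 𝒞' := by
      intro x hx X hX hxL
      obtain ⟨⟨⟨k, rfl⟩, hk⟩, hkA⟩ := (hmem X).1 hX
      refine (hmem _).2 ⟨⟨⟨x * k, (cj_mul x k A).symm⟩,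
        le_inf hxL (cj_le_of_mem hx (hk.trans inf_le_right))⟩, ?_⟩
      intro e
      apply hkA
      have e2 : cj k A = cj x⁻¹ A := by
        have := congrArg (cj x⁻¹) e
        rwa [cj_inv_cj] at this
      rw [e2]
      apply hN2 x⁻¹ L (M.inv_mem hx) hL hLM hAL
      rw [← e2]; exact hk.trans inf_le_left
    obtain ⟨m, hmM, hm1, hm2⟩ := Zrel (sSup 𝒞') M L hFM (by
      intro x hx h1
      apply cj_sSup_le
      intro X hX
      apply le_sSup
      apply hstab x hx X hX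
      exact (cj_mono (le_sSup hX)).trans h1) hML
    refine ⟨m, hmM, hm2, ?_⟩
    have hFL : sSup 𝒞' ≤ L := sSup_le (fun X hX => ((hmem X).1 hX).1.2.trans inf_le_left)
    have hg' : cj g A ∈ 𝒞' := (hmem _).2 ⟨⟨⟨g, rfl⟩, le_inf hgL hgM⟩, hgA⟩
    have hmg := (hmem _).1
      (hstab m hmM _ hg' (((cj_mono (le_sSup hg')).trans hm1).trans hFL))
    have hmA : cj m A = A := by
      have k1 : A ≤ cj g M := hN5 g L hL hLM hAL hgL hgM hgA
      have k2 : A ≤ cj (m * g) M := by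
        apply hN5 (m * g) L hL hLM hAL
        · rw [cj_mul]; exact hmg.1.2.trans inf_le_left
        · rw [cj_mul]; exact hmg.1.2.trans inf_le_right
        · rw [cj_mul]; exact hmg.2
      apply hN2 m (cj (m * g) M) hmM (isCoatom_cj hMco) _ k2
      · rw [cj_mul]; exact cj_mono k1
      · intro e
        have h1 := hM0 _ e
        have h2 : g ∈ M := by
          have := M.mul_mem (M.inv_mem hmM) h1
          rwa [inv_mul_cancel_left] at this
        exact hnotM g hgL hgA h2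
    apply cj_sSup_le
    intro X hX
    by_cases hXA : X = A
    · rw [hXA, hmA]; exact le_sSup ⟨⟨1, (cj_one A).symm⟩, le_inf hAL hAM⟩
    · have hX' : X ∈ 𝒞' := (hmem X).2 ⟨hX, hXA⟩
      exact ((cj_mono (le_sSup hX')).trans hm1).trans
        (sSup_le_sSup (fun Z hZ => ((hmem Z).1 hZ).1))
  refine ⟨M, ⟨hMco, hAM⟩, ?_⟩
  by_contra hcon
  push Not at hcon
  obtain ⟨L0, ⟨hL0, hAL0⟩, hL0M⟩ := hcon
  obtain ⟨L, ⟨hL, hLM, hAL⟩, hLmax⟩ := Set.exists_max_image
    {L : Subgroup G | IsCoatom L ∧ L ≠ M ∧ A ≤ L}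
    (fun L => Nat.card ↥(L ⊓ M)) (Set.toFinite _) ⟨L0, hL0, hL0M, hAL0⟩
  obtain ⟨m, hmM, hmL, hmF⟩ := lemM L hL hLM hAL
  have hAF : A ≤ sSup (CC A (L ⊓ M)) := le_sSup ⟨⟨1, (cj_one A).symm⟩, le_inf hAL hAM⟩
  have hFD : sSup (CC A (L ⊓ M)) ≤ L ⊓ M := sSup_le (fun X hX => hX.2)
  have hLM' : ¬ L ≤ M := fun h => hLM (coatom_eq hL hMco h)
  obtain ⟨l, hlL, hlM, hlF⟩ : ∃ l ∈ L, l ∉ M ∧
      cj l (sSup (CC A (L ⊓ M))) ≤ sSup (CC A (L ⊓ M)) := by
    by_cases hall : ∀ X ∈ CC A (L ⊓ M), SN X L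
    · obtain ⟨l, h1, h2, h3⟩ := Zrel (sSup (CC A (L ⊓ M))) L M (SN.sSup' _ L hall) (by
        intro x hx h1
        apply cj_sSup_le
        rintro X ⟨⟨k, rfl⟩, hk⟩
        apply le_sSup
        refine ⟨⟨x * k, (cj_mul x k A).symm⟩,
          le_inf (cj_le_of_mem hx (hk.trans inf_le_left)) ?_⟩
        have hk' : cj k A ∈ CC A (L ⊓ M) := ⟨⟨k, rfl⟩, hk⟩
        exact (cj_mono (le_sSup hk')).trans h1) hLM'
      exact ⟨l, h1, h3, h2⟩
    · push Not at hall
      obtain ⟨X, ⟨⟨h, rfl⟩, hh⟩, hnot⟩ := hall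
      have eL : L = cj h M := by
        by_contra hne
        exact hnot (hN1g h L hL hne (hh.trans inf_le_left))
      have hhM : h ∉ M := by
        intro hh'
        apply hLM
        rw [eL, cj_of_mem hh']
      have hL2 : cj h⁻¹ M ≠ M := by
        intro e
        exact hhM (by have := hM0 _ e; simpa using M.inv_mem this)
      obtain ⟨m2, a1, a2, a3⟩ := lemM (cj h⁻¹ M) (isCoatom_cj hMco) hL2
        (cj_le_swap.1 (hh.trans inf_le_right))
      have b1 : cj h⁻¹ (sSup (CC A (L ⊓ M))) ≤ sSup (CC A (cj h⁻¹ M ⊓ M)) := by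
        apply cj_sSup_le
        rintro X ⟨⟨k, rfl⟩, hk⟩
        apply le_sSup
        refine ⟨⟨h⁻¹ * k, (cj_mul _ _ _).symm⟩, le_inf (cj_mono (hk.trans inf_le_right)) ?_⟩
        have := cj_mono (g := h⁻¹) (hk.trans inf_le_left)
        rwa [eL, cj_inv_cj] at this
      have b2 : cj h (sSup (CC A (cj h⁻¹ M ⊓ M))) ≤ sSup (CC A (L ⊓ M)) := by
        apply cj_sSup_le
        rintro X ⟨⟨k, rfl⟩, hk⟩
        apply le_sSup
        refine ⟨⟨h * k, (cj_mul _ _ _).symm⟩, le_inf ?_ ?_⟩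
        · have := cj_mono (g := h) (hk.trans inf_le_right)
          rwa [← eL] at this
        · have := cj_mono (g := h) (hk.trans inf_le_left)
          rwa [cj_cj_inv] at this
      refine ⟨h * m2 * h⁻¹, ?_, ?_, ?_⟩
      · rw [eL]; exact cj_le_iff.1 le_rfl m2 a1
      · intro hc
        apply a2
        rw [mem_cj, inv_inv]; exact hc
      · rw [cj_mul, cj_mul]
        exact ((cj_mono ((cj_mono b1).trans a3))).trans b2
  have hFT : sSup (CC A (L ⊓ M)) ≠ ⊤ := by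
    intro e
    apply hL.1
    rw [eq_top_iff, ← e]; exact hFD.trans inf_le_left
  obtain ⟨L3, hL3, hNL3⟩ := (eq_top_or_exists_le_coatom
    (normalizer ((sSup (CC A (L ⊓ M)) : Subgroup G) : Set G))).resolve_left (hnn _ hAF hFT)
  have hl3 : l ∈ L3 := hNL3 (mem_normalizer_of_cj_le hlF)
  have hm3 : m ∈ L3 := hNL3 (mem_normalizer_of_cj_le hmF)
  have hL3M : L3 ≠ M := by
    intro e; rw [e] at hl3; exact hlM hl3
  have hAL3 : A ≤ L3 := (hAF.trans le_normalizer).trans hNL3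
  have hDL3 : L ⊓ M ≤ L3 ⊓ M := by
    refine le_inf ?_ inf_le_right
    refine le_trans ?_ hNL3
    intro d hd
    apply mem_normalizer_of_cj_le
    apply cj_sSup_le
    rintro X ⟨⟨k, rfl⟩, hk⟩
    apply le_sSup
    exact ⟨⟨d * k, (cj_mul _ _ _).symm⟩, cj_le_of_mem hd hk⟩
  have hcard := hLmax L3 ⟨hL3, hL3M, hAL3⟩
  have e : L ⊓ M = L3 ⊓ M := eq_of_le_of_card_ge hDL3 hcard
  have hmD : m ∈ L ⊓ M := by rw [e]; exact mem_inf.2 ⟨hm3, hmM⟩
  exact hmL (mem_inf.1 hmD).1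

theorem perf_iff {A H : Subgroup G} (hAH : A ≤ H) :
    normalClosure ((A.subgroupOf H : Subgroup ↥H) : Set ↥H) = ⊤ ↔ Perf A H := by
  constructor
  · intro h K hAK hKH hN
    apply le_antisymm hKH
    have hn : (K.subgroupOf H).Normal := (normal_subgroupOf_iff_le_normalizer hKH).2 hN
    have h1 : normalClosure ((A.subgroupOf H : Subgroup ↥H) : Set ↥H) ≤ K.subgroupOf H :=
      normalClosure_le_normal (fun x hx => hAK hx)
    rw [h, top_le_iff, subgroupOf_eq_top] at h1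
    exact h1
  · intro h
    have h1 : (normalClosure ((A.subgroupOf H : Subgroup ↥H) : Set ↥H)).map H.subtype = H := by
      apply h
      · intro a ha
        exact ⟨⟨a, hAH ha⟩, subset_normalClosure (mem_subgroupOf.2 ha), rfl⟩
      · exact map_subtype_le _
      · have h2 := le_normalizer_map
          (H := normalClosure ((A.subgroupOf H : Subgroup ↥H) : Set ↥H)) H.subtype
        rw [normalizer_eq_top_iff.2 normalClosure_normal, ← MonoidHom.range_eq_map,
          range_subtype] at h2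
        exact h2
    apply map_injective H.subtype_injective
    rw [h1, ← MonoidHom.range_eq_map, range_subtype]

/-- Let G be a finite group and A a proper subgroup of G whose normal closure is G. Let Y be the join of all proper subgroups H of G that contain A and are generated by their own conjugates of A (the normal closure of A in H is H). Then either Y = G, or A is contained in exactly one maximal subgroup of G. -/
theorem result {G : Type*} [Group G] [Finite G] (A : Subgroup G) (hA : Subgroup.normalClosure (A : Set G) = ⊤) (hAG : A ≠ ⊤) :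
    sSup {H : Subgroup G | A ≤ H ∧ H ≠ ⊤ ∧ Subgroup.normalClosure ((A.subgroupOf H : Subgroup ↥H) : Set ↥H) = ⊤} = ⊤ ∨
      ∃! M : Subgroup G, IsCoatom M ∧ A ≤ M := by
  have hAP : Perf A ⊤ := by
    intro K hAK _ hN
    have hn : K.Normal := Subgroup.normalizer_eq_top_iff.1 (top_le_iff.1 hN)
    have h1 : Subgroup.normalClosure (A : Set G) ≤ K := Subgroup.normalClosure_le_normal hAK
    rw [hA] at h1
    exact top_le_iff.1 h1
  have e : {H : Subgroup G | A ≤ H ∧ H ≠ ⊤ ∧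
      Subgroup.normalClosure ((A.subgroupOf H : Subgroup ↥H) : Set ↥H) = ⊤} = HH A := by
    ext H
    constructor
    · rintro ⟨h1, h2, h3⟩; exact ⟨h1, h2, (perf_iff h1).1 h3⟩
    · rintro ⟨h1, h2, h3⟩; exact ⟨h1, h2, (perf_iff h1).2 h3⟩
  rw [e]
  exact main _ A rfl hAP hAG

end Cfsg.Agent.S3947
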