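import Cfsg.Statements.S3927
import Cfsg.Agent.S3947

set_option autoImplicit false
open Cfsg

namespace Cfsg.Agent.S3927

open Subgroup

universe u

/-- commutator with a fixed element -/
def ph {Γ : Type u} [Group Γ] (a : Γ) (x : Γ) : Γ := x * a * x⁻¹ * a⁻¹

theorem coe_iter {Γ : Type u} [Group Γ] (a : Γ) (H : Subgroup Γ) (haH : a ∈ H) :
    ∀ (j : ℕ) (z : H), (((ph (⟨a, haH⟩ : H))^[j] z : H) : Γ) = (ph a)^[j] (z : Γ) := by
  intro j
  induction j with
  | zero => intro z; rfl
  | succ j ih =>
    intro z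
    rw [Function.iterate_succ_apply, Function.iterate_succ_apply, ih]
    rfl

theorem thm' : ∀ (n : ℕ) (Γ : Type u) [Group Γ] [Finite Γ], Nat.card Γ = n → ∀ (a : Γ),
    normalClosure ((zpowers a : Subgroup Γ) : Set Γ) = ⊤ → ∀ k : ℕ,
    closure ({a} ∪ Set.range ((ph a)^[k])) = ⊤ := by
  intro n
  induction n using Nat.strong_induction_on with
  | _ n ih =>
  intro Γ _ _ hn a ha k
  by_cases hAT : zpowers a = ⊤
  · rw [eq_top_iff, ← hAT, zpowers_le]
    exact subset_closure (Or.inl rfl)
  have haW : a ∈ closure ({a} ∪ Set.range ((ph a)^[k])) := subset_closure (Or.inl rfl)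
  rcases Cfsg.Agent.S3947.result (zpowers a) ha hAT with h | h
  · rw [eq_top_iff, ← h]
    apply sSup_le
    rintro H ⟨h1, h2, h3⟩
    have haH : a ∈ H := h1 (mem_zpowers a)
    have hcard : Nat.card H < n := by
      by_contra hc
      push Not at hc
      apply h2
      apply eq_of_le_of_card_ge le_top
      rw [card_top, hn]; exact hc
    have e : (zpowers a).subgroupOf H = zpowers (⟨a, haH⟩ : H) := by
      ext x
      simp [mem_subgroupOf, mem_zpowers_iff, Subtype.ext_iff]
    rw [e] at h3
    have h4 := ih _ hcard H rfl ⟨a, haH⟩ h3 k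
    intro x hx
    have h5 : (⟨x, hx⟩ : H) ∈
        closure ({(⟨a, haH⟩ : H)} ∪ Set.range ((ph (⟨a, haH⟩ : H))^[k])) := by
      rw [h4]; trivial
    have h6 : closure ({(⟨a, haH⟩ : H)} ∪ Set.range ((ph (⟨a, haH⟩ : H))^[k])) ≤
        (closure ({a} ∪ Set.range ((ph a)^[k]))).subgroupOf H := by
      rw [closure_le]
      rintro y (rfl | ⟨z, rfl⟩)
      · exact haW
      · show (((ph (⟨a, haH⟩ : H))^[k] z : H) : Γ) ∈ closure ({a} ∪ Set.range ((ph a)^[k]))
        rw [coe_iter]
        exact subset_closure (Or.inr ⟨z, rfl⟩)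
    exact h6 h5
  · obtain ⟨M, ⟨hM, hAM⟩, huniq⟩ := h
    by_contra hWT
    obtain ⟨M', hM', hWM'⟩ := (eq_top_or_exists_le_coatom _).resolve_left hWT
    have e : M' = M := huniq M' ⟨hM', (zpowers_le.2 (hWM' haW))⟩
    rw [e] at hWM'
    have haM : a ∈ M := hWM' haW
    have hnotnormal : normalizer (M : Set Γ) ≤ M := by
      by_contra hc
      have h1 : normalizer (M : Set Γ) = ⊤ :=
        hM.2 _ (lt_of_le_of_ne le_normalizer (fun e => hc e.symm.le))
      have hn : M.Normal := normalizer_eq_top_iff.1 h1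
      have h2 : normalClosure ((zpowers a : Subgroup Γ) : Set Γ) ≤ M := normalClosure_le_normal hAM
      rw [ha] at h2
      exact hM.1 (top_le_iff.1 h2)
    have step : ∀ x, ph a x ∈ M → x ∈ M := by
      intro x hx
      have h1 : x * a * x⁻¹ ∈ M := by
        have := M.mul_mem hx haM
        simpa [ph] using this
      have h2 : zpowers a ≤ S3947.cj x⁻¹ M := by
        rw [zpowers_le, S3947.mem_cj, inv_inv]; exact h1
      have h3 : S3947.cj x⁻¹ M = M := huniq _ ⟨S3947.isCoatom_cj hM, h2⟩
      have h4 : x⁻¹ ∈ M := hnotnormal (S3947.mem_normalizer_of_cj_le h3.le)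
      simpa using M.inv_mem h4
    have all : ∀ j x, (ph a)^[j] x ∈ M → x ∈ M := by
      intro j
      induction j with
      | zero => intro x hx; exact hx
      | succ j ihj =>
        intro x hx
        rw [Function.iterate_succ_apply] at hx
        exact step x (ihj _ hx)
    apply hM.1
    rw [eq_top_iff]
    intro x _
    exact all k x (hWM' (subset_closure (Or.inr ⟨x, rfl⟩)))

variable {G : Type u} [Group G] (α : MulAut G)

abbrev Gam : Type u := G ⋊[(zpowers α).subtype] (zpowers α)

def aa : Gam α := SemidirectProduct.inr ⟨α, mem_zpowers α⟩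

def ff (c : G) : G := c * (α c)⁻¹

theorem comm_apply {β : MulAut G} (hβ : β ∈ zpowers α) (c : G) : β (α c) = α (β c) := by
  obtain ⟨j, rfl⟩ := mem_zpowers_iff.1 hβ
  have := ((Commute.refl α).zpow_left j).eq
  exact DFunLike.congr_fun this c

theorem ph_eq (x : Gam α) : ph (aa α) x = SemidirectProduct.inl (ff α x.left) := by
  have hc := comm_apply α x.right.2
  apply SemidirectProduct.ext
  · simp [ph, aa, ff]
    rw [hc]; simp
  · simp [ph, aa]
    apply Subtype.ext
    have hcomm : (x.right : MulAut G) * α = α * x.right := by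
      ext c; exact hc c
    show (x.right : MulAut G) * α * (x.right : MulAut G)⁻¹ * α⁻¹ = 1
    rw [hcomm]; group

theorem iter_inl : ∀ (k : ℕ) (g : G), (ph (aa α))^[k] (SemidirectProduct.inl g) =
    SemidirectProduct.inl ((ff α)^[k] g) := by
  intro k
  induction k with
  | zero => intro g; rfl
  | succ k ih =>
    intro g
    rw [Function.iterate_succ_apply, Function.iterate_succ_apply, ph_eq, ih]
    rfl

theorem iter_succ (k : ℕ) (x : Gam α) : (ph (aa α))^[k+1] x =
    SemidirectProduct.inl ((ff α)^[k+1] x.left) := by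
  rw [Function.iterate_succ_apply, Function.iterate_succ_apply, ph_eq, iter_inl]

theorem inv_H (k : ℕ) {β : MulAut G} (hβ : β ∈ zpowers α) {h : G}
    (hh : h ∈ closure (Set.range ((ff α)^[k]))) : β h ∈ closure (Set.range ((ff α)^[k])) := by
  have hcomm : Function.Commute β (ff α) := by
    intro c
    simp only [ff, map_mul, map_inv, comm_apply α hβ]
  have h1 : closure (Set.range ((ff α)^[k])) ≤
      (closure (Set.range ((ff α)^[k]))).comap β.toMonoidHom := by
    rw [closure_le]
    rintro _ ⟨c, rfl⟩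
    show β ((ff α)^[k] c) ∈ closure (Set.range ((ff α)^[k]))
    rw [(hcomm.iterate_right k) c]
    exact subset_closure ⟨_, rfl⟩
  exact h1 hh

theorem left_mem (k : ℕ) (x : Gam α)
    (hx : x ∈ closure ({aa α} ∪ Set.range ((ph (aa α))^[k+1]))) :
    x.left ∈ closure (Set.range ((ff α)^[k+1])) := by
  induction hx using closure_induction with
  | mem x hx =>
    rcases hx with rfl | ⟨y, rfl⟩
    · exact one_mem _
    · rw [iter_succ]; exact subset_closure ⟨_, rfl⟩
  | one => exact one_mem _
  | mul x y _ _ hx hy =>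
    rw [SemidirectProduct.mul_left]
    exact mul_mem hx (inv_H α _ x.right.2 hy)
  | inv x _ hx =>
    rw [SemidirectProduct.inv_left]
    exact inv_H α _ (x.right⁻¹).2 (inv_mem hx)

theorem nc_top (hG : closure (Set.range (ff α)) = ⊤) :
    normalClosure ((zpowers (aa α) : Subgroup (Gam α)) : Set (Gam α)) = ⊤ := by
  have hNn : (normalClosure ((zpowers (aa α) : Subgroup (Gam α)) : Set (Gam α))).Normal :=
    normalClosure_normal
  obtain ⟨N, hN⟩ : ∃ N, N = normalClosure ((zpowers (aa α) : Subgroup (Gam α)) : Set (Gam α)) :=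
    ⟨_, rfl⟩
  have haN : aa α ∈ N := by rw [hN]; exact subset_normalClosure (mem_zpowers _)
  rw [← hN] at hNn ⊢
  have h1 : ∀ g : G, (SemidirectProduct.inl g : Gam α) ∈ N := by
    have h2 : closure (Set.range (ff α)) ≤ N.comap SemidirectProduct.inl := by
      rw [closure_le]
      rintro _ ⟨c, rfl⟩
      show (SemidirectProduct.inl (ff α c) : Gam α) ∈ N
      have := ph_eq α (SemidirectProduct.inl c)
      rw [SemidirectProduct.left_inl] at this
      rw [← this]
      exact N.mul_mem (hNn.conj_mem _ haN _) (N.inv_mem haN)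
    intro g
    apply h2
    rw [hG]; trivial
  have h3 : ∀ z : zpowers α, (SemidirectProduct.inr z : Gam α) ∈ N := by
    rintro ⟨z, hz⟩
    obtain ⟨j, rfl⟩ := mem_zpowers_iff.1 hz
    have : (SemidirectProduct.inr ⟨α ^ j, hz⟩ : Gam α) = (aa α) ^ j := by
      unfold aa
      rw [← map_zpow]
      congr 1
    rw [this]
    exact N.zpow_mem haN j
  rw [eq_top_iff]
  intro x _
  rw [← SemidirectProduct.inl_left_mul_inr_right x]
  exact N.mul_mem (h1 _) (h3 _)

/-- Let G be a finite group and α an automorphism of G with [G, α] = G, that is, the elements g·α(g)⁻¹ generate G. Then for every k ≥ 1 the iterated commutators [g, α, …, α] with k entries α — the values of the k-th iterate of the map c ↦ c·α(c)⁻¹ — also generate G. -/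
theorem result {G : Type*} [Group G] [Finite G] (α : MulAut G) (hG : Subgroup.closure (Set.range (fun c : G => c * (α c)⁻¹)) = ⊤) (k : ℕ) (hk : 1 ≤ k) :
    Subgroup.closure (Set.range ((fun c : G => c * (α c)⁻¹)^[k])) = ⊤ := by
  obtain ⟨k, rfl⟩ : ∃ j, k = j + 1 := ⟨k - 1, by omega⟩
  haveI : Finite (Gam α) := Finite.of_equiv _ SemidirectProduct.equivProd.symm
  have h1 := thm' _ (Gam α) rfl (aa α) (nc_top α hG) (k + 1)
  rw [eq_top_iff]
  intro g _
  have h2 := left_mem α k (SemidirectProduct.inl g) (by rw [h1]; trivial)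
  exact h2

end Cfsg.Agent.S3927
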