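import Cfsg.Statements.S3937
import Cfsg.Agent.Lib.Helper1.Fitting
import Cfsg.Agent.Lib.Helper1.Wielandt

set_option autoImplicit false
open Cfsg

namespace Cfsg.Agent.S3937

universe u

def cm {G : Type*} [Group G] (g : G) : G → G := fun y => y * g * y⁻¹ * g⁻¹

def Eng {G : Type*} [Group G] (g : G) : Prop := ∀ x : G, ∃ n : ℕ, (cm g)^[n] x = 1

def fitOf {G : Type*} [Group G] (H : Subgroup G) : Subgroup G :=
  (Cfsg.fittingSubgroup H).map H.subtype

theorem mem_normalizer_of_forall'' {G : Type*} [Group G] [Finite G] (K : Subgroup G) (g : G)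
    (h : ∀ k ∈ K, g * k * g⁻¹ ∈ K) : g ∈ Subgroup.normalizer (K : Set G) := by
  have hmap : K.map (MulAut.conj g).toMonoidHom = K := by
    apply Subgroup.eq_of_le_of_card_ge
    · rintro _ ⟨k, hk, rfl⟩
      exact h k hk
    · rw [Subgroup.card_map_of_injective (MulAut.conj g).injective]
  rw [Subgroup.mem_normalizer_iff]
  intro n
  constructor
  · exact h n
  · intro hn
    rw [← hmap] at hn
    obtain ⟨k, hk, hkn⟩ := hn
    have : k = n := by
      have h2 : g * k * g⁻¹ = g * n * g⁻¹ := hkn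
      exact mul_left_cancel (mul_right_cancel h2)
    exact this ▸ hk

theorem foldl_eq {G : Type*} [Group G] (g : G) (n : ℕ) (x : G) :
    (List.replicate n g).foldl (fun a b => a * b * a⁻¹ * b⁻¹) x = (cm g)^[n] x := by
  induction n generalizing x with
  | zero => rfl
  | succ n ih =>
    rw [List.replicate_succ, List.foldl_cons, ih, Function.iterate_succ_apply]
    rfl

theorem eng_of_mem_fitting {G : Type*} [Group G] [Finite G] (g : G)
    (hg : g ∈ Cfsg.fittingSubgroup G) : Eng g := by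
  intro x
  haveI hFn : (Cfsg.fittingSubgroup G).Normal := Lib.Helper1.fitting_normal
  haveI : Group.IsNilpotent (Cfsg.fittingSubgroup G) := Lib.Helper1.fitting_nilpotent
  obtain ⟨n, hn⟩ := Group.IsNilpotent.nilpotent (Cfsg.fittingSubgroup G)
  have key : ∀ i, ∀ y : Cfsg.fittingSubgroup G,
      y ∈ Subgroup.upperCentralSeries (Cfsg.fittingSubgroup G) i → (cm g)^[i] (y : G) = 1 := by
    intro i
    induction i with
    | zero =>
      intro y hy
      rw [Subgroup.upperCentralSeries_zero, Subgroup.mem_bot] at hy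
      simp [hy]
    | succ i ih =>
      intro y hy
      rw [Subgroup.mem_upperCentralSeries_succ_iff] at hy
      rw [Function.iterate_succ_apply]
      exact ih (y * ⟨g, hg⟩ * y⁻¹ * ⟨g, hg⟩⁻¹) (hy ⟨g, hg⟩)
  refine ⟨n + 1, ?_⟩
  rw [Function.iterate_succ_apply]
  have hc : cm g x ∈ Cfsg.fittingSubgroup G :=
    Subgroup.mul_mem _ (hFn.conj_mem g hg x) (Subgroup.inv_mem _ hg)
  exact key n ⟨cm g x, hc⟩ (hn ▸ Subgroup.mem_top _)

theorem cm_conj {G : Type*} [Group G] (g u y : G) :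
    cm (u * g * u⁻¹) (u * y * u⁻¹) = u * cm g y * u⁻¹ := by
  unfold cm; group

theorem iter_conj {G : Type*} [Group G] (g u : G) (n : ℕ) (y : G) :
    (cm (u * g * u⁻¹))^[n] (u * y * u⁻¹) = u * (cm g)^[n] y * u⁻¹ := by
  induction n generalizing y with
  | zero => rfl
  | succ n ih => rw [Function.iterate_succ_apply, Function.iterate_succ_apply, cm_conj, ih]

theorem Eng.conj {G : Type*} [Group G] {g : G} (h : Eng g) (u : G) : Eng (u * g * u⁻¹) := by
  intro x
  obtain ⟨n, hn⟩ := h (u⁻¹ * x * u)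
  refine ⟨n, ?_⟩
  have h1 := iter_conj g u n (u⁻¹ * x * u)
  rw [hn] at h1
  have e : u * (u⁻¹ * x * u) * u⁻¹ = x := by group
  rw [e] at h1
  rw [h1]; group

theorem Eng.sub {G : Type*} [Group G] {g : G} (h : Eng g) (H : Subgroup G) (hg : g ∈ H) :
    Eng (⟨g, hg⟩ : H) := by
  intro x
  obtain ⟨n, hn⟩ := h x
  refine ⟨n, Subtype.ext ?_⟩
  have h1 : ∀ n (y : H), (((cm (⟨g, hg⟩ : H))^[n] y : H) : G) = (cm g)^[n] (y : G) := by
    intro n
    induction n with
    | zero => intro y; rfl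
    | succ n ih =>
      intro y
      rw [Function.iterate_succ_apply, Function.iterate_succ_apply, ih]
      rfl
  rw [h1, hn]; rfl

theorem fitOf_le {G : Type*} [Group G] (H : Subgroup G) : fitOf H ≤ H := Subgroup.map_subtype_le _

theorem fitOf_nilpotent {G : Type*} [Group G] [Finite G] (H : Subgroup G) :
    Group.IsNilpotent (fitOf H) := by
  haveI : Group.IsNilpotent (Cfsg.fittingSubgroup H) := Lib.Helper1.fitting_nilpotent
  exact Group.nilpotent_of_mulEquiv
    ((Cfsg.fittingSubgroup H).equivMapOfInjective H.subtype H.subtype_injective)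

theorem fitOf_conj {G : Type*} [Group G] (H : Subgroup G) :
    ∀ k ∈ H, ∀ w ∈ fitOf H, k * w * k⁻¹ ∈ fitOf H := by
  rintro k hk _ ⟨w, hw, rfl⟩
  exact ⟨⟨k, hk⟩ * w * ⟨k, hk⟩⁻¹, (Lib.Helper1.fitting_normal).conj_mem w hw _, rfl⟩

theorem lemZ {G : Type*} [Group G] [Finite G] (S W K : Subgroup G) (hSW : S ≤ W) (hWK : W ≤ K)
    (hW : Group.IsNilpotent W) (hKW : ∀ k ∈ K, ∀ w ∈ W, k * w * k⁻¹ ∈ W)
    (hK : ¬ K ≤ Subgroup.normalizer (S : Set G)) :
    ∃ x ∈ K, x ∉ Subgroup.normalizer (S : Set G) ∧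
      ∀ s ∈ S, x * s * x⁻¹ ∈ Subgroup.normalizer (S : Set G) := by
  classical
  by_cases hWN : W ≤ Subgroup.normalizer (S : Set G)
  · obtain ⟨x, hxK, hxN⟩ := SetLike.not_le_iff_exists.1 hK
    exact ⟨x, hxK, hxN, fun s hs => hWN (hKW x hxK s (hSW hs))⟩
  · obtain ⟨n, hn⟩ := Group.IsNilpotent.nilpotent W
    let Pr : ℕ → Prop := fun i =>
      ¬ (Subgroup.upperCentralSeries W i).map W.subtype ≤ Subgroup.normalizer (S : Set G)
    have hex : ∃ i, Pr i := ⟨n, by
      show ¬ _
      rw [hn]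
      intro h
      apply hWN
      intro w hw
      exact h ⟨⟨w, hw⟩, Subgroup.mem_top _, rfl⟩⟩
    have hi : Pr (Nat.find hex) := Nat.find_spec hex
    have hi0 : Nat.find hex ≠ 0 := by
      intro h0
      rw [h0] at hi
      apply hi
      rw [Subgroup.upperCentralSeries_zero, Subgroup.map_bot]
      exact bot_le
    obtain ⟨j, hj⟩ := Nat.exists_eq_succ_of_ne_zero hi0
    have hjm : ¬ Pr j := Nat.find_min hex (by omega)
    have hjm' : (Subgroup.upperCentralSeries W j).map W.subtype ≤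
        Subgroup.normalizer (S : Set G) := not_not.1 hjm
    rw [hj] at hi
    obtain ⟨z, hz, hzN⟩ := SetLike.not_le_iff_exists.1 hi
    obtain ⟨z', hz', rfl⟩ := hz
    rw [SetLike.mem_coe, Nat.succ_eq_add_one, Subgroup.mem_upperCentralSeries_succ_iff] at hz'
    refine ⟨z', hWK z'.2, hzN, ?_⟩
    intro s hs
    have h1 := hz' ⟨s, hSW hs⟩
    have h2 : (z' : G) * s * (z' : G)⁻¹ * s⁻¹ ∈ Subgroup.normalizer (S : Set G) :=
      hjm' ⟨_, h1, rfl⟩
    have h3 : (z' : G) * s * (z' : G)⁻¹ = ((z' : G) * s * (z' : G)⁻¹ * s⁻¹) * s := by group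
    show (z' : G) * s * (z' : G)⁻¹ ∈ _
    rw [h3]
    exact Subgroup.mul_mem _ h2 (Subgroup.le_normalizer hs)

theorem zipper {G : Type*} [Group G] [Finite G] (D : Set G)
    (hDc : ∀ u : G, ∀ d ∈ D, u * d * u⁻¹ ∈ D)
    (hD : ∀ d ∈ D, ∀ H : Subgroup G, H ≠ ⊤ → d ∈ H → d ∈ fitOf H) :
    ∀ S : Subgroup G, (∃ B : Set G, B ⊆ D ∧ S = Subgroup.closure B) → S ≠ ⊤ →
      ¬ S ≤ Cfsg.fittingSubgroup G →
      ∃ M : Subgroup G, M ≠ ⊤ ∧ ∀ H : Subgroup G, H ≠ ⊤ → S ≤ H → H ≤ M := by
  intro S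
  induction S using WellFoundedGT.induction with
  | ind S ih =>
  rintro ⟨B, hBD, hSB⟩ hStop hSF
  have hBS : ∀ b ∈ B, b ∈ S := fun b hb => hSB ▸ Subgroup.subset_closure hb
  have hgen : ∀ H : Subgroup G, H ≠ ⊤ → S ≤ H → S ≤ fitOf H := by
    intro H hH hSH
    conv_lhs => rw [hSB]
    rw [Subgroup.closure_le]
    intro b hb
    exact hD b (hBD hb) H hH (hSH (hBS b hb))
  have hSnil : Group.IsNilpotent S :=
    Lib.Helper1.isNilpotent_of_le' (hgen S hStop le_rfl) (fitOf_nilpotent S)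
  have hNtop : Subgroup.normalizer (S : Set G) ≠ ⊤ := by
    intro h
    exact hSF (Lib.Helper1.le_fitting (Subgroup.normalizer_eq_top_iff.1 h) hSnil)
  obtain ⟨M₀, hM₀, hNM₀⟩ := (eq_top_or_exists_le_coatom _).resolve_left hNtop
  refine ⟨M₀, hM₀.1, ?_⟩
  intro H hH hSH
  obtain ⟨K, hK, hHK⟩ := (eq_top_or_exists_le_coatom H).resolve_left hH
  suffices hKM : K = M₀ from hKM ▸ hHK
  have hSK := hSH.trans hHK
  by_cases hKN : K ≤ Subgroup.normalizer (S : Set G)
  · exact ((hK.le_iff.1 (hKN.trans hNM₀)).resolve_left hM₀.1).symm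
  · obtain ⟨x, hxK, hxN, hxS⟩ := lemZ S (fitOf K) K (hgen K hK.1 hSK) (fitOf_le K)
      (fitOf_nilpotent K) (fitOf_conj K) hKN
    set T := Subgroup.closure (B ∪ (fun b => x * b * x⁻¹) '' B) with hT
    have hST : S ≤ T := by
      conv_lhs => rw [hSB]
      exact Subgroup.closure_mono Set.subset_union_left
    have hne : ∃ b ∈ B, x * b * x⁻¹ ∉ S := by
      by_contra hcon
      push Not at hcon
      apply hxN
      apply mem_normalizer_of_forall''
      have h1 : S ≤ S.comap (MulAut.conj x).toMonoidHom := by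
        conv_lhs => rw [hSB]
        rw [Subgroup.closure_le]
        intro b hb
        exact hcon b hb
      intro s hs
      exact h1 hs
    obtain ⟨b, hb, hbS⟩ := hne
    have hlt : S < T := lt_of_le_of_ne hST
      (fun h => hbS (h ▸ Subgroup.subset_closure (Or.inr ⟨b, hb, rfl⟩)))
    have hTN : T ≤ Subgroup.normalizer (S : Set G) := by
      rw [hT, Subgroup.closure_le]
      rintro y (hy | ⟨b', hb', rfl⟩)
      · exact Subgroup.le_normalizer (hBS y hy)
      · exact hxS b' (hBS b' hb')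
    have hTK : T ≤ K := by
      rw [hT, Subgroup.closure_le]
      rintro y (hy | ⟨b', hb', rfl⟩)
      · exact hSK (hBS y hy)
      · exact K.mul_mem (K.mul_mem hxK (hSK (hBS b' hb'))) (K.inv_mem hxK)
    have hTM₀ := hTN.trans hNM₀
    obtain ⟨M₁, hM₁, hall⟩ := ih T hlt ⟨_, (by
      rintro y (hy | ⟨b', hb', rfl⟩)
      · exact hBD hy
      · exact hDc x b' (hBD hb')), rfl⟩ (ne_top_of_le_ne_top hK.1 hTK)
      (fun h => hSF (hST.trans h))
    have h1 := hall K hK.1 hTK
    have h2 := hall M₀ hM₀.1 hTM₀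
    have e1 : M₁ = K := (hK.le_iff.1 h1).resolve_left hM₁
    have e2 : M₁ = M₀ := (hM₀.le_iff.1 h2).resolve_left hM₁
    rw [← e1, e2]

theorem main (n : ℕ) : ∀ (G : Type u) [Group G] [Finite G], Nat.card G = n → ∀ g : G, Eng g →
    g ∈ Cfsg.fittingSubgroup G := by
  induction n using Nat.strong_induction_on with
  | _ n ih =>
  intro G _ _ hcard g hg
  by_contra hgF
  let D : Set G := {d | ∃ u, d = u * g * u⁻¹}
  have hDc : ∀ u : G, ∀ d ∈ D, u * d * u⁻¹ ∈ D := by
    rintro u _ ⟨v, rfl⟩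
    exact ⟨u * v, by group⟩
  have hD : ∀ d ∈ D, ∀ H : Subgroup G, H ≠ ⊤ → d ∈ H → d ∈ fitOf H := by
    rintro _ ⟨u, rfl⟩ H hH hd
    have hlt : Nat.card H < n := by
      rw [← hcard, ← Subgroup.card_top (G := G)]
      exact Lib.Helper1.card_lt_of_lt (lt_top_iff_ne_top.2 hH)
    exact ⟨⟨_, hd⟩, ih _ hlt H rfl _ ((hg.conj u).sub H hd), rfl⟩
  have hgD : g ∈ D := ⟨1, by simp⟩
  set S := Subgroup.zpowers g with hS
  have hSB : S = Subgroup.closure {g} := Subgroup.zpowers_eq_closure g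
  have hSnil : Group.IsNilpotent S := by
    letI := IsCyclic.commGroup (α := S)
    infer_instance
  have hStop : S ≠ ⊤ := by
    intro h
    apply hgF
    have hSn : S.Normal := h ▸ inferInstance
    exact Lib.Helper1.le_fitting hSn hSnil (Subgroup.mem_zpowers g)
  have hSF : ¬ S ≤ Cfsg.fittingSubgroup G := fun h => hgF (h (Subgroup.mem_zpowers g))
  obtain ⟨M, hM, hall⟩ := zipper D hDc hD S
    ⟨{g}, Set.singleton_subset_iff.2 hgD, hSB⟩ hStop hSF
  have hSM : S ≤ M := hall S hStop le_rfl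
  have hgM : g ∈ M := hSM (Subgroup.mem_zpowers g)
  have hex : ∃ x, x * g * x⁻¹ ∉ M := by
    by_contra hcon
    push Not at hcon
    set N := Subgroup.closure D with hN
    have hNM : N ≤ M := (Subgroup.closure_le _).2 (by rintro _ ⟨u, rfl⟩; exact hcon u)
    have hNtop : N ≠ ⊤ := ne_top_of_le_ne_top hM hNM
    have hNn : N.Normal := by
      constructor
      intro z hz u
      have h1 : N ≤ N.comap (MulAut.conj u).toMonoidHom := by
        conv_lhs => rw [hN]
        rw [Subgroup.closure_le]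
        intro d hd
        exact Subgroup.subset_closure (hDc u d hd)
      exact h1 hz
    have hNfit : N ≤ fitOf N :=
      (Subgroup.closure_le _).2 (fun d hd => hD d hd N hNtop (Subgroup.subset_closure hd))
    have hNnil : Group.IsNilpotent N := Lib.Helper1.isNilpotent_of_le' hNfit (fitOf_nilpotent N)
    exact hgF (Lib.Helper1.le_fitting hNn hNnil (Subgroup.subset_closure hgD))
  obtain ⟨x, hx⟩ := hex
  obtain ⟨m, hm⟩ := hg x
  have hx0 : x ∉ M := fun h => hx (M.mul_mem (M.mul_mem h hgM) (M.inv_mem h))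
  have hk : ∃ k, (cm g)^[k] x ∉ M ∧ (cm g)^[k + 1] x ∈ M := by
    by_contra hcon
    push Not at hcon
    have h1 : ∀ k, (cm g)^[k] x ∉ M := by
      intro k
      induction k with
      | zero => exact hx0
      | succ k ihk => exact hcon k ihk
    exact h1 m (hm ▸ M.one_mem)
  obtain ⟨k, hk1, hk2⟩ := hk
  set y := (cm g)^[k] x with hy
  rw [Function.iterate_succ_apply', ← hy] at hk2
  have hyg : y * g * y⁻¹ ∈ M := by
    have h1 : y * g * y⁻¹ = cm g y * g := by unfold cm; group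
    rw [h1]; exact M.mul_mem hk2 hgM
  let H := M.comap (MulAut.conj y).toMonoidHom
  have hHmem : ∀ z, z ∈ H ↔ y * z * y⁻¹ ∈ M := fun z => Iff.rfl
  have hHtop : H ≠ ⊤ := by
    intro h
    apply hM
    rw [eq_top_iff]
    intro z _
    have h1 : y⁻¹ * z * y ∈ H := h ▸ Subgroup.mem_top _
    rw [hHmem] at h1
    have h2 : y * (y⁻¹ * z * y) * y⁻¹ = z := by group
    rwa [h2] at h1
  have hSH : S ≤ H := by
    rw [hS, Subgroup.zpowers_le]; exact hyg
  have hHM : H ≤ M := hall H hHtop hSH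
  have hyN : y⁻¹ ∈ Subgroup.normalizer (M : Set G) := by
    apply mem_normalizer_of_forall''
    intro z hz
    apply hHM
    rw [hHmem]
    have h2 : y * (y⁻¹ * z * y⁻¹⁻¹) * y⁻¹ = z := by group
    rwa [h2]
  have hNM : Subgroup.normalizer (M : Set G) ≠ ⊤ := by
    intro h
    have h1 : x ∈ Subgroup.normalizer (M : Set G) := h ▸ Subgroup.mem_top _
    exact hx ((Subgroup.mem_normalizer_iff.1 h1 g).1 hgM)
  have hNle : Subgroup.normalizer (M : Set G) ≤ M := hall _ hNM (hSM.trans Subgroup.le_normalizer)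
  exact hk1 (by simpa using M.inv_mem (hNle hyN))

/-- Baer's characterization of the Fitting subgroup: in a finite group G, an element g lies in the Fitting subgroup if and only if g is a left Engel element, that is, for every x there is n with [x, g, g, …, g] = 1 (n entries g, [a, b] = aba⁻¹b⁻¹). -/
theorem result {G : Type*} [Group G] [Finite G] (g : G) :
    g ∈ Cfsg.fittingSubgroup G ↔ ∀ x : G, ∃ n : ℕ, (List.replicate n g).foldl (fun a b => a * b * a⁻¹ * b⁻¹) x = 1 := by
  constructor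
  · intro h x
    obtain ⟨n, hn⟩ := eng_of_mem_fitting g h x
    exact ⟨n, by rw [foldl_eq]; exact hn⟩
  · intro h
    apply main _ G rfl g
    intro x
    obtain ⟨n, hn⟩ := h x
    exact ⟨n, by rw [← foldl_eq]; exact hn⟩

end Cfsg.Agent.S3937
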