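import Cfsg.Statements.S3939
import Cfsg.Agent.Lib.Helper22.PIndex
import Cfsg.Agent.Lib.Helper2.GrpNil
import Cfsg.Agent.Lib.Helper1.Wielandt

set_option autoImplicit false
open Cfsg

namespace Cfsg.Agent.S3939

universe u

theorem ucs_subgroupOf_le {G : Type*} [Group G] (K : Subgroup G) (n : ℕ) :
    (Subgroup.upperCentralSeries G n).subgroupOf K ≤ Subgroup.upperCentralSeries K n := by
  induction n with
  | zero =>
    intro y hy
    rw [Subgroup.mem_subgroupOf, Subgroup.upperCentralSeries_zero, Subgroup.mem_bot] at hy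
    rw [Subgroup.upperCentralSeries_zero, Subgroup.mem_bot]
    exact Subtype.ext hy
  | succ n ih =>
    intro y hy
    rw [Subgroup.mem_subgroupOf, Subgroup.mem_upperCentralSeries_succ_iff] at hy
    rw [Subgroup.mem_upperCentralSeries_succ_iff]
    intro k
    apply ih
    rw [Subgroup.mem_subgroupOf]
    exact hy k

theorem nilp_closure_of_mem_ucs {G : Type*} [Group G] (n : ℕ) (g x : G)
    (hg : g ∈ Subgroup.upperCentralSeries G n) :
    Group.IsNilpotent (Subgroup.closure ({x, g} : Set G)) := by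
  set K := Subgroup.closure ({x, g} : Set G) with hK
  have hxK : x ∈ K := Subgroup.subset_closure (by simp)
  have hgK : g ∈ K := Subgroup.subset_closure (by simp)
  have hgZ : (⟨g, hgK⟩ : K) ∈ Subgroup.upperCentralSeries K n :=
    ucs_subgroupOf_le K n (by rw [Subgroup.mem_subgroupOf]; exact hg)
  let f := QuotientGroup.mk' (Subgroup.upperCentralSeries K n)
  let T : Subgroup K := (Subgroup.zpowers (f ⟨x, hxK⟩)).comap f
  have hKT : K ≤ T.map K.subtype := by
    refine (Subgroup.closure_le _).2 ?_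
    intro y hy
    rcases hy with rfl | hy
    · exact ⟨⟨y, hxK⟩, Subgroup.mem_zpowers _, rfl⟩
    · rw [Set.mem_singleton_iff] at hy
      subst hy
      refine ⟨⟨y, hgK⟩, ?_, rfl⟩
      show f ⟨y, hgK⟩ ∈ Subgroup.zpowers (f ⟨x, hxK⟩)
      have : f ⟨y, hgK⟩ = 1 := (QuotientGroup.eq_one_iff _).2 hgZ
      rw [this]
      exact Subgroup.one_mem _
  have hall : ∀ y : K, ∃ i : ℤ, (f ⟨x, hxK⟩) ^ i = f y := by
    intro y
    obtain ⟨t, ht, hty⟩ := hKT y.2
    have : t = y := Subtype.ext hty
    subst this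
    exact Subgroup.mem_zpowers_iff.1 ht
  refine ⟨⟨n + 1, ?_⟩⟩
  rw [eq_top_iff]
  intro y _
  rw [Subgroup.mem_upperCentralSeries_succ_iff]
  intro k
  obtain ⟨i, hi⟩ := hall y
  obtain ⟨j, hj⟩ := hall k
  apply (QuotientGroup.eq_one_iff _).1
  show f (y * k * y⁻¹ * k⁻¹) = 1
  rw [map_mul, map_mul, map_mul, map_inv, map_inv, ← hi, ← hj]
  have hc : Commute ((f ⟨x, hxK⟩) ^ i) ((f ⟨x, hxK⟩) ^ j) := Commute.zpow_zpow_self _ _ _
  rw [hc.eq]
  group

theorem index_centralizer_pow {G : Type*} [Group G] [Finite G] {p : ℕ} [Fact p.Prime] (z : G)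
    (hz : ∀ x : G, (orderOf x).Coprime p → x * z = z * x) :
    ∃ a, (Subgroup.centralizer ({z} : Set G)).index = p ^ a := by
  have hp : p.Prime := Fact.out
  refine ⟨_, Nat.eq_prime_pow_of_unique_prime_dvd Subgroup.index_ne_zero_of_finite ?_⟩
  intro q hq hqd
  by_contra hne
  haveI : Fact q.Prime := ⟨hq⟩
  obtain ⟨Q⟩ : Nonempty (Sylow q G) := inferInstance
  have hQ : (Q : Subgroup G) ≤ Subgroup.centralizer ({z} : Set G) := by
    intro x hx
    rw [Subgroup.mem_centralizer_singleton_iff]
    obtain ⟨k, hk⟩ := (IsPGroup.iff_orderOf.1 Q.2) ⟨x, hx⟩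
    have h1 : orderOf x = q ^ k := by rw [← hk]; exact (Subgroup.orderOf_mk x hx).symm
    exact hz x (by rw [h1]; exact Nat.Coprime.pow_left _ ((Nat.coprime_primes hq hp).2 hne))
  exact Q.not_dvd_index (hqd.trans (Subgroup.index_dvd_of_le hQ))

theorem eq_one_of_center_bot {G : Type*} [Group G] [Finite G] (hZ : Subgroup.center G = ⊥) (g : G)
    (hg : ∀ x : G, Group.IsNilpotent ↥(Subgroup.closure ({x, g} : Set G))) : g = 1 := by
  classical
  by_contra hg1
  have ho : orderOf g ≠ 1 := fun h => hg1 (orderOf_eq_one_iff.1 h)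
  obtain ⟨p, hp, hpd⟩ := Nat.exists_prime_and_dvd ho
  haveI : Fact p.Prime := ⟨hp⟩
  set y := g ^ (orderOf g / p) with hy
  have hyo : orderOf y = p := orderOf_pow_orderOf_div (orderOf_pos g).ne' hpd
  have hy1 : y ≠ 1 := by
    intro h
    rw [h, orderOf_one] at hyo
    exact hp.one_lt.ne hyo
  have hyn : ∀ x : G, Group.IsNilpotent ↥(Subgroup.closure ({x, y} : Set G)) := by
    intro x
    refine Lib.Helper1.isNilpotent_of_le' ?_ (hg x)
    rw [Subgroup.closure_le]
    intro w hw
    rcases hw with rfl | hw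
    · exact Subgroup.subset_closure (by simp)
    · rw [Set.mem_singleton_iff] at hw
      subst hw
      exact Subgroup.pow_mem _ (Subgroup.subset_closure (by simp)) _
  -- p'-elements commute with y
  have hcomm : ∀ x : G, (orderOf x).Coprime p → x * y = y * x := by
    intro x hx
    haveI := hyn x
    have hxK : x ∈ Subgroup.closure ({x, y} : Set G) := Subgroup.subset_closure (by simp)
    have hyK : y ∈ Subgroup.closure ({x, y} : Set G) := Subgroup.subset_closure (by simp)
    have h1 : Commute (⟨x, hxK⟩ : Subgroup.closure ({x, y} : Set G)) ⟨y, hyK⟩ := by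
      apply Lib.Helper2.commute_of_coprime_of_isNilpotent
      rw [Subgroup.orderOf_mk, Subgroup.orderOf_mk, hyo]
      exact hx
    exact congrArg Subtype.val h1.eq
  -- the set of p'-elements and its centralizer
  let E : Set G := {x | (orderOf x).Coprime p}
  have hEconj : ∀ c x : G, x ∈ E → c * x * c⁻¹ ∈ E := by
    intro c x hx
    show (orderOf (c * x * c⁻¹)).Coprime p
    have : orderOf (c * x * c⁻¹) = orderOf x := by
      have := (MulAut.conj c).orderOf_eq x
      simpa [MulAut.conj_apply] using this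
    rw [this]; exact hx
  have hCn : (Subgroup.centralizer E).Normal := by
    constructor
    intro n hn c
    rw [Subgroup.mem_centralizer_iff] at hn ⊢
    intro x hx
    have h1 := hn (c⁻¹ * x * c) (by simpa using hEconj c⁻¹ x hx)
    calc x * (c * n * c⁻¹) = c * ((c⁻¹ * x * c) * n) * c⁻¹ := by group
      _ = c * (n * (c⁻¹ * x * c)) * c⁻¹ := by rw [h1]
      _ = c * n * c⁻¹ * x := by group
  have hzp : IsPGroup p (Subgroup.zpowers y) :=
    IsPGroup.of_card (n := 1) (by rw [Nat.card_zpowers, hyo, pow_one])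
  obtain ⟨S, hS⟩ := hzp.exists_le_sylow
  have hyS : y ∈ S := hS (Subgroup.mem_zpowers y)
  obtain ⟨a, ha⟩ := index_centralizer_pow (p := p) y hcomm
  have hycore : y ∈ (S : Subgroup G).normalCore := fun c =>
    Lib.Helper22.conj_mem_sylow_of_index_pow S y hyS a ha c
  set N₁ : Subgroup G := (S : Subgroup G).normalCore ⊓ Subgroup.centralizer E with hN₁
  have hN₁n : N₁.Normal := inferInstance
  have hyN₁ : y ∈ N₁ := by
    rw [hN₁, Subgroup.mem_inf]
    refine ⟨hycore, ?_⟩
    rw [Subgroup.mem_centralizer_iff]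
    intro x hx
    exact hcomm x hx
  have hfin : {Y : Subgroup G | Y.Normal ∧ Y ≤ N₁ ∧ Y ≠ ⊥}.Finite := Set.toFinite _
  obtain ⟨Z, hZm⟩ := hfin.exists_minimal ⟨N₁, hN₁n, le_rfl, fun h => hy1 (by
    rw [h, Subgroup.mem_bot] at hyN₁; exact hyN₁)⟩
  obtain ⟨hZn, hZN, hZb⟩ := hZm.prop
  obtain ⟨z, hzZ, hz1⟩ := (Z.bot_or_exists_ne_one).resolve_left hZb
  have hzc : ∀ x : G, (orderOf x).Coprime p → x * z = z * x := by
    intro x hx
    have h1 := (Subgroup.mem_inf.1 (hZN hzZ)).2
    rw [Subgroup.mem_centralizer_iff] at h1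
    exact h1 x hx
  obtain ⟨b, hb⟩ := index_centralizer_pow (p := p) z hzc
  have hZS : Z ≤ S := fun w hw => Subgroup.normalCore_le _ (Subgroup.mem_inf.1 (hZN hw)).1
  have hcen := Lib.Helper22.le_center_of_minimal_of_index_pow S Z hZS
    (fun Y hYn hYZ hYb => le_antisymm hYZ (hZm.le_of_le ⟨hYn, hYZ.trans hZN, hYb⟩ hYZ))
    z hzZ hz1 b hb
  rw [hZ] at hcen
  exact hz1 (by simpa using hcen hzZ)

theorem exists_mem_ucs (m : ℕ) : ∀ (G : Type u) [Group G] [Finite G], Nat.card G = m → ∀ g : G,
    (∀ x : G, Group.IsNilpotent ↥(Subgroup.closure ({x, g} : Set G))) →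
    ∃ n, g ∈ Subgroup.upperCentralSeries G n := by
  induction m using Nat.strong_induction_on with
  | _ m ih =>
  intro G _ _ hcard g hg
  by_cases hZ : Subgroup.center G = ⊥
  · exact ⟨0, by rw [eq_one_of_center_bot hZ g hg]; exact Subgroup.one_mem _⟩
  · have hlt : Nat.card (G ⧸ Subgroup.center G) < m := by
      have h1 := Subgroup.card_mul_index (Subgroup.center G)
      have h2 : 1 < Nat.card (Subgroup.center G) := by
        rw [Subgroup.one_lt_card_iff_ne_bot]; exact hZ
      have h3 : 0 < (Subgroup.center G).index :=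
        Nat.pos_of_ne_zero Subgroup.index_ne_zero_of_finite
      show (Subgroup.center G).index < m
      rw [← hcard, ← h1]
      nlinarith
    obtain ⟨n, hn⟩ := ih _ hlt (G ⧸ Subgroup.center G) rfl (g : G ⧸ Subgroup.center G) (by
      intro x
      induction x using QuotientGroup.induction_on with
      | H x =>
        have h1 : ({(x : G ⧸ Subgroup.center G), (g : G ⧸ Subgroup.center G)} : Set _) =
            (QuotientGroup.mk' (Subgroup.center G)) '' {x, g} := by
          rw [Set.image_pair]; rfl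
        rw [h1, ← MonoidHom.map_closure]
        haveI := hg x
        exact Group.nilpotent_of_surjective
          ((QuotientGroup.mk' (Subgroup.center G)).subgroupMap _)
          (MonoidHom.subgroupMap_surjective _ _))
    refine ⟨n + 1, ?_⟩
    rw [← Subgroup.comap_upperCentralSeries_quotient_center]
    exact hn

/-- In a finite group G the set of elements g such that the subgroup generated by g and x is nilpotent for every x ∈ G is exactly the hypercenter of G (the last term of the upper central series). -/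
theorem result {G : Type*} [Group G] [Finite G] (g : G) :
    (∀ x : G, Group.IsNilpotent ↥(Subgroup.closure ({x, g} : Set G))) ↔ g ∈ ⨆ n : ℕ, Subgroup.upperCentralSeries G n := by
  constructor
  · intro h
    obtain ⟨n, hn⟩ := exists_mem_ucs _ G rfl g h
    exact Subgroup.mem_iSup_of_mem n hn
  · intro h x
    rw [Subgroup.mem_iSup_of_directed (Subgroup.upperCentralSeries_mono G).directed_le] at h
    obtain ⟨n, hn⟩ := h
    exact nilp_closure_of_mem_ucs n g x hn

end Cfsg.Agent.S3939
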