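import Cfsg.Statements.S3941
import Mathlib

set_option autoImplicit false
open Cfsg

namespace Cfsg.Agent.S3941

theorem exists_emb (m : ℕ) : ∃ φ : ↥(alternatingGroup (Fin m)) →* ↥(alternatingGroup (Fin (m + 1))),
    Function.Injective φ := by
  classical
  let f : Fin m ≃ {x : Fin (m + 1) // x ≠ Fin.last m} := (finSuccAboveEquiv (Fin.last m))
  refine ⟨((Equiv.Perm.extendDomainHom f).comp (alternatingGroup (Fin m)).subtype).codRestrict
    (alternatingGroup (Fin (m + 1))) (fun x => ?_), ?_⟩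
  · rw [Equiv.Perm.mem_alternatingGroup]
    simp only [MonoidHom.comp_apply, Subgroup.coe_subtype, Equiv.Perm.extendDomainHom_apply,
      Equiv.Perm.sign_extendDomain]
    exact x.2
  · intro a b hab
    have h1 := congrArg Subtype.val hab
    simp only [MonoidHom.codRestrict_apply, MonoidHom.comp_apply, Subgroup.coe_subtype] at h1
    exact Subtype.ext (Equiv.Perm.extendDomainHom_injective f h1)

theorem a4_aux : ∀ x : Equiv.Perm (Fin 4), x ^ 3 = 1 → x ≠ 1 →
    ∃ g : Equiv.Perm (Fin 4), Equiv.Perm.sign g = 1 ∧ (x⁻¹ * (g * x * g⁻¹)) ^ 2 = 1 ∧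
      x⁻¹ * (g * x * g⁻¹) ≠ 1 := by
  decide +kernel


/-- Let n ≥ 5 and p an odd prime with p ≤ n, and suppose that every proper subgroup of the alternating group of degree n whose order is divisible by p has a normal Sylow p-subgroup. Then n = p. -/
theorem result (n p : ℕ) (hn : 5 ≤ n) [Fact p.Prime] (hp : p ≠ 2) (hpn : p ≤ n)
    (h : ∀ H : Subgroup ↥(alternatingGroup (Fin n)), H ≠ ⊤ → p ∣ Nat.card ↥H → Cfsg.IsPClosed p ↥H) : n = p := by
  by_contra hne
  obtain ⟨m, rfl⟩ : ∃ m, n = m + 1 := ⟨n - 1, by omega⟩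
  have hpm : p ≤ m := by omega
  have hm4 : 4 ≤ m := by omega
  have hpp : p.Prime := Fact.out
  obtain ⟨φ, hφ⟩ := exists_emb m
  haveI : Nontrivial (Fin m) := Fin.nontrivial_iff_two_le.mpr (by omega)
  haveI : Nontrivial (Fin (m + 1)) := Fin.nontrivial_iff_two_le.mpr (by omega)
  have hc1 : 2 * Nat.card ↥(alternatingGroup (Fin m)) = m.factorial := by
    rw [two_mul_nat_card_alternatingGroup, Nat.card_eq_fintype_card, Fintype.card_perm,
      Fintype.card_fin]
  have hc2 : 2 * Nat.card ↥(alternatingGroup (Fin (m + 1))) = (m + 1).factorial := by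
    rw [two_mul_nat_card_alternatingGroup, Nat.card_eq_fintype_card, Fintype.card_perm,
      Fintype.card_fin]
  have hcr : Nat.card ↥φ.range = Nat.card ↥(alternatingGroup (Fin m)) :=
    (Nat.card_congr (MonoidHom.ofInjective hφ).toEquiv).symm
  have hne_top : φ.range ≠ ⊤ := by
    intro ht
    have h1 : Nat.card ↥φ.range = Nat.card ↥(alternatingGroup (Fin (m + 1))) := by
      rw [ht, Subgroup.card_top]
    rw [hcr] at h1
    rw [← h1, hc1, Nat.factorial_succ] at hc2
    have := Nat.factorial_pos m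
    nlinarith
  have hpd : p ∣ Nat.card ↥(alternatingGroup (Fin m)) := by
    have h1 : p ∣ 2 * Nat.card ↥(alternatingGroup (Fin m)) := by
      rw [hc1]; exact (Nat.Prime.dvd_factorial hpp).mpr hpm
    exact (Nat.Coprime.dvd_mul_left ((Nat.coprime_primes hpp Nat.prime_two).mpr hp)).mp h1
  have hcl := h φ.range hne_top (by rw [hcr]; exact hpd)
  obtain ⟨Q⟩ : Nonempty (Sylow p ↥φ.range) := inferInstance
  haveI hQn : (Q : Subgroup ↥φ.range).Normal := hcl Q
  have hQne : (Q : Subgroup ↥φ.range) ≠ ⊥ := Q.ne_bot_of_dvd_card (by rw [hcr]; exact hpd)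
  -- pull back
  have hNn : ((Q : Subgroup ↥φ.range).comap φ.rangeRestrict).Normal := inferInstance
  have hNp : IsPGroup p ↥((Q : Subgroup ↥φ.range).comap φ.rangeRestrict) :=
    Q.2.comap_of_injective _ (by
      intro a b hab
      exact hφ (congrArg Subtype.val hab))
  have hNne : (Q : Subgroup ↥φ.range).comap φ.rangeRestrict ≠ ⊥ := by
    intro hb
    apply hQne
    rw [← Subgroup.map_comap_eq_self_of_surjective φ.rangeRestrict_surjective (Q : Subgroup ↥φ.range),
      hb, Subgroup.map_bot]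
  generalize (Q : Subgroup ↥φ.range).comap φ.rangeRestrict = N at hNn hNp hNne
  rcases Nat.lt_or_ge m 5 with hm5 | hm5
  · obtain rfl : m = 4 := by omega
    obtain rfl : p = 3 := by
      interval_cases p
      · exact absurd hpp (by norm_num)
      · exact absurd hpp (by norm_num)
      · exact absurd rfl hp
      · rfl
      · exact absurd hpp (by norm_num)
    obtain ⟨x, hxN, hx1⟩ : ∃ x ∈ N, x ≠ 1 := by
      by_contra hcon
      push Not at hcon
      exact hNne ((Subgroup.eq_bot_iff_forall _).mpr hcon)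
    have hcard : Nat.card ↥(alternatingGroup (Fin 4)) = 12 := by
      have : (4 : ℕ).factorial = 24 := by decide
      omega
    -- elements of `N` have order a power of 3 dividing 12
    have hord : ∀ y ∈ N, y ^ 3 = 1 := by
      intro y hy
      obtain ⟨k, hk⟩ := hNp ⟨y, hy⟩
      have hk' : y ^ 3 ^ k = 1 := by
        have := congrArg Subtype.val hk
        rwa [Subgroup.coe_pow, Subgroup.coe_one] at this
      have h12 : y ^ 12 = 1 := by
        rw [← hcard]; exact pow_card_eq_one'
      have h3 := pow_gcd_eq_one.mpr ⟨hk', h12⟩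
      have hg : Nat.gcd (3 ^ k) 12 ∣ 3 := by
        have e : (12 : ℕ) = 3 * 4 := by norm_num
        have hc : Nat.Coprime (3 ^ k) 4 := Nat.Coprime.pow_left _ (by decide)
        rw [e, Nat.Coprime.gcd_mul_right_cancel_right _ hc.symm]
        exact Nat.gcd_dvd_right _ _
      exact (orderOf_dvd_iff_pow_eq_one.mp ((orderOf_dvd_iff_pow_eq_one.mpr h3).trans hg))
    obtain ⟨g, hg, h2, hn1⟩ := a4_aux x.1 (by
      have := congrArg Subtype.val (hord x hxN)
      rwa [Subgroup.coe_pow, Subgroup.coe_one] at this) (fun hh => hx1 (Subtype.ext hh))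
    have hyN : x⁻¹ * ((⟨g, hg⟩ : ↥(alternatingGroup (Fin 4))) * x * (⟨g, hg⟩)⁻¹) ∈ N :=
      N.mul_mem (N.inv_mem hxN) (hNn.conj_mem x hxN _)
    have h3 := congrArg Subtype.val (hord _ hyN)
    rw [Subgroup.coe_pow, Subgroup.coe_one] at h3
    change (x.1⁻¹ * (g * x.1 * g⁻¹)) ^ 3 = 1 at h3
    apply hn1
    calc x.1⁻¹ * (g * x.1 * g⁻¹) = (x.1⁻¹ * (g * x.1 * g⁻¹)) ^ 3 * ((x.1⁻¹ * (g * x.1 * g⁻¹)) ^ 2)⁻¹ := by
          group
      _ = 1 := by rw [h3, h2]; simp
  · haveI := alternatingGroup.isSimpleGroup (α := Fin m) (by simpa using hm5)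
    rcases hNn.eq_bot_or_eq_top with hb | ht
    · exact hNne hb
    · obtain ⟨k, hk⟩ := IsPGroup.iff_card.mp hNp
      rw [ht, Subgroup.card_top] at hk
      have h4 : 4 ∣ m.factorial := by
        have : (4 : ℕ).factorial ∣ m.factorial := Nat.factorial_dvd_factorial hm4
        exact (by decide : 4 ∣ (4 : ℕ).factorial).trans this
      rw [← hc1, hk] at h4
      have h2 : 2 ∣ p ^ k := by
        obtain ⟨c, hc⟩ := h4
        exact ⟨c, by omega⟩
      have := (Nat.prime_dvd_prime_iff_eq Nat.prime_two hpp).mp (Nat.prime_two.dvd_of_dvd_pow h2)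
      exact hp this.symm

end Cfsg.Agent.S3941
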