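import Cfsg.Statements.S3949
-- import your own Cfsg.Agent.* helpers here
import Mathlib

set_option autoImplicit false
open Cfsg

namespace Cfsg.Agent.S3949

/-- Let G be a finite group and α an automorphism of G of order 2 such that the elements g·α(g)⁻¹ generate G. Let j be a positive integer such that 2^j divides the order of no element inverted by α. Then the set of values of the j-th iterate of the map c ↦ c·α(c)⁻¹ is exactly the set of elements of odd order inverted by α. -/
theorem result {G : Type*} [Group G] [Finite G] (α : MulAut G) (hα : orderOf α = 2) (hG : Subgroup.closure (Set.range (fun c : G => c * (α c)⁻¹)) = ⊤)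
    (j : ℕ) (hj : ∀ g : G, α g = g⁻¹ → ¬ 2 ^ j ∣ orderOf g) :
    Set.range ((fun c : G => c * (α c)⁻¹)^[j]) = {g : G | Odd (orderOf g) ∧ α g = g⁻¹} := by
  have hα2 : ∀ g : G, α (α g) = g := by
    intro g
    have : α ^ 2 = 1 := by rw [← hα, pow_orderOf_eq_one]
    have h2 := congrArg (fun f : MulAut G => f g) this
    simpa [sq] using h2
  have hf : ∀ c : G, α (c * (α c)⁻¹) = (c * (α c)⁻¹)⁻¹ := by
    intro c
    rw [map_mul, map_inv, hα2]; group
  have hit : ∀ (k : ℕ) (h : G), α h = h⁻¹ → (fun c : G => c * (α c)⁻¹)^[k] h = h ^ 2 ^ k := by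
    intro k
    induction k with
    | zero => intro h _; simp
    | succ k ih =>
      intro h hh
      rw [Function.iterate_succ_apply]
      have e1 : h * (α h)⁻¹ = h ^ 2 := by rw [hh, inv_inv, sq]
      have e2 : α (h ^ 2) = (h ^ 2)⁻¹ := by rw [map_pow, hh, inv_pow]
      simp only [e1]
      rw [ih _ e2, ← pow_mul, pow_succ']
  have hj0 : j ≠ 0 := by
    rintro rfl
    exact hj 1 (by simp) (by simp)
  obtain ⟨j', rfl⟩ := Nat.exists_eq_succ_of_ne_zero hj0
  ext x
  simp only [Set.mem_range, Set.mem_setOf_eq]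
  constructor
  · rintro ⟨c, rfl⟩
    rw [Function.iterate_succ_apply]
    set g := c * (α c)⁻¹ with hg
    have hgi : α g = g⁻¹ := hf c
    rw [hit j' g hgi]
    refine ⟨?_, by rw [map_pow, hgi, inv_pow]⟩
    obtain ⟨e, m, hm, hem⟩ := Nat.exists_eq_pow_mul_and_not_dvd (orderOf_pos g).ne' 2 (by norm_num)
    have hele : e ≤ j' := by
      by_contra hlt
      push Not at hlt
      apply hj g hgi
      rw [hem]
      exact Dvd.dvd.mul_right (pow_dvd_pow 2 hlt) m
    have h1 : (g ^ 2 ^ j') ^ m = 1 := by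
      obtain ⟨d, rfl⟩ := Nat.exists_eq_add_of_le hele
      rw [← pow_mul, pow_add]
      have : 2 ^ e * 2 ^ d * m = (2 ^ e * m) * 2 ^ d := by ring
      rw [this, ← hem, pow_mul, pow_orderOf_eq_one, one_pow]
    exact Odd.of_dvd_nat (Nat.odd_iff.mpr (by omega)) (orderOf_dvd_of_pow_eq_one h1)
  · rintro ⟨hodd, hinv⟩
    obtain ⟨m, hm⟩ := exists_pow_eq_self_of_coprime (x := x) (n := 2 ^ (j' + 1))
      (Nat.Coprime.pow_left _ (Nat.coprime_two_left.mpr hodd))
    refine ⟨x ^ m, ?_⟩
    rw [hit _ _ (by rw [map_pow, hinv, inv_pow]), ← pow_mul, mul_comm, pow_mul, hm]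

end Cfsg.Agent.S3949
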