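import Cfsg.Statements.S3977
import Mathlib
import Cfsg.Agent.Lib.Helper21.BilinExt
import Cfsg.Agent.Lib.Helper21.Pullback

set_option autoImplicit false
open Cfsg
open Cfsg.Agent.Lib.Helper21

namespace Cfsg.Agent.S3977

lemma mul_pow_class2 {X : Type*} [Group X] (x y : X)
    (hk : y * x * y⁻¹ * x⁻¹ ∈ Subgroup.center X) (n : ℕ) :
    (x * y) ^ n = x ^ n * y ^ n * (y * x * y⁻¹ * x⁻¹) ^ (n.choose 2) := by
  set k := y * x * y⁻¹ * x⁻¹ with hkdef
  have hc : ∀ (j : ℕ) (g : X), g * k ^ j = k ^ j * g :=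
    fun j g => Subgroup.mem_center_iff.1 (Subgroup.pow_mem _ hk j) g
  have hyx : y * x = k * (x * y) := by rw [hkdef]; group
  have h1 : ∀ n : ℕ, y ^ n * x = k ^ n * (x * y ^ n) := by
    intro n
    induction n with
    | zero => simp
    | succ n ih =>
      calc y ^ (n + 1) * x = y * (y ^ n * x) := by rw [pow_succ']; group
        _ = (y * k ^ n) * (x * y ^ n) := by rw [ih]; group
        _ = k ^ n * ((y * x) * y ^ n) := by rw [hc n y]; group
        _ = k ^ n * (k * (x * y) * y ^ n) := by rw [hyx]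
        _ = k ^ (n + 1) * (x * y ^ (n + 1)) := by rw [pow_succ, pow_succ]; group
  induction n with
  | zero => simp
  | succ n ih =>
    have e : (n + 1).choose 2 = n + n.choose 2 := by
      rw [Nat.choose_succ_succ' n 1, Nat.choose_one_right]
    calc (x * y) ^ (n + 1) = (x * y) ^ n * (x * y) := pow_succ _ _
      _ = x ^ n * y ^ n * k ^ (n.choose 2) * (x * y) := by rw [ih]
      _ = x ^ n * (y ^ n * k ^ (n.choose 2)) * (x * y) := by group
      _ = x ^ n * (k ^ (n.choose 2) * y ^ n) * (x * y) := by rw [hc]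
      _ = x ^ n * k ^ (n.choose 2) * (y ^ n * x) * y := by group
      _ = x ^ n * k ^ (n.choose 2) * (k ^ n * (x * y ^ n)) * y := by rw [h1]
      _ = (x ^ n * k ^ (n + n.choose 2)) * (x * y ^ (n + 1)) := by
          rw [pow_add k, pow_succ y]
          have := hc n (k ^ (n.choose 2))
          rw [← this]; group
      _ = k ^ (n + n.choose 2) * x ^ n * (x * y ^ (n + 1)) := by rw [hc]
      _ = k ^ (n + n.choose 2) * (x ^ (n + 1) * y ^ (n + 1)) := by rw [pow_succ x]; group
      _ = x ^ (n + 1) * y ^ (n + 1) * k ^ ((n + 1).choose 2) := by rw [e, ← hc]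

lemma cyclic_of_unique_max {G : Type*} [Group G] [Finite G] (p m : ℕ) [Fact p.Prime]
    (hG : Nat.card G = p ^ (m + 1))
    (h : ∀ M₁ M₂ : Subgroup G, Nat.card M₁ = p ^ m → Nat.card M₂ = p ^ m → M₁ = M₂) : IsCyclic G := by
  obtain ⟨M, hM⟩ := Sylow.exists_subgroup_card_pow_prime (G := G) p (n := m)
    (by rw [hG]; exact pow_dvd_pow p (Nat.le_succ m))
  have hMne : M ≠ ⊤ := by
    intro h1
    rw [h1, Subgroup.card_top, hG] at hM
    exact absurd (Nat.pow_right_injective (Fact.out : p.Prime).two_le hM) (by omega)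
  obtain ⟨x, hx⟩ : ∃ x, x ∉ M := by
    by_contra hcon
    push Not at hcon
    exact hMne (eq_top_iff.2 (fun x _ => hcon x))
  have hz : Subgroup.zpowers x = ⊤ := by
    by_contra hne
    obtain ⟨j, hj, hcard⟩ := (Nat.dvd_prime_pow (Fact.out : p.Prime)).1
      (hG ▸ Subgroup.card_subgroup_dvd_card (Subgroup.zpowers x))
    have hjm : j ≤ m := by
      by_contra hlt
      have : j = m + 1 := by omega
      rw [this, ← hG] at hcard
      exact hne (Subgroup.eq_top_of_card_eq _ hcard)
    obtain ⟨K, hK, hle⟩ := Sylow.exists_subgroup_card_pow_prime_le p (m := m)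
      (by rw [hG]; exact pow_dvd_pow p (Nat.le_succ m)) (Subgroup.zpowers x) hcard hjm
    rw [h K M hK hM] at hle
    exact hx (hle (Subgroup.mem_zpowers x))
  exact isCyclic_iff_exists_zpowers_eq_top.2 ⟨x, hz⟩

lemma comm_mem_of_index_prime {G : Type*} [Group G] [Finite G] (p : ℕ) [Fact p.Prime]
    (M : Subgroup G) [M.Normal] (hM : M.index = p) (x y : G) : x * y * x⁻¹ * y⁻¹ ∈ M := by
  have hcard : Nat.card (G ⧸ M) = p := hM
  haveI : IsCyclic (G ⧸ M) := isCyclic_of_prime_card hcard
  have hcomm : ∀ a b : G ⧸ M, a * b = b * a := fun a b => by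
    obtain ⟨g, hg⟩ := IsCyclic.exists_generator (α := G ⧸ M)
    obtain ⟨i, rfl⟩ := Subgroup.mem_zpowers_iff.1 (hg a)
    obtain ⟨j, rfl⟩ := Subgroup.mem_zpowers_iff.1 (hg b)
    rw [← zpow_add, ← zpow_add, add_comm]
  have h := commutator_le_ker_of_comm hcomm (QuotientGroup.mk' M)
  rw [QuotientGroup.ker_mk'] at h
  apply h
  have := Subgroup.commutator_mem_commutator (Subgroup.mem_top x) (Subgroup.mem_top y)
  rw [commutatorElement_def] at this
  rw [commutator_def]
  exact this

lemma key {G : Type*} [Group G] [Finite G] (p n : ℕ) [Fact p.Prime]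
    (hG : Nat.card G = p ^ (n + 1)) (M₁ M₂ : Subgroup G) (h1 : Nat.card M₁ = p ^ n)
    (h2 : Nat.card M₂ = p ^ n) (hne : M₁ ≠ M₂) (hc1 : IsCyclic M₁) (hc2 : IsCyclic M₂) :
    ∃ c k : G, c ∉ M₁ ∧ k ^ p = 1 ∧ c ^ p = k ^ (p.choose 2) := by
  have hp : p.Prime := Fact.out
  have hidx : ∀ M : Subgroup G, Nat.card M = p ^ n → M.index = p := by
    intro M hM
    have := M.card_mul_index
    rw [hM, hG, pow_succ] at this
    exact Nat.eq_of_mul_eq_mul_left (pow_pos hp.pos n) this
  have hnorm : ∀ M : Subgroup G, Nat.card M = p ^ n → M.Normal := by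
    intro M hM
    apply Subgroup.normal_of_index_eq_minFac_card
    rw [hidx M hM, hG, hp.pow_minFac (Nat.succ_ne_zero n)]
  haveI := hnorm M₁ h1
  haveI := hnorm M₂ h2
  obtain ⟨⟨a, haM⟩, ha⟩ := IsCyclic.exists_generator (α := M₁)
  obtain ⟨⟨b, hbM⟩, hb⟩ := IsCyclic.exists_generator (α := M₂)
  have ha' : ∀ x ∈ M₁, ∃ i : ℤ, a ^ i = x := by
    intro x hx
    obtain ⟨i, hi⟩ := Subgroup.mem_zpowers_iff.1 (ha ⟨x, hx⟩)
    exact ⟨i, by simpa using congrArg Subtype.val hi⟩
  have hb' : ∀ x ∈ M₂, ∃ i : ℤ, b ^ i = x := by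
    intro x hx
    obtain ⟨i, hi⟩ := Subgroup.mem_zpowers_iff.1 (hb ⟨x, hx⟩)
    exact ⟨i, by simpa using congrArg Subtype.val hi⟩
  have hnle : ∀ M N : Subgroup G, Nat.card M = p ^ n → Nat.card N = p ^ n → M ≤ N → M = N := by
    intro M N hM hN hle
    exact Subgroup.eq_of_le_of_card_ge hle (by rw [hM, hN])
  have hbn : b ∉ M₁ := by
    intro hb1
    apply hne
    symm
    apply hnle M₂ M₁ h2 h1
    intro x hx
    obtain ⟨i, rfl⟩ := hb' x hx
    exact Subgroup.zpow_mem _ hb1 i
  -- the join is everything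
  have htop : Subgroup.closure {a, b} = ⊤ := by
    have hle : M₁ ≤ Subgroup.closure {a, b} := by
      intro x hx
      obtain ⟨i, rfl⟩ := ha' x hx
      exact Subgroup.zpow_mem _ (Subgroup.subset_closure (by simp)) i
    by_contra hcon
    obtain ⟨j, hj, hcard⟩ := (Nat.dvd_prime_pow hp).1
      (hG ▸ Subgroup.card_subgroup_dvd_card (Subgroup.closure {a, b}))
    have hjn : j ≤ n := by
      by_contra hlt
      have : j = n + 1 := by omega
      rw [this, ← hG] at hcard
      exact hcon (Subgroup.eq_top_of_card_eq _ hcard)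
    have : M₁ = Subgroup.closure {a, b} :=
      Subgroup.eq_of_le_of_card_ge hle (by rw [h1, hcard]; exact Nat.pow_le_pow_right hp.pos hjn)
    apply hbn
    rw [this]
    exact Subgroup.subset_closure (by simp)
  have hcen : ∀ d, d ∈ M₁ → d ∈ M₂ → d ∈ Subgroup.center G := by
    intro d hd1 hd2
    have hle : Subgroup.closure {a, b} ≤ Subgroup.centralizer {d} := by
      rw [Subgroup.closure_le]
      intro x hx
      rw [SetLike.mem_coe, Subgroup.mem_centralizer_singleton_iff]
      rcases hx with rfl | hx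
      · obtain ⟨i, rfl⟩ := ha' d hd1
        rw [← zpow_one_add, ← zpow_add_one, add_comm]
      · rw [Set.mem_singleton_iff] at hx
        subst hx
        obtain ⟨i, rfl⟩ := hb' d hd2
        rw [← zpow_one_add, ← zpow_add_one, add_comm]
    rw [htop] at hle
    rw [Subgroup.mem_center_iff]
    intro g
    have := hle (Subgroup.mem_top g)
    rw [Subgroup.mem_centralizer_singleton_iff] at this
    exact this
  have hcomm : ∀ x y : G, x * y * x⁻¹ * y⁻¹ ∈ Subgroup.center G := fun x y =>
    hcen _ (comm_mem_of_index_prime p M₁ (hidx M₁ h1) x y)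
      (comm_mem_of_index_prime p M₂ (hidx M₂ h2) x y)
  have hbp : b ^ p ∈ M₁ := by
    have := Subgroup.pow_index_mem M₁ b
    rwa [hidx M₁ h1] at this
  obtain ⟨i, hi⟩ := ha' _ hbp
  have hpi : (p : ℤ) ∣ i := by
    by_contra hnd
    have hcop : IsCoprime i ((p : ℤ) ^ n) :=
      IsCoprime.pow_right ((Nat.prime_iff_prime_int.1 hp).coprime_iff_not_dvd.2 hnd).symm
    obtain ⟨u, v, huv⟩ := hcop
    have hapn : a ^ ((p : ℤ) ^ n) = 1 := by
      have : (⟨a, haM⟩ : M₁) ^ (Nat.card M₁) = 1 := pow_card_eq_one'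
      rw [h1] at this
      have h3 := congrArg Subtype.val this
      simp only [Subgroup.coe_pow, Subgroup.coe_one] at h3
      exact_mod_cast h3
    have haeq : a = (b ^ p) ^ u := by
      rw [← hi, ← zpow_mul]
      have : a ^ (u * i + v * (p : ℤ) ^ n) = a := by rw [huv, zpow_one]
      rw [zpow_add, mul_comm v, zpow_mul a _ v, hapn, one_zpow, mul_one] at this
      rw [mul_comm i u, this]
    apply hne
    apply hnle M₁ M₂ h1 h2
    intro x hx
    obtain ⟨j, rfl⟩ := ha' x hx
    apply Subgroup.zpow_mem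
    rw [haeq]
    exact Subgroup.zpow_mem _ (Subgroup.pow_mem _ hbM p) u
  obtain ⟨u, rfl⟩ := hpi
  set x : G := (a ^ u)⁻¹ with hx
  have hxM : x ∈ M₁ := Subgroup.inv_mem _ (Subgroup.zpow_mem _ haM u)
  refine ⟨x * b, b * x * b⁻¹ * x⁻¹, ?_, ?_, ?_⟩
  · intro h
    exact hbn ((Subgroup.mul_mem_cancel_left _ hxM).1 h)
  · have h3 := map_pow (commHomCentral x (fun g => hcomm g x)) b p
    have h4 := congrArg Subtype.val h3
    change b ^ p * x * (b ^ p)⁻¹ * x⁻¹ = _ at h4
    have h5 : ((commHomCentral x (fun g => hcomm g x) b ^ p : Subgroup.center G) : G)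
        = (b * x * b⁻¹ * x⁻¹) ^ p := by
      rw [Subgroup.coe_pow]; rfl
    rw [h5] at h4
    rw [← h4]
    have h6 := Subgroup.mem_center_iff.1 (hcen _ hbp (Subgroup.pow_mem _ hbM p)) x
    rw [← h6]
    group
  · rw [mul_pow_class2 x b (hcomm b x) p]
    have : x ^ p * b ^ p = 1 := by
      rw [← hi, hx, inv_pow, ← zpow_natCast (a ^ u), ← zpow_mul, mul_comm u]
      group
    rw [this, one_mul]

lemma main_aux (p s : ℕ) [Fact p.Prime] (hs : 1 ≤ s) (h2 : p ≠ 2 ∨ 2 ≤ s) (m : ℕ) :
    ∀ (G : Type*) [Group G] [Finite G], Nat.card G = p ^ m → s < m →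
      (∀ H K : Subgroup G, Nat.card H = p ^ s → Nat.card K = p ^ s → H = K) → IsCyclic G := by
  have hp : p.Prime := Fact.out
  induction m with
  | zero => intro G _ _ _ h; omega
  | succ n ih =>
    intro G _ _ hG hsn huniq
    apply cyclic_of_unique_max p n hG
    intro M₁ M₂ h1 h2'
    by_contra hne
    rcases Nat.lt_or_ge s n with hlt | hge
    · have hcyc : ∀ M : Subgroup G, Nat.card M = p ^ n → IsCyclic M := by
        intro M hM
        apply ih M hM hlt
        intro H K hH hK
        have := huniq (H.map M.subtype) (K.map M.subtype)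
          (by rw [Subgroup.card_map_of_injective M.subtype_injective, hH])
          (by rw [Subgroup.card_map_of_injective M.subtype_injective, hK])
        exact Subgroup.map_injective M.subtype_injective this
      obtain ⟨c, k, hc, hk, hck⟩ := key p n hG M₁ M₂ h1 h2' hne (hcyc M₁ h1) (hcyc M₂ h2')
      have hcs : c ^ (p ^ s) = 1 := by
        rcases h2 with hp2 | hs2
        · have hdvd : p ∣ p.choose 2 := hp.dvd_choose_self (by norm_num)
            (lt_of_le_of_ne hp.two_le (Ne.symm hp2))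
          obtain ⟨t, ht⟩ := hdvd
          have hcp : c ^ p = 1 := by rw [hck, ht, pow_mul, hk, one_pow]
          obtain ⟨r, rfl⟩ := Nat.exists_eq_add_of_le hs
          rw [pow_add, pow_one, pow_mul, hcp, one_pow]
        · have hcp : c ^ (p ^ 2) = 1 := by
            rw [pow_two, pow_mul, hck, ← pow_mul, mul_comm, pow_mul, hk, one_pow]
          obtain ⟨r, rfl⟩ := Nat.exists_eq_add_of_le hs2
          rw [pow_add, pow_mul, hcp, one_pow]
      obtain ⟨j, hj, hcard⟩ := (Nat.dvd_prime_pow hp).1 (orderOf_dvd_of_pow_eq_one hcs)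
      rw [← Nat.card_zpowers] at hcard
      obtain ⟨K, hK, hle⟩ := Sylow.exists_subgroup_card_pow_prime_le p (m := s)
        (by rw [hG]; exact pow_dvd_pow p hsn.le) (Subgroup.zpowers c) hcard hj
      obtain ⟨L, hL⟩ := Sylow.exists_subgroup_card_pow_prime (G := M₁) p (n := s)
        (by rw [h1]; exact pow_dvd_pow p hlt.le)
      have := huniq K (L.map M₁.subtype) hK
        (by rw [Subgroup.card_map_of_injective M₁.subtype_injective, hL])
      apply hc
      have h3 := hle (Subgroup.mem_zpowers c)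
      rw [this] at h3
      obtain ⟨y, _, rfl⟩ := h3
      exact y.2
    · have : s = n := by omega
      subst this
      exact hne (huniq M₁ M₂ h1 h2')

/-- Let `p` be a prime and `G` a group of order `p ^ m` which has exactly one subgroup of order `p ^ s`, where `1 ≤ s < m`, and where `s ≥ 2` if `p = 2`. Then `G` is cyclic. (For `p = 2` and `s = 1` the generalized quaternion groups also occur; that case is the classical criterion for a unique involution.) -/
theorem result {G : Type*} [Group G] [Finite G] (p m s : ℕ) (hp : p.Prime) (hG : Nat.card G = p ^ m) (hs : 1 ≤ s) (hsm : s < m) (h2 : p ≠ 2 ∨ 2 ≤ s) (huniq : ∀ H K : Subgroup G, Nat.card H = p ^ s → Nat.card K = p ^ s → H = K) : IsCyclic G := by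
  haveI : Fact p.Prime := ⟨hp⟩
  exact main_aux p s hs h2 m G hG hsm huniq

end Cfsg.Agent.S3977
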