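import Cfsg.Statements.S3982
import Cfsg.Agent.Lib.Helper17.Syl
import Cfsg.Agent.Lib.Helper1.CoprimeSylow
import Mathlib

set_option autoImplicit false
open Cfsg

namespace Cfsg.Agent.S3982

open Cfsg.Agent.Lib.Helper17

theorem inv_of_fpf {G : Type*} [Group G] [Finite G] (R : Subgroup G) (y : G) (hy2 : y * y = 1)
    (hyR : y ∈ Subgroup.normalizer (R : Set G)) (hfix : ∀ r ∈ R, y * r * y⁻¹ = r → r = 1) :
    ∀ r ∈ R, y * r * y⁻¹ = r⁻¹ := by
  have hyinv : y⁻¹ = y := inv_eq_of_mul_eq_one_left hy2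
  let f : R → R := fun r => ⟨(r : G)⁻¹ * (y * r * y⁻¹),
    R.mul_mem (R.inv_mem r.2) ((Subgroup.mem_normalizer_iff.mp hyR _).mp r.2)⟩
  have hinj : Function.Injective f := by
    intro r s h
    have h1 : (r : G)⁻¹ * (y * r * y⁻¹) = (s : G)⁻¹ * (y * s * y⁻¹) := congrArg Subtype.val h
    have h2 : y * ((s : G) * (r : G)⁻¹) * y⁻¹ = (s : G) * (r : G)⁻¹ := by
      have e1 : y * ((s : G) * (r : G)⁻¹) * y⁻¹ = (y * s * y⁻¹) * (y * r * y⁻¹)⁻¹ := by group
      have e2 : y * r * y⁻¹ = (r : G) * ((s : G)⁻¹ * (y * s * y⁻¹)) := by rw [← h1]; group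
      rw [e1, e2]; group
    have h3 := hfix _ (R.mul_mem s.2 (R.inv_mem r.2)) h2
    apply Subtype.ext
    exact (mul_inv_eq_one.mp h3).symm
  have hsurj := Finite.injective_iff_surjective.mp hinj
  intro r hr
  obtain ⟨s, hs⟩ := hsurj ⟨r, hr⟩
  have h1 : (s : G)⁻¹ * (y * s * y⁻¹) = r := congrArg Subtype.val hs
  rw [← h1, hyinv]
  have : y * ((s : G)⁻¹ * (y * s * y)) * y = y * (s : G)⁻¹ * (y * s * (y * y)) := by group
  rw [this, hy2]
  have h5 : ((s : G)⁻¹ * (y * s * y))⁻¹ = y⁻¹ * (s : G)⁻¹ * y⁻¹ * s := by group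
  rw [h5, hyinv]; group

/-- Let p be an odd prime and G a finite group of even order divisible by p in which the centralizer of every non-identity p-element has odd order. If some nontrivial p-subgroup of G has a normalizer of even order, then the normalizer of every Sylow p-subgroup of G has even order. -/
theorem result {G : Type*} [Group G] [Finite G] (p : ℕ) [Fact p.Prime] (hp2 : p ≠ 2) (hpG : p ∣ Nat.card G) (h2G : 2 ∣ Nat.card G) (hC : ∀ g : G, g ≠ 1 → (∃ k : ℕ, orderOf g = p ^ k) → Odd (Nat.card ↥(Subgroup.centralizer ({g} : Set G)))) (Q : Subgroup G) (hQ : IsPGroup p ↥Q) (hQ1 : Q ≠ ⊥) (hev : Even (Nat.card ↥(Subgroup.normalizer (Q : Set G)))) (P : Sylow p G) : Even (Nat.card ↥(Subgroup.normalizer ((P : Subgroup G) : Set G))) := by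
  have hp : p.Prime := Fact.out
  obtain ⟨y0, hy0⟩ := exists_prime_orderOf_dvd_card' (G := ↥(Subgroup.normalizer (Q : Set G))) 2
    hev.two_dvd
  set y : G := (y0 : G) with hydef
  have hy : orderOf y = 2 := by rw [hydef, Subgroup.orderOf_coe, hy0]
  have hyQ : y ∈ Subgroup.normalizer (Q : Set G) := y0.2
  have hy2 : y * y = 1 := by rw [← sq, ← hy, pow_orderOf_eq_one]
  have hyinv : y⁻¹ = y := inv_eq_of_mul_eq_one_left hy2
  -- no nontrivial p-element commutes with y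
  have hnc : ∀ g : G, g ≠ 1 → (∃ k : ℕ, g ^ p ^ k = 1) → y * g * y⁻¹ ≠ g := by
    intro g hg ⟨k, hk⟩ h
    obtain ⟨j, _, hj⟩ := (Nat.dvd_prime_pow hp).mp (orderOf_dvd_of_pow_eq_one hk)
    have hodd := hC g hg ⟨j, hj⟩
    have hmem : y ∈ Subgroup.centralizer ({g} : Set G) := by
      rw [Subgroup.mem_centralizer_singleton_iff]
      calc y * g = (y * g * y⁻¹) * y := by group
        _ = g * y := by rw [h]
    have h2 : orderOf (⟨y, hmem⟩ : ↥(Subgroup.centralizer ({g} : Set G))) = 2 := by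
      rw [← Subgroup.orderOf_coe]; exact hy
    have h3 := orderOf_dvd_natCard (⟨y, hmem⟩ : ↥(Subgroup.centralizer ({g} : Set G)))
    rw [h2] at h3
    exact (Nat.not_even_iff_odd.mpr hodd) (even_iff_two_dvd.mpr h3)
  -- maximal invariant p-subgroup
  obtain ⟨R, hRmax⟩ := (Set.toFinite {R : Subgroup G | IsPGroup p R ∧ Q ≤ R ∧
    y ∈ Subgroup.normalizer (R : Set G)}).exists_maximal ⟨Q, hQ, le_rfl, hyQ⟩
  obtain ⟨hRp, hQR, hyR⟩ := hRmax.1
  have hRmax' : ∀ R' : Subgroup G, IsPGroup p R' → R ≤ R' → y ∈ Subgroup.normalizer (R' : Set G) →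
      R' = R := by
    intro R' h1 h2 h3
    exact le_antisymm (hRmax.2 ⟨h1, hQR.trans h2, h3⟩ h2) h2
  have hinv : ∀ r ∈ R, y * r * y⁻¹ = r⁻¹ := by
    apply inv_of_fpf R y hy2 hyR
    intro r hr h
    by_contra hr1
    obtain ⟨k, hk⟩ := hRp ⟨r, hr⟩
    exact hnc r hr1 ⟨k, congrArg Subtype.val hk⟩ h
  have hRab : R ≤ Subgroup.centralizer (R : Set G) := by
    intro r hr
    rw [Subgroup.mem_centralizer_iff]
    intro s hs
    have h1 := hinv (r * s) (R.mul_mem hr hs)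
    have h2 : y * (r * s) * y⁻¹ = (y * r * y⁻¹) * (y * s * y⁻¹) := by group
    rw [h2, hinv r hr, hinv s hs] at h1
    have h3 : (r⁻¹ * s⁻¹)⁻¹ = ((r * s)⁻¹)⁻¹ := by rw [h1]
    simpa using h3
  obtain ⟨g, hgQ, hg1⟩ := (Subgroup.ne_bot_iff_exists_ne_one).mp hQ1 |>.elim
    (fun g hg => (⟨(g : G), g.2, fun h => hg (Subtype.ext h)⟩ : ∃ g : G, g ∈ Q ∧ g ≠ 1))
  set A : Subgroup G := Subgroup.zpowers y with hA
  have hAcard : Nat.card A = 2 := by rw [hA, Nat.card_zpowers, hy]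
  have hAsolv : Group.IsSolvable A := by
    have : IsCyclic A := by rw [hA]; infer_instance
    infer_instance
  have hoddC : ∀ g : G, g ≠ 1 → (∃ k : ℕ, g ^ p ^ k = 1) → ∀ K : Subgroup G,
      K ≤ Subgroup.centralizer ({g} : Set G) → (Nat.card A).Coprime (Nat.card K) := by
    intro g hg ⟨k, hk⟩ K hK
    obtain ⟨j, _, hj⟩ := (Nat.dvd_prime_pow hp).mp (orderOf_dvd_of_pow_eq_one hk)
    have hodd := hC g hg ⟨j, hj⟩
    rw [hAcard, Nat.coprime_two_left]
    exact Odd.of_dvd_nat hodd (Subgroup.card_dvd_of_le hK)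
  -- R is Sylow in its centralizer
  set M : Subgroup G := Subgroup.centralizer (R : Set G) with hM
  have hAM : A ≤ Subgroup.normalizer (M : Set G) := by
    rw [hA, Subgroup.zpowers_le]
    exact normalizer_le_normalizer_centralizer R hyR
  have hgp : ∃ k : ℕ, g ^ p ^ k = 1 := by
    obtain ⟨k, hk⟩ := hQ ⟨g, hgQ⟩
    exact ⟨k, congrArg Subtype.val hk⟩
  have hMg : M ≤ Subgroup.centralizer ({g} : Set G) :=
    Subgroup.centralizer_le (by simpa using hQR hgQ)
  obtain ⟨P', hRP', hAP'⟩ := Cfsg.Agent.Lib.Helper1.invariant_sylow_ge A M hAM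
    (hoddC g hg1 hgp M hMg) (Or.inl hAsolv) p _ R rfl hRab hRp (by rw [hA, Subgroup.zpowers_le]; exact hyR)
  have hP'R : (P' : Subgroup M).map M.subtype = R :=
    hRmax' _ (P'.2.map _) hRP' (hAP' (Subgroup.mem_zpowers y))
  have hRsyl : IsSyl p R M := ⟨P', hP'R⟩
  -- a Sylow subgroup of G containing R
  obtain ⟨P1, hRP1⟩ := hRp.exists_le_sylow
  have hP1nt : Nontrivial (P1 : Subgroup G) := by
    refine ⟨⟨⟨g, hRP1 (hQR hgQ)⟩, 1, fun h => hg1 (congrArg Subtype.val h)⟩⟩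
  have hcn := P1.2.center_nontrivial
  obtain ⟨z0, hz01⟩ := exists_ne (1 : Subgroup.center (P1 : Subgroup G))
  set z : G := ((z0 : (P1 : Subgroup G)) : G) with hz
  have hzP : z ∈ (P1 : Subgroup G) := (z0 : (P1 : Subgroup G)).2
  have hz1 : z ≠ 1 := by
    intro h
    apply hz01
    apply Subtype.ext
    apply Subtype.ext
    exact h
  have hzc : ∀ x ∈ (P1 : Subgroup G), x * z = z * x := by
    intro x hx
    have := Subgroup.mem_center_iff.mp z0.2 ⟨x, hx⟩
    exact congrArg Subtype.val this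
  have hzp : ∃ k : ℕ, z ^ p ^ k = 1 := by
    obtain ⟨k, hk⟩ := P1.2 ⟨z, hzP⟩
    exact ⟨k, congrArg Subtype.val hk⟩
  have hzM : z ∈ M := by
    rw [hM, Subgroup.mem_centralizer_iff]
    intro r hr
    exact hzc r (hRP1 hr)
  have hzR : z ∈ R := by
    have h1 : R ⊔ Subgroup.zpowers z ≤ M := sup_le hRab (Subgroup.zpowers_le.mpr hzM)
    have h2 : IsPGroup p (R ⊔ Subgroup.zpowers z : Subgroup G) :=
      P1.2.to_le (sup_le hRP1 (Subgroup.zpowers_le.mpr hzP))
    have h3 := hRsyl.eq_of_le h1 h2 le_sup_left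
    rw [← h3]
    exact (le_sup_right : Subgroup.zpowers z ≤ R ⊔ Subgroup.zpowers z) (Subgroup.mem_zpowers z)
  set K : Subgroup G := Subgroup.centralizer ({z} : Set G) with hK
  have hyz := hinv z hzR
  have hAK : A ≤ Subgroup.normalizer (K : Set G) := by
    rw [hA, Subgroup.zpowers_le]
    have hcl : ∀ c ∈ K, y * c * y⁻¹ ∈ K := by
      intro c hc
      rw [hK, Subgroup.mem_centralizer_singleton_iff] at hc ⊢
      have e1 : z = y * z⁻¹ * y⁻¹ := by
        have : y * z⁻¹ * y⁻¹ = (y * z * y⁻¹)⁻¹ := by group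
        rw [this, hyz, inv_inv]
      have e2 : c * z⁻¹ = z⁻¹ * c := by
        calc c * z⁻¹ = z⁻¹ * (z * c) * z⁻¹ := by group
          _ = z⁻¹ * (c * z) * z⁻¹ := by rw [hc]
          _ = z⁻¹ * c := by group
      calc y * c * y⁻¹ * z = y * c * y⁻¹ * (y * z⁻¹ * y⁻¹) := by rw [← e1]
        _ = y * (c * z⁻¹) * y⁻¹ := by group
        _ = y * (z⁻¹ * c) * y⁻¹ := by rw [e2]
        _ = (y * z⁻¹ * y⁻¹) * (y * c * y⁻¹) := by group
        _ = z * (y * c * y⁻¹) := by rw [← e1]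
    rw [Subgroup.mem_normalizer_iff]
    intro c
    refine ⟨hcl c, fun h => ?_⟩
    have := hcl _ h
    rw [hyinv] at this
    have e : y * (y * c * y) * y = (y * y) * c * (y * y) := by group
    rw [e, hy2] at this
    simpa using this
  obtain ⟨⟨P2, hAP2⟩, -⟩ := Cfsg.Agent.Lib.Helper1.invariant_sylow A K hAK
    (hoddC z hz1 hzp K le_rfl) (Or.inl hAsolv) p
  have hP1K : (P1 : Subgroup G) ≤ K := by
    intro x hx
    rw [hK, Subgroup.mem_centralizer_singleton_iff]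
    exact hzc x hx
  have hs1 : IsSyl p (P1 : Subgroup G) K := (isSyl_top P1).of_le hP1K le_top
  have hs2 : IsSyl p ((P2 : Subgroup K).map K.subtype) K := ⟨P2, rfl⟩
  obtain ⟨m, -, hm⟩ := hs1.conj hs2
  obtain ⟨n, -, hn⟩ := (isSyl_top P1).conj (isSyl_top P)
  -- y normalizes m P1 m⁻¹
  have hy3 : y ∈ Subgroup.normalizer (((P1 : Subgroup G).map (MulAut.conj m).toMonoidHom : Subgroup G) : Set G) := by
    rw [← hm]; exact hAP2 (Subgroup.mem_zpowers y)
  rw [normalizer_map_conj] at hy3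
  have hcard : Nat.card ↥(Subgroup.normalizer ((P : Subgroup G) : Set G)) =
      Nat.card ↥((Subgroup.normalizer ((P1 : Subgroup G) : Set G)).map (MulAut.conj m).toMonoidHom) := by
    rw [hn, normalizer_map_conj, card_map_conj, card_map_conj]
  rw [hcard]
  have h2 : orderOf (⟨y, hy3⟩ : ↥((Subgroup.normalizer ((P1 : Subgroup G) : Set G)).map (MulAut.conj m).toMonoidHom)) = 2 := by
    rw [← Subgroup.orderOf_coe]; exact hy
  have h3 := orderOf_dvd_natCard (⟨y, hy3⟩ : ↥((Subgroup.normalizer ((P1 : Subgroup G) : Set G)).map (MulAut.conj m).toMonoidHom))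
  rw [h2] at h3
  exact even_iff_two_dvd.mpr h3

end Cfsg.Agent.S3982
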