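import Cfsg.Statements.S3983
import Mathlib
import Cfsg.Agent.Lib.Helper21.TI

set_option autoImplicit false
open scoped Pointwise
open Cfsg

namespace Cfsg.Agent.S3983

/-- Let P be a Sylow p-subgroup of the finite group G that meets each conjugate g P g⁻¹ with g outside N_G(P) trivially, and let U be a subgroup of G of order divisible by p. Then a Sylow p-subgroup Q of U has the same property inside U: Q meets each conjugate u Q u⁻¹ with u ∈ U outside N_U(Q) trivially. -/
theorem result {G : Type*} [Group G] [Finite G] (p : ℕ) [Fact p.Prime] (P : Sylow p G) (hTI : ∀ g : G, g ∉ Subgroup.normalizer ((P : Subgroup G) : Set G) → (P : Subgroup G) ⊓ (MulAut.conj g • (P : Subgroup G)) = ⊥) (U : Subgroup G) (hU : p ∣ Nat.card ↥U) (Q : Sylow p ↥U) : ∀ u : ↥U, u ∉ Subgroup.normalizer ((Q : Subgroup ↥U) : Set ↥U) → (Q : Subgroup ↥U) ⊓ (MulAut.conj u • (Q : Subgroup ↥U)) = ⊥ := by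
  have hall := Cfsg.Agent.Lib.Helper21.sylow_ti_all P hTI
  apply Cfsg.Agent.Lib.Helper21.sylow_ti_of_all Q
  intro Q1 Q2 hne
  obtain ⟨P1, hP1⟩ := (Q1.2.map U.subtype).exists_le_sylow
  obtain ⟨P2, hP2⟩ := (Q2.2.map U.subtype).exists_le_sylow
  by_cases h12 : P1 = P2
  · exfalso
    subst h12
    have hp : IsPGroup p ((P1 : Subgroup G).subgroupOf U) :=
      P1.2.comap_of_injective U.subtype U.subtype_injective
    have h1 : (Q1 : Subgroup U) ≤ (P1 : Subgroup G).subgroupOf U := by
      intro x hx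
      exact hP1 (Subgroup.mem_map_of_mem _ hx)
    have h2 : (Q2 : Subgroup U) ≤ (P1 : Subgroup G).subgroupOf U := by
      intro x hx
      exact hP2 (Subgroup.mem_map_of_mem _ hx)
    have e1 := Q1.3 hp h1
    have e2 := Q2.3 hp h2
    exact hne (Sylow.ext (e1.symm.trans e2))
  · rw [eq_bot_iff]
    intro x hx
    have hx' : (x : G) ∈ (P1 : Subgroup G) ⊓ (P2 : Subgroup G) :=
      ⟨hP1 (Subgroup.mem_map_of_mem _ hx.1), hP2 (Subgroup.mem_map_of_mem _ hx.2)⟩
    rw [hall P1 P2 h12, Subgroup.mem_bot] at hx'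
    rw [Subgroup.mem_bot]
    exact Subtype.ext hx'

end Cfsg.Agent.S3983
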