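import Cfsg.Statements.S3984
import Mathlib
import Cfsg.Agent.Lib.Helper21.TI

set_option autoImplicit false
open scoped Pointwise
open Cfsg

namespace Cfsg.Agent.S3984

/-- Let P be a Sylow p-subgroup of the finite group G that meets each conjugate g P g⁻¹ with g outside N_G(P) trivially, and let N be a normal subgroup of G of order prime to p. Then every Sylow p-subgroup Q of G ⧸ N meets each conjugate x Q x⁻¹ with x outside its normalizer trivially. -/
theorem result {G : Type*} [Group G] [Finite G] (p : ℕ) [Fact p.Prime] (P : Sylow p G) (hTI : ∀ g : G, g ∉ Subgroup.normalizer ((P : Subgroup G) : Set G) → (P : Subgroup G) ⊓ (MulAut.conj g • (P : Subgroup G)) = ⊥) (N : Subgroup G) [N.Normal] (hN : (Nat.card ↥N).Coprime p) (Q : Sylow p (G ⧸ N)) : ∀ x : G ⧸ N, x ∉ Subgroup.normalizer ((Q : Subgroup (G ⧸ N)) : Set (G ⧸ N)) → (Q : Subgroup (G ⧸ N)) ⊓ (MulAut.conj x • (Q : Subgroup (G ⧸ N))) = ⊥ := by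
  have hall := Cfsg.Agent.Lib.Helper21.sylow_ti_all P hTI
  apply Cfsg.Agent.Lib.Helper21.sylow_ti_of_all Q
  intro Q1 Q2 hne
  have hf := QuotientGroup.mk'_surjective N
  obtain ⟨P1, rfl⟩ := Sylow.mapSurjective_surjective hf p Q1
  obtain ⟨P2, rfl⟩ := Sylow.mapSurjective_surjective hf p Q2
  rw [eq_bot_iff]
  intro x hx
  rw [Subgroup.mem_bot]
  by_contra hx1
  obtain ⟨⟨a, ha, hax⟩, ⟨b, hb, hbx⟩⟩ := hx
  have ha1 : a ≠ 1 := by
    rintro rfl
    exact hx1 (by rw [← hax, map_one])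
  have haH : a ∈ (P2 : Subgroup G) ⊔ N := by
    have h1 : b⁻¹ * a ∈ N := by
      rw [← QuotientGroup.eq]
      exact hbx.trans hax.symm
    have h2 : a = b * (b⁻¹ * a) := by group
    rw [h2]
    exact Subgroup.mul_mem_sup hb h1
  have hp : IsPGroup p ((P1 : Subgroup G).subgroupOf ((P2 : Subgroup G) ⊔ N)) :=
    P1.2.comap_of_injective _ (Subgroup.subtype_injective _)
  obtain ⟨R, hR⟩ := hp.exists_le_sylow
  obtain ⟨h, hh⟩ := MulAction.exists_smul_eq ((P2 : Subgroup G) ⊔ N : Subgroup G)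
    (P2.subtype (le_sup_left : (P2 : Subgroup G) ≤ (P2 : Subgroup G) ⊔ N)) R
  rw [Sylow.smul_subtype] at hh
  have haR : (⟨a, haH⟩ : ((P2 : Subgroup G) ⊔ N : Subgroup G)) ∈ R := hR ha
  rw [← hh] at haR
  have ha2 : a ∈ ((h • P2 : Sylow p G) : Subgroup G) := haR
  have h12 : P1 = h • P2 := by
    by_contra hcon
    have h3 : a ∈ (P1 : Subgroup G) ⊓ ((h • P2 : Sylow p G) : Subgroup G) := ⟨ha, ha2⟩
    rw [hall _ _ hcon, Subgroup.mem_bot] at h3
    exact ha1 h3
  apply hne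
  have hle : (P1 : Subgroup G).map (QuotientGroup.mk' N) ≤ (P2 : Subgroup G).map (QuotientGroup.mk' N) := by
    rintro _ ⟨y, hy, rfl⟩
    rw [h12] at hy
    have hy' : y ∈ MulAut.conj (h : G) • (P2 : Subgroup G) := hy
    rw [Subgroup.mem_pointwise_smul_iff_inv_smul_mem] at hy'
    have hhm : (QuotientGroup.mk' N) (h : G) ∈ (P2 : Subgroup G).map (QuotientGroup.mk' N) := by
      have h4 := Subgroup.mem_map_of_mem (QuotientGroup.mk' N) h.2
      rw [Subgroup.map_sup, (QuotientGroup.map_mk'_self N), sup_bot_eq] at h4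
      exact h4
    have h5 := Subgroup.mem_map_of_mem (QuotientGroup.mk' N) hy'
    have h6 : y = (h : G) * ((MulAut.conj (h : G))⁻¹ • y) * (h : G)⁻¹ := by
      simp [MulAut.smul_def, MulAut.conj_inv_apply]
      group
    rw [h6, map_mul, map_mul, map_inv]
    exact Subgroup.mul_mem _ (Subgroup.mul_mem _ hhm h5) (Subgroup.inv_mem _ hhm)
  exact Sylow.ext ((P1.mapSurjective hf).3 (P2.mapSurjective hf).2 hle).symm

end Cfsg.Agent.S3984
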