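import Cfsg.Statements.S3985
-- import your own Cfsg.Agent.* helpers here
import Mathlib

set_option autoImplicit false
open scoped Pointwise
open Cfsg

namespace Cfsg.Agent.S3985

/-- Let P be a cyclic Sylow p-subgroup of the finite group G. Then P meets each conjugate g P g⁻¹ with g outside N_G(P) trivially if and only if P is weakly self-centralizing: C_G(x) = C_G(P) for every non-identity x ∈ P. -/
theorem result {G : Type*} [Group G] [Finite G] (p : ℕ) [Fact p.Prime] (P : Sylow p G) (hcyc : IsCyclic ↥(P : Subgroup G)) : (∀ g : G, g ∉ Subgroup.normalizer ((P : Subgroup G) : Set G) → (P : Subgroup G) ⊓ (MulAut.conj g • (P : Subgroup G)) = ⊥) ↔ ∀ x : G, x ∈ (P : Subgroup G) → x ≠ 1 → Subgroup.centralizer ({x} : Set G) = Subgroup.centralizer ((P : Subgroup G) : Set G) := by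
  have hp : p.Prime := Fact.out
  have hcomm : ∀ a ∈ (P : Subgroup G), ∀ b ∈ (P : Subgroup G), a * b = b * a := by
    intro a ha b hb
    have := hcyc.isMulCommutative.is_comm.comm ⟨a, ha⟩ ⟨b, hb⟩
    exact congrArg Subtype.val this
  constructor
  · intro hTI x hxP hx1
    apply le_antisymm
    · intro c hc
      rw [Subgroup.mem_centralizer_singleton_iff] at hc
      have hcx : c * x * c⁻¹ = x := by rw [hc]; group
      have hcN : c ∈ Subgroup.normalizer ((P : Subgroup G) : Set G) := by
        by_contra hcN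
        have h1 := hTI c hcN
        have h2 : x ∈ (P : Subgroup G) ⊓ (MulAut.conj c • (P : Subgroup G)) := by
          refine ⟨hxP, ?_⟩
          have := Subgroup.smul_mem_pointwise_smul x (MulAut.conj c) (P : Subgroup G) hxP
          rwa [MulAut.smul_def, MulAut.conj_apply, hcx] at this
        rw [h1] at h2
        exact hx1 (Subgroup.mem_bot.mp h2)
      obtain ⟨a0, ha0⟩ := hcyc.exists_generator
      set a : G := (a0 : G) with ha
      have haP : a ∈ (P : Subgroup G) := a0.2
      have hgen : ∀ w ∈ (P : Subgroup G), ∃ i : ℕ, a ^ i = w := by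
        intro w hw
        have h1 := ha0 ⟨w, hw⟩
        rw [← mem_powers_iff_mem_zpowers] at h1
        obtain ⟨i, hi⟩ := h1
        exact ⟨i, congrArg Subtype.val hi⟩
      obtain ⟨n, hn⟩ := P.2.exists_card_eq
      have hoa : orderOf a = p ^ n := by
        rw [ha, Subgroup.orderOf_coe, orderOf_eq_card_of_forall_mem_zpowers ha0, hn]
      obtain ⟨u, hu⟩ := hgen (c * a * c⁻¹) ((Subgroup.mem_normalizer_iff.mp hcN a).mp haP)
      obtain ⟨i, hi⟩ := hgen x hxP
      have h1 : a ^ (u * i) = a ^ i := by
        rw [pow_mul, hu, conj_pow, hi, hcx]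
      rw [pow_eq_pow_iff_modEq, hoa] at h1
      have hi' : ¬ p ^ n ∣ i := by
        intro h
        apply hx1
        rw [← hi]
        rw [← hoa] at h
        exact orderOf_dvd_iff_pow_eq_one.mp h
      have hu1 : (p : ℤ) ∣ (u : ℤ) - 1 := by
        by_contra hnd
        apply hi'
        have h2 : ((p ^ n : ℕ) : ℤ) ∣ ((u * i : ℕ) : ℤ) - (i : ℤ) := (Nat.modEq_iff_dvd.mp h1.symm)
        have h3 : ((u * i : ℕ) : ℤ) - (i : ℤ) = ((u : ℤ) - 1) * i := by push_cast; ring
        rw [h3] at h2
        have hcop : IsCoprime ((p ^ n : ℕ) : ℤ) ((u : ℤ) - 1) := by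
          push_cast
          apply IsCoprime.pow_left
          exact (Prime.coprime_iff_not_dvd (Nat.prime_iff_prime_int.mp hp)).mpr hnd
        exact Int.natCast_dvd_natCast.mp (hcop.dvd_of_dvd_mul_left h2)
      have hpow : ∀ j : ℕ, c ^ j * a * (c ^ j)⁻¹ = a ^ (u ^ j) := by
        intro j
        induction j with
        | zero => simp
        | succ j ih =>
          have : c ^ (j + 1) * a * (c ^ (j + 1))⁻¹ = c * (c ^ j * a * (c ^ j)⁻¹) * c⁻¹ := by
            rw [pow_succ']; group
          rw [this, ih, ← conj_pow, ← hu, ← pow_mul, pow_succ']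
      have hc1 : c ^ (p ^ n) * a = a * c ^ (p ^ n) := by
        have h2 := dvd_sub_pow_of_dvd_sub hu1 n
        rw [one_pow] at h2
        have h3 : u ^ p ^ n ≡ 1 [MOD p ^ n] := by
          apply (Nat.modEq_iff_dvd.mpr _).symm
          push_cast
          exact (pow_dvd_pow _ (Nat.le_succ n)).trans h2
        have h4 : a ^ (u ^ p ^ n) = a ^ 1 := by
          rw [pow_eq_pow_iff_modEq, hoa]; exact h3
        have h5 := hpow (p ^ n)
        rw [h4, pow_one] at h5
        calc c ^ (p ^ n) * a = (c ^ (p ^ n) * a * (c ^ (p ^ n))⁻¹) * c ^ (p ^ n) := by group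
          _ = a * c ^ (p ^ n) := by rw [h5]
      obtain ⟨e, m, hm, hem⟩ := Nat.exists_eq_pow_mul_and_not_dvd (orderOf_pos c).ne' p hp.ne_one
      have hc2 : c ^ m * a = a * c ^ m := by
        have hz : IsPGroup p (Subgroup.zpowers (c ^ m)) := by
          have h1 : orderOf (c ^ m) ∣ p ^ e := by
            apply orderOf_dvd_of_pow_eq_one
            rw [← pow_mul, mul_comm, ← hem, pow_orderOf_eq_one]
          obtain ⟨j, _, hj⟩ := (Nat.dvd_prime_pow hp).mp h1
          exact IsPGroup.of_card (n := j) (by rw [Nat.card_zpowers, hj])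
        have h2 := hz.inf_normalizer_sylow P
        have h3 : c ^ m ∈ Subgroup.zpowers (c ^ m) ⊓ Subgroup.normalizer ((P : Subgroup G) : Set G) :=
          ⟨Subgroup.mem_zpowers _, Subgroup.pow_mem _ hcN m⟩
        have h4 : c ^ m ∈ Subgroup.zpowers (c ^ m) ⊓ (P : Subgroup G) := h2 ▸ h3
        exact hcomm _ h4.2 _ haP
      have hca : c * a = a * c := by
        have hcop : Nat.Coprime m (p ^ n) := (Nat.Coprime.pow_right n
          ((Nat.Prime.coprime_iff_not_dvd hp).mpr hm).symm)
        have hb := Int.gcd_eq_gcd_ab m (p ^ n)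
        have hg : Int.gcd (m : ℤ) ((p ^ n : ℕ) : ℤ) = 1 := by
          rw [Int.gcd_natCast_natCast]; exact hcop
        have hZ1 : c ^ m ∈ Subgroup.centralizer ({a} : Set G) :=
          Subgroup.mem_centralizer_singleton_iff.mpr hc2
        have hZ2 : c ^ (p ^ n) ∈ Subgroup.centralizer ({a} : Set G) :=
          Subgroup.mem_centralizer_singleton_iff.mpr hc1
        have hZ : c ∈ Subgroup.centralizer ({a} : Set G) := by
          have h1 : c = (c ^ m) ^ (Int.gcdA m (p ^ n : ℕ)) * (c ^ (p ^ n)) ^ (Int.gcdB m (p ^ n : ℕ)) := by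
            rw [← zpow_natCast, ← zpow_natCast, ← zpow_mul, ← zpow_mul, ← zpow_add,
              ← Int.gcd_eq_gcd_ab, hg]
            simp
          rw [h1]
          exact Subgroup.mul_mem _ (Subgroup.zpow_mem _ hZ1 _) (Subgroup.zpow_mem _ hZ2 _)
        exact Subgroup.mem_centralizer_singleton_iff.mp hZ
      rw [Subgroup.mem_centralizer_iff]
      intro w hw
      obtain ⟨j, rfl⟩ := hgen w hw
      exact ((Commute.pow_right (show Commute c a from hca) j).eq).symm
    · exact Subgroup.centralizer_le (Set.singleton_subset_iff.mpr hxP)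
  · intro hC g hg
    by_contra hne
    apply hg
    obtain ⟨x, hx, hx1⟩ := (Subgroup.ne_bot_iff_exists_ne_one).mp hne |>.elim
      (fun x hx => (⟨(x : G), x.2, fun h => hx (Subtype.ext h)⟩ :
        ∃ x : G, x ∈ (P : Subgroup G) ⊓ (MulAut.conj g • (P : Subgroup G)) ∧ x ≠ 1))
    have hxP : x ∈ (P : Subgroup G) := hx.1
    have hxP' : x ∈ (MulAut.conj g • (P : Subgroup G)) := hx.2
    have hP'C : (MulAut.conj g • (P : Subgroup G)) ≤ Subgroup.centralizer ((P : Subgroup G) : Set G) := by
      intro w hw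
      rw [← hC x hxP hx1, Subgroup.mem_centralizer_singleton_iff]
      obtain ⟨a, ha, rfl⟩ := hw
      obtain ⟨b, hb, rfl⟩ := hxP'
      simp only [MulDistribMulAction.toMonoidEnd_apply, MulDistribMulAction.toMonoidHom_apply,
        MulAut.smul_def, MulAut.conj_apply]
      have := hcomm a ha b hb
      calc g * a * g⁻¹ * (g * b * g⁻¹) = g * (a * b) * g⁻¹ := by group
        _ = g * (b * a) * g⁻¹ := by rw [this]
        _ = g * b * g⁻¹ * (g * a * g⁻¹) := by group
    have hP'p : IsPGroup p (MulAut.conj g • (P : Subgroup G) : Subgroup G) := (g • P).2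
    have hsup : IsPGroup p ((MulAut.conj g • (P : Subgroup G)) ⊔ (P : Subgroup G) : Subgroup G) :=
      IsPGroup.to_sup_of_normal_right' hP'p P.2
        (hP'C.trans (Subgroup.centralizer_le_normalizer _))
    have h1 := P.3 hsup le_sup_right
    have h2 : (MulAut.conj g • (P : Subgroup G)) ≤ (P : Subgroup G) := le_sup_left.trans h1.le
    have h2' : ((g • P : Sylow p G) : Subgroup G) ≤ (P : Subgroup G) := h2
    have h3 : (P : Subgroup G) = ((g • P : Sylow p G) : Subgroup G) := (g • P).3 P.2 h2'
    exact Sylow.smul_eq_iff_mem_normalizer.mp (Sylow.ext h3.symm)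

end Cfsg.Agent.S3985
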