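import Cfsg.Statements.S3987
import Cfsg.Agent.S3986
import Mathlib

set_option autoImplicit false
open Cfsg

namespace Cfsg.Agent.S3987

/-- Let p be a prime and G a finite group. Then some Sylow p-subgroup of G is a direct factor of G (normal with a normal complement) if and only if for every element x of p-power order and every element y whose order is a power of a prime other than p, the conjugacy class of x y has as many elements as the product of the sizes of the classes of x and of y. -/
theorem result {G : Type*} [Group G] [Finite G] (p : ℕ) [Fact p.Prime] : (∃ (P : Sylow p G) (K : Subgroup G), (P : Subgroup G).Normal ∧ K.Normal ∧ (P : Subgroup G) ⊓ K = ⊥ ∧ (P : Subgroup G) ⊔ K = ⊤) ↔ ∀ x y : G, (∃ a : ℕ, orderOf x = p ^ a) → (∃ q b : ℕ, q.Prime ∧ q ≠ p ∧ orderOf y = q ^ b) → (Subgroup.centralizer ({x * y} : Set G)).index = (Subgroup.centralizer ({x} : Set G)).index * (Subgroup.centralizer ({y} : Set G)).index := by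
  have hp : p.Prime := Fact.out
  rw [Cfsg.Agent.S3986.result p]
  constructor
  · intro h x y hx hy
    have hxy : Commute x y := h x y hx hy
    obtain ⟨a, ha⟩ := hx
    obtain ⟨q, b, hq, hqp, hb⟩ := hy
    have hcop0 : Nat.Coprime (p ^ a) (q ^ b) :=
      Nat.Coprime.pow _ _ ((Nat.coprime_primes hp hq).mpr hqp.symm)
    have hC : Subgroup.centralizer ({x * y} : Set G) =
        Subgroup.centralizer ({x} : Set G) ⊓ Subgroup.centralizer ({y} : Set G) := by
      apply le_antisymm
      · intro g hg
        rw [Subgroup.mem_centralizer_singleton_iff] at hg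
        have hg' : Commute g (x * y) := hg
        refine ⟨?_, ?_⟩
        · obtain ⟨m, hm⟩ := exists_pow_eq_self_of_coprime (x := x) (n := q ^ b) (by rw [ha]; exact hcop0.symm)
          have h1 : (x * y) ^ q ^ b = x ^ q ^ b := by
            rw [hxy.mul_pow, ← hb, pow_orderOf_eq_one, mul_one]
          have h2 : Commute g x := by
            rw [← hm, ← h1]
            exact (hg'.pow_right _).pow_right _
          exact Subgroup.mem_centralizer_singleton_iff.mpr h2.eq
        · obtain ⟨m, hm⟩ := exists_pow_eq_self_of_coprime (x := y) (n := p ^ a) (by rw [hb]; exact hcop0)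
          have h1 : (x * y) ^ p ^ a = y ^ p ^ a := by
            rw [hxy.mul_pow, ← ha, pow_orderOf_eq_one, one_mul]
          have h2 : Commute g y := by
            rw [← hm, ← h1]
            exact (hg'.pow_right _).pow_right _
          exact Subgroup.mem_centralizer_singleton_iff.mpr h2.eq
      · rintro g ⟨h1, h2⟩
        have h1' : g ∈ Subgroup.centralizer ({x} : Set G) := h1
        have h2' : g ∈ Subgroup.centralizer ({y} : Set G) := h2
        rw [Subgroup.mem_centralizer_singleton_iff] at h1' h2' ⊢
        exact (Commute.mul_right (show Commute g x from h1') (show Commute g y from h2')).eq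
    rw [hC]
    -- indices are coprime
    obtain ⟨P⟩ : Nonempty (Sylow p G) := inferInstance
    have hPy : (P : Subgroup G) ≤ Subgroup.centralizer ({y} : Set G) := by
      intro u hu
      rw [Subgroup.mem_centralizer_singleton_iff]
      exact h u y (Cfsg.Agent.S3986.orderOf_of_mem_sylow P hu) ⟨q, b, hq, hqp, hb⟩
    have hy1 : ¬ p ∣ (Subgroup.centralizer ({y} : Set G)).index := fun hd =>
      P.not_dvd_index (hd.trans (Subgroup.index_dvd_of_le hPy))
    have hx1 : ∀ r : ℕ, r.Prime → r ∣ (Subgroup.centralizer ({x} : Set G)).index → r = p := by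
      intro r hr hrd
      by_contra hrp
      have := Fact.mk hr
      obtain ⟨R⟩ : Nonempty (Sylow r G) := inferInstance
      have hRx : (R : Subgroup G) ≤ Subgroup.centralizer ({x} : Set G) := by
        intro u hu
        rw [Subgroup.mem_centralizer_singleton_iff]
        obtain ⟨c, hc⟩ := Cfsg.Agent.S3986.orderOf_of_mem_sylow R hu
        exact (h x u ⟨a, ha⟩ ⟨r, c, hr, hrp, hc⟩).symm
      exact R.not_dvd_index (hrd.trans (Subgroup.index_dvd_of_le hRx))
    have hcop : Nat.Coprime (Subgroup.centralizer ({x} : Set G)).index
        (Subgroup.centralizer ({y} : Set G)).index := by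
      apply Nat.Coprime.symm
      apply Nat.coprime_of_dvd
      intro r hr h1 h2
      have := hx1 r hr h2
      subst this
      exact hy1 h1
    apply le_antisymm Subgroup.index_inf_le
    apply Nat.le_of_dvd (Nat.pos_of_ne_zero Subgroup.index_ne_zero_of_finite)
    exact hcop.mul_dvd_of_dvd_of_dvd (Subgroup.index_dvd_of_le inf_le_left)
      (Subgroup.index_dvd_of_le inf_le_right)
  · intro h x y hx hy
    have h1 := h x y hx hy
    have hle : Subgroup.centralizer ({x} : Set G) ⊓ Subgroup.centralizer ({y} : Set G) ≤
        Subgroup.centralizer ({x * y} : Set G) := by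
      rintro g ⟨h1, h2⟩
      have h1' : g ∈ Subgroup.centralizer ({x} : Set G) := h1
      have h2' : g ∈ Subgroup.centralizer ({y} : Set G) := h2
      rw [Subgroup.mem_centralizer_singleton_iff] at h1' h2' ⊢
      exact (Commute.mul_right (show Commute g x from h1') (show Commute g y from h2')).eq
    have h2 := Subgroup.index_inf_le (H := Subgroup.centralizer ({x} : Set G))
      (K := Subgroup.centralizer ({y} : Set G))
    rw [← h1] at h2
    have h3 := Subgroup.index_dvd_of_le hle
    have h4 : (Subgroup.centralizer ({x * y} : Set G)).index ≤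
        (Subgroup.centralizer ({x} : Set G) ⊓ Subgroup.centralizer ({y} : Set G)).index :=
      Nat.le_of_dvd (Nat.pos_of_ne_zero Subgroup.index_ne_zero_of_finite) h3
    have h5 : (Subgroup.centralizer ({x} : Set G) ⊓ Subgroup.centralizer ({y} : Set G)).index =
        (Subgroup.centralizer ({x * y} : Set G)).index := le_antisymm h2 h4
    have h6 : Subgroup.centralizer ({x} : Set G) ⊓ Subgroup.centralizer ({y} : Set G) =
        Subgroup.centralizer ({x * y} : Set G) := by
      apply Subgroup.eq_of_le_of_card_ge hle
      have e1 := (Subgroup.centralizer ({x} : Set G) ⊓ Subgroup.centralizer ({y} : Set G)).index_mul_card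
      have e2 := (Subgroup.centralizer ({x * y} : Set G)).index_mul_card
      rw [h5] at e1
      have hpos : 0 < (Subgroup.centralizer ({x * y} : Set G)).index :=
        Nat.pos_of_ne_zero Subgroup.index_ne_zero_of_finite
      exact (Nat.eq_of_mul_eq_mul_left hpos (e2.trans e1.symm)).le
    have h7 : x * y ∈ Subgroup.centralizer ({x * y} : Set G) :=
      Subgroup.mem_centralizer_singleton_iff.mpr rfl
    rw [← h6] at h7
    have h8 : x * y ∈ Subgroup.centralizer ({x} : Set G) := h7.1
    rw [Subgroup.mem_centralizer_singleton_iff] at h8
    -- x*y*x = x*(x*y)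
    have : y * x = x * y := by
      apply mul_left_cancel (a := x)
      rw [← mul_assoc, h8]
    exact this.symm

end Cfsg.Agent.S3987
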