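import Cfsg.Statements.S4013
-- import your own Cfsg.Agent.* helpers here

set_option autoImplicit false
open Cfsg

namespace Cfsg.Agent.S4013

/-- Let G be a finite p-group (p prime) and N < M normal subgroups of G such that for some g ∈ M ∖ N the conjugacy class of g is exactly M ∖ N. Then p = 2 and N has index 2 in M. -/
theorem result {G : Type*} [Group G] [Finite G] (p : ℕ) [Fact p.Prime] (hG : IsPGroup p G) (N M : Subgroup G) [N.Normal] [M.Normal] (hNM : N < M) (g : G) (hgM : g ∈ M) (hgN : g ∉ N) (hcl : {h : G | IsConj g h} = (M : Set G) \ (N : Set G)) : p = 2 ∧ N.relIndex M = 2 := by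
  have hp : p.Prime := Fact.out
  -- class size is a power of p
  have hG' : IsPGroup p (ConjAct G) := hG
  obtain ⟨n, hn⟩ := hG'.card_orbit g
  have horb : (MulAction.orbit (ConjAct G) g : Set G) = {h : G | IsConj g h} := by
    ext h
    rw [ConjAct.mem_orbit_conjAct]
    exact ⟨fun h' => h'.symm, fun h' => IsConj.symm h'⟩
  rw [horb, hcl] at hn
  -- cardinalities
  have hcardM : Nat.card N * N.relIndex M = Nat.card M := by
    have := Subgroup.relIndex_mul_relIndex ⊥ N M bot_le hNM.le
    simpa [Subgroup.relIndex_bot_left] using this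
  have hdiff : Nat.card ((M : Set G) \ (N : Set G) : Set G) + Nat.card N = Nat.card M := by
    have h1 : ((M : Set G) \ (N : Set G)).ncard + (N : Set G).ncard = (M : Set G).ncard :=
      Set.ncard_sdiff_add_ncard_of_subset hNM.le (Set.toFinite _)
    exact h1
  obtain ⟨i, hi⟩ : ∃ i, N.relIndex M = p ^ i := by
    obtain ⟨k, hk⟩ := (hG.to_subgroup M).exists_card_eq
    have : N.relIndex M ∣ p ^ k := hk ▸ Subgroup.relIndex_dvd_card N M
    obtain ⟨i, -, hi⟩ := (Nat.dvd_prime_pow hp).1 this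
    exact ⟨i, hi⟩
  have hNpos : 0 < Nat.card N := Nat.card_pos
  have hi0 : i ≠ 0 := by
    rintro rfl
    rw [pow_zero] at hi
    rw [hi, mul_one] at hcardM
    have : Nat.card ((M : Set G) \ (N : Set G) : Set G) = 0 := by omega
    rw [hn] at this
    exact (pow_pos hp.pos n).ne' this
  have hkey : Nat.card N * (p ^ i - 1) = p ^ n := by
    have h1 : 1 ≤ p ^ i := Nat.one_le_pow _ _ hp.pos
    rw [Nat.mul_sub, mul_one, ← hi, hcardM, ← hn]
    omega
  have hdvd : (p ^ i - 1) ∣ p ^ n := Dvd.intro_left _ hkey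
  obtain ⟨j, -, hj⟩ := (Nat.dvd_prime_pow hp).1 hdvd
  have hj0 : j = 0 := by
    by_contra hj0
    have h1 : p ∣ p ^ j := dvd_pow_self p hj0
    have h2 : p ∣ p ^ i := dvd_pow_self p hi0
    have h3 : 1 ≤ p ^ i := Nat.one_le_pow _ _ hp.pos
    have h4 : p ∣ 1 := by
      have : p ^ i = p ^ j + 1 := by omega
      rw [this] at h2
      exact (Nat.dvd_add_right h1).1 h2
    exact hp.one_lt.ne' (Nat.dvd_one.1 h4)
  subst hj0
  have h2 : p ^ i = 2 := by
    have h3 : 1 ≤ p ^ i := Nat.one_le_pow _ _ hp.pos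
    rw [pow_zero] at hj
    omega
  refine ⟨?_, by rw [hi, h2]⟩
  have : p ∣ 2 := h2 ▸ dvd_pow_self p hi0
  exact (Nat.prime_dvd_prime_iff_eq hp Nat.prime_two).1 this

end Cfsg.Agent.S4013
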