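import Cfsg.Statements.S4014
import Cfsg.Agent.Lib.Helper6.DLenA
import Cfsg.Agent.Lib.Helper6.DLenB

set_option autoImplicit false
open Cfsg

namespace Cfsg.Agent.S4014

open Cfsg.Agent.Lib.Helper6.EPow Cfsg.Agent.Lib.Helper6.DLen

/-- Let p be a prime, n ≥ 1, and P a Sylow p-subgroup of the symmetric group on n letters. Then the derived length of P is exactly k = ⌊log_p n⌋ (the largest k with p^k ≤ n): the k-th derived subgroup of P is trivial and, when k ≥ 1, the (k−1)-st is not. -/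
theorem result (p : ℕ) [Fact p.Prime] (n : ℕ) (hn : 1 ≤ n) (P : Sylow p (Equiv.Perm (Fin n))) : derivedSeries ↥(P : Subgroup (Equiv.Perm (Fin n))) (Nat.log p n) = ⊥ ∧ (1 ≤ Nat.log p n → derivedSeries ↥(P : Subgroup (Equiv.Perm (Fin n))) (Nat.log p n - 1) ≠ ⊥) := by
  refine ⟨upper p n (Fin n) (Fintype.card_fin n) P, fun hk => ?_⟩
  obtain ⟨k, hk'⟩ : ∃ k, Nat.log p n = k + 1 := ⟨Nat.log p n - 1, by omega⟩
  rw [hk', Nat.add_sub_cancel]
  obtain ⟨W, _, Λ, _, hfa, hfin, hΛ, hW, hd⟩ := exists_wr p k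
  have hp0 : 0 < p := (Fact.out : p.Prime).pos
  have hle : p ^ (k + 1) ≤ n := by rw [← hk']; exact Nat.pow_log_le_self p (by omega)
  have hΛfin : Finite Λ := Nat.finite_of_card_ne_zero (by rw [hΛ]; positivity)
  let e₀ : Λ ≃ Fin (p ^ (k + 1)) := Finite.equivFinOfCardEq hΛ
  let e : Λ ⊕ Fin (n - p ^ (k + 1)) ≃ Fin n :=
    (Equiv.sumCongr e₀ (Equiv.refl _)).trans (finSumFinEquiv.trans (finCongr (by omega)))
  let f : W →* Equiv.Perm (Fin n) := (Phi e).comp (MulAction.toPermHom W Λ)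
  have hf : Function.Injective f := (Phi_inj e).comp MulAction.toPerm_injective
  have hp : IsPGroup p ((⊤ : Subgroup W).map f) := IsPGroup.map (hW.to_subgroup ⊤) f
  obtain ⟨S', hS'⟩ := hp.exists_le_sylow
  let g : W →* ↥(P : Subgroup (Equiv.Perm (Fin n))) :=
    (Sylow.equiv S' P).toMonoidHom.comp
      (f.codRestrict (S' : Subgroup (Equiv.Perm (Fin n)))
        (fun w => hS' ⟨w, Subgroup.mem_top _, rfl⟩))
  have hg : Function.Injective g :=
    (Sylow.equiv S' P).injective.comp (by intro a b h; exact hf (congrArg Subtype.val h))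
  intro hb
  apply hd
  rw [eq_bot_iff]
  intro w hw
  have h1 := map_derivedSeries_le_derivedSeries g k (Subgroup.mem_map_of_mem g hw)
  rw [hb, Subgroup.mem_bot] at h1
  rw [Subgroup.mem_bot]
  exact hg (by rw [h1, map_one])

end Cfsg.Agent.S4014
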