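import Cfsg.Statements.S4015
import Cfsg.Agent.Lib.Helper6.DLenB
import Cfsg.Agent.Lib.Helper6.DLenE
import Cfsg.Agent.Lib.Helper6.DLenF

set_option autoImplicit false
open Cfsg

namespace Cfsg.Agent.S4015

open Cfsg.Agent.Lib.Helper6.EPow Cfsg.Agent.Lib.Helper6.EPowSL2 Cfsg.Agent.Lib.Helper6.DLen
open Cfsg.Agent.Lib.Helper6.SylLarge

section lin

variable {F K : Type*} [Field F] [Field K] [Algebra F K] {w : ℕ} {C : Type*} [Group C]

/-- base group -/
noncomputable def Th (γ : C →* Kˣ) : (Fin w → C) →* (Module.End F (Fin w → K))ˣ :=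
  MonoidHom.toHomUnits
  { toFun := fun f => LinearMap.pi
      (fun i => (LinearMap.mulLeft F ((γ (f i) : Kˣ) : K)) ∘ₗ LinearMap.proj i)
    map_one' := by
      apply LinearMap.ext; intro v; funext i
      simp
    map_mul' := fun f g => by
      apply LinearMap.ext; intro v; funext i
      simp [mul_assoc] }

theorem Th_apply (γ : C →* Kˣ) (f : Fin w → C) (v : Fin w → K) (i : Fin w) :
    (Th (F := F) γ f).val v i = ((γ (f i) : Kˣ) : K) * v i := rfl

/-- top group -/
noncomputable def Pp : Equiv.Perm (Fin w) →* (Module.End F (Fin w → K))ˣ :=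
  MonoidHom.toHomUnits
  { toFun := fun σ => LinearMap.funLeft F K (σ⁻¹ : Equiv.Perm (Fin w))
    map_one' := by
      apply LinearMap.ext; intro v; funext i
      simp [LinearMap.funLeft_apply]
    map_mul' := fun σ τ => by
      apply LinearMap.ext; intro v; funext i
      simp [LinearMap.funLeft_apply] }

theorem Pp_apply (σ : Equiv.Perm (Fin w)) (v : Fin w → K) (i : Fin w) :
    (Pp (F := F) σ).val v i = v (σ⁻¹ i) := rfl

theorem Pp_Th (γ : C →* Kˣ) (σ : Equiv.Perm (Fin w)) (f : Fin w → C) :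
    Pp (F := F) σ * Th γ f = Th γ (fun i => f (σ⁻¹ i)) * Pp σ := by
  apply Units.ext; apply LinearMap.ext; intro v; funext i
  rfl

theorem Th_eq_Pp (γ : C →* Kˣ) (hγ : Function.Injective γ) {f : Fin w → C}
    {σ : Equiv.Perm (Fin w)} (h : Th (F := F) γ f = Pp σ) : f = 1 := by
  funext i
  apply hγ
  apply Units.ext
  have h1 : (Th (F := F) γ f).val (fun _ => 1) i = (Pp (F := F) σ).val (fun _ => 1) i := by rw [h]
  rw [Th_apply, Pp_apply, mul_one] at h1
  rw [h1]
  simp

theorem Th_inj (γ : C →* Kˣ) (hγ : Function.Injective γ) :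
    Function.Injective (Th (F := F) (w := w) γ) := by
  intro f g h
  funext i
  apply hγ
  apply Units.ext
  have h1 : (Th (F := F) γ f).val (fun _ => 1) i = (Th (F := F) γ g).val (fun _ => 1) i := by
    rw [h]
  rw [Th_apply, Th_apply, mul_one, mul_one] at h1
  exact h1

theorem Pp_inj : Function.Injective (Pp (F := F) (K := K) (w := w)) := by
  intro σ τ h
  have : ∀ i, σ⁻¹ i = τ⁻¹ i := by
    intro i
    by_contra hne
    have h1 : (Pp (F := F) (K := K) σ).val (Pi.single (σ⁻¹ i) 1) i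
        = (Pp (F := F) (K := K) τ).val (Pi.single (σ⁻¹ i) 1) i := by rw [h]
    rw [Pp_apply, Pp_apply, Pi.single_eq_same, Pi.single_eq_of_ne (fun h => hne h.symm)] at h1
    exact one_ne_zero h1
  exact inv_injective (Equiv.ext this)

end lin

theorem upperGL (p : ℕ) [hp : Fact p.Prime] (hp2 : p ≠ 2) {F : Type*} [Field F] [Fintype F]
    (hpq : ¬ p ∣ Fintype.card F) (n : ℕ) (P : Sylow p (Matrix.GeneralLinearGroup (Fin n) F)) :
    derivedSeries ↥(P : Subgroup (Matrix.GeneralLinearGroup (Fin n) F))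
      (Nat.log p (n / orderOf ((Fintype.card F : ℕ) : ZMod p)) + 1) = ⊥ := by
  classical
  have hq1 : 1 < Fintype.card F := Fintype.one_lt_card
  have he : 0 < orderOf ((Fintype.card F : ℕ) : ZMod p) := d_pos hpq
  obtain ⟨e, hedef⟩ : ∃ e, e = orderOf ((Fintype.card F : ℕ) : ZMod p) := ⟨_, rfl⟩
  obtain ⟨w, hwdef⟩ : ∃ w, w = n / e := ⟨_, rfl⟩
  obtain ⟨a, hadef⟩ : ∃ a, a = padicValNat p (Fintype.card F ^ e - 1) := ⟨_, rfl⟩
  have hval : (Nat.card (Matrix.GeneralLinearGroup (Fin n) F)).factorization p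
      = w * a + padicValNat p w.factorial := by
    rw [Matrix.card_GL_field, val_GLp p _ hpq hq1, val_sum_p p _ hp2 hpq hq1, ← hedef, ← hwdef,
      ← hadef]
  rw [← hedef, ← hwdef]
  rw [← hedef] at he
  obtain ⟨p', hp'⟩ := CharP.exists F
  obtain ⟨_, hpp, -⟩ := FiniteField.card F p'
  have : Fact p'.Prime := ⟨hpp⟩
  have : NeZero e := ⟨he.ne'⟩
  let K := FiniteField.Extension F p' e
  have : Fintype K := Fintype.ofFinite K
  have hK : Fintype.card K = Fintype.card F ^ e := by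
    rw [← Nat.card_eq_fintype_card, FiniteField.natCard_extension, Nat.card_eq_fintype_card]
  have hdv : p ^ a ∣ Fintype.card F ^ e - 1 := by rw [hadef]; exact pow_padicValNat_dvd
  have hpa0 : p ^ a ≠ 0 := pow_ne_zero _ hp.out.ne_zero
  obtain ⟨ξ, hξ⟩ := exists_unit_order' (F := K) (p ^ a) (by rw [hK]; exact hdv)
  obtain ⟨c⟩ := cyc (G := Subgroup.zpowers ξ) (p ^ a) (by rw [Nat.card_zpowers, hξ])
  let γ : Multiplicative (ZMod (p ^ a)) →* Kˣ := (Subgroup.zpowers ξ).subtype.comp c.toMonoidHom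
  have hγ : Function.Injective γ := Subtype.val_injective.comp c.injective
  have hwe : w * e ≤ n := by rw [hwdef]; exact Nat.div_mul_le_self n e
  have hfr : Module.finrank F ((Fin w → K) × (Fin (n - w * e) → F)) = n := by
    rw [Module.finrank_prod, Module.finrank_pi_fintype, Module.finrank_fin_fun]
    simp [K, FiniteField.finrank_extension]
    omega
  let b := Module.finBasisOfFinrankEq F ((Fin w → K) × (Fin (n - w * e) → F)) hfr
  obtain ⟨Pw⟩ : Nonempty (Sylow p (Equiv.Perm (Fin w))) := inferInstance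
  let Fb := (toGLn b).comp (Th (F := F) (w := w) γ)
  let Ft := (toGLn b).comp (Pp (F := F) (K := K) (w := w))
  have hFb : Function.Injective Fb := (toGLn_inj b).comp (Th_inj γ hγ)
  have hFt : Function.Injective Ft := (toGLn_inj b).comp Pp_inj
  have hcX : Nat.card (Fin w → Multiplicative (ZMod (p ^ a))) = p ^ (a * w) := by
    rw [card_X (p ^ a) w hpa0, ← pow_mul]
  have hXp : IsPGroup p (Fin w → Multiplicative (ZMod (p ^ a))) := IsPGroup.of_card hcX
  have hN : ∀ t ∈ (Pw : Subgroup (Equiv.Perm (Fin w))).map Ft,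
      ∀ q ∈ ((⊤ : Subgroup _).map Fb), t * q * t⁻¹ ∈ ((⊤ : Subgroup _).map Fb) := by
    rintro _ ⟨σ, _, rfl⟩ _ ⟨v, _, rfl⟩
    refine ⟨fun i => v (σ⁻¹ i), Subgroup.mem_top _, ?_⟩
    rw [eq_mul_inv_iff_mul_eq]
    show toGLn b (Th γ _) * toGLn b (Pp σ) = toGLn b (Pp σ) * toGLn b (Th γ v)
    rw [← map_mul, ← map_mul, Pp_Th]
  have hD : ∀ x, x ∈ ((⊤ : Subgroup _).map Fb) →
      x ∈ (Pw : Subgroup (Equiv.Perm (Fin w))).map Ft → x = 1 := by
    rintro _ ⟨v, _, rfl⟩ ⟨σ, _, h⟩
    have h1 := Th_eq_Pp γ hγ (toGLn_inj b h).symm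
    rw [h1, map_one]
  obtain ⟨hRp, hRc⟩ := sup_facts _ _ (IsPGroup.map (hXp.to_subgroup ⊤) Fb)
    (IsPGroup.map Pw.isPGroup' Ft) hN hD
  obtain ⟨S₀, hS₀⟩ := hRp.exists_le_sylow
  have hEq : ((Pw : Subgroup (Equiv.Perm (Fin w))).map Ft ⊔ (⊤ : Subgroup _).map Fb) = S₀ := by
    apply Subgroup.eq_of_le_of_card_ge hS₀
    refine le_trans (le_of_eq ?_) hRc
    rw [Subgroup.card_map_of_injective hFb, Subgroup.card_map_of_injective hFt,
      Subgroup.card_top, hcX, Sylow.card_eq_multiplicity, Sylow.card_eq_multiplicity, hval,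
      Nat.card_eq_fintype_card, Fintype.card_perm, Fintype.card_fin,
      Nat.factorization_def _ hp.out, ← pow_add, mul_comm]
  have hTd : derivedSeries ↥((Pw : Subgroup (Equiv.Perm (Fin w))).map Ft) (Nat.log p w) = ⊥ :=
    ds_surj (Ft.subgroupMap _) (Ft.subgroupMap_surjective _) _
      (upper p w (Fin w) (Fintype.card_fin w) Pw)
  have hcomm : ∀ x ∈ ((⊤ : Subgroup _).map Fb), ∀ y ∈ ((⊤ : Subgroup _).map Fb),
      x * y = y * x := by
    rintro _ ⟨v, _, rfl⟩ _ ⟨v', _, rfl⟩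
    rw [← map_mul, ← map_mul, mul_comm]
  have h3 := ds_sup _ _ hN hcomm _ hTd
  exact ds_equiv ((MulEquiv.subgroupCongr hEq).trans (Sylow.equiv S₀ P)) _ h3

/-- Let p be an odd prime, F a finite field with q elements where p does not divide q, and e the multiplicative order of q modulo p. Let n ≥ e and write w = ⌊n/e⌋ and k = ⌊log_p w⌋. Then a Sylow p-subgroup of GL(n, F) has derived length exactly k + 1: its (k+1)-st derived subgroup is trivial and its k-th is not. -/
theorem result (p : ℕ) [Fact p.Prime] (hp : p ≠ 2) (F : Type*) [Field F] [Fintype F] (q : ℕ) (hq : Fintype.card F = q) (hpq : ¬ p ∣ q) (n : ℕ) (hn : orderOf (q : ZMod p) ≤ n) (P : Sylow p (Matrix.GeneralLinearGroup (Fin n) F)) : derivedSeries ↥(P : Subgroup (Matrix.GeneralLinearGroup (Fin n) F)) (Nat.log p (n / orderOf (q : ZMod p)) + 1) = ⊥ ∧ derivedSeries ↥(P : Subgroup (Matrix.GeneralLinearGroup (Fin n) F)) (Nat.log p (n / orderOf (q : ZMod p))) ≠ ⊥ := by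
  classical
  subst hq
  refine ⟨upperGL p hp hpq n P, ?_⟩
  have he : 0 < orderOf ((Fintype.card F : ℕ) : ZMod p) := d_pos hpq
  have hw0 : n / orderOf ((Fintype.card F : ℕ) : ZMod p) ≠ 0 := by
    have := Nat.div_pos hn he
    omega
  have hle : orderOf ((Fintype.card F : ℕ) : ZMod p)
      * p ^ (Nat.log p (n / orderOf ((Fintype.card F : ℕ) : ZMod p))) ≤ n :=
    (Nat.mul_le_mul_left _ (Nat.pow_log_le_self p hw0)).trans (Nat.mul_div_le n _)
  obtain ⟨D, _, f, hf, hpD, hd⟩ := exists_sub_GL (F := F) p _ he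
    ((dvd_iff hpq _).mpr dvd_rfl) _ n hle
  have hp' : IsPGroup p ((⊤ : Subgroup D).map f) := IsPGroup.map (hpD.to_subgroup ⊤) f
  obtain ⟨S', hS'⟩ := hp'.exists_le_sylow
  let g : D →* ↥(P : Subgroup (Matrix.GeneralLinearGroup (Fin n) F)) :=
    (Sylow.equiv S' P).toMonoidHom.comp
      (f.codRestrict (S' : Subgroup (Matrix.GeneralLinearGroup (Fin n) F))
        (fun w => hS' ⟨w, Subgroup.mem_top _, rfl⟩))
  have hg : Function.Injective g :=
    (Sylow.equiv S' P).injective.comp (by intro a b h; exact hf (congrArg Subtype.val h))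
  intro hb
  apply hd
  rw [eq_bot_iff]
  intro w hw
  have h1 := map_derivedSeries_le_derivedSeries g _ (Subgroup.mem_map_of_mem g hw)
  rw [hb, Subgroup.mem_bot] at h1
  rw [Subgroup.mem_bot]
  exact hg (by rw [h1, map_one])

end Cfsg.Agent.S4015
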