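import Cfsg.Statements.S4023
import Mathlib
import Cfsg.Agent.S3977
import Cfsg.Agent.S0100
import Cfsg.Agent.Lib.Helper18.UniqueInv
import Cfsg.Agent.Lib.Helper9.SupNorm
import Cfsg.Agent.Lib.Helper14.NormalChain
import Cfsg.Agent.Lib.Helper14.PGroupRel
import Cfsg.Agent.Lib.Helper14.NormalCyclic
import Cfsg.Agent.Lib.Helper4.Basic
import Cfsg.Agent.Lib.Helper23.HSub
-- import your own Cfsg.Agent.* helpers here

set_option autoImplicit false
open Cfsg

namespace Cfsg.Agent.S4023

open Cfsg.Agent.Lib.Helper14 Cfsg.Agent.Lib.Helper23.HSub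
open scoped commutatorElement

/-- in a finite cyclic group an element killed by the order of a subgroup lies in it -/
theorem cyc_mem {T : Type*} [Group T] [Finite T] [IsCyclic T] (H : Subgroup T) (t : T)
    (ht : t ^ (Nat.card H) = 1) : t ∈ H := by
  classical
  have := Fintype.ofFinite T
  have hd : 0 < Nat.card H := Nat.card_pos
  have h1 := IsCyclic.card_pow_eq_one_le (α := T) hd
  by_contra hcon
  have h2 : (insert t (Finset.univ.filter (fun a : T => a ∈ H))) ⊆
      Finset.univ.filter (fun a : T => a ^ Nat.card H = 1) := by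
    intro a ha
    rw [Finset.mem_insert] at ha
    rw [Finset.mem_filter]
    refine ⟨Finset.mem_univ _, ?_⟩
    rcases ha with rfl | ha
    · exact ht
    · have haH : a ∈ H := (Finset.mem_filter.mp ha).2
      have h3 := pow_card_eq_one' (G := H) (x := ⟨a, haH⟩)
      have h4 : a ^ Nat.card H = 1 := congrArg Subtype.val h3
      exact h4
  have h3 := Finset.card_le_card h2
  rw [Finset.card_insert_of_notMem (by simp [hcon])] at h3
  have h4 : (Finset.univ.filter (fun a : T => a ∈ H)).card = Nat.card H := by
    rw [Nat.card_eq_fintype_card, Fintype.card_subtype]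
  omega

/-- subgroups of equal order inside a cyclic subgroup coincide -/
theorem cyc_sub_eq {Q : Type*} [Group Q] [Finite Q] (T : Subgroup Q) (hT : IsCyclic T) (H K : Subgroup Q)
    (hH : H ≤ T) (hK : K ≤ T) (h : Nat.card H = Nat.card K) : H = K := by
  have key : ∀ H K : Subgroup Q, H ≤ T → K ≤ T → Nat.card H = Nat.card K → K ≤ H := by
    intro H K hH hK h k hk
    have h1 : (⟨k, hK hk⟩ : T) ^ (Nat.card (H.subgroupOf T)) = 1 := by
      rw [Nat.card_congr (Subgroup.subgroupOfEquivOfLe hH).toEquiv, h]
      apply Subtype.ext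
      have h3 := pow_card_eq_one' (G := K) (x := ⟨k, hk⟩)
      have h4 : k ^ Nat.card K = 1 := congrArg Subtype.val h3
      exact h4
    have h2 := cyc_mem (H.subgroupOf T) _ h1
    exact Subgroup.mem_subgroupOf.mp h2
  exact le_antisymm (key K H hK hH h.symm) (key H K hH hK h)


/-- a nonabelian `p`-group of exponent `p` in which subgroups of order `p ^ 3` are all commutative or all
noncommutative has order at most `p ^ 3`. -/
theorem caseB {Q : Type*} [Group Q] [Finite Q] {p : ℕ} [Fact p.Prime] (hQ : IsPGroup p Q)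
    (hcom : ∀ H K : Subgroup Q, Nat.card H = Nat.card K → IsMulCommutative H → IsMulCommutative K)
    (hexp : ∀ a : Q, a ^ p = 1) (hnc : ¬ IsMulCommutative Q) (n : ℕ) (hn : Nat.card Q = p ^ n) :
    n ≤ 3 := by
  have hp : p.Prime := Fact.out
  by_contra hn4
  rw [not_le] at hn4
  have htop : Nat.card (⊤ : Subgroup Q) = p ^ n := by rw [Subgroup.card_top, hn]
  obtain ⟨N, hNn, -, hNc⟩ := exists_normal_le_card p hQ ⊤ 2
    (by rw [htop]; exact Nat.pow_le_pow_right hp.pos (by omega))
  have := hNn
  have hidx := Cfsg.Agent.S0100.index_centralizer_dvd hQ N (by rw [hNc])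
  set C := Subgroup.centralizer (N : Set Q) with hC
  have hCcard : p ^ 3 ≤ Nat.card C := by
    have h1 := Subgroup.card_mul_index C
    have h2 : C.index ≤ p := Nat.le_of_dvd hp.pos hidx
    rw [hn] at h1
    have h3 : p ^ n ≤ Nat.card C * p := by rw [← h1]; exact Nat.mul_le_mul_left _ h2
    have h4 : p ^ 4 ≤ p ^ n := Nat.pow_le_pow_right hp.pos hn4
    have h5 : p ^ 4 = p ^ 3 * p := by ring
    rw [h5] at h4
    exact Nat.le_of_mul_le_mul_right (h4.trans h3) hp.pos
  have hNcomm : IsMulCommutative N := IsPGroup.isMulCommutative_of_card_eq_prime_sq hNc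
  have hNC : N ≤ C := by
    intro a ha
    rw [hC, Subgroup.mem_centralizer_iff]
    intro b hb
    exact congrArg Subtype.val (hNcomm.is_comm.comm ⟨b, hb⟩ ⟨a, ha⟩)
  obtain ⟨A, hNA, hAC, hAc⟩ := exists_between (hQ.to_subgroup C) hNC (m := 3)
    (by rw [hNc]; exact Nat.pow_le_pow_right hp.pos (by omega)) hCcard
  have hAcomm : IsMulCommutative A := by
    have hnorm : (N.subgroupOf A).Normal := inferInstance
    have hcq : Nat.card (↥A ⧸ N.subgroupOf A) = p := by
      have h1 := Subgroup.card_eq_card_quotient_mul_card_subgroup (N.subgroupOf A)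
      rw [hAc, Nat.card_congr (Subgroup.subgroupOfEquivOfLe hNA).toEquiv, hNc] at h1
      have h2 : p ^ 3 = p * p ^ 2 := by ring
      rw [h2] at h1
      exact (Nat.eq_of_mul_eq_mul_right (pow_pos hp.pos 2) h1).symm
    have : IsCyclic (↥A ⧸ N.subgroupOf A) := isCyclic_of_prime_card hcq
    apply MonoidHom.isMulCommutative_of_isCyclic_of_ker_le_center (QuotientGroup.mk' (N.subgroupOf A))
    rw [QuotientGroup.ker_mk']
    intro u hu
    rw [Subgroup.mem_center_iff]
    intro v
    apply Subtype.ext
    have h1 := (Subgroup.mem_centralizer_iff.mp (hAC v.2)) u.1 (Subgroup.mem_subgroupOf.mp hu)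
    exact h1.symm
  have hall3 : ∀ K : Subgroup Q, Nat.card K = p ^ 3 → IsMulCommutative K :=
    fun K hK => hcom A K (hAc.trans hK.symm) hAcomm
  have hZ : ¬ (⊤ : Subgroup Q) ≤ Subgroup.center Q := by
    intro h
    apply hnc
    refine ⟨⟨fun a b => ?_⟩⟩
    exact ((Subgroup.mem_center_iff.mp (h (Subgroup.mem_top b))) a)
  obtain ⟨y, -, hyZ, -, hyc⟩ := exists_rel_central_order_p p hQ (Subgroup.center Q) ⊤ hZ
  obtain ⟨x, hxy⟩ : ∃ x : Q, x * y ≠ y * x := by
    by_contra hcon
    push Not at hcon
    exact hyZ (Subgroup.mem_center_iff.mpr hcon)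
  obtain ⟨z, hz⟩ : ∃ z : Q, z = ⁅y, x⁆ := ⟨_, rfl⟩
  have hzc : z ∈ Subgroup.center Q := hz ▸ hyc x
  have hcardz : ∀ a : Q, Nat.card (Subgroup.zpowers a) ∣ p := by
    intro a
    rw [Nat.card_zpowers]
    exact orderOf_dvd_of_pow_eq_one (hexp a)
  have hzn : (Subgroup.zpowers z).Normal := by
    constructor
    intro a ha g
    have : a ∈ Subgroup.center Q := (Subgroup.zpowers_le.mpr hzc) ha
    have h2 := (Subgroup.mem_center_iff.mp this) g
    have : g * a * g⁻¹ = a := by rw [h2]; group
    rwa [this]
  set X := Subgroup.zpowers z ⊔ Subgroup.zpowers y with hX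
  have hXcard : Nat.card X ∣ p * p := by
    have h1 := Cfsg.Agent.Lib.Helper9.sup_card_dvd (X := Subgroup.zpowers z) (Y := Subgroup.zpowers y)
      (by rw [Subgroup.normalizer_eq_top]; exact le_top)
    exact h1.trans (Nat.mul_dvd_mul (hcardz z) (hcardz y))
  have hzX : z ∈ X := (le_sup_left : Subgroup.zpowers z ≤ X) (Subgroup.mem_zpowers z)
  have hyX : y ∈ X := (le_sup_right : Subgroup.zpowers y ≤ X) (Subgroup.mem_zpowers y)
  have hxX : x ∈ Subgroup.normalizer (X : Set Q) := by
    apply mem_normalizer_of_conj_mem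
    have hmap : X.map (MulAut.conj x).toMonoidHom ≤ X := by
      rw [hX, Subgroup.map_sup, MonoidHom.map_zpowers, MonoidHom.map_zpowers, sup_le_iff]
      constructor
      · rw [Subgroup.zpowers_le]
        have h2 := (Subgroup.mem_center_iff.mp hzc) x
        have : (MulAut.conj x).toMonoidHom z = z := by
          show x * z * x⁻¹ = z
          rw [h2]; group
        rw [this]; exact hzX
      · rw [Subgroup.zpowers_le]
        have : (MulAut.conj x).toMonoidHom y = z⁻¹ * y := by
          show x * y * x⁻¹ = z⁻¹ * y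
          rw [hz, commutatorElement_def]; group
        rw [this]; exact X.mul_mem (X.inv_mem hzX) hyX
    intro e he
    exact hmap ⟨e, he, rfl⟩
  have hKcard : Nat.card (X ⊔ Subgroup.zpowers x : Subgroup Q) ≤ p ^ 3 := by
    have h1 := Cfsg.Agent.Lib.Helper9.sup_card_dvd (X := X) (Y := Subgroup.zpowers x)
      (Subgroup.zpowers_le.mpr hxX)
    have h2 := h1.trans (Nat.mul_dvd_mul hXcard (hcardz x))
    have h3 : p * p * p = p ^ 3 := by ring
    rw [h3] at h2
    exact Nat.le_of_dvd (pow_pos hp.pos 3) h2
  obtain ⟨L, hKL, -, hLc⟩ := exists_between (hQ.to_subgroup ⊤) (le_top : X ⊔ Subgroup.zpowers x ≤ ⊤)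
    (m := 3) hKcard (by rw [htop]; exact Nat.pow_le_pow_right hp.pos (by omega))
  have hLcomm := hall3 L hLc
  have hxL : x ∈ L := hKL ((le_sup_right : Subgroup.zpowers x ≤ X ⊔ Subgroup.zpowers x)
    (Subgroup.mem_zpowers x))
  have hyL : y ∈ L := hKL ((le_sup_left : X ≤ X ⊔ Subgroup.zpowers x) hyX)
  exact hxy (congrArg Subtype.val (hLcomm.is_comm.comm ⟨x, hxL⟩ ⟨y, hyL⟩))


theorem pgroup_iso {Q : Type*} [Group Q] [Finite Q] {p : ℕ} [Fact p.Prime] (hQ : IsPGroup p Q)
    (hiso : ∀ H K : Subgroup Q, Nat.card H = Nat.card K → Nonempty (H ≃* K)) :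
    IsCyclic Q ∨ (IsMulCommutative Q ∧ ∀ a : Q, a ^ p = 1) ∨
      (p = 2 ∧ Nonempty (Q ≃* QuaternionGroup 2)) ∨
      (p ≠ 2 ∧ ¬ IsMulCommutative Q ∧ Nat.card Q = p ^ 3 ∧ Monoid.exponent Q = p) := by
  have hp : p.Prime := Fact.out
  have hcyc : ∀ H K : Subgroup Q, Nat.card H = Nat.card K → IsCyclic H → IsCyclic K := by
    intro H K h hH
    obtain ⟨e⟩ := hiso H K h
    exact isCyclic_of_surjective e e.surjective
  have hcom : ∀ H K : Subgroup Q, Nat.card H = Nat.card K → IsMulCommutative H →
      IsMulCommutative K := by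
    intro H K h hH
    obtain ⟨e⟩ := hiso H K h
    refine ⟨⟨fun a b => ?_⟩⟩
    apply e.symm.injective
    rw [map_mul, map_mul]
    exact hH.is_comm.comm _ _
  obtain ⟨n, hn⟩ := hQ.exists_card_eq
  by_cases hexp : ∀ a : Q, a ^ p = 1
  · by_cases hc : IsMulCommutative Q
    · exact Or.inr (Or.inl ⟨hc, hexp⟩)
    · refine Or.inr (Or.inr (Or.inr ⟨?_, hc, ?_, ?_⟩))
      · rintro rfl
        apply hc
        refine ⟨⟨fun a b => ?_⟩⟩
        have ha : a * a = 1 := by rw [← pow_two]; exact hexp a
        have hb : b * b = 1 := by rw [← pow_two]; exact hexp b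
        have hba : (b * a) * (b * a) = 1 := by rw [← pow_two]; exact hexp _
        calc a * b = (b * b) * (a * b) * (a * a) := by rw [ha, hb]; group
          _ = b * ((b * a) * (b * a)) * a := by group
          _ = b * a := by rw [hba]; group
      · have h3 := caseB hQ hcom hexp hc n hn
        have h4 : 3 ≤ n := by
          by_contra hlt
          apply hc
          have : n = 0 ∨ n = 1 ∨ n = 2 := by omega
          rcases this with rfl | rfl | rfl
          · have : Subsingleton Q := by
              rw [pow_zero] at hn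
              exact (Nat.card_eq_one_iff_unique.mp hn).1
            exact ⟨⟨fun a b => Subsingleton.elim _ _⟩⟩
          · rw [pow_one] at hn
            have := isCyclic_of_prime_card hn
            exact inferInstance
          · exact IsPGroup.isMulCommutative_of_card_eq_prime_sq hn
        rw [hn]; congr 1; omega
      · have h1 : Monoid.exponent Q ∣ p := Monoid.exponent_dvd_of_forall_pow_eq_one hexp
        rcases (Nat.dvd_prime hp).mp h1 with h | h
        · exfalso; apply hc
          have : Subsingleton Q := Monoid.exp_eq_one_iff.mp h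
          exact ⟨⟨fun a b => Subsingleton.elim _ _⟩⟩
        · exact h
  · push Not at hexp
    obtain ⟨w₀, hw₀⟩ := hexp
    obtain ⟨w, hw⟩ : ∃ w : Q, orderOf w = p ^ 2 := by
      obtain ⟨k, hk⟩ := (IsPGroup.iff_orderOf.mp hQ) w₀
      have hk2 : 2 ≤ k := by
        by_contra hlt
        apply hw₀
        have h1 : orderOf w₀ ∣ p := by
          rw [hk]
          have h2 : k ≤ 1 := by omega
          calc p ^ k ∣ p ^ 1 := pow_dvd_pow p h2
            _ = p := pow_one p
        exact orderOf_dvd_iff_pow_eq_one.mp h1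
      refine ⟨w₀ ^ (p ^ (k - 2)), ?_⟩
      rw [orderOf_pow_of_dvd (pow_pos hp.pos _).ne' (by rw [hk]; exact pow_dvd_pow p (by omega)), hk,
        Nat.pow_div (by omega) hp.pos]
      congr 1; omega
    have hn2 : 2 ≤ n := by
      have h1 : p ^ 2 ∣ p ^ n := by rw [← hw, ← hn]; exact orderOf_dvd_natCard w
      exact (Nat.pow_dvd_pow_iff_le_right hp.one_lt).mp h1
    have hall2 : ∀ K : Subgroup Q, Nat.card K = p ^ 2 → IsCyclic K := fun K hK =>
      hcyc (Subgroup.zpowers w) K (by rw [Nat.card_zpowers, hw, hK]) inferInstance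
    have hne : (⊤ : Subgroup Q) ≠ ⊥ := by
      intro h
      have h1 : w₀ ∈ (⊥ : Subgroup Q) := h ▸ Subgroup.mem_top w₀
      rw [Subgroup.mem_bot] at h1
      exact hw₀ (by rw [h1, one_pow])
    obtain ⟨z, -, hz1, hzc, hzp⟩ := exists_central_order_p p hQ ⊤ hne
    have hzo : orderOf z = p := orderOf_eq_prime hzp hz1
    have hzn : (Subgroup.zpowers z).Normal := by
      constructor
      intro a ha g
      have h1 : a ∈ Subgroup.center Q := (Subgroup.zpowers_le.mpr hzc) ha
      have h2 := (Subgroup.mem_center_iff.mp h1) g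
      have h3 : g * a * g⁻¹ = a := by rw [h2]; group
      rwa [h3]
    have huniq : ∀ X : Subgroup Q, Nat.card X = p → X = Subgroup.zpowers z := by
      intro X hX
      by_contra hne
      have h1 := Cfsg.Agent.Lib.Helper4.card_sup_mul_card_inf X (Subgroup.zpowers z)
      rw [hX, Nat.card_zpowers, hzo] at h1
      have h2 : Nat.card (X ⊓ Subgroup.zpowers z : Subgroup Q) = 1 := by
        have h3 : Nat.card (X ⊓ Subgroup.zpowers z : Subgroup Q) ∣ p := by
          rw [← hX]; exact Subgroup.card_dvd_of_le inf_le_left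
        rcases (Nat.dvd_prime hp).mp h3 with h | h
        · exact h
        · exfalso; apply hne
          have e1 : X ⊓ Subgroup.zpowers z = X :=
            Subgroup.eq_of_le_of_card_ge inf_le_left (by rw [h, hX])
          have e2 : X ⊓ Subgroup.zpowers z = Subgroup.zpowers z :=
            Subgroup.eq_of_le_of_card_ge inf_le_right (by rw [h, Nat.card_zpowers, hzo])
          exact e1.symm.trans e2
      rw [h2, mul_one, ← pow_two] at h1
      exact hne (cyc_sub_eq _ (hall2 _ h1) X _ le_sup_left le_sup_right
        (by rw [hX, Nat.card_zpowers, hzo]))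
    by_cases hp2 : p = 2
    · subst hp2
      by_cases h8 : ∃ v : Q, orderOf v = 8
      · obtain ⟨v, hv⟩ := h8
        left
        have hn3 : 3 ≤ n := by
          have h1 : 2 ^ 3 ∣ 2 ^ n := by
            rw [← hn]
            have := orderOf_dvd_natCard v
            rw [hv] at this
            exact this
          exact (Nat.pow_dvd_pow_iff_le_right (by norm_num)).mp h1
        have hall8 : ∀ K : Subgroup Q, Nat.card K = 8 → IsCyclic K := fun K hK =>
          hcyc (Subgroup.zpowers v) K (by rw [Nat.card_zpowers, hv, hK]) inferInstance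
        obtain ⟨N, hNn, -, hNc⟩ := exists_normal_le_card 2 hQ ⊤ 2
          (by rw [Subgroup.card_top, hn]; exact Nat.pow_le_pow_right (by norm_num) hn2)
        have := hNn
        have hzle : ∀ X : Subgroup Q, Nat.card X = 2 ^ 2 → Subgroup.zpowers z ≤ X := by
          intro X hX
          obtain ⟨Y, -, hY2, hY3⟩ := exists_between (hQ.to_subgroup X) (bot_le : ⊥ ≤ X) (m := 1)
            (by simp) (by rw [hX]; norm_num)
          rw [pow_one] at hY3
          rw [← huniq Y hY3]; exact hY2
        have huniq4 : ∀ X : Subgroup Q, Nat.card X = 2 ^ 2 → X = N := by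
          intro X hX
          by_contra hne
          have h1 := Cfsg.Agent.Lib.Helper4.card_sup_mul_card_inf X N
          rw [hX, hNc] at h1
          have h3 : Nat.card (X ⊓ N : Subgroup Q) ∣ 2 ^ 2 := by
            rw [← hX]; exact Subgroup.card_dvd_of_le inf_le_left
          have h4 : 2 ≤ Nat.card (X ⊓ N : Subgroup Q) := by
            have := Subgroup.card_le_of_le (le_inf (hzle X hX) (hzle N hNc))
            rwa [Nat.card_zpowers, hzo] at this
          have h5 : Nat.card (X ⊓ N : Subgroup Q) ≠ 4 := by
            intro h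
            apply hne
            have e1 : X ⊓ N = X := Subgroup.eq_of_le_of_card_ge inf_le_left (by rw [h, hX]; norm_num)
            have e2 : X ⊓ N = N := Subgroup.eq_of_le_of_card_ge inf_le_right (by rw [h, hNc]; norm_num)
            exact e1.symm.trans e2
          have h6 : Nat.card (X ⊓ N : Subgroup Q) = 2 := by
            obtain ⟨j, hj, hj2⟩ := (Nat.dvd_prime_pow Nat.prime_two).mp h3
            rw [hj2] at h4 h5 ⊢
            interval_cases j
            · norm_num at h4
            · norm_num
            · norm_num at h5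
          rw [h6] at h1
          have h7 : Nat.card (X ⊔ N : Subgroup Q) = 8 := by omega
          exact hne (cyc_sub_eq _ (hall8 _ h7) X N le_sup_left le_sup_right (by rw [hX, hNc]))
        exact Cfsg.Agent.S3977.result 2 n 2 Nat.prime_two hn (by norm_num) (by omega) (Or.inr le_rfl)
          (fun H K hH hK => by rw [huniq4 H hH, huniq4 K hK])
      · push Not at h8
        have hU : Cfsg.Agent.Lib.Helper18.UInv Q z := by
          refine ⟨fun x => hQ x, hz1, hzp, ?_⟩
          intro x hx
          by_cases hx1 : x = 1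
          · exact Or.inl hx1
          · right
            have hxo : orderOf x = 2 := orderOf_eq_prime hx hx1
            have h1 := huniq (Subgroup.zpowers x) (by rw [Nat.card_zpowers, hxo])
            have h2 : x ∈ Subgroup.zpowers z := h1 ▸ Subgroup.mem_zpowers x
            obtain ⟨k, hk⟩ := Subgroup.mem_zpowers_iff.mp h2
            rcases Int.even_or_odd k with he | ho
            · exact absurd (by rw [← hk]; exact zpow_even_eq_one hzp he) hx1
            · rw [← hk]; exact zpow_odd_eq_self hzp ho
        rcases hU.cyclic_or_quaternion with h | ⟨m, ⟨e⟩⟩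
        · exact Or.inl h
        · have ho : orderOf (e.symm (QuaternionGroup.a 1)) = 2 ^ (m + 1) := by
            rw [MulEquiv.orderOf_eq, QuaternionGroup.orderOf_a_one, pow_succ, mul_comm]
          have hm : m ≤ 1 := by
            by_contra hlt
            apply h8 ((e.symm (QuaternionGroup.a 1)) ^ (2 ^ (m - 2)))
            rw [orderOf_pow_of_dvd (by positivity) (by rw [ho]; exact pow_dvd_pow 2 (by omega)), ho,
              Nat.pow_div (by omega) (by norm_num)]
            rw [show m + 1 - (m - 2) = 3 by omega]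
          interval_cases m
          · left
            apply isCyclic_of_orderOf_eq_card w
            rw [hw, Nat.card_congr e.toEquiv, Nat.card_eq_fintype_card, QuaternionGroup.card]
            norm_num
          · exact Or.inr (Or.inr (Or.inl ⟨rfl, ⟨e⟩⟩))
    · left
      exact Cfsg.Agent.S3977.result p n 1 hp hn le_rfl (by omega) (Or.inl hp2)
        (fun H K hH hK => by rw [pow_one] at hH hK; rw [huniq H hH, huniq K hK])

/-- Let p be a prime and G a finite group in which any two p-subgroups of the same order are conjugate, with Sylow p-subgroup P. Then P is cyclic, or elementary abelian, or p = 2 and P is a quaternion group of order 8, or p is odd and P is non-abelian of order p³ and exponent p. -/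
theorem result {G : Type*} [Group G] [Finite G]
    {p : ℕ} [Fact p.Prime] (hC : ∀ H K : Subgroup G, IsPGroup p H → IsPGroup p K → Nat.card H = Nat.card K →
      ∃ g : G, K = H.map (MulAut.conj g).toMonoidHom) (P : Sylow p G) :
    IsCyclic P ∨ Cfsg.IsElementaryAbelian p (P : Subgroup G) ∨
      (p = 2 ∧ Nonempty ((P : Subgroup G) ≃* QuaternionGroup 2)) ∨
      (p ≠ 2 ∧ ¬ IsMulCommutative P ∧ Nat.card P = p ^ 3 ∧ Monoid.exponent P = p) := by
  have hiso : ∀ H K : Subgroup ↥(P : Subgroup G), Nat.card H = Nat.card K → Nonempty (H ≃* K) := by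
    intro H K h
    have eH := H.equivMapOfInjective (P : Subgroup G).subtype (Subgroup.subtype_injective _)
    have eK := K.equivMapOfInjective (P : Subgroup G).subtype (Subgroup.subtype_injective _)
    obtain ⟨g, hg⟩ := hC (H.map (P : Subgroup G).subtype) (K.map (P : Subgroup G).subtype)
      (P.isPGroup'.to_le (Subgroup.map_subtype_le _)) (P.isPGroup'.to_le (Subgroup.map_subtype_le _))
      (by rw [← Nat.card_congr eH.toEquiv, ← Nat.card_congr eK.toEquiv, h])
    have e2 := (H.map (P : Subgroup G).subtype).equivMapOfInjective (MulAut.conj g).toMonoidHom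
      (MulAut.conj g).injective
    rw [← hg] at e2
    exact ⟨(eH.trans e2).trans eK.symm⟩
  rcases pgroup_iso P.isPGroup' hiso with h | ⟨h1, h2⟩ | h | h
  · exact Or.inl h
  · refine Or.inr (Or.inl ⟨h1, fun a ha => ?_⟩)
    have h3 : a ^ p = 1 := congrArg Subtype.val (h2 ⟨a, ha⟩)
    exact h3
  · exact Or.inr (Or.inr (Or.inl h))
  · exact Or.inr (Or.inr (Or.inr h))

end Cfsg.Agent.S4023
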