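import Cfsg.Statements.S4024
import Mathlib
import Cfsg.Agent.S4023
import Cfsg.Agent.Lib.Helper13.PPrimeP
import Cfsg.Agent.Lib.Helper5.PConstrained
import Cfsg.Agent.Lib.Helper5.PPrimeQuot
import Cfsg.Agent.Lib.Helper5.PSolv
import Cfsg.Agent.Lib.Helper14.PGroupRel
-- import your own Cfsg.Agent.* helpers here

set_option autoImplicit false
open Cfsg

namespace Cfsg.Agent.S4024

open Cfsg.Agent.Lib.Helper5 Cfsg.Agent.Lib.Helper13 Cfsg.Agent.Lib.Helper14

/-- a normal subgroup containing an element of order `p` contains all of them. -/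
theorem mem_of_conj {G : Type*} [Group G] [Finite G] {p : ℕ} [Fact p.Prime]
    (hC : ∀ H K : Subgroup G, IsPGroup p H → IsPGroup p K → Nat.card H = Nat.card K →
      ∃ g : G, K = H.map (MulAut.conj g).toMonoidHom)
    (N : Subgroup G) [N.Normal] (r : G) (hr : r ∈ N) (hro : orderOf r = p) (a : G) (ha : a ^ p = 1) :
    a ∈ N := by
  have hp : p.Prime := Fact.out
  by_cases ha1 : a = 1
  · rw [ha1]; exact one_mem _
  have hao : orderOf a = p := orderOf_eq_prime ha ha1
  have hpg : ∀ b : G, orderOf b = p → IsPGroup p (Subgroup.zpowers b) := by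
    intro b hb
    apply IsPGroup.of_card (n := 1)
    rw [Nat.card_zpowers, hb, pow_one]
  obtain ⟨g, hg⟩ := hC (Subgroup.zpowers r) (Subgroup.zpowers a) (hpg r hro) (hpg a hao)
    (by rw [Nat.card_zpowers, Nat.card_zpowers, hro, hao])
  have h1 : a ∈ (Subgroup.zpowers r).map (MulAut.conj g).toMonoidHom := hg ▸ Subgroup.mem_zpowers a
  obtain ⟨b, hb, rfl⟩ := h1
  have hbN : b ∈ N := (Subgroup.zpowers_le.mpr hr) hb
  exact ‹N.Normal›.conj_mem b hbN g

/-- a normal `p`-solvable subgroup of order divisible by `p` forces an element of order `p` in `O_{p',p}(G)`. -/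
theorem exists_order_p {G : Type*} [Group G] [Finite G] {p : ℕ} [Fact p.Prime]
    (H : Subgroup G) [H.Normal] (hsolv : Cfsg.IsPSolvable p H) (hdiv : p ∣ Nat.card H) :
    ∃ r ∈ Cfsg.pPrimePCore p G, orderOf r = p := by
  have hp : p.Prime := Fact.out
  set D := Cfsg.pPrimeCore p G with hD
  let π := QuotientGroup.mk' D
  have hπ : Function.Surjective π := QuotientGroup.mk'_surjective D
  set Hb := H.map π with hHb
  have hHbn : Hb.Normal := Subgroup.Normal.map inferInstance π hπ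
  have hsb : Cfsg.IsPSolvable p ↥Hb :=
    isPSolvable_of_surjective (π.subgroupMap H) (π.subgroupMap_surjective H) hsolv
  have hT : Cfsg.pPrimeCore p ↥Hb = ⊥ := by
    have hch : (Cfsg.pPrimeCore p ↥Hb).Characteristic := pPrimeCore_characteristic
    have hn : ((Cfsg.pPrimeCore p ↥Hb).map Hb.subtype).Normal := inferInstance
    have hc : (Nat.card ((Cfsg.pPrimeCore p ↥Hb).map Hb.subtype)).Coprime p := by
      rw [← Nat.card_congr ((Cfsg.pPrimeCore p ↥Hb).equivMapOfInjective Hb.subtype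
        Hb.subtype_injective).toEquiv]
      exact pPrimeCore_coprime
    have h1 := le_pPrimeCore hn hc
    rw [pPrimeCore_quot_pPrimeCore, le_bot_iff] at h1
    exact (Subgroup.map_eq_bot_iff_of_injective _ Hb.subtype_injective).mp h1
  have hcen := centralizer_pCore_le hsb hT
  have hne : Cfsg.pCore p ↥Hb ≠ ⊥ := by
    intro h
    rw [h] at hcen
    have h1 : (⊤ : Subgroup ↥Hb) ≤ ⊥ := by
      refine le_trans ?_ hcen
      intro x _
      rw [Subgroup.mem_centralizer_iff]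
      intro y hy
      have : y = 1 := hy
      rw [this]; simp
    have h2 : H ≤ D := by
      intro x hx
      have h3 : (⟨π x, ⟨x, hx, rfl⟩⟩ : ↥Hb) ∈ (⊥ : Subgroup ↥Hb) := h1 (Subgroup.mem_top _)
      rw [Subgroup.mem_bot] at h3
      have h4 : π x = 1 := congrArg Subtype.val h3
      exact (QuotientGroup.eq_one_iff x).mp h4
    have h3 := Subgroup.card_dvd_of_le h2
    have h4 : (Nat.card D).Coprime p := pPrimeCore_coprime
    exact hp.one_lt.ne' (Nat.eq_one_of_dvd_coprimes h4 (hdiv.trans h3) dvd_rfl)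
  have hU : (Cfsg.pCore p ↥Hb).map Hb.subtype ≤ Cfsg.pCore p (G ⧸ D) := by
    have hch : (Cfsg.pCore p ↥Hb).Characteristic := pCore_characteristic
    have hn : ((Cfsg.pCore p ↥Hb).map Hb.subtype).Normal := inferInstance
    apply le_pCore hn
    exact (pCore_isPGroup (p := p) (G := ↥Hb)).map Hb.subtype
  obtain ⟨⟨v, hv⟩, hv1⟩ := Subgroup.ne_bot_iff_exists_ne_one.mp hne
  have hvb : (v : G ⧸ D) ∈ Cfsg.pCore p (G ⧸ D) := hU ⟨v, hv, rfl⟩
  have hvne : (v : G ⧸ D) ≠ 1 := by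
    intro h
    apply hv1
    apply Subtype.ext
    apply Subtype.ext
    exact h
  obtain ⟨u, hu⟩ := hπ (v : G ⧸ D)
  have huL : u ∈ Cfsg.pPrimePCore p G := by
    rw [Cfsg.Agent.Lib.Helper10.mem_pPrimePCore_iff]
    show π u ∈ _
    rw [hu]; exact hvb
  have hpv : p ∣ orderOf (v : G ⧸ D) := by
    obtain ⟨k, hk⟩ := (pCore_isPGroup (p := p) (G := G ⧸ D)) ⟨_, hvb⟩
    have hk' : (v : G ⧸ D) ^ (p ^ k) = 1 := congrArg Subtype.val hk
    obtain ⟨j, -, hj⟩ := (Nat.dvd_prime_pow hp).mp (orderOf_dvd_of_pow_eq_one hk')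
    rcases Nat.eq_zero_or_pos j with rfl | hj0
    · rw [pow_zero, orderOf_eq_one_iff] at hj
      exact absurd hj hvne
    · rw [hj]; exact dvd_pow_self p hj0.ne'
  have hpu : p ∣ orderOf u := by
    have := orderOf_map_dvd π u
    rw [hu] at this
    exact hpv.trans this
  exact ⟨u ^ (orderOf u / p), Subgroup.pow_mem _ huL _,
    orderOf_pow_orderOf_div (orderOf_pos u).ne' hpu⟩

/-- Let p be an odd prime and G a finite group in which any two p-subgroups of the same order are conjugate, with Sylow p-subgroup P. If H is a normal p-solvable subgroup of G whose order is divisible by p, then P is abelian, and either P ≤ H or P is cyclic. -/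
theorem result {G : Type*} [Group G] [Finite G]
    {p : ℕ} [Fact p.Prime] (hp : p ≠ 2) (hC : ∀ H K : Subgroup G, IsPGroup p H → IsPGroup p K → Nat.card H = Nat.card K →
      ∃ g : G, K = H.map (MulAut.conj g).toMonoidHom) (P : Sylow p G)
    (H : Subgroup G) [H.Normal] (hsolv : Cfsg.IsPSolvable p H) (hdiv : p ∣ Nat.card H) :
    IsMulCommutative P ∧ ((P : Subgroup G) ≤ H ∨ IsCyclic P) := by
  have hpp : p.Prime := Fact.out
  obtain ⟨⟨r, hrH⟩, hro⟩ := exists_prime_orderOf_dvd_card' (G := ↥H) p hdiv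
  rw [Subgroup.orderOf_mk] at hro
  rcases Cfsg.Agent.S4023.result hC P with h | ⟨h1, h2⟩ | ⟨h1, -⟩ | ⟨-, hnc, hcard, hexp⟩
  · exact ⟨inferInstance, Or.inr h⟩
  · exact ⟨h1, Or.inl fun a ha => mem_of_conj hC H r hrH hro a (h2 a ha)⟩
  · exact absurd h1 hp
  · exfalso
    have hexp' : ∀ a ∈ (P : Subgroup G), a ^ p = 1 := by
      intro a ha
      have h1 := Monoid.pow_exponent_eq_one (⟨a, ha⟩ : ↥(P : Subgroup G))
      rw [hexp] at h1
      exact congrArg Subtype.val h1
    have hLn := Cfsg.Agent.Lib.Helper10.pPrimePCore_normal (X := G) p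
    obtain ⟨s, hsL, hso⟩ := exists_order_p H hsolv hdiv
    have hPL : (P : Subgroup G) ≤ Cfsg.pPrimePCore p G :=
      fun a ha => mem_of_conj hC _ s hsL hso a (hexp' a ha)
    have hne : (⊤ : Subgroup ↥(P : Subgroup G)) ≠ ⊥ := by
      intro h
      apply hnc
      refine ⟨⟨fun a b => ?_⟩⟩
      have ha : a ∈ (⊥ : Subgroup ↥(P : Subgroup G)) := h ▸ Subgroup.mem_top a
      rw [Subgroup.mem_bot] at ha
      rw [ha]; simp
    obtain ⟨⟨z, hzP⟩, -, hz1, hzc, hzp⟩ := exists_central_order_p p P.isPGroup' ⊤ hne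
    have hz1' : z ≠ 1 := fun h => hz1 (Subtype.ext h)
    have hzp' : z ^ p = 1 := congrArg Subtype.val hzp
    have hzo : orderOf z = p := orderOf_eq_prime hzp' hz1'
    have hzc' : ∀ b ∈ (P : Subgroup G), b * z = z * b := fun b hb =>
      congrArg Subtype.val ((Subgroup.mem_center_iff.mp hzc) ⟨b, hb⟩)
    obtain ⟨y, hyP, b₀, hb₀, hyb⟩ : ∃ y ∈ (P : Subgroup G), ∃ b ∈ (P : Subgroup G), b * y ≠ y * b := by
      by_contra hcon
      push Not at hcon
      apply hnc
      exact ⟨⟨fun a b => Subtype.ext (hcon b.1 b.2 a.1 a.2)⟩⟩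
    have hy1 : y ≠ 1 := by
      rintro rfl
      simp at hyb
    have hyo : orderOf y = p := orderOf_eq_prime (hexp' y hyP) hy1
    have hpg : ∀ b : G, orderOf b = p → IsPGroup p (Subgroup.zpowers b) := by
      intro b hb
      apply IsPGroup.of_card (n := 1)
      rw [Nat.card_zpowers, hb, pow_one]
    obtain ⟨g, hg⟩ := hC (Subgroup.zpowers z) (Subgroup.zpowers y) (hpg z hzo) (hpg y hyo)
      (by rw [Nat.card_zpowers, Nat.card_zpowers, hzo, hyo])
    have h1 : y ∈ (Subgroup.zpowers z).map (MulAut.conj g).toMonoidHom := hg ▸ Subgroup.mem_zpowers y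
    obtain ⟨c, hc, hcy⟩ := h1
    have hcy' : g * c * g⁻¹ = y := hcy
    have hcP : c ∈ (P : Subgroup G) := (Subgroup.zpowers_le.mpr hzP) hc
    have hcc : ∀ b ∈ (P : Subgroup G), b * c = c * b := by
      intro b hb
      obtain ⟨k, rfl⟩ := Subgroup.mem_zpowers_iff.mp hc
      exact ((Commute.zpow_right (hzc' b hb) k) : _)
    obtain ⟨d, hd, hgd⟩ := pp_frattini P g
    rw [inf_eq_left.mpr hPL] at hgd
    set n := g * d with hn
    have hDn : (Cfsg.pPrimeCore p G).Normal := inferInstance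
    have hc' : d⁻¹ * c * d ∈ (P : Subgroup G) := by
      have h2 : n⁻¹ * y * n⁻¹⁻¹ ∈ (P : Subgroup G) :=
        (Subgroup.mem_normalizer_iff.mp (inv_mem hgd) y).mp hyP
      have h3 : n⁻¹ * y * n⁻¹⁻¹ = d⁻¹ * c * d := by rw [hn, ← hcy']; group
      rwa [h3] at h2
    have hmem : c⁻¹ * (d⁻¹ * c * d) ∈ (P : Subgroup G) ⊓ Cfsg.pPrimeCore p G := by
      refine Subgroup.mem_inf.mpr ⟨(P : Subgroup G).mul_mem ((P : Subgroup G).inv_mem hcP) hc', ?_⟩
      have h2 : c⁻¹ * d⁻¹ * c⁻¹⁻¹ ∈ Cfsg.pPrimeCore p G := hDn.conj_mem _ (inv_mem hd) _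
      have h3 : c⁻¹ * (d⁻¹ * c * d) = (c⁻¹ * d⁻¹ * c⁻¹⁻¹) * d := by group
      rw [h3]; exact mul_mem h2 hd
    rw [disjoint_pGroup_coprime P.isPGroup' pPrimeCore_coprime, Subgroup.mem_bot] at hmem
    have hdc : d⁻¹ * c * d = c := by
      have : d⁻¹ * c * d = c * (c⁻¹ * (d⁻¹ * c * d)) := by group
      rw [this, hmem, mul_one]
    have hy : y = n * c * n⁻¹ := by
      rw [← hcy', hn]
      have : g * d * c * (g * d)⁻¹ = g * (d⁻¹⁻¹ * c * d⁻¹) * g⁻¹ := by group
      rw [this]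
      have h4 : d⁻¹⁻¹ * c * d⁻¹ = c := by
        calc d⁻¹⁻¹ * c * d⁻¹ = d * (d⁻¹ * c * d) * d⁻¹ := by rw [hdc]; group
          _ = c := by group
      rw [h4]
    apply hyb
    have hb' : n⁻¹ * b₀ * n⁻¹⁻¹ ∈ (P : Subgroup G) :=
      (Subgroup.mem_normalizer_iff.mp (inv_mem hgd) b₀).mp hb₀
    have h5 := hcc _ hb'
    rw [hy]
    calc b₀ * (n * c * n⁻¹) = n * ((n⁻¹ * b₀ * n⁻¹⁻¹) * c) * n⁻¹ := by group
      _ = n * (c * (n⁻¹ * b₀ * n⁻¹⁻¹)) * n⁻¹ := by rw [h5]
      _ = n * c * n⁻¹ * b₀ := by group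

end Cfsg.Agent.S4024
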