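import Cfsg.Statements.S4020
import Mathlib
import Cfsg.Agent.S4024
import Cfsg.Agent.Lib.Lead.ZS10
-- import your own Cfsg.Agent.* helpers here

set_option autoImplicit false
open Cfsg

namespace Cfsg.Agent.S4020

open Subgroup

/-- non-abelian groups of order `p ^ 3`: the centre has order `p` and contains all commutators. -/
theorem p3_struct {Q : Type*} [Group Q] [Finite Q] {p : ℕ} [Fact p.Prime] (hc : Nat.card Q = p ^ 3)
    (hn : ¬ ∀ a b : Q, a * b = b * a) :
    Nat.card (center Q) = p ∧ ∀ u v : Q, u * v * u⁻¹ * v⁻¹ ∈ center Q := by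
  have hp : p.Prime := Fact.out
  have hQ : IsPGroup p Q := IsPGroup.of_card hc
  haveI : Nontrivial Q := by
    rw [← Finite.one_lt_card_iff_nontrivial, hc]
    exact Nat.one_lt_pow (by norm_num) hp.one_lt
  have hnt := hQ.center_nontrivial
  have hdvd : Nat.card (center Q) ∣ p ^ 3 := hc ▸ Subgroup.card_subgroup_dvd_card _
  obtain ⟨k, hk3, hk⟩ := (Nat.dvd_prime_pow hp).1 hdvd
  have hidx : Nat.card (Q ⧸ center Q) * p ^ k = p ^ 3 := by
    rw [← hk, ← hc, mul_comm]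
    exact (Subgroup.card_eq_card_quotient_mul_card_subgroup (center Q)).symm ▸ (mul_comm _ _)
  have hk1 : k = 1 := by
    interval_cases k
    · exfalso
      rw [pow_zero] at hk
      have := (Finite.one_lt_card_iff_nontrivial (α := center Q)).2 hnt
      omega
    · rfl
    · exfalso
      have h1 : Nat.card (Q ⧸ center Q) = p := by
        have : Nat.card (Q ⧸ center Q) * p ^ 2 = p * p ^ 2 := by rw [hidx]; ring
        exact Nat.eq_of_mul_eq_mul_right (pow_pos hp.pos 2) this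
      haveI : IsCyclic (Q ⧸ center Q) := isCyclic_of_prime_card h1
      exact hn (commutative_of_cyclic_center_quotient (QuotientGroup.mk' (center Q)) (by simp))
    · exfalso
      have h1 : center Q = ⊤ := Subgroup.eq_top_of_card_eq _ (by rw [hk, hc])
      apply hn
      intro a b
      have : b ∈ center Q := h1 ▸ mem_top b
      exact mem_center_iff.1 this a
  subst hk1
  rw [pow_one] at hk
  refine ⟨hk, ?_⟩
  have h2 : Nat.card (Q ⧸ center Q) = p ^ 2 := by
    have : Nat.card (Q ⧸ center Q) * p ^ 1 = p ^ 2 * p ^ 1 := by rw [hidx]; ring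
    exact Nat.eq_of_mul_eq_mul_right (pow_pos hp.pos 1) this
  have hcm := IsPGroup.commutative_of_card_eq_prime_sq h2
  intro u v
  rw [← QuotientGroup.eq_one_iff]
  have := hcm (u : Q ⧸ center Q) (v : Q ⧸ center Q)
  rw [QuotientGroup.mk_mul, QuotientGroup.mk_mul, QuotientGroup.mk_mul, QuotientGroup.mk_inv,
    QuotientGroup.mk_inv, this]
  group

/-- conjugating repeatedly: if `y z y⁻¹ = c z` with `c` commuting with `y`, then
`y ^ n z y ^ (-n) = c ^ n z`. -/
theorem conj_pow_mul {Q : Type*} [Group Q] (y z c : Q) (h : y * z * y⁻¹ = c * z) (hc : y * c = c * y)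
    (n : ℕ) : y ^ n * z * (y ^ n)⁻¹ = c ^ n * z := by
  induction n with
  | zero => simp
  | succ n ih =>
    have h1 : y ^ (n + 1) * z * (y ^ (n + 1))⁻¹ = y * (y ^ n * z * (y ^ n)⁻¹) * y⁻¹ := by
      rw [pow_succ']; group
    have h2 : y * c ^ n = c ^ n * y := (Commute.pow_right (show Commute y c from hc) n).eq
    rw [h1, ih]
    calc y * (c ^ n * z) * y⁻¹ = (y * c ^ n) * z * y⁻¹ := by group
      _ = c ^ n * (y * z * y⁻¹) := by rw [h2]; group
      _ = c ^ (n + 1) * z := by rw [h, pow_succ]; group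

/-- an inverting element: odd powers still invert. -/
theorem inv_pow_odd {Q : Type*} [Group Q] (t a : Q) (h : t * a * t⁻¹ = a⁻¹) (m : ℕ) :
    t ^ (2 * m + 1) * a * (t ^ (2 * m + 1))⁻¹ = a⁻¹ := by
  induction m with
  | zero => simpa using h
  | succ m ih =>
    have h1 : t ^ (2 * (m + 1) + 1) * a * (t ^ (2 * (m + 1) + 1))⁻¹
        = t * (t * (t ^ (2 * m + 1) * a * (t ^ (2 * m + 1))⁻¹) * t⁻¹) * t⁻¹ := by
      have : 2 * (m + 1) + 1 = (2 * m + 1) + 1 + 1 := by ring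
      rw [this, pow_succ', pow_succ']; group
    have h2 : t * a⁻¹ * t⁻¹ = a := by
      have : t * a⁻¹ * t⁻¹ = (t * a * t⁻¹)⁻¹ := by group
      rw [this, h, inv_inv]
    rw [h1, ih, h2, h]

/-- an element killed by an odd prime power `p` and lying with its square in a subgroup. -/
theorem mem_of_sq_mem {Q : Type*} [Group Q] (N : Subgroup Q) (a : Q) {p : ℕ} (hp : Odd p)
    (ha : a ^ p = 1) (h2 : a ^ 2 ∈ N) : a ∈ N := by
  obtain ⟨m, rfl⟩ := hp
  have : a = ((a ^ 2) ^ m)⁻¹ := by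
    rw [eq_inv_iff_mul_eq_one, ← pow_mul, ← pow_succ']; exact ha
  rw [this]
  exact N.inv_mem (N.pow_mem h2 m)

set_option maxRecDepth 100000 in
theorem q8_pow_four : ∀ x : QuaternionGroup 2, x ^ 4 = 1 := by decide

set_option maxRecDepth 100000 in
theorem q8_unique_inv : ∀ x y : QuaternionGroup 2, x ^ 2 = 1 → x ≠ 1 → y ^ 2 = 1 → y ≠ 1 → x = y := by
  decide

/-- powers of an inverting element fix or invert. -/
theorem inv_pow_cases {Q : Type*} [Group Q] (t a : Q) (h : t * a * t⁻¹ = a⁻¹) (k : ℕ) :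
    t ^ k * a * (t ^ k)⁻¹ = a ∨ t ^ k * a * (t ^ k)⁻¹ = a⁻¹ := by
  induction k with
  | zero => left; simp
  | succ k ih =>
    have h1 : t ^ (k + 1) * a * (t ^ (k + 1))⁻¹ = t * (t ^ k * a * (t ^ k)⁻¹) * t⁻¹ := by
      rw [pow_succ']; group
    have h2 : t * a⁻¹ * t⁻¹ = a := by
      have : t * a⁻¹ * t⁻¹ = (t * a * t⁻¹)⁻¹ := by group
      rw [this, h, inv_inv]
    rcases ih with ih | ih
    · right; rw [h1, ih, h]
    · left; rw [h1, ih, h2]

theorem final {G : Type*} [Group G] [Finite G]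
    (hD : ∀ p : ℕ, p.Prime → ∀ H K : Subgroup G, IsPGroup p H → IsPGroup p K → Nat.card H = Nat.card K →
      ∃ g : G, K = H.map (MulAut.conj g).toMonoidHom) {p : ℕ} [Fact p.Prime] (hp2 : p ≠ 2)
    (A B Y Z : G) (hA1 : A ≠ 1) (hAp : A ^ p = 1) (hBp : B ^ p = 1) (hYp : Y ^ p = 1)
    (hBA : B * A * B⁻¹ = Z * A) (hBZ : B * Z * B⁻¹ = Z) (hAZ : A * Z = Z * A)
    (hYZ : Y * Z * Y⁻¹ = A⁻¹ * Z) (hYA : Y * A * Y⁻¹ = A) (hZA : Z ∉ zpowers A) : False := by
  have hp : p.Prime := Fact.out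
  have hpodd : Odd p := hp.odd_of_ne_two hp2
  have hAo : orderOf A = p := orderOf_eq_prime hAp hA1
  obtain ⟨W, hW⟩ : ∃ W : G, W = B * Y * B := ⟨_, rfl⟩
  have hWA : W * A * W⁻¹ = Z := by
    calc W * A * W⁻¹ = B * (Y * (B * A * B⁻¹) * Y⁻¹) * B⁻¹ := by rw [hW]; group
      _ = B * (Y * (Z * A) * Y⁻¹) * B⁻¹ := by rw [hBA]
      _ = B * ((Y * Z * Y⁻¹) * (Y * A * Y⁻¹)) * B⁻¹ := by group
      _ = B * (A⁻¹ * Z * A) * B⁻¹ := by rw [hYZ, hYA]
      _ = B * Z * B⁻¹ := by rw [mul_assoc A⁻¹, ← hAZ]; group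
      _ = Z := hBZ
  have hWZ : W * Z * W⁻¹ = A⁻¹ := by
    calc W * Z * W⁻¹ = B * (Y * (B * Z * B⁻¹) * Y⁻¹) * B⁻¹ := by rw [hW]; group
      _ = B * (A⁻¹ * Z) * B⁻¹ := by rw [hBZ, hYZ]
      _ = (B * A * B⁻¹)⁻¹ * (B * Z * B⁻¹) := by group
      _ = A⁻¹ := by rw [hBA, hBZ]; group
  have hTA : W ^ 2 * A * (W ^ 2)⁻¹ = A⁻¹ := by
    calc W ^ 2 * A * (W ^ 2)⁻¹ = W * (W * A * W⁻¹) * W⁻¹ := by rw [pow_two]; group
      _ = A⁻¹ := by rw [hWA, hWZ]
  have hWodd : ¬ Odd (orderOf W) := by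
    rintro ⟨m, hm⟩
    have h1 : (W ^ 2) ^ (m + 1) = W := by
      rw [← pow_mul]
      have : 2 * (m + 1) = orderOf W + 1 := by omega
      rw [this, pow_succ, pow_orderOf_eq_one, one_mul]
    have h2 := inv_pow_cases (W ^ 2) A hTA (m + 1)
    rw [h1, hWA] at h2
    rcases h2 with h2 | h2
    · exact hZA (h2 ▸ mem_zpowers A)
    · exact hZA (h2 ▸ (zpowers A).inv_mem (mem_zpowers A))
  have hn0 : orderOf W ≠ 0 := (orderOf_pos W).ne'
  obtain ⟨s, r, hr, hsr⟩ := Nat.exists_eq_two_pow_mul_odd hn0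
  obtain ⟨U, hUdef⟩ : ∃ U : G, U = W ^ r := ⟨_, rfl⟩
  have hU : U ^ (2 ^ s) = 1 := by rw [hUdef, ← pow_mul, mul_comm, ← hsr, pow_orderOf_eq_one]
  have hUA : U ^ 2 * A * (U ^ 2)⁻¹ = A⁻¹ := by
    obtain ⟨m, rfl⟩ := hr
    have : U ^ 2 = (W ^ 2) ^ (2 * m + 1) := by rw [hUdef, ← pow_mul, ← pow_mul, mul_comm]
    rw [this]; exact inv_pow_odd _ _ hTA m
  haveI : Fact (Nat.Prime 2) := ⟨Nat.prime_two⟩
  have hU2 : IsPGroup 2 (zpowers U) := by
    rintro ⟨x, hx⟩
    obtain ⟨j, rfl⟩ := mem_zpowers_iff.1 hx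
    refine ⟨s, Subtype.ext ?_⟩
    show (U ^ j) ^ (2 ^ s) = 1
    rw [← zpow_natCast, ← zpow_mul, mul_comm, zpow_mul, zpow_natCast, hU, one_zpow]
  obtain ⟨S, hS⟩ := hU2.exists_le_sylow
  have hUS : U ∈ S := hS (mem_zpowers U)
  have hA2 : A ^ 2 ≠ 1 := by
    intro h
    have := mem_of_sq_mem ⊥ A hpodd hAp (by rw [h]; exact one_mem _)
    exact hA1 (mem_bot.1 this)
  have hU21 : U ^ 2 ≠ 1 := by
    intro h
    rw [h] at hUA
    apply hA2
    have h3 : A = A⁻¹ := by simpa using hUA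
    rw [pow_two]
    nth_rewrite 1 [h3]
    simp
  have key : ∀ N : Subgroup G, Odd (Nat.card N) → B ∈ N → Y ∈ N → False := by
    intro N hN hB hY
    have hWN : W ∈ N := by rw [hW]; exact N.mul_mem (N.mul_mem hB hY) hB
    apply hWodd
    have : orderOf W ∣ Nat.card N := by
      have := orderOf_dvd_natCard (⟨W, hWN⟩ : N)
      rwa [Subgroup.orderOf_mk] at this
    exact hN.of_dvd_nat this
  rcases S4023.result (hD 2 Nat.prime_two) S with hcyc | hel | ⟨_, ⟨e⟩⟩ | ⟨h, _⟩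
  · -- cyclic
    have heven : 2 ∣ Nat.card G := by
      have h1 : 2 ∣ orderOf W := by
        rcases Nat.even_or_odd (orderOf W) with h | h
        · exact even_iff_two_dvd.1 h
        · exact absurd h hWodd
      exact h1.trans (orderOf_dvd_natCard W)
    have hmf : (Nat.card G).minFac = 2 := (Nat.minFac_eq_two_iff _).2 heven
    have hNC := IsCyclic.normalizer_le_centralizer hmf hcyc
    have hker : ∀ x : G, x ^ p = 1 → x ∈ (MonoidHom.transferSylow S hNC).ker := by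
      intro x hx
      rw [MonoidHom.mem_ker]
      have h1 : (MonoidHom.transferSylow S hNC x) ^ p = 1 := by rw [← map_pow, hx, map_one]
      obtain ⟨k, hk⟩ := S.2 (MonoidHom.transferSylow S hNC x)
      have h2 := orderOf_dvd_of_pow_eq_one h1
      have h3 := orderOf_dvd_of_pow_eq_one hk
      have h4 : Nat.Coprime p (2 ^ k) := Nat.Coprime.pow_right k hpodd.coprime_two_right
      exact orderOf_eq_one_iff.1 (Nat.eq_one_of_dvd_coprimes h4 h2 h3)
    refine key _ ?_ (hker B hBp) (hker Y hYp)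
    have := MonoidHom.not_dvd_card_ker_transferSylow S hNC
    exact Nat.odd_iff.2 (Nat.two_dvd_ne_zero.1 this)
  · -- elementary abelian
    exact hU21 (hel.2 U hUS)
  · -- quaternion of order 8
    have htS : U ^ 2 ∈ (S : Subgroup G) := (S : Subgroup G).pow_mem hUS 2
    have ht2 : (U ^ 2) ^ 2 = 1 := by
      have h1 := q8_pow_four (e ⟨U, hUS⟩)
      rw [← map_pow, EmbeddingLike.map_eq_one_iff] at h1
      have h2 : U ^ 4 = 1 := congrArg Subtype.val h1
      rw [← pow_mul]; exact h2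
    have hto : orderOf (U ^ 2) = 2 := orderOf_eq_prime ht2 hU21
    have hiso : ∀ g : G, g * U ^ 2 * g⁻¹ ∈ S → g * U ^ 2 * g⁻¹ = U ^ 2 := by
      intro g hg
      have h1 := q8_unique_inv (e ⟨g * U ^ 2 * g⁻¹, hg⟩) (e ⟨U ^ 2, htS⟩) ?_ ?_ ?_ ?_
      · exact congrArg Subtype.val (e.injective h1)
      · rw [← map_pow, EmbeddingLike.map_eq_one_iff]
        apply Subtype.ext
        show (g * U ^ 2 * g⁻¹) ^ 2 = 1
        rw [conj_pow, ht2]; group
      · rw [Ne, EmbeddingLike.map_eq_one_iff]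
        intro h2
        have h3 : g * U ^ 2 * g⁻¹ = 1 := congrArg Subtype.val h2
        exact hU21 (conj_eq_one_iff.1 h3)
      · rw [← map_pow, EmbeddingLike.map_eq_one_iff]
        exact Subtype.ext ht2
      · rw [Ne, EmbeddingLike.map_eq_one_iff]
        intro h2
        exact hU21 (congrArg Subtype.val h2)
    obtain ⟨N, hN, hNodd, hNt⟩ :=
      Cfsg.Agent.Lib.Lead.zstar' (Cfsg.Agent.Lib.Lead.isoInv_of_sylow S (U ^ 2) hto htS hiso)
    have hAN : A ∈ N := by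
      apply mem_of_sq_mem N A hpodd hAp
      have h1 := hNt A
      rw [hUA] at h1
      have h2 := N.inv_mem h1
      have h3 : (A⁻¹ * A⁻¹)⁻¹ = A ^ 2 := by group
      rwa [h3] at h2
    haveI := hN
    exact key N hNodd (S4024.mem_of_conj (hD p hp) N A hAN hAo B hBp)
      (S4024.mem_of_conj (hD p hp) N A hAN hAo Y hYp)
  · exact h rfl

theorem no_extraspecial {G : Type*} [Group G] [Finite G]
    (hD : ∀ p : ℕ, p.Prime → ∀ H K : Subgroup G, IsPGroup p H → IsPGroup p K → Nat.card H = Nat.card K →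
      ∃ g : G, K = H.map (MulAut.conj g).toMonoidHom) {p : ℕ} [Fact p.Prime] (P : Sylow p G)
    (hp2 : p ≠ 2) (hnc : ¬ IsMulCommutative (P : Subgroup G)) (hcard : Nat.card (P : Subgroup G) = p ^ 3)
    (hexp : Monoid.exponent (P : Subgroup G) = p) : False := by
  have hp : p.Prime := Fact.out
  have hpodd : Odd p := hp.odd_of_ne_two hp2
  obtain ⟨hZc, hcomm⟩ := p3_struct (Q := (P : Subgroup G)) hcard (fun h => hnc ⟨⟨h⟩⟩)
  have hpow : ∀ s : (P : Subgroup G), s ^ p = 1 := by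
    intro s
    have := Monoid.pow_exponent_eq_one s
    rwa [hexp] at this
  -- any nontrivial central element generates the centre
  have hgen : ∀ c : (P : Subgroup G), c ∈ center (P : Subgroup G) → c ≠ 1 →
      ∀ d : (P : Subgroup G), d ∈ center (P : Subgroup G) → ∃ n : ℕ, c ^ n = d := by
    intro c hc hc1 d hd
    have hco : orderOf c = p := orderOf_eq_prime (hpow c) hc1
    have h1 : zpowers c = center (P : Subgroup G) :=
      Subgroup.eq_of_le_of_card_ge (zpowers_le.2 hc) (by rw [Nat.card_zpowers, hco, hZc])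
    have h2 : d ∈ zpowers c := h1 ▸ hd
    exact Submonoid.mem_powers_iff _ _ |>.1 (mem_powers_iff_mem_zpowers.2 h2)
  have hne1 : ∀ u v : (P : Subgroup G), u * v ≠ v * u → u * v * u⁻¹ * v⁻¹ ≠ 1 := by
    intro u v huv h
    exact huv (mul_inv_eq_iff_eq_mul.1 (mul_inv_eq_one.1 h))
  obtain ⟨a, b, hab⟩ : ∃ a b : (P : Subgroup G), b * a ≠ a * b := by
    by_contra h
    push Not at h
    exact hnc ⟨⟨fun x y => h y x⟩⟩
  set z : (P : Subgroup G) := b * a * b⁻¹ * a⁻¹ with hz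
  have hzZ : z ∈ center (P : Subgroup G) := hcomm b a
  have hz1 : z ≠ 1 := hne1 b a hab
  have ha1 : a ≠ 1 := by rintro rfl; simp at hab
  have hao : orderOf a = p := orderOf_eq_prime (hpow a) ha1
  have hzo : orderOf z = p := orderOf_eq_prime (hpow z) hz1
  have hza : z ∉ zpowers a := by
    intro h
    have h1 : zpowers z = zpowers a := Subgroup.eq_of_le_of_card_ge (zpowers_le.2 h)
      (by rw [Nat.card_zpowers, Nat.card_zpowers, hao, hzo])
    have h2 : a ∈ center (P : Subgroup G) := (zpowers_le.2 hzZ) (h1 ▸ mem_zpowers a)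
    exact hab (mem_center_iff.1 h2 b)
  -- the conjugating element
  have hpgz : ∀ s : G, orderOf s = p → IsPGroup p (zpowers s) := by
    intro s hs
    apply IsPGroup.of_card (n := 1)
    rw [Nat.card_zpowers, hs, pow_one]
  have hAo : orderOf (a : G) = p := by rw [Subgroup.orderOf_coe]; exact hao
  have hZo : orderOf (z : G) = p := by rw [Subgroup.orderOf_coe]; exact hzo
  obtain ⟨g, hg⟩ := hD p hp (zpowers (z : G)) (zpowers (a : G)) (hpgz _ hZo) (hpgz _ hAo)
    (by rw [Nat.card_zpowers, Nat.card_zpowers, hZo, hAo])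
  have h1 : (a : G) ∈ (zpowers (z : G)).map (MulAut.conj g).toMonoidHom := hg ▸ mem_zpowers _
  obtain ⟨c0', hc0', hc0a⟩ := h1
  obtain ⟨i, rfl⟩ := mem_zpowers_iff.1 hc0'
  set c0 : (P : Subgroup G) := z ^ i with hc0
  have hc0Z : c0 ∈ center (P : Subgroup G) := (center (P : Subgroup G)).zpow_mem hzZ i
  have hgc : g * (c0 : G) * g⁻¹ = a := by
    rw [hc0, Subgroup.coe_zpow]
    simpa using hc0a
  have hc01 : c0 ≠ 1 := by
    intro h
    rw [h] at hgc
    apply ha1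
    apply Subtype.ext
    rw [← hgc]; simp
  -- Sylow's theorem inside the centraliser of `a`
  set C : Subgroup G := centralizer {(a : G)} with hC
  have hPgC : ((g • P : Sylow p G) : Subgroup G) ≤ C := by
    intro s hs
    have hs' : g⁻¹ * s * g ∈ P := (Cfsg.Agent.Lib.Lead.mem_sylow_smul_iff P g s).1 hs
    rw [hC, mem_centralizer_singleton_iff]
    have h3 := mem_center_iff.1 hc0Z ⟨g⁻¹ * s * g, hs'⟩
    have h4 : g⁻¹ * s * g * (c0 : G) = (c0 : G) * (g⁻¹ * s * g) := congrArg Subtype.val h3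
    rw [← hgc]
    calc s * (g * c0 * g⁻¹) = g * (g⁻¹ * s * g * c0) * g⁻¹ := by group
      _ = g * (c0 * (g⁻¹ * s * g)) * g⁻¹ := by rw [h4]
      _ = g * c0 * g⁻¹ * s := by group
  have hAZ : (a : G) * z = z * a := congrArg Subtype.val (mem_center_iff.1 hzZ a)
  have hzC : (z : G) ∈ C := by
    rw [hC, mem_centralizer_singleton_iff]
    exact hAZ.symm
  let R0 : Sylow p C := (g • P).subtype hPgC
  have hpz : IsPGroup p (zpowers (⟨(z : G), hzC⟩ : C)) := by
    apply IsPGroup.of_card (n := 1)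
    rw [Nat.card_zpowers, pow_one, ← Subgroup.orderOf_coe]
    exact hZo
  obtain ⟨R, hR⟩ := hpz.exists_le_sylow
  obtain ⟨c, hc⟩ := MulAction.exists_smul_eq C R0 R
  have h5 : (⟨(z : G), hzC⟩ : C) ∈ (c • R0 : Sylow p C) := hc ▸ hR (mem_zpowers _)
  rw [Cfsg.Agent.Lib.Lead.mem_sylow_smul_iff] at h5
  have h6 : ((c⁻¹ * ⟨(z : G), hzC⟩ * c : C) : G) ∈ (g • P : Sylow p G) := Subgroup.mem_subgroupOf.1 h5
  rw [Cfsg.Agent.Lib.Lead.mem_sylow_smul_iff] at h6
  set h : G := (c : G) * g with hh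
  have hzP : h⁻¹ * (z : G) * h ∈ P := by
    have : h⁻¹ * (z : G) * h = g⁻¹ * ((c⁻¹ * ⟨(z : G), hzC⟩ * c : C) : G) * g := by
      rw [hh]; simp; group
    rw [this]; exact h6
  have hha : h * (c0 : G) * h⁻¹ = a := by
    have hca : (a : G) * c = c * a := (mem_centralizer_singleton_iff.1 c.2).symm
    calc h * c0 * h⁻¹ = c * (g * c0 * g⁻¹) * (c : G)⁻¹ := by rw [hh]; group
      _ = c * a * (c : G)⁻¹ := by rw [hgc]
      _ = a := by rw [← hca]; group
  set z' : (P : Subgroup G) := ⟨h⁻¹ * (z : G) * h, hzP⟩ with hz'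
  have hz'Z : z' ∉ center (P : Subgroup G) := by
    intro hcon
    obtain ⟨n, hn⟩ := hgen c0 hc0Z hc01 z' hcon
    apply hza
    have h7 : (c0 : G) ^ n = h⁻¹ * z * h := by
      have := congrArg Subtype.val hn
      simpa using this
    have h8 : (a : G) ^ n = z := by
      rw [← hha, conj_pow, h7]; group
    exact ⟨n, Subtype.ext (by simpa using h8)⟩
  obtain ⟨y', hy'⟩ : ∃ y' : (P : Subgroup G), y' * z' ≠ z' * y' := by
    by_contra hcon
    push Not at hcon
    exact hz'Z (mem_center_iff.2 hcon)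
  set c1 : (P : Subgroup G) := y' * z' * y'⁻¹ * z'⁻¹ with hc1
  have hc1Z : c1 ∈ center (P : Subgroup G) := hcomm y' z'
  have hc11 : c1 ≠ 1 := hne1 y' z' hy'
  obtain ⟨n, hn⟩ := hgen c1 hc1Z hc11 c0⁻¹ ((center (P : Subgroup G)).inv_mem hc0Z)
  have h9 : y' ^ n * z' * (y' ^ n)⁻¹ = c0⁻¹ * z' := by
    rw [conj_pow_mul y' z' c1 (by rw [hc1]; group) (mem_center_iff.1 hc1Z y') n, hn]
  -- everything in `G`
  obtain ⟨A, hA⟩ : ∃ A : G, A = (a : G) := ⟨_, rfl⟩
  obtain ⟨B, hB⟩ : ∃ B : G, B = (b : G) := ⟨_, rfl⟩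
  obtain ⟨Z, hZ⟩ : ∃ Z : G, Z = (z : G) := ⟨_, rfl⟩
  obtain ⟨yn, hyn⟩ : ∃ yn : G, yn = ((y' ^ n : (P : Subgroup G)) : G) := ⟨_, rfl⟩
  obtain ⟨Y, hY⟩ : ∃ Y : G, Y = h * yn * h⁻¹ := ⟨_, rfl⟩
  have hA1 : A ≠ 1 := by
    rw [hA]; intro hcon; exact ha1 (Subtype.ext hcon)
  have hAp : A ^ p = 1 := by
    rw [hA]; exact congrArg Subtype.val (hpow a)
  have hBp : B ^ p = 1 := by
    rw [hB]; exact congrArg Subtype.val (hpow b)
  have hYp : Y ^ p = 1 := by
    have : yn ^ p = 1 := by rw [hyn]; exact congrArg Subtype.val (hpow (y' ^ n))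
    rw [hY, conj_pow, this]; group
  have hBA : B * A * B⁻¹ = Z * A := by
    have : Z = B * A * B⁻¹ * A⁻¹ := by rw [hZ, hA, hB, hz]; rfl
    rw [this]; group
  have hBZ : B * Z * B⁻¹ = Z := by
    have : B * Z = Z * B := by
      rw [hB, hZ]; exact congrArg Subtype.val (mem_center_iff.1 hzZ b)
    rw [this]; group
  have hAZ' : A * Z = Z * A := by rw [hA, hZ]; exact hAZ
  have hYZ : Y * Z * Y⁻¹ = A⁻¹ * Z := by
    have h10 : yn * (h⁻¹ * Z * h) * yn⁻¹ = (c0 : G)⁻¹ * (h⁻¹ * Z * h) := by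
      rw [hyn, hZ]; exact congrArg Subtype.val h9
    calc Y * Z * Y⁻¹ = h * (yn * (h⁻¹ * Z * h) * yn⁻¹) * h⁻¹ := by rw [hY]; group
      _ = h * ((c0 : G)⁻¹ * (h⁻¹ * Z * h)) * h⁻¹ := by rw [h10]
      _ = (h * c0 * h⁻¹)⁻¹ * Z := by group
      _ = A⁻¹ * Z := by rw [hha, hA]
  have hYA : Y * A * Y⁻¹ = A := by
    have h11 : yn * (c0 : G) = c0 * yn := by
      rw [hyn]; exact congrArg Subtype.val (mem_center_iff.1 hc0Z (y' ^ n))
    calc Y * A * Y⁻¹ = h * (yn * c0) * yn⁻¹ * h⁻¹ := by rw [hY, hA, ← hha]; group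
      _ = h * c0 * h⁻¹ := by rw [h11]; group
      _ = A := by rw [hha, hA]
  have hZA : Z ∉ zpowers A := by
    intro hcon
    obtain ⟨k, hk⟩ := mem_zpowers_iff.1 hcon
    refine hza ⟨k, Subtype.ext ?_⟩
    rw [hA, hZ] at hk
    simpa using hk
  exact final hD hp2 A B Y Z hA1 hAp hBp hYp hBA hBZ hAZ' hYZ hYA hZA

/-- Let G be a finite group in which, for every prime p, any two p-subgroups of the same order are conjugate. Then every Sylow subgroup of G is cyclic, elementary abelian, or a quaternion group of order 8. -/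
theorem result {G : Type*} [Group G] [Finite G]
    (hD : ∀ p : ℕ, p.Prime → ∀ H K : Subgroup G, IsPGroup p H → IsPGroup p K → Nat.card H = Nat.card K →
      ∃ g : G, K = H.map (MulAut.conj g).toMonoidHom) {p : ℕ} [Fact p.Prime] (P : Sylow p G) :
    IsCyclic P ∨ Cfsg.IsElementaryAbelian p (P : Subgroup G) ∨ Nonempty ((P : Subgroup G) ≃* QuaternionGroup 2) := by
  rcases S4023.result (hD p Fact.out) P with h | h | ⟨_, h⟩ | ⟨h2, hnc, hcard, hexp⟩
  · exact Or.inl h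
  · exact Or.inr (Or.inl h)
  · exact Or.inr (Or.inr h)
  · exact (no_extraspecial hD P h2 hnc hcard hexp).elim

end Cfsg.Agent.S4020
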