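import Cfsg.Statements.S4027
import Cfsg.Agent.Lib.Helper22.RealOdd

set_option autoImplicit false
open Cfsg

namespace Cfsg.Agent.S4027

/-- Let G be a finite group in which every element x of odd order satisfies N_G(⟨x⟩) = C_G(x). Then the Sylow 2-subgroups of G are normal. -/
theorem result {G : Type*} [Group G] [Finite G]
    (hirr : ∀ x : G, (∀ r : ℕ, r.Prime → r ∣ orderOf x → r ≠ 2) →
      Subgroup.normalizer ((Subgroup.zpowers x : Subgroup G) : Set G) ≤ Subgroup.centralizer {x}) (P : Sylow 2 G) :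
    (P : Subgroup G).Normal := by
  apply Cfsg.Agent.Lib.Helper22.sylow_two_normal_of_no_real_odd
  intro x g hodd hg
  have h1 : ∀ r : ℕ, r.Prime → r ∣ orderOf x → r ≠ 2 := by
    rintro r - hr rfl
    exact (Nat.not_even_iff_odd.2 hodd) (even_iff_two_dvd.2 hr)
  have h2 : g ∈ Subgroup.normalizer ((Subgroup.zpowers x : Subgroup G) : Set G) := by
    rw [Subgroup.mem_normalizer_iff_map_conj_eq, MonoidHom.map_zpowers]
    have : (MulAut.conj g : G →* G) x = x⁻¹ := by simpa using hg
    rw [this, Subgroup.zpowers_inv]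
  have h3 : x * g = g * x := (Subgroup.mem_centralizer_iff.1 (hirr x h1 h2)) x rfl
  have h4 : x⁻¹ = x := by rw [← hg, ← h3]; group
  have h5 : x ^ 2 = 1 := by
    rw [pow_two]
    nth_rewrite 1 [← h4]
    exact inv_mul_cancel x
  have h6 : orderOf x ∣ 2 := orderOf_dvd_of_pow_eq_one h5
  rw [← orderOf_eq_one_iff]
  rcases (Nat.dvd_prime Nat.prime_two).1 h6 with h | h
  · exact h
  · rw [h] at hodd
    exact absurd hodd (by decide)

end Cfsg.Agent.S4027
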