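import Cfsg.Statements.S4028
import Cfsg.Agent.Lib.Helper22.Basic

set_option autoImplicit false
open Cfsg

namespace Cfsg.Agent.S4028

theorem mem_norm_zpowers {G : Type*} [Group G] [Finite G] (x g : G) :
    g ∈ Subgroup.normalizer ((Subgroup.zpowers x : Subgroup G) : Set G) ↔
      g * x * g⁻¹ ∈ Subgroup.zpowers x := by
  constructor
  · intro h
    exact (Subgroup.mem_normalizer_iff.1 h x).1 (Subgroup.mem_zpowers x)
  · intro h
    have hmap : (Subgroup.zpowers x).map (MulAut.conj g).toMonoidHom = Subgroup.zpowers x := by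
      apply Subgroup.eq_of_le_of_card_ge
      · rw [MonoidHom.map_zpowers, Subgroup.zpowers_le]
        exact h
      · rw [Subgroup.card_map_of_injective (MulAut.conj g).injective]
    rw [Subgroup.mem_normalizer_iff]
    intro n
    constructor
    · intro hn
      rw [← hmap]
      exact ⟨n, hn, rfl⟩
    · intro hn
      rw [← hmap] at hn
      obtain ⟨m, hm, hmn⟩ := hn
      have : m = n := (MulAut.conj g).injective hmn
      exact this ▸ hm

theorem two_of_dvd_two_pow {r k : ℕ} (hr : r.Prime) (h : r ∣ 2 ^ k) : r = 2 :=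
  (Nat.prime_dvd_prime_iff_eq hr Nat.prime_two).1 (hr.dvd_of_dvd_pow h)

theorem odd_case {G : Type*} [Group G] [Finite G] (x g : G) (k : ℕ) (hx : orderOf x = 2 ^ k)
    (hg : g ∈ Subgroup.normalizer ((Subgroup.zpowers x : Subgroup G) : Set G))
    (hodd : Odd (orderOf g)) : g * x = x * g := by
  let T := Subgroup.zpowers x
  let φ := T.normalizerMonoidHom
  have h1 : orderOf (φ ⟨g, hg⟩) ∣ orderOf g := by
    have := orderOf_map_dvd φ (⟨g, hg⟩ : Subgroup.normalizer (T : Set G))
    rwa [Subgroup.orderOf_mk] at this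
  have h2 : orderOf (φ ⟨g, hg⟩) ∣ Nat.card (MulAut T) := orderOf_dvd_natCard _
  have hcard : Nat.card (MulAut T) ∣ 2 ^ k := by
    rw [IsCyclic.card_mulAut, Nat.card_zpowers, hx]
    rcases Nat.eq_zero_or_pos k with rfl | hk
    · simp
    · rw [Nat.totient_prime_pow Nat.prime_two hk]
      simpa using pow_dvd_pow 2 (Nat.sub_le k 1)
  have h3 : orderOf (φ ⟨g, hg⟩) ∣ 1 := by
    have hc : Nat.Coprime (orderOf g) (2 ^ k) :=
      Nat.Coprime.pow_right _ (Nat.coprime_two_right.2 hodd)
    rw [← Nat.Coprime.gcd_eq_one hc]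
    exact Nat.dvd_gcd h1 (h2.trans hcard)
  have h4 : φ ⟨g, hg⟩ = 1 := orderOf_eq_one_iff.1 (Nat.dvd_one.1 h3)
  have h5 : (φ ⟨g, hg⟩) ⟨x, Subgroup.mem_zpowers x⟩ = ⟨x, Subgroup.mem_zpowers x⟩ := by
    rw [h4]; rfl
  have h6 : g * x * g⁻¹ = x := congrArg Subtype.val h5
  calc g * x = (g * x * g⁻¹) * g := by group
    _ = x * g := by rw [h6]

/-- Let G be a finite group with Sylow 2-subgroup P. Then N_G(⟨x⟩) = C_G(x) holds for every 2-element x of G if and only if N_P(⟨y⟩) = C_P(y) holds for every y ∈ P (computed inside P). -/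
theorem result {G : Type*} [Group G] [Finite G] (P : Sylow 2 G) :
    (∀ x : G, (∀ r : ℕ, r.Prime → r ∣ orderOf x → r = 2) →
      Subgroup.normalizer ((Subgroup.zpowers x : Subgroup G) : Set G) ≤ Subgroup.centralizer {x}) ↔
    (∀ y : ↥(P : Subgroup G), Subgroup.normalizer ((Subgroup.zpowers y : Subgroup ↥(P : Subgroup G)) : Set ↥(P : Subgroup G)) ≤
        Subgroup.centralizer {y}) := by
  constructor
  · intro h y g hg
    rw [Subgroup.mem_centralizer_singleton_iff]
    have hy : ∀ r : ℕ, r.Prime → r ∣ orderOf (y : G) → r = 2 := by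
      intro r hr hd
      obtain ⟨k, hk⟩ := (IsPGroup.iff_orderOf.1 P.2) y
      rw [Subgroup.orderOf_coe, hk] at hd
      exact two_of_dvd_two_pow hr hd
    have hg' : (g : G) ∈ Subgroup.normalizer ((Subgroup.zpowers (y : G) : Subgroup G) : Set G) := by
      rw [mem_norm_zpowers]
      rw [mem_norm_zpowers] at hg
      obtain ⟨k, hk⟩ := Subgroup.mem_zpowers_iff.1 hg
      rw [Subgroup.mem_zpowers_iff]
      exact ⟨k, by simpa using congrArg Subtype.val hk⟩
    have := h y hy hg'
    rw [Subgroup.mem_centralizer_singleton_iff] at this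
    exact Subtype.ext this
  · intro h x hx g hg
    haveI : Fact (Nat.Prime 2) := ⟨Nat.prime_two⟩
    have hx2 : orderOf x = 2 ^ (orderOf x).primeFactorsList.length :=
      Nat.eq_prime_pow_of_unique_prime_dvd (orderOf_pos x).ne' (fun {d} hd hdv => hx d hd hdv)
    -- 2-element case
    have two_case : ∀ g' : G, g' ∈ Subgroup.normalizer ((Subgroup.zpowers x : Subgroup G) : Set G) →
        (∃ j, orderOf g' = 2 ^ j) → g' * x = x * g' := by
      intro g' hg' ⟨j, hj⟩
      have hT : IsPGroup 2 (Subgroup.zpowers x) :=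
        IsPGroup.of_card (n := (orderOf x).primeFactorsList.length) (by rw [Nat.card_zpowers]; exact hx2)
      have hZ : IsPGroup 2 (Subgroup.zpowers g') :=
        IsPGroup.of_card (n := j) (by rw [Nat.card_zpowers]; exact hj)
      have hZT : Subgroup.zpowers g' ≤ Subgroup.normalizer ((Subgroup.zpowers x : Subgroup G) : Set G) := by
        rw [Subgroup.zpowers_le]; exact hg'
      have hsup : IsPGroup 2 (Subgroup.zpowers g' ⊔ Subgroup.zpowers x : Subgroup G) :=
        hZ.to_sup_of_normal_right' hT hZT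
      obtain ⟨Q, hQ⟩ := hsup.exists_le_sylow
      obtain ⟨c, hc⟩ := MulAction.exists_smul_eq G Q P
      have hxQ : x ∈ Q := hQ (Subgroup.mem_sup_right (Subgroup.mem_zpowers x))
      have hgQ : g' ∈ Q := hQ (Subgroup.mem_sup_left (Subgroup.mem_zpowers g'))
      have hmem : ∀ z ∈ Q, c * z * c⁻¹ ∈ (P : Subgroup G) := by
        intro z hz
        rw [← hc, Sylow.coe_subgroup_smul]
        exact ⟨z, hz, rfl⟩
      let y : (P : Subgroup G) := ⟨c * x * c⁻¹, hmem x hxQ⟩
      let γ : (P : Subgroup G) := ⟨c * g' * c⁻¹, hmem g' hgQ⟩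
      have hγ : γ ∈ Subgroup.normalizer ((Subgroup.zpowers y : Subgroup ↥(P : Subgroup G)) : Set ↥(P : Subgroup G)) := by
        rw [mem_norm_zpowers]
        rw [mem_norm_zpowers] at hg'
        obtain ⟨k, hk⟩ := Subgroup.mem_zpowers_iff.1 hg'
        rw [Subgroup.mem_zpowers_iff]
        refine ⟨k, Subtype.ext ?_⟩
        show ((y ^ k : (P : Subgroup G)) : G) = (c * g' * c⁻¹) * (c * x * c⁻¹) * (c * g' * c⁻¹)⁻¹
        rw [Subgroup.coe_zpow]
        show (c * x * c⁻¹) ^ k = _
        rw [conj_zpow, hk]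
        group
      have h1 := h y hγ
      rw [Subgroup.mem_centralizer_singleton_iff] at h1
      have h2 : (c * g' * c⁻¹) * (c * x * c⁻¹) = (c * x * c⁻¹) * (c * g' * c⁻¹) :=
        congrArg Subtype.val h1
      have h3 : c * (g' * x) * c⁻¹ = c * (x * g') * c⁻¹ := by
        calc c * (g' * x) * c⁻¹ = (c * g' * c⁻¹) * (c * x * c⁻¹) := by group
          _ = (c * x * c⁻¹) * (c * g' * c⁻¹) := h2
          _ = c * (x * g') * c⁻¹ := by group
      exact mul_left_cancel (mul_right_cancel h3)
    obtain ⟨k, m, hm, hkm⟩ := Nat.exists_eq_two_pow_mul_odd (orderOf_pos g).ne'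
    have hcop : Nat.Coprime m (2 ^ k) := Nat.Coprime.pow_right _ (Nat.coprime_two_right.2 hm)
    apply Lib.Helper22.mem_of_pow_mem_of_coprime _ g m (2 ^ k) hcop
    · rw [Subgroup.mem_centralizer_singleton_iff]
      apply two_case _ (Subgroup.pow_mem _ hg _)
      refine ⟨k, ?_⟩
      rw [orderOf_pow_of_dvd hm.pos.ne' (by rw [hkm]; exact Dvd.intro_left _ rfl), hkm]
      exact Nat.mul_div_cancel _ hm.pos
    · rw [Subgroup.mem_centralizer_singleton_iff]
      apply odd_case x _ _ hx2 (Subgroup.pow_mem _ hg _)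
      rw [orderOf_pow_of_dvd (by positivity) (by rw [hkm]; exact Dvd.intro _ rfl), hkm]
      rw [Nat.mul_div_cancel_left _ (by positivity)]
      exact hm

end Cfsg.Agent.S4028
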