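import Cfsg.Statements.S4029
import Mathlib
import Cfsg.Agent.Lib.Helper1.Frattini
import Cfsg.Agent.Lib.Helper22.Basic

set_option autoImplicit false
open Cfsg

namespace Cfsg.Agent.S4029

open Cfsg.Agent.Lib.Helper1 Cfsg.Agent.Lib.Helper22

/-- sum of the centralizer orders over a conjugacy class -/
theorem cls_sum {P : Type*} [Group P] [Fintype P] [DecidableEq (ConjClasses P)]
    (c : ConjClasses P) :
    ∑ t ∈ Finset.univ.filter (fun t : P => ConjClasses.mk t = c),
      Nat.card (Subgroup.centralizer ({t} : Set P)) = Nat.card P := by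
  classical
  obtain ⟨t₀, rfl⟩ := ConjClasses.exists_rep c
  have h1 : ∀ t ∈ Finset.univ.filter (fun t : P => ConjClasses.mk t = ConjClasses.mk t₀),
      Nat.card (Subgroup.centralizer ({t} : Set P)) =
        Nat.card (Subgroup.centralizer ({t₀} : Set P)) := by
    intro t ht
    have ht' : ConjClasses.mk t = ConjClasses.mk t₀ := (Finset.mem_filter.mp ht).2
    have e1 := (Subgroup.centralizer ({t} : Set P)).card_mul_index
    have e2 := (Subgroup.centralizer ({t₀} : Set P)).card_mul_index
    rw [← ncard_carrier_eq_index_centralizer] at e1 e2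
    rw [ht'] at e1
    have hpos : 0 < (ConjClasses.mk t₀).carrier.ncard := by
      rw [ncard_carrier_eq_index_centralizer]
      exact Nat.pos_of_ne_zero (Subgroup.index_ne_zero_of_finite)
    exact Nat.eq_of_mul_eq_mul_right hpos (e1.trans e2.symm)
  rw [Finset.sum_congr rfl h1, Finset.sum_const, smul_eq_mul]
  have h2 : (Finset.univ.filter (fun t : P => ConjClasses.mk t = ConjClasses.mk t₀)).card =
      (ConjClasses.mk t₀).carrier.ncard := by
    rw [← Set.ncard_coe_finset]
    congr 1
    ext t
    simp [ConjClasses.mem_carrier_iff_mk_eq]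
  rw [h2, ncard_carrier_eq_index_centralizer, mul_comm]
  exact (Subgroup.centralizer ({t₀} : Set P)).card_mul_index

/-- Cauchy–Schwarz count: if all squares lie in `Φ`, then `|P|² ≤ |Φ| · #{(x,t) : x⁻¹ t x = t⁻¹}`. -/
theorem sq_count {P : Type*} [Group P] [Fintype P] [DecidableEq P] (Φ : Subgroup P)
    (hΦ : ∀ x : P, x ^ 2 ∈ Φ) :
    Nat.card P ^ 2 ≤ Nat.card Φ *
      (Finset.univ.filter (fun q : P × P => q.1⁻¹ * q.2 * q.1 = q.2⁻¹)).card := by
  classical
  set sq : P → ℕ := fun y => (Finset.univ.filter (fun x : P => x ^ 2 = y)).card with hsq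
  set ΦF : Finset P := Finset.univ.filter (fun y => y ∈ Φ) with hΦF
  have h1 : ∑ y ∈ ΦF, sq y = Nat.card P := by
    rw [Nat.card_eq_fintype_card, ← Finset.card_univ]
    refine (Finset.card_eq_sum_card_fiberwise (f := fun x : P => x ^ 2) ?_).symm
    intro x _
    simp [hΦF, hΦ x]
  have h2 : ΦF.card = Nat.card Φ := by
    rw [Nat.card_eq_fintype_card, Fintype.card_subtype]
  have h3 : (Finset.univ.filter (fun q : P × P => q.1 ^ 2 = q.2 ^ 2)).card = ∑ y ∈ ΦF, sq y ^ 2 := by
    rw [Finset.card_eq_sum_card_fiberwise (f := fun q : P × P => q.1 ^ 2) (t := ΦF)]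
    · apply Finset.sum_congr rfl
      intro y _
      rw [pow_two, hsq]
      simp only []
      rw [← Finset.card_product]
      congr 1
      ext ⟨a, b⟩
      simp only [Finset.mem_filter, Finset.mem_univ, true_and, Finset.mem_product]
      constructor
      · rintro ⟨h, h'⟩
        exact ⟨h', h ▸ h'⟩
      · rintro ⟨h, h'⟩
        exact ⟨h.trans h'.symm, h⟩
    · intro q _
      simp [hΦF, hΦ q.1]
  have h4 : (Finset.univ.filter (fun q : P × P => q.1⁻¹ * q.2 * q.1 = q.2⁻¹)).card =
      (Finset.univ.filter (fun q : P × P => q.1 ^ 2 = q.2 ^ 2)).card := by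
    refine Finset.card_nbij' (fun q => (q.1, q.1 * q.2)) (fun q => (q.1, q.1⁻¹ * q.2)) ?_ ?_ ?_ ?_
    · intro q hq
      simp only [Finset.coe_filter, Finset.mem_univ, true_and, Set.mem_setOf_eq] at hq ⊢
      calc q.1 ^ 2 = q.1 ^ 2 * (q.2⁻¹ * q.2) := by group
        _ = q.1 ^ 2 * ((q.1⁻¹ * q.2 * q.1) * q.2) := by rw [hq]
        _ = (q.1 * q.2) ^ 2 := by rw [pow_two (q.1 * q.2)]; group
    · intro q hq
      simp only [Finset.coe_filter, Finset.mem_univ, true_and, Set.mem_setOf_eq] at hq ⊢
      calc q.1⁻¹ * (q.1⁻¹ * q.2) * q.1 = (q.1 ^ 2)⁻¹ * q.2 * q.1 := by group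
        _ = (q.2 ^ 2)⁻¹ * q.2 * q.1 := by rw [hq]
        _ = (q.1⁻¹ * q.2)⁻¹ := by group
    · intro q _
      simp
    · intro q _
      simp
  rw [h4, h3, ← h1, ← h2]
  exact_mod_cast sq_sum_le_card_mul_sum_sq (s := ΦF) (f := sq)

theorem mem_normalizer_of_forall {G : Type*} [Group G] [Finite G] (K : Subgroup G) (g : G)
    (h : ∀ k ∈ K, g * k * g⁻¹ ∈ K) : g ∈ Subgroup.normalizer (K : Set G) := by
  have hmap : K.map (MulAut.conj g).toMonoidHom = K := by
    apply Subgroup.eq_of_le_of_card_ge
    · rintro _ ⟨k, hk, rfl⟩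
      exact h k hk
    · rw [Subgroup.card_map_of_injective (MulAut.conj g).injective]
  rw [Subgroup.mem_normalizer_iff]
  intro n
  constructor
  · intro hn
    exact h n hn
  · intro hn
    rw [← hmap] at hn
    obtain ⟨m, hm, hmn⟩ := hn
    have : m = n := (MulAut.conj g).injective hmn
    exact this ▸ hm

/-- Let P be a finite 2-group in which N_P(⟨y⟩) = C_P(y) for every y ∈ P. If s is the number of conjugacy classes of involutions of P, then #(P/Φ(P)) ≤ s + 1; in particular the subgroup generated by the involutions of P has order at least #(P/Φ(P)). -/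
theorem result {P : Type*} [Group P] [Finite P] (hP : IsPGroup 2 P)
    (hirr : ∀ y : P, Subgroup.normalizer ((Subgroup.zpowers y : Subgroup P) : Set P) ≤ Subgroup.centralizer {y}) :
    Nat.card (P ⧸ frattini P) ≤ Nat.card {c : ConjClasses P // ∃ y : P, ConjClasses.mk y = c ∧ orderOf y = 2} + 1 ∧
    Nat.card (P ⧸ frattini P) ≤ Nat.card (Subgroup.closure {y : P | orderOf y = 2}) := by
  classical
  haveI : Fintype P := Fintype.ofFinite P
  haveI : Fact (Nat.Prime 2) := ⟨Nat.prime_two⟩
  have hΦ : ∀ x : P, x ^ 2 ∈ frattini P := pgroup_pow_mem_frattini hP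
  have h1 := sq_count (frattini P) hΦ
  -- a real element is an involution or trivial
  have hreal : ∀ x t : P, x⁻¹ * t * x = t⁻¹ → t ^ 2 = 1 ∧ x ∈ Subgroup.centralizer ({t} : Set P) := by
    intro x t h
    have hxN : x⁻¹ ∈ Subgroup.normalizer ((Subgroup.zpowers t : Subgroup P) : Set P) := by
      apply mem_normalizer_of_forall
      intro k hk
      obtain ⟨i, rfl⟩ := Subgroup.mem_zpowers_iff.mp hk
      rw [← conj_zpow, inv_inv, h]
      exact Subgroup.zpow_mem _ (Subgroup.inv_mem _ (Subgroup.mem_zpowers t)) i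
    have hxC := hirr t hxN
    have hxC' : x ∈ Subgroup.centralizer ({t} : Set P) := by
      have := Subgroup.inv_mem _ hxC
      rwa [inv_inv] at this
    refine ⟨?_, hxC'⟩
    rw [Subgroup.mem_centralizer_singleton_iff] at hxC'
    have h2 : x⁻¹ * t * x = t := by
      rw [mul_assoc, ← hxC']; group
    rw [h2] at h
    rw [pow_two]
    exact mul_eq_one_iff_eq_inv.mpr h
  set D : Finset P := Finset.univ.filter (fun t : P => t ^ 2 = 1) with hD
  have h2 : (Finset.univ.filter (fun q : P × P => q.1⁻¹ * q.2 * q.1 = q.2⁻¹)).card ≤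
      ∑ t ∈ D, Nat.card (Subgroup.centralizer ({t} : Set P)) := by
    rw [Finset.card_eq_sum_card_fiberwise (f := fun q : P × P => q.2) (t := D)]
    · apply Finset.sum_le_sum
      intro t _
      rw [Nat.card_eq_fintype_card, Fintype.card_subtype]
      refine Finset.card_le_card_of_injOn (fun q => q.1) ?_ ?_
      · intro q hq
        simp only [Finset.coe_filter, Finset.mem_filter, Finset.mem_univ, true_and,
          Set.mem_setOf_eq] at hq ⊢
        obtain ⟨hq1, rfl⟩ := hq
        exact (hreal _ _ hq1).2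
      · intro q hq q' hq' hqq
        simp only [Finset.coe_filter, Finset.mem_filter, Finset.mem_univ, true_and,
          Set.mem_setOf_eq] at hq hq'
        exact Prod.ext hqq (hq.2.trans hq'.2.symm)
    · intro q hq
      simp only [Finset.coe_filter, Finset.mem_univ, true_and, Set.mem_setOf_eq] at hq
      simp only [hD, Finset.coe_filter, Finset.mem_univ, true_and, Set.mem_setOf_eq]
      exact (hreal _ _ hq).1
  set 𝒞 : Finset (ConjClasses P) := D.image ConjClasses.mk with h𝒞
  have h3 : ∑ t ∈ D, Nat.card (Subgroup.centralizer ({t} : Set P)) = 𝒞.card * Nat.card P := by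
    rw [← Finset.sum_fiberwise_of_maps_to (t := 𝒞) (g := ConjClasses.mk)
      (fun t ht => Finset.mem_image_of_mem _ ht)]
    rw [← smul_eq_mul, ← Finset.sum_const]
    apply Finset.sum_congr rfl
    intro c hc
    rw [← cls_sum c]
    apply Finset.sum_congr _ (fun _ _ => rfl)
    ext t
    simp only [Finset.mem_filter, Finset.mem_univ, true_and, hD]
    constructor
    · exact fun h => h.2
    · intro h
      refine ⟨?_, h⟩
      obtain ⟨t', ht', rfl⟩ := Finset.mem_image.mp hc
      have ht'' : t' ^ 2 = 1 := (Finset.mem_filter.mp ht').2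
      obtain ⟨g, hg⟩ := isConj_iff.mp (ConjClasses.mk_eq_mk_iff_isConj.mp h)
      rw [← hg, conj_pow] at ht''
      exact conj_eq_one_iff.mp ht''
  set 𝒮 : Finset (ConjClasses P) :=
    Finset.univ.filter (fun c => ∃ y : P, ConjClasses.mk y = c ∧ orderOf y = 2) with h𝒮
  have hs : Nat.card {c : ConjClasses P // ∃ y : P, ConjClasses.mk y = c ∧ orderOf y = 2} = 𝒮.card := by
    rw [Nat.card_eq_fintype_card, Fintype.card_subtype]
  have h4 : 𝒞.card ≤ 𝒮.card + 1 := by
    refine le_trans (Finset.card_le_card ?_) (Finset.card_insert_le (ConjClasses.mk (1 : P)) 𝒮)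
    intro c hc
    obtain ⟨t, ht, rfl⟩ := Finset.mem_image.mp hc
    have ht' : t ^ 2 = 1 := (Finset.mem_filter.mp ht).2
    by_cases h1t : t = 1
    · rw [h1t]; exact Finset.mem_insert_self _ _
    · apply Finset.mem_insert_of_mem
      exact Finset.mem_filter.mpr ⟨Finset.mem_univ _, t, rfl, orderOf_eq_prime ht' h1t⟩
  have hPpos : 0 < Nat.card P := Nat.card_pos
  have hΦpos : 0 < Nat.card (frattini P) := Nat.card_pos
  have h5 : Nat.card P ≤ Nat.card (frattini P) * (𝒮.card + 1) := by
    have h6 : Nat.card P * Nat.card P ≤ Nat.card (frattini P) * (𝒮.card + 1) * Nat.card P := by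
      calc Nat.card P * Nat.card P = Nat.card P ^ 2 := (pow_two _).symm
        _ ≤ Nat.card (frattini P) * (𝒞.card * Nat.card P) :=
          h1.trans (Nat.mul_le_mul_left _ (h2.trans h3.le))
        _ ≤ Nat.card (frattini P) * ((𝒮.card + 1) * Nat.card P) :=
          Nat.mul_le_mul_left _ (Nat.mul_le_mul_right _ h4)
        _ = Nat.card (frattini P) * (𝒮.card + 1) * Nat.card P := by ring
    exact Nat.le_of_mul_le_mul_right h6 hPpos
  have h7 : Nat.card (P ⧸ frattini P) ≤ 𝒮.card + 1 := by
    have h8 := Subgroup.card_eq_card_quotient_mul_card_subgroup (frattini P)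
    rw [h8, mul_comm] at h5
    exact Nat.le_of_mul_le_mul_left h5 hΦpos
  refine ⟨by rw [hs]; exact h7, h7.trans ?_⟩
  set I : Finset P := Finset.univ.filter (fun y : P => orderOf y = 2) with hI
  have h9 : 𝒮.card ≤ I.card := by
    have : 𝒮 = I.image ConjClasses.mk := by
      ext c
      simp only [h𝒮, hI, Finset.mem_filter, Finset.mem_univ, true_and, Finset.mem_image]
      constructor
      · rintro ⟨y, hy, hy2⟩; exact ⟨y, hy2, hy⟩
      · rintro ⟨y, hy2, hy⟩; exact ⟨y, hy, hy2⟩
    rw [this]; exact Finset.card_image_le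
  have h10 : (insert (1 : P) I).card = I.card + 1 := by
    apply Finset.card_insert_of_notMem
    simp [hI]
  have h11 : (insert (1 : P) I).card ≤ Nat.card (Subgroup.closure {y : P | orderOf y = 2}) := by
    rw [Nat.card_eq_fintype_card, Fintype.card_subtype]
    apply Finset.card_le_card
    intro y hy
    rcases Finset.mem_insert.mp hy with rfl | hy
    · simp [Subgroup.one_mem]
    · exact Finset.mem_filter.mpr ⟨Finset.mem_univ _,
        Subgroup.subset_closure (Finset.mem_filter.mp hy).2⟩
  omega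

end Cfsg.Agent.S4029
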