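import Cfsg.Statements.S4032
import Cfsg.Agent.S4028
import Cfsg.Agent.Lib.Helper1.SZSub

set_option autoImplicit false
open Cfsg

namespace Cfsg.Agent.S4032

open scoped Pointwise

/-- Let π be a set of primes and G a finite group in which N_G(⟨x⟩) = C_G(x) for every π-element x. If N is a normal subgroup of G whose order is divisible by no prime of π, then G/N has the same property: N_{G/N}(⟨y⟩) = C_{G/N}(y) for every π-element y of G/N. -/
theorem result {G : Type*} [Group G] [Finite G] (π : Set ℕ)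
    (hirr : ∀ x : G, (∀ r : ℕ, r.Prime → r ∣ orderOf x → r ∈ π) →
      Subgroup.normalizer ((Subgroup.zpowers x : Subgroup G) : Set G) ≤ Subgroup.centralizer {x})
    (N : Subgroup G) [N.Normal] (hN : ∀ r : ℕ, r.Prime → r ∣ Nat.card N → r ∉ π) :
    ∀ y : G ⧸ N, (∀ r : ℕ, r.Prime → r ∣ orderOf y → r ∈ π) →
      Subgroup.normalizer ((Subgroup.zpowers y : Subgroup (G ⧸ N)) : Set (G ⧸ N)) ≤ Subgroup.centralizer {y} := by
  intro y hy gbar hg
  classical
  obtain ⟨x₀, rfl⟩ := QuotientGroup.mk_surjective y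
  obtain ⟨g, rfl⟩ := QuotientGroup.mk_surjective gbar
  set y : G ⧸ N := (x₀ : G ⧸ N) with hydef
  set o := orderOf y with ho
  set n := Nat.card N with hn
  have hcop : Nat.Coprime n o := by
    apply Nat.coprime_of_dvd
    intro r hr h1 h2
    exact hN r hr h1 (hy r hr h2)
  -- Bezout
  have hbez : (1 : ℤ) = n * Nat.gcdA n o + o * Nat.gcdB n o := by
    have := Nat.gcd_eq_gcd_ab n o
    rw [hcop] at this
    exact_mod_cast this
  set a := Nat.gcdA n o
  set b := Nat.gcdB n o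
  let x : G := x₀ ^ ((n : ℤ) * a)
  have hxy : (x : G ⧸ N) = y := by
    show ((x₀ ^ ((n : ℤ) * a) : G) : G ⧸ N) = y
    rw [QuotientGroup.mk_zpow]
    have h1 : (n : ℤ) * a = 1 - o * b := by linarith
    rw [h1, zpow_sub, zpow_one, zpow_mul, zpow_natCast, ho, pow_orderOf_eq_one, one_zpow, inv_one,
      mul_one]
  have hx₀ : x₀ ^ o ∈ N := by
    rw [← QuotientGroup.eq_one_iff, QuotientGroup.mk_pow, ho]
    exact pow_orderOf_eq_one _
  have hx₀' : x₀ ^ (o * n) = 1 := by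
    rw [pow_mul]
    have : ((⟨x₀ ^ o, hx₀⟩ : N) ^ Nat.card N) = 1 := pow_card_eq_one'
    exact congrArg Subtype.val this
  have hxo : x ^ o = 1 := by
    show (x₀ ^ ((n : ℤ) * a)) ^ o = 1
    rw [← zpow_natCast, ← zpow_mul]
    have : (n : ℤ) * a * o = ((o * n : ℕ) : ℤ) * a := by push_cast; ring
    rw [this, zpow_mul, zpow_natCast, hx₀', one_zpow]
  have hox : orderOf x = o := by
    apply Nat.dvd_antisymm (orderOf_dvd_of_pow_eq_one hxo)
    rw [ho, ← hxy]
    exact orderOf_map_dvd (QuotientGroup.mk' N) x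
  let L : Subgroup G := (Subgroup.zpowers y).comap (QuotientGroup.mk' N)
  have hrel : N.relIndex L = o := by
    rw [Lib.Helper1.relIndex_comap_mk', Nat.card_zpowers]
  have hNL : N ≤ L := Lib.Helper1.le_comap_mk' N _
  have hxL : x ∈ L := by
    show (x : G ⧸ N) ∈ Subgroup.zpowers y
    rw [hxy]; exact Subgroup.mem_zpowers y
  have hgx : g * x * g⁻¹ ∈ L := by
    show ((g * x * g⁻¹ : G) : G ⧸ N) ∈ Subgroup.zpowers y
    rw [QuotientGroup.mk_mul, QuotientGroup.mk_mul, QuotientGroup.mk_inv, hxy]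
    exact (Cfsg.Agent.S4028.mem_norm_zpowers _ _).1 hg
  obtain ⟨c, hcN, hc⟩ := Lib.Helper1.sz_conj_sub N L hNL
    (by rw [Subgroup.normalizer_eq_top]; exact le_top) (by rw [hrel]; exact hcop)
    (Subgroup.zpowers x) (Subgroup.zpowers (g * x * g⁻¹))
    (by rw [Subgroup.zpowers_le]; exact hxL) (by rw [Subgroup.zpowers_le]; exact hgx)
    (by rw [hrel, Nat.card_zpowers, hox])
    (by rw [hrel, Nat.card_zpowers]
        have : g * x * g⁻¹ = MulAut.conj g x := rfl
        rw [this, MulEquiv.orderOf_eq, hox])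
    (Or.inr inferInstance)
  have h1 : g * x * g⁻¹ ∈ MulAut.conj c • Subgroup.zpowers x := by
    rw [hc]; exact Subgroup.mem_zpowers _
  obtain ⟨z, hz, hzz⟩ := h1
  have hzz' : c * z * c⁻¹ = g * x * g⁻¹ := hzz
  have h2 : (c⁻¹ * g) * x * (c⁻¹ * g)⁻¹ ∈ Subgroup.zpowers x := by
    have : (c⁻¹ * g) * x * (c⁻¹ * g)⁻¹ = z := by
      calc (c⁻¹ * g) * x * (c⁻¹ * g)⁻¹ = c⁻¹ * (g * x * g⁻¹) * c := by group
        _ = c⁻¹ * (c * z * c⁻¹) * c := by rw [hzz']
        _ = z := by group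
    rw [this]; exact hz
  have h3 := hirr x (by rw [hox]; exact hy) ((Cfsg.Agent.S4028.mem_norm_zpowers _ _).2 h2)
  rw [Subgroup.mem_centralizer_singleton_iff] at h3 ⊢
  have h4 : ((c⁻¹ * g : G) : G ⧸ N) = (g : G ⧸ N) := by
    rw [QuotientGroup.mk_mul, (QuotientGroup.eq_one_iff _).2 (N.inv_mem hcN), one_mul]
  have h5 : ((c⁻¹ * g : G) : G ⧸ N) * (x : G ⧸ N) = (x : G ⧸ N) * ((c⁻¹ * g : G) : G ⧸ N) := by
    rw [← QuotientGroup.mk_mul, ← QuotientGroup.mk_mul, h3]
  rw [h4, hxy] at h5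
  exact h5

end Cfsg.Agent.S4032
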