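import Cfsg.Statements.S4034
import Cfsg.Agent.Lib.Helper1.ClassSize

set_option autoImplicit false
open Cfsg

namespace Cfsg.Agent.S4034

/-- Let G be a finite group and p a prime. Every conjugacy class of p-regular elements of G (elements of order prime to p) has p-power size if and only if G has an abelian p-complement, i.e. an abelian subgroup of order prime to p and p-power index. -/
theorem result {G : Type*} [Group G] [Finite G] {p : ℕ} (hp : p.Prime) :
    (∀ x : G, (orderOf x).Coprime p → ∃ k : ℕ, (ConjClasses.mk x).carrier.ncard = p ^ k) ↔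
    (∃ H : Subgroup G, IsMulCommutative H ∧ ¬ p ∣ Nat.card H ∧ ∃ k : ℕ, H.index = p ^ k) := by
  constructor
  · intro h
    have h' : Cfsg.Agent.Lib.Helper1.PRegPow p G := by
      intro x hx
      obtain ⟨k, hk⟩ := h x hx
      exact ⟨k, by rw [← Cfsg.Agent.Lib.Helper1.ncard_conjClass_eq_index, hk]⟩
    haveI := Cfsg.Agent.Lib.Helper1.isSolvable_of_pRegPow hp _ G rfl h'
    obtain ⟨H, hH, k, hk⟩ := Cfsg.Agent.Lib.Helper1.exists_pComplement_of_isSolvable (G := G) hp
    refine ⟨H, ⟨⟨?_⟩⟩, ?_, k, hk⟩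
    · rintro ⟨a, ha⟩ ⟨b, hb⟩
      exact Subtype.ext (Cfsg.Agent.Lib.Helper1.pRegPow_commute hp _ G rfl h' H hH a ha b hb)
    · exact fun hd => (Nat.Prime.coprime_iff_not_dvd hp).mp hH.symm hd
  · rintro ⟨H, hHc, hHp, k, hk⟩ x hx
    obtain ⟨g, hg⟩ := Cfsg.Agent.Lib.Helper1.exists_conj_mem_of_abelian H hHc _ x rfl
      (by rw [hk]; exact Nat.Coprime.pow_right k hx)
    have h1 : ConjClasses.mk x = ConjClasses.mk (g * x * g⁻¹) :=
      ConjClasses.mk_eq_mk_iff_isConj.mpr (isConj_iff.mpr ⟨g, rfl⟩)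
    rw [h1, Cfsg.Agent.Lib.Helper1.ncard_conjClass_eq_index]
    have hHC : H ≤ Subgroup.centralizer ({g * x * g⁻¹} : Set G) := by
      intro u hu
      rw [Subgroup.mem_centralizer_singleton_iff]
      exact congrArg Subtype.val (hHc.is_comm.comm ⟨u, hu⟩ ⟨_, hg⟩)
    obtain ⟨j, -, hj⟩ := (Nat.dvd_prime_pow hp).mp (hk ▸ Subgroup.index_dvd_of_le hHC)
    exact ⟨j, hj⟩

end Cfsg.Agent.S4034
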