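import Cfsg.Statements.S4035
import Cfsg.Agent.Lib.Helper22.Basic

set_option autoImplicit false
open Cfsg

namespace Cfsg.Agent.S4035

/-- Let G be a finite group and p a prime such that p divides the size of no conjugacy class of p-regular elements (elements of order prime to p). Then G is the internal direct product of a Sylow p-subgroup P and a normal subgroup H of order prime to p: P is normal, P ⊓ H = 1 and PH = G. -/
theorem result {G : Type*} [Group G] [Finite G] {p : ℕ} [Fact p.Prime]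
    (h : ∀ x : G, (orderOf x).Coprime p → ¬ p ∣ (ConjClasses.mk x).carrier.ncard) (P : Sylow p G) :
    (P : Subgroup G).Normal ∧ ∃ H : Subgroup G, H.Normal ∧ ¬ p ∣ Nat.card H ∧
      (P : Subgroup G) ⊓ H = ⊥ ∧ (P : Subgroup G) ⊔ H = ⊤ := by
  have hp : p.Prime := Fact.out
  have hidx : ∀ x : G, (orderOf x).Coprime p →
      ¬ p ∣ (Subgroup.centralizer ({x} : Set G)).index := by
    intro x hx
    rw [← Cfsg.Agent.Lib.Helper22.ncard_carrier_eq_index_centralizer]
    exact h x hx
  have hfix : ∀ g : G, ∃ S : Sylow p G, g • S = S := by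
    intro g
    set n := orderOf g with hn
    have hn0 : n ≠ 0 := (orderOf_pos g).ne'
    set k := n.factorization p with hk
    set m := n / p ^ k with hm
    have hmn : p ^ k * m = n := Nat.ordProj_mul_ordCompl_eq_self n p
    have hm0 : m ≠ 0 := (Nat.ordCompl_pos p hn0).ne'
    have hpk0 : p ^ k ≠ 0 := (pow_pos hp.pos k).ne'
    have hob : orderOf (g ^ p ^ k) = m := by
      rw [orderOf_pow_of_dvd hpk0 (Dvd.intro _ hmn)]
    have hoa : orderOf (g ^ m) = p ^ k := by
      rw [orderOf_pow_of_dvd hm0 (Dvd.intro_left _ hmn)]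
      exact Nat.div_eq_of_eq_mul_left (Nat.pos_of_ne_zero hm0) hmn.symm
    have hcop : Nat.Coprime p m := Nat.coprime_ordCompl hp hn0
    have hza : IsPGroup p (Subgroup.zpowers (g ^ m)) := by
      rw [IsPGroup.iff_card]
      exact ⟨k, by rw [Nat.card_zpowers, hoa]⟩
    have hzaC : Subgroup.zpowers (g ^ m) ≤ Subgroup.centralizer ({g ^ p ^ k} : Set G) := by
      rw [Subgroup.zpowers_le, Subgroup.mem_centralizer_iff]
      intro y hy
      rw [Set.mem_singleton_iff.1 hy, ← pow_add, ← pow_add, add_comm]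
    obtain ⟨S, haS, hSC⟩ := Cfsg.Agent.Lib.Helper22.exists_sylow_le_of_not_dvd_index _
      (hidx (g ^ p ^ k) (by rw [hob]; exact hcop.symm)) _ hza hzaC
    refine ⟨S, ?_⟩
    rw [Sylow.smul_eq_iff_mem_normalizer]
    apply Cfsg.Agent.Lib.Helper22.mem_of_pow_mem_of_coprime _ g m (p ^ k)
      (Nat.Coprime.pow_right k hcop.symm)
    · exact Subgroup.le_normalizer (haS (Subgroup.mem_zpowers _))
    · apply Subgroup.centralizer_le_normalizer
      rw [Subgroup.mem_centralizer_iff]
      intro s hs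
      exact ((Subgroup.mem_centralizer_iff.1 (hSC hs)) _ rfl).symm
  haveI : Subsingleton (Sylow p G) :=
    Cfsg.Agent.Lib.Helper22.subsingleton_of_forall_exists_fixed hfix
  haveI hPn : (P : Subgroup G).Normal := Sylow.normal_of_subsingleton P
  refine ⟨hPn, ?_⟩
  obtain ⟨H, hH⟩ := Subgroup.exists_right_complement'_of_coprime P.card_coprime_index
  have hcardH : Nat.card H = (P : Subgroup G).index := hH.symm.index_eq_card.symm
  have hpH : ¬ p ∣ Nat.card H := by rw [hcardH]; exact P.not_dvd_index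
  have hcent : ∀ x ∈ H, (P : Subgroup G) ≤ Subgroup.centralizer ({x} : Set G) := by
    intro x hx
    have hox : (orderOf x).Coprime p := by
      have h1 : orderOf x ∣ Nat.card H := by
        have := orderOf_dvd_natCard (⟨x, hx⟩ : H)
        rwa [Subgroup.orderOf_mk] at this
      have h2 : (Nat.card H).Coprime p := ((Nat.Prime.coprime_iff_not_dvd hp).2 hpH).symm
      exact Nat.Coprime.coprime_dvd_left h1 h2
    obtain ⟨S, -, hS⟩ := Cfsg.Agent.Lib.Helper22.exists_sylow_le_of_not_dvd_index _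
      (hidx x hox) ⊥ IsPGroup.of_bot bot_le
    rwa [Subsingleton.elim S P] at hS
  refine ⟨H, ⟨?_⟩, hpH, hH.disjoint.eq_bot, hH.sup_eq_top⟩
  intro x hx g
  have hg : g ∈ (P : Subgroup G) ⊔ H := by rw [hH.sup_eq_top]; exact Subgroup.mem_top g
  obtain ⟨u, hu, v, hv, rfl⟩ := Subgroup.mem_sup_of_normal_left.1 hg
  have hy : v * x * v⁻¹ ∈ H := H.mul_mem (H.mul_mem hv hx) (H.inv_mem hv)
  have hc : (v * x * v⁻¹) * u = u * (v * x * v⁻¹) :=
    (Subgroup.mem_centralizer_iff.1 (hcent _ hy hu)) _ rfl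
  have : u * v * x * (u * v)⁻¹ = v * x * v⁻¹ := by
    calc u * v * x * (u * v)⁻¹ = (u * (v * x * v⁻¹)) * u⁻¹ := by group
      _ = v * x * v⁻¹ := by rw [← hc]; group
  rw [this]
  exact hy

end Cfsg.Agent.S4035
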