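import Cfsg.Statements.S4036
-- import your own Cfsg.Agent.* helpers here

set_option autoImplicit false
open Cfsg

namespace Cfsg.Agent.S4036

/-- Let P be a finite abelian p-group and K a group of automorphisms of P (a subgroup of Aut P) whose order is divisible by p. If all non-identity elements of K have the same fixed-point subgroup on P, then K has no non-trivial normal subgroup of order prime to p. -/
theorem result {P : Type*} [CommGroup P] [Finite P] {p : ℕ}
    [Fact p.Prime] (hP : IsPGroup p P) (K : Subgroup (MulAut P)) (hK : p ∣ Nat.card K)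
    (hfix : ∀ x y : MulAut P, x ∈ K → y ∈ K → x ≠ 1 → y ≠ 1 → ∀ v : P, x v = v ↔ y v = v) :
    ∀ N : Subgroup ↥K, N.Normal → ¬ p ∣ Nat.card N → N = ⊥ := by
  intro N hN hpN
  by_contra hne
  classical
  haveI : Fintype N := Fintype.ofFinite N
  let ν : P →* P := ∏ n : N, (((n : K) : MulAut P) : P ≃* P).toMonoidHom
  have hν : ∀ v, ν v = ∏ n : N, ((n : K) : MulAut P) v := by
    intro v
    simp [ν, MonoidHom.finset_prod_apply]
  -- fixed by N
  have hfixN : ∀ (m : N) (v : P), ((m : K) : MulAut P) (ν v) = ν v := by
    intro m v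
    rw [hν, map_prod]
    refine Fintype.prod_equiv (Equiv.mulLeft m) _ _ ?_
    intro n
    simp [MulAut.mul_apply]
  -- equivariance
  have hequiv : ∀ (k : K) (v : P), (k : MulAut P) (ν v) = ν ((k : MulAut P) v) := by
    intro k v
    rw [hν, hν, map_prod]
    refine Fintype.prod_equiv (MulAut.conjNormal k : N ≃* N).toEquiv _ _ ?_
    intro n
    simp [MulAut.mul_apply]
  obtain ⟨u, hu⟩ := exists_prime_orderOf_dvd_card' (G := K) p hK
  have hu1 : u ≠ 1 := by
    intro h
    rw [h, orderOf_one] at hu
    exact (Fact.out : p.Prime).one_lt.ne hu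
  have hu1' : (u : MulAut P) ≠ 1 := by
    intro h
    exact hu1 (Subtype.ext h)
  -- fixed by u implies fixed by N
  have hfu : ∀ v : P, (u : MulAut P) v = v → ∀ n : N, ((n : K) : MulAut P) v = v := by
    intro v hv n
    by_cases hn : ((n : K) : MulAut P) = 1
    · rw [hn]; rfl
    · exact (hfix _ _ u.2 (n : K).2 hu1' hn v).1 hv
  by_cases hW : ν.ker = ⊥
  · -- ν injective so bijective
    have hinj : Function.Injective ν := (MonoidHom.ker_eq_bot_iff ν).1 hW
    have hsurj : Function.Surjective ν := Finite.surjective_of_injective hinj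
    apply hne
    rw [Subgroup.eq_bot_iff_forall]
    intro n hn
    apply Subtype.ext
    apply MulEquiv.ext
    intro v
    obtain ⟨w, rfl⟩ := hsurj v
    exact hfixN ⟨n, hn⟩ w
  · let act : MulAction (Subgroup.zpowers u) ν.ker :=
      { smul := fun g w => ⟨((g : K) : MulAut P) w, by
          rw [MonoidHom.mem_ker, ← hequiv, (MonoidHom.mem_ker).1 w.2, map_one]⟩
        one_smul := fun w => by apply Subtype.ext; rfl
        mul_smul := fun g h w => by apply Subtype.ext; rfl }
    have hpz : IsPGroup p (Subgroup.zpowers u) := by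
      apply IsPGroup.of_card (n := 1)
      rw [Nat.card_zpowers, hu, pow_one]
    have hpW : IsPGroup p ν.ker := hP.to_subgroup _
    have hdvd : p ∣ Nat.card ν.ker := by
      rcases hpW.card_eq_or_dvd with h | h
      · exact absurd ((Subgroup.card_eq_one).1 h) hW
      · exact h
    have h1 : (1 : ν.ker) ∈ MulAction.fixedPoints (Subgroup.zpowers u) ν.ker := by
      intro g
      apply Subtype.ext
      exact map_one ((g : K) : MulAut P)
    obtain ⟨b, hb, hb1⟩ := hpz.exists_fixed_point_of_prime_dvd_card_of_fixed_point ν.ker hdvd h1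
    have hbu : (u : MulAut P) (b : P) = b := by
      have := hb ⟨u, Subgroup.mem_zpowers u⟩
      exact congrArg Subtype.val this
    have hbN := hfu _ hbu
    have hνb : ν (b : P) = (b : P) ^ Nat.card N := by
      rw [hν, Finset.prod_congr rfl (fun n _ => hbN n), Finset.prod_const, Finset.card_univ,
        Nat.card_eq_fintype_card]
    have hb0 : (b : P) ^ Nat.card N = 1 := by
      rw [← hνb]; exact (MonoidHom.mem_ker).1 b.2
    obtain ⟨k, hk⟩ := hP (b : P)
    have hcop : Nat.Coprime (p ^ k) (Nat.card N) :=
      Nat.Coprime.pow_left _ (((Fact.out : p.Prime).coprime_iff_not_dvd).2 hpN)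
    have : (b : P) = 1 := by
      have h2 : orderOf (b : P) ∣ 1 := by
        rw [← Nat.Coprime.gcd_eq_one hcop]
        exact Nat.dvd_gcd (orderOf_dvd_of_pow_eq_one hk) (orderOf_dvd_of_pow_eq_one hb0)
      exact orderOf_eq_one_iff.1 (Nat.dvd_one.1 h2)
    exact hb1 (Subtype.ext this.symm)

end Cfsg.Agent.S4036
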