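import Cfsg.Statements.S4043
import Cfsg.Agent.Lib.Helper1.SZSub

set_option autoImplicit false
open Cfsg

namespace Cfsg.Agent.S4043

open scoped Pointwise

theorem mem_normalizer_of_forall {G : Type*} [Group G] [Finite G] (K : Subgroup G) (g : G)
    (h : ∀ k ∈ K, g * k * g⁻¹ ∈ K) : g ∈ Subgroup.normalizer (K : Set G) := by
  have hmap : K.map (MulAut.conj g).toMonoidHom = K := by
    apply Subgroup.eq_of_le_of_card_ge
    · rintro _ ⟨k, hk, rfl⟩
      exact h k hk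
    · rw [Subgroup.card_map_of_injective (MulAut.conj g).injective]
  rw [Subgroup.mem_normalizer_iff]
  intro n
  constructor
  · intro hn
    exact h n hn
  · intro hn
    rw [← hmap] at hn
    obtain ⟨m, hm, hmn⟩ := hn
    have : m = n := (MulAut.conj g).injective hmn
    exact this ▸ hm

theorem lemX {G : Type*} [Group G] [Finite G] {p : ℕ} [Fact p.Prime] (N : Subgroup G) [hNn : N.Normal]
    (hN : IsPGroup p N) (A : Subgroup G) (hA : A.IsComplement' N)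
    (hAp : Cfsg.HasNormalPComplement p A)
    (hC : ∀ n : G, n ∈ N → (∀ a : G, a ∈ A → a * n * a⁻¹ = n) → n = 1) :
    ∃ K : Subgroup G, K ≤ A ∧ (Nat.card K).Coprime p ∧ (∃ r : ℕ, Nat.card A = Nat.card K * p ^ r) ∧
      (∀ a ∈ A, (orderOf a).Coprime p → a ∈ K) ∧
      (∀ g : G, g ∈ Subgroup.normalizer (K : Set G) → g ∈ A) ∧
      (∀ a ∈ A, ∀ k ∈ K, a * k * a⁻¹ ∈ K) := by
  classical
  have hp : p.Prime := Fact.out
  obtain ⟨R, K₀, hK₀n, hK₀R⟩ := hAp
  let K : Subgroup G := K₀.map A.subtype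
  have hKA : K ≤ A := Subgroup.map_subtype_le K₀
  have hKcard : Nat.card K = Nat.card K₀ := Subgroup.card_map_of_injective A.subtype_injective
  obtain ⟨r, hr⟩ := IsPGroup.iff_card.1 R.2
  have hcardA : Nat.card A = Nat.card K * p ^ r := by
    rw [hKcard, ← hr]; exact hK₀R.card_mul.symm
  have hK₀cop : (Nat.card K₀).Coprime p := by
    rw [← hK₀R.index_eq_card]
    exact Nat.Coprime.symm (hp.coprime_iff_not_dvd.2 R.not_dvd_index)
  have hKcop : (Nat.card K).Coprime p := by rw [hKcard]; exact hK₀cop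
  have hK₀idx : K₀.index = p ^ r := by
    rw [← hr]; exact hK₀R.symm.index_eq_card
  have hKmem : ∀ a ∈ A, (orderOf a).Coprime p → a ∈ K := by
    intro y hy hyo
    refine ⟨⟨y, hy⟩, ?_, rfl⟩
    show (⟨y, hy⟩ : A) ∈ K₀
    rw [← QuotientGroup.eq_one_iff]
    have h2 : orderOf (((⟨y, hy⟩ : A) : A ⧸ K₀)) ∣ orderOf y := by
      have := orderOf_map_dvd (QuotientGroup.mk' K₀) (⟨y, hy⟩ : A)
      rwa [Subgroup.orderOf_mk] at this
    have h3 : orderOf (((⟨y, hy⟩ : A) : A ⧸ K₀)) ∣ p ^ r := by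
      rw [← hK₀idx, Subgroup.index_eq_card]
      exact orderOf_dvd_natCard _
    have h4 : orderOf (((⟨y, hy⟩ : A) : A ⧸ K₀)) ∣ 1 := by
      rw [← Nat.Coprime.gcd_eq_one (Nat.Coprime.pow_right r hyo)]
      exact Nat.dvd_gcd h2 h3
    exact orderOf_eq_one_iff.1 (Nat.dvd_one.1 h4)
  have hKnA : ∀ a ∈ A, ∀ k ∈ K, a * k * a⁻¹ ∈ K := by
    rintro t ht _ ⟨κ, hκ, rfl⟩
    exact ⟨⟨t, ht⟩ * κ * ⟨t, ht⟩⁻¹, hK₀n.conj_mem κ hκ ⟨t, ht⟩, rfl⟩
  have hAN : ∀ g ∈ A, g ∈ N → g = 1 := by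
    intro g hgA hgN
    have := hA.disjoint.le_bot (Subgroup.mem_inf.2 ⟨hgA, hgN⟩)
    exact Subgroup.mem_bot.1 this
  let D : Subgroup G := N ⊓ Subgroup.centralizer (K : Set G)
  have hDA : ∀ a ∈ A, ∀ d ∈ D, a * d * a⁻¹ ∈ D := by
    intro a ha d hd
    rw [Subgroup.mem_inf] at hd ⊢
    refine ⟨hNn.conj_mem d hd.1 a, ?_⟩
    rw [Subgroup.mem_centralizer_iff]
    intro k hk
    have h1 : a⁻¹ * k * a⁻¹⁻¹ ∈ K := hKnA a⁻¹ (A.inv_mem ha) k hk
    have h2 := (Subgroup.mem_centralizer_iff.1 hd.2) _ h1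
    calc k * (a * d * a⁻¹) = a * ((a⁻¹ * k * a⁻¹⁻¹) * d) * a⁻¹ := by group
      _ = a * (d * (a⁻¹ * k * a⁻¹⁻¹)) * a⁻¹ := by rw [h2]
      _ = a * d * a⁻¹ * k := by group
  have hDbot : D = ⊥ := by
    by_contra hne
    let act : MulAction (R : Subgroup A) D :=
      { smul := fun g d => ⟨((g : A) : G) * d * ((g : A) : G)⁻¹, hDA _ (g : A).2 _ d.2⟩
        one_smul := fun d => by
          apply Subtype.ext
          show ((1 : G)) * d * (1 : G)⁻¹ = d
          simp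
        mul_smul := fun g h d => by
          apply Subtype.ext
          show (((g : A) : G) * ((h : A) : G)) * d * (((g : A) : G) * ((h : A) : G))⁻¹ =
            ((g : A) : G) * (((h : A) : G) * d * ((h : A) : G)⁻¹) * ((g : A) : G)⁻¹
          group }
    have hDp : IsPGroup p D := hN.to_le inf_le_left
    have hdvd : p ∣ Nat.card D := by
      rcases hDp.card_eq_or_dvd with h | h
      · exact absurd ((Subgroup.card_eq_one).1 h) hne
      · exact h
    have h1 : (1 : D) ∈ MulAction.fixedPoints (R : Subgroup A) D := by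
      intro g
      apply Subtype.ext
      show ((g : A) : G) * (1 : G) * ((g : A) : G)⁻¹ = 1
      simp
    obtain ⟨b, hb, hb1⟩ := R.2.exists_fixed_point_of_prime_dvd_card_of_fixed_point D hdvd h1
    apply hb1
    apply Subtype.ext
    symm
    have hbD := Subgroup.mem_inf.1 b.2
    apply hC b hbD.1
    intro a ha
    obtain ⟨⟨⟨k, hk⟩, ⟨ρ, hρ⟩⟩, hkr⟩ := hK₀R.2 ⟨a, ha⟩
    have hkr' : (k : G) * (ρ : G) = a := congrArg Subtype.val hkr
    have hρb : (ρ : G) * b * (ρ : G)⁻¹ = b := congrArg Subtype.val (hb ⟨ρ, hρ⟩)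
    have hkb : (k : G) * b = b * k :=
      (Subgroup.mem_centralizer_iff.1 hbD.2) k ⟨k, hk, rfl⟩
    rw [← hkr']
    calc (k : G) * ρ * b * ((k : G) * ρ)⁻¹ = k * ((ρ : G) * b * (ρ : G)⁻¹) * (k : G)⁻¹ := by group
      _ = (k * b) * (k : G)⁻¹ := by rw [hρb]
      _ = b := by rw [hkb]; group
  refine ⟨K, hKA, hKcop, ⟨r, hcardA⟩, hKmem, ?_, hKnA⟩
  intro g hg
  obtain ⟨⟨⟨a, ha⟩, ⟨n, hn⟩⟩, hgan⟩ := hA.2 g
  have hgan' : a * n = g := hgan
  have hnK : n ∈ Subgroup.normalizer (K : Set G) := by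
    have : n = a⁻¹ * g := by rw [← hgan']; group
    rw [this]
    apply Subgroup.mul_mem _ _ hg
    apply mem_normalizer_of_forall
    exact hKnA _ (A.inv_mem ha)
  have hnD : n ∈ D := by
    rw [Subgroup.mem_inf]
    refine ⟨hn, ?_⟩
    rw [Subgroup.mem_centralizer_iff]
    intro k hk
    have h1 : n * k * n⁻¹ * k⁻¹ ∈ K :=
      K.mul_mem ((Subgroup.mem_normalizer_iff.1 hnK k).1 hk) (K.inv_mem hk)
    have h2 : n * k * n⁻¹ * k⁻¹ ∈ N := by
      have h3 := N.mul_mem hn (hNn.conj_mem _ (N.inv_mem hn) k)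
      simpa [mul_assoc] using h3
    have h4 := hAN _ (hKA h1) h2
    calc k * n = (n * k * n⁻¹ * k⁻¹)⁻¹ * (n * k) := by group
      _ = n * k := by rw [h4, inv_one, one_mul]
  rw [hDbot, Subgroup.mem_bot] at hnD
  rw [← hgan', hnD, mul_one]
  exact ha

/-- Let G be a finite group that is the semidirect product of a normal p-subgroup N by a subgroup A, and also of N by a subgroup A₁, where p is a prime and A and A₁ both have normal p-complements. If C_N(A) = C_N(A₁) = 1, then A₁ is conjugate to A by an element of N. -/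
theorem result {G : Type*} [Group G] [Finite G] {p : ℕ}
    [Fact p.Prime] (N : Subgroup G) [N.Normal] (hN : IsPGroup p N) (A A₁ : Subgroup G)
    (hA : A.IsComplement' N) (hA₁ : A₁.IsComplement' N)
    (hAp : Cfsg.HasNormalPComplement p A) (hA₁p : Cfsg.HasNormalPComplement p A₁)
    (hC : ∀ n : G, n ∈ N → (∀ a : G, a ∈ A → a * n * a⁻¹ = n) → n = 1)
    (hC₁ : ∀ n : G, n ∈ N → (∀ a : G, a ∈ A₁ → a * n * a⁻¹ = n) → n = 1) :
    ∃ n : G, n ∈ N ∧ A₁ = A.map (MulAut.conj n).toMonoidHom := by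
  classical
  have hp : p.Prime := Fact.out
  obtain ⟨K, hKA, hKcop, ⟨r, hr⟩, hKmem, hKnorm, hKnA⟩ := lemX N hN A hA hAp hC
  obtain ⟨K₁, hK₁A, hK₁cop, ⟨r₁, hr₁⟩, hK₁mem, hK₁norm, hK₁nA⟩ := lemX N hN A₁ hA₁ hA₁p hC₁
  have hcardAA : Nat.card A = Nat.card A₁ := by
    rw [← hA.index_eq_card, ← hA₁.index_eq_card]
  have hcardK : Nat.card K = Nat.card K₁ := by
    have e : Nat.card K * p ^ r = Nat.card K₁ * p ^ r₁ := by rw [← hr, ← hr₁, hcardAA]
    apply Nat.dvd_antisymm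
    · exact (Nat.Coprime.pow_right r₁ hKcop).dvd_of_dvd_mul_right (e ▸ Dvd.intro _ rfl)
    · exact (Nat.Coprime.pow_right r hK₁cop).dvd_of_dvd_mul_right (e ▸ Dvd.intro _ rfl)
  have hAN : ∀ g ∈ A, g ∈ N → g = 1 := by
    intro g hgA hgN
    have := hA.disjoint.le_bot (Subgroup.mem_inf.2 ⟨hgA, hgN⟩)
    exact Subgroup.mem_bot.1 this
  have hK₁le : K₁ ≤ N ⊔ K := by
    intro k₁ hk₁
    obtain ⟨⟨⟨a, ha⟩, ⟨n, hn⟩⟩, hgan⟩ := hA.2 k₁
    have hgan' : a * n = k₁ := hgan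
    have hmk : (a : G ⧸ N) = (k₁ : G ⧸ N) := by
      rw [← hgan', QuotientGroup.mk_mul, (QuotientGroup.eq_one_iff n).2 hn, mul_one]
    have hapow : a ^ orderOf k₁ = 1 := by
      apply hAN _ (A.pow_mem ha _)
      rw [← QuotientGroup.eq_one_iff, QuotientGroup.mk_pow, hmk, ← QuotientGroup.mk_pow,
        pow_orderOf_eq_one]
      rfl
    have hao : (orderOf a).Coprime p :=
      Nat.Coprime.coprime_dvd_left ((orderOf_dvd_of_pow_eq_one hapow).trans
        (Subgroup.orderOf_dvd_natCard K₁ hk₁)) hK₁cop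
    rw [← hgan']
    exact Subgroup.mul_mem _ (Subgroup.mem_sup_right (hKmem a ha hao)) (Subgroup.mem_sup_left hn)
  have hrel : N.relIndex (N ⊔ K) = Nat.card K := by
    rw [Subgroup.relIndex_sup_left, ← Subgroup.inf_relIndex_right]
    have : N ⊓ K = ⊥ := by
      rw [eq_bot_iff]
      intro g hg
      rw [Subgroup.mem_inf] at hg
      exact Subgroup.mem_bot.2 (hAN g (hKA hg.2) hg.1)
    rw [this, Subgroup.relIndex_bot_left]
  obtain ⟨n', hn'⟩ := IsPGroup.iff_card.1 hN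
  obtain ⟨x, hxN, hx⟩ := Lib.Helper1.sz_conj_sub N (N ⊔ K) le_sup_left
    (by rw [Subgroup.normalizer_eq_top]; exact le_top)
    (by rw [hrel, hn']; exact Nat.Coprime.pow_left _ hKcop.symm)
    K K₁ le_sup_right hK₁le hrel.symm (by rw [hrel, hcardK])
    (Or.inl (by
      haveI := IsPGroup.isNilpotent hN
      infer_instance))
  refine ⟨x, hxN, ?_⟩
  symm
  apply Subgroup.eq_of_le_of_card_ge
  · rintro _ ⟨a, ha, rfl⟩
    apply hK₁norm
    apply mem_normalizer_of_forall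
    intro k hk
    rw [← hx] at hk ⊢
    obtain ⟨κ, hκ, rfl⟩ := hk
    refine ⟨a * κ * a⁻¹, hKnA a ha κ hκ, ?_⟩
    show x * (a * κ * a⁻¹) * x⁻¹ = (x * a * x⁻¹) * (x * κ * x⁻¹) * (x * a * x⁻¹)⁻¹
    group
  · rw [Subgroup.card_map_of_injective (MulAut.conj x).injective, hcardAA]

end Cfsg.Agent.S4043
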