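import Cfsg.Statements.S4049
import Cfsg.Agent.Lib.Helper22.RealOdd

set_option autoImplicit false
open Cfsg

namespace Cfsg.Agent.S4049

/-- Let G be a finite group such that N_G(H)/C_G(H) has odd order for every nontrivial subgroup H of odd order. Then the Sylow 2-subgroups of G are normal. -/
theorem result {G : Type*} [Group G] [Finite G]
    (hhom : ∀ H : Subgroup G, H ≠ ⊥ → ¬ 2 ∣ Nat.card ↥H →
        ¬ 2 ∣ (Subgroup.centralizer (H : Set G)).relIndex (Subgroup.normalizer (H : Set G))) (P : Sylow 2 G) :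
    (P : Subgroup G).Normal := by
  apply Cfsg.Agent.Lib.Helper22.sylow_two_normal_of_no_real_odd
  intro x g hodd hg
  by_contra hx1
  haveI : Fact (Nat.Prime 2) := ⟨Nat.prime_two⟩
  set H := Subgroup.zpowers x with hH
  have hHbot : H ≠ ⊥ := by
    rw [Ne, Subgroup.zpowers_eq_bot]; exact hx1
  have hHcard : ¬ 2 ∣ Nat.card H := by
    rw [Nat.card_zpowers]
    exact fun h => (Nat.not_even_iff_odd.2 hodd) (even_iff_two_dvd.2 h)
  have hgN : g ∈ Subgroup.normalizer (H : Set G) := by
    rw [Subgroup.mem_normalizer_iff_map_conj_eq, MonoidHom.map_zpowers]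
    have : (MulAut.conj g : G →* G) x = x⁻¹ := by simpa using hg
    rw [this, Subgroup.zpowers_inv]
  have hinv : ∀ h : H, g * (h : G) * g⁻¹ = (h : G)⁻¹ := by
    rintro ⟨_, i, rfl⟩
    show g * x ^ i * g⁻¹ = (x ^ i)⁻¹
    rw [← conj_zpow, hg, inv_zpow]
  apply hhom H hHbot hHcard
  have h1 : (Subgroup.centralizer (H : Set G)).relIndex (Subgroup.normalizer (H : Set G)) =
      Nat.card H.normalizerMonoidHom.range := by
    rw [Subgroup.relIndex, ← Subgroup.normalizerMonoidHom_ker, Subgroup.index_ker]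
  rw [h1]
  have happ : ∀ h : H, ((H.normalizerMonoidHom ⟨g, hgN⟩) h : G) = (h : G)⁻¹ := fun h => hinv h
  let γ : H.normalizerMonoidHom.range := ⟨H.normalizerMonoidHom ⟨g, hgN⟩, ⟨_, rfl⟩⟩
  have hγ : orderOf γ = 2 := by
    apply orderOf_eq_prime
    · apply Subtype.ext
      apply MulEquiv.ext
      intro h
      apply Subtype.ext
      show ((H.normalizerMonoidHom ⟨g, hgN⟩ ^ 2) h : G) = h
      rw [pow_two, MulAut.mul_apply, happ, happ, inv_inv]
    · intro hγ1
      have h2 : H.normalizerMonoidHom ⟨g, hgN⟩ = 1 := congrArg Subtype.val hγ1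
      have h3 := happ ⟨x, Subgroup.mem_zpowers x⟩
      rw [h2] at h3
      have h4 : x⁻¹ = x := h3.symm
      have h5 : x ^ 2 = 1 := by
        rw [pow_two]
        nth_rewrite 1 [← h4]
        exact inv_mul_cancel x
      have h6 : orderOf x ∣ 2 := orderOf_dvd_of_pow_eq_one h5
      rcases (Nat.dvd_prime Nat.prime_two).1 h6 with h | h
      · exact hx1 (orderOf_eq_one_iff.1 h)
      · rw [h] at hodd
        exact absurd hodd (by decide)
  exact hγ ▸ orderOf_dvd_natCard γ

end Cfsg.Agent.S4049
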