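import Cfsg.Statements.S4050
import Mathlib
import Cfsg.Agent.Lib.Helper22.PiClosed

set_option autoImplicit false
open Cfsg

namespace Cfsg.Agent.S4050

open Subgroup Cfsg.Agent.Lib.Helper22.PiC

/-- Let π be a set of primes and G a finite group. The π-elements of G (elements whose order is divisible only by primes of π) form a subgroup if and only if G is π-separable (it has a chain of normal subgroups from 1 to G with each successive index divisible only by primes in π or only by primes outside π) and N_G(H)/C_G(H) is a π'-group for every nontrivial π'-subgroup H of G. -/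
theorem result {G : Type*} [Group G] [Finite G] (π : Set ℕ)
    (hπ : ∀ p ∈ π, p.Prime) :
    (∃ K : Subgroup G, ∀ x : G, x ∈ K ↔ ∀ p : ℕ, p.Prime → p ∣ orderOf x → p ∈ π) ↔
    ((∃ (n : ℕ) (H : Fin (n + 1) → Subgroup G), H 0 = ⊥ ∧ H (Fin.last n) = ⊤ ∧ Monotone H ∧ (∀ i, (H i).Normal) ∧
      ∀ i : Fin n, (∀ q : ℕ, q.Prime → q ∣ (H i.castSucc).relIndex (H i.succ) → q ∈ π) ∨
        (∀ q : ℕ, q.Prime → q ∣ (H i.castSucc).relIndex (H i.succ) → q ∉ π)) ∧
     (∀ H : Subgroup G, H ≠ ⊥ → (∀ p : ℕ, p.Prime → p ∣ Nat.card ↥H → p ∉ π) →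
        ∀ p : ℕ, p.Prime → p ∣ (Subgroup.centralizer (H : Set G)).relIndex (Subgroup.normalizer (H : Set G)) → p ∉ π)) := by
  classical
  constructor
  · rintro ⟨K, hK⟩
    obtain ⟨hKn, hKc, hKi⟩ := hall_of_mem_iff (G := G) (L := K) (K := ⊤) le_top
      (fun x _ => hK x)
    rw [Subgroup.relIndex_top_right] at hKi
    haveI := hKn
    refine ⟨⟨2, ![⊥, K, ⊤], rfl, rfl, ?_, ?_, ?_⟩, ?_⟩
    · intro i j hij
      fin_cases i <;> fin_cases j <;> simp_all
    · intro i
      fin_cases i
      · exact (inferInstance : (⊥ : Subgroup G).Normal)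
      · exact hKn
      · exact (inferInstance : (⊤ : Subgroup G).Normal)
    · intro i
      fin_cases i
      · left
        intro q hq hd
        have hd' : q ∣ (⊥ : Subgroup G).relIndex K := hd
        rw [Subgroup.relIndex_bot_left] at hd'
        exact hKc q hq hd'
      · right
        intro q hq hd
        have hd' : q ∣ K.relIndex ⊤ := hd
        rw [Subgroup.relIndex_top_right] at hd'
        exact hKi q hq hd'
    · intro H _ hH p hp hd
      have h1 : K ⊓ Subgroup.normalizer (H : Set G) ≤ Subgroup.centralizer (H : Set G) := by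
        intro k hk
        obtain ⟨hkK, hkN⟩ := Subgroup.mem_inf.1 hk
        rw [Subgroup.mem_centralizer_iff]
        intro h hh
        have h2 : k * h * k⁻¹ * h⁻¹ ∈ K := by
          have : k * h * k⁻¹ * h⁻¹ = k * (h * k⁻¹ * h⁻¹) := by group
          rw [this]
          exact K.mul_mem hkK (hKn.conj_mem _ (K.inv_mem hkK) h)
        have h3 : k * h * k⁻¹ * h⁻¹ ∈ H :=
          H.mul_mem ((Subgroup.mem_normalizer_iff.1 hkN h).1 hh) (H.inv_mem hh)
        have h4 : PiNum π (orderOf (k * h * k⁻¹ * h⁻¹)) := (hK _).1 h2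
        have h5 : PiNum' π (orderOf (k * h * k⁻¹ * h⁻¹)) := by
          apply PiNum'.of_dvd (n := Nat.card H) hH
          have := orderOf_dvd_natCard (⟨_, h3⟩ : H)
          rwa [Subgroup.orderOf_mk] at this
        have h6 : orderOf (k * h * k⁻¹ * h⁻¹) = 1 := Nat.coprime_self _ |>.1 (h4.coprime h5)
        have h7 : k * h * k⁻¹ * h⁻¹ = 1 := orderOf_eq_one_iff.1 h6
        calc h * k = (k * h * k⁻¹ * h⁻¹)⁻¹ * (k * h) := by group
          _ = k * h := by rw [h7]; simp
      have h2 : (Subgroup.centralizer (H : Set G)).relIndex (Subgroup.normalizer (H : Set G)) ∣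
          K.index := by
        refine (Subgroup.relIndex_dvd_of_le_left _ h1).trans ?_
        rw [Subgroup.inf_relIndex_right]
        exact Subgroup.relIndex_dvd_index_of_normal _ _
      exact hKi p hp (hd.trans h2)
  · rintro ⟨⟨n, H, h0, hn, hmono, hnorm, hfac⟩, hhom⟩
    have hC : HC π G := hc_of_hom hhom
    have key : ∀ i : Fin (n + 1), ∃ T : Subgroup G, T ≤ H i ∧
        ∀ x ∈ H i, x ∈ T ↔ PiNum π (orderOf x) := by
      intro i
      induction i using Fin.induction with
      | zero =>
        refine ⟨⊥, bot_le, fun x hx => ?_⟩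
        rw [h0, Subgroup.mem_bot] at hx
        subst hx
        simp only [Subgroup.one_mem, orderOf_one, true_iff]
        intro p hp hd
        exact absurd (Nat.dvd_one.1 hd) hp.one_lt.ne'
      | succ i ih =>
        obtain ⟨L, hLK, hL⟩ := ih
        haveI := hnorm i.castSucc
        haveI := hnorm i.succ
        have hKX : H i.castSucc ≤ H i.succ := hmono (Fin.castSucc_lt_succ).le
        obtain ⟨hLn, hLc, hLi⟩ := hall_of_mem_iff hLK hL
        haveI := hLn
        rcases hfac i with hπ1 | hπ2
        · exact core hC L (H i.castSucc) (H i.succ) hLK hKX hLc hLi hπ1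
        · refine ⟨L, hLK.trans hKX, fun x hx => ⟨fun h => (hL x (hLK h)).1 h, fun h => ?_⟩⟩
          have hxK : x ∈ H i.castSucc :=
            mem_of_pow_mem _ (Subgroup.pow_relIndex_mem _ hx) (PiNum.coprime h hπ2).symm
          exact (hL x hxK).2 h
    obtain ⟨T, _, hT⟩ := key (Fin.last n)
    refine ⟨T, fun x => hT x (hn ▸ Subgroup.mem_top x)⟩

end Cfsg.Agent.S4050
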