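import Cfsg.Statements.S4051
import Mathlib
import Cfsg.Agent.Lib.Helper22.PiClosed

set_option autoImplicit false
open Cfsg

namespace Cfsg.Agent.S4051

open Subgroup Cfsg.Agent.Lib.Helper22.PiC

/-- Let π be a set of primes and G a finite group such that N_G(H)/C_G(H) is a π'-group for every nontrivial π'-subgroup H of G. If K is a normal subgroup of G such that the π-elements of K form a subgroup and the π-elements of G/K form a subgroup, then the π-elements of G form a subgroup. -/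
theorem result {G : Type*} [Group G] [Finite G] (π : Set ℕ)
    (hπ : ∀ p ∈ π, p.Prime) (hhom : (∀ H : Subgroup G, H ≠ ⊥ → (∀ p : ℕ, p.Prime → p ∣ Nat.card ↥H → p ∉ π) →
        ∀ p : ℕ, p.Prime → p ∣ (Subgroup.centralizer (H : Set G)).relIndex (Subgroup.normalizer (H : Set G)) → p ∉ π))
    (K : Subgroup G) [K.Normal]
    (hK : ∃ L : Subgroup ↥K, ∀ x : ↥K, x ∈ L ↔ ∀ p : ℕ, p.Prime → p ∣ orderOf x → p ∈ π)
    (hQ : ∃ L : Subgroup (G ⧸ K), ∀ x : G ⧸ K, x ∈ L ↔ ∀ p : ℕ, p.Prime → p ∣ orderOf x → p ∈ π) :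
    (∃ K : Subgroup G, ∀ x : G, x ∈ K ↔ ∀ p : ℕ, p.Prime → p ∣ orderOf x → p ∈ π) := by
  classical
  obtain ⟨L₀, hL₀⟩ := hK
  obtain ⟨L₁, hL₁⟩ := hQ
  have hC : HC π G := hc_of_hom hhom
  set L : Subgroup G := L₀.map K.subtype with hLdef
  have hLK : L ≤ K := by
    rintro _ ⟨y, _, rfl⟩
    exact y.2
  have hLmem : ∀ x ∈ K, x ∈ L ↔ PiNum π (orderOf x) := by
    intro x hx
    constructor
    · rintro ⟨y, hy, rfl⟩
      have := (hL₀ y).1 hy
      rw [← Subgroup.orderOf_coe] at this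
      exact this
    · intro h
      refine ⟨⟨x, hx⟩, (hL₀ _).2 ?_, rfl⟩
      rw [Subgroup.orderOf_mk]
      exact h
  obtain ⟨hLn, hLc, hLi⟩ := hall_of_mem_iff hLK hLmem
  obtain ⟨hL₁n, hL₁c, hL₁i⟩ := hall_of_mem_iff (G := G ⧸ K) (L := L₁) (K := ⊤) le_top
    (fun x _ => hL₁ x)
  set f := QuotientGroup.mk' K with hf
  have hfs : Function.Surjective f := QuotientGroup.mk'_surjective K
  haveI hMn : (L₁.comap f).Normal := hL₁n.comap f
  have hKM : K ≤ L₁.comap f := by
    intro k hk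
    rw [Subgroup.mem_comap]
    have : f k = 1 := (QuotientGroup.eq_one_iff k).2 hk
    rw [this]; exact L₁.one_mem
  have hMK : PiNum π (K.relIndex (L₁.comap f)) := by
    have h2 : f.ker.relIndex (L₁.comap f) = Nat.card L₁ := by
      rw [Subgroup.relIndex_ker, Subgroup.map_comap_eq_self_of_surjective hfs]
    have h3 : f.ker = K := QuotientGroup.ker_mk' K
    rw [h3] at h2
    rw [h2]; exact hL₁c
  obtain ⟨T, hTM, hT⟩ := core hC L K (L₁.comap f) hLK hKM hLc hLi hMK
  refine ⟨T, fun x => ⟨fun h => (hT x (hTM h)).1 h, fun h => ?_⟩⟩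
  have hxM : x ∈ L₁.comap f := by
    rw [Subgroup.mem_comap, hL₁]
    exact fun p hp hd => h p hp (hd.trans (orderOf_map_dvd _ x))
  exact (hT x hxM).2 h

end Cfsg.Agent.S4051
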