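import Cfsg.Statements.S4056
import Cfsg.Agent.S0013
import Cfsg.Agent.Lib.Helper14.Class2

set_option autoImplicit false
open Cfsg

namespace Cfsg.Agent.S4056

open scoped commutatorElement

/-- In a finite 2-group of nilpotency class at most 2 and exponent dividing 4, the Frattini subgroup lies in the centre and is elementary abelian. -/
theorem result {P : Type*} [Group P] [Finite P] (hP : IsPGroup 2 P)
    (hcl : Group.nilpotencyClass P ≤ 2) (hexp : Monoid.exponent P ∣ 4) :
    frattini P ≤ Subgroup.center P ∧ Cfsg.IsElementaryAbelian 2 (frattini P) := by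
  classical
  haveI : Fact (Nat.Prime 2) := ⟨Nat.prime_two⟩
  haveI : Group.IsNilpotent P := hP.isNilpotent
  have hu : Subgroup.upperCentralSeries P 2 = ⊤ := upperCentralSeries_eq_top_iff_nilpotencyClass_le.2 hcl
  have hc : ∀ a b : P, ⁅a, b⁆ ∈ Subgroup.center P := by
    intro a b
    have h1 : a ∈ Subgroup.upperCentralSeries P (1+1) := by
      rw [show (1+1) = 2 from rfl, hu]; trivial
    rw [Subgroup.mem_upperCentralSeries_succ_iff] at h1
    have := h1 b
    rwa [Subgroup.upperCentralSeries_one] at this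
  have h4 : ∀ a : P, a ^ 4 = 1 := fun a => by
    obtain ⟨k, hk⟩ := hexp
    rw [hk, pow_mul, Monoid.pow_exponent_eq_one, one_pow]
  have hc2 : ∀ a b : P, ⁅a, b⁆ ^ 2 = 1 := by
    intro a b
    have h := Lib.Helper14.mul_pow_class2 b a (hc a b) 4
    rw [h4, h4, h4] at h
    have h6 : ⁅a, b⁆ ^ 6 = 1 := by
      have h62 : Nat.choose 4 2 = 6 := by decide
      rw [h62] at h
      simpa using h.symm
    have h7 : ⁅a,b⁆ ^ 6 = ⁅a,b⁆^4 * ⁅a,b⁆^2 := by rw [← pow_add]
    rw [h4, one_mul] at h7
    rw [← h7, h6]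
  have hsq : ∀ a : P, a ^ 2 ∈ Subgroup.center P := by
    intro a
    rw [Subgroup.mem_center_iff]
    intro g
    have h := Lib.Helper14.comm_pow_left a g (hc a g) 2
    rw [hc2] at h
    exact (commutatorElement_eq_one_iff_mul_comm.1 h).symm
  let S : Subgroup P :=
    { carrier := {z | z ∈ Subgroup.center P ∧ z ^ 2 = 1}
      one_mem' := ⟨Subgroup.one_mem _, one_pow _⟩
      mul_mem' := by
        rintro a b ⟨ha, ha2⟩ ⟨hb, hb2⟩
        refine ⟨Subgroup.mul_mem _ ha hb, ?_⟩
        have hcm : Commute a b := (Subgroup.mem_center_iff.1 ha b).symm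
        rw [hcm.mul_pow, ha2, hb2, one_mul]
      inv_mem' := by
        rintro a ⟨ha, ha2⟩
        exact ⟨Subgroup.inv_mem _ ha, by rw [inv_pow, ha2, inv_one]⟩ }
  haveI hSn : S.Normal := by
    refine ⟨fun n hn g => ?_⟩
    have : g * n * g⁻¹ = n := by
      rw [Subgroup.mem_center_iff.1 hn.1 g, mul_assoc, mul_inv_cancel, mul_one]
    rw [this]; exact hn
  have hle : frattini P ≤ S := by
    apply Cfsg.Agent.S0013.result 2 hP S
    · rw [commutator_def, Subgroup.commutator_le]
      intro a _ b _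
      exact ⟨hc a b, hc2 a b⟩
    · intro x
      exact ⟨hsq x, by rw [← pow_mul]; exact h4 x⟩
  refine ⟨fun x hx => (hle hx).1, ?_, fun a ha => (hle ha).2⟩
  refine IsMulCommutative.of_comm ?_
  intro a b
  apply Subtype.ext
  exact (Subgroup.mem_center_iff.1 (hle a.2).1 b).symm

end Cfsg.Agent.S4056
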