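import Cfsg.Statements.S4065
-- import your own Cfsg.Agent.* helpers here

set_option autoImplicit false
open Cfsg

namespace Cfsg.Agent.S4065

theorem comm_of_comm_nonscalar {F : Type*} [Field F] (Y A B : Matrix (Fin 2) (Fin 2) F)
    (hY : Y 0 1 ≠ 0 ∨ Y 1 0 ≠ 0 ∨ Y 0 0 ≠ Y 1 1) (hA : A * Y = Y * A) (hB : B * Y = Y * B) :
    A * B = B * A := by
  have a00 := congrFun (congrFun hA 0) 0
  have a01 := congrFun (congrFun hA 0) 1
  have a10 := congrFun (congrFun hA 1) 0
  have a11 := congrFun (congrFun hA 1) 1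
  have b00 := congrFun (congrFun hB 0) 0
  have b01 := congrFun (congrFun hB 0) 1
  have b10 := congrFun (congrFun hB 1) 0
  have b11 := congrFun (congrFun hB 1) 1
  simp only [Matrix.mul_apply, Fin.sum_univ_two] at a00 a01 a10 a11 b00 b01 b10 b11
  ext i j
  fin_cases i <;> fin_cases j <;>
  simp only [Matrix.mul_apply, Fin.sum_univ_two, Fin.zero_eta, Fin.mk_one, Fin.isValue] <;>
  rcases hY with h | h | h <;> grind

/-- In a group whose nonidentity elements have commutative centralizers, all element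
centralizers are TI. -/
theorem ti_of_ca {Γ : Type*} [Group Γ]
    (hCA : ∀ y : Γ, y ≠ 1 → ∀ a b : Γ, a * y = y * a → b * y = y * b → a * b = b * a) (x : Γ) :
    Cfsg.IsTISubset (Subgroup.centralizer ({x} : Set Γ) : Set Γ) := by
  intro g hg y hy hgy
  by_contra hy1
  have hmem : ∀ z c : Γ, c ∈ Subgroup.centralizer ({z} : Set Γ) ↔ c * z = z * c := by
    intro z c
    rw [Subgroup.mem_centralizer_iff]
    constructor
    · intro h; exact (h z rfl).symm
    · intro h w hw; rw [Set.mem_singleton_iff.1 hw]; exact h.symm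
  have hyx : y * x = x * y := (hmem x y).1 hy
  have hgyx : g * y * g⁻¹ * x = x * (g * y * g⁻¹) := (hmem x _).1 hgy
  by_cases hx1 : x = 1
  · apply hg
    subst hx1
    have : Subgroup.centralizer ({1} : Set Γ) = ⊤ := by
      rw [eq_top_iff]; intro c _; rw [hmem]; simp
    rw [this, Subgroup.normalizer_eq_top]
    exact Subgroup.mem_top g
  have hy'1 : g * y * g⁻¹ ≠ 1 := by
    intro h
    apply hy1
    have : y = g⁻¹ * (g * y * g⁻¹) * g := by group
    rw [this, h]; group
  -- C(y) = C(x) and C(g y g⁻¹) = C(x)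
  have h1 : ∀ w : Γ, w ≠ 1 → w * x = x * w → ∀ c : Γ, c * x = x * c ↔ c * w = w * c := by
    intro w hw hwx c
    constructor
    · intro hc; exact hCA x hx1 c w hc hwx
    · intro hc; exact hCA w hw c x hc hwx.symm
  apply hg
  rw [Subgroup.mem_normalizer_iff]
  intro c
  rw [hmem, hmem, h1 y hy1 hyx c, h1 _ hy'1 hgyx (g * c * g⁻¹)]
  constructor
  · intro hc
    calc g * c * g⁻¹ * (g * y * g⁻¹) = g * (c * y) * g⁻¹ := by group
      _ = g * (y * c) * g⁻¹ := by rw [hc]
      _ = g * y * g⁻¹ * (g * c * g⁻¹) := by group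
  · intro hc
    calc c * y = g⁻¹ * (g * c * g⁻¹ * (g * y * g⁻¹)) * g := by group
      _ = g⁻¹ * (g * y * g⁻¹ * (g * c * g⁻¹)) * g := by rw [hc]
      _ = y * c := by group

/-- Let F be a finite field with 2ⁿ elements, n ≥ 2. In PSL₂(F) the centralizer of every element meets each of its conjugates by elements outside its normalizer trivially. -/
theorem result (n : ℕ) (hn : 2 ≤ n)
    (x : Matrix.ProjectiveSpecialLinearGroup (Fin 2) (GaloisField 2 n)) :
    Cfsg.IsTISubset (Subgroup.centralizer ({x} : Set (Matrix.ProjectiveSpecialLinearGroup (Fin 2) (GaloisField 2 n))) :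
      Set (Matrix.ProjectiveSpecialLinearGroup (Fin 2) (GaloisField 2 n))) := by
  apply ti_of_ca
  set F := GaloisField 2 n with hF
  have hsq : ∀ r : F, r ^ 2 = 1 → r = 1 := by
    intro r hr
    apply frobenius_inj F 2
    simp [frobenius_def, hr]
  have hcenter : ∀ A : Matrix.SpecialLinearGroup (Fin 2) F,
      A ∈ Subgroup.center (Matrix.SpecialLinearGroup (Fin 2) F) → A = 1 := by
    intro A hA
    obtain ⟨r, hr, hrA⟩ := Matrix.SpecialLinearGroup.mem_center_iff.1 hA
    rw [Fintype.card_fin] at hr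
    have hr1 := hsq r hr
    subst hr1
    apply Subtype.ext
    rw [← hrA]
    simp
  have hinj : ∀ A B : Matrix.SpecialLinearGroup (Fin 2) F,
      (QuotientGroup.mk A : Matrix.ProjectiveSpecialLinearGroup (Fin 2) F) = QuotientGroup.mk B →
        A = B := by
    intro A B hAB
    have := hcenter _ (QuotientGroup.eq.1 hAB)
    exact (inv_mul_eq_one.1 this)
  intro y hy a b hay hby
  obtain ⟨Y, rfl⟩ := QuotientGroup.mk_surjective y
  obtain ⟨A, rfl⟩ := QuotientGroup.mk_surjective a
  obtain ⟨B, rfl⟩ := QuotientGroup.mk_surjective b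
  have hAY : A * Y = Y * A := hinj _ _ hay
  have hBY : B * Y = Y * B := hinj _ _ hby
  have hY1 : Y ≠ 1 := by
    rintro rfl
    exact hy rfl
  have hns : (Y : Matrix (Fin 2) (Fin 2) F) 0 1 ≠ 0 ∨ (Y : Matrix (Fin 2) (Fin 2) F) 1 0 ≠ 0 ∨
      (Y : Matrix (Fin 2) (Fin 2) F) 0 0 ≠ (Y : Matrix (Fin 2) (Fin 2) F) 1 1 := by
    by_contra hcon
    push Not at hcon
    obtain ⟨h01, h10, h00⟩ := hcon
    have hdet := Y.2
    rw [Matrix.det_fin_two, h01, h10, ← h00] at hdet
    have h1 : (Y : Matrix (Fin 2) (Fin 2) F) 0 0 = 1 := by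
      apply hsq
      rw [pow_two]
      simpa using hdet
    apply hY1
    apply Subtype.ext
    ext i j
    fin_cases i <;> fin_cases j <;> simp [h01, h10, h1, ← h00]
  have hAB : A * B = B * A := by
    apply Subtype.ext
    exact comm_of_comm_nonscalar (Y : Matrix (Fin 2) (Fin 2) F) A B hns
      (congrArg Subtype.val hAY) (congrArg Subtype.val hBY)
  show (QuotientGroup.mk (A * B) : Matrix.ProjectiveSpecialLinearGroup (Fin 2) F) =
    QuotientGroup.mk (B * A)
  rw [hAB]

end Cfsg.Agent.S4065
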