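import Cfsg.Statements.S4066
-- import your own Cfsg.Agent.* helpers here

set_option autoImplicit false
open Cfsg

namespace Cfsg.Agent.S4066

/-- The closure of a set of pairwise commuting `p`-elements is a `p`-group. -/
theorem isPGroup_closure_of_comm {G : Type*} [Group G] (p : ℕ) (S : Set G)
    (hcomm : ∀ x ∈ S, ∀ y ∈ S, x * y = y * x) (hp : ∀ x ∈ S, ∃ k : ℕ, x ^ p ^ k = 1) :
    IsPGroup p (Subgroup.closure S) := by
  haveI := Subgroup.isMulCommutative_closure hcomm
  have key : ∀ x ∈ Subgroup.closure S, ∃ k : ℕ, x ^ p ^ k = 1 := by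
    intro x hx
    induction hx using Subgroup.closure_induction with
    | mem x hx => exact hp x hx
    | one => exact ⟨0, by simp⟩
    | mul x y hx hy ihx ihy =>
      obtain ⟨a, ha⟩ := ihx
      obtain ⟨b, hb⟩ := ihy
      refine ⟨a + b, ?_⟩
      have hc : Commute x y := setLike_mul_comm hx hy
      rw [hc.mul_pow, pow_add, pow_mul, ha, one_pow, mul_comm (p ^ a), pow_mul, hb, one_pow,
        one_mul]
    | inv x hx ih =>
      obtain ⟨a, ha⟩ := ih
      exact ⟨a, by rw [inv_pow, ha, inv_one]⟩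
  intro g
  obtain ⟨k, hk⟩ := key g g.2
  exact ⟨k, Subtype.ext hk⟩

/-- Let G be a finite group in which the centralizer of every element meets each of its conjugates by elements outside its normalizer trivially. Then any two distinct Sylow p-subgroups of G, for any prime p, intersect trivially. -/
theorem result {G : Type*} [Group G] [Finite G] (hTI : ∀ x : G, Cfsg.IsTISubset (Subgroup.centralizer ({x} : Set G) : Set G))
    {p : ℕ} [Fact p.Prime] (P Q : Sylow p G) (hPQ : P ≠ Q) : (P : Subgroup G) ⊓ (Q : Subgroup G) = ⊥ := by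
  by_contra hne
  obtain ⟨y, hy, hy1⟩ : ∃ y ∈ (P : Subgroup G) ⊓ (Q : Subgroup G), y ≠ 1 := by
    by_contra hcon
    push Not at hcon
    exact hne ((Subgroup.eq_bot_iff_forall _).2 hcon)
  obtain ⟨hyP, hyQ⟩ := hy
  have hmem : ∀ z c : G, c ∈ Subgroup.centralizer ({z} : Set G) ↔ c * z = z * c := by
    intro z c
    rw [Subgroup.mem_centralizer_iff]
    constructor
    · intro h; exact (h z rfl).symm
    · intro h w hw; rw [Set.mem_singleton_iff.1 hw]; exact h.symm
  -- a nontrivial central element of `P`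
  haveI : Nontrivial (P : Subgroup G) := ⟨⟨⟨y, hyP⟩, 1, fun h => hy1 (congrArg Subtype.val h)⟩⟩
  haveI : Nontrivial (Subgroup.center (P : Subgroup G)) := P.2.center_nontrivial
  obtain ⟨⟨⟨z, hzP⟩, hzc⟩, hz1⟩ := exists_ne (1 : Subgroup.center (P : Subgroup G))
  have hz1' : z ≠ 1 := fun h => hz1 (Subtype.ext (Subtype.ext h))
  have hzcomm : ∀ a ∈ (P : Subgroup G), a * z = z * a := by
    intro a ha
    have := (Subgroup.mem_center_iff.1 hzc) ⟨a, ha⟩
    exact congrArg Subtype.val this
  set C := Subgroup.centralizer ({z} : Set G) with hC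
  have hPC : (P : Subgroup G) ≤ C := fun a ha => (hmem z a).2 (hzcomm a ha)
  obtain ⟨g, rfl⟩ := MulAction.exists_smul_eq G P Q
  have hsm : ∀ x : G, x ∈ ((g • P : Sylow p G) : Subgroup G) ↔ g⁻¹ * x * g ∈ (P : Subgroup G) := by
    intro x
    rw [Sylow.coe_subgroup_smul, Subgroup.mem_pointwise_smul_iff_inv_smul_mem]
    simp [MulAut.smul_def]
  have hgN : g ∈ Subgroup.normalizer (C : Set G) := by
    by_contra hgN
    have h1 : g⁻¹ * y * g ∈ (C : Set G) := hPC ((hsm y).1 hyQ)
    have h2 : g * (g⁻¹ * y * g) * g⁻¹ ∈ (C : Set G) := by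
      have : g * (g⁻¹ * y * g) * g⁻¹ = y := by group
      rw [this]; exact hPC hyP
    have h3 := hTI z g hgN _ h1 h2
    apply hy1
    have : y = g * (g⁻¹ * y * g) * g⁻¹ := by group
    rw [this, h3]; group
  have hQC : ((g • P : Sylow p G) : Subgroup G) ≤ C := by
    intro x hx
    have h1 : g⁻¹ * x * g ∈ C := hPC ((hsm x).1 hx)
    have h2 := ((Subgroup.mem_normalizer_iff.1 hgN) (g⁻¹ * x * g)).1 h1
    have : g * (g⁻¹ * x * g) * g⁻¹ = x := by group
    rwa [this] at h2
  -- every element of `P` lies in `Q`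
  have hPQ' : (P : Subgroup G) ≤ ((g • P : Sylow p G) : Subgroup G) := by
    intro a ha
    by_cases ha1 : a = 1
    · rw [ha1]; exact one_mem _
    have hCN : ∀ c ∈ C, c ∈ Subgroup.normalizer (Subgroup.centralizer ({a} : Set G) : Set G) := by
      intro c hc
      by_contra hcN
      have h1 : z ∈ (Subgroup.centralizer ({a} : Set G) : Set G) :=
        (hmem a z).2 (hzcomm a ha).symm
      have h2 : c * z * c⁻¹ = z := by
        rw [(hmem z c).1 hc]; group
      exact hz1' (hTI a c hcN z h1 (by rw [h2]; exact h1))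
    have hcomm1 : ∀ c ∈ C, (c * a * c⁻¹) * a = a * (c * a * c⁻¹) := by
      intro c hc
      have h1 : a ∈ Subgroup.centralizer ({a} : Set G) := (hmem a a).2 rfl
      exact (hmem a _).1 (((Subgroup.mem_normalizer_iff.1 (hCN c hc)) a).1 h1)
    set S : Set G := {x | ∃ c ∈ C, x = c * a * c⁻¹} with hS
    have hScomm : ∀ x ∈ S, ∀ y ∈ S, x * y = y * x := by
      rintro _ ⟨c, hc, rfl⟩ _ ⟨d, hd, rfl⟩
      have h1 := hcomm1 (d⁻¹ * c) (C.mul_mem (C.inv_mem hd) hc)
      calc c * a * c⁻¹ * (d * a * d⁻¹)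
          = d * ((d⁻¹ * c) * a * (d⁻¹ * c)⁻¹ * a) * d⁻¹ := by group
        _ = d * (a * ((d⁻¹ * c) * a * (d⁻¹ * c)⁻¹)) * d⁻¹ := by rw [h1]
        _ = d * a * d⁻¹ * (c * a * c⁻¹) := by group
    have hSp : ∀ x ∈ S, ∃ k : ℕ, x ^ p ^ k = 1 := by
      rintro _ ⟨c, hc, rfl⟩
      obtain ⟨k, hk⟩ := P.2 ⟨a, ha⟩
      have hk' : a ^ p ^ k = 1 := by simpa using congrArg Subtype.val hk
      exact ⟨k, by rw [conj_pow, hk']; group⟩
    have hAp := isPGroup_closure_of_comm p S hScomm hSp
    have hnorm : ((g • P : Sylow p G) : Subgroup G) ≤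
        Subgroup.normalizer (Subgroup.closure S : Set G) := by
      rw [Subgroup.le_normalizer_closure_iff]
      rintro q hq _ ⟨c, hc, rfl⟩
      apply Subgroup.subset_closure
      exact ⟨q * c, C.mul_mem (hQC hq) hc, by group⟩
    have hsup := (g • P : Sylow p G).2.to_sup_of_normal_right' hAp hnorm
    have heq := (g • P : Sylow p G).is_maximal' hsup le_sup_left
    have haA : a ∈ Subgroup.closure S := Subgroup.subset_closure ⟨1, C.one_mem, by simp⟩
    have : a ∈ ((g • P : Sylow p G) : Subgroup G) ⊔ Subgroup.closure S :=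
      (le_sup_right : Subgroup.closure S ≤ _) haA
    rw [heq] at this
    exact this
  apply hPQ
  have := P.is_maximal' (g • P : Sylow p G).2 hPQ'
  exact Sylow.ext this.symm

end Cfsg.Agent.S4066
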