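import Cfsg.Statements.S4071
import Mathlib
import Cfsg.Agent.S0055
import Cfsg.Agent.Lib.Helper1.Wielandt
import Cfsg.Agent.Lib.Helper4.Basic
import Cfsg.Agent.Lib.Helper9.SupNorm
-- import your own Cfsg.Agent.* helpers here

set_option autoImplicit false
open Cfsg

namespace Cfsg.Agent.S4071

open scoped commutatorElement

theorem back {G : Type*} [Group G] [Finite G] (x : G) (A : Subgroup G) (p : ℕ) (hp : p.Prime)
    (hAn : A.Normal) (hAc : IsMulCommutative A) (k : ℕ) (hk : orderOf x = p ^ k)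
    (hcompl : (Subgroup.zpowers x).IsComplement' A) (hxp : x ^ p ∈ Subgroup.center G)
    (hfpf : ∀ a : G, a ∈ A → a ≠ 1 → x * a * x⁻¹ ≠ a)
    (H : Subgroup G) (hH : ¬ IsMulCommutative H) : Subgroup.normalizer (H : Set G) = H := by
  have hAcomm : ∀ a ∈ A, ∀ b ∈ A, a * b = b * a := fun a ha b hb =>
    congrArg Subtype.val (hAc.is_comm.comm ⟨a, ha⟩ ⟨b, hb⟩)
  have htop : Subgroup.zpowers x ⊔ A = ⊤ := hcompl.sup_eq_top
  have hdec' : ∀ y : G, Subgroup.zpowers y ⊔ A = ⊤ → ∀ g : G, ∃ i : ℤ, ∃ a ∈ A, g = y ^ i * a := by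
    intro y hy g
    have hg : g ∈ ((Subgroup.zpowers y ⊔ A : Subgroup G) : Set G) := by rw [hy]; trivial
    rw [Subgroup.mul_normal] at hg
    obtain ⟨w, hw, a, ha, rfl⟩ := hg
    obtain ⟨i, rfl⟩ := Subgroup.mem_zpowers_iff.mp hw
    exact ⟨i, a, ha, rfl⟩
  have hdec := hdec' x htop
  obtain ⟨h, hhH, i, a, ha, hh, hi⟩ : ∃ h ∈ H, ∃ i : ℤ, ∃ a ∈ A, h = x ^ i * a ∧ ¬ (p : ℤ) ∣ i := by
    by_contra hcon
    push Not at hcon
    apply hH
    refine ⟨⟨fun u v => Subtype.ext ?_⟩⟩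
    obtain ⟨i, a, ha, hu⟩ := hdec u.1
    obtain ⟨j, b, hb, hv⟩ := hdec v.1
    obtain ⟨i', rfl⟩ := hcon u.1 u.2 i a ha hu
    obtain ⟨j', rfl⟩ := hcon v.1 v.2 j b hb hv
    have hc : ∀ m : ℤ, x ^ ((p : ℤ) * m) ∈ Subgroup.center G := by
      intro m; rw [zpow_mul, zpow_natCast]; exact Subgroup.zpow_mem _ hxp m
    obtain ⟨X, hX⟩ : ∃ X, X = x ^ ((p : ℤ) * i') := ⟨_, rfl⟩
    obtain ⟨Y, hY⟩ : ∃ Y, Y = x ^ ((p : ℤ) * j') := ⟨_, rfl⟩
    have h1 := Subgroup.mem_center_iff.mp (hX ▸ hc i')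
    have h2 := Subgroup.mem_center_iff.mp (hY ▸ hc j')
    show u.1 * v.1 = v.1 * u.1
    rw [hu, hv, ← hX, ← hY]
    rw [show X * a * (Y * b) = X * (a * Y) * b by group, h2 a,
      show Y * b * (X * a) = Y * (b * X) * a by group, h1 b,
      show X * (Y * a) * b = (X * Y) * (a * b) by group,
      show Y * (X * b) * a = (Y * X) * (b * a) by group, h2 X, hAcomm a ha b hb]
  obtain ⟨u, hu⟩ : ∃ u : ℤ, (x ^ i) ^ u = x := by
    have hc : IsCoprime (p : ℤ) i := (Prime.coprime_iff_not_dvd (Nat.prime_iff_prime_int.mp hp)).mpr hi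
    obtain ⟨c, d, hcd⟩ := (hc.symm.pow_right (n := k))
    refine ⟨c, ?_⟩
    have h1 : x ^ ((p : ℤ) ^ k) = 1 := by
      have := pow_orderOf_eq_one x
      rw [hk] at this
      exact_mod_cast this
    calc (x ^ i) ^ c = x ^ (c * i) * (x ^ ((p : ℤ) ^ k)) ^ d := by
          rw [h1, one_zpow, mul_one, ← zpow_mul, mul_comm]
      _ = x ^ (c * i + d * (p : ℤ) ^ k) := by rw [zpow_add, ← zpow_mul, mul_comm d]
      _ = x := by rw [hcd, zpow_one]
  have hfix : ∀ b ∈ A, h * b * h⁻¹ = b → b = 1 := by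
    intro b hb hbh
    by_contra hb1
    apply hfpf b hb hb1
    have h1 : x ^ i * b = b * x ^ i := by
      have h2 : h * b * h⁻¹ = x ^ i * (a * b) * a⁻¹ * (x ^ i)⁻¹ := by rw [hh]; group
      rw [h2, hAcomm a ha b hb] at hbh
      calc x ^ i * b = (x ^ i * (b * a) * a⁻¹ * (x ^ i)⁻¹) * x ^ i := by group
        _ = b * x ^ i := by rw [hbh]
    have h3 : Commute (x ^ i) b := h1
    have h4 : Commute x b := hu ▸ h3.zpow_left u
    rw [h4.eq]; group
  have hinj : ∀ b c : G, b ∈ A → c ∈ A → b * (h * b⁻¹ * h⁻¹) = c * (h * c⁻¹ * h⁻¹) → b = c := by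
    intro b c hb hc hbc
    have e1 : b * h * b⁻¹ = c * h * c⁻¹ := by
      calc b * h * b⁻¹ = b * (h * b⁻¹ * h⁻¹) * h := by group
        _ = c * (h * c⁻¹ * h⁻¹) * h := by rw [hbc]
        _ = c * h * c⁻¹ := by group
    have h1 : h * (c⁻¹ * b) * h⁻¹ = c⁻¹ * b := by
      calc h * (c⁻¹ * b) * h⁻¹ = c⁻¹ * (c * h * c⁻¹) * b * h⁻¹ := by group
        _ = c⁻¹ * (b * h * b⁻¹) * b * h⁻¹ := by rw [e1]
        _ = c⁻¹ * b := by group
    have h2 := hfix _ (A.mul_mem (A.inv_mem hc) hb) h1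
    calc b = c * (c⁻¹ * b) := by group
      _ = c := by rw [h2, mul_one]
  have hφA : ∀ b ∈ A, b * (h * b⁻¹ * h⁻¹) ∈ A := fun b hb =>
    A.mul_mem hb (hAn.conj_mem _ (A.inv_mem hb) h)
  let f : ↥(H ⊓ A) → ↥(H ⊓ A) := fun b => ⟨b.1 * (h * b.1⁻¹ * h⁻¹),
    ⟨H.mul_mem b.2.1 (H.mul_mem (H.mul_mem hhH (H.inv_mem b.2.1)) (H.inv_mem hhH)), hφA b.1 b.2.2⟩⟩
  have hfinj : Function.Injective f := by
    intro b c hbc
    apply Subtype.ext
    exact hinj b.1 c.1 b.2.2 c.2.2 (congrArg Subtype.val hbc)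
  have hfsurj : Function.Surjective f := Finite.injective_iff_surjective.mp hfinj
  have htop2 : Subgroup.zpowers h ⊔ A = ⊤ := by
    rw [eq_top_iff, ← htop, sup_le_iff]
    refine ⟨?_, le_sup_right⟩
    rw [Subgroup.zpowers_le, ← hu]
    apply Subgroup.zpow_mem
    have h1 : x ^ i = h * a⁻¹ := by rw [hh]; group
    rw [h1]
    exact Subgroup.mul_mem _ ((le_sup_left : Subgroup.zpowers h ≤ _) (Subgroup.mem_zpowers h))
      ((le_sup_right : A ≤ Subgroup.zpowers h ⊔ A) (A.inv_mem ha))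
  apply le_antisymm _ Subgroup.le_normalizer
  intro g hg
  obtain ⟨n, a₁, ha₁, rfl⟩ := hdec' h htop2 g
  have hhn : h ^ n ∈ H := H.zpow_mem hhH n
  have ha₁N : a₁ ∈ Subgroup.normalizer (H : Set G) := by
    have h1 : a₁ = (h ^ n)⁻¹ * (h ^ n * a₁) := by group
    rw [h1]
    exact Subgroup.mul_mem _ (Subgroup.inv_mem _ (Subgroup.le_normalizer hhn)) hg
  have h2 : a₁ * h * a₁⁻¹ ∈ H := (Subgroup.mem_normalizer_iff.mp ha₁N h).mp hhH
  have h3 : a₁ * (h * a₁⁻¹ * h⁻¹) ∈ H := by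
    have : a₁ * (h * a₁⁻¹ * h⁻¹) = a₁ * h * a₁⁻¹ * h⁻¹ := by group
    rw [this]; exact H.mul_mem h2 (H.inv_mem hhH)
  obtain ⟨b, hb⟩ := hfsurj ⟨_, ⟨h3, hφA a₁ ha₁⟩⟩
  have h4 := hinj b.1 a₁ b.2.2 ha₁ (congrArg Subtype.val hb)
  exact H.mul_mem hhn (h4 ▸ b.2.1)


theorem fwd {G : Type*} [Group G] [Finite G] [Group.IsSolvable G] (hnn : ¬ Group.IsNilpotent G)
    (h : ∀ H : Subgroup G, ¬ IsMulCommutative H → Subgroup.normalizer (H : Set G) = H) :
    ∃ (x : G) (A : Subgroup G) (p : ℕ), p.Prime ∧ A.Normal ∧ IsMulCommutative A ∧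
      (∃ k : ℕ, orderOf x = p ^ k) ∧
      ¬ p ∣ Nat.card A ∧ (Subgroup.zpowers x).IsComplement' A ∧ x ^ p ∈ Subgroup.center G ∧
      ∀ a : G, a ∈ A → a ≠ 1 → x * a * x⁻¹ ≠ a := by
  have hnt : Nontrivial G := by
    by_contra hcon
    rw [not_nontrivial_iff_subsingleton] at hcon
    exact hnn inferInstance
  obtain ⟨M, hMn, hMp⟩ := Cfsg.Agent.Lib.Helper1.exists_normal_prime_index (G := G)
  obtain ⟨p, hpdef⟩ : ∃ p, p = M.index := ⟨_, rfl⟩
  have hp : p.Prime := hpdef ▸ hMp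
  have : Fact p.Prime := ⟨hp⟩
  have hMc : IsMulCommutative M := by
    by_contra hc
    have h1 := h M hc
    rw [Subgroup.normalizer_eq_top] at h1
    rw [← h1, Subgroup.index_top] at hMp
    exact Nat.not_prime_one hMp
  have hMcomm : ∀ a ∈ M, ∀ b ∈ M, a * b = b * a := fun a ha b hb =>
    congrArg Subtype.val (hMc.is_comm.comm ⟨a, ha⟩ ⟨b, hb⟩)
  obtain ⟨e, n', hn', hMcard⟩ := Nat.exists_eq_pow_mul_and_not_dvd (n := Nat.card M)
    Nat.card_pos.ne' p hp.ne_one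
  let A : Subgroup G :=
    { carrier := {m | m ∈ M ∧ m ^ n' = 1}
      one_mem' := ⟨M.one_mem, one_pow _⟩
      mul_mem' := by
        rintro a b ⟨ha, ha'⟩ ⟨hb, hb'⟩
        refine ⟨M.mul_mem ha hb, ?_⟩
        have hc : Commute a b := hMcomm a ha b hb
        rw [hc.mul_pow, ha', hb', one_mul]
      inv_mem' := by
        rintro a ⟨ha, ha'⟩
        exact ⟨M.inv_mem ha, by rw [inv_pow, ha', inv_one]⟩ }
  have hAmem : ∀ m : G, m ∈ A ↔ m ∈ M ∧ m ^ n' = 1 := fun m => Iff.rfl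
  have hAM : A ≤ M := fun m hm => hm.1
  have hAn : A.Normal := by
    constructor
    intro m hm g
    refine ⟨hMn.conj_mem m hm.1 g, ?_⟩
    rw [conj_pow, hm.2]; group
  have hAc : IsMulCommutative A :=
    ⟨⟨fun a b => Subtype.ext (hMcomm a.1 (hAM a.2) b.1 (hAM b.2))⟩⟩
  have hAcomm : ∀ a ∈ A, ∀ b ∈ A, a * b = b * a := fun a ha b hb => hMcomm a (hAM ha) b (hAM hb)
  have hpA : ¬ p ∣ Nat.card A := by
    intro hd
    obtain ⟨⟨a, ha⟩, hao⟩ := exists_prime_orderOf_dvd_card' (G := ↥A) p hd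
    rw [Subgroup.orderOf_mk] at hao
    apply hn'
    rw [← hao]
    exact orderOf_dvd_of_pow_eq_one ha.2
  have hpow : ∀ g : G, g ^ (p ^ (e + 1)) ∈ A := by
    intro g
    have h1 : g ^ p ∈ M := hpdef ▸ M.pow_index_mem g
    have h2 : g ^ (p ^ (e + 1)) = (g ^ p) ^ (p ^ e) := by rw [← pow_mul, pow_succ, mul_comm]
    rw [h2]
    refine ⟨M.pow_mem h1 _, ?_⟩
    rw [← pow_mul, ← hMcard]
    have h3 := pow_card_eq_one' (G := ↥M) (x := ⟨g ^ p, h1⟩)
    have h4 : (g ^ p) ^ Nat.card M = 1 := congrArg Subtype.val h3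
    exact h4
  have hquot : IsPGroup p (G ⧸ A) := by
    intro y
    obtain ⟨g, rfl⟩ := QuotientGroup.mk'_surjective A y
    refine ⟨e + 1, ?_⟩
    rw [← map_pow]
    exact (QuotientGroup.eq_one_iff _).mpr (hpow g)
  have hAZ : ¬ A ≤ Subgroup.center G := by
    intro hle
    apply hnn
    have := hquot.isNilpotent
    exact Subgroup.isNilpotent_of_ker_le_center (QuotientGroup.mk' A) (by rw [QuotientGroup.ker_mk']; exact hle)
  obtain ⟨a₀, ha₀, g, hga⟩ : ∃ a ∈ A, ∃ g : G, g * a ≠ a * g := by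
    by_contra hcon
    push Not at hcon
    exact hAZ fun a ha => Subgroup.mem_center_iff.mpr (hcon a ha)
  obtain ⟨s, t, ht, hgo⟩ := Nat.exists_eq_pow_mul_and_not_dvd (n := orderOf g)
    (orderOf_pos g).ne' p hp.ne_one
  -- the `p'`-part of `g` lies in `A`
  have hyA : g ^ (p ^ s) ∈ A := by
    have hcop : Nat.Coprime t (p ^ (e + 1)) :=
      Nat.Coprime.pow_right _ ((Nat.Prime.coprime_iff_not_dvd hp).mpr ht).symm
    have h1 : (g ^ (p ^ s)) ^ t = 1 := by rw [← pow_mul, ← hgo]; exact pow_orderOf_eq_one g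
    have h2 : orderOf (g ^ (p ^ s)) ∣ t := orderOf_dvd_of_pow_eq_one h1
    obtain ⟨m, hm⟩ := exists_pow_eq_self_of_coprime (x := g ^ (p ^ s)) (n := p ^ (e + 1))
      (Nat.Coprime.coprime_dvd_right h2 hcop.symm)
    rw [← hm]
    exact A.pow_mem (hpow _) m
  obtain ⟨x, hx⟩ : ∃ x, x = g ^ t := ⟨_, rfl⟩
  have hxs : x ^ (p ^ s) = 1 := by
    rw [hx, ← pow_mul, mul_comm, ← hgo]; exact pow_orderOf_eq_one g
  obtain ⟨k, -, hk⟩ := (Nat.dvd_prime_pow hp).mp (orderOf_dvd_of_pow_eq_one hxs)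
  have hxa : x * a₀ ≠ a₀ * x := by
    intro hc
    apply hga
    have hcop : IsCoprime (t : ℤ) ((p ^ s : ℕ) : ℤ) := by
      rw [Nat.isCoprime_iff_coprime]
      exact Nat.Coprime.pow_right _ ((Nat.Prime.coprime_iff_not_dvd hp).mpr ht).symm
    obtain ⟨c, d, hcd⟩ := hcop
    have h1 : g = x ^ c * (g ^ (p ^ s)) ^ d := by
      rw [hx, ← zpow_natCast g t, ← zpow_natCast g (p ^ s), ← zpow_mul, ← zpow_mul, ← zpow_add,
        mul_comm (t : ℤ), mul_comm ((p ^ s : ℕ) : ℤ), hcd, zpow_one]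
    have c1 : Commute x a₀ := hc
    have c2 : Commute (g ^ (p ^ s)) a₀ := hAcomm _ hyA _ ha₀
    have c3 : Commute (x ^ c * (g ^ (p ^ s)) ^ d) a₀ := (c1.zpow_left c).mul_left (c2.zpow_left d)
    rw [← h1] at c3
    exact c3
  set H₀ := Subgroup.zpowers x ⊔ A with hH₀
  have hxH : x ∈ H₀ := (le_sup_left : Subgroup.zpowers x ≤ H₀) (Subgroup.mem_zpowers x)
  have hAH : A ≤ H₀ := le_sup_right
  have hH₀nc : ¬ IsMulCommutative H₀ := by
    intro hc
    exact hxa (congrArg Subtype.val (hc.is_comm.comm ⟨x, hxH⟩ ⟨a₀, hAH ha₀⟩))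
  have hN := h H₀ hH₀nc
  have htop : H₀ = ⊤ := by
    let π := QuotientGroup.mk' A
    have hπ : Function.Surjective π := QuotientGroup.mk'_surjective A
    have hcm : (H₀.map π).comap π = H₀ := by
      rw [Subgroup.comap_map_eq_self]; rw [QuotientGroup.ker_mk']; exact hAH
    have hnil := hquot.isNilpotent
    have hnc : NormalizerCondition (G ⧸ A) := Group.normalizerCondition_of_isNilpotent
    have h1 : Subgroup.normalizer ((H₀.map π : Subgroup (G ⧸ A)) : Set (G ⧸ A)) = H₀.map π := by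
      apply Subgroup.comap_injective hπ
      rw [Subgroup.comap_normalizer_eq_of_surjective _ hπ, hcm, hN]
    have h2 := (normalizerCondition_iff_only_full_group_self_normalizing.mp hnc) _ h1
    rw [← hcm, h2, Subgroup.comap_top]
  have hcop : (Nat.card (Subgroup.zpowers x)).Coprime (Nat.card A) := by
    rw [Nat.card_zpowers, hk]
    exact Nat.Coprime.pow_left _ ((Nat.Prime.coprime_iff_not_dvd hp).mpr hpA)
  have hdisj : Subgroup.zpowers x ⊓ A = ⊥ := (Subgroup.disjoint_of_coprime_natCard hcop).eq_bot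
  have hcompl : (Subgroup.zpowers x).IsComplement' A := by
    apply Subgroup.isComplement'_of_coprime _ hcop
    have h1 := Cfsg.Agent.Lib.Helper4.card_sup_mul_card_inf (Subgroup.zpowers x) A
    rw [hdisj, ← hH₀, htop] at h1
    simpa using h1.symm
  have hdec : ∀ g : G, ∃ i : ℤ, ∃ a ∈ A, g = x ^ i * a := by
    intro g
    have hg : g ∈ ((Subgroup.zpowers x ⊔ A : Subgroup G) : Set G) := by rw [← hH₀, htop]; trivial
    rw [Subgroup.mul_normal] at hg
    obtain ⟨w, hw, a, ha, rfl⟩ := hg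
    obtain ⟨i, rfl⟩ := Subgroup.mem_zpowers_iff.mp hw
    exact ⟨i, a, ha, rfl⟩
  have hxpM : x ^ p ∈ M := hpdef ▸ M.pow_index_mem x
  have hxpc : x ^ p ∈ Subgroup.center G := by
    rw [Subgroup.mem_center_iff]
    intro g
    obtain ⟨i, a, ha, rfl⟩ := hdec g
    have c1 : Commute (x ^ i) (x ^ p) := ((Commute.refl x).zpow_left i).pow_right p
    have c2 : Commute a (x ^ p) := hMcomm a (hAM ha) _ hxpM
    exact (c1.mul_left c2)
  refine ⟨x, A, p, hp, hAn, hAc, ⟨k, hk⟩, hpA, hcompl, hxpc, ?_⟩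
  intro a ha ha1 hfix
  have hxa' : Commute x a := by
    show x * a = a * x
    calc x * a = (x * a * x⁻¹) * x := by group
      _ = a * x := by rw [hfix]
  have hac : a ∈ Subgroup.center G := by
    rw [Subgroup.mem_center_iff]; intro g
    obtain ⟨i, b, hb, rfl⟩ := hdec g
    have c1 : Commute (x ^ i) a := hxa'.zpow_left i
    have c2 : Commute b a := hAcomm b hb a ha
    exact c1.mul_left c2
  have hXA : Subgroup.zpowers x ≤ Subgroup.normalizer (A : Set G) := by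
    rw [Subgroup.normalizer_eq_top]; exact le_top
  obtain ⟨hS1, hS2⟩ := Cfsg.Agent.S0055.result (Subgroup.zpowers x) A hXA hcop
  set W := ⁅A, Subgroup.zpowers x⁆ with hW
  have hWA : W ≤ A := by
    calc W ≤ (A ⊓ Subgroup.centralizer (Subgroup.zpowers x : Set G)) ⊔ W := le_sup_right
      _ = A := hS2
  have hXW : Subgroup.zpowers x ≤ Subgroup.normalizer (W : Set G) :=
    Cfsg.Agent.Lib.Helper1.le_normalizer_commutator hXA Subgroup.le_normalizer
  have hnc1 : ¬ IsMulCommutative ↥(W ⊔ Subgroup.zpowers x) := by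
    intro hc
    have hWc : W ≤ A ⊓ Subgroup.centralizer (Subgroup.zpowers x : Set G) := by
      intro w hw
      refine Subgroup.mem_inf.mpr ⟨hWA hw, ?_⟩
      rw [Subgroup.mem_centralizer_iff]
      intro y hy
      exact congrArg Subtype.val (hc.is_comm.comm
        ⟨y, (le_sup_right : Subgroup.zpowers x ≤ W ⊔ Subgroup.zpowers x) hy⟩
        ⟨w, (le_sup_left : W ≤ W ⊔ Subgroup.zpowers x) hw⟩)
    have hWbot : W = ⊥ := by
      have h1 : W ≤ (A ⊓ Subgroup.centralizer (Subgroup.zpowers x : Set G)) ⊓ W := le_inf hWc le_rfl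
      rw [hS1] at h1
      exact le_bot_iff.mp h1
    have h2 : ⁅a₀, x⁆ ∈ W := Subgroup.commutator_mem_commutator ha₀ (Subgroup.mem_zpowers x)
    rw [hWbot, Subgroup.mem_bot, commutatorElement_def] at h2
    apply hxa
    calc x * a₀ = (a₀ * x * a₀⁻¹ * x⁻¹)⁻¹ * (a₀ * x) := by group
      _ = a₀ * x := by rw [h2]; group
  have hN1 := h _ hnc1
  have haN : a ∈ Subgroup.normalizer ((W ⊔ Subgroup.zpowers x : Subgroup G) : Set G) := by
    rw [Subgroup.mem_normalizer_iff]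
    intro y
    have h1 := Subgroup.mem_center_iff.mp hac y
    have h2 : a * y * a⁻¹ = y := by rw [← h1]; group
    rw [h2]
  rw [hN1] at haN
  obtain ⟨w, hw, y, hy, hwy⟩ := (Cfsg.Agent.Lib.Helper9.mem_sup_of_le_normalizer hXW).mp haN
  have hyA : y ∈ A := by
    have : y = w⁻¹ * a := by rw [← hwy]; group
    rw [this]; exact A.mul_mem (A.inv_mem (hWA hw)) ha
  have hy1 : y = 1 := by
    have : y ∈ Subgroup.zpowers x ⊓ A := Subgroup.mem_inf.mpr ⟨hy, hyA⟩
    rwa [hdisj, Subgroup.mem_bot] at this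
  rw [hy1, mul_one] at hwy
  have hfin : a ∈ (A ⊓ Subgroup.centralizer (Subgroup.zpowers x : Set G)) ⊓ W := by
    refine Subgroup.mem_inf.mpr ⟨Subgroup.mem_inf.mpr ⟨ha, ?_⟩, hwy ▸ hw⟩
    rw [Subgroup.mem_centralizer_iff]
    intro y _
    exact Subgroup.mem_center_iff.mp hac y
  rw [hS1, Subgroup.mem_bot] at hfin
  exact ha1 hfin

/-- Let G be a finite solvable non-nilpotent group. Every non-abelian subgroup of G is self-normalizing if and only if G is a semidirect product ⟨x⟩ ⋉ A in which ⟨x⟩ is a p-group for some prime p, A is a normal abelian subgroup of order prime to p, x^p is central in G, and x acts fixed-point-freely on A (no non-identity element of A commutes with x). -/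
theorem result {G : Type*} [Group G] [Finite G]
    [Group.IsSolvable G] (hnn : ¬ Group.IsNilpotent G) :
    (∀ H : Subgroup G, ¬ IsMulCommutative H → Subgroup.normalizer (H : Set G) = H) ↔
    ∃ (x : G) (A : Subgroup G) (p : ℕ), p.Prime ∧ A.Normal ∧ IsMulCommutative A ∧ (∃ k : ℕ, orderOf x = p ^ k) ∧
      ¬ p ∣ Nat.card A ∧ (Subgroup.zpowers x).IsComplement' A ∧ x ^ p ∈ Subgroup.center G ∧
      ∀ a : G, a ∈ A → a ≠ 1 → x * a * x⁻¹ ≠ a := by
  constructor
  · exact fwd hnn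
  · rintro ⟨x, A, p, hp, hAn, hAc, ⟨k, hk⟩, -, hcompl, hxp, hfpf⟩ H hH
    exact back x A p hp hAn hAc k hk hcompl hxp hfpf H hH

end Cfsg.Agent.S4071
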