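import Cfsg.Statements.S4072
import Mathlib
import Cfsg.Agent.S0071

set_option autoImplicit false
open Cfsg

namespace Cfsg.Agent.S4072

open Subgroup

theorem solvable_of_normal' {G : Type*} [Group G] (N : Subgroup G) [N.Normal]
    (h1 : Group.IsSolvable N) (h2 : Group.IsSolvable (G ⧸ N)) : Group.IsSolvable G :=
  Group.isSolvable_of_ker_le_range N.subtype (QuotientGroup.mk' N) (by simp)

theorem comm_of_normal' {G : Type*} [Group G]
    (hS : ∀ H : Subgroup G, ¬ IsMulCommutative H → Subgroup.normalizer (H : Set G) = H)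
    (N : Subgroup G) [N.Normal] (hN : N ≠ ⊤) : IsMulCommutative N := by
  by_contra h
  have h1 := hS N h
  rw [Subgroup.normalizer_eq_top] at h1
  exact hN h1.symm

theorem conj_pow_aux {G : Type*} [Group G] {y u c : G} (h1 : y * u * y⁻¹ = u * c)
    (h2 : y * c = c * y) (k : ℕ) : y ^ k * u * (y ^ k)⁻¹ = u * c ^ k := by
  induction k with
  | zero => simp
  | succ k ih =>
    have h3 : y * c ^ k = c ^ k * y := ((Commute.pow_right (show Commute y c from h2) k)).eq
    calc y ^ (k + 1) * u * (y ^ (k + 1))⁻¹ = y * (y ^ k * u * (y ^ k)⁻¹) * y⁻¹ := by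
          rw [pow_succ']; group
      _ = y * (u * c ^ k) * y⁻¹ := by rw [ih]
      _ = (y * u * y⁻¹) * (y * c ^ k * y⁻¹) := by group
      _ = (u * c) * (c ^ k) := by rw [h1, h3]; group
      _ = u * c ^ (k + 1) := by rw [pow_succ']; group

theorem pow_orderOf_aux {G : Type*} [Group G] {y u c : G} (h1 : y * u * y⁻¹ = u * c)
    (h2 : y * c = c * y) : c ^ orderOf y = 1 := by
  have h := conj_pow_aux h1 h2 (orderOf y)
  rw [pow_orderOf_eq_one] at h
  simpa using h.symm

theorem eq_one_of_mem_sylow_coprime {G : Type*} [Group G] {p : ℕ} [Fact p.Prime] (S : Sylow p G)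
    {g : G} (hg : g ∈ (S : Subgroup G)) {n : ℕ} (hn : g ^ n = 1) (hc : Nat.Coprime n p) :
    g = 1 := by
  obtain ⟨k, hk⟩ := S.2 ⟨g, hg⟩
  have hk' : g ^ p ^ k = 1 := by simpa using congrArg Subtype.val hk
  have h1 := orderOf_dvd_of_pow_eq_one hn
  have h2 := orderOf_dvd_of_pow_eq_one hk'
  have h3 : Nat.Coprime n (p ^ k) := Nat.Coprime.pow_right k hc
  have h4 : orderOf g ∣ 1 := h3 ▸ Nat.dvd_gcd h1 h2
  exact orderOf_eq_one_iff.1 (Nat.dvd_one.1 h4)

theorem case_self_centralizing {G : Type*} [Group G] [Finite G]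
    (hS : ∀ H : Subgroup G, ¬ IsMulCommutative H → Subgroup.normalizer (H : Set G) = H)
    (N : Subgroup G) [N.Normal] (hNc : Subgroup.centralizer (N : Set G) = N) :
    Group.IsSolvable G := by
  classical
  have hNcomm : ∀ a b : N, a * b = b * a := by
    intro a b
    have ha : (a : G) ∈ Subgroup.centralizer (N : Set G) := by rw [hNc]; exact a.2
    exact Subtype.ext ((Subgroup.mem_centralizer_iff.1 ha b b.2).symm)
  have hNsol : Group.IsSolvable N := Group.isSolvable_of_comm hNcomm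
  have key : ∀ H : Subgroup (G ⧸ N), H ≠ ⊥ → Subgroup.normalizer (H : Set (G ⧸ N)) = H := by
    intro H hH
    have hnc : ¬ IsMulCommutative (H.comap (QuotientGroup.mk' N)) := by
      intro hc
      obtain ⟨x', hx'⟩ := (Subgroup.ne_bot_iff_exists_ne_one).1 hH
      obtain ⟨x, hx, hx1⟩ : ∃ x : G ⧸ N, x ∈ H ∧ x ≠ 1 :=
        ⟨(x' : G ⧸ N), x'.2, fun h => hx' (Subtype.ext h)⟩
      obtain ⟨g, rfl⟩ := QuotientGroup.mk'_surjective N x
      have hgN : g ∉ N := fun h => hx1 ((QuotientGroup.eq_one_iff g).2 h)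
      apply hgN
      rw [← hNc, Subgroup.mem_centralizer_iff]
      intro n hn
      have hn' : n ∈ H.comap (QuotientGroup.mk' N) := by
        rw [Subgroup.mem_comap]
        have : QuotientGroup.mk' N n = 1 := (QuotientGroup.eq_one_iff n).2 hn
        rw [this]; exact H.one_mem
      have := hc.is_comm.comm ⟨n, hn'⟩ ⟨g, hx⟩
      exact congrArg Subtype.val this
    have h1 := hS _ hnc
    have h2 := Subgroup.comap_normalizer_eq_of_surjective H (QuotientGroup.mk'_surjective N)
    apply Subgroup.comap_injective (QuotientGroup.mk'_surjective N)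
    rw [h2]; exact h1
  refine solvable_of_normal' N hNsol ?_
  by_cases hsub : Subsingleton (G ⧸ N)
  · infer_instance
  have hnt : Nontrivial (G ⧸ N) := not_subsingleton_iff_nontrivial.1 hsub
  have hcard : Nat.card (G ⧸ N) ≠ 1 := by
    intro h
    exact hsub (Finite.card_le_one_iff_subsingleton.1 h.le)
  haveI : Fact (Nat.card (G ⧸ N)).minFac.Prime := ⟨Nat.minFac_prime hcard⟩
  set p := (Nat.card (G ⧸ N)).minFac with hp
  let P : Sylow p (G ⧸ N) := default
  have hPb : (P : Subgroup (G ⧸ N)) ≠ ⊥ := P.ne_bot_of_dvd_card (Nat.minFac_dvd _)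
  haveI : Nontrivial (P : Subgroup (G ⧸ N)) := (Subgroup.nontrivial_iff_ne_bot _).2 hPb
  have hZnt : Nontrivial (Subgroup.center (P : Subgroup (G ⧸ N))) := P.2.center_nontrivial
  set Z : Subgroup (G ⧸ N) := (Subgroup.center (P : Subgroup (G ⧸ N))).map
    (P : Subgroup (G ⧸ N)).subtype with hZ
  have hZmem : ∀ h : G ⧸ N, h ∈ Z ↔ h ∈ (P : Subgroup (G ⧸ N)) ∧
      ∀ g ∈ (P : Subgroup (G ⧸ N)), g * h = h * g := by
    intro h
    constructor
    · rintro ⟨c, hc, rfl⟩
      refine ⟨c.2, fun g hg => ?_⟩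
      have := Subgroup.mem_center_iff.1 hc ⟨g, hg⟩
      exact congrArg Subtype.val this
    · rintro ⟨hP, hc⟩
      refine ⟨⟨h, hP⟩, ?_, rfl⟩
      rw [SetLike.mem_coe, Subgroup.mem_center_iff]
      intro g
      exact Subtype.ext (hc g g.2)
  have hZb : Z ≠ ⊥ := by
    obtain ⟨c, hc⟩ := exists_ne (1 : Subgroup.center (P : Subgroup (G ⧸ N)))
    intro hb
    apply hc
    have h1 : ((c : (P : Subgroup (G ⧸ N))) : G ⧸ N) ∈ Z := ⟨c, c.2, rfl⟩
    rw [hb, Subgroup.mem_bot] at h1
    exact Subtype.ext (Subtype.ext h1)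
  have hZn := key Z hZb
  have hPZ : (P : Subgroup (G ⧸ N)) ≤ Z := by
    intro g hg
    rw [← hZn, Subgroup.mem_normalizer_iff]
    intro h
    constructor
    · intro hh
      have h2 := ((hZmem h).1 hh).2 g hg
      have : g * h * g⁻¹ = h := by rw [h2]; group
      rw [this]; exact hh
    · intro hh
      have h2 := ((hZmem _).1 hh).2 g hg
      have : g * h * g⁻¹ = h := by
        have h3 : g * (g * h * g⁻¹) = g * h := by rw [h2]; group
        exact mul_left_cancel h3
      rw [this] at hh; exact hh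
  have hPcomm : ∀ a ∈ (P : Subgroup (G ⧸ N)), ∀ b ∈ (P : Subgroup (G ⧸ N)), a * b = b * a :=
    fun a ha b hb => ((hZmem b).1 (hPZ hb)).2 a ha
  have hPn := key P hPb
  have hP : Subgroup.normalizer ((P : Subgroup (G ⧸ N)) : Set (G ⧸ N)) ≤
      Subgroup.centralizer ((P : Subgroup (G ⧸ N)) : Set (G ⧸ N)) := by
    rw [hPn]
    intro a ha
    rw [Subgroup.mem_centralizer_iff]
    intro b hb
    exact hPcomm b hb a ha
  have hcompl := MonoidHom.ker_transferSylow_isComplement' P hP
  have hKb : (MonoidHom.transferSylow P hP).ker = ⊥ := by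
    by_contra hK
    have h1 := key _ hK
    rw [Subgroup.normalizer_eq_top] at h1
    rw [← h1] at hcompl
    exact hPb (Subgroup.isComplement'_top_left.1 hcompl)
  rw [hKb] at hcompl
  have hPt : (P : Subgroup (G ⧸ N)) = ⊤ := Subgroup.isComplement'_bot_left.1 hcompl
  exact Group.isSolvable_of_comm fun a b =>
    hPcomm a (hPt ▸ Subgroup.mem_top a) b (hPt ▸ Subgroup.mem_top b)

theorem case_central {G : Type*} [Group G] [Finite G]
    (hS : ∀ H : Subgroup G, ¬ IsMulCommutative H → Subgroup.normalizer (H : Set G) = H)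
    (p : ℕ) [Fact p.Prime] (z : G) (hz : z ∈ Subgroup.center G) (hzo : orderOf z = p) :
    Group.IsSolvable G := by
  classical
  have hp : p.Prime := Fact.out
  have hzc : ∀ g : G, g * z = z * g := fun g => Subgroup.mem_center_iff.1 hz g
  have hz1 : z ≠ 1 := by
    intro h
    rw [h, orderOf_one] at hzo
    exact hp.one_lt.ne hzo
  have ha : ∀ H : Subgroup G, z ∉ H → IsMulCommutative H := by
    intro H hzH
    by_contra hc
    have h1 := hS H hc
    apply hzH
    rw [← h1, Subgroup.mem_normalizer_iff]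
    intro h
    have : z * h * z⁻¹ = h := by rw [← hzc h]; group
    rw [this]
  let S : Sylow p G := default
  have hzS : z ∈ (S : Subgroup G) := by
    have hzp : IsPGroup p (Subgroup.zpowers z) := by
      apply IsPGroup.of_card (n := 1)
      rw [Nat.card_zpowers, hzo, pow_one]
    obtain ⟨Q, hQ⟩ := hzp.exists_le_sylow
    obtain ⟨g, hg⟩ := MulAction.exists_smul_eq G Q S
    have h1 : z ∈ (Q : Subgroup G) := hQ (Subgroup.mem_zpowers z)
    have h2 : g * z * g⁻¹ ∈ ((g • Q : Sylow p G) : Subgroup G) := by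
      rw [Sylow.coe_subgroup_smul]
      exact Subgroup.smul_mem_pointwise_smul _ (MulAut.conj g) _ h1 
    rw [hg] at h2
    have : g * z * g⁻¹ = z := by rw [hzc g]; group
    rwa [this] at h2
  by_cases hF : ∃ N : Subgroup G, N.Normal ∧ N.IsComplement' (S : Subgroup G)
  · obtain ⟨K, hKn, hK⟩ := hF
    haveI := hKn
    have hzK : z ∉ K := by
      intro h
      have h1 : z ∈ K ⊓ (S : Subgroup G) := ⟨h, hzS⟩
      rw [hK.disjoint.eq_bot, Subgroup.mem_bot] at h1
      exact hz1 h1
    have hKc := ha K hzK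
    have hKsol : Group.IsSolvable K := Group.isSolvable_of_comm fun a b => hKc.is_comm.comm a b
    have hQp : IsPGroup p (G ⧸ K) := by
      obtain ⟨n, hn⟩ := (IsPGroup.iff_card).1 S.2
      apply IsPGroup.of_card (n := n)
      rw [← hn, ← hK.symm.index_eq_card]
      rfl
    haveI : Group.IsNilpotent (G ⧸ K) := hQp.isNilpotent
    exact solvable_of_normal' K hKsol inferInstance
  · exfalso
    rw [Cfsg.Agent.S0071.result S] at hF
    push_neg at hF
    obtain ⟨U, hUS, y, hyN, hyo, hyC⟩ := hF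
    have hUc : IsMulCommutative U := by
      by_contra hc
      have h1 := hS U hc
      rw [h1] at hyN
      have : y = 1 := eq_one_of_mem_sylow_coprime S (hUS hyN) (pow_orderOf_eq_one y) hyo
      apply hyC
      rw [this]; exact Subgroup.one_mem _
    have hcomm : ∀ a ∈ U, ∀ b ∈ U, a * b = b * a := fun a ha b hb =>
      congrArg Subtype.val (hUc.is_comm.comm ⟨a, ha⟩ ⟨b, hb⟩)
    have hconj : ∀ u, u ∈ U ↔ y * u * y⁻¹ ∈ U := fun u => Subgroup.mem_normalizer_iff.1 hyN u
    have hconj' : ∀ u ∈ U, y⁻¹ * u * y ∈ U := by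
      intro u hu
      rw [hconj]
      have : y * (y⁻¹ * u * y) * y⁻¹ = u := by group
      rwa [this]
    let W : Subgroup G :=
      { carrier := {w | ∃ u ∈ U, w = u⁻¹ * (y * u * y⁻¹)}
        one_mem' := ⟨1, U.one_mem, by simp⟩
        mul_mem' := by
          rintro _ _ ⟨u, hu, rfl⟩ ⟨v, hv, rfl⟩
          refine ⟨u * v, U.mul_mem hu hv, ?_⟩
          have h1 : (y * u * y⁻¹) * v⁻¹ = v⁻¹ * (y * u * y⁻¹) :=
            hcomm _ ((hconj u).1 hu) _ (U.inv_mem hv)
          have h2 : u⁻¹ * v⁻¹ = v⁻¹ * u⁻¹ := hcomm _ (U.inv_mem hu) _ (U.inv_mem hv)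
          calc u⁻¹ * (y * u * y⁻¹) * (v⁻¹ * (y * v * y⁻¹))
              = u⁻¹ * ((y * u * y⁻¹) * v⁻¹) * (y * v * y⁻¹) := by group
            _ = (u⁻¹ * v⁻¹) * (y * u * y⁻¹) * (y * v * y⁻¹) := by rw [h1]; group
            _ = (u * v)⁻¹ * (y * (u * v) * y⁻¹) := by rw [h2]; group
        inv_mem' := by
          rintro _ ⟨u, hu, rfl⟩
          refine ⟨u⁻¹, U.inv_mem hu, ?_⟩
          have h1 : (y * u * y⁻¹)⁻¹ * u = u * (y * u * y⁻¹)⁻¹ :=
            hcomm _ (U.inv_mem ((hconj u).1 hu)) _ hu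
          calc (u⁻¹ * (y * u * y⁻¹))⁻¹ = (y * u * y⁻¹)⁻¹ * u := by group
            _ = u * (y * u * y⁻¹)⁻¹ := h1
            _ = u⁻¹⁻¹ * (y * u⁻¹ * y⁻¹) := by group }
    have hWmem : ∀ w, w ∈ W ↔ ∃ u ∈ U, w = u⁻¹ * (y * u * y⁻¹) := fun w => Iff.rfl
    have hWU : W ≤ U := by
      rintro _ ⟨u, hu, rfl⟩
      exact U.mul_mem (U.inv_mem hu) ((hconj u).1 hu)
    have hyW : y ∈ Subgroup.normalizer (W : Set G) := by
      rw [Subgroup.mem_normalizer_iff]
      intro h
      constructor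
      · rintro ⟨u, hu, rfl⟩
        exact ⟨y * u * y⁻¹, (hconj u).1 hu, by group⟩
      · rintro ⟨u, hu, hh⟩
        refine ⟨y⁻¹ * u * y, hconj' u hu, ?_⟩
        have : h = y⁻¹ * (y * h * y⁻¹) * y := by group
        rw [this, hh]; group
    have hyWz : ∀ (i : ℤ) (w : G), w ∈ W → y ^ i * w * (y ^ i)⁻¹ ∈ W := by
      intro i w hw
      exact (Subgroup.mem_normalizer_iff.1 (Subgroup.zpow_mem _ hyW i) w).1 hw
    let H2 : Subgroup G :=
      { carrier := {g | ∃ w ∈ W, ∃ i : ℤ, g = w * y ^ i}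
        one_mem' := ⟨1, W.one_mem, 0, by simp⟩
        mul_mem' := by
          rintro _ _ ⟨w, hw, i, rfl⟩ ⟨v, hv, j, rfl⟩
          refine ⟨w * (y ^ i * v * (y ^ i)⁻¹), W.mul_mem hw (hyWz i v hv), i + j, ?_⟩
          rw [zpow_add]; group
        inv_mem' := by
          rintro _ ⟨w, hw, i, rfl⟩
          refine ⟨y ^ (-i) * w⁻¹ * (y ^ (-i))⁻¹, hyWz (-i) _ (W.inv_mem hw), -i, ?_⟩
          group }
    have hzW : z ∉ W := by
      rintro ⟨u, hu, hzu⟩
      have h1 : y * u * y⁻¹ = u * z := by rw [hzu]; group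
      have h2 := pow_orderOf_aux h1 (hzc y)
      have h3 : p ∣ orderOf y := hzo ▸ orderOf_dvd_of_pow_eq_one h2
      exact hp.one_lt.ne' (Nat.dvd_one.1 (hyo ▸ Nat.dvd_gcd h3 dvd_rfl))
    have hzH2 : z ∉ H2 := by
      rintro ⟨w, hw, i, hzw⟩
      have h1 : y ^ i = w⁻¹ * z := by rw [hzw]; group
      have h2 : y ^ i ∈ (S : Subgroup G) := by
        rw [h1]; exact Subgroup.mul_mem _ (Subgroup.inv_mem _ (hUS (hWU hw))) hzS
      have h3 : (y ^ i) ^ orderOf y = 1 := by
        rw [← zpow_natCast, ← zpow_mul, mul_comm, zpow_mul, zpow_natCast, pow_orderOf_eq_one,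
          one_zpow]
      have h4 : y ^ i = 1 := eq_one_of_mem_sylow_coprime S h2 h3 hyo
      rw [h4, mul_one] at hzw
      exact hzW (hzw ▸ hw)
    have hH2c := ha H2 hzH2
    have hyH2 : y ∈ H2 := ⟨1, W.one_mem, 1, by simp⟩
    have hWH2 : ∀ w ∈ W, w ∈ H2 := fun w hw => ⟨w, hw, 0, by simp⟩
    have hyw : ∀ w ∈ W, y * w = w * y := fun w hw =>
      congrArg Subtype.val (hH2c.is_comm.comm ⟨y, hyH2⟩ ⟨w, hWH2 w hw⟩)
    apply hyC
    rw [Subgroup.mem_centralizer_iff]
    intro u hu
    have hcW : u⁻¹ * (y * u * y⁻¹) ∈ W := ⟨u, hu, rfl⟩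
    have h1 : y * u * y⁻¹ = u * (u⁻¹ * (y * u * y⁻¹)) := by group
    have h2 := pow_orderOf_aux h1 (hyw _ hcW)
    have h3 : u⁻¹ * (y * u * y⁻¹) = 1 :=
      eq_one_of_mem_sylow_coprime S (hUS (hWU hcW)) h2 hyo
    have h4 : y * u * y⁻¹ = u := by rw [h1, h3, mul_one]
    calc u * y = (y * u * y⁻¹) * y := by rw [h4]
      _ = y * u := by group

/-- A finite group in which every non-abelian subgroup is self-normalizing is solvable or simple. -/
theorem result {G : Type*} [Group G] [Finite G] (hS : ∀ H : Subgroup G, ¬ IsMulCommutative H → Subgroup.normalizer (H : Set G) = H) :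
    Group.IsSolvable G ∨ IsSimpleGroup G := by
  classical
  by_cases hsimple : IsSimpleGroup G
  · exact Or.inr hsimple
  left
  by_cases hsub : Subsingleton G
  · infer_instance
  have hnt : Nontrivial G := not_subsingleton_iff_nontrivial.1 hsub
  obtain ⟨N, hNn, hNb, hNt⟩ : ∃ N : Subgroup G, N.Normal ∧ N ≠ ⊥ ∧ N ≠ ⊤ := by
    by_contra hcon
    push_neg at hcon
    exact hsimple ⟨fun H hH => by
      by_contra h
      push_neg at h
      exact h.2 (hcon H hH h.1)⟩
  haveI := hNn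
  have hNc := comm_of_normal' hS N hNt
  by_cases hC : Subgroup.centralizer (N : Set G) = ⊤
  · obtain ⟨x, hx⟩ := (Subgroup.ne_bot_iff_exists_ne_one).1 hNb
    have hx1 : (x : G) ≠ 1 := fun h => hx (Subtype.ext h)
    have ho : orderOf (x : G) ≠ 1 := fun h => hx1 (orderOf_eq_one_iff.1 h)
    haveI : Fact (orderOf (x : G)).minFac.Prime := ⟨Nat.minFac_prime ho⟩
    have hzo : orderOf ((x : G) ^ (orderOf (x : G) / (orderOf (x : G)).minFac)) =
        (orderOf (x : G)).minFac := by
      have hd := Nat.minFac_dvd (orderOf (x : G))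
      rw [orderOf_pow_of_dvd]
      · exact Nat.div_div_self hd (orderOf_pos (x : G)).ne'
      · intro h
        have := (Nat.div_eq_zero_iff).1 h
        rcases this with h0 | h0
        · exact (Nat.minFac_pos _).ne' h0
        · exact absurd (Nat.le_of_dvd (orderOf_pos _) hd) (not_le.2 h0)
      · exact Nat.div_dvd_of_dvd hd
    refine case_central hS _ ((x : G) ^ (orderOf (x : G) / (orderOf (x : G)).minFac)) ?_ hzo
    apply Subgroup.pow_mem
    rw [Subgroup.mem_center_iff]
    intro g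
    have hg : g ∈ Subgroup.centralizer (N : Set G) := hC ▸ Subgroup.mem_top g
    exact (Subgroup.mem_centralizer_iff.1 hg x x.2).symm
  · have hc1 := comm_of_normal' hS (Subgroup.centralizer (N : Set G)) hC
    have hNle : N ≤ Subgroup.centralizer (N : Set G) := by
      intro a ha
      rw [Subgroup.mem_centralizer_iff]
      intro b hb
      exact congrArg Subtype.val (hNc.is_comm.comm ⟨b, hb⟩ ⟨a, ha⟩)
    apply case_self_centralizing hS (Subgroup.centralizer (N : Set G))
    apply le_antisymm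
    · exact Subgroup.centralizer_le hNle
    · intro a ha
      rw [Subgroup.mem_centralizer_iff]
      intro b hb
      exact congrArg Subtype.val (hc1.is_comm.comm ⟨b, hb⟩ ⟨a, ha⟩)

end Cfsg.Agent.S4072
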