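import Cfsg.Statements.S4074
import Mathlib
import Cfsg.Agent.Lib.Helper21.P4

set_option autoImplicit false
open Cfsg

namespace Cfsg.Agent.S4074

def idx {n : ℕ} : DihedralGroup n → ZMod n
  | .r i => i
  | .sr i => i

noncomputable def parity (n : ℕ) (h2 : 2 ∣ n) : DihedralGroup n →* Multiplicative (ZMod 2) :=
  MonoidHom.mk' (fun g => Multiplicative.ofAdd (ZMod.castHom h2 (ZMod 2) (idx g))) (by
    rintro (i | i) (j | j)
    · show Multiplicative.ofAdd (ZMod.castHom h2 (ZMod 2) (i + j)) = _
      rw [map_add]; rfl
    · show Multiplicative.ofAdd (ZMod.castHom h2 (ZMod 2) (j - i)) = _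
      rw [map_sub, CharTwo.sub_eq_add, add_comm]; rfl
    · show Multiplicative.ofAdd (ZMod.castHom h2 (ZMod 2) (i + j)) = _
      rw [map_add]; rfl
    · show Multiplicative.ofAdd (ZMod.castHom h2 (ZMod 2) (j - i)) = _
      rw [map_sub, CharTwo.sub_eq_add, add_comm]; rfl)

lemma r_pow' {n : ℕ} (a : ZMod n) (k : ℕ) :
    (DihedralGroup.r a) ^ k = DihedralGroup.r ((k : ZMod n) * a) := by
  induction k with
  | zero => simp
  | succ k ih =>
    rw [pow_succ, ih, DihedralGroup.r_mul_r]
    congr 1
    push_cast
    ring

/-- For n > 2, every non-abelian subgroup of the dihedral group of order 2n is self-normalizing if and only if n = 4 or n is odd. -/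
theorem result (n : ℕ) (hn : 2 < n) :
    (∀ H : Subgroup (DihedralGroup n), ¬ IsMulCommutative H → Subgroup.normalizer (H : Set (DihedralGroup n)) = H) ↔
    (n = 4 ∨ Odd n) := by
  classical
  constructor
  · intro h
    by_contra hcon
    push Not at hcon
    obtain ⟨h4, hodd⟩ := hcon
    rw [Nat.not_odd_iff_even] at hodd
    have h2 : 2 ∣ n := hodd.two_dvd
    have h6 : 6 ≤ n := by
      obtain ⟨m, hm⟩ := h2
      omega
    have hr2 : DihedralGroup.r (2 : ZMod n) ∈ (parity n h2).ker := by
      rw [MonoidHom.mem_ker]
      show Multiplicative.ofAdd (ZMod.castHom h2 (ZMod 2) (2 : ZMod n)) = 1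
      rw [map_ofNat]
      rfl
    have hs0 : DihedralGroup.sr (0 : ZMod n) ∈ (parity n h2).ker := by
      rw [MonoidHom.mem_ker]
      show Multiplicative.ofAdd (ZMod.castHom h2 (ZMod 2) (0 : ZMod n)) = 1
      rw [map_zero]
      rfl
    have hnc : ¬ IsMulCommutative (parity n h2).ker := by
      intro hc
      have h1 := hc.is_comm.comm ⟨_, hr2⟩ ⟨_, hs0⟩
      have h3 : DihedralGroup.r (2 : ZMod n) * DihedralGroup.sr 0
          = DihedralGroup.sr 0 * DihedralGroup.r 2 := congrArg Subtype.val h1
      rw [DihedralGroup.r_mul_sr, DihedralGroup.sr_mul_r] at h3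
      have h5 : (0 : ZMod n) - 2 = 0 + 2 := by
        injection h3
      have h7 : ((4 : ℕ) : ZMod n) = 0 := by
        push_cast
        linear_combination -h5
      have h8 := Nat.le_of_dvd (by norm_num) ((ZMod.natCast_eq_zero_iff 4 n).1 h7)
      omega
    have h9 := h _ hnc
    rw [Subgroup.normalizer_eq_top] at h9
    have h10 : DihedralGroup.r (1 : ZMod n) ∈ (parity n h2).ker := by
      rw [← h9]
      exact Subgroup.mem_top _
    rw [MonoidHom.mem_ker] at h10
    have h11 : Multiplicative.ofAdd (ZMod.castHom h2 (ZMod 2) (1 : ZMod n)) = 1 := h10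
    rw [map_one] at h11
    exact absurd h11 (by decide)
  · rintro (rfl | hodd)
    · intro H hH
      have hcard : Nat.card H ∣ 2 ^ 3 := by
        have := Subgroup.card_subgroup_dvd_card H
        rwa [DihedralGroup.nat_card] at this
      obtain ⟨k, hk, hc⟩ := (Nat.dvd_prime_pow Nat.prime_two).1 hcard
      haveI : Fact (Nat.Prime 2) := ⟨Nat.prime_two⟩
      have hk3 : k = 3 := by
        by_contra hk3
        apply hH
        have h1 : Nat.card H ∣ 2 ^ 2 := by
          rw [hc]
          exact pow_dvd_pow 2 (by omega)
        exact ⟨⟨Cfsg.Agent.Lib.Helper21.comm_of_card_dvd_sq 2 h1⟩⟩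
      have htop : H = ⊤ := by
        apply Subgroup.eq_top_of_card_eq
        rw [hc, hk3, DihedralGroup.nat_card]
        norm_num
      apply le_antisymm _ Subgroup.le_normalizer
      rw [htop]
      exact le_top
    · intro H hH
      obtain ⟨m, hm⟩ := hodd
      have hn0 : ((2 : ZMod n) * (m : ZMod n) + 1) = 0 := by
        have := ZMod.natCast_self n
        rw [hm] at this
        rw [hm]
        push_cast at this
        exact this
      obtain ⟨i, hi⟩ : ∃ i : ZMod n, DihedralGroup.sr i ∈ H := by
        by_contra hcon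
        push Not at hcon
        apply hH
        refine ⟨⟨?_⟩⟩
        rintro ⟨a, ha⟩ ⟨b, hb⟩
        apply Subtype.ext
        show a * b = b * a
        rcases a with a | a
        · rcases b with b | b
          · rw [DihedralGroup.r_mul_r, DihedralGroup.r_mul_r, add_comm]
          · exact absurd hb (hcon b)
        · exact absurd ha (hcon a)
      have hrot : ∀ j : ZMod n, DihedralGroup.r j ∈ Subgroup.normalizer (H : Set (DihedralGroup n)) →
          DihedralGroup.r j ∈ H := by
        intro j hj
        have h1 := (Subgroup.mem_normalizer_iff.1 hj (DihedralGroup.sr i)).1 hi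
        rw [DihedralGroup.inv_r, DihedralGroup.r_mul_sr, DihedralGroup.sr_mul_r] at h1
        have h2 := H.mul_mem hi h1
        rw [DihedralGroup.sr_mul_sr] at h2
        have h3 := H.pow_mem h2 m
        rw [r_pow'] at h3
        have e : (m : ZMod n) * (i - j + -j - i) = j := by
          linear_combination (-j) * hn0
        rwa [e] at h3
      apply le_antisymm _ Subgroup.le_normalizer
      intro g hg
      rcases g with j | j
      · exact hrot j hg
      · have h1 := (Subgroup.normalizer (H : Set (DihedralGroup n))).mul_mem hg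
          (Subgroup.le_normalizer hi)
        rw [DihedralGroup.sr_mul_sr] at h1
        have h2 := H.mul_mem (hrot _ h1) hi
        rw [DihedralGroup.r_mul_sr] at h2
        have e : i - (i - j) = j := by ring
        rwa [e] at h2

end Cfsg.Agent.S4074
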