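import Cfsg.Statements.S4075
-- import your own Cfsg.Agent.* helpers here

set_option autoImplicit false
open Cfsg

namespace Cfsg.Agent.S4075

/-- Let G be a finite nilpotent group. Every non-abelian subgroup of G is self-normalizing if and only if G is abelian or G is a minimal non-abelian p-group for some prime p (non-abelian of prime-power order with every proper subgroup abelian). -/
theorem result {G : Type*} [Group G] [Finite G]
    [Group.IsNilpotent G] :
    (∀ H : Subgroup G, ¬ IsMulCommutative H → Subgroup.normalizer (H : Set G) = H) ↔
    (IsMulCommutative G ∨ (IsPrimePow (Nat.card G) ∧ ¬ IsMulCommutative G ∧ ∀ H : Subgroup G, H ≠ ⊤ → IsMulCommutative H)) := by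
  constructor
  · intro hS
    by_cases hab : IsMulCommutative G
    · exact Or.inl hab
    right
    have hnc := (normalizerCondition_iff_only_full_group_self_normalizing (G := G)).1
      (Group.normalizerCondition_of_isNilpotent)
    have hprop : ∀ H : Subgroup G, H ≠ ⊤ → IsMulCommutative H := by
      intro H hH
      by_contra hHc
      exact hH (hnc H (hS H hHc))
    refine ⟨?_, hab, hprop⟩
    by_contra hpp
    apply hab
    obtain ⟨e⟩ := (Group.isNilpotent_of_finite_tfae (G := G)).out 0 4 rfl rfl |>.mp inferInstance
    have hcomm : ∀ a b : (∀ p : (Nat.card G).primeFactors, ∀ P : Sylow p G, (↑P : Subgroup G)),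
        a * b = b * a := by
      intro a b
      funext p P
      have hp : Nat.Prime (p : ℕ) := Nat.prime_of_mem_primeFactors p.2
      haveI : Fact (Nat.Prime (p : ℕ)) := ⟨hp⟩
      have hPtop : (P : Subgroup G) ≠ ⊤ := by
        intro htop
        apply hpp
        have hG : IsPGroup (p : ℕ) G := by
          have h1 : IsPGroup (p : ℕ) (⊤ : Subgroup G) := htop ▸ P.2
          exact h1.of_equiv Subgroup.topEquiv
        obtain ⟨n, hn⟩ := IsPGroup.iff_card.1 hG
        rw [hn]
        have hn0 : n ≠ 0 := by
          rintro rfl
          have hdvd : (p : ℕ) ∣ Nat.card G := Nat.dvd_of_mem_primeFactors p.2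
          have h1 : Nat.card G = 1 := by rw [hn, pow_zero]
          have hdvd' : (p : ℕ) ∣ 1 := h1 ▸ hdvd
          exact hp.one_lt.ne' (Nat.dvd_one.1 hdvd')
        exact hp.isPrimePow.pow hn0
      haveI := hprop _ hPtop
      exact mul_comm' (a p P) (b p P)
    apply IsMulCommutative.of_comm
    intro x y
    have := hcomm (e.symm x) (e.symm y)
    rw [← map_mul, ← map_mul] at this
    exact e.symm.injective this
  · rintro (hab | ⟨-, -, hprop⟩)
    · intro H hH
      exfalso
      apply hH
      apply IsMulCommutative.of_comm
      intro a b
      ext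
      exact mul_comm' (a : G) (b : G)
    · intro H hH
      have : H = ⊤ := by
        by_contra hne
        exact hH (hprop H hne)
      rw [this]
      exact Subgroup.normalizer_eq_top _

end Cfsg.Agent.S4075
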