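import Cfsg.Statements.S4080
import Mathlib

set_option autoImplicit false
open Cfsg

namespace Cfsg.Agent.S4080

section aux

theorem L1 {S : Type*} [Ring S] (N : S) (p : ℕ) (hp : p.Prime) (h3 : 3 < p)
    (h1 : N ^ 2 * (p : S) = 0) (h2 : N ^ 4 = 0) (h : (N + 1) ^ p = 1) : N * (p : S) = 0 := by
  have hc : Commute N 1 := Commute.one_right N
  rw [hc.add_pow] at h
  rw [Finset.sum_eq_add_of_mem 0 1 (by simp) (by simp; omega) (by norm_num)] at h
  · simpa using h
  · intro m hm hm01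
    rw [Finset.mem_range] at hm
    rcases Nat.lt_or_ge m p with hlt | hge
    · obtain ⟨c, hc⟩ := hp.dvd_choose_self hm01.1 hlt
      have hm2 : N ^ m = N ^ (m - 2) * N ^ 2 := by
        rw [← pow_add]; congr 1; omega
      rw [hc, Nat.cast_mul, one_pow, mul_one, hm2, ← mul_assoc, mul_assoc (N ^ (m - 2)), h1,
        mul_zero, zero_mul]
    · have : m = p := by omega
      subst this
      have hm4 : N ^ m = N ^ (m - 4) * N ^ 4 := by
        rw [← pow_add]; congr 1; omega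
      rw [hm4, h2]; simp

theorem CH2 {R : Type*} [CommRing R] (M : Matrix (Fin 2) (Fin 2) R) :
    M ^ 2 = M.trace • M - M.det • (1 : Matrix (Fin 2) (Fin 2) R) := by
  rw [pow_two]
  ext i j
  fin_cases i <;> fin_cases j <;>
    simp [Matrix.mul_apply, Fin.sum_univ_two, Matrix.trace_fin_two, Matrix.det_fin_two] <;> ring

theorem K (p : ℕ) [Fact p.Prime] (r : ZMod (p ^ 2))
    (h : ZMod.castHom (dvd_pow_self p two_ne_zero) (ZMod p) r = 0) :
    ∃ r', r = (p : ZMod (p ^ 2)) * r' := by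
  haveI : NeZero (p ^ 2) := ⟨pow_ne_zero 2 (Fact.out : p.Prime).ne_zero⟩
  have h1 : ((r.val : ℕ) : ZMod (p ^ 2)) = r := ZMod.natCast_zmod_val r
  rw [← h1, map_natCast, ZMod.natCast_eq_zero_iff] at h
  obtain ⟨k, hk⟩ := h
  exact ⟨k, by rw [← h1, hk, Nat.cast_mul]⟩

theorem Z (p : ℕ) [Fact p.Prime] (r : ZMod (p ^ 2))
    (h : (p : ZMod (p ^ 2)) * r = 0) :
    ∃ r', r = (p : ZMod (p ^ 2)) * r' := by
  haveI : NeZero (p ^ 2) := ⟨pow_ne_zero 2 (Fact.out : p.Prime).ne_zero⟩
  have h1 : ((r.val : ℕ) : ZMod (p ^ 2)) = r := ZMod.natCast_zmod_val r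
  rw [← h1, ← Nat.cast_mul, ZMod.natCast_eq_zero_iff] at h
  have h' : p * p ∣ p * r.val := by
    exact (dvd_of_eq (pow_two p).symm).trans h
  obtain ⟨k, hk⟩ := Nat.dvd_of_mul_dvd_mul_left (Fact.out : p.Prime).pos h'
  exact ⟨k, by rw [← h1, hk, Nat.cast_mul]⟩

theorem matThm (p : ℕ) [Fact p.Prime] (h3 : 3 < p) (A : Matrix (Fin 2) (Fin 2) (ZMod (p ^ 2)))
    (hA : A ^ p = 1) :
    (A - 1) * ((p : ℕ) : Matrix (Fin 2) (Fin 2) (ZMod (p ^ 2))) = 0 := by
  have hp := (Fact.out : p.Prime)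
  set N := A - 1 with hN
  have hN1 : (N + 1) ^ p = 1 := by rw [hN, sub_add_cancel, hA]
  let π := ZMod.castHom (dvd_pow_self p two_ne_zero) (ZMod p)
  set Nb := π.mapMatrix N with hNb
  have hb1 : (Nb + 1) ^ p = 1 := by
    have := congrArg π.mapMatrix hN1
    rwa [map_pow, map_add, map_one] at this
  have hb2 : Nb ^ p = 0 := by
    have := add_pow_char_of_commute (p := p) (Commute.one_right Nb)
    rw [hb1, one_pow] at this
    exact (add_eq_right.1 this.symm)
  have htr : Nb.trace = 0 := (Matrix.isNilpotent_trace_of_isNilpotent ⟨p, hb2⟩).eq_zero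
  have hdet : Nb.det = 0 := by
    have := congrArg Matrix.det hb2
    rw [Matrix.det_pow, Matrix.det_zero] at this
    exact (pow_eq_zero_iff hp.ne_zero).1 this
  have htr' : π N.trace = 0 := by rw [← htr, hNb]; simp [Matrix.trace_fin_two]
  have hdet' : π N.det = 0 := by rw [← hdet, hNb, RingHom.map_det]
  obtain ⟨τ, hτ⟩ := K p _ htr'
  obtain ⟨δ, hδ⟩ := K p _ hdet'
  have hpp : ((p : ℕ) : Matrix (Fin 2) (Fin 2) (ZMod (p ^ 2))) * (p : ℕ) = 0 := by
    rw [← Nat.cast_mul, ← pow_two]; exact CharP.cast_eq_zero _ _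
  obtain ⟨M, hN2⟩ : ∃ M, N ^ 2 = ((p : ℕ) : Matrix (Fin 2) (Fin 2) (ZMod (p ^ 2))) * M := by
    refine ⟨τ • N - δ • 1, ?_⟩
    rw [CH2, hτ, hδ, mul_sub, mul_smul, mul_smul, Nat.cast_smul_eq_nsmul,
      Nat.cast_smul_eq_nsmul, nsmul_eq_mul, nsmul_eq_mul]
  apply L1 N p hp h3 _ _ hN1
  · rw [hN2, mul_assoc, ← (Nat.cast_commute p M).eq, ← mul_assoc, hpp, zero_mul]
  · have : N ^ 4 = N ^ 2 * N ^ 2 := by rw [← pow_add]
    rw [this, hN2, mul_assoc, ← mul_assoc M, ← (Nat.cast_commute p M).eq, mul_assoc,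
      ← mul_assoc, hpp, zero_mul]

end aux

/-- Let p > 3 be a prime and L the direct product of two cyclic groups of order p². Every automorphism of L of order p fixes every element of order p of L. -/
theorem result {p : ℕ} [Fact p.Prime] (hp : 3 < p)
    (a : MulAut (Multiplicative (ZMod (p ^ 2) × ZMod (p ^ 2)))) (ha : orderOf a = p)
    (x : Multiplicative (ZMod (p ^ 2) × ZMod (p ^ 2))) (hx : orderOf x = p) : a x = x := by
  classical
  have hp' := (Fact.out : p.Prime)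
  let Φ : MulAut (Multiplicative (ZMod (p ^ 2) × ZMod (p ^ 2))) →*
      Module.End (ZMod (p ^ 2)) (ZMod (p ^ 2) × ZMod (p ^ 2)) :=
    { toFun := fun b => (AddMonoidHom.toMultiplicative.symm b.toMonoidHom).toZModLinearMap (p ^ 2)
      map_one' := LinearMap.ext fun v => rfl
      map_mul' := fun b c => LinearMap.ext fun v => rfl }
  have hΦ : ∀ b v, Φ b v = (b (Multiplicative.ofAdd v)).toAdd := fun b v => rfl
  let e := LinearMap.toMatrixAlgEquiv (Module.Basis.finTwoProd (ZMod (p ^ 2)))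
  have hA : (e (Φ a)) ^ p = 1 := by
    have hap : a ^ p = 1 := by
      have := pow_orderOf_eq_one a
      rwa [ha] at this
    rw [← map_pow, ← map_pow, hap, map_one, map_one]
  have h := matThm p hp _ hA
  have h' : (Φ a - 1) * ((p : ℕ) : Module.End (ZMod (p ^ 2)) (ZMod (p ^ 2) × ZMod (p ^ 2))) = 0 := by
    apply e.injective
    rw [map_mul, map_sub, map_one, map_natCast, map_zero]; exact h
  have hx1 : x ^ p = 1 := by
    have := pow_orderOf_eq_one x
    rwa [hx] at this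
  have hx2 : p • x.toAdd = 0 := congrArg Multiplicative.toAdd hx1
  obtain ⟨w, hw⟩ : ∃ w : ZMod (p ^ 2) × ZMod (p ^ 2), x.toAdd = p • w := by
    have h1 : (p : ZMod (p ^ 2)) * x.toAdd.1 = 0 := by
      have := congrArg Prod.fst hx2
      simpa using this
    have h2 : (p : ZMod (p ^ 2)) * x.toAdd.2 = 0 := by
      have := congrArg Prod.snd hx2
      simpa using this
    obtain ⟨u, hu⟩ := Z p _ h1
    obtain ⟨v, hv⟩ := Z p _ h2
    refine ⟨(u, v), ?_⟩
    ext
    · simpa using hu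
    · simpa using hv
  have h2 := congrArg (fun f => f w) h'
  simp only [Module.End.mul_apply, Module.End.natCast_apply, LinearMap.sub_apply,
    Module.End.one_apply, LinearMap.zero_apply] at h2
  rw [← hw, hΦ, sub_eq_zero] at h2
  exact congrArg Multiplicative.ofAdd h2

end Cfsg.Agent.S4080
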