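import Cfsg.Statements.S4081
import Cfsg.Agent.Lib.Lead.AutOrb5
import Cfsg.Agent.Lib.Lead.AutOrb8
import Cfsg.Agent.Lib.Helper2.CharBurn

set_option autoImplicit false
open Cfsg

namespace Cfsg.Agent.S4081

open Cfsg.Agent.Lib.Lead.AutOrb

set_option linter.style.haveILetI false

theorem all_of_three {G : Type*} [Group G] [Finite G]
    (h3 : Nat.card (MulAction.orbitRel.Quotient (MulAut G) G) = 3) (x y z : G)
    (hxy : ¬ ∃ σ : MulAut G, σ y = x) (hxz : ¬ ∃ σ : MulAut G, σ z = x)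
    (hyz : ¬ ∃ σ : MulAut G, σ z = y) (t : G) :
    (∃ σ : MulAut G, σ x = t) ∨ (∃ σ : MulAut G, σ y = t) ∨ (∃ σ : MulAut G, σ z = t) := by
  classical
  haveI : Finite (MulAction.orbitRel.Quotient (MulAut G) G) := Quotient.finite _
  haveI := Fintype.ofFinite (MulAction.orbitRel.Quotient (MulAut G) G)
  rw [Nat.card_eq_fintype_card] at h3
  let s : Finset (MulAction.orbitRel.Quotient (MulAut G) G) :=
    {Quotient.mk'' x, Quotient.mk'' y, Quotient.mk'' z}
  have hs : s.card = 3 := Finset.card_eq_three.2 ⟨_, _, _, fun h => hxy ((mk_eq_iff x y).1 h),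
    fun h => hxz ((mk_eq_iff x z).1 h), fun h => hyz ((mk_eq_iff y z).1 h), rfl⟩
  have hu : s = Finset.univ := Finset.eq_univ_of_card s (hs.trans h3.symm)
  have ht : (Quotient.mk'' t : MulAction.orbitRel.Quotient (MulAut G) G) ∈ s := by
    rw [hu]; exact Finset.mem_univ _
  simp only [s, Finset.mem_insert, Finset.mem_singleton] at ht
  rcases ht with h | h | h
  · exact Or.inl ((mk_eq_iff t x).1 h)
  · exact Or.inr (Or.inl ((mk_eq_iff t y).1 h))
  · exact Or.inr (Or.inr ((mk_eq_iff t z).1 h))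

theorem fwd {G : Type*} [Group G] [Finite G] (hnpp : ¬ IsPrimePow (Nat.card G))
    (hnt : Nat.card G ≠ 1)
    (h3 : Nat.card (MulAction.orbitRel.Quotient (MulAut G) G) = 3) :
    ∃ (p q n : ℕ) (_ : Fact p.Prime) (_ : Fact q.Prime), p ≠ q ∧ 1 ≤ n ∧ Nat.card G = p ^ n * q ∧
      (∀ P : Sylow p G, (P : Subgroup G).Normal ∧ Cfsg.IsElementaryAbelian p (P : Subgroup G)) ∧
      orderOf (p : ZMod q) = q - 1 ∧
      ∀ x y : G, orderOf x = q → orderOf y = p → x * y * x⁻¹ ≠ y := by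
  classical
  obtain ⟨p, hp, hpd⟩ := Nat.exists_prime_and_dvd hnt
  obtain ⟨q, hq, hqd, hqp⟩ : ∃ q : ℕ, q.Prime ∧ q ∣ Nat.card G ∧ q ≠ p := by
    by_contra hcon
    push Not at hcon
    exact hnpp (isPrimePow_iff_unique_prime_dvd.2 ⟨p, ⟨hp, hpd⟩, fun y hy => hcon y hy.1 hy.2⟩)
  have hpq : p ≠ q := hqp.symm
  haveI : Fact p.Prime := ⟨hp⟩
  haveI : Fact q.Prime := ⟨hq⟩
  obtain ⟨xp, hxp⟩ := exists_prime_orderOf_dvd_card' (G := G) p hpd
  obtain ⟨xq, hxq⟩ := exists_prime_orderOf_dvd_card' (G := G) q hqd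
  have hoinv : ∀ (σ : MulAut G) (x : G), orderOf (σ x) = orderOf x := fun σ x => MulEquiv.orderOf_eq σ x
  have hall := all_of_three h3 1 xp xq
    (by
      rintro ⟨σ, hσ⟩
      have := hoinv σ xp
      rw [hσ, orderOf_one, hxp] at this
      exact hp.one_lt.ne this)
    (by
      rintro ⟨σ, hσ⟩
      have := hoinv σ xq
      rw [hσ, orderOf_one, hxq] at this
      exact hq.one_lt.ne this)
    (by
      rintro ⟨σ, hσ⟩
      have := hoinv σ xq
      rw [hσ, hxp, hxq] at this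
      exact hpq this)
  have hord : ∀ x : G, x ≠ 1 → orderOf x = p ∨ orderOf x = q := by
    intro x hx
    rcases hall x with ⟨σ, h⟩ | ⟨σ, h⟩ | ⟨σ, h⟩
    · exact absurd (by rw [← h, map_one]) hx
    · left; rw [← h, hoinv, hxp]
    · right; rw [← h, hoinv, hxq]
  have hrp : ∀ x : G, orderOf x = p → ∃ σ : MulAut G, σ xp = x := by
    intro x hx
    rcases hall x with ⟨σ, h⟩ | ⟨σ, h⟩ | ⟨σ, h⟩
    · exfalso
      rw [← h, map_one, orderOf_one] at hx
      exact hp.one_lt.ne hx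
    · exact ⟨σ, h⟩
    · exfalso
      rw [← h, hoinv, hxq] at hx
      exact hpq hx.symm
  have hrq : ∀ x : G, orderOf x = q → ∃ σ : MulAut G, σ xq = x := by
    intro x hx
    rcases hall x with ⟨σ, h⟩ | ⟨σ, h⟩ | ⟨σ, h⟩
    · exfalso
      rw [← h, map_one, orderOf_one] at hx
      exact hq.one_lt.ne hx
    · exfalso
      rw [← h, hoinv, hxp] at hx
      exact hpq hx
    · exact ⟨σ, h⟩
  have htp : ∀ x y : G, orderOf x = p → orderOf y = p → ∃ σ : MulAut G, σ x = y := by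
    intro x y hx hy
    obtain ⟨σ1, h1⟩ := hrp x hx
    obtain ⟨σ2, h2⟩ := hrp y hy
    refine ⟨σ2 * σ1⁻¹, ?_⟩
    rw [MulAut.mul_apply, ← h1, MulAut.inv_apply_self, h2]
  have htq : ∀ x y : G, orderOf x = q → orderOf y = q → ∃ σ : MulAut G, σ x = y := by
    intro x y hx hy
    obtain ⟨σ1, h1⟩ := hrq x hx
    obtain ⟨σ2, h2⟩ := hrq y hy
    refine ⟨σ2 * σ1⁻¹, ?_⟩
    rw [MulAut.mul_apply, ← h1, MulAut.inv_apply_self, h2]
  -- the order of `G`
  have hc0 : Nat.card G ≠ 0 := Nat.card_pos.ne'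
  obtain ⟨a, m, hm, hcm⟩ := Nat.exists_eq_pow_mul_and_not_dvd hc0 p hp.ne_one
  have hm0 : m ≠ 0 := by
    rintro rfl
    exact hc0 (by rw [hcm, mul_zero])
  obtain ⟨b, m', hm', hmm⟩ := Nat.exists_eq_pow_mul_and_not_dvd hm0 q hq.ne_one
  have hm1 : m' = 1 := by
    by_contra hne
    obtain ⟨r, hr, hrd⟩ := Nat.exists_prime_and_dvd hne
    haveI : Fact r.Prime := ⟨hr⟩
    have hrG : r ∣ Nat.card G := by
      rw [hcm, hmm]
      exact Dvd.dvd.mul_left (Dvd.dvd.mul_left hrd _) _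
    obtain ⟨xr, hxr⟩ := exists_prime_orderOf_dvd_card' (G := G) r hrG
    have hxr1 : xr ≠ 1 := by
      rintro rfl
      rw [orderOf_one] at hxr
      exact hr.one_lt.ne hxr
    rcases hord xr hxr1 with h | h
    · rw [hxr] at h
      apply hm
      rw [hmm, ← h]
      exact Dvd.dvd.mul_left hrd _
    · rw [hxr] at h
      exact hm' (h ▸ hrd)
  have hcard : Nat.card G = p ^ a * q ^ b := by rw [hcm, hmm, hm1, mul_one]
  have hsol : Group.IsSolvable G := Cfsg.Agent.Lib.Helper2.burnside_paqb p q a b hp hq hcard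
  have hex : ∃ n, derivedSeries G n = ⊥ := hsol.solvable
  haveI : Nontrivial G := by
    rw [← Finite.one_lt_card_iff_nontrivial]
    have := Nat.card_pos (α := G)
    omega
  have hk0 : Nat.find hex ≠ 0 := by
    intro h
    have := Nat.find_spec hex
    rw [h, derivedSeries_zero] at this
    exact top_ne_bot this
  obtain ⟨j, hj⟩ := Nat.exists_eq_succ_of_ne_zero hk0
  have hAnt : derivedSeries G j ≠ ⊥ := Nat.find_min hex (by omega)
  have hAc : ⁅derivedSeries G j, derivedSeries G j⁆ = ⊥ := by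
    have := Nat.find_spec hex
    rw [hj] at this
    exact this
  have hAcomm : ∀ a ∈ derivedSeries G j, ∀ b ∈ derivedSeries G j, a * b = b * a := by
    intro a ha b hb
    have h1 := Subgroup.commutator_eq_bot_iff_le_centralizer.1 hAc
    exact (Subgroup.mem_centralizer_iff.1 (h1 hb) a ha)
  have hAinv : ∀ σ : MulAut G, ∀ a ∈ derivedSeries G j, σ a ∈ derivedSeries G j := by
    intro σ a ha
    have h1 := map_derivedSeries_eq (f := σ.toMonoidHom) σ.surjective j
    rw [← h1]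
    exact Subgroup.mem_map_of_mem σ.toMonoidHom ha
  obtain ⟨a0, ha0⟩ := (derivedSeries G j).ne_bot_iff_exists_ne_one.1 hAnt
  have ha01 : (a0 : G) ≠ 1 := fun h => ha0 (Subtype.ext h)
  rcases hord a0 ha01 with h | h
  · obtain ⟨n, hn1, hc, hS, hAn, hAe, hprim, hfpf⟩ := fwd_aux hpq hord htp htq xq hxq
      (derivedSeries G j) hAinv hAcomm a0 a0.2 h
    refine ⟨p, q, n, ⟨hp⟩, ⟨hq⟩, hpq, hn1, hc, ?_, hprim, hfpf⟩
    intro P
    rw [hS P]
    exact ⟨hAn, ⟨⟨fun x y => Subtype.ext (hAcomm x x.2 y y.2)⟩⟩, hAe⟩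
  · obtain ⟨n, hn1, hc, hS, hAn, hAe, hprim, hfpf⟩ := fwd_aux hpq.symm
      (fun x hx => (hord x hx).symm) htq htp xp hxp
      (derivedSeries G j) hAinv hAcomm a0 a0.2 h
    refine ⟨q, p, n, ⟨hq⟩, ⟨hp⟩, hpq.symm, hn1, hc, ?_, hprim, hfpf⟩
    intro P
    rw [hS P]
    exact ⟨hAn, ⟨⟨fun x y => Subtype.ext (hAcomm x x.2 y y.2)⟩⟩, hAe⟩

/-- Let G be a finite group whose order is not a prime power. Then the automorphism group of G has exactly three orbits on G if and only if there are distinct primes p, q with #G = pⁿ·q (n ≥ 1) such that G has a normal elementary abelian Sylow p-subgroup P, p is a primitive root modulo q (the multiplicative order of p mod q is q − 1), and every element of order q of G acts on P without non-identity fixed points. -/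
theorem result {G : Type*} [Group G] [Finite G] (hnpp : ¬ IsPrimePow (Nat.card G)) (hnt : Nat.card G ≠ 1) :
    Nat.card (MulAction.orbitRel.Quotient (MulAut G) G) = 3 ↔
    ∃ (p q n : ℕ) (_ : Fact p.Prime) (_ : Fact q.Prime), p ≠ q ∧ 1 ≤ n ∧ Nat.card G = p ^ n * q ∧
      (∀ P : Sylow p G, (P : Subgroup G).Normal ∧ Cfsg.IsElementaryAbelian p (P : Subgroup G)) ∧
      orderOf (p : ZMod q) = q - 1 ∧
      ∀ x y : G, orderOf x = q → orderOf y = p → x * y * x⁻¹ ≠ y := by
  constructor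
  · exact fwd hnpp hnt
  · rintro ⟨p, q, n, hp, hq, hpq, hn, hcard, hS, hprim, hfpf⟩
    obtain ⟨P⟩ : Nonempty (Sylow p G) := inferInstance
    haveI := (hS P).1
    have hDcard : Nat.card (P : Subgroup G) = p ^ n := by
      rw [Sylow.card_eq_multiplicity, hcard, Nat.factorization_mul (pow_ne_zero _ hp.out.ne_zero)
        hq.out.ne_zero, hp.out.factorization_pow, hq.out.factorization]
      simp [hpq.symm]
    exact bwd hpq hn hcard (P : Subgroup G) hDcard
      (fun a ha b hb => congrArg Subtype.val ((hS P).2.1.is_comm.comm ⟨a, ha⟩ ⟨b, hb⟩))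
      (hS P).2.2 hprim hfpf

end Cfsg.Agent.S4081
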