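import Cfsg.Statements.S4084
import Mathlib.GroupTheory.Perm.Cycle.Type
import Mathlib.GroupTheory.Subgroup.Centralizer

set_option autoImplicit false
open Cfsg

namespace Cfsg.Agent.S4084

theorem aux {G H : Type*} [Group G] [Finite G] [Group H] [Finite H] (e : G ≃ H)
    (he : ∀ x y : G, Commute x y ↔ Commute (e x) (e y))
    {p q : ℕ} (hp : p.Prime) (hq : q.Prime) (hpq : p ≠ q) :
    (∃ g : G, orderOf g = p * q) → (∃ h : H, orderOf h = p * q) := by
  rintro ⟨g, hg⟩
  set A := Subgroup.centralizer (Subgroup.centralizer ({g} : Set G) : Set G) with hA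
  set B := Subgroup.centralizer (Subgroup.centralizer ({e g} : Set H) : Set H) with hB
  have hmemA : ∀ y : G, y ∈ A ↔ ∀ c : G, Commute c g → Commute c y := by
    intro y
    rw [hA, Subgroup.mem_centralizer_iff]
    constructor
    · intro h c hc
      apply h c
      rw [SetLike.mem_coe, Subgroup.mem_centralizer_iff]
      intro z hz
      rw [Set.mem_singleton_iff.1 hz]
      exact hc.symm
    · intro h c hc
      rw [SetLike.mem_coe, Subgroup.mem_centralizer_iff] at hc
      exact h c (hc g rfl).symm
  have hmemB : ∀ y : H, y ∈ B ↔ ∀ c : H, Commute c (e g) → Commute c y := by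
    intro y
    rw [hB, Subgroup.mem_centralizer_iff]
    constructor
    · intro h c hc
      apply h c
      rw [SetLike.mem_coe, Subgroup.mem_centralizer_iff]
      intro z hz
      rw [Set.mem_singleton_iff.1 hz]
      exact hc.symm
    · intro h c hc
      rw [SetLike.mem_coe, Subgroup.mem_centralizer_iff] at hc
      exact h c (hc (e g) rfl).symm
  have hAB : ∀ y : G, y ∈ A ↔ e y ∈ B := by
    intro y
    rw [hmemA, hmemB]
    constructor
    · intro h c hc
      obtain ⟨c, rfl⟩ := e.surjective c
      exact (he _ _).1 (h c ((he _ _).2 hc))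
    · intro h c hc
      exact (he _ _).2 (h (e c) ((he _ _).1 hc))
  have hcard : Nat.card A = Nat.card B :=
    Nat.card_congr (e.subtypeEquiv hAB)
  have hgA : g ∈ A := (hmemA g).2 fun c hc => hc
  have hdvd : p * q ∣ Nat.card B := by
    rw [← hcard, ← hg]
    have := orderOf_dvd_natCard (⟨g, hgA⟩ : A)
    rwa [Subgroup.orderOf_mk] at this
  have hcomm : ∀ a ∈ B, ∀ b ∈ B, Commute a b := by
    intro a ha b hb
    have h1 : Commute a (e g) := ((hmemB a).1 ha (e g) (Commute.refl _)).symm
    exact (hmemB b).1 hb a h1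
  haveI : Fact p.Prime := ⟨hp⟩
  haveI : Fact q.Prime := ⟨hq⟩
  obtain ⟨u, hu⟩ := exists_prime_orderOf_dvd_card' p ((Dvd.intro _ rfl).trans hdvd)
  obtain ⟨v, hv⟩ := exists_prime_orderOf_dvd_card' q ((Dvd.intro_left _ rfl).trans hdvd)
  refine ⟨(u : H) * v, ?_⟩
  have hc := hcomm u u.2 v v.2
  rw [hc.orderOf_mul_eq_mul_orderOf_of_coprime, Subgroup.orderOf_coe, Subgroup.orderOf_coe, hu, hv]
  rw [Subgroup.orderOf_coe, Subgroup.orderOf_coe, hu, hv]
  exact (Nat.coprime_primes hp hq).2 hpq

/-- Let G and H be finite groups whose commuting graphs are isomorphic: there is a bijection e : G → H with x, y commuting exactly when e(x), e(y) commute. Then G and H have the same prime graph: for distinct primes p, q, G has an element of order pq if and only if H does (and #G = #H, so the prime divisors agree). -/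
theorem result {G H : Type*} [Group G] [Finite G] [Group H] [Finite H] (e : G ≃ H)
    (he : ∀ x y : G, Commute x y ↔ Commute (e x) (e y))
    {p q : ℕ} (hp : p.Prime) (hq : q.Prime) (hpq : p ≠ q) :
    (∃ g : G, orderOf g = p * q) ↔ (∃ h : H, orderOf h = p * q) := by
  refine ⟨aux e he hp hq hpq, aux e.symm ?_ hp hq hpq⟩
  intro x y
  rw [he, e.apply_symm_apply, e.apply_symm_apply]

end Cfsg.Agent.S4084
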