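import Cfsg.Statements.S4086
-- import your own Cfsg.Agent.* helpers here

set_option autoImplicit false
open Cfsg

namespace Cfsg.Agent.S4086

/-- For a finite group G the following are equivalent: every non-identity element has prime-power order; whenever two elements generate a cyclic subgroup, one of them is a power of the other (the enhanced power graph of G coincides with its power graph). -/
theorem result {G : Type*} [Group G] [Finite G] :
    (∀ g : G, g ≠ 1 → IsPrimePow (orderOf g)) ↔
    (∀ x y : G, IsCyclic ↥(Subgroup.closure ({x, y} : Set G)) → (x ∈ Subgroup.zpowers y ∨ y ∈ Subgroup.zpowers x)) := by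
  constructor
  · intro h x y hcyc
    obtain ⟨z, hz⟩ := hcyc.exists_generator
    set w : G := (z : G) with hw
    have hmem : ∀ t ∈ Subgroup.closure ({x, y} : Set G), ∃ a : ℤ, w ^ a = t := by
      intro t ht
      obtain ⟨a, ha⟩ := Subgroup.mem_zpowers_iff.1 (hz ⟨t, ht⟩)
      refine ⟨a, ?_⟩
      have := congrArg (fun u : Subgroup.closure ({x, y} : Set G) => (u : G)) ha
      simpa using this
    obtain ⟨a, ha⟩ := hmem x (Subgroup.subset_closure (by simp))
    obtain ⟨b, hb⟩ := hmem y (Subgroup.subset_closure (by simp))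
    by_cases hw1 : w = 1
    · left
      rw [← ha, hw1, one_zpow]
      exact one_mem _
    obtain ⟨p, k, hp, hk, hpk⟩ := h w hw1
    have hp' : Nat.Prime p := hp.nat_prime
    set n := orderOf w with hn
    -- w ^ gcd(c, n) is a power of w ^ c
    have hg : ∀ c : ℤ, w ^ (Int.gcd c n) ∈ Subgroup.zpowers (w ^ c) := by
      intro c
      rw [Subgroup.mem_zpowers_iff]
      refine ⟨Int.gcdA c n, ?_⟩
      have h1 : ((Int.gcd c n : ℕ) : ℤ) = c * Int.gcdA c n + n * Int.gcdB c n := Int.gcd_eq_gcd_ab c n
      have h2 : w ^ ((n : ℤ) * Int.gcdB c n) = 1 := by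
        rw [zpow_mul, zpow_natCast, hn, pow_orderOf_eq_one, one_zpow]
      rw [← zpow_natCast w (Int.gcd c n), h1, zpow_add, h2, mul_one, zpow_mul]
    have hd : ∀ c : ℤ, ∃ m : ℕ, Int.gcd c n = p ^ m := by
      intro c
      have h1 : Int.gcd c n ∣ n := by
        have := Int.gcd_dvd_right c (n : ℤ)
        exact_mod_cast this
      have h2 : Int.gcd c n ∣ p ^ k := hpk ▸ h1
      obtain ⟨m, -, hm⟩ := (Nat.dvd_prime_pow hp').1 h2
      exact ⟨m, hm⟩
    obtain ⟨r, hr⟩ := hd a
    obtain ⟨s, hs⟩ := hd b
    have hfin : ∀ (c d : ℤ) (i j : ℕ), Int.gcd c n = p ^ i → Int.gcd d n = p ^ j → j ≤ i →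
        w ^ c ∈ Subgroup.zpowers (w ^ d) := by
      intro c d i j hi hj hji
      have h1 : ((p ^ j : ℕ) : ℤ) ∣ c := by
        have h2 : ((Int.gcd c n : ℕ) : ℤ) ∣ c := Int.gcd_dvd_left c n
        rw [hi] at h2
        exact (Int.natCast_dvd_natCast.2 (pow_dvd_pow p hji)).trans h2
      obtain ⟨q, hq⟩ := h1
      have h3 := hg d
      rw [hj] at h3
      rw [hq, zpow_mul, zpow_natCast]
      exact Subgroup.zpow_mem _ h3 q
    rcases le_total s r with hsr | hrs
    · left
      rw [← ha, ← hb]
      exact hfin a b r s hr hs hsr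
    · right
      rw [← ha, ← hb]
      exact hfin b a s r hs hr hrs
  · intro h g hg1
    by_contra hpp
    set n := orderOf g with hn
    have hn0 : n ≠ 0 := (orderOf_pos g).ne'
    have hn1 : n ≠ 1 := by
      intro h1
      exact hg1 (orderOf_eq_one_iff.1 h1)
    set p := n.minFac with hpdef
    have hp : Nat.Prime p := Nat.minFac_prime hn1
    have hpn : p ∣ n := Nat.minFac_dvd n
    set a := p ^ n.factorization p with ha
    set b := n / p ^ n.factorization p with hb
    have hab : a * b = n := Nat.ordProj_mul_ordCompl_eq_self n p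
    have hv : n.factorization p ≠ 0 := by
      have := (hp.dvd_iff_one_le_factorization hn0).1 hpn
      omega
    have ha0 : a ≠ 0 := (pow_pos hp.pos _).ne'
    have hb0 : b ≠ 0 := (Nat.ordCompl_pos p hn0).ne'
    have ha1 : a ≠ 1 := by
      intro h1
      have : 1 < a := Nat.one_lt_pow hv hp.one_lt
      omega
    have hb1 : b ≠ 1 := by
      intro h1
      apply hpp
      rw [← hab, h1, mul_one]
      exact hp.isPrimePow.pow hv
    have hcop : Nat.Coprime a b := by
      apply Nat.Coprime.pow_left
      exact Nat.coprime_ordCompl hp hn0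
    have hox : orderOf (g ^ a) = b := by
      rw [orderOf_pow_of_dvd ha0 (Dvd.intro _ hab)]
    have hoy : orderOf (g ^ b) = a := by
      rw [orderOf_pow_of_dvd hb0 (Dvd.intro_left _ hab)]
      exact Nat.div_eq_of_eq_mul_left (Nat.pos_of_ne_zero hb0) hab.symm
    have hle : Subgroup.closure ({g ^ a, g ^ b} : Set G) ≤ Subgroup.zpowers g := by
      rw [Subgroup.closure_le]
      rintro t (rfl | rfl)
      · exact Subgroup.pow_mem _ (Subgroup.mem_zpowers g) _
      · exact Subgroup.pow_mem _ (Subgroup.mem_zpowers g) _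
    have hcyc : IsCyclic ↥(Subgroup.closure ({g ^ a, g ^ b} : Set G)) :=
      isCyclic_of_injective (Subgroup.inclusion hle) (Subgroup.inclusion_injective hle)
    rcases h _ _ hcyc with h1 | h1
    · have := orderOf_dvd_of_mem_zpowers h1
      rw [hox, hoy] at this
      exact hb1 (Nat.Coprime.eq_one_of_dvd hcop.symm this)
    · have := orderOf_dvd_of_mem_zpowers h1
      rw [hox, hoy] at this
      exact ha1 (Nat.Coprime.eq_one_of_dvd hcop this)

end Cfsg.Agent.S4086
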