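import Cfsg.Statements.S4089
import Cfsg.Agent.Lib.Helper17.Core
import Cfsg.Agent.Lib.Helper4.Subnormal2
import Cfsg.Agent.Lib.Helper13.Alperin
import Cfsg.Agent.Lib.Helper1.Fitting
import Cfsg.Agent.Lib.Helper5.PCore

set_option autoImplicit false
open Cfsg

namespace Cfsg.Agent.S4089

open Cfsg.Agent.Lib.Helper17 (le_pCoreOf pCoreOf_isPGroup le_normalizer_pCoreOf
  subnormal_pgroup_le_pCore mem_pCoreOf_iff)

theorem subn_restrict {G : Type*} [Group G] {A X Y : Subgroup G} (hXY : X ≤ Y)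
    (h : (A.subgroupOf Y).IsSubnormal) : (A.subgroupOf X).IsSubnormal := by
  have h1 := h.comap (Subgroup.inclusion hXY)
  have e : (A.subgroupOf Y).comap (Subgroup.inclusion hXY) = A.subgroupOf X := by
    ext x
    simp [Subgroup.mem_subgroupOf]
  rwa [e] at h1

theorem subn_trans {G : Type*} [Group G] {A B X : Subgroup G} (hAB : A ≤ B) (hBX : B ≤ X)
    (h1 : (A.subgroupOf B).IsSubnormal) (h2 : (B.subgroupOf X).IsSubnormal) :
    (A.subgroupOf X).IsSubnormal := by
  have h3 := (h1.comap (Subgroup.subgroupOfEquivOfLe hBX).toMonoidHom).trans' h2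
  have e : ((A.subgroupOf B).comap (Subgroup.subgroupOfEquivOfLe hBX).toMonoidHom).map
      (B.subgroupOf X).subtype = A.subgroupOf X := by
    ext x
    constructor
    · rintro ⟨y, hy, rfl⟩
      exact hy
    · intro hx
      exact ⟨⟨x, hAB hx⟩, hx, rfl⟩
  rwa [e] at h3

theorem sub_of_radical {G : Type*} [Group G] [Finite G] (p : ℕ) [Fact p.Prime]
    {H R : Subgroup G} (hHR : H ≤ R) (hR : IsPGroup p R) {g : G}
    (hg : g ∈ Subgroup.normalizer (R : Set G)) :
    (H.subgroupOf (H ⊔ Subgroup.zpowers g)).IsSubnormal := by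
  have hY : R ⊔ Subgroup.zpowers g ≤ Subgroup.normalizer (R : Set G) :=
    sup_le Subgroup.le_normalizer (by rwa [Subgroup.zpowers_le])
  have h1 : (R.subgroupOf (R ⊔ Subgroup.zpowers g)).IsSubnormal :=
    ((Subgroup.normal_subgroupOf_iff_le_normalizer le_sup_left).2 hY).isSubnormal
  have h2 : (H.subgroupOf R).IsSubnormal :=
    Cfsg.Agent.Lib.Helper4.isSubnormal_of_isPGroup p hR _
  have h3 := subn_trans hHR le_sup_left h2 h1
  exact subn_restrict (sup_le_sup_right hHR _) h3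

theorem exists_radical {G : Type*} [Group G] [Finite G] (p : ℕ) [Fact p.Prime] :
    ∀ (n : ℕ) (R₀ : Subgroup G), IsPGroup p R₀ → R₀.index = n →
      ∃ R : Subgroup G, R₀ ≤ R ∧
        Subgroup.normalizer (R₀ : Set G) ≤ Subgroup.normalizer (R : Set G) ∧
        Cfsg.pCoreOf p (Subgroup.normalizer (R : Set G)) = R := by
  intro n
  induction n using Nat.strong_induction_on with
  | _ n ih =>
    intro R₀ hp hn
    have hle : R₀ ≤ Cfsg.pCoreOf p (Subgroup.normalizer (R₀ : Set G)) :=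
      le_pCoreOf Subgroup.le_normalizer le_rfl hp
    by_cases h : Cfsg.pCoreOf p (Subgroup.normalizer (R₀ : Set G)) = R₀
    · exact ⟨R₀, le_rfl, le_rfl, h⟩
    · have hlt : R₀ < Cfsg.pCoreOf p (Subgroup.normalizer (R₀ : Set G)) :=
        lt_of_le_of_ne hle (Ne.symm h)
      have hidx : (Cfsg.pCoreOf p (Subgroup.normalizer (R₀ : Set G))).index < n := by
        rw [← hn]; exact Subgroup.index_strictAnti hlt
      obtain ⟨R, h1, h2, h3⟩ := ih _ hidx _ (pCoreOf_isPGroup p _) rfl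
      exact ⟨R, hle.trans h1, (le_normalizer_pCoreOf p _).trans h2, h3⟩

theorem radical_of_sub {G : Type*} [Group G] [Finite G] (p : ℕ) [Fact p.Prime]
    {H : Subgroup G} (hH : IsPGroup p H) {g : G}
    (h : (H.subgroupOf (H ⊔ Subgroup.zpowers g)).IsSubnormal) :
    ∃ R : Subgroup G, H ≤ R ∧ Cfsg.pCoreOf p (Subgroup.normalizer (R : Set G)) = R ∧
      g ∈ Subgroup.normalizer (R : Set G) := by
  have h1 : H.subgroupOf (H ⊔ Subgroup.zpowers g) ≤ Cfsg.pCore p ↥(H ⊔ Subgroup.zpowers g) :=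
    subnormal_pgroup_le_pCore h hH.comap_subtype
  have h2 : H ≤ Cfsg.pCoreOf p (H ⊔ Subgroup.zpowers g) := by
    intro x hx
    exact ⟨⟨x, (le_sup_left : H ≤ H ⊔ Subgroup.zpowers g) hx⟩, h1 hx, rfl⟩
  obtain ⟨R, h3, h4, h5⟩ := exists_radical p _ (Cfsg.pCoreOf p (H ⊔ Subgroup.zpowers g))
    (pCoreOf_isPGroup p _) rfl
  exact ⟨R, h2.trans h3, h5, h4 (le_normalizer_pCoreOf p _
    (Subgroup.mem_sup_right (Subgroup.mem_zpowers g)))⟩

theorem sInf_le_radical {G : Type*} [Group G] [Finite G] (p : ℕ) [Fact p.Prime]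
    {H R : Subgroup G} (hHR : H ≤ R)
    (hR : Cfsg.pCoreOf p (Subgroup.normalizer (R : Set G)) = R) :
    sInf {K : Subgroup G | ∃ Q : Sylow p G, H ≤ (Q : Subgroup G) ∧ K = (Q : Subgroup G)} ≤ R := by
  obtain ⟨T, hT⟩ : ∃ T, T = sInf {K : Subgroup G | ∃ Q : Sylow p G, R ≤ (Q : Subgroup G) ∧
      K = (Q : Subgroup G)} := ⟨_, rfl⟩
  have h1 : sInf {K : Subgroup G | ∃ Q : Sylow p G, H ≤ (Q : Subgroup G) ∧
      K = (Q : Subgroup G)} ≤ T := by
    rw [hT]; apply le_sInf; rintro K ⟨Q, hQ, rfl⟩; exact sInf_le ⟨Q, hHR.trans hQ, rfl⟩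
  have hRp : IsPGroup p R := hR ▸ pCoreOf_isPGroup p _
  have hRT : R ≤ T := by rw [hT]; apply le_sInf; rintro K ⟨Q, hQ, rfl⟩; exact hQ
  have hTp : IsPGroup p T := by
    obtain ⟨Q, hQ⟩ := hRp.exists_le_sylow
    exact Q.2.to_le (by rw [hT]; exact sInf_le ⟨Q, hQ, rfl⟩)
  refine h1.trans ?_
  by_contra hcon
  have hlt : R < T := lt_of_le_of_ne hRT (fun h => hcon h.ge)
  have h2 := Cfsg.Agent.Lib.Helper13.lt_inf_normalizer hTp hlt
  obtain ⟨y, hy, hyR⟩ := SetLike.exists_of_lt h2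
  obtain ⟨hyT, hyN⟩ := Subgroup.mem_inf.1 hy
  apply hyR
  rw [← hR, mem_pCoreOf_iff hyN, Cfsg.Agent.Lib.Helper1.pCore_eq_iInf_sylow, Subgroup.mem_iInf]
  intro Q
  have hQp : IsPGroup p ((Q : Subgroup _).map (Subgroup.normalizer (R : Set G)).subtype) :=
    Q.2.map _
  obtain ⟨P, hP⟩ := hQp.exists_le_sylow
  have hRQ : R ≤ (Q : Subgroup _).map (Subgroup.normalizer (R : Set G)).subtype := by
    have hn : (R.subgroupOf (Subgroup.normalizer (R : Set G))).Normal :=
      Subgroup.normal_subgroupOf_of_le_normalizer le_rfl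
    have h3 := Cfsg.Agent.Lib.Helper5.normal_pgroup_le_sylow hn hRp.comap_subtype Q
    intro x hx
    exact ⟨⟨x, Subgroup.le_normalizer hx⟩, h3 hx, rfl⟩
  have hyP : y ∈ (P : Subgroup G) := by
    have h4 : T ≤ P := by rw [hT]; exact sInf_le ⟨P, hRQ.trans hP, rfl⟩
    exact h4 hyT
  have hPN : IsPGroup p ((P : Subgroup G).subgroupOf (Subgroup.normalizer (R : Set G))) :=
    P.2.comap_subtype
  have hQle : (Q : Subgroup _) ≤ (P : Subgroup G).subgroupOf (Subgroup.normalizer (R : Set G)) := by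
    intro x hx
    exact hP ⟨x, hx, rfl⟩
  have heq := Q.3 hPN hQle
  rw [← heq]
  exact hyP

/-- Let G be a finite group, p a prime and H a p-subgroup of G. Then the set of elements g of G such that H is subnormal in the subgroup generated by H and g is the union of the normalizers N_G(R) over the subgroups R of G containing H with R = O_p(N_G(R)); and this set does not change when H is replaced by the intersection of all Sylow p-subgroups of G containing H. -/
theorem result {G : Type*} [Group G] [Finite G] (p : ℕ) [Fact p.Prime]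
    (H : Subgroup G) (hH : IsPGroup p H) :
    {g : G | ((H).subgroupOf (H ⊔ Subgroup.zpowers g)).IsSubnormal} =
      {g : G | ∃ R : Subgroup G, H ≤ R ∧ (Cfsg.pCore p (Subgroup.normalizer (R : Set G))).map (Subgroup.normalizer (R : Set G)).subtype = R ∧ g ∈ Subgroup.normalizer (R : Set G)} ∧
    ∀ g : G, (((H).subgroupOf (H ⊔ Subgroup.zpowers g)).IsSubnormal ↔
      (((sInf {K : Subgroup G | ∃ Q : Sylow p G, H ≤ (Q : Subgroup G) ∧ K = (Q : Subgroup G)})).subgroupOf ((sInf {K : Subgroup G | ∃ Q : Sylow p G, H ≤ (Q : Subgroup G) ∧ K = (Q : Subgroup G)}) ⊔ Subgroup.zpowers g)).IsSubnormal) := by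
  constructor
  · ext g
    constructor
    · intro h
      obtain ⟨R, h1, h2, h3⟩ := radical_of_sub p hH h
      exact ⟨R, h1, h2, h3⟩
    · rintro ⟨R, h1, h2, h3⟩
      have hRp : IsPGroup p R := by
        have h4 : Cfsg.pCoreOf p (Subgroup.normalizer (R : Set G)) = R := h2
        exact h4 ▸ pCoreOf_isPGroup p _
      exact sub_of_radical p h1 hRp h3
  · intro g
    have hle : H ≤ sInf {K : Subgroup G | ∃ Q : Sylow p G, H ≤ (Q : Subgroup G) ∧
        K = (Q : Subgroup G)} := by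
      apply le_sInf; rintro K ⟨Q, hQ, rfl⟩; exact hQ
    have hp' : IsPGroup p ↥(sInf {K : Subgroup G | ∃ Q : Sylow p G, H ≤ (Q : Subgroup G) ∧
        K = (Q : Subgroup G)}) := by
      obtain ⟨Q, hQ⟩ := hH.exists_le_sylow
      exact Q.2.to_le (sInf_le ⟨Q, hQ, rfl⟩)
    constructor
    · intro h
      obtain ⟨R, h1, h2, h3⟩ := radical_of_sub p hH h
      have hRp : IsPGroup p R := h2 ▸ pCoreOf_isPGroup p _
      exact sub_of_radical p (sInf_le_radical p h1 h2) hRp h3
    · intro h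
      obtain ⟨R, h1, h2, h3⟩ := radical_of_sub p hp' h
      have hRp : IsPGroup p R := h2 ▸ pCoreOf_isPGroup p _
      exact sub_of_radical p (hle.trans h1) hRp h3

end Cfsg.Agent.S4089
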