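import Cfsg.Statements.S4092
import Mathlib
import Cfsg.Agent.Lib.Helper21.FrobCount2

set_option autoImplicit false
open Cfsg
open Cfsg.Agent.Lib.Helper21

namespace Cfsg.Agent.S4092

/-- Let G be a finite group, p a prime and P a Sylow p-subgroup of G that is not normal in G. Then G has at least p·#P elements of p-power order (the identity included). -/
theorem result {G : Type*} [Group G] [Finite G] (p : ℕ) [Fact p.Prime]
    (P : Sylow p G) (hP : ¬ (P : Subgroup G).Normal) :
    p * Nat.card (P : Subgroup G) ≤ Nat.card {g : G // ∃ k : ℕ, orderOf g = p ^ k} := by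
  have hpp : p.Prime := Fact.out
  obtain ⟨c, hc⟩ := card_sylow_dvd_card_pElts p P
  have hmod := card_pElts_modEq_one (G := G) p
  obtain ⟨a, ha⟩ := P.2.exists_card_eq
  have hPpos : 0 < Nat.card (P : Subgroup G) := Nat.card_pos
  -- more p-elements than |P|
  have hgt : Nat.card (P : Subgroup G) < Nat.card {g : G // ∃ k : ℕ, orderOf g = p ^ k} := by
    by_contra hle
    push Not at hle
    apply hP
    let ι : ↥(P : Subgroup G) → {g : G // ∃ k : ℕ, orderOf g = p ^ k} := fun x => ⟨x.1, by
      obtain ⟨k, hk⟩ := (IsPGroup.iff_orderOf.mp P.2) x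
      exact ⟨k, by rw [← hk, Subgroup.orderOf_coe]⟩⟩
    have hinj : Function.Injective ι := fun x y h =>
      Subtype.ext (show x.1 = y.1 from congrArg (fun t => t.1) h)
    have hbij := hinj.bijective_of_nat_card_le hle
    constructor
    intro x hx g
    obtain ⟨k, hk⟩ := (IsPGroup.iff_orderOf.mp P.2) ⟨x, hx⟩
    rw [Subgroup.orderOf_mk] at hk
    obtain ⟨y, hy⟩ := hbij.2 ⟨g * x * g⁻¹, k, by
      rw [← hk]
      exact (MulAut.conj g).orderOf_eq x⟩
    have : (y : G) = g * x * g⁻¹ := congrArg Subtype.val hy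
    rw [← this]
    exact y.2
  rw [hc] at hgt hmod ⊢
  have hc2 : 2 ≤ c := by
    by_contra h
    have : c ≤ 1 := by omega
    have h2 : Nat.card (P : Subgroup G) * c ≤ Nat.card (P : Subgroup G) * 1 :=
      Nat.mul_le_mul_left _ this
    omega
  have hp1 : p ≡ 1 [MOD (p - 1)] := by
    obtain ⟨r, hr⟩ : ∃ r, p = r + 1 := ⟨p - 1, by have := hpp.pos; omega⟩
    rw [hr, Nat.add_sub_cancel]
    show (r + 1) % r = 1 % r
    rw [Nat.add_mod_left]
  have hP1 : Nat.card (P : Subgroup G) ≡ 1 [MOD (p - 1)] := by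
    rw [ha]
    simpa using hp1.pow a
  have hc1 : c ≡ 1 [MOD (p - 1)] := by
    have h3 := hP1.mul_right c
    rw [one_mul] at h3
    exact h3.symm.trans hmod
  have hdvd : (p - 1) ∣ c - 1 := (Nat.modEq_iff_dvd' (by omega)).mp hc1.symm
  have hle := Nat.le_of_dvd (by omega) hdvd
  have hpc : p ≤ c := by omega
  rw [mul_comm p]
  exact Nat.mul_le_mul_left _ hpc

end Cfsg.Agent.S4092
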