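import Cfsg.Statements.S4093
import Mathlib
import Cfsg.Agent.Lib.Helper21.KPi

set_option autoImplicit false
open scoped BigOperators
open Cfsg

namespace Cfsg.Agent.S4093

/-- Let G be a finite group with a normal subgroup N complementing a Sylow p-subgroup P (a normal p-complement). Then the number of elements of G of p-power order equals the sum over x ∈ P of the index of C_N(x) in N. -/
theorem result {G : Type*} [Group G] [Finite G] (p : ℕ) [Fact p.Prime]
    (P : Sylow p G) (N : Subgroup G) [N.Normal] (hNP : N.IsComplement' (P : Subgroup G)) :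
    Nat.card {g : G // ∃ k : ℕ, orderOf g = p ^ k} =
      ∑ᶠ x : (P : Subgroup G), Nat.card N / Nat.card ↥(N ⊓ Subgroup.centralizer ({(x : G)} : Set G)) := by
  classical
  haveI := Fintype.ofFinite ↥(P : Subgroup G)
  rw [finsum_eq_sum_of_fintype]
  letI act : MulAction ↥N G :=
    MulAction.compHom G ((MulAut.conj : G →* MulAut G).comp N.subtype)
  have hsmul : ∀ (n : ↥N) (g : G), n • g = (n : G) * g * (n : G)⁻¹ := fun n g => rfl
  have hO : ∀ x : ↥(P : Subgroup G), Nat.card {g : G // ∃ n ∈ N, g = n * x * n⁻¹} =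
      Nat.card N / Nat.card ↥(N ⊓ Subgroup.centralizer ({(x : G)} : Set G)) := by
    intro x
    have h1 : {g : G | ∃ n ∈ N, g = n * x * n⁻¹} = MulAction.orbit ↥N (x : G) := by
      ext g
      constructor
      · rintro ⟨n, hn, rfl⟩
        exact ⟨⟨n, hn⟩, rfl⟩
      · rintro ⟨n, rfl⟩
        exact ⟨n, n.2, rfl⟩
    have h2 : Nat.card {g : G // ∃ n ∈ N, g = n * x * n⁻¹}
        = (MulAction.stabilizer ↥N (x : G)).index := by
      rw [MulAction.index_stabilizer, ← h1, ← Nat.card_coe_set_eq]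
      rfl
    have h3 : (N ⊓ Subgroup.centralizer ({(x : G)} : Set G)).subgroupOf N
        = MulAction.stabilizer ↥N (x : G) := by
      ext n
      rw [Subgroup.mem_subgroupOf, Subgroup.mem_inf, Subgroup.mem_centralizer_singleton_iff,
        MulAction.mem_stabilizer_iff, hsmul]
      constructor
      · rintro ⟨_, h⟩
        rw [h, mul_assoc, mul_inv_cancel, mul_one]
      · intro h
        exact ⟨n.2, mul_inv_eq_iff_eq_mul.1 h⟩
    have h4 : Nat.card ↥(N ⊓ Subgroup.centralizer ({(x : G)} : Set G))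
        = Nat.card (MulAction.stabilizer ↥N (x : G)) := by
      rw [← h3]
      exact (Nat.card_congr (Subgroup.subgroupOfEquivOfLe inf_le_left).toEquiv).symm
    have h5 := (MulAction.stabilizer ↥N (x : G)).card_mul_index
    rw [h2, h4, ← h5]
    exact (Nat.mul_div_cancel_left _ Nat.card_pos).symm
  have hT : Nat.card {g : G // ∃ k : ℕ, orderOf g = p ^ k} =
      Nat.card (Σ x : ↥(P : Subgroup G), {g : G // ∃ n ∈ N, g = n * x * n⁻¹}) := by
    symm
    have hwd : ∀ s : (Σ x : ↥(P : Subgroup G), {g : G // ∃ n ∈ N, g = n * x * n⁻¹}),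
        ∃ k : ℕ, orderOf s.2.1 = p ^ k := by
      rintro ⟨x, g, n, hn, rfl⟩
      obtain ⟨k, hk⟩ := (IsPGroup.iff_orderOf.1 P.2) x
      refine ⟨k, ?_⟩
      show orderOf (n * (x : G) * n⁻¹) = p ^ k
      rw [← hk, ← Subgroup.orderOf_coe]
      exact (MulAut.conj n).orderOf_eq (x : G)
    apply Nat.card_congr
    apply Equiv.ofBijective (fun s => (⟨s.2.1, hwd s⟩ : {g : G // ∃ k : ℕ, orderOf g = p ^ k}))
    constructor
    · rintro ⟨x, g, n, hn, hg⟩ ⟨y, g', m, hm, hg'⟩ h
      have h1 : g = g' := congrArg Subtype.val h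
      have h2 : (QuotientGroup.mk (x : G) : G ⧸ N) = QuotientGroup.mk (y : G) := by
        have e1 : (QuotientGroup.mk g : G ⧸ N) = QuotientGroup.mk (x : G) := by
          rw [hg, QuotientGroup.mk_mul, QuotientGroup.mk_mul, QuotientGroup.mk_inv,
            (QuotientGroup.eq_one_iff n).2 hn]
          simp
        have e2 : (QuotientGroup.mk g' : G ⧸ N) = QuotientGroup.mk (y : G) := by
          rw [hg', QuotientGroup.mk_mul, QuotientGroup.mk_mul, QuotientGroup.mk_inv,
            (QuotientGroup.eq_one_iff m).2 hm]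
          simp
        rw [← e1, ← e2, h1]
      have h3 : (x : G)⁻¹ * y ∈ N := QuotientGroup.eq.1 h2
      have h4 : (x : G)⁻¹ * y ∈ (P : Subgroup G) := mul_mem (inv_mem x.2) y.2
      have h5 : (x : G)⁻¹ * y ∈ N ⊓ (P : Subgroup G) := Subgroup.mem_inf.2 ⟨h3, h4⟩
      rw [hNP.disjoint.eq_bot, Subgroup.mem_bot, inv_mul_eq_one] at h5
      have h6 : x = y := Subtype.ext h5
      subst h6
      subst h1
      rfl
    · rintro ⟨g, hg⟩
      obtain ⟨c, hc⟩ := Cfsg.Agent.Lib.Helper21.exists_conj_mem_sylow (P := P) g hg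
      obtain ⟨⟨n, u⟩, hnu⟩ := hNP.2 c⁻¹
      have hnu' : (n : G) * u = c⁻¹ := hnu
      have hx : (n : G)⁻¹ * g * n ∈ (P : Subgroup G) := by
        have e : (n : G)⁻¹ * g * n = u * (c * g * c⁻¹) * (u : G)⁻¹ := by
          have hc' : c = ((n : G) * u)⁻¹ := by rw [hnu', inv_inv]
          rw [hc']; group
        rw [e]
        exact mul_mem (mul_mem u.2 hc) (inv_mem u.2)
      refine ⟨⟨⟨_, hx⟩, ⟨g, n, n.2, ?_⟩⟩, rfl⟩
      show g = n * ((n : G)⁻¹ * g * n) * (n : G)⁻¹
      group
  rw [hT, Nat.card_sigma]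
  exact Finset.sum_congr rfl (fun x _ => hO x)

end Cfsg.Agent.S4093
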