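import Cfsg.Statements.S4097
import Cfsg.Agent.Lib.Helper15.Frob3
import Cfsg.Agent.Lib.Helper9.SupNorm
import Cfsg.Agent.Lib.Helper10.Conj
import Cfsg.Agent.Lib.Helper10.Basic

set_option autoImplicit false
open Cfsg
open Cfsg.Agent.Lib.Helper10

namespace Cfsg.Agent.S4097


universe u

open scoped IsMulCommutative

theorem center_of_normal {G : Type*} [Group G] (A : Subgroup G)
    (hc : ∀ S : Subgroup G, A ≤ S → Group.IsSolvable S → ∀ a ∈ A, ∀ s ∈ S, a * s = s * a)
    (N : Subgroup G) (hN : N.Normal) (hNs : Group.IsSolvable N) (hAN : A ≤ N) :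
    A ≤ Subgroup.center G := by
  intro a ha
  rw [Subgroup.mem_center_iff]
  intro x
  have hn : Subgroup.zpowers x ≤ Subgroup.normalizer (N : Set G) := by
    rw [Subgroup.normalizer_eq_top_iff.mpr hN]; exact le_top
  have hs := Cfsg.Agent.Lib.Helper9.sup_solvable hn hNs inferInstance
  exact (hc _ (hAN.trans le_sup_left) hs a ha x
    (Subgroup.mem_sup_right (Subgroup.mem_zpowers x))).symm

theorem main : ∀ (n : ℕ) (G : Type u) [Group G] [Finite G], Nat.card G = n →
    ∀ (A : Subgroup G), Group.IsSolvable A →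
    (∀ S : Subgroup G, A ≤ S → Group.IsSolvable S → ∀ a ∈ A, ∀ s ∈ S, a * s = s * a) →
    A ≤ Subgroup.center G := by
  intro n
  induction n using Nat.strong_induction_on with
  | _ n ih =>
  intro G _ _ hn A hA hc
  have ih' : ∀ L : Subgroup G, L ≠ ⊤ → A ≤ L → L ≤ Subgroup.centralizer (A : Set G) := by
    intro L hL hAL
    have h1 := ih (Nat.card L) (hn ▸ card_lt_card_of_ne_top hL) L rfl (A.subgroupOf L)
      (Group.isSolvable_of_surjective (f := (Subgroup.subgroupOfEquivOfLe hAL).symm.toMonoidHom)
        (Subgroup.subgroupOfEquivOfLe hAL).symm.surjective)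
      (by
        intro S' hAS' hS' a' ha' s' hs'
        have h2 := hc (S'.map L.subtype)
          (by
            intro a ha
            exact ⟨⟨a, hAL ha⟩, hAS' (Subgroup.mem_subgroupOf.mpr ha), rfl⟩)
          (Group.isSolvable_of_surjective
            (f := (S'.equivMapOfInjective L.subtype L.subtype_injective).toMonoidHom)
            (S'.equivMapOfInjective L.subtype L.subtype_injective).surjective)
          (a' : G) (Subgroup.mem_subgroupOf.mp ha') (s' : G) ⟨s', hs', rfl⟩
        exact Subtype.ext h2)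
    intro l hl
    rw [Subgroup.mem_centralizer_iff]
    intro a ha
    have h3 := (Subgroup.mem_center_iff.mp
      (h1 (show (⟨a, hAL ha⟩ : L) ∈ A.subgroupOf L from Subgroup.mem_subgroupOf.mpr ha))) ⟨l, hl⟩
    exact (congrArg Subtype.val h3).symm
  by_contra hcon
  obtain ⟨M, hMdef⟩ : ∃ M : Subgroup G, M = Subgroup.centralizer (A : Set G) := ⟨_, rfl⟩
  rw [← hMdef] at ih'
  have hmemM : ∀ m : G, m ∈ M ↔ ∀ a ∈ A, a * m = m * a := by
    intro m
    rw [hMdef, Subgroup.mem_centralizer_iff]
    rfl
  have hAM : A ≤ M := by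
    intro b hb
    rw [hmemM]
    intro a ha
    exact hc A le_rfl hA a ha b hb
  have hZM : Subgroup.center G ≤ M := by
    intro z hz
    rw [hmemM]
    intro a _
    exact (Subgroup.mem_center_iff.mp hz a)
  have hMtop : M ≠ ⊤ := by
    intro h
    apply hcon
    intro a ha
    rw [Subgroup.mem_center_iff]
    intro g
    exact ((hmemM g).mp (h ▸ Subgroup.mem_top g) a ha).symm
  -- Step 1
  have step1 : ∀ h : G, h ∉ M → A ⊔ A.map (MulAut.conj h).toMonoidHom = ⊤ := by
    intro h hh
    by_contra hL0
    have h1 : A.map (MulAut.conj h).toMonoidHom ≤ M := le_sup_right.trans (ih' _ hL0 le_sup_left)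
    have h2 : A ≤ M.map (MulAut.conj h⁻¹).toMonoidHom := by
      intro a ha
      rw [mem_map_conj_iff]
      have := h1 (conj_mem_map_conj h ha)
      simpa using this
    have hcard : Nat.card (M.map (MulAut.conj h⁻¹).toMonoidHom) = Nat.card M :=
      Nat.card_congr (M.equivMapOfInjective _ (MulAut.conj h⁻¹).injective).symm.toEquiv
    have h3 : M.map (MulAut.conj h⁻¹).toMonoidHom ≠ ⊤ := by
      intro e
      have h4 : Nat.card M = Nat.card G := by rw [← hcard, e, Subgroup.card_top]
      exact hMtop (Subgroup.eq_top_of_card_eq M h4)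
    have h4 : M.map (MulAut.conj h⁻¹).toMonoidHom ≤ M := ih' _ h3 h2
    have h5 : M.map (MulAut.conj h⁻¹).toMonoidHom = M :=
      Subgroup.eq_of_le_of_card_ge h4 hcard.ge
    have h6 : h⁻¹ ∈ Subgroup.normalizer (M : Set G) := (map_conj_eq_self_iff M h⁻¹).mp h5
    by_cases hN : Subgroup.normalizer (M : Set G) = ⊤
    · have hMn : M.Normal := Subgroup.normalizer_eq_top_iff.mp hN
      apply hcon
      have hCn : (Subgroup.centralizer (M : Set G)).Normal := inferInstance
      apply center_of_normal A hc (M ⊓ Subgroup.centralizer (M : Set G)) inferInstance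
      · have : IsMulCommutative ↥(M ⊓ Subgroup.centralizer (M : Set G)) := by
          refine ⟨⟨fun x y => Subtype.ext ?_⟩⟩
          exact ((Subgroup.mem_centralizer_iff.mp y.2.2) x x.2.1)
        infer_instance
      · refine le_inf hAM ?_
        rw [Subgroup.le_centralizer_iff, ← hMdef]
    · have h7 := ih' _ hN (hAM.trans Subgroup.le_normalizer) h6
      exact hh (by simpa using M.inv_mem h7)
  -- Step 2: Frobenius complement in the central quotient
  have hπ : Function.Surjective (QuotientGroup.mk' (Subgroup.center G)) :=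
    QuotientGroup.mk'_surjective _
  have hmemMb : ∀ g : G, QuotientGroup.mk' (Subgroup.center G) g ∈
      M.map (QuotientGroup.mk' (Subgroup.center G)) ↔ g ∈ M := by
    intro g
    constructor
    · rintro ⟨m, hm, hmg⟩
      have h1 : m⁻¹ * g ∈ Subgroup.center G := QuotientGroup.eq.mp hmg
      have h2 := M.mul_mem hm (hZM h1)
      simpa using h2
    · intro hg
      exact Subgroup.mem_map_of_mem _ hg
  have hone : ∀ g : G, QuotientGroup.mk' (Subgroup.center G) g = 1 ↔ g ∈ Subgroup.center G := by
    intro g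
    rw [QuotientGroup.mk'_apply, QuotientGroup.eq_one_iff]
  obtain ⟨a₀, ha₀, ha₀Z⟩ : ∃ a ∈ A, a ∉ Subgroup.center G := by
    by_contra h
    push Not at h
    exact hcon h
  have hfrob : Cfsg.IsFrobeniusComplement (M.map (QuotientGroup.mk' (Subgroup.center G))) := by
    rw [Cfsg.Agent.Lib.Helper15.isFrobeniusComplement_iff]
    refine ⟨?_, ?_, ?_⟩
    · intro e
      apply ha₀Z
      rw [← hone]
      have h1 : QuotientGroup.mk' (Subgroup.center G) a₀ ∈
          M.map (QuotientGroup.mk' (Subgroup.center G)) := (hmemMb a₀).mpr (hAM ha₀)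
      rw [e, Subgroup.mem_bot] at h1
      exact h1
    · intro e
      apply hMtop
      rw [eq_top_iff]
      intro g _
      rw [← hmemMb, e]
      trivial
    · intro hb hhb hb1 gb hgb
      obtain ⟨m, rfl⟩ := hπ hb
      obtain ⟨g, rfl⟩ := hπ gb
      rw [hmemMb] at hhb ⊢
      rw [← map_inv, ← map_mul, ← map_mul, hmemMb] at hgb
      by_contra hg
      apply hb1
      rw [hone]
      have h1 := step1 g hg
      have h2 : A ⊔ A.map (MulAut.conj g).toMonoidHom ≤ Subgroup.centralizer ({m} : Set G) := by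
        apply sup_le
        · intro a ha
          rw [Subgroup.mem_centralizer_singleton_iff]
          exact (hmemM m).mp hhb a ha
        · rintro _ ⟨a, ha, rfl⟩
          rw [Subgroup.mem_centralizer_singleton_iff]
          have h3 := (hmemM _).mp hgb a ha
          show g * a * g⁻¹ * m = m * (g * a * g⁻¹)
          calc g * a * g⁻¹ * m = g * (a * (g⁻¹ * m * g)) * g⁻¹ := by group
            _ = g * ((g⁻¹ * m * g) * a) * g⁻¹ := by rw [h3]
            _ = m * (g * a * g⁻¹) := by group
      rw [h1] at h2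
      rw [Subgroup.mem_center_iff]
      intro x
      exact Subgroup.mem_centralizer_singleton_iff.mp (h2 (Subgroup.mem_top x))
  obtain ⟨K, -, hKn, -, hK, hKf⟩ := Cfsg.Agent.Lib.Helper15.frob_exists_kernel hfrob
  have hAb : A.map (QuotientGroup.mk' (Subgroup.center G)) ≤
      M.map (QuotientGroup.mk' (Subgroup.center G)) := Subgroup.map_mono hAM
  have hAK : A.map (QuotientGroup.mk' (Subgroup.center G)) ≤ Subgroup.normalizer (K : Set _) := by
    rw [Subgroup.normalizer_eq_top_iff.mpr hKn]; exact le_top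
  have hfpf : ∀ a ∈ A.map (QuotientGroup.mk' (Subgroup.center G)), a ≠ 1 →
      K ⊓ Subgroup.centralizer {a} = ⊥ := fun a ha => hKf a (hAb ha)
  have hcop := Cfsg.Agent.Lib.Helper15.coprime_of_fpf _ K hAK hfpf
  have hAbs : Group.IsSolvable ↥(A.map (QuotientGroup.mk' (Subgroup.center G))) :=
    Group.isSolvable_of_surjective (f := (QuotientGroup.mk' (Subgroup.center G)).subgroupMap A)
      ((QuotientGroup.mk' (Subgroup.center G)).subgroupMap_surjective A)
  obtain ⟨V, hVK, hV, hVc, hAV⟩ :=
    Cfsg.Agent.Lib.Helper15.exists_invariant_abelian _ K hAK hK hcop hAbs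
  have hSb := Cfsg.Agent.Lib.Helper9.sup_solvable hAV inferInstance hAbs
  have hSs : Group.IsSolvable ↥((V ⊔ A.map (QuotientGroup.mk' (Subgroup.center G))).comap
      (QuotientGroup.mk' (Subgroup.center G))) := by
    have hle : Subgroup.center G ≤ (V ⊔ A.map (QuotientGroup.mk' (Subgroup.center G))).comap
        (QuotientGroup.mk' (Subgroup.center G)) := by
      intro z hz
      rw [Subgroup.mem_comap, (hone z).mpr hz]
      exact one_mem _
    refine Group.isSolvable_of_ker_le_range (Subgroup.inclusion hle)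
      ((QuotientGroup.mk' (Subgroup.center G)).subgroupComap
        (V ⊔ A.map (QuotientGroup.mk' (Subgroup.center G)))) ?_
    intro x hx
    rw [MonoidHom.mem_ker] at hx
    have h1 : QuotientGroup.mk' (Subgroup.center G) (x : G) = 1 := congrArg Subtype.val hx
    exact ⟨⟨x.1, (hone _).mp h1⟩, rfl⟩
  obtain ⟨vb, hvb, hvb1⟩ : ∃ v ∈ V, v ≠ 1 := by
    obtain ⟨b, hb⟩ := Subgroup.ne_bot_iff_exists_ne_one.mp hV
    exact ⟨b.1, b.2, fun e => hb (Subtype.ext e)⟩
  obtain ⟨v, rfl⟩ := hπ vb
  have h1 := hc _ (by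
      intro a ha
      exact Subgroup.mem_sup_right (Subgroup.mem_map_of_mem _ ha)) hSs a₀ ha₀ v
      (show QuotientGroup.mk' (Subgroup.center G) v ∈ _ from Subgroup.mem_sup_left hvb)
  have h2 : QuotientGroup.mk' (Subgroup.center G) v ∈
      K ⊓ Subgroup.centralizer {QuotientGroup.mk' (Subgroup.center G) a₀} := by
    refine Subgroup.mem_inf.mpr ⟨hVK hvb, ?_⟩
    rw [Subgroup.mem_centralizer_singleton_iff, ← map_mul, ← map_mul, h1]
  rw [hfpf _ (Subgroup.mem_map_of_mem _ ha₀) (fun e => ha₀Z ((hone _).mp e)), Subgroup.mem_bot] at h2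
  exact hvb1 h2

/-- Let A be a solvable subgroup of a finite group G such that A lies in the centre of every solvable subgroup of G containing A. Then A lies in the centre of G. -/
theorem result {G : Type*} [Group G] [Finite G]
    (A : Subgroup G) (hA : Group.IsSolvable A)
    (hc : ∀ S : Subgroup G, A ≤ S → Group.IsSolvable S → ∀ a ∈ A, ∀ s ∈ S, a * s = s * a) : A ≤ Subgroup.center G := by
  exact main _ G rfl A hA hc

end Cfsg.Agent.S4097
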