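import Cfsg.Statements.S4106
import Cfsg.Agent.Lib.Helper21.KPi2

set_option autoImplicit false
open Cfsg

namespace Cfsg.Agent.S4106

/-- Let G be a finite group, π a set of primes and m the π-part of the order of G. Then the number of conjugacy classes of G consisting of π-elements (elements whose order is divisible only by primes in π) is at most m. -/
theorem result {G : Type*} [Group G] [Finite G]
    (π : Set ℕ) (hπ : ∀ q ∈ π, q.Prime)
    (m : ℕ) (hm : m ∣ Nat.card G) (hmπ : ∀ q : ℕ, q.Prime → q ∣ m → q ∈ π)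
    (hm' : ∀ q ∈ π, ¬ q ∣ Nat.card G / m) :
    Nat.card {C : ConjClasses G // ∀ q : ℕ, q.Prime → (∃ g : G, ConjClasses.mk g = C ∧ q ∣ orderOf g) → q ∈ π} ≤ m := by
  classical
  set n := Nat.card G with hn
  have hn0 : n ≠ 0 := Nat.card_pos.ne'
  have hm0 : m ≠ 0 := by
    rintro rfl
    exact hn0 (Nat.eq_zero_of_zero_dvd hm)
  let σ : Finset ℕ := n.primeFactors.filter (· ∈ π)
  have hσ : ∀ r ∈ σ, r.Prime := fun r hr => hπ r (Finset.mem_filter.1 hr).2
  have h1 := Lib.Helper21.kOf_le_piPart σ hσ G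
  have h2 : Lib.Helper21.piPart σ n = m := by
    obtain ⟨k, hk⟩ := hm
    have hk0 : k ≠ 0 := by
      rintro rfl
      rw [mul_zero] at hk
      exact hn0 hk
    have hdiv : n / m = k := by
      rw [hk]; exact Nat.mul_div_cancel_left _ (Nat.pos_of_ne_zero hm0)
    have e1 : Lib.Helper21.piPart σ n = ∏ r ∈ σ, r ^ m.factorization r := by
      unfold Lib.Helper21.piPart
      apply Finset.prod_congr rfl
      intro r hr
      have hrπ := (Finset.mem_filter.1 hr).2
      have hrk : ¬ r ∣ k := hdiv ▸ hm' r hrπ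
      rw [hk, Nat.factorization_mul hm0 hk0, Finsupp.add_apply,
        Nat.factorization_eq_zero_of_not_dvd hrk, add_zero]
    have e2 : ∏ r ∈ m.primeFactors, r ^ m.factorization r = m :=
      Nat.factorization_prod_pow_eq_self hm0
    rw [e1, ← e2]
    symm
    conv_rhs => rw [e2]
    apply Finset.prod_subset
    · intro r hr
      rw [Nat.mem_primeFactors] at hr
      refine Finset.mem_filter.2 ⟨Nat.mem_primeFactors.2 ⟨hr.1, ?_, hn0⟩, hmπ r hr.1 hr.2.1⟩
      rw [hk]; exact Dvd.dvd.mul_right hr.2.1 _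
    · intro r _ hr
      have : m.factorization r = 0 := by
        rw [← Finsupp.notMem_support_iff, Nat.support_factorization]; exact hr
      rw [this, pow_zero]
  rw [h2] at h1
  refine le_trans ?_ h1
  unfold Lib.Helper21.kOf
  apply Nat.card_le_card_of_injective
    (fun C : {C : ConjClasses G // ∀ q : ℕ, q.Prime →
        (∃ g : G, ConjClasses.mk g = C ∧ q ∣ orderOf g) → q ∈ π} =>
      (⟨C.1, fun x hx r hr hrx => Finset.mem_filter.2
        ⟨Nat.mem_primeFactors.2 ⟨hr, hrx.trans (orderOf_dvd_natCard x), hn0⟩,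
          C.2 r hr ⟨x, ConjClasses.mem_carrier_iff_mk_eq.1 hx, hrx⟩⟩⟩ :
        {c : ConjClasses G // ∀ x ∈ c.carrier, Lib.Helper21.piElt σ x}))
  intro C D hCD
  apply Subtype.ext
  exact congrArg (fun z : {c : ConjClasses G // ∀ x ∈ c.carrier, Lib.Helper21.piElt σ x} => z.1) hCD

end Cfsg.Agent.S4106
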