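import Cfsg.Statements.S4107
-- import your own Cfsg.Agent.* helpers here

set_option autoImplicit false
open Cfsg

namespace Cfsg.Agent.S4107

/-- An element outside a normal subgroup has a power of prime power order outside it. -/
theorem exists_primePow_notMem {G : Type*} [Group G] [Finite G] (N : Subgroup G) [N.Normal]
    (y : G) (hy : y ∉ N) :
    ∃ (q : ℕ) (b k : ℕ), q.Prime ∧ y ^ b ∉ N ∧ orderOf (y ^ b) = q ^ k := by
  set n := orderOf y with hn
  have hn0 : n ≠ 0 := (orderOf_pos y).ne'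
  set m := orderOf (QuotientGroup.mk y : G ⧸ N) with hm
  have hm1 : m ≠ 1 := by
    intro h
    rw [hm, orderOf_eq_one_iff, QuotientGroup.eq_one_iff] at h
    exact hy h
  have hmn : m ∣ n := by
    rw [hm, hn]
    exact orderOf_map_dvd (QuotientGroup.mk' N) y
  set q := m.minFac with hq
  have hqp : q.Prime := Nat.minFac_prime hm1
  have hqm : q ∣ m := Nat.minFac_dvd m
  refine ⟨q, n / q ^ n.factorization q, n.factorization q, hqp, ?_, ?_⟩
  · intro hmem
    have h1 : (QuotientGroup.mk y : G ⧸ N) ^ (n / q ^ n.factorization q) = 1 := by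
      rw [← QuotientGroup.mk_pow, QuotientGroup.eq_one_iff]
      exact hmem
    have h2 : m ∣ n / q ^ n.factorization q := orderOf_dvd_of_pow_eq_one h1
    exact Nat.not_dvd_ordCompl hqp hn0 (hqm.trans h2)
  · have hdvd : n / q ^ n.factorization q ∣ n := Nat.ordCompl_dvd n q
    have hne : n / q ^ n.factorization q ≠ 0 := (Nat.ordCompl_pos q hn0).ne'
    rw [orderOf_pow_of_dvd hne hdvd]
    have := Nat.ordProj_mul_ordCompl_eq_self n q
    exact Nat.div_eq_of_eq_mul_left (Nat.pos_of_ne_zero hne) this.symm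

theorem isPGroup_of_notMem {G : Type*} [Group G] [Finite G] (N : Subgroup G) [N.Normal]
    (heq : ∀ x : G, x ∉ N → ∀ n ∈ N, orderOf (x * n) = orderOf x)
    (K : Subgroup G) (hKn : K.Normal) (hK : Group.IsNilpotent K) (q k : ℕ) (hq : q.Prime)
    (y : G) (hyK : y ∈ K) (hyN : y ∉ N) (hy : orderOf y = q ^ k) : IsPGroup q N := by
  haveI : Fact q.Prime := ⟨hq⟩
  let S : Sylow q K := default
  haveI hSn : (S : Subgroup K).Normal := inferInstance
  haveI hSc : (S : Subgroup K).Characteristic := Sylow.characteristic_of_normal S hSn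
  set T : Subgroup G := (S : Subgroup K).map K.subtype with hT
  haveI hTn : T.Normal := ConjAct.normal_of_characteristic_of_normal
  have hTp : IsPGroup q T := S.2.map _
  have hyT : y ∈ T := by
    have hz : IsPGroup q (Subgroup.zpowers (⟨y, hyK⟩ : K)) := by
      rw [IsPGroup.iff_card]
      exact ⟨k, by rw [Nat.card_zpowers, Subgroup.orderOf_mk, hy]⟩
    obtain ⟨Q, hQ⟩ := hz.exists_le_sylow
    haveI := Sylow.unique_of_normal S hSn
    have hQS : Q = S := Subsingleton.elim _ _
    rw [hQS] at hQ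
    exact Subgroup.mem_map.2 ⟨⟨y, hyK⟩, hQ (Subgroup.mem_zpowers _), rfl⟩
  intro n
  have h1 : orderOf (y * n) = q ^ k := by rw [heq y hyN n n.2, hy]
  have h2 : (y * (n : G)) ^ q ^ k = 1 := by rw [← h1]; exact pow_orderOf_eq_one _
  have h3 : ((n : G)) ^ q ^ k ∈ T := by
    rw [← QuotientGroup.eq_one_iff, QuotientGroup.mk_pow]
    have h4 : (QuotientGroup.mk (y * (n : G)) : G ⧸ T) = QuotientGroup.mk (n : G) := by
      rw [QuotientGroup.mk_mul, (QuotientGroup.eq_one_iff y).2 hyT, one_mul]
    rw [← h4, ← QuotientGroup.mk_pow, h2]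
    rfl
  obtain ⟨j, hj⟩ := hTp ⟨_, h3⟩
  have hj' : ((n : G) ^ q ^ k) ^ q ^ j = 1 := by simpa using congrArg Subtype.val hj
  refine ⟨k + j, Subtype.ext ?_⟩
  rw [pow_add, pow_mul]
  simpa using hj'

/-- Let G be a finite group and N a proper non-trivial normal subgroup such that for every x outside N all elements of the coset xN have the same order as x. Then N ≤ F(G) or F(G) ≤ N, where F(G) is the Fitting subgroup; and if N is properly contained in F(G) then F(G) has prime-power order. -/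
theorem result {G : Type*} [Group G] [Finite G] (N : Subgroup G) [N.Normal] (hN1 : N ≠ ⊥) (hN2 : N ≠ ⊤)
    (heq : ∀ x : G, x ∉ N → ∀ n ∈ N, orderOf (x * n) = orderOf x) :
    (N ≤ Cfsg.fittingSubgroup G ∨ Cfsg.fittingSubgroup G ≤ N) ∧
    (N < Cfsg.fittingSubgroup G → IsPrimePow (Nat.card (Cfsg.fittingSubgroup G))) := by
  have hstep : ¬ Cfsg.fittingSubgroup G ≤ N → ∃ q : ℕ, q.Prime ∧ IsPGroup q N := by
    intro h
    have : ∃ K : Subgroup G, (K.Normal ∧ Group.IsNilpotent K) ∧ ¬ K ≤ N := by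
      by_contra hcon
      push Not at hcon
      exact h (sSup_le fun K hK => hcon K hK)
    obtain ⟨K, ⟨hKn, hK⟩, hKN⟩ := this
    obtain ⟨y, hyK, hyN⟩ := SetLike.not_le_iff_exists.1 hKN
    obtain ⟨q, b, k, hq, hb, hk⟩ := exists_primePow_notMem N y hyN
    exact ⟨q, hq, isPGroup_of_notMem N heq K hKn hK q k hq _ (K.pow_mem hyK b) hb hk⟩
  constructor
  · by_cases h : Cfsg.fittingSubgroup G ≤ N
    · exact Or.inr h
    · left
      obtain ⟨q, hq, hqN⟩ := hstep h
      haveI : Fact q.Prime := ⟨hq⟩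
      exact le_sSup ⟨inferInstance, hqN.isNilpotent⟩
  · intro hlt
    obtain ⟨p, hp, hpN⟩ := hstep (not_le_of_gt hlt)
    haveI : Fact p.Prime := ⟨hp⟩
    have hall : ∀ K : Subgroup G, K.Normal ∧ Group.IsNilpotent K → IsPGroup p K := by
      rintro K ⟨hKn, hK⟩
      by_contra hnp
      have : ∃ q : ℕ, q.Prime ∧ q ∣ Nat.card K ∧ q ≠ p := by
        by_contra hcon
        push Not at hcon
        apply hnp
        rw [IsPGroup.iff_card]
        exact ⟨_, Nat.eq_prime_pow_of_unique_prime_dvd Nat.card_pos.ne' (fun {d} hd hd' => hcon d hd hd')⟩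
      obtain ⟨q, hq, hqK, hqp⟩ := this
      haveI : Fact q.Prime := ⟨hq⟩
      obtain ⟨y, hy⟩ := exists_prime_orderOf_dvd_card' q hqK
      have hy' : orderOf (y : G) = q ^ 1 := by rw [Subgroup.orderOf_coe, hy, pow_one]
      have hyN : (y : G) ∉ N := by
        intro hmem
        obtain ⟨j, hj⟩ := (IsPGroup.iff_orderOf.1 hpN) ⟨y, hmem⟩
        rw [Subgroup.orderOf_mk, hy', pow_one] at hj
        have h1 : p ∣ q := by
          rcases Nat.eq_zero_or_pos j with rfl | hjpos
          · rw [pow_zero] at hj; exact absurd hj hq.one_lt.ne'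
          · rw [hj]; exact dvd_pow_self p hjpos.ne'
        exact hqp ((Nat.prime_dvd_prime_iff_eq hp hq).1 h1).symm
      have hqN := isPGroup_of_notMem N heq K hKn hK q 1 hq y y.2 hyN hy'
      -- N is both a p-group and a q-group, hence trivial
      obtain ⟨a, ha⟩ := IsPGroup.iff_card.1 hpN
      obtain ⟨b, hb⟩ := IsPGroup.iff_card.1 hqN
      have hcop : Nat.Coprime (p ^ a) (q ^ b) :=
        Nat.Coprime.pow _ _ ((Nat.coprime_primes hp hq).2 (Ne.symm hqp))
      rw [← ha, ← hb, Nat.coprime_self] at hcop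
      exact hN1 ((Subgroup.card_eq_one).1 hcop)
    let P : Sylow p G := default
    have hFP : Cfsg.fittingSubgroup G ≤ P := by
      apply sSup_le
      rintro K hK
      haveI := hK.1
      exact (hall K hK).le_sylow_of_normal P
    have hFp : IsPGroup p (Cfsg.fittingSubgroup G) := P.2.to_le hFP
    obtain ⟨a, ha⟩ := IsPGroup.iff_card.1 hFp
    rw [ha]
    have ha0 : a ≠ 0 := by
      rintro rfl
      rw [pow_zero] at ha
      have hbot : Cfsg.fittingSubgroup G = ⊥ := (Subgroup.card_eq_one).1 ha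
      rw [hbot] at hlt
      exact not_lt_bot hlt
    exact hp.isPrimePow.pow ha0

end Cfsg.Agent.S4107
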