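import Cfsg.Statements.S4108
import Mathlib
import Cfsg.Agent.Lib.Helper15.Frob4

set_option autoImplicit false
open Cfsg

namespace Cfsg.Agent.S4108

open Cfsg.Agent.Lib.Helper15

/-- Let G be a finite group, p a prime and N a proper non-trivial normal p-subgroup such that for every x outside N all elements of the coset xN have the same order as x. Then every non-trivial subgroup H of G of order prime to p acts fixed-point-freely on N: NH is a Frobenius group with complement H and kernel N. -/
theorem result {G : Type*} [Group G] [Finite G] (N : Subgroup G) [N.Normal] (hN1 : N ≠ ⊥) (hN2 : N ≠ ⊤)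
    (heq : ∀ x : G, x ∉ N → ∀ n ∈ N, orderOf (x * n) = orderOf x)
    (p : ℕ) [Fact p.Prime] (hNp : IsPGroup p N) :
    ∀ H : Subgroup G, H ≠ ⊥ → (Nat.card H).Coprime p →
      Cfsg.IsFrobeniusComplement (H.subgroupOf (N ⊔ H)) ∧ Cfsg.frobeniusKernel (H.subgroupOf (N ⊔ H)) = (N.subgroupOf (N ⊔ H) : Set ↥(N ⊔ H)) := by
  intro H hH1 hHp
  have hNL : N ≤ N ⊔ H := le_sup_left
  have hHL : H ≤ N ⊔ H := le_sup_right
  have hdisj : Disjoint N H := by
    rw [Subgroup.disjoint_def]
    intro x hxN hxH
    obtain ⟨k, hk⟩ := (IsPGroup.iff_orderOf.mp hNp) ⟨x, hxN⟩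
    rw [Subgroup.orderOf_mk] at hk
    have h1 : orderOf x ∣ Nat.card H := by
      have := orderOf_dvd_natCard (⟨x, hxH⟩ : H)
      rwa [Subgroup.orderOf_mk] at this
    have h2 : (orderOf x).Coprime (orderOf x) := by
      apply Nat.Coprime.coprime_dvd_left h1
      rw [hk]
      exact Nat.Coprime.pow_right _ hHp
    rw [Nat.coprime_self] at h2
    exact orderOf_eq_one_iff.mp h2
  apply frob_of_fpf
  · apply Subgroup.isComplement'_of_disjoint_and_mul_eq_univ
    · rw [Subgroup.disjoint_def]
      intro x hxN hxH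
      apply Subtype.ext
      exact Subgroup.disjoint_def.mp hdisj (Subgroup.mem_subgroupOf.mp hxN) (Subgroup.mem_subgroupOf.mp hxH)
    · rw [← Subgroup.normal_mul, ← Subgroup.subgroupOf_sup hNL hHL, Subgroup.subgroupOf_self]
      rfl
  · rw [Ne, Subgroup.subgroupOf_eq_bot, disjoint_iff, inf_eq_left.mpr hNL]
    exact hN1
  · rw [Ne, Subgroup.subgroupOf_eq_bot, disjoint_iff, inf_eq_left.mpr hHL]
    exact hH1
  · intro h hh hh1
    rw [eq_bot_iff]
    intro n hn
    obtain ⟨hnN, hnC⟩ := Subgroup.mem_inf.mp hn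
    rw [Subgroup.mem_centralizer_singleton_iff] at hnC
    rw [Subgroup.mem_subgroupOf] at hnN hh
    have hcomm : Commute (h : G) (n : G) := by
      have := congrArg Subtype.val hnC
      simp only [Subgroup.coe_mul] at this
      exact this.symm
    have hhN : (h : G) ∉ N := by
      intro hhN
      exact hh1 (Subtype.ext (Subgroup.disjoint_def.mp hdisj hhN hh))
    have h1 := heq h hhN n hnN
    obtain ⟨k, hk⟩ := (IsPGroup.iff_orderOf.mp hNp) ⟨n, hnN⟩
    rw [Subgroup.orderOf_mk] at hk
    have h2 : orderOf (h : G) ∣ Nat.card H := by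
      have := orderOf_dvd_natCard (⟨h, hh⟩ : H)
      rwa [Subgroup.orderOf_mk] at this
    have h3 : (orderOf (h : G)).Coprime (orderOf (n : G)) := by
      apply Nat.Coprime.coprime_dvd_left h2
      rw [hk]
      exact Nat.Coprime.pow_right _ hHp
    rw [hcomm.orderOf_mul_eq_mul_orderOf_of_coprime h3] at h1
    have h4 : 0 < orderOf (h : G) := orderOf_pos _
    have h5 : orderOf (n : G) = 1 := by
      have : orderOf (h : G) * orderOf (n : G) = orderOf (h : G) * 1 := by rw [h1, mul_one]
      exact Nat.eq_of_mul_eq_mul_left h4 this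
    rw [Subgroup.mem_bot]
    exact Subtype.ext (orderOf_eq_one_iff.mp h5)

end Cfsg.Agent.S4108
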