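import Cfsg.Statements.S4112
import Mathlib
import Cfsg.Agent.Lib.Helper10.Fitting

set_option autoImplicit false
open Cfsg

namespace Cfsg.Agent.S4112

lemma prime_dvd_index {X : Type*} [Group X] [Finite X] (D : Subgroup X) [D.Normal]
    (hmin : ∀ K : Subgroup X, K ⊔ D = ⊤ → K = ⊤) (p : ℕ) (hp : p.Prime) (hpD : p ∣ Nat.card D) :
    p ∣ D.index := by
  classical
  haveI : Fact p.Prime := ⟨hp⟩
  by_contra hpi
  obtain ⟨P⟩ : Nonempty (Sylow p D) := inferInstance
  have h1 := Sylow.normalizer_sup_eq_top P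
  have h2 := hmin _ h1
  haveI hPn : ((P : Subgroup D).map D.subtype).Normal := Subgroup.normalizer_eq_top_iff.1 h2
  have hcard : Nat.card ↥((P : Subgroup D).map D.subtype) = Nat.card (P : Subgroup D) :=
    Subgroup.card_map_of_injective D.subtype_injective
  obtain ⟨k, hk⟩ := IsPGroup.iff_card.1 P.2
  have hcop : (Nat.card ↥((P : Subgroup D).map D.subtype)).Coprime
      ((P : Subgroup D).map D.subtype).index := by
    rw [hcard, Subgroup.index_map_subtype]
    refine Nat.Coprime.mul_right P.card_coprime_index ?_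
    rw [hk]
    exact Nat.Coprime.pow_left k ((Nat.Prime.coprime_iff_not_dvd hp).2 hpi)
  obtain ⟨K, hK⟩ := Subgroup.exists_right_complement'_of_coprime hcop
  have h3 : K ⊔ D = ⊤ := by
    rw [eq_top_iff, ← hK.sup_eq_top]
    exact sup_le ((Subgroup.map_subtype_le _).trans le_sup_right) le_sup_left
  have h4 := hmin K h3
  have h5 := hK.disjoint.eq_bot
  rw [h4, inf_top_eq] at h5
  have h6 : Nat.card (P : Subgroup D) = 1 := by rw [← hcard, h5, Subgroup.card_bot]
  exact P.ne_bot_of_dvd_card hpD (Subgroup.card_eq_one.1 h6)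

/-- Let G be a finite group and M ≤ N non-trivial proper normal subgroups such that for every g outside N the conjugacy class of g is a union of cosets of M (equivalently gm is conjugate to g for every m ∈ M). Then (1) and (2) below are equivalent, and they imply (3): (1) every g outside N acts fixed-point-freely on M, that is C_G(x) ≤ N for every x ∈ M, x ≠ 1; (2) the index of N in G is coprime to the order of M; (3) there is a subgroup H of G with HN = G and H ∩ M = 1. -/
theorem result {G : Type*} [Group G] [Finite G] (N M : Subgroup G) [N.Normal] [M.Normal] (hMN : M ≤ N) (hM1 : M ≠ ⊥) (hN2 : N ≠ ⊤)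
    (hcam : ∀ g : G, g ∉ N → ∀ m ∈ M, ∃ x : G, x * g * x⁻¹ = g * m) :
    ((∀ x ∈ M, x ≠ 1 → Subgroup.centralizer ({x} : Set G) ≤ N) ↔ N.index.Coprime (Nat.card M)) ∧
    ((∀ x ∈ M, x ≠ 1 → Subgroup.centralizer ({x} : Set G) ≤ N) → ∃ H : Subgroup G, H ⊔ N = ⊤ ∧ H ⊓ M = ⊥) := by
  classical
  have hfwd : (∀ x ∈ M, x ≠ 1 → Subgroup.centralizer ({x} : Set G) ≤ N) →
      N.index.Coprime (Nat.card M) := by
    intro hC
    apply Nat.coprime_of_dvd
    intro q hq hqi hqM
    haveI : Fact q.Prime := ⟨hq⟩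
    obtain ⟨y, hy⟩ := exists_prime_orderOf_dvd_card' (G := ↥M) q hqM
    rw [← Subgroup.orderOf_coe] at hy
    have hzp : IsPGroup q (Subgroup.zpowers (y : G)) :=
      IsPGroup.of_card (n := 1) (by rw [Nat.card_zpowers, hy, pow_one])
    obtain ⟨Q, hQ⟩ := hzp.exists_le_sylow
    have hyQ : (y : G) ∈ (Q : Subgroup G) := hQ (Subgroup.mem_zpowers _)
    have hy1 : (y : G) ≠ 1 := by
      intro e
      rw [e, orderOf_one] at hy
      exact hq.one_lt.ne hy
    haveI : Group.IsNilpotent ↥(Q : Subgroup G) := Q.2.isNilpotent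
    have hDne : M.subgroupOf (Q : Subgroup G) ≠ ⊥ := by
      intro e
      have h1 : (⟨y, hyQ⟩ : ↥(Q : Subgroup G)) ∈ M.subgroupOf (Q : Subgroup G) :=
        Subgroup.mem_subgroupOf.2 y.2
      rw [e, Subgroup.mem_bot] at h1
      exact hy1 (congrArg Subtype.val h1)
    have h2 := Cfsg.Agent.Lib.Helper10.normal_inf_center_ne_bot
      (M.subgroupOf (Q : Subgroup G)) inferInstance hDne
    obtain ⟨x, hx, hx1⟩ : ∃ x ∈ M.subgroupOf (Q : Subgroup G) ⊓
        Subgroup.center ↥(Q : Subgroup G), x ≠ 1 := by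
      by_contra hcon
      push Not at hcon
      exact h2 ((Subgroup.eq_bot_iff_forall _).2 hcon)
    obtain ⟨hxM, hxZ⟩ := Subgroup.mem_inf.1 hx
    have hQN : (Q : Subgroup G) ≤ N := by
      refine le_trans ?_ (hC (x : G) (Subgroup.mem_subgroupOf.1 hxM)
        (fun e => hx1 (Subtype.ext e)))
      intro g hg
      rw [Subgroup.mem_centralizer_singleton_iff]
      exact congrArg Subtype.val (Subgroup.mem_center_iff.1 hxZ ⟨g, hg⟩)
    exact Q.not_dvd_index (hqi.trans (Subgroup.index_dvd_of_le hQN))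
  have hbwd : N.index.Coprime (Nat.card M) →
      (∀ x ∈ M, x ≠ 1 → Subgroup.centralizer ({x} : Set G) ≤ N) := by
    intro hcop x hxM hx1 g hg
    rw [Subgroup.mem_centralizer_singleton_iff] at hg
    by_contra hgN
    obtain ⟨q, hq, hqx⟩ := Nat.exists_prime_and_dvd
      (fun h => hx1 (orderOf_eq_one_iff.1 h) : orderOf x ≠ 1)
    have hox : orderOf (x ^ (orderOf x / q)) = q :=
      orderOf_pow_orderOf_div (orderOf_pos x).ne' hqx
    have hqM : q ∣ Nat.card M := by
      refine hqx.trans ?_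
      have := orderOf_dvd_natCard (⟨x, hxM⟩ : ↥M)
      rwa [Subgroup.orderOf_mk] at this
    obtain ⟨e, m, hm, hgm⟩ := Nat.exists_eq_pow_mul_and_not_dvd (orderOf_pos g).ne' q
      hq.one_lt.ne'
    have hog : orderOf (g ^ (q ^ e)) = m := by
      rw [orderOf_pow_of_dvd (pow_pos hq.pos e).ne' (by rw [hgm]; exact dvd_mul_right _ _), hgm]
      exact Nat.mul_div_cancel_left _ (pow_pos hq.pos e)
    have hg'N : g ^ (q ^ e) ∉ N := by
      intro h
      apply hgN
      rw [← QuotientGroup.eq_one_iff] at h ⊢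
      rw [QuotientGroup.mk_pow] at h
      have h1 : orderOf (QuotientGroup.mk g : G ⧸ N) ∣ q ^ e := orderOf_dvd_of_pow_eq_one h
      have h2 : orderOf (QuotientGroup.mk g : G ⧸ N) ∣ N.index := orderOf_dvd_natCard _
      have h3 : (N.index).Coprime (q ^ e) :=
        Nat.Coprime.pow_right e (Nat.Coprime.coprime_dvd_right hqM hcop)
      exact orderOf_eq_one_iff.1 (Nat.eq_one_of_dvd_coprimes h3 h2 h1)
    obtain ⟨y, hy⟩ := hcam _ hg'N (x ^ (orderOf x / q)) (M.pow_mem hxM _)
    have hcomm : Commute g x := hg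
    have ho1 : orderOf (g ^ (q ^ e) * x ^ (orderOf x / q)) = m * q := by
      rw [(hcomm.pow_pow _ _).orderOf_mul_eq_mul_orderOf_of_coprime (by
        rw [hog, hox]
        exact ((Nat.Prime.coprime_iff_not_dvd hq).2 hm).symm), hog, hox]
    have ho2 : orderOf (y * g ^ (q ^ e) * y⁻¹) = m := by
      rw [← hog]
      exact (MulAut.conj y).orderOf_eq _
    rw [hy, ho1] at ho2
    have hm0 : 0 < m := by
      rcases Nat.eq_zero_or_pos m with h | h
      · exact absurd (h ▸ dvd_zero q) hm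
      · exact h
    have : m * q = m * 1 := by rw [ho2, mul_one]
    exact hq.one_lt.ne' (Nat.eq_of_mul_eq_mul_left hm0 this)
  refine ⟨⟨hfwd, hbwd⟩, ?_⟩
  intro hC
  have hcop := hfwd hC
  obtain ⟨H, hH, hmin⟩ := (Set.toFinite {H : Subgroup G | H ⊔ N = ⊤}).exists_minimal
    ⟨⊤, top_sup_eq N⟩
  have hH' : H ⊔ N = ⊤ := hH
  refine ⟨H, hH', ?_⟩
  have hminX : ∀ K : Subgroup ↥H, K ⊔ N.subgroupOf H = ⊤ → K = ⊤ := by
    intro K hK
    have h1 : K.map H.subtype ⊔ N = ⊤ := by
      rw [eq_top_iff, ← hH']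
      refine sup_le ?_ le_sup_right
      intro h hh
      have h2 : (⟨h, hh⟩ : ↥H) ∈ K ⊔ N.subgroupOf H := by rw [hK]; exact Subgroup.mem_top _
      have h3 : (K ⊔ N.subgroupOf H).map H.subtype ≤ K.map H.subtype ⊔ N := by
        rw [Subgroup.map_sup]
        refine sup_le_sup_left ?_ _
        rintro _ ⟨z, hz, rfl⟩
        exact Subgroup.mem_subgroupOf.1 hz
      exact h3 (Subgroup.mem_map.2 ⟨⟨h, hh⟩, h2, rfl⟩)
    have h4 : H ≤ K.map H.subtype := hmin h1 (Subgroup.map_subtype_le K)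
    rw [eq_top_iff]
    intro z _
    obtain ⟨w, hw, hwz⟩ := Subgroup.mem_map.1 (h4 z.2)
    have : w = z := Subtype.ext hwz
    rwa [← this]
  by_contra hne
  have hcard : Nat.card ↥(H ⊓ M) ≠ 1 := fun h => hne (Subgroup.card_eq_one.1 h)
  obtain ⟨q, hq, hqd⟩ := Nat.exists_prime_and_dvd hcard
  have hqM : q ∣ Nat.card M := hqd.trans (Subgroup.card_dvd_of_le inf_le_right)
  have hqD : q ∣ Nat.card ↥(N.subgroupOf H) := by
    refine hqd.trans ?_
    have e1 : Nat.card ↥(N.subgroupOf H) = Nat.card ↥(H ⊓ N) := by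
      rw [← Subgroup.inf_subgroupOf_left]
      exact Nat.card_congr (Subgroup.subgroupOfEquivOfLe inf_le_left).toEquiv
    rw [e1]
    exact Subgroup.card_dvd_of_le (inf_le_inf_left H hMN)
  have hqi := prime_dvd_index (N.subgroupOf H) hminX q hq hqD
  have hidx : (N.subgroupOf H).index = N.index := by
    have h1 : N.relIndex (H ⊔ N) = N.relIndex H := Subgroup.relIndex_sup_right H N
    rw [hH', Subgroup.relIndex_top_right] at h1
    exact h1.symm
  rw [hidx] at hqi
  exact hq.one_lt.ne' (Nat.eq_one_of_dvd_coprimes hcop hqi hqM)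

end Cfsg.Agent.S4112
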