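import Cfsg.Statements.S4116
import Cfsg.Agent.Lib.Helper22.Basic
import Cfsg.Agent.Lib.Helper15.Frob
import Cfsg.Agent.Lib.Helper12.TI

set_option autoImplicit false
open Cfsg

namespace Cfsg.Agent.S4116

open scoped Pointwise

/-- key step: an element of order prime to the index which moves a nontrivial element of a
conjugate of `H` inside that conjugate lies in it. -/
theorem mem_conj_of_ti {G : Type*} [Group G] [Finite G] (H : Subgroup G)
    (hTI : Cfsg.IsTISubset (H : Set G)) (c w k : G)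
    (hw : c⁻¹ * w * c ∈ H) (hw1 : w ≠ 1) (hk : c⁻¹ * (k * w * k⁻¹) * c ∈ H)
    (hko : (orderOf k).Coprime H.index) : c⁻¹ * k * c ∈ H := by
  set k' := c⁻¹ * k * c with hk'
  set w' := c⁻¹ * w * c with hw'
  have hw'1 : w' ≠ 1 := by
    intro h
    apply hw1
    have : w = c * w' * c⁻¹ := by rw [hw']; group
    rw [this, h]; group
  have hkw : k' * w' * k'⁻¹ ∈ H := by
    have : k' * w' * k'⁻¹ = c⁻¹ * (k * w * k⁻¹) * c := by rw [hk', hw']; group
    rw [this]; exact hk
  have hkN : k' ∈ Subgroup.normalizer (H : Set G) := by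
    by_contra hn
    exact hw'1 (hTI k' hn w' hw hkw)
  have hko' : orderOf k' = orderOf k := by
    have : k' = MulAut.conj c⁻¹ k := by rw [hk', MulAut.conj_apply, inv_inv]
    rw [this, MulEquiv.orderOf_eq]
  let Nn := Subgroup.normalizer (H : Set G)
  haveI : (H.subgroupOf Nn).Normal := Subgroup.normal_in_normalizer
  have h1 : (⟨k', hkN⟩ : Nn) ∈ H.subgroupOf Nn := by
    rw [← QuotientGroup.eq_one_iff]
    have h2 : orderOf (((⟨k', hkN⟩ : Nn) : Nn ⧸ H.subgroupOf Nn)) ∣ orderOf k := by
      have := orderOf_map_dvd (QuotientGroup.mk' (H.subgroupOf Nn)) (⟨k', hkN⟩ : Nn)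
      rwa [Subgroup.orderOf_mk, hko'] at this
    have h3 : orderOf (((⟨k', hkN⟩ : Nn) : Nn ⧸ H.subgroupOf Nn)) ∣ H.index := by
      refine (orderOf_dvd_natCard _).trans ?_
      rw [← Subgroup.index_eq_card]
      exact Subgroup.relIndex_dvd_index_of_le Subgroup.le_normalizer
    have h4 : orderOf (((⟨k', hkN⟩ : Nn) : Nn ⧸ H.subgroupOf Nn)) ∣ 1 := by
      rw [← Nat.Coprime.gcd_eq_one hko]
      exact Nat.dvd_gcd h2 h3
    exact orderOf_eq_one_iff.1 (Nat.dvd_one.1 h4)
  exact h1

/-- Let G be a finite group with a subgroup H whose order is coprime to its index (a Hall subgroup) and which meets each of its conjugates by elements outside N_G(H) trivially. Then every subgroup of G whose order is divisible only by primes dividing the order of H lies in a conjugate of H. -/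
theorem result {G : Type*} [Group G] [Finite G] (H : Subgroup G)
    (hHall : (Nat.card H).Coprime H.index) (hTI : Cfsg.IsTISubset (H : Set G))
    (K : Subgroup G) (hK : ∀ q : ℕ, q.Prime → q ∣ Nat.card K → q ∣ Nat.card H) :
    ∃ g : G, K ≤ H.map (MulAut.conj g).toMonoidHom := by
  classical
  have hcopK : (Nat.card K).Coprime H.index := by
    apply Nat.coprime_of_dvd
    intro q hq h1 h2
    have h3 := hK q hq h1
    have := Nat.Coprime.eq_one_of_dvd (Nat.Coprime.coprime_dvd_left h3 hHall) h2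
    exact hq.one_lt.ne' this
  have hko : ∀ k ∈ K, (orderOf k).Coprime H.index := fun k hk =>
    Nat.Coprime.coprime_dvd_left (Subgroup.orderOf_dvd_natCard K hk) hcopK
  -- Claim 1
  have claim1 : ∀ x ∈ K, x ≠ 1 → ∃ c : G, c⁻¹ * x * c ∈ H := by
    intro x hx hx1
    have hox : orderOf x ≠ 1 := fun h => hx1 (orderOf_eq_one_iff.1 h)
    obtain ⟨q, hq, hqx⟩ := Nat.exists_prime_and_dvd hox
    haveI : Fact q.Prime := ⟨hq⟩
    have hqH : q ∣ Nat.card H := hK q hq (hqx.trans (Subgroup.orderOf_dvd_natCard K hx))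
    have hqi : ¬ q ∣ H.index := by
      intro h2
      have := Nat.Coprime.eq_one_of_dvd (Nat.Coprime.coprime_dvd_left hqH hHall) h2
      exact hq.one_lt.ne' this
    set w := x ^ (orderOf x / q) with hw
    have hwo : orderOf w = q := by
      rw [hw, orderOf_pow_of_dvd]
      · exact Nat.div_div_self hqx (orderOf_pos x).ne'
      · intro h
        have := Nat.div_eq_zero_iff.1 h
        rcases this with h | h
        · exact hq.ne_zero h
        · exact absurd (Nat.le_of_dvd (orderOf_pos x) hqx) (not_le.2 h)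
      · exact Nat.div_dvd_of_dvd hqx
    have hw1 : w ≠ 1 := by
      intro h
      rw [h, orderOf_one] at hwo
      exact hq.one_lt.ne hwo
    obtain ⟨S, _, hSH⟩ := Lib.Helper22.exists_sylow_le_of_not_dvd_index H hqi ⊥ IsPGroup.of_bot bot_le
    have hwp : IsPGroup q (Subgroup.zpowers w) :=
      IsPGroup.of_card (n := 1) (by rw [Nat.card_zpowers, hwo, pow_one])
    obtain ⟨Q', hQ'⟩ := hwp.exists_le_sylow
    obtain ⟨c, hc⟩ := MulAction.exists_smul_eq G Q' S
    have hwS : c * w * c⁻¹ ∈ H := by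
      apply hSH
      show c * w * c⁻¹ ∈ (S : Subgroup G)
      rw [← hc, Sylow.coe_subgroup_smul]
      exact ⟨w, hQ' (Subgroup.mem_zpowers w), rfl⟩
    refine ⟨c⁻¹, ?_⟩
    apply mem_conj_of_ti H hTI c⁻¹ w x (by simpa using hwS) hw1 _ (hko x hx)
    have : x * w * x⁻¹ = w := by
      rw [hw, ← pow_succ', pow_succ, mul_assoc, mul_inv_cancel, mul_one]
    rw [this]; simpa using hwS
  by_cases hKbot : K = ⊥
  · exact ⟨1, by rw [hKbot]; exact bot_le⟩
  by_contra hcon
  push Not at hcon
  -- the subgroups A c of K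
  let A : G → Subgroup K := fun c => (H.map (MulAut.conj c).toMonoidHom).subgroupOf K
  have hAmem : ∀ (c : G) (x : K), x ∈ A c ↔ c⁻¹ * (x : G) * c ∈ H := by
    intro c x
    show (x : G) ∈ H.map (MulAut.conj c).toMonoidHom ↔ _
    exact Lib.Helper12.mem_map_conj H c x
  have hAtop : ∀ c, A c ≠ ⊤ := by
    intro c h
    apply hcon c
    intro x hx
    have : (⟨x, hx⟩ : K) ∈ A c := by rw [h]; trivial
    exact this
  have hfrob : ∀ c, A c ≠ ⊥ → Cfsg.IsFrobeniusComplement (A c) := by
    intro c hne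
    refine ⟨hne, hAtop c, ?_⟩
    intro k hk
    rw [eq_bot_iff]
    intro z hz
    rw [Subgroup.mem_inf, Lib.Helper15.mem_conj_smul_iff] at hz
    rw [Subgroup.mem_bot]
    by_contra hz1
    apply hk
    rw [hAmem]
    have h1 := (hAmem c _).1 hz.1
    have h2 := (hAmem c _).1 hz.2
    apply mem_conj_of_ti H hTI c ((k : G)⁻¹ * z * k) k h2 _ _ (hko k k.2)
    · intro h
      apply hz1
      apply Subtype.ext
      have : (z : G) = k * ((k : G)⁻¹ * z * k) * (k : G)⁻¹ := by group
      rw [this, h]; simp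
    · have : (k : G) * ((k : G)⁻¹ * z * k) * (k : G)⁻¹ = z := by group
      rw [this]; exact h1
  obtain ⟨⟨x, hx⟩, hx1⟩ := (Subgroup.ne_bot_iff_exists_ne_one).1 hKbot
  have hx1' : x ≠ 1 := fun h => hx1 (Subtype.ext h)
  obtain ⟨c, hc⟩ := claim1 x hx hx1'
  have hAc : A c ≠ ⊥ := by
    intro h
    have : (⟨x, hx⟩ : K) ∈ A c := (hAmem c _).2 hc
    rw [h, Subgroup.mem_bot] at this
    exact hx1 this
  have hFA := hfrob c hAc
  have hcardA := Lib.Helper15.card_frobeniusKernel hFA
  have two_le : ∀ B : Subgroup K, B ≠ ⊥ → 2 * B.index ≤ Nat.card K := by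
    intro B hB
    have h1 := B.card_mul_index
    have h2 : 1 < Nat.card B := by
      rcases Nat.lt_or_ge 1 (Nat.card B) with h | h
      · exact h
      · exfalso
        have : Nat.card B = 1 := le_antisymm h Nat.card_pos
        exact hB (Subgroup.card_eq_one.1 this)
    rw [← h1]
    exact Nat.mul_le_mul_right _ h2
  have hidxA : 1 < (A c).index := by
    rcases Nat.lt_or_ge 1 (A c).index with h | h
    · exact h
    · exfalso
      have h0 : (A c).index ≠ 0 := Subgroup.index_ne_zero_of_finite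
      have : (A c).index = 1 := by omega
      exact hAtop c (Subgroup.index_eq_one.1 this)
  -- a nontrivial element of the kernel
  obtain ⟨y, hyF, hy1⟩ : ∃ y : K, y ∈ Cfsg.frobeniusKernel (A c) ∧ y ≠ 1 := by
    by_contra hno
    push Not at hno
    have : Cfsg.frobeniusKernel (A c) ⊆ {1} := fun y hy => hno y hy
    have h2 := Set.ncard_le_ncard this (Set.finite_singleton _)
    rw [Set.ncard_singleton] at h2
    have h3 : (Cfsg.frobeniusKernel (A c)).ncard = (A c).index := hcardA
    omega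
  have hy1' : (y : G) ≠ 1 := fun h => hy1 (Subtype.ext h)
  obtain ⟨d, hd⟩ := claim1 y y.2 hy1'
  have hAd : A d ≠ ⊥ := by
    intro h
    have : y ∈ A d := (hAmem d _).2 hd
    rw [h, Subgroup.mem_bot] at this
    exact hy1 this
  have hFB := hfrob d hAd
  have hcardB := Lib.Helper15.card_frobeniusKernel hFB
  have hincl : (Cfsg.frobeniusKernel (A d))ᶜ ⊆ Cfsg.frobeniusKernel (A c) \ {1} := by
    intro z hz
    rw [Set.mem_compl_iff, Lib.Helper15.not_mem_frobeniusKernel_iff] at hz
    obtain ⟨hz1, k', hk'⟩ := hz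
    refine ⟨?_, hz1⟩
    by_contra hzA
    rw [Lib.Helper15.not_mem_frobeniusKernel_iff] at hzA
    obtain ⟨_, k, hk⟩ := hzA
    rw [hAmem] at hk hk'
    have hk2 : ((k : G) * c)⁻¹ * z * ((k : G) * c) ∈ H := by
      have : ((k : G) * c)⁻¹ * z * ((k : G) * c) = c⁻¹ * ((k⁻¹ * z * k : K) : G) * c := by
        push_cast; group
      rw [this]; exact hk
    have hk2' : ((k' : G) * d)⁻¹ * z * ((k' : G) * d) ∈ H := by
      have : ((k' : G) * d)⁻¹ * z * ((k' : G) * d) = d⁻¹ * ((k'⁻¹ * z * k' : K) : G) * d := by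
        push_cast; group
      rw [this]; exact hk'
    set t : G := ((k' : G) * d)⁻¹ * ((k : G) * c) with ht
    have htN : t ∈ Subgroup.normalizer (H : Set G) := by
      by_contra hn
      have h5 := hTI t hn _ hk2 (by
        have : t * (((k : G) * c)⁻¹ * z * ((k : G) * c)) * t⁻¹ =
            ((k' : G) * d)⁻¹ * z * ((k' : G) * d) := by rw [ht]; group
        rw [this]; exact hk2')
      apply hz1
      apply Subtype.ext
      have : (z : G) = ((k : G) * c) * (((k : G) * c)⁻¹ * z * ((k : G) * c)) * ((k : G) * c)⁻¹ := by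
        group
      rw [this, h5]; simp
    have h6 : t⁻¹ * (d⁻¹ * (y : G) * d) * t⁻¹⁻¹ ∈ H :=
      (Subgroup.mem_normalizer_iff.1 (Subgroup.inv_mem _ htN) _).1 hd
    rw [Lib.Helper15.mem_frobeniusKernel_iff] at hyF
    rcases hyF with h | h
    · exact hy1 h
    · apply h (k'⁻¹ * k)
      rw [hAmem]
      have : c⁻¹ * (((k'⁻¹ * k)⁻¹ * y * (k'⁻¹ * k) : K) : G) * c =
          t⁻¹ * (d⁻¹ * (y : G) * d) * t⁻¹⁻¹ := by
        rw [ht]; push_cast; group
      rw [this]; exact h6
  have h7 := Set.ncard_le_ncard hincl (Set.toFinite _)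
  rw [Set.ncard_compl, Set.ncard_diff_singleton_of_mem Lib.Helper15.one_mem_frobeniusKernel] at h7
  have h8 : (Cfsg.frobeniusKernel (A c)).ncard = (A c).index := hcardA
  have h9 : (Cfsg.frobeniusKernel (A d)).ncard = (A d).index := hcardB
  have h10 := two_le _ hAc
  have h11 := two_le _ hAd
  rw [h8, h9] at h7
  omega

end Cfsg.Agent.S4116
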