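import Cfsg.Statements.S4117
import Mathlib
import Cfsg.Agent.Lib.Helper1.Fitting

set_option autoImplicit false
open Cfsg

namespace Cfsg.Agent.S4117

open Cfsg.Agent.Lib.Helper1

/-- vanishing of `H¹` for coprime action on an abelian group -/
theorem h1_vanish {A M : Type*} [Group A] [Finite A] [CommGroup M] [Finite M]
    [MulDistribMulAction A M] (hcop : (Nat.card A).Coprime (Nat.card M)) (c : A → M)
    (hc : ∀ a b : A, c (a * b) = c a * a • c b) : ∃ e : M, ∀ a : A, c a = e * (a • e)⁻¹ := by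
  classical
  haveI : Fintype A := Fintype.ofFinite A
  set d : M := ∏ b : A, c b with hd
  have h1 : ∀ a : A, d = c a ^ Nat.card A * a • d := by
    intro a
    have h2 : ∏ b : A, c (a * b) = d := Fintype.prod_equiv (Equiv.mulLeft a) _ _ (fun b => rfl)
    conv_lhs => rw [← h2]
    simp only [hc a]
    rw [Finset.prod_mul_distrib, Finset.prod_const, Finset.card_univ, ← Nat.card_eq_fintype_card,
      hd, Finset.smul_prod']
  set e : M := (powCoprime hcop.symm).symm d with he
  have hed : e ^ Nat.card A = d := (powCoprime hcop.symm).apply_symm_apply d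
  refine ⟨e, fun a => ?_⟩
  have h3 : e ^ Nat.card A = (c a * a • e) ^ Nat.card A := by
    rw [mul_pow, ← smul_pow', hed]
    exact h1 a
  have h4 : e = c a * a • e := (powCoprime hcop.symm).injective h3
  rw [eq_mul_inv_iff_mul_eq]
  exact h4.symm

theorem fix_comm_trivial {A M : Type*} [Group A] [Finite A] [CommGroup M] [Finite M]
    [MulDistribMulAction A M] (hcop : (Nat.card A).Coprime (Nat.card M)) (x : M)
    (hx : ∀ a : A, a • x = x)
    (hxc : x ∈ Subgroup.closure {y : M | ∃ (a : A) (m : M), y = m⁻¹ * a • m}) : x = 1 := by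
  classical
  haveI : Fintype A := Fintype.ofFinite A
  let ν : M →* M :=
    { toFun := fun m => ∏ b : A, b • m
      map_one' := by simp
      map_mul' := fun m n => by simp [smul_mul', Finset.prod_mul_distrib] }
  have h1 : Subgroup.closure {y : M | ∃ (a : A) (m : M), y = m⁻¹ * a • m} ≤ ν.ker := by
    rw [Subgroup.closure_le]
    rintro _ ⟨a, m, rfl⟩
    show ν (m⁻¹ * a • m) = 1
    rw [map_mul, map_inv, inv_mul_eq_one]
    show ∏ b : A, b • m = ∏ b : A, b • a • m
    exact (Fintype.prod_equiv (Equiv.mulRight a) _ _ (fun b => by simp [mul_smul])).symm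
  have h2 : ν x = 1 := h1 hxc
  have h3 : x ^ Nat.card A = 1 := by
    rw [← h2]
    show _ = ∏ b : A, b • x
    simp only [hx]
    rw [Finset.prod_const, Finset.card_univ, Nat.card_eq_fintype_card]
  exact (powCoprime hcop.symm).injective (show x ^ Nat.card A = 1 ^ Nat.card A by rw [h3, one_pow])

/-- Let A be a finite group acting on the finite group G by automorphisms with the orders of A and G coprime, and suppose every Sylow subgroup of G is cyclic. Then the fixed-point subgroup C_G(A) is a Hall subgroup of G (its order is coprime to its index), the subgroup [G, A] generated by the elements g⁻¹·a(g) is cyclic and normal with [G, A] ∩ C_G(A) = 1 and [G, A]·C_G(A) = G. -/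
theorem result {G A : Type*} [Group G] [Finite G] [Group A] [Finite A]
    [MulDistribMulAction A G] (hcop : (Nat.card A).Coprime (Nat.card G))
    (hcyc : ∀ (p : ℕ) [Fact p.Prime] (P : Sylow p G), IsCyclic (P : Subgroup G)) :
    (Nat.card (MulAction.fixedPoints A G : Set G)).Coprime (Nat.card G / Nat.card (MulAction.fixedPoints A G : Set G)) ∧
    IsCyclic (Subgroup.closure {y : G | ∃ (a : A) (g : G), y = g⁻¹ * a • g}) ∧
    (Subgroup.closure {y : G | ∃ (a : A) (g : G), y = g⁻¹ * a • g}).Normal ∧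
    (Subgroup.closure {y : G | ∃ (a : A) (g : G), y = g⁻¹ * a • g} : Set G) ∩ MulAction.fixedPoints A G = {1} ∧
    Subgroup.closure {y : G | ∃ (a : A) (g : G), y = g⁻¹ * a • g} ⊔ Subgroup.closure (MulAction.fixedPoints A G) = ⊤ := by
  classical
  haveI hZG : IsZGroup G := ⟨fun p hp P => by
    haveI := Fact.mk hp
    exact hcyc p P⟩
  set F := Cfsg.fittingSubgroup G with hF
  haveI hFn : F.Normal := fitting_normal
  haveI hFnil : Group.IsNilpotent F := fitting_nilpotent
  haveI hFcyc : IsCyclic F := inferInstance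
  have hCF : Subgroup.centralizer (F : Set G) ≤ F := centralizer_fitting_le
  have hFinv : ∀ (a : A), ∀ f ∈ F, a • f ∈ F := by
    intro a f hf
    have h1 : (F.map (MulDistribMulAction.toMonoidHom G a)).Normal :=
      hFn.map _ (MulAction.surjective a)
    have h2 : Group.IsNilpotent (F.map (MulDistribMulAction.toMonoidHom G a)) :=
      Group.nilpotent_of_surjective ((MulDistribMulAction.toMonoidHom G a).subgroupMap F)
        (MonoidHom.subgroupMap_surjective _ _)
    exact le_fitting h1 h2 ⟨f, hf, rfl⟩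
  obtain ⟨⟨f₀, hf₀F⟩, hf₀⟩ := hFcyc.exists_generator
  have hgenF : ∀ f ∈ F, ∃ i : ℤ, f₀ ^ i = f := by
    intro f hf
    obtain ⟨i, hi⟩ := Subgroup.mem_zpowers_iff.mp (hf₀ ⟨f, hf⟩)
    exact ⟨i, by simpa using congrArg Subtype.val hi⟩
  have hpow : ∀ g : G, ∃ s : ℤ, ∀ f ∈ F, g * f * g⁻¹ = f ^ s := by
    intro g
    obtain ⟨s, hs⟩ := hgenF _ (hFn.conj_mem f₀ hf₀F g)
    refine ⟨s, fun f hf => ?_⟩
    obtain ⟨i, rfl⟩ := hgenF f hf
    rw [← conj_zpow, ← hs, ← zpow_mul, ← zpow_mul, mul_comm]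
  set S : Set G := {y : G | ∃ (a : A) (g : G), y = g⁻¹ * a • g} with hS
  have hSC : S ⊆ Subgroup.centralizer (F : Set G) := by
    rintro _ ⟨a, g, rfl⟩
    rw [SetLike.mem_coe, Subgroup.mem_centralizer_iff]
    intro f' hf'
    have hfF : a⁻¹ • f' ∈ F := hFinv _ _ hf'
    have haf : a • (a⁻¹ • f') = f' := smul_inv_smul a f'
    obtain ⟨s, hs⟩ := hpow g
    have hz : a • ((a⁻¹ • f') ^ s) = (a • (a⁻¹ • f')) ^ s :=
      map_zpow (MulDistribMulAction.toMonoidHom G a) _ s
    have h1 : (a • g) * f' * (a • g)⁻¹ = g * f' * g⁻¹ := by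
      rw [hs f' hf']
      conv_lhs => rw [← haf]
      rw [← smul_inv', ← smul_mul', ← smul_mul', hs _ hfF, hz, haf]
    calc f' * (g⁻¹ * a • g) = g⁻¹ * (g * f' * g⁻¹) * a • g := by group
      _ = g⁻¹ * a • g * f' := by rw [← h1]; group
  set K := Subgroup.closure S with hK
  have hKF : K ≤ F := ((Subgroup.closure_le _).2 hSC).trans hCF
  haveI hKcyc : IsCyclic K :=
    isCyclic_of_injective (Subgroup.inclusion hKF) (Subgroup.inclusion_injective hKF)
  have hsubn : ∀ X : Subgroup G, X ≤ F → X.Normal := by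
    intro X hX
    refine ⟨fun k hk g => ?_⟩
    obtain ⟨s, hs⟩ := hpow g
    rw [hs k (hX hk)]
    exact X.zpow_mem hk s
  haveI hKn : K.Normal := hsubn K hKF
  have hKinv : ∀ (b : A), ∀ k ∈ K, b • k ∈ K := by
    intro b k hk
    induction hk using Subgroup.closure_induction with
    | mem y hy =>
      obtain ⟨a, g, rfl⟩ := hy
      have h1 : b • (g⁻¹ * a • g) = (g⁻¹ * b • g)⁻¹ * (g⁻¹ * (b * a) • g) := by
        rw [smul_mul', smul_inv', mul_smul]; group
      rw [h1]
      exact K.mul_mem (K.inv_mem (Subgroup.subset_closure ⟨b, g, rfl⟩))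
        (Subgroup.subset_closure ⟨b * a, g, rfl⟩)
    | one => rw [smul_one]; exact K.one_mem
    | mul x y _ _ hx hy => rw [smul_mul']; exact K.mul_mem hx hy
    | inv x _ hx => rw [smul_inv']; exact K.inv_mem hx
  letI : CommGroup K := IsCyclic.commGroup
  letI act : MulDistribMulAction A K :=
    { smul := fun a k => ⟨a • k.1, hKinv a k.1 k.2⟩
      one_smul := fun k => Subtype.ext (one_smul A k.1)
      mul_smul := fun a b k => Subtype.ext (mul_smul a b k.1)
      smul_mul := fun a k l => Subtype.ext (smul_mul' a k.1 l.1)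
      smul_one := fun a => Subtype.ext (smul_one a) }
  have hcopK : (Nat.card A).Coprime (Nat.card K) :=
    Nat.Coprime.coprime_dvd_right (Subgroup.card_subgroup_dvd_card K) hcop
  have h6a : ∀ g : G, ∃ e ∈ K, ∀ a : A, g⁻¹ * a • g = e * (a • e)⁻¹ := by
    intro g
    obtain ⟨e, he⟩ := h1_vanish hcopK
      (fun a => (⟨g⁻¹ * a • g, Subgroup.subset_closure ⟨a, g, rfl⟩⟩ : K)) (by
        intro a b
        apply Subtype.ext
        show g⁻¹ * (a * b) • g = g⁻¹ * a • g * a • (g⁻¹ * b • g)
        rw [smul_mul', smul_inv', mul_smul]; group)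
    exact ⟨e.1, e.2, fun a => congrArg Subtype.val (he a)⟩
  have h6b : ∀ x ∈ K, (∀ a : A, a • x = x) → x = 1 := by
    intro x hx hfix
    have h1 : K ≤ (Subgroup.closure {y : K | ∃ (a : A) (m : K), y = m⁻¹ * a • m}).map K.subtype := by
      refine (Subgroup.closure_le _).2 ?_
      rintro _ ⟨a, g, rfl⟩
      obtain ⟨e, heK, he⟩ := h6a g
      refine ⟨(⟨e, heK⟩ : K)⁻¹⁻¹ * a • (⟨e, heK⟩ : K)⁻¹, Subgroup.subset_closure ⟨a, _, rfl⟩, ?_⟩
      rw [he a]
      show e⁻¹⁻¹ * a • e⁻¹ = e * (a • e)⁻¹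
      rw [inv_inv, smul_inv']
    obtain ⟨t, ht, htx⟩ := h1 hx
    have h2 := fix_comm_trivial hcopK t (by
      intro a
      apply Subtype.ext
      show a • t.1 = t.1
      have : t.1 = x := htx
      rw [this]; exact hfix a) ht
    rw [← htx, h2]; rfl
  have hmemfix : ∀ g : G, g ∈ MulAction.fixedPoints A G ↔ ∀ a : A, a • g = g := fun g => Iff.rfl
  have h7 : ∀ g : G, ∃ k ∈ K, ∃ c ∈ MulAction.fixedPoints A G, g = k * c := by
    intro g
    obtain ⟨e, heK, he⟩ := h6a g⁻¹
    refine ⟨e, heK, e⁻¹ * g, ?_, by group⟩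
    intro a
    have h1 := he a
    rw [inv_inv, smul_inv'] at h1
    rw [smul_mul', smul_inv']
    calc (a • e)⁻¹ * a • g = (e⁻¹ * (e * (a • e)⁻¹)) * a • g := by group
      _ = e⁻¹ * g := by rw [← h1]; group
  set C : Subgroup G := FixedPoints.subgroup A G with hC
  have hCmem : ∀ g : G, g ∈ C ↔ ∀ a : A, a • g = g := fun g => Iff.rfl
  have hdisj : Disjoint K C := by
    rw [Subgroup.disjoint_def]
    intro x hxK hxC
    exact h6b x hxK ((hCmem x).mp hxC)
  have hcompl : K.IsComplement' C := by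
    apply Subgroup.isComplement'_of_disjoint_and_mul_eq_univ hdisj
    rw [Set.eq_univ_iff_forall]
    intro g
    obtain ⟨k, hk, c, hc, rfl⟩ := h7 g
    exact Set.mul_mem_mul hk hc
  have hcard := hcompl.card_mul_card
  have hcardC : Nat.card (MulAction.fixedPoints A G : Set G) = Nat.card C := rfl
  refine ⟨?_, hKcyc, hKn, ?_, ?_⟩
  · rw [hcardC, ← hcard, Nat.mul_div_cancel _ Nat.card_pos]
    apply Nat.coprime_of_dvd
    intro p hp hpC hpK
    haveI : Fact p.Prime := ⟨hp⟩
    obtain ⟨⟨y, hyC⟩, hy⟩ := exists_prime_orderOf_dvd_card' p hpC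
    obtain ⟨⟨x, hxK⟩, hx⟩ := exists_prime_orderOf_dvd_card' p hpK
    rw [Subgroup.orderOf_mk] at hx hy
    have hxp : IsPGroup p (Subgroup.zpowers x) :=
      IsPGroup.of_card (n := 1) (by rw [Nat.card_zpowers, hx, pow_one])
    have hyp : IsPGroup p (Subgroup.zpowers y) :=
      IsPGroup.of_card (n := 1) (by rw [Nat.card_zpowers, hy, pow_one])
    obtain ⟨Q, hQ⟩ := hyp.exists_le_sylow
    haveI : (Subgroup.zpowers x).Normal := hsubn _ (Subgroup.zpowers_le.mpr (hKF hxK))
    have hxQ : x ∈ Q := hxp.le_sylow_of_normal Q (Subgroup.mem_zpowers x)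
    have hyQ : y ∈ Q := hQ (Subgroup.mem_zpowers y)
    haveI : IsCyclic Q := hcyc p Q
    letI : CommGroup Q := IsCyclic.commGroup
    have hker := IsCyclic.card_powMonoidHom_ker (G := Q) p
    have hle : Subgroup.zpowers (⟨x, hxQ⟩ : Q) ≤ (powMonoidHom p : Q →* Q).ker := by
      rw [Subgroup.zpowers_le, MonoidHom.mem_ker]
      apply Subtype.ext
      show x ^ p = 1
      rw [← hx, pow_orderOf_eq_one]
    have hc1 : Nat.card (Subgroup.zpowers (⟨x, hxQ⟩ : Q)) = p := by
      rw [Nat.card_zpowers, Subgroup.orderOf_mk, hx]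
    have heq := Subgroup.eq_of_le_of_card_ge hle
      ((hker.trans_le (Nat.gcd_le_right _ hp.pos)).trans hc1.ge)
    have hyk : (⟨y, hyQ⟩ : Q) ∈ (powMonoidHom p : Q →* Q).ker := by
      rw [MonoidHom.mem_ker]
      apply Subtype.ext
      show y ^ p = 1
      rw [← hy, pow_orderOf_eq_one]
    rw [← heq] at hyk
    obtain ⟨i, hi⟩ := Subgroup.mem_zpowers_iff.mp hyk
    have hi' : x ^ i = y := by simpa using congrArg Subtype.val hi
    have hyK : y ∈ K := hi' ▸ K.zpow_mem hxK i
    have hy1 := h6b y hyK ((hCmem y).mp hyC)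
    rw [hy1, orderOf_one] at hy
    exact hp.one_lt.ne hy
  · ext x
    constructor
    · rintro ⟨hxK, hxC⟩
      exact h6b x hxK hxC
    · rintro rfl
      exact ⟨K.one_mem, fun a => smul_one a⟩
  · rw [eq_top_iff]
    intro g _
    obtain ⟨k, hk, c, hc, rfl⟩ := h7 g
    exact Subgroup.mul_mem_sup hk (Subgroup.subset_closure hc)

end Cfsg.Agent.S4117
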