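import Cfsg.Statements.S4126
import Cfsg.Agent.Lib.Helper22.PIndex
import Cfsg.Agent.S0071

set_option autoImplicit false
open Cfsg

namespace Cfsg.Agent.S4126

/-- Let G be a finite group and p a prime. Suppose every element of order p, and when p = 2 also every element of order 4, has a conjugacy class of p-power size. Then G has a normal p-complement. -/
theorem result {G : Type*} [Group G] [Finite G] (p : ℕ) [Fact p.Prime]
    (h : ∀ x : G, (orderOf x = p ∨ (p = 2 ∧ orderOf x = 4)) → ∃ a : ℕ, (Subgroup.centralizer ({x} : Set G)).index = p ^ a) :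
    Cfsg.HasNormalPComplement p G := by
  classical
  have hp : p.Prime := Fact.out
  let P : Sylow p G := default
  have key := (Cfsg.Agent.S0071.result P).2 ?_
  · obtain ⟨N, hN, hc⟩ := key
    exact ⟨P, N, hN, hc⟩
  intro Q hQP g hg hcop
  have hQp : IsPGroup p Q := P.2.to_le hQP
  let α : MulAut Q := Q.normalizerMonoidHom ⟨g, hg⟩
  have hαapp : ∀ x : Q, ((α x : Q) : G) = g * x * g⁻¹ := fun x => rfl
  have hα : (orderOf α).Coprime p := by
    have h1 : orderOf α ∣ orderOf g := by
      have := orderOf_map_dvd Q.normalizerMonoidHom (⟨g, hg⟩ : Subgroup.normalizer (Q : Set G))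
      rwa [Subgroup.orderOf_mk] at this
    exact Nat.Coprime.coprime_dvd_left h1 hcop
  obtain ⟨D, hD1, hD2, hD3⟩ := Lib.Helper22.exists_small_exponent hQp α hα
  have hfix : ∀ x ∈ D, α x = x := by
    have h2 := Lib.Helper22.centralizes_of_ppow_index (p := p) (D.map Q.subtype) g
      ((hQp.to_subgroup D).map _)
      (by
        rintro _ ⟨x, hx, rfl⟩
        exact ⟨α x, hD1 x hx, rfl⟩)
      hcop
      (by
        rintro _ ⟨x, hx, rfl⟩
        have hxe := hD2 x hx
        have hxe' : ((x : Q) : G) ^ (if p = 2 then 4 else p) = 1 := by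
          have := congrArg Subtype.val hxe
          rwa [Subgroup.coe_pow] at this
        by_cases hx1 : ((x : Q) : G) = 1
        · refine ⟨0, ?_⟩
          show (Subgroup.centralizer ({((x : Q) : G)} : Set G)).index = p ^ 0
          rw [hx1, pow_zero, Subgroup.index_eq_one, eq_top_iff]
          intro c _
          rw [Subgroup.mem_centralizer_singleton_iff]
          simp
        · apply h
          have hdvd := orderOf_dvd_of_pow_eq_one hxe'
          have hne1 : orderOf ((x : Q) : G) ≠ 1 := fun h => hx1 (orderOf_eq_one_iff.1 h)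
          split_ifs at hdvd with hp2
          · -- order divides 4
            have h4 : orderOf ((x : Q) : G) ∣ 2 ^ 2 := by simpa using hdvd
            obtain ⟨k, hk, hk2⟩ := (Nat.dvd_prime_pow Nat.prime_two).1 h4
            interval_cases k
            · exact absurd (by simpa using hk2) hne1
            · left; rw [hp2]; simpa using hk2
            · right; exact ⟨hp2, by simpa using hk2⟩
          · left
            rcases (Nat.dvd_prime hp).1 hdvd with h1 | h1
            · exact absurd h1 hne1
            · exact h1)
    intro x hx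
    apply Subtype.ext
    rw [hαapp]
    exact h2 _ ⟨x, hx, rfl⟩
  have hα1 := hD3 hfix
  rw [Subgroup.mem_centralizer_iff]
  intro x hx
  have h3 : ((α ⟨x, hx⟩ : Q) : G) = x := by rw [hα1]; rfl
  rw [hαapp] at h3
  calc x * g = (g * x * g⁻¹) * g := by rw [h3]
    _ = g * x := by group

end Cfsg.Agent.S4126
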