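import Cfsg.Statements.S4127
import Cfsg.Agent.Lib.Helper22.PIndex
import Cfsg.Agent.Lib.Helper22.Basic
import Cfsg.Agent.S0028

set_option autoImplicit false
open Cfsg

namespace Cfsg.Agent.S4127

theorem normal_complement_of_pprime_index {C : Type*} [Group C] [Finite C] (p : ℕ) [Fact p.Prime]
    (h : ∀ y : C, (orderOf y).Coprime p → ¬ p ∣ (Subgroup.centralizer ({y} : Set C)).index) :
    ∃ K : Subgroup C, K.Normal ∧ (Nat.card K).Coprime p ∧ (∃ b : ℕ, K.index = p ^ b) := by
  classical
  have hp : p.Prime := Fact.out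
  let P₁ : Sylow p C := default
  let M₁ : Subgroup C := (P₁ : Subgroup C) ⊔ Subgroup.centralizer (P₁ : Set C)
  have hcover : ∀ g : C, ∃ q : C ⧸ M₁, g • q = q := by
    intro g
    obtain ⟨k, m, hm, hkm⟩ := Nat.exists_eq_pow_mul_and_not_dvd (orderOf_pos g).ne' p hp.ne_one
    have hm0 : 0 < m := Nat.pos_of_ne_zero (by rintro rfl; simp at hm)
    have hou : orderOf (g ^ m) = p ^ k := by
      rw [orderOf_pow_of_dvd hm0.ne' (by rw [hkm]; exact Dvd.intro_left _ rfl), hkm]
      exact Nat.mul_div_cancel _ hm0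
    have hpk : 0 < p ^ k := pow_pos hp.pos k
    have hov : orderOf (g ^ p ^ k) = m := by
      rw [orderOf_pow_of_dvd hpk.ne' (by rw [hkm]; exact Dvd.intro _ rfl), hkm]
      exact Nat.mul_div_cancel_left _ hpk
    have hvcop : (orderOf (g ^ p ^ k)).Coprime p := by
      rw [hov]; exact (Nat.Coprime.symm (hp.coprime_iff_not_dvd.2 hm))
    have hidx := h _ hvcop
    obtain ⟨P₂, hP₂u, hP₂v⟩ := Lib.Helper22.exists_sylow_le_of_not_dvd_index _ hidx
      (Subgroup.zpowers (g ^ m))
      (IsPGroup.of_card (n := k) (by rw [Nat.card_zpowers, hou]))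
      (by
        rw [Subgroup.zpowers_le, Subgroup.mem_centralizer_singleton_iff]
        rw [← pow_add, ← pow_add, add_comm])
    obtain ⟨c, hc⟩ := MulAction.exists_smul_eq C P₂ P₁
    have hmem : ∀ z ∈ P₂, c * z * c⁻¹ ∈ (P₁ : Subgroup C) := by
      intro z hz
      rw [← hc, Sylow.coe_subgroup_smul]
      exact ⟨z, hz, rfl⟩
    have hmem' : ∀ w ∈ (P₁ : Subgroup C), ∃ z ∈ P₂, w = c * z * c⁻¹ := by
      intro w hw
      rw [← hc, Sylow.coe_subgroup_smul] at hw
      obtain ⟨z, hz, hzw⟩ := hw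
      exact ⟨z, hz, hzw.symm⟩
    have hgM : c * g * c⁻¹ ∈ M₁ := by
      have hcop : Nat.Coprime m (p ^ k) :=
        Nat.Coprime.pow_right _ (Nat.Coprime.symm (hp.coprime_iff_not_dvd.2 hm))
      apply Lib.Helper22.mem_of_pow_mem_of_coprime M₁ _ m (p ^ k) hcop
      · rw [conj_pow]
        exact Subgroup.mem_sup_left (hmem _ (hP₂u (Subgroup.mem_zpowers _)))
      · rw [conj_pow]
        apply Subgroup.mem_sup_right
        rw [Subgroup.mem_centralizer_iff]
        intro w hw
        obtain ⟨z, hz, rfl⟩ := hmem' w hw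
        have h1 := hP₂v hz
        rw [Subgroup.mem_centralizer_singleton_iff] at h1
        calc c * z * c⁻¹ * (c * g ^ p ^ k * c⁻¹) = c * (z * g ^ p ^ k) * c⁻¹ := by group
          _ = c * (g ^ p ^ k * z) * c⁻¹ := by rw [h1]
          _ = _ := by group
    refine ⟨((c⁻¹ : C) : C ⧸ M₁), ?_⟩
    show ((g * c⁻¹ : C) : C ⧸ M₁) = ((c⁻¹ : C) : C ⧸ M₁)
    rw [eq_comm, QuotientGroup.eq]
    simpa [mul_assoc] using hgM
  have hsub : Subsingleton (C ⧸ M₁) := Lib.Helper22.subsingleton_of_forall_exists_fixed hcover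
  have hM₁ : M₁ = ⊤ := by
    rw [← Subgroup.index_eq_one, Subgroup.index_eq_card]
    exact Nat.card_unique
  haveI hP₁n : (P₁ : Subgroup C).Normal := by
    rw [← Subgroup.normalizer_eq_top_iff, eq_top_iff, ← hM₁]
    apply sup_le Subgroup.le_normalizer
    intro z hz
    rw [Subgroup.mem_centralizer_iff] at hz
    rw [Subgroup.mem_normalizer_iff]
    intro w
    constructor
    · intro hw
      have : z * w * z⁻¹ = w := by rw [← hz w hw, mul_assoc, mul_inv_cancel, mul_one]
      rw [this]; exact hw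
    · intro hw
      have h2 := hz _ hw
      have : z * w * z⁻¹ = w := by
        have h3 : z * w * z⁻¹ * z = z * (z * w * z⁻¹) := h2
        have h4 : z * w = z * (z * w * z⁻¹) := by rw [← h3]; group
        exact (mul_left_cancel h4).symm
      rw [← this]; exact hw
  have hcopP : (Nat.card (P₁ : Subgroup C)).Coprime (P₁ : Subgroup C).index := by
    obtain ⟨n, hn⟩ := IsPGroup.iff_card.1 P₁.2
    rw [hn]
    exact Nat.Coprime.pow_left _ (hp.coprime_iff_not_dvd.2 P₁.not_dvd_index)
  obtain ⟨K, hK⟩ := Subgroup.exists_right_complement'_of_coprime hcopP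
  have hKcard : Nat.card K = (P₁ : Subgroup C).index := by
    have h1 := hK.card_mul
    have h2 := (P₁ : Subgroup C).card_mul_index
    have h3 : 0 < Nat.card (P₁ : Subgroup C) := Nat.card_pos
    exact Nat.eq_of_mul_eq_mul_left h3 (h1.trans h2.symm)
  have hKcop : (Nat.card K).Coprime p := by
    rw [hKcard]
    exact Nat.Coprime.symm (hp.coprime_iff_not_dvd.2 P₁.not_dvd_index)
  have hKcent : ∀ k ∈ K, ∀ u ∈ (P₁ : Subgroup C), u * k = k * u := by
    intro k hk u hu
    have hko : (orderOf k).Coprime p :=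
      Nat.Coprime.coprime_dvd_left (Subgroup.orderOf_dvd_natCard K hk) hKcop
    obtain ⟨P₂, _, hP₂⟩ := Lib.Helper22.exists_sylow_le_of_not_dvd_index _ (h k hko) ⊥
      (IsPGroup.of_bot) bot_le
    have : P₂ = P₁ := by
      haveI := Sylow.unique_of_normal P₁ hP₁n
      exact Subsingleton.elim _ _
    rw [this] at hP₂
    have := hP₂ hu
    rwa [Subgroup.mem_centralizer_singleton_iff] at this
  refine ⟨K, ?_, hKcop, ?_⟩
  · refine ⟨fun k hk g => ?_⟩
    obtain ⟨⟨⟨u, hu⟩, ⟨k', hk'⟩⟩, hg⟩ := hK.2 g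
    have hg' : u * k' = g := hg
    rw [← hg']
    have h1 : k' * k * k'⁻¹ ∈ K := K.mul_mem (K.mul_mem hk' hk) (K.inv_mem hk')
    have h2 := hKcent _ h1 u hu
    have : u * k' * k * (u * k')⁻¹ = k' * k * k'⁻¹ := by
      calc u * k' * k * (u * k')⁻¹ = (u * (k' * k * k'⁻¹)) * u⁻¹ := by group
        _ = (k' * k * k'⁻¹ * u) * u⁻¹ := by rw [h2]
        _ = _ := by group
    rw [this]; exact h1
  · obtain ⟨n, hn⟩ := IsPGroup.iff_card.1 P₁.2
    refine ⟨n, ?_⟩
    have h1 := hK.card_mul
    have h2 := K.card_mul_index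
    have h3 : 0 < Nat.card K := Nat.card_pos
    rw [← hn]
    apply Nat.eq_of_mul_eq_mul_left h3
    rw [h2, ← h1, mul_comm]

/-- Let G be a finite group, p a prime and p^a the largest power of p dividing the size of any conjugacy class of G. If some element of p-power order has a conjugacy class of size exactly p^a, then G has a normal p-complement. -/
theorem result {G : Type*} [Group G] [Finite G] (p : ℕ) [Fact p.Prime]
    (a : ℕ) (hmax : ∀ y : G, ¬ p ^ (a + 1) ∣ (Subgroup.centralizer ({y} : Set G)).index)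
    (hx : ∃ x : G, (∃ k : ℕ, orderOf x = p ^ k) ∧ (Subgroup.centralizer ({x} : Set G)).index = p ^ a) :
    Cfsg.HasNormalPComplement p G := by
  classical
  have hp : p.Prime := Fact.out
  obtain ⟨x, ⟨k, hxk⟩, hidx⟩ := hx
  set C : Subgroup G := Subgroup.centralizer ({x} : Set G) with hC
  have h1 : ∀ y : C, (orderOf y).Coprime p →
      ¬ p ∣ (Subgroup.centralizer ({y} : Set C)).index := by
    intro y hy hdvd
    let E : Subgroup G := Subgroup.centralizer ({x * (y : G)} : Set G)
    have hxy : (y : G) * x = x * y := Subgroup.mem_centralizer_singleton_iff.1 y.2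
    have hcomm : Commute x (y : G) := hxy.symm
    have hEC : E ≤ C := by
      intro c hc
      rw [Subgroup.mem_centralizer_singleton_iff] at hc ⊢
      have h2 : x ∈ Subgroup.centralizer ({c} : Set G) := by
        apply Lib.Helper22.mem_of_pow_mem_of_coprime _ x (orderOf (y : G)) (orderOf x)
        · rw [hxk, Subgroup.orderOf_coe]; exact Nat.Coprime.pow_right _ hy
        · have h3 : x ^ orderOf (y : G) = (x * y) ^ orderOf (y : G) := by
            rw [hcomm.mul_pow, pow_orderOf_eq_one, mul_one]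
          rw [h3]
          apply Subgroup.pow_mem
          rw [Subgroup.mem_centralizer_singleton_iff]; exact hc.symm
        · rw [pow_orderOf_eq_one]; exact Subgroup.one_mem _
      rw [Subgroup.mem_centralizer_singleton_iff] at h2
      exact h2.symm
    have hsub : E.subgroupOf C = Subgroup.centralizer ({y} : Set C) := by
      ext c
      rw [Subgroup.mem_subgroupOf, Subgroup.mem_centralizer_singleton_iff,
        Subgroup.mem_centralizer_singleton_iff]
      have hcx : (c : G) * x = x * c := Subgroup.mem_centralizer_singleton_iff.1 c.2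
      constructor
      · intro h
        apply Subtype.ext
        show (c : G) * y = y * c
        have h4 : x * ((c : G) * y) = x * (y * c) := by
          rw [← mul_assoc, ← hcx, mul_assoc, h, mul_assoc]
        exact mul_left_cancel h4
      · intro h
        have h' : (c : G) * y = y * c := congrArg Subtype.val h
        rw [← mul_assoc, hcx, mul_assoc, h', mul_assoc]
    have hrel : E.relIndex C * C.index = E.index := Subgroup.relIndex_mul_index hEC
    apply hmax (x * y)
    show p ^ (a + 1) ∣ E.index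
    rw [← hrel, hidx, pow_succ, mul_comm]
    apply Nat.mul_dvd_mul_right
    show p ∣ (E.subgroupOf C).index
    rw [hsub]; exact hdvd
  obtain ⟨K₀, hK₀n, hK₀cop, ⟨b, hK₀idx⟩⟩ := normal_complement_of_pprime_index p h1
  let K : Subgroup G := K₀.map C.subtype
  have hKC : K ≤ C := Subgroup.map_subtype_le K₀
  have hKcard : Nat.card K = Nat.card K₀ :=
    Subgroup.card_map_of_injective C.subtype_injective
  have hKcop : (Nat.card K).Coprime p := by rw [hKcard]; exact hK₀cop
  have hKmem : ∀ y ∈ C, (orderOf y).Coprime p → y ∈ K := by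
    intro y hy hyo
    refine ⟨⟨y, hy⟩, ?_, rfl⟩
    show (⟨y, hy⟩ : C) ∈ K₀
    rw [← QuotientGroup.eq_one_iff]
    have h2 : orderOf (((⟨y, hy⟩ : C) : C ⧸ K₀)) ∣ orderOf y := by
      have := orderOf_map_dvd (QuotientGroup.mk' K₀) (⟨y, hy⟩ : C)
      rwa [Subgroup.orderOf_mk] at this
    have h3 : orderOf (((⟨y, hy⟩ : C) : C ⧸ K₀)) ∣ p ^ b := by
      rw [← hK₀idx, Subgroup.index_eq_card]
      exact orderOf_dvd_natCard _
    have h4 : orderOf (((⟨y, hy⟩ : C) : C ⧸ K₀)) ∣ 1 := by
      rw [← Nat.Coprime.gcd_eq_one (Nat.Coprime.pow_right b hyo)]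
      exact Nat.dvd_gcd h2 h3
    exact orderOf_eq_one_iff.1 (Nat.dvd_one.1 h4)
  have hKnC : ∀ t ∈ C, ∀ κ ∈ K, t * κ * t⁻¹ ∈ K := by
    rintro t ht _ ⟨κ, hκ, rfl⟩
    exact ⟨⟨t, ht⟩ * κ * ⟨t, ht⟩⁻¹, hK₀n.conj_mem κ hκ ⟨t, ht⟩, rfl⟩
  have hxp : IsPGroup p (Subgroup.zpowers x) :=
    IsPGroup.of_card (n := k) (by rw [Nat.card_zpowers, hxk])
  obtain ⟨S, hS⟩ := hxp.exists_le_sylow
  have hxS : x ∈ S := hS (Subgroup.mem_zpowers x)
  let T : Subgroup G := (S : Subgroup G).normalCore
  have hxT : x ∈ T := fun g => Lib.Helper22.conj_mem_sylow_of_index_pow S x hxS a hidx g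
  have hTp : IsPGroup p T := S.2.to_le (Subgroup.normalCore_le _)
  have hKT : K ≤ Subgroup.centralizer (T : Set G) := by
    apply Cfsg.Agent.S0028.result p (Subgroup.zpowers x) K T hxp hKcop hTp
    · rw [Subgroup.zpowers_le, Subgroup.mem_centralizer_iff]
      intro κ hκ
      exact Subgroup.mem_centralizer_singleton_iff.1 (hKC hκ)
    · rw [Subgroup.normalizer_eq_top]; exact le_top
    · rw [Subgroup.normalizer_eq_top]; exact le_top
    · intro t ht
      rw [Subgroup.mem_inf] at ht
      have htC : t ∈ C := by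
        rw [hC, Subgroup.mem_centralizer_singleton_iff]
        exact ((Subgroup.mem_centralizer_iff.1 ht.2) x (Subgroup.mem_zpowers x)).symm
      rw [Subgroup.mem_centralizer_iff]
      intro κ hκ
      have hc1 : t * κ * t⁻¹ * κ⁻¹ ∈ K := K.mul_mem (hKnC t htC κ hκ) (K.inv_mem hκ)
      have hc2 : t * κ * t⁻¹ * κ⁻¹ ∈ T := by
        have h5 : κ * t⁻¹ * κ⁻¹ ∈ T :=
          (inferInstance : T.Normal).conj_mem _ (T.inv_mem ht.1) κ
        have h6 := T.mul_mem ht.1 h5
        simpa [mul_assoc] using h6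
      obtain ⟨j, hj⟩ := hTp ⟨_, hc2⟩
      have hj' : (t * κ * t⁻¹ * κ⁻¹) ^ p ^ j = 1 := congrArg Subtype.val hj
      have h7 : orderOf (t * κ * t⁻¹ * κ⁻¹) ∣ 1 := by
        rw [← Nat.Coprime.gcd_eq_one (Nat.Coprime.pow_right j hKcop)]
        exact Nat.dvd_gcd (Subgroup.orderOf_dvd_natCard K hc1) (orderOf_dvd_of_pow_eq_one hj')
      have h8 : t * κ * t⁻¹ * κ⁻¹ = 1 := orderOf_eq_one_iff.1 (Nat.dvd_one.1 h7)
      calc κ * t = (t * κ * t⁻¹ * κ⁻¹)⁻¹ * (t * κ) := by group
        _ = t * κ := by rw [h8, inv_one, one_mul]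
  have hKn : K.Normal := by
    refine ⟨fun κ hκ g => ?_⟩
    apply hKmem
    · rw [hC, Subgroup.mem_centralizer_singleton_iff]
      have h5 : g⁻¹ * x * g⁻¹⁻¹ ∈ T := (inferInstance : T.Normal).conj_mem _ hxT g⁻¹
      have h6 := (Subgroup.mem_centralizer_iff.1 (hKT hκ)) _ h5
      calc g * κ * g⁻¹ * x = g * (κ * (g⁻¹ * x * g⁻¹⁻¹)) * g⁻¹ := by group
        _ = g * ((g⁻¹ * x * g⁻¹⁻¹) * κ) * g⁻¹ := by rw [h6]
        _ = x * (g * κ * g⁻¹) := by group
    · have : g * κ * g⁻¹ = MulAut.conj g κ := rfl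
      rw [this, MulEquiv.orderOf_eq]
      exact Nat.Coprime.coprime_dvd_left (Subgroup.orderOf_dvd_natCard K hκ) hKcop
  refine ⟨S, K, hKn, ?_⟩
  have hKidx : K.index = p ^ (b + a) := by
    have h5 : K.relIndex C * C.index = K.index := Subgroup.relIndex_mul_index hKC
    have h6 : K.relIndex C = K₀.index := by
      show (K.subgroupOf C).index = _
      congr 1
      ext c
      rw [Subgroup.mem_subgroupOf]
      constructor
      · rintro ⟨c', hc', hcc⟩
        have : c' = c := Subtype.ext hcc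
        exact this ▸ hc'
      · intro hc
        exact ⟨c, hc, rfl⟩
    rw [← h5, h6, hK₀idx, hidx, pow_add]
  obtain ⟨n, hn⟩ := IsPGroup.iff_card.1 S.2
  have e1 := K.card_mul_index
  have e2 := (S : Subgroup G).card_mul_index
  have hSidx : (p ^ (b + a)).Coprime (S : Subgroup G).index :=
    Nat.Coprime.pow_left _ (hp.coprime_iff_not_dvd.2 S.not_dvd_index)
  have hScard : Nat.card (S : Subgroup G) = p ^ (b + a) := by
    apply Nat.dvd_antisymm
    · have h7 : Nat.card (S : Subgroup G) ∣ Nat.card K * p ^ (b + a) := by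
        rw [← hKidx, e1, ← e2]; exact Dvd.intro _ rfl
      have h8 : (Nat.card (S : Subgroup G)).Coprime (Nat.card K) := by
        rw [hn]; exact Nat.Coprime.pow_left _ hKcop.symm
      exact h8.dvd_of_dvd_mul_left h7
    · have h7 : p ^ (b + a) ∣ Nat.card (S : Subgroup G) * (S : Subgroup G).index := by
        rw [e2, ← e1, hKidx]; exact Dvd.intro_left _ rfl
      exact hSidx.dvd_of_dvd_mul_right h7
  apply Subgroup.isComplement'_of_coprime
  · rw [hScard, ← hKidx, e1]
  · rw [hScard]; exact Nat.Coprime.pow_right _ hKcop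

end Cfsg.Agent.S4127
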