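import Cfsg.Statements.S4142
import Mathlib
import Cfsg.Agent.Lib.Helper21.FrobCount

set_option autoImplicit false
open Cfsg

namespace Cfsg.Agent.S4142

open Cfsg.Agent.Lib.Helper21 in
theorem key {G : Type*} [Group G] [Finite G] (N : Subgroup G) [N.Normal] (g : G) :
    (∀ n ∈ N, ∃ x : G, x * g * x⁻¹ = g * n) ↔
      Nat.card (Subgroup.centralizer ({g} : Set G)) =
        Nat.card (Subgroup.centralizer ({(QuotientGroup.mk g : G ⧸ N)} : Set (G ⧸ N))) := by
  classical
  set S : Set G := {u : G | IsConj g u} with hS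
  set T : Set G := (QuotientGroup.mk : G → G ⧸ N) ⁻¹' {v | IsConj (QuotientGroup.mk g : G ⧸ N) v}
    with hT
  have hST : S ⊆ T := by
    intro u hu
    obtain ⟨c, hc⟩ := isConj_iff.1 (show IsConj g u from hu)
    show IsConj (QuotientGroup.mk g : G ⧸ N) (QuotientGroup.mk u)
    rw [isConj_iff]
    exact ⟨QuotientGroup.mk c, by rw [← hc]; rfl⟩
  have h1 : Nat.card S * Nat.card (Subgroup.centralizer ({g} : Set G)) = Nat.card G :=
    fc_card_conj_mul_card_centralizer g
  have h2 : Nat.card {v : G ⧸ N // IsConj (QuotientGroup.mk g : G ⧸ N) v} *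
      Nat.card (Subgroup.centralizer ({(QuotientGroup.mk g : G ⧸ N)} : Set (G ⧸ N))) =
      Nat.card (G ⧸ N) := fc_card_conj_mul_card_centralizer _
  have h3 : Nat.card T = Nat.card N * Nat.card {v : G ⧸ N // IsConj (QuotientGroup.mk g : G ⧸ N) v} :=
    QuotientGroup.card_preimage_mk N _
  have h4 : Nat.card G = Nat.card (G ⧸ N) * Nat.card N :=
    Subgroup.card_eq_card_quotient_mul_card_subgroup N
  have h5 : Nat.card T *
      Nat.card (Subgroup.centralizer ({(QuotientGroup.mk g : G ⧸ N)} : Set (G ⧸ N))) =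
      Nat.card G := by
    rw [h3, h4, ← h2]; ring
  have hSpos : 0 < Nat.card S := by
    haveI : Nonempty S := ⟨⟨g, IsConj.refl g⟩⟩
    exact Nat.card_pos
  have hCpos : 0 < Nat.card (Subgroup.centralizer ({g} : Set G)) := Nat.card_pos
  constructor
  · intro h
    have hTS : T ⊆ S := by
      intro u hu
      have hu' : IsConj (QuotientGroup.mk g : G ⧸ N) (QuotientGroup.mk u) := hu
      obtain ⟨c, hc⟩ := isConj_iff.1 hu'
      obtain ⟨x, rfl⟩ := QuotientGroup.mk_surjective c
      have h6 : g⁻¹ * (x⁻¹ * u * x) ∈ N := by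
        rw [← QuotientGroup.eq]
        simp only [QuotientGroup.mk_mul, QuotientGroup.mk_inv]
        rw [← hc]
        group
      obtain ⟨y, hy⟩ := h _ h6
      have h7 : y * g * y⁻¹ = x⁻¹ * u * x := by rw [hy]; group
      show IsConj g u
      rw [isConj_iff]
      refine ⟨x * y, ?_⟩
      calc x * y * g * (x * y)⁻¹ = x * (y * g * y⁻¹) * x⁻¹ := by group
        _ = u := by rw [h7]; group
    have hEq : S = T := Set.Subset.antisymm hST hTS
    rw [← hEq] at h5
    exact Nat.eq_of_mul_eq_mul_left hSpos (h1.trans h5.symm)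
  · intro h n hn
    rw [← h] at h5
    have h6 : Nat.card S = Nat.card T := Nat.eq_of_mul_eq_mul_right hCpos (h1.trans h5.symm)
    have hEq : S = T := by
      apply Set.eq_of_subset_of_ncard_le hST _ (Set.toFinite T)
      rw [← Nat.card_coe_set_eq, ← Nat.card_coe_set_eq, h6]
    have h7 : g * n ∈ T := by
      show IsConj (QuotientGroup.mk g : G ⧸ N) (QuotientGroup.mk (g * n))
      have : (QuotientGroup.mk (g * n) : G ⧸ N) = QuotientGroup.mk g := by
        rw [QuotientGroup.mk_mul, (QuotientGroup.eq_one_iff n).2 hn, mul_one]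
      rw [this]
    rw [← hEq] at h7
    exact isConj_iff.1 h7

/-- Let G be a finite group and N a normal subgroup. Then the conjugacy class of every element g outside N is a union of cosets of N (gn is conjugate to g for all n ∈ N) if and only if for every g outside N the centralizer of g in G has the same order as the centralizer of gN in G/N. -/
theorem result {G : Type*} [Group G] [Finite G] (N : Subgroup G) [N.Normal] :
    (∀ g : G, g ∉ N → ∀ n ∈ N, ∃ x : G, x * g * x⁻¹ = g * n) ↔
      ∀ g : G, g ∉ N → Nat.card (Subgroup.centralizer ({g} : Set G)) =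
        Nat.card (Subgroup.centralizer ({(QuotientGroup.mk g : G ⧸ N)} : Set (G ⧸ N))) := by
  constructor
  · intro h g hg
    exact (key N g).1 (h g hg)
  · intro h g hg
    exact (key N g).2 (h g hg)

end Cfsg.Agent.S4142
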