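import Cfsg.Statements.S4143
import Mathlib
import Cfsg.Agent.S0112
import Cfsg.Agent.Lib.Helper14.Pairing
-- import your own Cfsg.Agent.* helpers here

set_option autoImplicit false
open Cfsg

namespace Cfsg.Agent.S4143

open scoped commutatorElement

/-- Let X be a finite p-group of order p^n containing a non-abelian subgroup B of order p³ with C_X(B) ≤ B. Then X has nilpotency class n − 1 (maximal class). -/
theorem result {X : Type*} [Group X] [Finite X] {p : ℕ} [Fact p.Prime] (n : ℕ) (hX : Nat.card X = p ^ n)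
    (B : Subgroup X) (hB : Nat.card B = p ^ 3) (hBna : ¬ IsMulCommutative B) (hC : Subgroup.centralizer (B : Set X) ≤ B) :
    Group.nilpotencyClass X = n - 1 := by
  have hp : p.Prime := Fact.out
  have hXp : IsPGroup p X := IsPGroup.of_card hX
  have hnil : Group.IsNilpotent X := hXp.isNilpotent
  have hn3 : 3 ≤ n := by
    have h1 := Subgroup.card_le_card_group B
    rw [hB, hX] at h1
    exact (Nat.pow_le_pow_iff_right hp.one_lt).mp h1
  have hnt : Nontrivial X := by
    rw [← Finite.one_lt_card_iff_nontrivial, hX]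
    exact Nat.one_lt_pow (by omega) hp.one_lt
  obtain ⟨Z, hZdef⟩ : ∃ Z, Z = Subgroup.center X := ⟨_, rfl⟩
  obtain ⟨C, hCdef⟩ : ∃ C, C = Subgroup.centralizer (B : Set X) := ⟨_, rfl⟩
  have hZC : Z ≤ C := by rw [hZdef, hCdef]; exact Subgroup.center_le_centralizer _
  have hCB : C ≤ B := hCdef ▸ hC
  have hZbot : Z ≠ ⊥ := by rw [hZdef]; exact (IsPGroup.bot_lt_center hXp).ne'
  have hCcard : Nat.card C = p := by
    have h1 : Nat.card C ∣ p ^ 3 := hB ▸ Subgroup.card_dvd_of_le hCB
    obtain ⟨k, hk, hk2⟩ := (Nat.dvd_prime_pow hp).mp h1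
    have hk0 : k ≠ 0 := by
      rintro rfl
      rw [pow_zero, Subgroup.card_eq_one] at hk2
      rw [hk2, le_bot_iff] at hZC
      exact hZbot hZC
    have hk3 : k ≠ 3 := by
      rintro rfl
      have hCeq : C = B := Subgroup.eq_of_le_of_card_ge hCB (by rw [hB, hk2])
      apply hBna
      refine ⟨⟨fun a b => Subtype.ext ?_⟩⟩
      have : (b : X) ∈ Subgroup.centralizer (B : Set X) := by rw [← hCdef, hCeq]; exact b.2
      exact this a a.2
    have hk2' : k ≠ 2 := by
      rintro rfl
      obtain ⟨b, hbB, hbC⟩ : ∃ b ∈ B, b ∉ C := by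
        by_contra hcon
        push Not at hcon
        have := Subgroup.card_le_of_le (show B ≤ C from hcon)
        rw [hB, hk2] at this
        have := (Nat.pow_le_pow_iff_right hp.one_lt).mp this
        omega
      have hK : C ⊔ Subgroup.zpowers b = B := by
        have hle : C ⊔ Subgroup.zpowers b ≤ B := sup_le hCB (Subgroup.zpowers_le.mpr hbB)
        apply Subgroup.eq_of_le_of_card_ge hle
        obtain ⟨j, hj, hj2⟩ := (Nat.dvd_prime_pow hp).mp (hB ▸ Subgroup.card_dvd_of_le hle)
        have hlt : C < C ⊔ Subgroup.zpowers b := by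
          apply lt_of_le_of_ne le_sup_left
          intro h
          apply hbC
          rw [h]
          exact Subgroup.mem_sup_right (Subgroup.mem_zpowers b)
        have h3 : Nat.card C < Nat.card ↥(C ⊔ Subgroup.zpowers b) := by
          by_contra hcon
          push Not at hcon
          exact hlt.ne (Subgroup.eq_of_le_of_card_ge hlt.le hcon)
        rw [hk2, hj2] at h3
        have := (Nat.pow_lt_pow_iff_right hp.one_lt).mp h3
        have hj3 : j = 3 := by omega
        rw [hB, hj2, hj3]
      apply hbC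
      have h4 : C ⊔ Subgroup.zpowers b ≤ Subgroup.centralizer (Subgroup.zpowers b : Set X) := by
        apply sup_le
        · rw [Subgroup.le_centralizer_iff, Subgroup.zpowers_le, Subgroup.mem_centralizer_iff]
          intro c hc
          rw [SetLike.mem_coe, hCdef] at hc
          exact (hc b hbB).symm
        · exact Subgroup.le_centralizer _
      rw [Subgroup.le_centralizer_iff, hK, ← hCdef] at h4
      exact h4 (Subgroup.mem_zpowers b)
    have : k = 1 := by omega
    rw [hk2, this, pow_one]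
  have hZeq : Z = C := by
    apply Subgroup.eq_of_le_of_card_ge hZC
    rcases (Nat.dvd_prime hp).mp (hCcard ▸ Subgroup.card_dvd_of_le hZC) with h | h
    · rw [Subgroup.card_eq_one] at h
      exact absurd h hZbot
    · rw [hCcard, h]
  have hZcard : Nat.card Z = p := hZeq ▸ hCcard
  have hZB : Z ≤ B := hZC.trans hCB
  have hZn : Z.Normal := by rw [hZdef]; infer_instance
  let π := QuotientGroup.mk' Z
  have hπ : Function.Surjective π := QuotientGroup.mk'_surjective Z
  obtain ⟨Bb, hBb⟩ : ∃ Bb, Bb = B.map π := ⟨_, rfl⟩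
  have hBcomap : Bb.comap π = B := by
    rw [hBb]
    apply Subgroup.comap_map_eq_self
    rw [QuotientGroup.ker_mk']
    exact hZB
  obtain ⟨m, rfl⟩ : ∃ m, n = m + 1 := ⟨n - 1, by omega⟩
  have hXbcard : Nat.card (X ⧸ Z) = p ^ m := by
    have h1 := Subgroup.card_mul_index Z
    rw [hZcard, hX, pow_succ'] at h1
    exact Nat.eq_of_mul_eq_mul_left hp.pos h1
  have hBbcard : Nat.card Bb = p ^ 2 := by
    have hidx : B.index = Bb.index := by
      rw [← hBcomap]; exact Subgroup.index_comap_of_surjective Bb hπ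
    have h1 := Subgroup.card_mul_index B
    have h2 := Subgroup.card_mul_index Bb
    rw [hB, hX, hidx] at h1
    rw [hXbcard] at h2
    have h3 : p * (p ^ 2 * Bb.index) = p * (Nat.card Bb * Bb.index) := by
      rw [h2, ← pow_succ', ← h1]; ring
    have h4 := Nat.eq_of_mul_eq_mul_left hp.pos h3
    have h5 : Bb.index ≠ 0 := Subgroup.index_ne_zero_of_finite
    exact (Nat.eq_of_mul_eq_mul_right (Nat.pos_of_ne_zero h5) h4).symm
  obtain ⟨Db, hDb⟩ : ∃ Db, Db = Subgroup.centralizer (Bb : Set (X ⧸ Z)) := ⟨_, rfl⟩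
  obtain ⟨D, hD⟩ : ∃ D, D = Db.comap π := ⟨_, rfl⟩
  have hBbDb : Bb ≤ Db := by
    have hcomm := IsPGroup.isMulCommutative_of_card_eq_prime_sq hBbcard
    rw [hDb]
    intro x hx y hy
    exact congrArg Subtype.val (hcomm.is_comm.comm ⟨y, hy⟩ ⟨x, hx⟩)
  have hBD : B ≤ D := by
    rw [hD, ← hBcomap]; exact Subgroup.comap_mono hBbDb
  have hDmem : ∀ x ∈ D, ∀ b ∈ B, ⁅x, b⁆ ∈ Z := by
    intro x hx b hb
    rw [hD, Subgroup.mem_comap, hDb, Subgroup.mem_centralizer_iff] at hx
    have h1 := hx (π b) (by rw [hBb]; exact ⟨b, hb, rfl⟩)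
    rw [← QuotientGroup.eq_one_iff]
    show π ⁅x, b⁆ = 1
    rw [map_commutatorElement, commutatorElement_eq_one_iff_mul_comm, h1]
  have hpair := Cfsg.Agent.Lib.Helper14.comm_pairing Z D B (by rw [hZdef]) hZcard hDmem
  rw [← hCdef, ← hZeq] at hpair
  have hZD : Z ≤ Subgroup.centralizer (D : Set X) := by
    rw [hZdef]; exact Subgroup.center_le_centralizer _
  have hdvd : Z.relIndex D ∣ Z.relIndex B := by
    rw [hpair]; exact Subgroup.relIndex_dvd_of_le_left B hZD
  have hDB : D = B := by
    symm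
    apply Subgroup.eq_of_le_of_card_ge hBD
    have h1 := Subgroup.relIndex_mul_relIndex ⊥ Z B bot_le hZB
    have h2 := Subgroup.relIndex_mul_relIndex ⊥ Z D bot_le (hZB.trans hBD)
    rw [Subgroup.relIndex_bot_left, Subgroup.relIndex_bot_left] at h1 h2
    rw [← h1, ← h2]
    apply Nat.mul_le_mul_left
    apply Nat.le_of_dvd _ hdvd
    rcases Nat.eq_zero_or_pos (Z.relIndex B) with h | h
    · rw [h, mul_zero] at h1
      have := Nat.card_pos (α := B)
      omega
    · exact h
  have hself : Subgroup.centralizer (Bb : Set (X ⧸ Z)) = Bb := by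
    rw [← hDb, ← Subgroup.map_comap_eq_self_of_surjective hπ Db, ← hD, hDB, hBb]
  have h112 := Cfsg.Agent.S0112.result m hXbcard Bb hBbcard hself
  subst hZdef
  rw [Group.nilpotencyClass_eq_quotient_center_plus_one, h112]
  omega

end Cfsg.Agent.S4143
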