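import Cfsg.Statements.S4152
import Cfsg.Agent.Lib.Helper21.KPi3

set_option autoImplicit false
open Cfsg

namespace Cfsg.Agent.S4152

/-- Let G be a finite group, N a normal subgroup and π a set of primes. Then the number of conjugacy classes of π-elements of G (elements whose order is divisible only by primes in π) is at most the number of conjugacy classes of π-elements of N (under conjugation by N) times the number of conjugacy classes of π-elements of G/N. -/
theorem result {G : Type*} [Group G] [Finite G] (N : Subgroup G) [N.Normal] (π : Set ℕ) :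
    Nat.card {C : ConjClasses G // ∀ q : ℕ, q.Prime → (∃ g : G, ConjClasses.mk g = C ∧ q ∣ orderOf g) → q ∈ π} ≤ Nat.card {C : ConjClasses N // ∀ q : ℕ, q.Prime → (∃ g : N, ConjClasses.mk g = C ∧ q ∣ orderOf g) → q ∈ π} * Nat.card {C : ConjClasses (G ⧸ N) // ∀ q : ℕ, q.Prime → (∃ g : (G ⧸ N), ConjClasses.mk g = C ∧ q ∣ orderOf g) → q ∈ π} := by
  have key : ∀ (H : Type _) [Group H],
      Nat.card {C : ConjClasses H // ∀ q : ℕ, q.Prime →
        (∃ g : H, ConjClasses.mk g = C ∧ q ∣ orderOf g) → q ∈ π} =
      Nat.card {C : ConjClasses H // ∀ g : H, ConjClasses.mk g = C →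
        Cfsg.Agent.Lib.Helper21.isPiElt π g} := by
    intro H _
    exact Nat.card_congr (Equiv.subtypeEquivRight (fun C =>
      ⟨fun h g hg q hq hd => h q hq ⟨g, hg, hd⟩, fun h q hq ⟨g, hg, hd⟩ => h g hg q hq hd⟩))
  rw [key G, key N, key (G ⧸ N)]
  exact Cfsg.Agent.Lib.Helper21.kpi_le_mul N π

end Cfsg.Agent.S4152
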