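import Cfsg.Statements.S4153
import Mathlib

set_option autoImplicit false
open Cfsg

namespace Cfsg.Agent.S4153

lemma exists_lift {G : Type*} [Group G] [Finite G] (p : ℕ) [hp : Fact p.Prime] (N : Subgroup G)
    [N.Normal] (y : G ⧸ N) (hy : ∃ k : ℕ, orderOf y = p ^ k) :
    ∃ s : G, (∃ k : ℕ, orderOf s = p ^ k) ∧ (QuotientGroup.mk s : G ⧸ N) = y := by
  obtain ⟨x, rfl⟩ := QuotientGroup.mk_surjective y
  obtain ⟨b, hb⟩ := hy
  obtain ⟨a, m, hm, hxm⟩ := Nat.exists_eq_pow_mul_and_not_dvd (orderOf_pos x).ne' p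
    hp.out.one_lt.ne'
  have hm0 : m ≠ 0 := by
    rintro rfl
    exact hm (dvd_zero p)
  have hcop : m.Coprime (orderOf (QuotientGroup.mk x : G ⧸ N)) := by
    rw [hb]
    exact Nat.Coprime.pow_right b ((Nat.Prime.coprime_iff_not_dvd hp.out).2 hm).symm
  obtain ⟨u, hu⟩ := exists_pow_eq_self_of_coprime hcop
  have h1 : orderOf (x ^ m) = p ^ a := by
    rw [orderOf_pow_of_dvd hm0 (by rw [hxm]; exact dvd_mul_left _ _), hxm]
    exact Nat.mul_div_cancel _ (Nat.pos_of_ne_zero hm0)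
  refine ⟨(x ^ m) ^ u, ?_, ?_⟩
  · have h2 : orderOf ((x ^ m) ^ u) ∣ p ^ a := h1 ▸ orderOf_pow_dvd u
    obtain ⟨j, _, hj⟩ := (Nat.dvd_prime_pow hp.out).1 h2
    exact ⟨j, hj⟩
  · rw [QuotientGroup.mk_pow, QuotientGroup.mk_pow]
    exact hu

lemma card_inf_mul {G : Type*} [Group G] [Finite G] (p : ℕ) [Fact p.Prime] (N : Subgroup G)
    [N.Normal] (P S : Sylow p G) (Pbar : Sylow p (G ⧸ N)) :
    Nat.card ↥(N ⊓ (S : Subgroup G)) * Nat.card (Pbar : Subgroup (G ⧸ N))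
      = Nat.card (P : Subgroup G) := by
  have h1 := Subgroup.relIndex_mul_relIndex ⊥ (N ⊓ (S : Subgroup G)) (S : Subgroup G) bot_le
    inf_le_right
  rw [Subgroup.relIndex_bot_left, Subgroup.relIndex_bot_left, Subgroup.inf_relIndex_right] at h1
  have h2 := Subgroup.relIndex_ker (K := (S : Subgroup G)) (QuotientGroup.mk' N)
  rw [QuotientGroup.ker_mk'] at h2
  have h3 : Nat.card ↥((S : Subgroup G).map (QuotientGroup.mk' N))
      = Nat.card (Pbar : Subgroup (G ⧸ N)) := by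
    have e1 := (S.mapSurjective (QuotientGroup.mk'_surjective N)).card_eq_multiplicity
    have e2 := Pbar.card_eq_multiplicity
    rw [e2, ← e1]
    rfl
  have e3 := S.card_eq_multiplicity
  have e4 := P.card_eq_multiplicity
  rw [← h3, ← h2, h1]
  exact e3.trans e4.symm

lemma fiber {G : Type*} [Group G] [Finite G] (p : ℕ) [hp : Fact p.Prime] (N : Subgroup G)
    [N.Normal] (y : G ⧸ N) (hy : ∃ k : ℕ, orderOf y = p ^ k) :
    ∃ S : Sylow p G, Nat.card ↥(N ⊓ (S : Subgroup G)) ≤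
        Nat.card {g : G // (∃ k : ℕ, orderOf g = p ^ k) ∧ (QuotientGroup.mk g : G ⧸ N) = y} ∧
      (N ≤ Subgroup.center G → Nat.card ↥(N ⊓ (S : Subgroup G)) =
        Nat.card {g : G // (∃ k : ℕ, orderOf g = p ^ k) ∧ (QuotientGroup.mk g : G ⧸ N) = y}) := by
  classical
  obtain ⟨s, ⟨ks, hks⟩, hs⟩ := exists_lift p N y hy
  have hzp : IsPGroup p (Subgroup.zpowers s) :=
    IsPGroup.of_card (n := ks) (by rw [Nat.card_zpowers, hks])
  obtain ⟨S, hS⟩ := hzp.exists_le_sylow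
  have hsS : s ∈ (S : Subgroup G) := hS (Subgroup.mem_zpowers s)
  have hpel : ∀ g ∈ (S : Subgroup G), ∃ k : ℕ, orderOf g = p ^ k := by
    intro g hg
    obtain ⟨k, hk⟩ := (IsPGroup.iff_orderOf.1 S.2) ⟨g, hg⟩
    rw [Subgroup.orderOf_mk] at hk
    exact ⟨k, hk⟩
  let φ : ↥(N ⊓ (S : Subgroup G)) →
      {g : G // (∃ k : ℕ, orderOf g = p ^ k) ∧ (QuotientGroup.mk g : G ⧸ N) = y} :=
    fun t => ⟨s * t, hpel _ ((S : Subgroup G).mul_mem hsS (Subgroup.mem_inf.1 t.2).2), by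
      rw [QuotientGroup.mk_mul, hs, (QuotientGroup.eq_one_iff (t : G)).2 (Subgroup.mem_inf.1 t.2).1,
        mul_one]⟩
  have hφi : Function.Injective φ := by
    intro t1 t2 h
    have h1 : s * (t1 : G) = s * t2 := congrArg Subtype.val h
    exact Subtype.ext (mul_left_cancel h1)
  refine ⟨S, Nat.card_le_card_of_injective φ hφi, ?_⟩
  intro hNZ
  refine Nat.card_congr (Equiv.ofBijective φ ⟨hφi, ?_⟩)
  rintro ⟨g, ⟨kg, hkg⟩, hg⟩
  have hn : s⁻¹ * g ∈ N := QuotientGroup.eq.1 (hs.trans hg.symm)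
  have hnc := Subgroup.mem_center_iff.1 (hNZ hn)
  have hcomm : Commute s⁻¹ g := by
    have h1 : s⁻¹ * (s⁻¹ * g) = (s⁻¹ * g) * s⁻¹ := hnc s⁻¹
    show s⁻¹ * g = g * s⁻¹
    calc s⁻¹ * g = s * (s⁻¹ * (s⁻¹ * g)) := by group
      _ = s * ((s⁻¹ * g) * s⁻¹) := by rw [h1]
      _ = g * s⁻¹ := by group
  have hpow : (s⁻¹ * g) ^ (p ^ (ks + kg)) = 1 := by
    rw [hcomm.mul_pow, inv_pow, pow_add, pow_mul, ← hks, pow_orderOf_eq_one, one_pow, inv_one,
      one_mul, mul_comm, pow_mul, ← hkg, pow_orderOf_eq_one, one_pow]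
  obtain ⟨j, _, hj⟩ := (Nat.dvd_prime_pow hp.out).1 (orderOf_dvd_of_pow_eq_one hpow)
  have hzn : IsPGroup p (Subgroup.zpowers (s⁻¹ * g)) :=
    IsPGroup.of_card (n := j) (by rw [Nat.card_zpowers, hj])
  have hzc : Subgroup.zpowers (s⁻¹ * g) ≤ Subgroup.center G := Subgroup.zpowers_le.2 (hNZ hn)
  haveI : (Subgroup.zpowers (s⁻¹ * g)).Normal := by
    constructor
    intro x hx c
    rw [Subgroup.mem_center_iff.1 (hzc hx) c, mul_assoc, mul_inv_cancel, mul_one]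
    exact hx
  have hmax := S.3 (S.2.to_sup_of_normal_right hzn) le_sup_left
  have hnS : s⁻¹ * g ∈ (S : Subgroup G) := by
    rw [← hmax]
    exact (le_sup_right : Subgroup.zpowers (s⁻¹ * g) ≤ _) (Subgroup.mem_zpowers _)
  refine ⟨⟨s⁻¹ * g, Subgroup.mem_inf.2 ⟨hn, hnS⟩⟩, ?_⟩
  apply Subtype.ext
  show s * (s⁻¹ * g) = g
  group

/-- Let G be a finite group, p a prime, N a normal subgroup, P a Sylow p-subgroup of G and P̄ a Sylow p-subgroup of G/N. Count the elements of p-power order, the identity included. Then (number of such elements of G/N)/#P̄ ≤ (number of such elements of G)/#P, stated as a cross-multiplied inequality, with equality when N is central. -/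
theorem result {G : Type*} [Group G] [Finite G] (p : ℕ) [Fact p.Prime] (N : Subgroup G) [N.Normal]
    (P : Sylow p G) (Pbar : Sylow p (G ⧸ N)) :
    Nat.card {g : (G ⧸ N) // ∃ k : ℕ, orderOf g = p ^ k} * Nat.card (P : Subgroup G) ≤ Nat.card {g : G // ∃ k : ℕ, orderOf g = p ^ k} * Nat.card (Pbar : Subgroup (G ⧸ N)) ∧
    (N ≤ Subgroup.center G → Nat.card {g : (G ⧸ N) // ∃ k : ℕ, orderOf g = p ^ k} * Nat.card (P : Subgroup G) = Nat.card {g : G // ∃ k : ℕ, orderOf g = p ^ k} * Nat.card (Pbar : Subgroup (G ⧸ N))) := by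
  classical
  have hp : p.Prime := Fact.out
  haveI := Fintype.ofFinite {g : (G ⧸ N) // ∃ k : ℕ, orderOf g = p ^ k}
  have hπ : ∀ g : G, (∃ k : ℕ, orderOf g = p ^ k) →
      ∃ k : ℕ, orderOf (QuotientGroup.mk g : G ⧸ N) = p ^ k := by
    rintro g ⟨k, hk⟩
    have h1 : orderOf (QuotientGroup.mk g : G ⧸ N) ∣ p ^ k :=
      hk ▸ orderOf_map_dvd (QuotientGroup.mk' N) g
    obtain ⟨j, _, hj⟩ := (Nat.dvd_prime_pow hp).1 h1
    exact ⟨j, hj⟩
  let π : {g : G // ∃ k : ℕ, orderOf g = p ^ k} → {g : (G ⧸ N) // ∃ k : ℕ, orderOf g = p ^ k} :=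
    fun g => ⟨QuotientGroup.mk g.1, hπ g.1 g.2⟩
  have hfib : ∀ y : {g : (G ⧸ N) // ∃ k : ℕ, orderOf g = p ^ k},
      Nat.card {g : {g : G // ∃ k : ℕ, orderOf g = p ^ k} // π g = y} =
      Nat.card {g : G // (∃ k : ℕ, orderOf g = p ^ k) ∧ (QuotientGroup.mk g : G ⧸ N) = y.1} := by
    intro y
    exact Nat.card_congr
      { toFun := fun g => ⟨g.1.1, g.1.2, congrArg Subtype.val g.2⟩
        invFun := fun g => ⟨⟨g.1, g.2.1⟩, Subtype.ext g.2.2⟩
        left_inv := fun _ => rfl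
        right_inv := fun _ => rfl }
  have hsum : Nat.card {g : G // ∃ k : ℕ, orderOf g = p ^ k} =
      ∑ y : {g : (G ⧸ N) // ∃ k : ℕ, orderOf g = p ^ k},
        Nat.card {g : G // (∃ k : ℕ, orderOf g = p ^ k) ∧ (QuotientGroup.mk g : G ⧸ N) = y.1} := by
    rw [← Nat.card_congr (Equiv.sigmaFiberEquiv π), Nat.card_sigma]
    exact Finset.sum_congr rfl (fun y _ => hfib y)
  have hconst : Nat.card {g : (G ⧸ N) // ∃ k : ℕ, orderOf g = p ^ k} * Nat.card (P : Subgroup G) =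
      ∑ _y : {g : (G ⧸ N) // ∃ k : ℕ, orderOf g = p ^ k}, Nat.card (P : Subgroup G) := by
    rw [Finset.sum_const, Finset.card_univ, Nat.card_eq_fintype_card, smul_eq_mul]
  rw [hconst, hsum, Finset.sum_mul]
  constructor
  · apply Finset.sum_le_sum
    intro y _
    obtain ⟨S, hS, _⟩ := fiber p N y.1 y.2
    rw [← card_inf_mul p N P S Pbar]
    exact Nat.mul_le_mul_right _ hS
  · intro hNZ
    apply Finset.sum_congr rfl
    intro y _
    obtain ⟨S, _, hS⟩ := fiber p N y.1 y.2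
    rw [← card_inf_mul p N P S Pbar, hS hNZ]

end Cfsg.Agent.S4153
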