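import Cfsg.Statements.S4154
-- import your own Cfsg.Agent.* helpers here

set_option autoImplicit false
open Cfsg

namespace Cfsg.Agent.S4154

/-- Let G be a finite group and α an automorphism of G such that every element of G is the product of an element fixed by α and an element of the form g⁻¹α(g). If N is a normal α-invariant subgroup, then the automorphism ᾱ induced on G/N has the same property, and every coset fixed by ᾱ contains an element fixed by α (so the fixed points of ᾱ are the images of the fixed points of α). -/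
theorem result {G : Type*} [Group G] [Finite G] (α : MulAut G)
    (hccp : ∀ x : G, ∃ c g : G, α c = c ∧ x = c * (g⁻¹ * α g))
    (N : Subgroup G) [N.Normal] (hN : ∀ n ∈ N, α n ∈ N) :
    (∀ x : G, ∃ c g : G, c⁻¹ * α c ∈ N ∧ x⁻¹ * (c * (g⁻¹ * α g)) ∈ N) ∧
    (∀ x : G, x⁻¹ * α x ∈ N → ∃ c : G, α c = c ∧ c⁻¹ * x ∈ N) := by
  constructor
  · intro x
    obtain ⟨c, g, hc, hx⟩ := hccp x
    refine ⟨c, g, ?_, ?_⟩
    · rw [hc, inv_mul_cancel]; exact one_mem N
    · rw [← hx, inv_mul_cancel]; exact one_mem N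
  · let C : Subgroup G := (α.toMonoidHom).eqLocus (MonoidHom.id G)
    have hCmem : ∀ c : G, c ∈ C ↔ α c = c := fun c => Iff.rfl
    let D : Subgroup G :=
      { carrier := {x | x⁻¹ * α x ∈ N}
        one_mem' := by
          show (1 : G)⁻¹ * α 1 ∈ N
          simp
        mul_mem' := by
          intro x y hx hy
          show (x * y)⁻¹ * α (x * y) ∈ N
          have h1 : (x * y)⁻¹ * α (x * y) = (y⁻¹ * (x⁻¹ * α x) * y⁻¹⁻¹) * (y⁻¹ * α y) := by
            rw [map_mul]; group
          rw [h1]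
          exact N.mul_mem (‹N.Normal›.conj_mem _ hx _) hy
        inv_mem' := by
          intro x hx
          show (x⁻¹)⁻¹ * α (x⁻¹) ∈ N
          have h1 : (x⁻¹)⁻¹ * α (x⁻¹) = x * (x⁻¹ * α x)⁻¹ * x⁻¹ := by
            rw [map_inv]; group
          rw [h1]
          exact ‹N.Normal›.conj_mem _ (N.inv_mem hx) _ }
    have hDmem : ∀ x : G, x ∈ D ↔ x⁻¹ * α x ∈ N := fun x => Iff.rfl
    have hCD : C ⊔ N ≤ D := by
      rw [sup_le_iff]
      constructor
      · intro c hc
        rw [hDmem, (hCmem c).1 hc, inv_mul_cancel]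
        exact one_mem N
      · intro n hn
        rw [hDmem]
        exact N.mul_mem (N.inv_mem hn) (hN n hn)
    let f : ↥(C ⊔ N) × (G ⧸ D) → G := fun u => (u.1 : G) * (u.2.out * α (u.2.out)⁻¹)
    have hf : Function.Surjective f := by
      intro x
      obtain ⟨c, g, hc, hx⟩ := hccp x
      set q : G ⧸ D := QuotientGroup.mk g⁻¹ with hq
      set r := q.out with hr
      have hd : r⁻¹ * g⁻¹ ∈ D := by
        rw [← QuotientGroup.eq, hr, QuotientGroup.out_eq']
      set d := r⁻¹ * g⁻¹ with hddef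
      have hn1 : d * (α d)⁻¹ ∈ N := by
        have h1 : d * (α d)⁻¹ = d * (d⁻¹ * α d)⁻¹ * d⁻¹ := by group
        rw [h1]
        exact ‹N.Normal›.conj_mem _ (N.inv_mem ((hDmem d).1 hd)) _
      have hn2 : r * (d * (α d)⁻¹) * r⁻¹ ∈ N := ‹N.Normal›.conj_mem _ hn1 _
      refine ⟨(⟨c * (r * (d * (α d)⁻¹) * r⁻¹), ?_⟩, q), ?_⟩
      · exact Subgroup.mul_mem_sup ((hCmem c).2 hc) hn2
      · show c * (r * (d * (α d)⁻¹) * r⁻¹) * (r * α r⁻¹) = x
        have hg : g = d⁻¹ * r⁻¹ := by rw [hddef]; group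
        have hg' : g⁻¹ = r * d := by rw [hddef]; group
        have hαg : α g = (α d)⁻¹ * (α r)⁻¹ := by
          have := congrArg α hg
          rw [map_mul, map_inv, map_inv] at this
          exact this
        rw [hx, hg', hαg, map_inv]
        group
    have h1 : Nat.card G ≤ Nat.card (↥(C ⊔ N) × (G ⧸ D)) := Nat.card_le_card_of_surjective f hf
    rw [Nat.card_prod] at h1
    have h2 : Nat.card D * D.index = Nat.card G := D.card_mul_index
    have h3 : 0 < D.index := Nat.pos_of_ne_zero D.index_ne_zero_of_finite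
    have h4 : Nat.card D ≤ Nat.card ↥(C ⊔ N) := by
      rw [← h2] at h1
      exact Nat.le_of_mul_le_mul_right h1 h3
    have h5 : C ⊔ N = D := Subgroup.eq_of_le_of_card_ge hCD h4
    intro x hx
    have hxD : x ∈ C ⊔ N := by rw [h5]; exact hx
    obtain ⟨c, hc, n, hn, rfl⟩ := Subgroup.mem_sup_of_normal_right.1 hxD
    refine ⟨c, (hCmem c).1 hc, ?_⟩
    rw [inv_mul_cancel_left]
    exact hn

end Cfsg.Agent.S4154
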