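import Cfsg.Statements.S4155
import Mathlib
import Cfsg.Agent.Lib.Helper15.FpfSylow
import Cfsg.Agent.Lib.Helper2.GrpNil

set_option autoImplicit false
open Cfsg

namespace Cfsg.Agent.S4155

open Cfsg.Agent.Lib.Helper15
open scoped IsMulCommutative

/-- Let G be a finite group and N a proper non-trivial normal nilpotent subgroup whose order is not a prime power, such that for every x outside N all elements of the coset xN have the same order as x. Then N is the Fitting subgroup of G, and for every prime q every Sylow q-subgroup of G/N is cyclic or generalized quaternion. -/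
theorem result {G : Type*} [Group G] [Finite G] (N : Subgroup G) [N.Normal] (hN1 : N ≠ ⊥) (hN2 : N ≠ ⊤)
    (heq : ∀ x : G, x ∉ N → ∀ n ∈ N, orderOf (x * n) = orderOf x)
    (hnil : Group.IsNilpotent N) (hnpp : ¬ IsPrimePow (Nat.card N)) :
    N = Cfsg.fittingSubgroup G ∧
    ∀ (q : ℕ) [Fact q.Prime] (Q : Sylow q (G ⧸ N)), IsCyclic (Q : Subgroup (G ⧸ N)) ∨ ∃ n : ℕ, Nonempty ((Q : Subgroup (G ⧸ N)) ≃* QuaternionGroup (2 ^ n)) := by
  have hA : ∀ x : G, x ∉ N → ∀ n ∈ N, Commute x n → (orderOf x).Coprime (orderOf n) → n = 1 := by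
    intro x hx n hn hc hcop
    have h1 := heq x hx n hn
    rw [hc.orderOf_mul_eq_mul_orderOf_of_coprime hcop] at h1
    have h2 : orderOf n = 1 := Nat.eq_of_mul_eq_mul_left (orderOf_pos x) (h1.trans (mul_one _).symm)
    exact orderOf_eq_one_iff.mp h2
  have hB : ∀ q : ℕ, q.Prime → ∃ r : ℕ, r.Prime ∧ r ≠ q ∧ r ∣ Nat.card N := by
    intro q hq
    by_contra h
    push Not at h
    apply hnpp
    have h1 : Nat.card N = q ^ (Nat.card N).primeFactorsList.length := by
      apply Nat.eq_prime_pow_of_unique_prime_dvd Nat.card_pos.ne'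
      intro d hd hdN
      by_contra hdq
      exact h d hd hdq hdN
    rw [isPrimePow_nat_iff]
    refine ⟨q, _, hq, ?_, h1.symm⟩
    rw [Nat.pos_iff_ne_zero]
    intro e
    rw [e, pow_zero] at h1
    exact hN1 (Subgroup.card_eq_one.mp h1)
  have hC : ∀ (q r : ℕ) (y v : G) (k j : ℕ), q.Prime → r.Prime → r ≠ q → orderOf y = q ^ k →
      orderOf v = r ^ j → (orderOf y).Coprime (orderOf v) := by
    intro q r y v k j hq hr hrq hy hv
    rw [hy, hv]
    exact Nat.Coprime.pow _ _ ((Nat.coprime_primes hq hr).mpr hrq.symm)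
  constructor
  · have hNF : N ≤ Cfsg.fittingSubgroup G := Cfsg.Agent.Lib.Helper10.le_fittingSubgroup inferInstance hnil
    apply le_antisymm hNF
    intro x hxF
    by_contra hxN
    obtain ⟨q, k, y, hq, hyx, hyN, hyo⟩ := exists_primePow_notMem N _ x rfl hxN
    have hyF : y ∈ Cfsg.fittingSubgroup G := (Subgroup.zpowers_le.mpr hxF) hyx
    obtain ⟨r, hr, hrq, hrN⟩ := hB q hq
    have := Fact.mk hr
    obtain ⟨V, hVn, hVN, hVne, hVc, hVr⟩ := exists_normal_central_pSubgroup N hnil r hrN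
    obtain ⟨⟨v, hv⟩, hv1⟩ := Subgroup.ne_bot_iff_exists_ne_one.mp hVne
    obtain ⟨j, hj⟩ := (IsPGroup.iff_orderOf.mp hVr) ⟨v, hv⟩
    rw [Subgroup.orderOf_mk] at hj
    have hcop := hC q r y v k j hq hr hrq hyo hj
    have hnilF := Cfsg.Agent.Lib.Helper10.fittingSubgroup_isNilpotent G
    have hc : Commute (⟨y, hyF⟩ : Cfsg.fittingSubgroup G) ⟨v, hNF (hVN hv)⟩ :=
      Cfsg.Agent.Lib.Helper2.commute_of_coprime_of_isNilpotent
        (by rw [Subgroup.orderOf_mk, Subgroup.orderOf_mk]; exact hcop)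
    have hc' : Commute y v := congrArg Subtype.val hc
    exact hv1 (Subtype.ext (hA y hyN v (hVN hv) hc' hcop))
  · intro q _ Q
    have hq : q.Prime := Fact.out
    obtain ⟨r, hr, hrq, hrN⟩ := hB q hq
    have := Fact.mk hr
    obtain ⟨V, hVn, hVN, hVne, hVc, hVr⟩ := exists_normal_central_pSubgroup N hnil r hrN
    have hVc' : IsMulCommutative V := by
      refine ⟨⟨?_⟩⟩
      rintro ⟨v, hv⟩ ⟨w, hw⟩
      exact Subtype.ext (hVc w hw v (hVN hv))
    have hker : ∀ h ∈ N, (MulAut.conjNormal h : MulAut V) = 1 := by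
      intro h hh
      ext v
      rw [MulAut.conjNormal_apply, hVc v v.2 h hh]
      simp
    obtain ⟨φ, hφ⟩ : ∃ φ : G ⧸ N →* MulAut V,
        ∀ g : G, φ (QuotientGroup.mk g) = MulAut.conjNormal g :=
      ⟨QuotientGroup.lift N (MulAut.conjNormal : G →* MulAut V) hker, fun g => rfl⟩
    have hf : IsFpf (φ.comp (Q : Subgroup (G ⧸ N)).subtype) := by
      rintro ⟨y, hyQ⟩ hy v hv
      have hy1 : y ≠ 1 := fun e => hy (Subtype.ext e)
      obtain ⟨k, hk⟩ := (IsPGroup.iff_orderOf.mp Q.2) ⟨y, hyQ⟩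
      rw [Subgroup.orderOf_mk] at hk
      obtain ⟨g, rfl⟩ := QuotientGroup.mk_surjective y
      have hv' : φ (QuotientGroup.mk g) v = v := hv
      rw [hφ] at hv'
      have h1 : g * v * g⁻¹ = v := by
        rw [← MulAut.conjNormal_apply, hv']
      have hc : Commute g (v : G) := by
        calc g * (v : G) = (g * v * g⁻¹) * g := by group
          _ = v * g := by rw [h1]
      have hn0 : orderOf g ≠ 0 := (orderOf_pos g).ne'
      obtain ⟨m, hm⟩ : ∃ m, m = orderOf g / q ^ (orderOf g).factorization q := ⟨_, rfl⟩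
      have hmd : m ∣ orderOf g := hm ▸ Nat.ordCompl_dvd _ _
      have hm0 : m ≠ 0 := fun e => hn0 (Nat.eq_zero_of_zero_dvd (e ▸ hmd))
      have hmq : q.Coprime m := hm ▸ Nat.coprime_ordCompl hq hn0
      have hgo : orderOf (g ^ m) = q ^ (orderOf g).factorization q := by
        rw [orderOf_pow_of_dvd hm0 hmd]
        apply Nat.div_eq_of_eq_mul_left (Nat.pos_of_ne_zero hm0)
        rw [hm]
        exact (Nat.ordProj_mul_ordCompl_eq_self _ _).symm
      have hgN : g ^ m ∉ N := by
        intro h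
        have h2 : (QuotientGroup.mk g : G ⧸ N) ^ m = 1 := by
          rw [← QuotientGroup.mk_pow]
          exact (QuotientGroup.eq_one_iff _).mpr h
        have h3 : q ^ k ∣ m := hk ▸ orderOf_dvd_of_pow_eq_one h2
        have hk0 : k ≠ 0 := by
          rintro rfl
          rw [pow_zero, orderOf_eq_one_iff] at hk
          exact hy1 hk
        have h4 : q ∣ m := (dvd_pow_self q hk0).trans h3
        exact hq.one_lt.ne' (Nat.eq_one_of_dvd_coprimes hmq dvd_rfl h4)
      obtain ⟨j, hj⟩ := (IsPGroup.iff_orderOf.mp hVr) v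
      rw [← Subgroup.orderOf_coe] at hj
      exact Subtype.ext (hA (g ^ m) hgN v (hVN v.2) (hc.pow_left m)
        (hC q r _ _ _ j hq hr hrq hgo hj))
    have : Nontrivial V := (Subgroup.nontrivial_iff_ne_bot V).mpr hVne
    exact hf.cyclic_or_quaternion q Q.2

end Cfsg.Agent.S4155
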