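import Cfsg.Statements.S4156

set_option autoImplicit false
open Cfsg

namespace Cfsg.Agent.S4156

open Matrix Equiv

section aux

variable {F : Type*} [Field F] {n : ℕ}

/-- the images of the coordinate vectors modulo the last one. -/
def bv (F : Type*) [Field F] (n : ℕ) (x : Fin (n + 1)) : Fin n → F :=
  fun j => if j.castSucc = x then 1 else 0

theorem bv_castSucc (i : Fin n) : bv F n i.castSucc = Pi.single i 1 := by
  funext j
  unfold bv
  by_cases h : j = i
  · subst h; simp
  · rw [if_neg (fun h' => h (Fin.castSucc_injective _ h')), Pi.single_eq_of_ne h]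

theorem bv_last : bv F n (Fin.last n) = 0 := by
  funext j
  unfold bv
  rw [if_neg (Fin.castSucc_lt_last j).ne]
  rfl

/-- the matrix of a permutation on the deleted permutation module. -/
def pm (F : Type*) [Field F] (n : ℕ) (σ : Perm (Fin (n + 1))) : Matrix (Fin n) (Fin n) F :=
  Matrix.of fun j i => bv F n (σ i.castSucc) j - bv F n (σ (Fin.last n)) j

theorem pm_mulVec_single (σ : Perm (Fin (n + 1))) (i : Fin n) :
    pm F n σ *ᵥ Pi.single i 1 = bv F n (σ i.castSucc) - bv F n (σ (Fin.last n)) := by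
  funext j
  rw [Matrix.mulVec_single_one]
  rfl

theorem pm_mulVec_bv (σ : Perm (Fin (n + 1))) (x : Fin (n + 1)) :
    pm F n σ *ᵥ bv F n x = bv F n (σ x) - bv F n (σ (Fin.last n)) := by
  refine Fin.lastCases ?_ (fun i => ?_) x
  · rw [bv_last, Matrix.mulVec_zero, sub_self]
  · rw [bv_castSucc, pm_mulVec_single]

theorem mat_ext (M N : Matrix (Fin n) (Fin n) F)
    (h : ∀ i, M *ᵥ Pi.single i 1 = N *ᵥ Pi.single i 1) : M = N := by
  ext j i
  have := congrFun (h i) j
  rwa [Matrix.mulVec_single_one, Matrix.mulVec_single_one] at this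

/-- the deleted permutation representation. -/
def pmHom (F : Type*) [Field F] (n : ℕ) : Perm (Fin (n + 1)) →* Matrix (Fin n) (Fin n) F where
  toFun := pm F n
  map_one' := by
    apply mat_ext
    intro i
    rw [pm_mulVec_single, Matrix.one_mulVec, Perm.one_apply, Perm.one_apply, bv_castSucc, bv_last,
      sub_zero]
  map_mul' σ τ := by
    apply mat_ext
    intro i
    rw [← Matrix.mulVec_mulVec, pm_mulVec_single, pm_mulVec_single, Matrix.mulVec_sub, pm_mulVec_bv,
      pm_mulVec_bv, Perm.mul_apply, Perm.mul_apply]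
    abel

theorem det_eq_one (hn : 5 ≤ n) (σ : alternatingGroup (Fin (n + 1))) :
    (pm F n (σ : Perm (Fin (n + 1)))).det = 1 := by
  have h1 := Abelianization.commutator_subset_ker
    (((Matrix.detMonoidHom (n := Fin n) (R := F)).comp (pmHom F n)).toHomUnits.comp
      (alternatingGroup (Fin (n + 1))).subtype)
  rw [commutator_alternatingGroup_eq_top (by simp; omega)] at h1
  have h2 := h1 (Subgroup.mem_top σ)
  rw [MonoidHom.mem_ker] at h2
  have h3 := congrArg Units.val h2
  have h4 : ((pmHom F n) (σ : Perm (Fin (n + 1)))).det = 1 := by simpa using h3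
  exact h4

/-- into the special linear group. -/
def slHom (F : Type*) [Field F] (n : ℕ) (hn : 5 ≤ n) :
    alternatingGroup (Fin (n + 1)) →* Matrix.SpecialLinearGroup (Fin n) F where
  toFun σ := ⟨pm F n (σ : Perm (Fin (n + 1))), det_eq_one hn σ⟩
  map_one' := by
    apply Subtype.ext
    exact (pmHom F n).map_one
  map_mul' σ τ := by
    apply Subtype.ext
    exact (pmHom F n).map_mul σ τ

theorem slHom_coe (hn : 5 ≤ n) (σ : alternatingGroup (Fin (n + 1))) :
    (slHom F n hn σ : Matrix (Fin n) (Fin n) F) = pm F n (σ : Perm (Fin (n + 1))) := rfl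

end aux

theorem result (n : ℕ) (hn : 5 ≤ n) (F : Type*) [Field F] [Finite F] :
    ∃ f : alternatingGroup (Fin (n + 1)) →* Matrix.ProjectiveSpecialLinearGroup (Fin n) F, Function.Injective f := by
  classical
  refine ⟨(QuotientGroup.mk' (Subgroup.center (Matrix.SpecialLinearGroup (Fin n) F))).comp
    (slHom F n hn), ?_⟩
  rw [← MonoidHom.ker_eq_bot_iff]
  have hs : IsSimpleGroup (alternatingGroup (Fin (n + 1))) :=
    alternatingGroup.isSimpleGroup (by simp; omega)
  refine (Subgroup.Normal.eq_bot_or_eq_top (MonoidHom.normal_ker _)).resolve_right ?_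
  intro htop
  obtain ⟨i0, h0⟩ : ∃ i : Fin n, i.val = 0 := ⟨⟨0, by omega⟩, rfl⟩
  obtain ⟨i1, h1⟩ : ∃ i : Fin n, i.val = 1 := ⟨⟨1, by omega⟩, rfl⟩
  obtain ⟨i2, h2⟩ : ∃ i : Fin n, i.val = 2 := ⟨⟨2, by omega⟩, rfl⟩
  have ne : ∀ {a b : Fin n}, a.val ≠ b.val → a.castSucc ≠ b.castSucc := by
    intro a b h h'
    exact h (congrArg Fin.val (Fin.castSucc_injective _ h'))
  have n01 : i0.castSucc ≠ i1.castSucc := ne (by omega)
  have n02 : i0.castSucc ≠ i2.castSucc := ne (by omega)
  have n12 : i1.castSucc ≠ i2.castSucc := ne (by omega)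
  have nl : ∀ i : Fin n, Fin.last n ≠ i.castSucc := fun i => (Fin.castSucc_lt_last i).ne'
  obtain ⟨σ, hσ⟩ : ∃ σ : Perm (Fin (n + 1)),
    σ = swap i0.castSucc i1.castSucc * swap i1.castSucc i2.castSucc := ⟨_, rfl⟩
  have hmem : σ ∈ alternatingGroup (Fin (n + 1)) := by
    rw [Perm.mem_alternatingGroup, hσ, Perm.sign_mul, Perm.sign_swap n01, Perm.sign_swap n12]
    rfl
  have hσ0 : σ i0.castSucc = i1.castSucc := by
    rw [hσ, Perm.mul_apply, swap_apply_of_ne_of_ne n01 n02, swap_apply_left]
  have hσl : σ (Fin.last n) = Fin.last n := by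
    rw [hσ, Perm.mul_apply, swap_apply_of_ne_of_ne (nl _) (nl _), swap_apply_of_ne_of_ne (nl _) (nl _)]
  have hk : (⟨σ, hmem⟩ : alternatingGroup (Fin (n + 1))) ∈
      ((QuotientGroup.mk' (Subgroup.center (Matrix.SpecialLinearGroup (Fin n) F))).comp
        (slHom F n hn)).ker := by
    rw [htop]; exact Subgroup.mem_top _
  rw [MonoidHom.mem_ker, MonoidHom.comp_apply, QuotientGroup.mk'_apply, QuotientGroup.eq_one_iff,
    Matrix.SpecialLinearGroup.mem_center_iff] at hk
  obtain ⟨r, -, hr⟩ := hk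
  have h3 := congrFun (congrFun hr i1) i0
  rw [slHom_coe] at h3
  have h4 : pm F n σ i1 i0 = 1 := by
    change bv F n (σ i0.castSucc) i1 - bv F n (σ (Fin.last n)) i1 = 1
    rw [hσ0, hσl, bv_castSucc, bv_last]
    simp
  have h5 : (Matrix.scalar (Fin n) r) i1 i0 = 0 := by
    rw [Matrix.scalar_apply, Matrix.diagonal_apply_ne]
    intro h
    rw [h] at h1
    omega
  rw [h5] at h3
  rw [← h3] at h4
  exact zero_ne_one h4

end Cfsg.Agent.S4156
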