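import Cfsg.Statements.S4160
import Cfsg.Agent.Lib.Helper22.Basic

set_option autoImplicit false
open Cfsg

namespace Cfsg.Agent.S4160

theorem card_centralizer_sylow_eq {G : Type*} [Group G] [Finite G] {p : ℕ} [Fact p.Prime]
    (P P' : Sylow p G) :
    Nat.card (Subgroup.centralizer ((P' : Subgroup G) : Set G))
      = Nat.card (Subgroup.centralizer ((P : Subgroup G) : Set G)) := by
  obtain ⟨g, rfl⟩ := MulAction.exists_smul_eq G P P'
  symm
  refine Nat.card_congr ⟨fun c => ⟨g * c.1 * g⁻¹, ?_⟩, fun c => ⟨g⁻¹ * c.1 * g, ?_⟩, ?_, ?_⟩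
  · rw [Subgroup.mem_centralizer_iff]
    intro h hh
    have hh' : g⁻¹ * h * g ∈ (P : Subgroup G) := by
      have : h ∈ ((g • P : Sylow p G) : Subgroup G) := hh
      rw [Sylow.coe_subgroup_smul, Subgroup.mem_pointwise_smul_iff_inv_smul_mem] at this
      simpa [MulAut.smul_def, mul_assoc] using this
    have h1 := (Subgroup.mem_centralizer_iff.1 c.2) _ hh'
    calc h * (g * c.1 * g⁻¹) = g * ((g⁻¹ * h * g) * c.1) * g⁻¹ := by group
      _ = g * (c.1 * (g⁻¹ * h * g)) * g⁻¹ := by rw [h1]
      _ = g * c.1 * g⁻¹ * h := by group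
  · rw [Subgroup.mem_centralizer_iff]
    intro h hh
    have hh' : g * h * g⁻¹ ∈ ((g • P : Sylow p G) : Subgroup G) := by
      rw [Sylow.coe_subgroup_smul, Subgroup.mem_pointwise_smul_iff_inv_smul_mem]
      have hh2 : h ∈ (P : Subgroup G) := hh
      simpa [MulAut.smul_def, mul_assoc] using hh2
    have h1 := (Subgroup.mem_centralizer_iff.1 c.2) _ hh'
    calc h * (g⁻¹ * c.1 * g) = g⁻¹ * ((g * h * g⁻¹) * c.1) * g := by group
      _ = g⁻¹ * (c.1 * (g * h * g⁻¹)) * g := by rw [h1]
      _ = g⁻¹ * c.1 * g * h := by group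
  · intro c; ext; simp [mul_assoc]
  · intro c; ext; simp [mul_assoc]

theorem two_mul_sum_le {G : Type*} [Group G] [Finite G] {p : ℕ} [Fact p.Prime] (P : Sylow p G)
    (hne : ¬ Subgroup.normalizer ((P : Subgroup G) : Set G)
      ≤ Subgroup.centralizer ((P : Subgroup G) : Set G)) :
    2 * Nat.card (Σ P' : Sylow p G, Subgroup.centralizer ((P' : Subgroup G) : Set G))
      ≤ Nat.card G := by
  classical
  cases nonempty_fintype (Sylow p G)
  rw [Nat.card_sigma]
  simp only [card_centralizer_sylow_eq P]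
  rw [Finset.sum_const, Finset.card_univ, ← Nat.card_eq_fintype_card, smul_eq_mul,
    Sylow.card_eq_index_normalizer P,
    ← Subgroup.index_mul_card (Subgroup.normalizer ((P : Subgroup G) : Set G))]
  have hle : Subgroup.centralizer ((P : Subgroup G) : Set G)
      ≤ Subgroup.normalizer ((P : Subgroup G) : Set G) := Subgroup.centralizer_le_normalizer _
  have hdvd := Subgroup.card_dvd_of_le hle
  obtain ⟨k, hk⟩ := hdvd
  have hpos : 0 < Nat.card (Subgroup.normalizer ((P : Subgroup G) : Set G)) := Nat.card_pos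
  have hk1 : k ≠ 1 := by
    intro h1
    rw [h1, mul_one] at hk
    exact hne (Subgroup.eq_of_le_of_card_ge hle hk.le).ge
  have hk0 : k ≠ 0 := by
    intro h0
    rw [h0, mul_zero] at hk
    omega
  have hk2 : 2 ≤ k := by omega
  rw [hk]
  calc 2 * ((Subgroup.normalizer ((P : Subgroup G) : Set G)).index
        * Nat.card (Subgroup.centralizer ((P : Subgroup G) : Set G)))
      = (Subgroup.normalizer ((P : Subgroup G) : Set G)).index
        * (Nat.card (Subgroup.centralizer ((P : Subgroup G) : Set G)) * 2) := by ring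
    _ ≤ _ := Nat.mul_le_mul_left _ (Nat.mul_le_mul_left _ hk2)

theorem hasNormalPComplement_of_le {G : Type*} [Group G] [Finite G] {p : ℕ} [Fact p.Prime]
    (P : Sylow p G) (h : Subgroup.normalizer ((P : Subgroup G) : Set G)
      ≤ Subgroup.centralizer ((P : Subgroup G) : Set G)) : Cfsg.HasNormalPComplement p G :=
  ⟨P, _, inferInstance, MonoidHom.ker_transferSylow_isComplement' P h⟩

/-- Let G be a finite group and p ≠ q primes each dividing the size of some conjugacy class of G, such that no conjugacy class size is divisible by pq. Then G has a normal p-complement or a normal q-complement. -/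
theorem result {G : Type*} [Group G] [Finite G] (p q : ℕ) (hp : p.Prime) (hq : q.Prime) (hpq : p ≠ q)
    (hp' : ∃ x : G, p ∣ (Subgroup.centralizer ({x} : Set G)).index) (hq' : ∃ x : G, q ∣ (Subgroup.centralizer ({x} : Set G)).index) (h : ∀ x : G, ¬ p * q ∣ (Subgroup.centralizer ({x} : Set G)).index) :
    Cfsg.HasNormalPComplement p G ∨ Cfsg.HasNormalPComplement q G := by
  classical
  haveI : Fact p.Prime := ⟨hp⟩
  haveI : Fact q.Prime := ⟨hq⟩
  obtain ⟨P⟩ : Nonempty (Sylow p G) := inferInstance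
  obtain ⟨Q⟩ : Nonempty (Sylow q G) := inferInstance
  by_contra hcon
  push Not at hcon
  have hP : ¬ Subgroup.normalizer ((P : Subgroup G) : Set G)
      ≤ Subgroup.centralizer ((P : Subgroup G) : Set G) :=
    fun h1 => hcon.1 (hasNormalPComplement_of_le P h1)
  have hQ : ¬ Subgroup.normalizer ((Q : Subgroup G) : Set G)
      ≤ Subgroup.centralizer ((Q : Subgroup G) : Set G) :=
    fun h1 => hcon.2 (hasNormalPComplement_of_le Q h1)
  have h1 := two_mul_sum_le P hP
  have h2 := two_mul_sum_le Q hQ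
  let f : (Σ P' : Sylow p G, Subgroup.centralizer ((P' : Subgroup G) : Set G)) ⊕
      (Σ Q' : Sylow q G, Subgroup.centralizer ((Q' : Subgroup G) : Set G)) → G :=
    Sum.elim (fun a => a.2.1) (fun a => a.2.1)
  have hsurj : Function.Surjective f := by
    intro g
    by_cases hg : p ∣ (Subgroup.centralizer ({g} : Set G)).index
    · have hgq : ¬ q ∣ (Subgroup.centralizer ({g} : Set G)).index := by
        intro hq1
        exact h g (Nat.Coprime.mul_dvd_of_dvd_of_dvd ((Nat.coprime_primes hp hq).2 hpq) hg hq1)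
      obtain ⟨S, -, hS⟩ := Cfsg.Agent.Lib.Helper22.exists_sylow_le_of_not_dvd_index
        (Subgroup.centralizer ({g} : Set G)) hgq ⊥ IsPGroup.of_bot bot_le
      refine ⟨Sum.inr ⟨S, ⟨g, ?_⟩⟩, rfl⟩
      rw [Subgroup.mem_centralizer_iff]
      intro s hs
      exact Subgroup.mem_centralizer_singleton_iff.1 (hS hs)
    · obtain ⟨S, -, hS⟩ := Cfsg.Agent.Lib.Helper22.exists_sylow_le_of_not_dvd_index
        (Subgroup.centralizer ({g} : Set G)) hg ⊥ IsPGroup.of_bot bot_le
      refine ⟨Sum.inl ⟨S, ⟨g, ?_⟩⟩, rfl⟩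
      rw [Subgroup.mem_centralizer_iff]
      intro s hs
      exact Subgroup.mem_centralizer_singleton_iff.1 (hS hs)
  have hninj : ¬ Function.Injective f := by
    intro hinj
    have : (Sum.inl ⟨P, 1⟩ : (Σ P' : Sylow p G, Subgroup.centralizer ((P' : Subgroup G) : Set G)) ⊕
      (Σ Q' : Sylow q G, Subgroup.centralizer ((Q' : Subgroup G) : Set G))) = Sum.inr ⟨Q, 1⟩ :=
      hinj rfl
    exact Sum.inl_ne_inr this
  cases nonempty_fintype G
  cases nonempty_fintype ((Σ P' : Sylow p G, Subgroup.centralizer ((P' : Subgroup G) : Set G)) ⊕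
      (Σ Q' : Sylow q G, Subgroup.centralizer ((Q' : Subgroup G) : Set G)))
  have hlt := Fintype.card_lt_of_surjective_not_injective f hsurj hninj
  rw [← Nat.card_eq_fintype_card, ← Nat.card_eq_fintype_card, Nat.card_sum] at hlt
  omega

end Cfsg.Agent.S4160
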