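import Cfsg.Statements.S4163
-- import your own Cfsg.Agent.* helpers here
import Mathlib

set_option autoImplicit false
open Cfsg

namespace Cfsg.Agent.S4163

open scoped commutatorElement

theorem card_eq_mul {G : Type*} [Group G] {H K : Subgroup G} (h : H ≤ K) :
    Nat.card K = Nat.card H * H.relIndex K := by
  rw [← Subgroup.relIndex_bot_left, ← Subgroup.relIndex_bot_left,
    Subgroup.relIndex_mul_relIndex _ _ _ bot_le h]

/-- Isaacs: for `x` in a noncentral class of minimal size and `A` abelian normal, `[A, x]` is central. -/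
theorem key {G : Type*} [Group G] [Finite G] (A : Subgroup G) [hAn : A.Normal]
    (hA : ∀ u ∈ A, ∀ v ∈ A, u * v = v * u) (x : G)
    (hmin : ∀ y : G, 1 < (Subgroup.centralizer ({y} : Set G)).index →
      (Subgroup.centralizer ({x} : Set G)).index ≤ (Subgroup.centralizer ({y} : Set G)).index)
    (a₀ : G) (ha₀ : a₀ ∈ A) : a₀ * x * a₀⁻¹ * x⁻¹ ∈ Subgroup.center G := by
  classical
  by_contra hb
  obtain ⟨b, hbdef⟩ : ∃ b, b = a₀ * x * a₀⁻¹ * x⁻¹ := ⟨_, rfl⟩
  rw [← hbdef] at hb
  obtain ⟨D, hD⟩ : ∃ D : Subgroup G, D = Subgroup.centralizer ({x} : Set G) := ⟨_, rfl⟩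
  obtain ⟨C, hC⟩ : ∃ C : Subgroup G, C = Subgroup.centralizer ({b} : Set G) := ⟨_, rfl⟩
  have hmemD : ∀ d, d ∈ D ↔ d * x = x * d := fun d => by
    rw [hD, Subgroup.mem_centralizer_singleton_iff]
  have hmemC : ∀ d, d ∈ C ↔ d * b = b * d := fun d => by
    rw [hC, Subgroup.mem_centralizer_singleton_iff]
  have hconjA : ∀ u ∈ A, x * u * x⁻¹ ∈ A := fun u hu => hAn.conj_mem u hu x
  have hbA : b ∈ A := by
    have e : b = a₀ * (x * a₀⁻¹ * x⁻¹) := by rw [hbdef]; group
    rw [e]
    exact A.mul_mem ha₀ (hconjA _ (A.inv_mem ha₀))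
  have hb1 : b ≠ 1 := fun e => hb (e ▸ Subgroup.one_mem _)
  have h1 : 1 < C.index := by
    have h0 : C.index ≠ 0 := Subgroup.index_ne_zero_of_finite
    have h1 : C.index ≠ 1 := by
      intro e
      rw [Subgroup.index_eq_one] at e
      apply hb
      rw [Subgroup.mem_center_iff]
      intro g
      exact (hmemC g).mp (e ▸ Subgroup.mem_top g)
    omega
  have h2 : Nat.card C ≤ Nat.card D := by
    have h3 : D.index ≤ C.index := by
      have := hmin b (hC ▸ h1)
      rwa [← hD, ← hC] at this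
    have e1 := Subgroup.card_mul_index C
    have e2 := Subgroup.card_mul_index D
    by_contra hlt
    push Not at hlt
    have h4 : Nat.card D * D.index < Nat.card C * C.index :=
      Nat.mul_lt_mul_of_lt_of_le hlt h3 (by omega)
    omega
  let φ : A →* G := MonoidHom.mk' (fun a => (a : G) * x * (a : G)⁻¹ * x⁻¹) (by
    intro u v
    have hw : x * (u : G)⁻¹ * x⁻¹ ∈ A := hconjA _ (A.inv_mem u.2)
    have hw' : x * (v : G)⁻¹ * x⁻¹ ∈ A := hconjA _ (A.inv_mem v.2)
    have e1 : ((u * v : A) : G) * x * ((u * v : A) : G)⁻¹ * x⁻¹ =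
        u * v * ((x * (v : G)⁻¹ * x⁻¹) * (x * (u : G)⁻¹ * x⁻¹)) := by
      rw [Subgroup.coe_mul]; group
    have e2 : (u : G) * x * (u : G)⁻¹ * x⁻¹ * ((v : G) * x * (v : G)⁻¹ * x⁻¹) =
        u * ((x * (u : G)⁻¹ * x⁻¹) * v) * (x * (v : G)⁻¹ * x⁻¹) := by group
    rw [e1, e2, hA _ hw _ v.2, hA _ hw' _ hw]
    simp only [mul_assoc])
  have hφ : ∀ a : A, φ a = (a : G) * x * (a : G)⁻¹ * x⁻¹ := fun a => rfl
  have hker : φ.ker = D.subgroupOf A := by
    ext a
    rw [MonoidHom.mem_ker, hφ, Subgroup.mem_subgroupOf, hmemD]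
    constructor
    · intro e
      have : (a : G) * x = ((a : G) * x * (a : G)⁻¹ * x⁻¹) * (x * a) := by group
      rw [this, e, one_mul]
    · intro e
      rw [e]; group
  have hβ : Nat.card φ.range = D.relIndex A := by
    rw [← Subgroup.index_ker, hker]; rfl
  obtain ⟨E, hE⟩ : ∃ E : Subgroup G, E = D ⊓ C := ⟨_, rfl⟩
  have hED : E ≤ D := hE ▸ inf_le_left
  have hEC : E ≤ C := hE ▸ inf_le_right
  have hAC : A ≤ C := fun u hu => (hmemC u).mpr (hA u hu b hbA)
  have hAE : A ⊓ E = A ⊓ D := by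
    rw [hE]
    apply le_antisymm
    · exact le_inf inf_le_left (inf_le_right.trans inf_le_left)
    · exact le_inf inf_le_left (le_inf inf_le_right (inf_le_left.trans hAC))
  -- (ii)
  have h5 : D.relIndex A * Nat.card E ≤ Nat.card D := by
    have c1 : Nat.card (E ⊔ A : Subgroup G) = Nat.card A * A.relIndex E := by
      rw [card_eq_mul (le_sup_right : A ≤ E ⊔ A), Subgroup.relIndex_sup_right]
    have c2 : Nat.card A = Nat.card (A ⊓ D : Subgroup G) * D.relIndex A := by
      rw [card_eq_mul (inf_le_left : A ⊓ D ≤ A), Subgroup.inf_relIndex_left]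
    have c3 : Nat.card E = Nat.card (A ⊓ D : Subgroup G) * A.relIndex E := by
      rw [card_eq_mul (inf_le_right : A ⊓ E ≤ E), Subgroup.inf_relIndex_right, hAE]
    have c4 : Nat.card (E ⊔ A : Subgroup G) ≤ Nat.card C :=
      Subgroup.card_le_of_le (sup_le hEC hAC)
    calc D.relIndex A * Nat.card E = Nat.card (E ⊔ A : Subgroup G) := by
          rw [c1, c2, c3]; ring
      _ ≤ Nat.card C := c4
      _ ≤ Nat.card D := h2
  have h6 : D.relIndex A ≤ E.relIndex D := by
    rw [card_eq_mul hED, mul_comm] at h5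
    exact Nat.le_of_mul_le_mul_left h5 Nat.card_pos
  -- (iii)
  let f : Option (D ⧸ E.subgroupOf D) → G := fun o =>
    match o with
    | none => 1
    | some q => ((q.out : D) : G) * b * ((q.out : D) : G)⁻¹
  have hconjb : ∀ d ∈ D, d * b * d⁻¹ = φ ⟨d * a₀ * d⁻¹, hAn.conj_mem a₀ ha₀ d⟩ := by
    intro d hd
    rw [hφ, hbdef]
    have e : d * x = x * d := (hmemD d).mp hd
    have e' : x⁻¹ * d⁻¹ = d⁻¹ * x⁻¹ := by
      rw [← mul_inv_rev, ← mul_inv_rev, e]
    show d * (a₀ * x * a₀⁻¹ * x⁻¹) * d⁻¹ = d * a₀ * d⁻¹ * x * (d * a₀ * d⁻¹)⁻¹ * x⁻¹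
    have e2 : d * a₀ * d⁻¹ * x * (d * a₀ * d⁻¹)⁻¹ * x⁻¹ =
        d * a₀ * (d⁻¹ * (x * d)) * a₀⁻¹ * (d⁻¹ * x⁻¹) := by group
    rw [e2, ← e, ← e']
    group
  have hf : Function.Injective f := by
    intro o o' e
    match o, o' with
    | none, none => rfl
    | none, some q =>
      exfalso
      apply hb1
      have e1 : (1 : G) = ((q.out : D) : G) * b * ((q.out : D) : G)⁻¹ := e
      have e2 : b = ((q.out : D) : G)⁻¹ * (((q.out : D) : G) * b * ((q.out : D) : G)⁻¹) *
        ((q.out : D) : G) := by group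
      rw [e2, ← e1]; group
    | some q, none =>
      exfalso
      apply hb1
      have e1 : ((q.out : D) : G) * b * ((q.out : D) : G)⁻¹ = 1 := e
      have e2 : b = ((q.out : D) : G)⁻¹ * (((q.out : D) : G) * b * ((q.out : D) : G)⁻¹) *
        ((q.out : D) : G) := by group
      rw [e2, e1]; group
    | some q, some q' =>
      have e1 : ((q.out : D) : G) * b * ((q.out : D) : G)⁻¹ =
        ((q'.out : D) : G) * b * ((q'.out : D) : G)⁻¹ := e
      have h7 : (q.out)⁻¹ * q'.out ∈ E.subgroupOf D := by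
        rw [Subgroup.mem_subgroupOf]
        have hmemE : ∀ g, g ∈ D → g ∈ C → g ∈ E := fun g h1 h2 => hE ▸ ⟨h1, h2⟩
        refine hmemE _ ((q.out)⁻¹ * q'.out : D).2 ((hmemC _).mpr ?_)
        show ((q.out : D) : G)⁻¹ * ((q'.out : D) : G) * b = b * (((q.out : D) : G)⁻¹ * ((q'.out : D) : G))
        have e2 : ((q.out : D) : G)⁻¹ * ((q'.out : D) : G) * b =
          ((q.out : D) : G)⁻¹ * (((q'.out : D) : G) * b * ((q'.out : D) : G)⁻¹) * ((q'.out : D) : G) := by
          group
        rw [e2, ← e1]; group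
      have h8 := QuotientGroup.eq.mpr h7
      rw [QuotientGroup.out_eq', QuotientGroup.out_eq'] at h8
      rw [h8]
  have hrange : Set.range f ⊆ (φ.range : Set G) := by
    rintro _ ⟨o, rfl⟩
    match o with
    | none => exact φ.range.one_mem
    | some q =>
      show ((q.out : D) : G) * b * ((q.out : D) : G)⁻¹ ∈ φ.range
      rw [hconjb _ (q.out : D).2]
      exact ⟨_, rfl⟩
  have h9 : E.relIndex D + 1 ≤ D.relIndex A := by
    have c1 := Nat.card_range_of_injective hf
    have c2 : Nat.card (Set.range f) ≤ Nat.card (φ.range : Set G) :=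
      Nat.card_mono (Set.toFinite _) hrange
    rw [c1, Finite.card_option] at c2
    have c3 : Nat.card (φ.range : Set G) = D.relIndex A := hβ
    rw [c3] at c2
    exact c2
  omega

theorem core {G : Type*} [Group G] [Finite G] (A : Subgroup G) [hAn : A.Normal]
    (hA : ∀ u ∈ A, ∀ v ∈ A, u * v = v * u) (hCA : Subgroup.centralizer (A : Set G) ≤ A)
    (m : ℕ) (hmin : ∀ x : G, 1 < (Subgroup.centralizer ({x} : Set G)).index →
      m ≤ (Subgroup.centralizer ({x} : Set G)).index)
    (M : Subgroup G) (hM : M = Subgroup.closure {x : G |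
      (Subgroup.centralizer ({x} : Set G)).index = 1 ∨
      (Subgroup.centralizer ({x} : Set G)).index = m}) :
    ∀ x ∈ M, ∀ y ∈ M, ∀ z ∈ M, ⁅⁅x, y⁆, z⁆ ∈ Subgroup.center G := by
  have hAM0 : ∀ g ∈ M, ∀ a ∈ A, ⁅a, g⁆ ∈ Subgroup.center G := by
    intro g hg
    rw [hM] at hg
    induction hg using Subgroup.closure_induction with
    | mem g hg =>
      intro a ha
      rcases hg with hg | hg
      · rw [Subgroup.index_eq_one] at hg
        have h1 : a ∈ Subgroup.centralizer ({g} : Set G) := hg ▸ Subgroup.mem_top a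
        rw [Subgroup.mem_centralizer_singleton_iff] at h1
        have h2 : ⁅a, g⁆ = 1 := by
          rw [commutatorElement_def, h1]; group
        rw [h2]
        exact Subgroup.one_mem _
      · exact key A hA g (fun y hy => by rw [hg]; exact hmin y hy) a ha
    | one =>
      intro a _
      rw [commutatorElement_one_right]
      exact Subgroup.one_mem _
    | mul g h _ _ ihg ihh =>
      intro a ha
      have e : ⁅a, g * h⁆ = ⁅a, g⁆ * (g * ⁅a, h⁆ * g⁻¹) := by
        simp only [commutatorElement_def]; group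
      rw [e]
      exact Subgroup.mul_mem _ (ihg a ha)
        ((inferInstance : (Subgroup.center G).Normal).conj_mem _ (ihh a ha) g)
    | inv g _ ih =>
      intro a ha
      have e : ⁅a, g⁻¹⁆ = g⁻¹ * (⁅a, g⁆)⁻¹ * g⁻¹⁻¹ := by
        simp only [commutatorElement_def]; group
      rw [e]
      exact (inferInstance : (Subgroup.center G).Normal).conj_mem _
        (Subgroup.inv_mem _ (ih a ha)) g⁻¹
  have hAM : ⁅A, M⁆ ≤ Subgroup.center G := by
    rw [Subgroup.commutator_le]
    intro a ha g hg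
    exact hAM0 g hg a ha
  have h1 : ⁅⁅A, M⁆, M⁆ = ⊥ :=
    Subgroup.commutator_eq_bot_iff_le_centralizer.mpr
      (hAM.trans (Subgroup.center_le_centralizer _))
  have h2 : ⁅⁅M, A⁆, M⁆ = ⊥ := by rw [Subgroup.commutator_comm M A]; exact h1
  have h3 : ⁅⁅M, M⁆, A⁆ = ⊥ := Subgroup.commutator_commutator_eq_bot_of_rotate h2 h1
  have h4 : ⁅M, M⁆ ≤ A := (Subgroup.commutator_eq_bot_iff_le_centralizer.mp h3).trans hCA
  intro x hx y hy z hz
  exact hAM (Subgroup.commutator_mem_commutator
    (h4 (Subgroup.commutator_mem_commutator hx hy)) hz)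

/-- Let G be a finite group with a normal abelian subgroup A satisfying C_G(A) = A. Suppose some conjugacy class of G has size greater than 1, let m be the smallest such size, and let M be the subgroup generated by the elements whose class has size 1 or m. Then M is nilpotent of class at most 3. -/
theorem result {G : Type*} [Group G] [Finite G]
    (A : Subgroup G) [A.Normal] (hA : IsMulCommutative A) (hCA : Subgroup.centralizer (A : Set G) = A)
    (m : ℕ) (hm1 : 1 < m) (hm : ∃ x : G, (Subgroup.centralizer ({x} : Set G)).index = m) (hmin : ∀ x : G, 1 < (Subgroup.centralizer ({x} : Set G)).index → m ≤ (Subgroup.centralizer ({x} : Set G)).index) :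
    Subgroup.upperCentralSeries ↥(Subgroup.closure {x : G | (Subgroup.centralizer ({x} : Set G)).index = 1 ∨ (Subgroup.centralizer ({x} : Set G)).index = m}) 3 = ⊤ := by
  have hA' : ∀ u ∈ A, ∀ v ∈ A, u * v = v * u := fun u hu v hv =>
    congrArg Subtype.val (hA.is_comm.comm ⟨u, hu⟩ ⟨v, hv⟩)
  have hc := core A hA' hCA.le m hmin _ rfl
  rw [eq_top_iff]
  intro x _
  rw [Subgroup.mem_upperCentralSeries_succ_iff]
  intro y
  rw [Subgroup.mem_upperCentralSeries_succ_iff]
  intro z
  rw [Subgroup.upperCentralSeries_one, Subgroup.mem_center_iff]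
  intro w
  apply Subtype.ext
  exact Subgroup.mem_center_iff.mp (hc x x.2 y y.2 z z.2) w

end Cfsg.Agent.S4163
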