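import Cfsg.Statements.S4168
-- import your own Cfsg.Agent.* helpers here

set_option autoImplicit false
open Cfsg

namespace Cfsg.Agent.S4168

/-- Let L be a finite quasisimple group (perfect with L/Z(L) simple). Then every prime dividing the order of the centre Z(L) also divides the order of L/Z(L). -/
theorem result {L : Type*} [Group L] [Finite L] (hL : Cfsg.IsQuasisimple L)
    (p : ℕ) (hp : p.Prime) (hdiv : p ∣ Nat.card (Subgroup.center L)) : p ∣ (Subgroup.center L).index := by
  obtain ⟨hperf, _⟩ := hL
  have hker : ∀ g : L, g ^ (Subgroup.center L).index = 1 := by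
    intro g
    have h1 : commutator L ≤ (MonoidHom.transferCenterPow L).ker := by
      rw [commutator_def, Subgroup.commutator_le]
      intro a _ b _
      rw [MonoidHom.mem_ker, map_commutatorElement, commutatorElement_eq_one_iff_mul_comm]
      exact Subtype.ext (Subgroup.mem_center_iff.1 (MonoidHom.transferCenterPow L b).2 _)
    rw [hperf.commutator_eq_top] at h1
    have h2 : g ∈ (MonoidHom.transferCenterPow L).ker := h1 (Subgroup.mem_top g)
    have h3 := congrArg Subtype.val (MonoidHom.mem_ker.1 h2)
    simpa using h3
  have : Fact p.Prime := ⟨hp⟩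
  obtain ⟨z, hz⟩ := exists_prime_orderOf_dvd_card' p hdiv
  have h4 := orderOf_dvd_of_pow_eq_one (hker (z : L))
  rwa [Subgroup.orderOf_coe, hz] at h4

end Cfsg.Agent.S4168
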