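import Cfsg.Statements.S4169
import Cfsg.Agent.S4163
import Cfsg.Agent.Lib.Helper11.PGroup

set_option autoImplicit false
open Cfsg

namespace Cfsg.Agent.S4169

/-- Let P be a finite p-group whose conjugacy classes have exactly two sizes (1 and one other value). Then P has nilpotency class at most 3. -/
theorem result {P : Type*} [Group P] [Finite P] {p : ℕ} [Fact p.Prime] (hP : IsPGroup p P)
    (m : ℕ) (hm : 1 < m) (h : ∀ x : P, (Subgroup.centralizer ({x} : Set P)).index = 1 ∨ (Subgroup.centralizer ({x} : Set P)).index = m) :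
    upperCentralSeries P 3 = ⊤ := by
  obtain ⟨A, hAn, hAc, hCA⟩ :=
    Cfsg.Agent.Lib.Helper11.exists_normal_abelian_self_centralizing p hP
  have hA' : ∀ u ∈ A, ∀ v ∈ A, u * v = v * u := fun u hu v hv =>
    congrArg Subtype.val (hAc.is_comm.comm ⟨u, hu⟩ ⟨v, hv⟩)
  have hmin : ∀ x : P, 1 < (Subgroup.centralizer ({x} : Set P)).index →
      m ≤ (Subgroup.centralizer ({x} : Set P)).index := by
    intro x hx
    rcases h x with h1 | h1
    · omega
    · omega
  have hc := Cfsg.Agent.S4163.core A hA' hCA m hmin _ rfl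
  have hmem : ∀ x : P, x ∈ Subgroup.closure {x : P |
      (Subgroup.centralizer ({x} : Set P)).index = 1 ∨
      (Subgroup.centralizer ({x} : Set P)).index = m} := fun x => Subgroup.subset_closure (h x)
  show Subgroup.upperCentralSeries P 3 = ⊤
  rw [eq_top_iff]
  intro x _
  rw [Subgroup.mem_upperCentralSeries_succ_iff]
  intro y
  rw [Subgroup.mem_upperCentralSeries_succ_iff]
  intro z
  rw [Subgroup.upperCentralSeries_one]
  exact hc x (hmem x) y (hmem y) z (hmem z)

end Cfsg.Agent.S4169
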