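import Cfsg.Statements.S4172
-- import your own Cfsg.Agent.* helpers here
import Cfsg.Agent.S0081
import Cfsg.Agent.S0101
import Cfsg.Agent.Lib.Helper5.NPC
import Cfsg.Agent.Lib.Helper10.PCons
import Cfsg.Agent.Lib.Helper10.PCore
import Cfsg.Agent.Lib.Helper10.Layer
import Cfsg.Agent.Lib.Helper17.Trace

set_option autoImplicit false
open Cfsg

namespace Cfsg.Agent.S4172

open Cfsg.Agent.Lib.Helper10 Cfsg.Agent.Lib.Helper17
open Cfsg.Agent.Lib.Helper5 (NPC npc_iff)
open scoped commutatorElement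

/-- Tate's theorem, ambient form. -/
theorem tateAmb {G : Type*} [Group G] [Finite G] {p : ℕ} [Fact p.Prime] (P : Sylow p G)
    (D : Subgroup G) (hPD : (P : Subgroup G) ≤ Subgroup.normalizer (D : Set G))
    (h : D ⊓ (P : Subgroup G) ≤ (frattini ↥(P : Subgroup G)).map (P : Subgroup G).subtype) :
    NPC p D := by
  obtain ⟨G₁, hG₁⟩ : ∃ G₁ : Subgroup G, G₁ = D ⊔ (P : Subgroup G) := ⟨_, rfl⟩
  have hDG : D ≤ G₁ := hG₁ ▸ le_sup_left
  have hPG : (P : Subgroup G) ≤ G₁ := hG₁ ▸ le_sup_right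
  have hn : (D.subgroupOf G₁).Normal := by
    have : G₁ ≤ Subgroup.normalizer (D : Set G) := hG₁ ▸ sup_le Subgroup.le_normalizer hPD
    exact Subgroup.normal_subgroupOf_of_le_normalizer this
  let P₁ : Sylow p G₁ := P.subtype hPG
  let e : ↥(P : Subgroup G) ≃* ↥((P : Subgroup G).subgroupOf G₁) :=
    (Subgroup.subgroupOfEquivOfLe hPG).symm
  have key : (D.subgroupOf G₁) ⊓ (P₁ : Subgroup G₁) ≤
      (frattini ↥(P₁ : Subgroup G₁)).map (P₁ : Subgroup G₁).subtype := by
    intro x hx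
    have hx1 : (x : G) ∈ D := Subgroup.mem_subgroupOf.mp hx.1
    have hx2 : (x : G) ∈ (P : Subgroup G) := Subgroup.mem_subgroupOf.mp hx.2
    obtain ⟨t, ht, htx⟩ := h ⟨hx1, hx2⟩
    have h3 := frattini_le_comap_frattini_of_surjective (φ := e.toMonoidHom) e.surjective ht
    exact ⟨e t, h3, Subtype.ext htx⟩
  have h4 := Cfsg.Agent.S0081.result P₁ (D.subgroupOf G₁) key
  exact (npc_iff.mp h4).of_equiv (Subgroup.subgroupOfEquivOfLe hDG)

theorem exists_gen {T : Type*} [Group T] [Finite T] {p : ℕ} [hp : Fact p.Prime]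
    (hidx : (frattini T).index = p ^ 2) (D : Subgroup T) (h : ¬ D ≤ frattini T) :
    ∃ y : T, D ⊔ Subgroup.zpowers y = ⊤ := by
  obtain ⟨A, hA⟩ : ∃ A : Subgroup T, A = D ⊔ frattini T := ⟨_, rfl⟩
  have hlt : frattini T < A := by
    refine lt_of_le_of_ne (hA ▸ le_sup_right) (fun e => h ?_)
    rw [e, hA]
    exact le_sup_left
  have h1 : A.index < p ^ 2 := hidx ▸ Subgroup.index_strictAnti hlt
  have h2 : A.index ∣ p ^ 2 := hidx ▸ Subgroup.index_dvd_of_le hlt.le
  obtain ⟨j, hj, hAj⟩ := (Nat.dvd_prime_pow hp.out).mp h2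
  have hj1 : j < 2 := by
    rw [hAj] at h1
    exact (Nat.pow_lt_pow_iff_right hp.out.one_lt).mp h1
  by_cases hAt : A = ⊤
  · refine ⟨1, ?_⟩
    rw [Subgroup.zpowers_one_eq_bot, sup_bot_eq]
    exact frattini_nongenerating (hA ▸ hAt)
  · obtain ⟨y, hy⟩ : ∃ y, y ∉ A := by
      by_contra hcon
      push Not at hcon
      exact hAt (eq_top_iff.mpr fun x _ => hcon x)
    refine ⟨y, ?_⟩
    apply frattini_nongenerating
    have hlt2 : A < A ⊔ Subgroup.zpowers y := by
      refine lt_of_le_of_ne le_sup_left (fun e => hy ?_)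
      rw [e]
      exact le_sup_right (a := A) (Subgroup.mem_zpowers y)
    have h3 : (A ⊔ Subgroup.zpowers y).index < p ^ j := hAj ▸ Subgroup.index_strictAnti hlt2
    have h4 : (A ⊔ Subgroup.zpowers y).index ∣ p ^ j := hAj ▸ Subgroup.index_dvd_of_le hlt2.le
    obtain ⟨i, hi, hBi⟩ := (Nat.dvd_prime_pow hp.out).mp h4
    have hi1 : i < j := by
      rw [hBi] at h3
      exact (Nat.pow_lt_pow_iff_right hp.out.one_lt).mp h3
    have hi0 : i = 0 := by omega
    rw [hi0, pow_zero, Subgroup.index_eq_one] at hBi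
    rw [← hBi, hA]
    ac_rfl

variable {G : Type*} [Group G] [Finite G] {p : ℕ} [Fact p.Prime]

/-- the Frattini subgroup of `P`, as a subgroup of `G` -/
abbrev Phi (P : Sylow p G) : Subgroup G :=
  (frattini ↥(P : Subgroup G)).map (P : Subgroup G).subtype

theorem lemT (P : Sylow p G) (hcore : Cfsg.pPrimeCore p G = ⊥) (hfrat : (Phi P).normalCore = ⊥)
    (K : Subgroup G) (hK : K.Normal) (hne : K ≠ ⊥) : ¬ (K ⊓ (P : Subgroup G) ≤ Phi P) := by
  intro h
  obtain ⟨N, hN, hcop, k, hk⟩ := tateAmb P K (by rw [Subgroup.normalizer_eq_top]; exact le_top) h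
  have hmem : ∀ x : K, (orderOf x).Coprime p → x ∈ N := by
    intro x hx
    have h1 : x ^ (p ^ k) ∈ N := hk ▸ Subgroup.pow_index_mem N x
    exact mem_of_pow_p_pow_mem hx h1
  have hNG : (N.map K.subtype).Normal := by
    constructor
    rintro _ ⟨c, hc, rfl⟩ g
    have hcK : g * (c : G) * g⁻¹ ∈ K := hK.conj_mem _ c.2 g
    refine ⟨⟨_, hcK⟩, hmem _ ?_, rfl⟩
    have h1 : orderOf (⟨_, hcK⟩ : K) = orderOf c := by
      rw [← Subgroup.orderOf_coe, ← Subgroup.orderOf_coe]
      exact orderOf_conj _ _ 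
    rw [h1]
    have h2 : orderOf c ∣ Nat.card N := by
      have := orderOf_dvd_natCard (⟨c, hc⟩ : N)
      rwa [← Subgroup.orderOf_coe] at this
    exact Nat.Coprime.coprime_dvd_left h2 hcop
  have hNbot : N.map K.subtype ≤ ⊥ :=
    hcore ▸ Cfsg.Agent.Lib.Helper10.le_pPrimeCore hNG (by
      rw [Subgroup.card_map_of_injective K.subtype_injective]; exact hcop)
  have hN' : N = ⊥ := by
    rw [le_bot_iff] at hNbot
    exact (Subgroup.map_eq_bot_iff_of_injective _ K.subtype_injective).mp hNbot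
  have hKp : IsPGroup p K := IsPGroup.of_card (n := k) (by rw [← hk, hN', Subgroup.index_bot])
  have hKP : K ≤ P := (Cfsg.Agent.Lib.Helper17.le_pCore hK hKp).trans (pCore_le_sylow P)
  have h5 : K ≤ (Phi P).normalCore :=
    Subgroup.normal_le_normalCore.mpr ((le_inf le_rfl hKP).trans h)
  exact hne (eq_bot_iff.mpr (hfrat ▸ h5))

theorem c2 (P : Sylow p G) (hgen : (frattini ↥(P : Subgroup G)).index = p ^ 2)
    (D : Subgroup G) (hPD : (P : Subgroup G) ≤ Subgroup.normalizer (D : Set G))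
    (h : ¬ (D ⊓ (P : Subgroup G) ≤ Phi P)) :
    ∃ y ∈ (P : Subgroup G), ∀ x ∈ (P : Subgroup G), ∃ d ∈ D, ∃ i : ℤ, x = d * y ^ i := by
  have hn : (D.subgroupOf (P : Subgroup G)).Normal :=
    Subgroup.normal_subgroupOf_of_le_normalizer hPD
  have h1 : ¬ D.subgroupOf (P : Subgroup G) ≤ frattini ↥(P : Subgroup G) := by
    intro hle
    apply h
    rintro x ⟨hx1, hx2⟩
    exact ⟨⟨x, hx2⟩, hle (Subgroup.mem_subgroupOf.mpr hx1), rfl⟩
  obtain ⟨y, hy⟩ := exists_gen hgen _ h1
  refine ⟨y, y.2, fun x hx => ?_⟩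
  have h2 : (⟨x, hx⟩ : (P : Subgroup G)) ∈
      ((D.subgroupOf (P : Subgroup G) ⊔ Subgroup.zpowers y : Subgroup _) : Set _) := by
    rw [hy]; trivial
  rw [Subgroup.normal_mul] at h2
  obtain ⟨d, hd, z, hz, e⟩ := Set.mem_mul.mp h2
  obtain ⟨i, rfl⟩ := Subgroup.mem_zpowers_iff.mp hz
  refine ⟨d, Subgroup.mem_subgroupOf.mp hd, i, ?_⟩
  have := congrArg Subtype.val e
  simpa using this.symm

theorem c2comm (P : Sylow p G) (hgen : (frattini ↥(P : Subgroup G)).index = p ^ 2)
    (D : Subgroup G) (hPD : (P : Subgroup G) ≤ Subgroup.normalizer (D : Set G))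
    (h : ¬ (D ⊓ (P : Subgroup G) ≤ Phi P)) (a b : G) (ha : a ∈ (P : Subgroup G))
    (hb : b ∈ (P : Subgroup G)) : a * b * a⁻¹ * b⁻¹ ∈ D := by
  obtain ⟨y, hy, hall⟩ := c2 P hgen D hPD h
  obtain ⟨d, hd, i, rfl⟩ := hall a ha
  obtain ⟨d', hd', j, rfl⟩ := hall b hb
  have e : d * y ^ i * (d' * y ^ j) * (d * y ^ i)⁻¹ * (d' * y ^ j)⁻¹ =
      d * (y ^ i * d' * (y ^ i)⁻¹) * (y ^ j * d⁻¹ * (y ^ j)⁻¹) * d'⁻¹ := by
    group
  rw [e]
  have hyi : ∀ i : ℤ, y ^ i ∈ (P : Subgroup G) := fun i => Subgroup.zpow_mem _ hy i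
  exact D.mul_mem (D.mul_mem (D.mul_mem hd (conj_mem_of_le_normalizer hPD (hyi i) hd'))
    (conj_mem_of_le_normalizer hPD (hyi j) (D.inv_mem hd))) (D.inv_mem hd')

theorem comm_mem_Phi (P : Sylow p G) (a b : G) (ha : a ∈ (P : Subgroup G))
    (hb : b ∈ (P : Subgroup G)) : a * b * a⁻¹ * b⁻¹ ∈ Phi P := by
  have h1 : ⁅(⟨a, ha⟩ : (P : Subgroup G)), ⟨b, hb⟩⁆ ∈ commutator ↥(P : Subgroup G) :=
    Subgroup.commutator_mem_commutator (Subgroup.mem_top _) (Subgroup.mem_top _)
  exact ⟨_, (Cfsg.Agent.S0012.result p P.isPGroup').1 h1, rfl⟩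

theorem comp_not_npc (hcore : Cfsg.pPrimeCore p G = ⊥) {K : Subgroup G}
    (hK : Cfsg.IsComponent K) : ¬ NPC p K := by
  rintro ⟨N, hN, hcop, k, hk⟩
  have : Group.IsPerfect K := hK.2.1
  have hq : IsPGroup p (K ⧸ N) := IsPGroup.of_card (n := k) (by rw [← hk]; rfl)
  have hsub : Subsingleton (K ⧸ N) := by
    by_contra hns
    rw [not_subsingleton_iff_nontrivial] at hns
    exact Group.IsPerfect.not_isNilpotent (K ⧸ N) hq.isNilpotent
  have hNtop : N = ⊤ := QuotientGroup.subgroup_eq_top_of_subsingleton N hsub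
  have hc : (Nat.card K).Coprime p := by
    rw [hNtop, Subgroup.card_top] at hcop
    exact hcop
  have h1 := le_pPrimeCore_of_isSubnormal p G K hK.1 hc
  rw [hcore] at h1
  exact component_ne_bot hK (le_bot_iff.mp h1)

/-- join of the `P`-conjugates of `K` -/
def orb (P K : Subgroup G) : Subgroup G := ⨆ x : P, K.map (MulAut.conj (x : G)).toMonoidHom

omit [Finite G] in
theorem le_orb (P K : Subgroup G) : K ≤ orb P K := by
  have h := le_iSup (fun x : P => K.map (MulAut.conj (x : G)).toMonoidHom) 1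
  have e : K.map (MulAut.conj ((1 : P) : G)).toMonoidHom = K := map_conj_one K
  rw [e] at h
  exact h

omit [Finite G] in
theorem le_normalizer_orb (P K : Subgroup G) : P ≤ Subgroup.normalizer (orb P K : Set G) := by
  apply le_normalizer_of_conj_mem
  intro t ht v hv
  have h : orb P K ≤ (orb P K).comap (MulAut.conj t).toMonoidHom := by
    apply iSup_le
    rintro x _ ⟨k, hk, rfl⟩
    have h1 : K.map (MulAut.conj ((⟨t, ht⟩ * x : P) : G)).toMonoidHom ≤ orb P K :=
      le_iSup (fun x : P => K.map (MulAut.conj (x : G)).toMonoidHom) _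
    apply h1
    exact ⟨k, hk, by simp [mul_assoc]⟩
  exact h hv

theorem orb_le_centralizer {P K M : Subgroup G} (hK : Cfsg.IsComponent K)
    (hM : Cfsg.IsComponent M) (h : ∀ t ∈ P, M ≠ K.map (MulAut.conj t).toMonoidHom) :
    orb P K ≤ Subgroup.centralizer (M : Set G) := by
  apply iSup_le
  intro x
  rcases components_eq_or_commute (isComponent_map_mulEquiv (MulAut.conj (x : G)) hK) hM with e | e
  · exact absurd e.symm (h x x.2)
  · exact Subgroup.commutator_eq_bot_iff_le_centralizer.mp e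

theorem central_le_Phi (P : Sylow p G) (E N : Subgroup G) (hEp : ⁅E, E⁆ = E) (hNn : N.Normal)
    (hNE : N ≤ E) (hNp : IsPGroup p N) (hNc : N ≤ Subgroup.centralizer (E : Set G)) :
    N ≤ Phi P := by
  have hperf : commutator ↥E = ⊤ := Group.isPerfect_def.mp (Subgroup.isPerfect_iff.mpr hEp)
  obtain ⟨S⟩ : Nonempty (Sylow p E) := inferInstance
  obtain ⟨g, hg⟩ := pgroup_le_conj_sylow (S.2.map E.subtype) P
  intro z hz
  have hz' : g * z * g⁻¹ ∈ N := hNn.conj_mem z hz g
  have hcen : (⟨g * z * g⁻¹, hNE hz'⟩ : E) ∈ Subgroup.center E := by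
    rw [Subgroup.mem_center_iff]
    intro e
    exact Subtype.ext (Subgroup.mem_centralizer_iff.mp (hNc hz') e e.2)
  have hS : (⟨g * z * g⁻¹, hNE hz'⟩ : E) ∈ (S : Subgroup E) := by
    have h1 : (N.subgroupOf E).Normal := inferInstance
    have h2 : IsPGroup p (N.subgroupOf E) := hNp.comap_subtype
    exact ((Cfsg.Agent.Lib.Helper17.le_pCore h1 h2).trans
      (Cfsg.Agent.Lib.Helper17.pCore_le_sylow S)) (Subgroup.mem_subgroupOf.mpr hz')
  have h3 := Cfsg.Agent.S0101.central_mem_commutator hperf S _ hcen hS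
  let ψ : ↥(S : Subgroup E) →* ↥(P : Subgroup G) :=
    ((MulAut.conj g⁻¹).toMonoidHom.comp (E.subtype.comp (S : Subgroup E).subtype)).codRestrict
      (P : Subgroup G) (fun s => by
        obtain ⟨t, ht, e⟩ := hg ⟨s.1, s.2, rfl⟩
        have e' : ((s : E) : G) = g * t * g⁻¹ := e.symm
        show g⁻¹ * ((s : E) : G) * g⁻¹⁻¹ ∈ (P : Subgroup G)
        rw [e']
        have : g⁻¹ * (g * t * g⁻¹) * g⁻¹⁻¹ = t := by group
        rw [this]
        exact ht)
  have h4 : ψ ⟨_, hS⟩ ∈ commutator ↥(P : Subgroup G) := by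
    have h5 : (commutator ↥(S : Subgroup E)).map ψ ≤ commutator ↥(P : Subgroup G) := by
      rw [commutator_def, Subgroup.map_commutator]
      exact Subgroup.commutator_mono le_top le_top
    exact h5 ⟨_, h3, rfl⟩
  refine ⟨ψ ⟨_, hS⟩, (Cfsg.Agent.S0012.result p P.isPGroup').1 h4, ?_⟩
  show g⁻¹ * (g * z * g⁻¹) * g⁻¹⁻¹ = z
  group

/-- Let p be a prime and G a finite group with a non-commutative Sylow p-subgroup P whose Frattini subgroup has index p² in P (P is generated by two elements). Suppose G has no nontrivial normal subgroup of order prime to p and the Frattini subgroup of P contains no nontrivial normal subgroup of G. Then the generalized Fitting subgroup F*(G) is the unique minimal normal subgroup of G, the image of P in G/F*(G) is cyclic, and if F*(G) is not commutative then P permutes the components of G transitively by conjugation. -/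
theorem result {G : Type*} [Group G] [Finite G] (p : ℕ) [Fact p.Prime] (P : Sylow p G) (hna : ¬ IsMulCommutative (P : Subgroup G)) (hgen : (frattini ↥(P : Subgroup G)).index = p ^ 2) (hcore : Cfsg.pPrimeCore p G = ⊥) (hfrat : ((frattini ↥(P : Subgroup G)).map (P : Subgroup G).subtype).normalCore = ⊥) [hFn : (Cfsg.generalizedFittingSubgroup G).Normal] :
    (Cfsg.generalizedFittingSubgroup G ≠ ⊥ ∧ ∀ K : Subgroup G, K.Normal → K ≠ ⊥ → Cfsg.generalizedFittingSubgroup G ≤ K) ∧
      IsCyclic ↥((P : Subgroup G).map (QuotientGroup.mk' (Cfsg.generalizedFittingSubgroup G))) ∧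
      (¬ IsMulCommutative (Cfsg.generalizedFittingSubgroup G) → ∀ K L : Subgroup G, Cfsg.IsComponent K → Cfsg.IsComponent L → ∃ x ∈ (P : Subgroup G), L = K.map (MulAut.conj x).toMonoidHom) := by
  classical
  have hp : p.Prime := Fact.out
  have hT := lemT P hcore hfrat
  have hnorm : ∀ K : Subgroup G, K.Normal →
      (P : Subgroup G) ≤ Subgroup.normalizer (K : Set G) := by
    intro K hK
    rw [Subgroup.normalizer_eq_top]
    exact le_top
  obtain ⟨a, ha, b, hb, hab⟩ : ∃ a ∈ (P : Subgroup G), ∃ b ∈ (P : Subgroup G),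
      a * b * a⁻¹ * b⁻¹ ≠ 1 := by
    by_contra hcon
    push Not at hcon
    apply hna
    refine ⟨⟨fun x y => Subtype.ext ?_⟩⟩
    have h1 := hcon x x.2 y y.2
    show (x : G) * y = y * x
    have h2 : (x : G) * y = ((x : G) * y * (x : G)⁻¹ * (y : G)⁻¹) * (y * x) := by group
    rw [h2, h1, one_mul]
  have hC : ∀ K : Subgroup G, K.Normal → K ≠ ⊥ → a * b * a⁻¹ * b⁻¹ ∈ K := fun K hK hne =>
    c2comm P hgen K (hnorm K hK) (hT K hK hne) a b ha hb
  obtain ⟨N₀, hN₀⟩ := Set.Finite.exists_minimal (s := {K : Subgroup G | K.Normal ∧ K ≠ ⊥})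
    (Set.toFinite _) ⟨⊤, inferInstance, fun e => hab (by
      have h1 : a * b * a⁻¹ * b⁻¹ ∈ (⊤ : Subgroup G) := trivial
      rw [e] at h1
      exact Subgroup.mem_bot.mp h1)⟩
  have hN₀n : N₀.Normal := hN₀.1.1
  have hN₀ne : N₀ ≠ ⊥ := hN₀.1.2
  have hmin : ∀ K : Subgroup G, K.Normal → K ≠ ⊥ → N₀ ≤ K := by
    intro K hK hKne
    have h1 : N₀ ⊓ K ∈ {K : Subgroup G | K.Normal ∧ K ≠ ⊥} := by
      refine ⟨inferInstance, fun e => hab ?_⟩
      have h2 : a * b * a⁻¹ * b⁻¹ ∈ N₀ ⊓ K := ⟨hC N₀ hN₀n hN₀ne, hC K hK hKne⟩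
      rw [e] at h2
      exact Subgroup.mem_bot.mp h2
    exact (hN₀.2 h1 inf_le_left).trans inf_le_right
  have hFne : Cfsg.generalizedFittingSubgroup G ≠ ⊥ := by
    intro e
    have h1 := centralizer_genFitting_le G
    rw [e] at h1
    apply hab
    apply Subgroup.mem_bot.mp
    apply h1
    rw [Subgroup.mem_centralizer_iff]
    intro h hh
    have h2 : h = 1 := Subgroup.mem_bot.mp hh
    rw [h2]
    simp
  have hdich : ⁅N₀, N₀⁆ = ⊥ ∨ ⁅N₀, N₀⁆ = N₀ := by
    by_cases h : ⁅N₀, N₀⁆ = ⊥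
    · exact Or.inl h
    · exact Or.inr (le_antisymm (Subgroup.commutator_le_left _ _) (hmin _ inferInstance h))
  have hA : ⁅N₀, N₀⁆ = N₀ →
      Cfsg.fittingSubgroup G = ⊥ ∧ Subgroup.centralizer (N₀ : Set G) = ⊥ := by
    intro hperf
    have hnt : Nontrivial N₀ := (Subgroup.nontrivial_iff_ne_bot N₀).mpr hN₀ne
    have hP : Group.IsPerfect N₀ := Subgroup.isPerfect_iff.mpr hperf
    constructor
    · by_contra hF
      have h1 := hmin _ (Cfsg.Agent.Lib.Helper10.fittingSubgroup_normal G) hF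
      have h3 := Cfsg.Agent.Lib.Helper10.fittingSubgroup_isNilpotent G
      have h2 : Group.IsSolvable N₀ :=
        Group.isSolvable_of_isSolvable_injective (f := Subgroup.inclusion h1)
          (Subgroup.inclusion_injective h1)
      exact Group.IsPerfect.not_isSolvable N₀ h2
    · by_contra hC0
      have h1 := hmin _ inferInstance hC0
      have h2 : ⁅N₀, N₀⁆ = ⊥ := Subgroup.commutator_eq_bot_iff_le_centralizer.mpr h1
      rw [hperf] at h2
      exact hN₀ne h2
  have hFle : Cfsg.generalizedFittingSubgroup G ≤ N₀ := by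
    rcases hdich with hab0 | hperf
    · have hFQ := fitting_eq_pCore_of_pPrimeCore_eq_bot p hcore
      obtain ⟨Q, hQ⟩ : ∃ Q : Subgroup G, Q = Cfsg.pCore p G := ⟨_, rfl⟩
      rw [← hQ] at hFQ
      have hQn : Q.Normal := by rw [hQ]; infer_instance
      have hQP : Q ≤ P := hQ ▸ Cfsg.Agent.Lib.Helper17.pCore_le_sylow P
      have hcommN := commute_of_commutator_eq_bot hab0
      have hN₀F : N₀ ≤ Cfsg.fittingSubgroup G := by
        let _ : CommGroup N₀ :=
          { (inferInstance : Group N₀) with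
            mul_comm := fun a b => Subtype.ext (hcommN a a.2 b b.2) }
        exact le_sSup ⟨hN₀n, inferInstance⟩
      have hN₀Q : N₀ ≤ Q := hFQ ▸ hN₀F
      have hN₀p : IsPGroup p N₀ := P.2.to_le (hN₀Q.trans hQP)
      have hE : Cfsg.layer G = ⊥ := by
        by_contra hE
        have h1 := hmin _ (layer_normal G) hE
        have h2 : N₀ ≤ Subgroup.centralizer (Cfsg.layer G : Set G) := by
          have h3 := layer_commutator_fitting G
          rw [Subgroup.commutator_comm, Subgroup.commutator_eq_bot_iff_le_centralizer] at h3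
          exact hN₀F.trans h3
        have h3 := central_le_Phi P (Cfsg.layer G) N₀ (layer_perfect G) hN₀n h1 hN₀p h2
        exact hT N₀ hN₀n hN₀ne (inf_le_left.trans h3)
      unfold Cfsg.generalizedFittingSubgroup
      rw [hE, bot_sup_eq, hFQ]
      have hQab : ∀ x ∈ Q, ∀ y ∈ Q, x * y = y * x := by
        apply commute_of_commutator_eq_bot
        by_contra h
        have h1 := hmin _ inferInstance h
        apply hT N₀ hN₀n hN₀ne
        refine inf_le_left.trans (h1.trans ?_)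
        rw [Subgroup.commutator_le]
        intro x hx y hy
        exact comm_mem_Phi P x y (hQP hx) (hQP hy)
      intro q hq
      by_contra hqN
      obtain ⟨y, hy, hall⟩ := c2 P hgen N₀ (hnorm N₀ hN₀n) (hT N₀ hN₀n hN₀ne)
      obtain ⟨n, hn, i, hqi⟩ := hall q (hQP hq)
      have hzQ : y ^ i ∈ Q := by
        have h1 : y ^ i = n⁻¹ * q := by rw [hqi]; group
        rw [h1]
        exact Q.mul_mem (Q.inv_mem (hN₀Q hn)) hq
      have hzN : y ^ i ∉ N₀ := fun h => hqN (hqi ▸ N₀.mul_mem hn h)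
      have hzT : ∀ t ∈ (P : Subgroup G), t * y ^ i = y ^ i * t := by
        intro t ht
        obtain ⟨d, hd, j, rfl⟩ := hall t ht
        have c1 : Commute d (y ^ i) := hQab d (hN₀Q hd) _ hzQ
        have c2 : Commute (y ^ j) (y ^ i) := (Commute.refl y).zpow_zpow j i
        exact c1.mul_left c2
      obtain ⟨G₀, hG₀⟩ : ∃ G₀ : Subgroup G, G₀ = stabMod Q N₀ := ⟨_, rfl⟩
      have hG₀n : G₀.Normal := by
        rw [← Subgroup.normalizer_eq_top_iff, hG₀]
        exact top_le_iff.mp (le_normalizer_stabMod (by rw [Subgroup.normalizer_eq_top])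
          (by rw [Subgroup.normalizer_eq_top]))
      have hPG₀ : (P : Subgroup G) ≤ G₀ := by
        intro t ht
        rw [hG₀]
        refine mem_stabMod.mpr ⟨by rw [Subgroup.normalizer_eq_top]; trivial, fun f hf => ?_⟩
        exact c2comm P hgen N₀ (hnorm N₀ hN₀n) (hT N₀ hN₀n hN₀ne) t f ht (hQP hf)
      obtain ⟨τ, hτQ, hτc, hτz⟩ := trace_aux (L := G₀) (T := (P : Subgroup G)) (V := Q) (W := N₀)
        hQab (by rw [Subgroup.normalizer_eq_top]; exact le_top) hzQ hzT
        (fun g hg => (mem_stabMod.mp (hG₀ ▸ hg)).2 _ hzQ)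
      have hτN : τ ∉ N₀ := by
        intro h
        have h1 : (y ^ i) ^ ((P : Subgroup G).relIndex G₀) ∈ N₀ := by
          have h2 : (y ^ i) ^ ((P : Subgroup G).relIndex G₀) =
              (τ * ((y ^ i) ^ ((P : Subgroup G).relIndex G₀))⁻¹)⁻¹ * τ := by group
          rw [h2]
          exact N₀.mul_mem (N₀.inv_mem hτz) h
        have hm : ((P : Subgroup G).relIndex G₀).Coprime (orderOf (y ^ i)) := by
          obtain ⟨k, hk⟩ := (IsPGroup.iff_orderOf.mp P.2) ⟨y ^ i, hQP hzQ⟩
          rw [← Subgroup.orderOf_coe] at hk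
          rw [hk]
          apply Nat.Coprime.pow_right
          apply Nat.Coprime.symm
          rw [Nat.Prime.coprime_iff_not_dvd hp]
          intro hd
          exact P.not_dvd_index (hd.trans (Dvd.intro _ (Subgroup.relIndex_mul_index hPG₀)))
        obtain ⟨m', hm'⟩ := exists_pow_eq_self_of_coprime hm
        exact hzN (hm' ▸ N₀.pow_mem h1 m')
      have hU : Q ⊓ Subgroup.centralizer (G₀ : Set G) ≠ ⊥ := by
        intro e
        have h1 : τ ∈ Q ⊓ Subgroup.centralizer (G₀ : Set G) :=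
          ⟨hτQ, Subgroup.mem_centralizer_iff.mpr (fun g hg => hτc g hg)⟩
        rw [e] at h1
        exact hτN ((Subgroup.mem_bot.mp h1) ▸ N₀.one_mem)
      have hN₀c := (hmin _ inferInstance hU).trans inf_le_right
      have hcen : ∀ d ∈ N₀, ∀ t ∈ (P : Subgroup G), Commute d t := fun d hd t ht =>
        (Subgroup.mem_centralizer_iff.mp (hN₀c hd) t (hPG₀ ht)).symm
      apply hab
      have hyP : ∀ i : ℤ, y ^ i ∈ (P : Subgroup G) := fun i => Subgroup.zpow_mem _ hy i
      obtain ⟨d, hd, i1, hai⟩ := hall a ha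
      obtain ⟨d', hd', j1, hbj⟩ := hall b hb
      have c : Commute a b := by
        rw [hai, hbj]
        exact Commute.mul_left
          (Commute.mul_right (hcen d hd d' (hQP (hN₀Q hd'))) (hcen d hd _ (hyP j1)))
          (Commute.mul_right (hcen d' hd' _ (hyP i1)).symm ((Commute.refl y).zpow_zpow i1 j1))
      rw [c.eq]
      group
    · obtain ⟨hF, hC0⟩ := hA hperf
      unfold Cfsg.generalizedFittingSubgroup
      rw [hF, sup_bot_eq, layer_le_iff]
      intro L hL
      rcases component_le_or_commutator_eq_bot G L N₀ hL hN₀n.isSubnormal with h | h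
      · exact h
      · exfalso
        have h1 := Subgroup.commutator_eq_bot_iff_le_centralizer.mp h
        rw [hC0] at h1
        exact component_ne_bot hL (le_bot_iff.mp h1)
  have hFeq : Cfsg.generalizedFittingSubgroup G = N₀ := le_antisymm hFle (hmin _ hFn hFne)
  refine ⟨⟨hFne, fun K hK hKne => hFle.trans (hmin K hK hKne)⟩, ?_, ?_⟩
  · obtain ⟨y, hy, hall⟩ := c2 P hgen _ (hnorm _ hFn) (hT _ hFn hFne)
    rw [Subgroup.isCyclic_iff_exists_zpowers_eq_top]
    refine ⟨QuotientGroup.mk' _ y, le_antisymm ?_ ?_⟩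
    · rw [Subgroup.zpowers_le]
      exact ⟨y, hy, rfl⟩
    · rintro _ ⟨x, hx, rfl⟩
      obtain ⟨d, hd, i, rfl⟩ := hall x hx
      rw [Subgroup.mem_zpowers_iff]
      refine ⟨i, ?_⟩
      rw [map_mul, map_zpow]
      have h1 : QuotientGroup.mk' (Cfsg.generalizedFittingSubgroup G) d = 1 :=
        (QuotientGroup.eq_one_iff d).mpr hd
      rw [h1, one_mul]
  · intro hFna K L hK hL
    by_contra hcon
    push Not at hcon
    have hperf : ⁅N₀, N₀⁆ = N₀ := by
      rcases hdich with h | h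
      · exfalso
        apply hFna
        rw [hFeq]
        exact ⟨⟨fun x y => Subtype.ext (commute_of_commutator_eq_bot h x x.2 y y.2)⟩⟩
      · exact h
    obtain ⟨hF, hC0⟩ := hA hperf
    have hN₀E : N₀ = Cfsg.layer G := by
      rw [← hFeq]
      unfold Cfsg.generalizedFittingSubgroup
      rw [hF, sup_bot_eq]
    have h1 : a * b * a⁻¹ * b⁻¹ ∈ orb P K :=
      c2comm P hgen _ (le_normalizer_orb P K) (fun h => comp_not_npc hcore hK
        ((tateAmb P _ (le_normalizer_orb P K) h).of_le (le_orb P K))) a b ha hb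
    have h2 : a * b * a⁻¹ * b⁻¹ ∈ orb P L :=
      c2comm P hgen _ (le_normalizer_orb P L) (fun h => comp_not_npc hcore hL
        ((tateAmb P _ (le_normalizer_orb P L) h).of_le (le_orb P L))) a b ha hb
    apply hab
    have h3 : Cfsg.layer G ≤ Subgroup.centralizer {a * b * a⁻¹ * b⁻¹} := by
      rw [layer_le_iff]
      intro M hM m hm
      rw [Subgroup.mem_centralizer_singleton_iff]
      by_cases hMK : ∃ t ∈ (P : Subgroup G), M = K.map (MulAut.conj t).toMonoidHom
      · obtain ⟨t, ht, hMt⟩ := hMK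
        have h4 : orb P L ≤ Subgroup.centralizer (M : Set G) := by
          refine orb_le_centralizer hL hM (fun s hs e => ?_)
          apply hcon (s⁻¹ * t) (mul_mem (inv_mem hs) ht)
          rw [← map_conj_map_conj, ← hMt, e, map_conj_map_conj, inv_mul_cancel, map_conj_one]
        exact Subgroup.mem_centralizer_iff.mp (h4 h2) m hm
      · push Not at hMK
        have h4 := orb_le_centralizer hK hM hMK
        exact Subgroup.mem_centralizer_iff.mp (h4 h1) m hm
    have h5 : a * b * a⁻¹ * b⁻¹ ∈ Subgroup.centralizer (N₀ : Set G) := by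
      rw [hN₀E, Subgroup.mem_centralizer_iff]
      intro h hh
      exact Subgroup.mem_centralizer_singleton_iff.mp (h3 hh)
    rw [hC0] at h5
    exact Subgroup.mem_bot.mp h5

end Cfsg.Agent.S4172
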