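import Cfsg.Statements.S4176
-- import your own Cfsg.Agent.* helpers here
import Mathlib
import Cfsg.Agent.Lib.Helper20.OrbSpan
import Cfsg.Agent.Lib.Helper20.PSolvHall

set_option autoImplicit false
open Cfsg

namespace Cfsg.Agent.S4176


open Cfsg.Agent.Lib.Helper20.OrbSpan

theorem psolv_sub {p : ℕ} [Fact p.Prime] {G : Type*} [Group G] (M : Subgroup G)
    (h : Cfsg.IsPSolvable p G) : Cfsg.IsPSolvable p M := by
  obtain ⟨n, H, h0, hn, hmono, hnorm, hfac⟩ := h
  refine ⟨n, fun i => (H i).subgroupOf M, ?_, ?_, ?_, ?_, ?_⟩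
  · simp only [h0, Subgroup.bot_subgroupOf]
  · simp only [hn, Subgroup.top_subgroupOf]
  · exact fun i j hij => Subgroup.comap_mono (hmono hij)
  · intro i
    haveI := hnorm i
    infer_instance
  · intro i
    haveI := hnorm i.castSucc
    have hd : ((H i.castSucc).subgroupOf M).relIndex ((H i.succ).subgroupOf M) ∣
        (H i.castSucc).relIndex (H i.succ) := by
      rw [← Subgroup.inf_subgroupOf_right (H i.succ) M, Subgroup.relIndex_subgroupOf inf_le_right]
      exact Cfsg.Agent.Lib.Helper5.relIndex_dvd_relIndex_of_le inf_le_left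
    rcases hfac i with ⟨m, hm⟩ | hc
    · left
      rw [hm] at hd
      obtain ⟨j, _, hj⟩ := (Nat.dvd_prime_pow Fact.out).mp hd
      exact ⟨j, hj⟩
    · right
      exact Nat.Coprime.coprime_dvd_left hd hc

theorem hall_sub {p : ℕ} [hp : Fact p.Prime] {H : Type*} [Group H] [Finite H]
    (hsol : Cfsg.IsPSolvable p H) (L : Subgroup H) :
    ∃ K : Subgroup H, K ≤ L ∧ (Nat.card K).Coprime p ∧ ∃ c : ℕ, K.index = L.index * p ^ c := by
  have hL0 : Nat.card L ≠ 0 := Nat.card_pos.ne'
  have e0 : Nat.card L = (Nat.card L / p ^ (Nat.card L).factorization p) *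
      p ^ (Nat.card L).factorization p := by
    rw [mul_comm]
    exact (Nat.ordProj_mul_ordCompl_eq_self (Nat.card L) p).symm
  have hcop : (Nat.card L / p ^ (Nat.card L).factorization p).Coprime p :=
    (Nat.coprime_ordCompl hp.out hL0).symm
  obtain ⟨K', hK'⟩ := Cfsg.Agent.Lib.Helper20.psolv_exists (p := p) _ (↥L) (psolv_sub L hsol) rfl _ _
    e0 hcop
  set m := Nat.card L / p ^ (Nat.card L).factorization p with hm
  refine ⟨K'.map L.subtype, Subgroup.map_subtype_le K', ?_, (Nat.card L).factorization p, ?_⟩
  · rw [Subgroup.card_map_of_injective L.subtype_injective, hK']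
    exact hcop
  · have e1 := (K'.map L.subtype).card_mul_index
    have e2 := L.card_mul_index
    rw [Subgroup.card_map_of_injective L.subtype_injective, hK'] at e1
    have hm0 : 0 < m := by
      rcases Nat.eq_zero_or_pos m with h | h
      · rw [h, zero_mul] at e0
        exact absurd e0 hL0
      · exact h
    apply Nat.eq_of_mul_eq_mul_left hm0
    calc m * (Subgroup.map L.subtype K').index = Nat.card H := e1
      _ = Nat.card L * L.index := e2.symm
      _ = (m * p ^ (Nat.card L).factorization p) * L.index := by rw [← e0]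
      _ = m * (L.index * p ^ (Nat.card L).factorization p) := by ring

/-- Let k be a field of prime characteristic p, H a finite p-soluble group and ρ a k-linear representation of H on V. Let a be a vector that is fixed by some Sylow p-subgroup of H and whose H-orbit spans V. Then the space of H-fixed vectors has dimension at most 1, and every vector b whose H-orbit has size coprime to the size of the orbit of a is fixed by H. -/
theorem result {k V H : Type*} [Field k] (p : ℕ) [Fact p.Prime] [CharP k p] [AddCommGroup V] [Module k V]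
    [Group H] [Finite H] (hsol : Cfsg.IsPSolvable p H) (ρ : Representation k H V) (a : V)
    (hfix : ∃ P : Sylow p H, ∀ x : H, x ∈ (P : Subgroup H) → ρ x a = a)
    (hspan : Submodule.span k {u : V | ∃ h : H, ρ h a = u} = ⊤) :
    Module.finrank k ρ.invariants ≤ 1 ∧
    ∀ b : V, (Nat.card {u : V | ∃ h : H, ρ h a = u}).Coprime (Nat.card {u : V | ∃ h : H, ρ h b = u}) → ∀ h : H, ρ h b = b := by
  have hpp : p.Prime := Fact.out
  obtain ⟨P, hP⟩ := hfix
  have hinv : ∀ K : Subgroup H, (Nat.card K).Coprime p → (Nat.card K : k) ≠ 0 := by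
    intro K hK h0
    have := (CharP.cast_eq_zero_iff k p (Nat.card K)).1 h0
    exact (Nat.Prime.coprime_iff_not_dvd hpp).1 hK.symm this
  have hm : (Nat.card {u : V | ∃ h : H, ρ h a = u}).Coprime p := by
    rw [card_orb]
    have hPA : (P : Subgroup H) ≤ @MulAction.stabilizer H V _ (act ρ) a := fun x hx => hP x hx
    have h1 := Subgroup.index_dvd_of_le hPA
    have h2 : ((P : Subgroup H).index).Coprime p :=
      ((Nat.Prime.coprime_iff_not_dvd hpp).2 P.not_dvd_index).symm
    exact Nat.Coprime.coprime_dvd_left h1 h2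
  constructor
  · obtain ⟨K, -, hK, c, hc⟩ := hall_sub hsol (⊤ : Subgroup H)
    have h1 : (Nat.card {u : V | ∃ h : H, ρ h a = u}).Coprime K.index := by
      rw [hc, Subgroup.index_top, one_mul]
      exact Nat.Coprime.pow_right c hm
    obtain ⟨s, hs, hb⟩ := key ρ a hspan K (hinv K hK) (trans_of_coprime ρ a K h1)
    exact finrank_le_one ρ s (fun b hb' => hb b (fun x _ => hb' x))
  · intro b hcop
    set B := @MulAction.stabilizer H V _ (act ρ) b with hB
    obtain ⟨K, hKB, hK, c, hc⟩ := hall_sub hsol B
    have h1 : (Nat.card {u : V | ∃ h : H, ρ h a = u}).Coprime K.index := by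
      rw [hc]
      apply Nat.Coprime.mul_right
      · rw [hB, ← card_orb]
        exact hcop
      · exact Nat.Coprime.pow_right c hm
    obtain ⟨s, hs, hb⟩ := key ρ a hspan K (hinv K hK) (trans_of_coprime ρ a K h1)
    obtain ⟨c, rfl⟩ := hb b (fun x hx => hKB hx)
    intro h
    rw [map_smul, hs]

end Cfsg.Agent.S4176
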