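import Cfsg.Statements.S4177
-- import your own Cfsg.Agent.* helpers here
import Mathlib
import Cfsg.Agent.Lib.Helper20.OrbSpan

set_option autoImplicit false
open Cfsg

namespace Cfsg.Agent.S4177

/-- Let k be a field whose characteristic does not divide the order of the finite group H (for instance a field of characteristic zero), and ρ a k-linear representation of H on V. Let a be a vector whose H-orbit spans V. Then the space of H-fixed vectors has dimension at most 1, and every vector b whose H-orbit has size coprime to the size of the orbit of a is fixed by H. -/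
theorem result {k V H : Type*} [Field k] [AddCommGroup V] [Module k V] [Group H] [Finite H]
    (hchar : ¬ ringChar k ∣ Nat.card H) (ρ : Representation k H V) (a : V)
    (hspan : Submodule.span k {u : V | ∃ h : H, ρ h a = u} = ⊤) :
    Module.finrank k ρ.invariants ≤ 1 ∧
    ∀ b : V, (Nat.card {u : V | ∃ h : H, ρ h a = u}).Coprime (Nat.card {u : V | ∃ h : H, ρ h b = u}) → ∀ h : H, ρ h b = b := by
  have hinv : ∀ K : Subgroup H, (Nat.card K : k) ≠ 0 := by
    intro K h0
    apply hchar
    have := (ringChar.spec k (Nat.card K)).1 h0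
    exact this.trans (Subgroup.card_subgroup_dvd_card K)
  constructor
  · obtain ⟨s, hs, hb⟩ := Cfsg.Agent.Lib.Helper20.OrbSpan.key ρ a hspan ⊤ (hinv ⊤)
      (fun h => ⟨h, Subgroup.mem_top h, rfl⟩)
    exact Cfsg.Agent.Lib.Helper20.OrbSpan.finrank_le_one ρ s (fun b hb' => hb b (fun x _ => hb' x))
  · intro b hcop
    set B := @MulAction.stabilizer H V _ (Cfsg.Agent.Lib.Helper20.OrbSpan.act ρ) b with hB
    have h1 : (Nat.card {u : V | ∃ h : H, ρ h a = u}).Coprime B.index := by
      rw [hB, ← Cfsg.Agent.Lib.Helper20.OrbSpan.card_orb]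
      exact hcop
    obtain ⟨s, hs, hb⟩ := Cfsg.Agent.Lib.Helper20.OrbSpan.key ρ a hspan B (hinv B)
      (Cfsg.Agent.Lib.Helper20.OrbSpan.trans_of_coprime ρ a B h1)
    obtain ⟨c, rfl⟩ := hb b (fun x hx => hx)
    intro h
    rw [map_smul, hs]

end Cfsg.Agent.S4177
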