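import Cfsg.Statements.S4178
-- import your own Cfsg.Agent.* helpers here

set_option autoImplicit false
open Cfsg

namespace Cfsg.Agent.S4178

theorem index_le_card_sub_one {Γ X : Type*} [Group Γ] [Finite X] (R : Subgroup Γ) (φ : Γ → X)
    (hφ : ∀ a b, φ a = φ b → a⁻¹ * b ∈ R) (x₀ : X) (h0 : ∀ a, φ a ≠ x₀) :
    R.index ≤ Nat.card X - 1 := by
  classical
  have h1 : Nat.card {x : X // x ≠ x₀} = Nat.card X - 1 := by
    cases nonempty_fintype X
    rw [Nat.card_eq_fintype_card, Nat.card_eq_fintype_card, Fintype.card_subtype_compl]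
    simp
  rw [← h1, Subgroup.index]
  apply Nat.card_le_card_of_injective (fun c : Γ ⧸ R => (⟨φ c.out, h0 _⟩ : {x : X // x ≠ x₀}))
  intro c c' hcc
  have h2 : φ c.out = φ c'.out := congrArg Subtype.val hcc
  have h3 := hφ _ _ h2
  rw [← QuotientGroup.eq, QuotientGroup.out_eq', QuotientGroup.out_eq'] at h3
  exact h3

theorem natCard_eq_pow {F U : Type*} [Field F] [Fintype F] [AddCommGroup U] [Module F U]
    [FiniteDimensional F U] : Nat.card U = Fintype.card F ^ Module.finrank F U := by
  haveI : Finite U := Module.finite_of_finite F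
  cases nonempty_fintype U
  rw [Nat.card_eq_fintype_card, Module.card_eq_pow_finrank (K := F)]

/-- Let F be a finite field with q elements, V a non-zero finite-dimensional F-space of dimension d, H a group of invertible linear maps of V, and R the subgroup of H generated by the elements of H that fix some non-zero vector (have eigenvalue 1). Then the index of R in H is at most q^d − 1; and if H leaves invariant some proper non-zero subspace, the index is at most q^(d/2) − 1. -/
theorem result {F V : Type*} [Field F] [Fintype F] [AddCommGroup V] [Module F V] [FiniteDimensional F V] [Nontrivial V]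
    (H : Subgroup (V ≃ₗ[F] V)) :
    (Subgroup.closure {h : ↥H | ∃ v : V, v ≠ 0 ∧ (h : V ≃ₗ[F] V) v = v}).index ≤ Fintype.card F ^ Module.finrank F V - 1 ∧
    ((∃ W : Submodule F V, W ≠ ⊥ ∧ W ≠ ⊤ ∧ ∀ h ∈ H, ∀ w ∈ W, h w ∈ W) →
      ((Subgroup.closure {h : ↥H | ∃ v : V, v ≠ 0 ∧ (h : V ≃ₗ[F] V) v = v}).index : ℝ) ≤ Real.sqrt ((Fintype.card F : ℝ) ^ Module.finrank F V) - 1) := by
  haveI : Finite V := Module.finite_of_finite F
  set R := Subgroup.closure {h : ↥H | ∃ v : V, v ≠ 0 ∧ (h : V ≃ₗ[F] V) v = v} with hR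
  have hgen : ∀ g : ↥H, (∃ v : V, v ≠ 0 ∧ (g : V ≃ₗ[F] V) v = v) → g ∈ R :=
    fun g hg => Subgroup.subset_closure hg
  constructor
  · obtain ⟨v, hv⟩ := exists_ne (0 : V)
    rw [← natCard_eq_pow (F := F) (U := V)]
    apply index_le_card_sub_one R (fun h : ↥H => (h : V ≃ₗ[F] V) v) _ 0
    · intro a ha
      exact hv ((LinearEquiv.map_eq_zero_iff _).1 ha)
    · intro a b hab
      apply hgen
      refine ⟨v, hv, ?_⟩
      show ((a : V ≃ₗ[F] V)⁻¹ * (b : V ≃ₗ[F] V)) v = v
      rw [LinearEquiv.mul_apply, ← hab]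
      exact (a : V ≃ₗ[F] V).symm_apply_apply v
  · rintro ⟨W, hW0, hW1, hWinv⟩
    have hq1 : 1 ≤ Fintype.card F := Fintype.card_pos
    have hfin : ∀ k : ℕ, 2 * k ≤ Module.finrank F V → R.index ≤ Fintype.card F ^ k - 1 →
        (R.index : ℝ) ≤ Real.sqrt ((Fintype.card F : ℝ) ^ Module.finrank F V) - 1 := by
      intro k hk hle
      have h1 : 1 ≤ Fintype.card F ^ k := Nat.one_le_pow _ _ hq1
      have h2 : R.index + 1 ≤ Fintype.card F ^ k := by omega
      have h3 : ((R.index : ℝ) + 1) ≤ (Fintype.card F : ℝ) ^ k := by exact_mod_cast h2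
      have h4 : (Fintype.card F : ℝ) ^ k ≤ Real.sqrt ((Fintype.card F : ℝ) ^ Module.finrank F V) := by
        apply Real.le_sqrt_of_sq_le
        rw [← pow_mul, mul_comm]
        apply pow_le_pow_right₀ _ hk
        exact_mod_cast hq1
      linarith
    by_cases hcase : 2 * Module.finrank F W ≤ Module.finrank F V
    · apply hfin _ hcase
      obtain ⟨w, hwW, hw0⟩ := (Submodule.ne_bot_iff W).1 hW0
      rw [← natCard_eq_pow (F := F) (U := W)]
      apply index_le_card_sub_one R
        (fun h : ↥H => (⟨(h : V ≃ₗ[F] V) w, hWinv h h.2 w hwW⟩ : W)) _ 0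
      · intro a ha
        have : (a : V ≃ₗ[F] V) w = 0 := congrArg Subtype.val ha
        exact hw0 ((LinearEquiv.map_eq_zero_iff _).1 this)
      · intro a b hab
        have hab' : (a : V ≃ₗ[F] V) w = (b : V ≃ₗ[F] V) w := congrArg Subtype.val hab
        apply hgen
        refine ⟨w, hw0, ?_⟩
        show ((a : V ≃ₗ[F] V)⁻¹ * (b : V ≃ₗ[F] V)) w = w
        rw [LinearEquiv.mul_apply, ← hab']
        exact (a : V ≃ₗ[F] V).symm_apply_apply w
    · have hdim := Submodule.finrank_quotient_add_finrank W
      apply hfin (Module.finrank F (V ⧸ W)) (by omega)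
      obtain ⟨v, hvW⟩ : ∃ v : V, v ∉ W := by
        by_contra hcon
        push Not at hcon
        exact hW1 (eq_top_iff.2 fun x _ => hcon x)
      rw [← natCard_eq_pow (F := F) (U := V ⧸ W)]
      haveI : Finite (V ⧸ W) := Module.finite_of_finite F
      apply index_le_card_sub_one R
        (fun h : ↥H => (Submodule.Quotient.mk ((h : V ≃ₗ[F] V) v) : V ⧸ W)) _ 0
      · intro a ha
        rw [Submodule.Quotient.mk_eq_zero] at ha
        apply hvW
        have := hWinv (a⁻¹ : ↥H) (a⁻¹ : ↥H).2 _ ha
        have h2 : ((a⁻¹ : ↥H) : V ≃ₗ[F] V) ((a : V ≃ₗ[F] V) v) = v :=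
          (a : V ≃ₗ[F] V).symm_apply_apply v
        rwa [h2] at this
      · intro a b hab
        rw [Submodule.Quotient.eq] at hab
        set g : V ≃ₗ[F] V := (a : V ≃ₗ[F] V)⁻¹ * (b : V ≃ₗ[F] V) with hg
        have hgH : g ∈ H := H.mul_mem (H.inv_mem a.2) b.2
        have hgv : v - g v ∈ W := by
          have h1 := hWinv (a⁻¹ : ↥H) (a⁻¹ : ↥H).2 _ hab
          have h2 : ((a⁻¹ : ↥H) : V ≃ₗ[F] V) ((a : V ≃ₗ[F] V) v - (b : V ≃ₗ[F] V) v) = v - g v := by
            rw [map_sub]
            congr 1
            exact (a : V ≃ₗ[F] V).symm_apply_apply v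
          rwa [h2] at h1
        apply hgen
        show ∃ u : V, u ≠ 0 ∧ g u = u
        by_contra hcon
        push Not at hcon
        -- the map `1 - g` is injective on `W`, hence surjective on `W`
        let f : W →ₗ[F] W :=
          { toFun := fun w => ⟨(w : V) - g w, W.sub_mem w.2 (hWinv g hgH w w.2)⟩
            map_add' := fun x y => Subtype.ext (by
              show ((x : V) + y) - g ((x : V) + y) = ((x : V) - g x) + ((y : V) - g y)
              rw [map_add]; abel)
            map_smul' := fun c x => Subtype.ext (by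
              show (c • (x : V)) - g (c • (x : V)) = c • ((x : V) - g x)
              rw [map_smul, smul_sub]) }
        have hinj : Function.Injective f := by
          rw [injective_iff_map_eq_zero]
          intro x hx
          have h1 : (x : V) - g x = 0 := congrArg Subtype.val hx
          by_contra hx0
          have hx0' : (x : V) ≠ 0 := fun h => hx0 (Subtype.ext h)
          exact hcon x hx0' (sub_eq_zero.1 h1).symm
        have hsurj : Function.Surjective f := LinearMap.injective_iff_surjective.1 hinj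
        obtain ⟨w, hw⟩ := hsurj ⟨v - g v, hgv⟩
        have hw' : (w : V) - g w = v - g v := congrArg Subtype.val hw
        have h3 : g (v - w) = v - w := by
          rw [map_sub]
          have : g v - g w = (v - w) - ((v - g v) - ((w : V) - g w)) := by abel
          rw [this, hw']; abel
        have h4 : v - w = 0 := by
          by_contra h5
          exact hcon _ h5 h3
        exact hvW ((sub_eq_zero.1 h4) ▸ w.2)

end Cfsg.Agent.S4178
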