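import Cfsg.Statements.S4182
import Mathlib
import Cfsg.Agent.Lib.Helper17.Core
import Cfsg.Agent.Lib.Helper17.SE
import Cfsg.Agent.Lib.Helper22.Basic

set_option autoImplicit false
open Cfsg

namespace Cfsg.Agent.S4182

open Cfsg.Agent.Lib.Helper17 Cfsg.Agent.Lib.Helper22

universe u v

/-- the set of `p`-elements -/
def Om (p : ℕ) (G : Type*) [Group G] : Set G := {g : G | ∃ k : ℕ, orderOf g = p ^ k}

/-- proper subgroups generated by `p`-elements -/
def IsPG (p : ℕ) {G : Type*} [Group G] (H : Subgroup G) : Prop :=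
  H ≠ ⊤ ∧ Subgroup.closure (Om p G ∩ (H : Set G)) = H

def IsMaxPG (p : ℕ) {G : Type*} [Group G] (H : Subgroup G) : Prop :=
  IsPG p H ∧ ∀ H' : Subgroup G, IsPG p H' → H ≤ H' → H' = H

theorem exists_max {p : ℕ} {G : Type*} [Group G] [Finite G] {H : Subgroup G} (hH : IsPG p H) :
    ∃ M, IsMaxPG p M ∧ H ≤ M := by
  obtain ⟨M, hHM, hM⟩ := (Set.toFinite {X : Subgroup G | IsPG p X}).exists_le_maximal hH
  refine ⟨M, ⟨hM.prop, ?_⟩, hHM⟩
  intro H' hH' hle
  exact le_antisymm (hM.le_of_ge hH' hle) hle

theorem IsPG.conj {p : ℕ} {G : Type*} [Group G] {H : Subgroup G} (hH : IsPG p H) (g : G) :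
    IsPG p (H.map (MulAut.conj g).toMonoidHom) := by
  refine ⟨?_, ?_⟩
  · intro h
    apply hH.1
    rw [eq_top_iff]
    intro y _
    have : g * y * g⁻¹ ∈ H.map (MulAut.conj g).toMonoidHom := by rw [h]; trivial
    rw [mem_map_conj] at this
    simpa [mul_assoc] using this
  · conv_rhs => rw [← hH.2]
    rw [MonoidHom.map_closure]
    congr 1
    ext y
    constructor
    · rintro ⟨⟨k, hk⟩, hy⟩
      have hy' : g⁻¹ * y * g ∈ H := mem_map_conj.mp hy
      refine ⟨g⁻¹ * y * g, ⟨⟨k, ?_⟩, hy'⟩, ?_⟩
      · have := orderOf_conj g⁻¹ y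
        rw [inv_inv] at this
        rw [this, hk]
      · simp [MulAut.conj_apply, mul_assoc]
    · rintro ⟨z, ⟨⟨k, hk⟩, hz⟩, rfl⟩
      refine ⟨⟨k, ?_⟩, ⟨z, hz, rfl⟩⟩
      show orderOf (g * z * g⁻¹) = p ^ k
      rw [orderOf_conj, hk]

theorem IsMaxPG.conj {p : ℕ} {G : Type*} [Group G] {H : Subgroup G} (hH : IsMaxPG p H) (g : G) :
    IsMaxPG p (H.map (MulAut.conj g).toMonoidHom) := by
  refine ⟨hH.1.conj g, ?_⟩
  intro H' hH' hle
  have h1 : H ≤ H'.map (MulAut.conj g⁻¹).toMonoidHom := by
    rw [le_map_conj_iff, inv_inv]; exact hle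
  have h2 := hH.2 _ (hH'.conj g⁻¹) h1
  rw [← h2, map_conj_map_conj, mul_inv_cancel, map_conj_one]

theorem mem_Om_of_isPGroup {p : ℕ} [Fact p.Prime] {G : Type*} [Group G] {Q : Subgroup G}
    (hQ : IsPGroup p Q) {y : G} (hy : y ∈ Q) : y ∈ Om p G := by
  obtain ⟨k, hk⟩ := hQ ⟨y, hy⟩
  have hk' : y ^ p ^ k = 1 := congrArg Subtype.val hk
  obtain ⟨j, -, hj⟩ := (Nat.dvd_prime_pow (Fact.out : p.Prime)).1 (orderOf_dvd_of_pow_eq_one hk')
  exact ⟨j, hj⟩

theorem isPG_of_isPGroup {p : ℕ} [Fact p.Prime] {G : Type*} [Group G] {Q : Subgroup G}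
    (hQ : IsPGroup p Q) (hne : Q ≠ ⊤) : IsPG p Q := by
  refine ⟨hne, le_antisymm ?_ ?_⟩
  · rw [Subgroup.closure_le]; exact Set.inter_subset_right
  · intro y hy
    exact Subgroup.subset_closure ⟨mem_Om_of_isPGroup hQ hy, hy⟩

theorem isPGroup_zpowers {p : ℕ} [Fact p.Prime] {G : Type*} [Group G] {x : G}
    (hx : x ∈ Om p G) : IsPGroup p (Subgroup.zpowers x) := by
  obtain ⟨k, hk⟩ := hx
  exact IsPGroup.of_card (n := k) (by rw [Nat.card_zpowers, hk])

/-- the case of a `p`-group: counting -/
theorem pgroup_case {p : ℕ} [Fact p.Prime] {G : Type*} [Group G] [Finite G] (hG : IsPGroup p G)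
    {ι : Type*} [Fintype ι] (K : ι → Subgroup G) (hK : ∀ i, K i ≠ ⊤)
    (hcov : ∀ g : G, ∃ i, g ∈ K i) : p + 1 ≤ Fintype.card ι := by
  classical
  have hp : p.Prime := Fact.out
  by_contra hlt
  push Not at hlt
  have hι : Fintype.card ι ≤ p := by omega
  haveI : Fintype G := Fintype.ofFinite G
  have hKc : ∀ i, p * Nat.card (K i) ≤ Nat.card G := by
    intro i
    have h1 : (K i).index ≠ 1 := fun h => hK i (Subgroup.index_eq_one.mp h)
    obtain ⟨n, hn⟩ := hG.index (K i)
    have h2 : p ∣ (K i).index := by
      rw [hn]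
      cases n with
      | zero => exact absurd (by rw [hn, pow_zero]) h1
      | succ n => exact dvd_pow_self p (Nat.succ_ne_zero n)
    have h3 := (K i).card_mul_index
    obtain ⟨c, hc⟩ := h2
    have hc0 : 0 < c := by
      rcases Nat.eq_zero_or_pos c with h | h
      · exfalso
        rw [h, mul_zero] at hc
        exact (K i).index_ne_zero_of_finite hc
      · exact h
    rw [hc] at h3
    calc p * Nat.card (K i) ≤ p * Nat.card (K i) * c := Nat.le_mul_of_pos_right _ hc0
      _ = Nat.card (K i) * (p * c) := by ring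
      _ = Nat.card G := h3
  have hsub : (Finset.univ : Finset G).erase 1 ⊆
      (Finset.univ : Finset ι).biUnion (fun i => (Finset.univ.filter (fun g => g ∈ K i)).erase 1) := by
    intro g hg
    obtain ⟨i, hi⟩ := hcov g
    rw [Finset.mem_biUnion]
    exact ⟨i, Finset.mem_univ _, Finset.mem_erase.mpr ⟨(Finset.mem_erase.mp hg).1, by simpa using hi⟩⟩
  have h1 := (Finset.card_le_card hsub).trans Finset.card_biUnion_le
  have h2 : ∀ i, ((Finset.univ.filter (fun g => g ∈ K i)).erase (1 : G)).card = Nat.card (K i) - 1 := by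
    intro i
    rw [Finset.card_erase_of_mem (by simp [(K i).one_mem])]
    congr 1
    rw [Nat.card_eq_fintype_card, Fintype.card_subtype]
  rw [Finset.card_erase_of_mem (Finset.mem_univ _), Finset.card_univ, ← Nat.card_eq_fintype_card] at h1
  simp only [h2] at h1
  have hG1 : 0 < Nat.card G := Nat.card_pos
  -- every summand is at most `card G / p - 1`
  have h3 : p * ∑ i : ι, (Nat.card (K i) - 1) ≤ Fintype.card ι * (Nat.card G - p) := by
    rw [Finset.mul_sum]
    calc ∑ i : ι, p * (Nat.card (K i) - 1) ≤ ∑ _i : ι, (Nat.card G - p) := by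
          apply Finset.sum_le_sum
          intro i _
          have := hKc i
          rw [Nat.mul_sub, mul_one]
          omega
      _ = Fintype.card ι * (Nat.card G - p) := by simp
  have h4 : p * (Nat.card G - 1) ≤ p * (Nat.card G - p) :=
    (Nat.mul_le_mul_left p h1).trans (h3.trans (Nat.mul_le_mul_right _ hι))
  have h5 : Nat.card G - 1 ≤ Nat.card G - p := Nat.le_of_mul_le_mul_left h4 hp.pos
  obtain ⟨i, -⟩ := hcov 1
  have h6 := hKc i
  have h7 : 0 < Nat.card (K i) := Nat.card_pos
  have h8 : p ≤ Nat.card G := le_trans (Nat.le_mul_of_pos_right p h7) h6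
  have := hp.two_le
  omega

theorem conj_ne {p : ℕ} [Fact p.Prime] {G : Type*} [Group G] {L : Subgroup G} {x : G}
    (hx : x ∈ Om p G) (hxN : x ∉ Subgroup.normalizer (L : Set G)) {a b : ℕ} (hb : b < p)
    (hab : a < b) :
    L.map (MulAut.conj (x ^ a)).toMonoidHom ≠ L.map (MulAut.conj (x ^ b)).toMonoidHom := by
  intro h
  apply hxN
  obtain ⟨k, hk⟩ := hx
  have h1 : x ^ (b - a) ∈ Subgroup.normalizer (L : Set G) := by
    rw [mem_normalizer_iff_map_conj]
    have h2 := congrArg (fun X => Subgroup.map (MulAut.conj (x ^ a)⁻¹).toMonoidHom X) h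
    simp only [map_conj_map_conj, inv_mul_cancel, map_conj_one] at h2
    have h3 : (x ^ a)⁻¹ * x ^ b = x ^ (b - a) := by
      rw [inv_mul_eq_iff_eq_mul, ← pow_add]
      congr 1; omega
    rw [h3] at h2
    exact h2.symm
  have h2 : x ^ (p ^ k) ∈ Subgroup.normalizer (L : Set G) := by
    rw [← hk, pow_orderOf_eq_one]; exact one_mem _
  refine mem_of_pow_mem_of_coprime _ x (b - a) (p ^ k) ?_ h1 h2
  apply Nat.Coprime.pow_right
  apply Nat.Coprime.symm
  rw [Nat.Prime.coprime_iff_not_dvd (Fact.out : p.Prime)]
  intro hd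
  have := Nat.le_of_dvd (by omega) hd
  omega

theorem main (p : ℕ) [Fact p.Prime] (ι : Type v) [Fintype ι] : ∀ (n : ℕ) (G : Type u) [Group G]
    [Finite G], Nat.card G = n → Subgroup.closure (Om p G) = ⊤ → ∀ (K : ι → Subgroup G),
    (∀ i, K i ≠ ⊤) → (∀ g ∈ Om p G, ∃ i, g ∈ K i) → p + 1 ≤ Fintype.card ι := by
  intro n
  induction n using Nat.strong_induction_on with
  | _ n ih =>
    intro G _ _ hn hgen K hK hcov
    by_contra hlt
    -- every proper subgroup generated by `p`-elements lies in a member
    have h2 : ∀ H : Subgroup G, IsPG p H → ∃ i, H ≤ K i := by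
      intro H hH
      by_contra hcon
      push Not at hcon
      apply hlt
      have hlt' : Nat.card H < n := by
        rw [← hn]
        refine lt_of_le_of_ne (Subgroup.card_le_card_group H) ?_
        intro h
        exact hH.1 (Subgroup.eq_top_of_card_eq H h)
      refine ih _ hlt' ↥H rfl ?_ (fun i => (K i).subgroupOf H) ?_ ?_
      · apply Subgroup.map_injective H.subtype_injective
        rw [MonoidHom.map_closure, ← MonoidHom.range_eq_map, Subgroup.range_subtype]
        conv_rhs => rw [← hH.2]
        congr 1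
        ext y
        constructor
        · rintro ⟨z, ⟨k, hk⟩, rfl⟩
          exact ⟨⟨k, by rw [← hk]; exact Subgroup.orderOf_coe z⟩, z.2⟩
        · rintro ⟨⟨k, hk⟩, hy⟩
          exact ⟨⟨y, hy⟩, ⟨k, by rw [← hk]; exact (Subgroup.orderOf_mk y hy)⟩, rfl⟩
      · intro i h
        exact hcon i (Subgroup.subgroupOf_eq_top.mp h)
      · rintro g ⟨k, hk⟩
        obtain ⟨i, hi⟩ := hcov (g : G) ⟨k, by rw [← hk]; exact Subgroup.orderOf_coe g⟩
        exact ⟨i, Subgroup.mem_subgroupOf.mpr hi⟩
    -- two maximal ones in the same member coincide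
    have h3 : ∀ M M' : Subgroup G, IsMaxPG p M → IsMaxPG p M' → ∀ i, M ≤ K i → M' ≤ K i →
        M = M' := by
      intro M M' hM hM' i hi hi'
      have hT : IsPG p (Subgroup.closure (Om p G ∩ (K i : Set G))) := by
        have hle : Subgroup.closure (Om p G ∩ (K i : Set G)) ≤ K i := by
          rw [Subgroup.closure_le]; exact Set.inter_subset_right
        refine ⟨?_, le_antisymm ?_ ?_⟩
        · intro h
          rw [h] at hle
          exact hK i (top_le_iff.mp hle)
        · rw [Subgroup.closure_le]; exact Set.inter_subset_right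
        · apply Subgroup.closure_mono
          intro y hy
          exact ⟨hy.1, Subgroup.subset_closure hy⟩
      have e1 := hM.2 _ hT (by
        conv_lhs => rw [← hM.1.2]
        exact Subgroup.closure_mono (Set.inter_subset_inter_right _ hi))
      have e2 := hM'.2 _ hT (by
        conv_lhs => rw [← hM'.1.2]
        exact Subgroup.closure_mono (Set.inter_subset_inter_right _ hi'))
      rw [← e1, e2]
    obtain ⟨P⟩ : Nonempty (Sylow p G) := inferInstance
    by_cases hP : (P : Subgroup G) = ⊤
    · apply hlt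
      have hG : IsPGroup p G := by
        intro g
        obtain ⟨k, hk⟩ := P.2 ⟨g, by rw [hP]; trivial⟩
        exact ⟨k, congrArg Subtype.val hk⟩
      refine pgroup_case hG K hK ?_
      intro g
      apply hcov
      exact mem_Om_of_isPGroup (Q := P) P.2 (by rw [hP]; trivial)
    · obtain ⟨L, hL, hPL⟩ := exists_max (isPG_of_isPGroup P.2 hP)
      have hnorm : ∀ x ∈ Om p G, x ∈ Subgroup.normalizer (L : Set G) := by
        intro x hx
        by_contra hxN
        apply hlt
        have hxtop : Subgroup.zpowers x ≠ ⊤ := by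
          intro h
          obtain ⟨i, hi⟩ := hcov x hx
          apply hK i
          rw [eq_top_iff, ← h]
          exact Subgroup.zpowers_le.mpr hi
        obtain ⟨L', hL', hxL'⟩ := exists_max (isPG_of_isPGroup (isPGroup_zpowers hx) hxtop)
        have hxL'' : x ∈ L' := hxL' (Subgroup.mem_zpowers x)
        have hne : ∀ a : ℕ, L.map (MulAut.conj (x ^ a)).toMonoidHom ≠ L' := by
          intro a h
          rw [← h, mem_map_conj] at hxL''
          have h4 : (x ^ a)⁻¹ * x * x ^ a = x := by
            rw [mul_assoc, ← pow_succ', pow_succ, inv_mul_cancel_left]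
          rw [h4] at hxL''
          exact hxN (Subgroup.le_normalizer hxL'')
        let f : Fin (p + 1) → Subgroup G := fun j =>
          if (j : ℕ) < p then L.map (MulAut.conj (x ^ (j : ℕ))).toMonoidHom else L'
        have hfmax : ∀ j, IsMaxPG p (f j) := by
          intro j
          by_cases hj : (j : ℕ) < p
          · simp only [f, hj, if_true]; exact hL.conj _
          · simp only [f, hj, if_false]; exact hL'
        have hfinj : Function.Injective f := by
          intro j j' hjj
          by_cases hj : (j : ℕ) < p <;> by_cases hj' : (j' : ℕ) < p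
          · simp only [f, hj, hj', if_true] at hjj
            rcases lt_trichotomy (j : ℕ) (j' : ℕ) with h | h | h
            · exact absurd hjj (conj_ne hx hxN hj' h)
            · exact Fin.ext h
            · exact absurd hjj.symm (conj_ne hx hxN hj h)
          · simp only [f, hj, hj', if_true, if_false] at hjj
            exact absurd hjj (hne _)
          · simp only [f, hj, hj', if_true, if_false] at hjj
            exact absurd hjj.symm (hne _)
          · apply Fin.ext
            have := j.2
            have := j'.2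
            omega
        choose idx hidx using fun j => h2 (f j) (hfmax j).1
        have hidxinj : Function.Injective idx := by
          intro j j' hjj
          apply hfinj
          exact h3 _ _ (hfmax j) (hfmax j') (idx j) (hidx j) (hjj ▸ hidx j')
        have := Fintype.card_le_of_injective idx hidxinj
        simpa using this
      have hNtop : Subgroup.normalizer (L : Set G) = ⊤ := by
        rw [eq_top_iff, ← hgen, Subgroup.closure_le]
        exact hnorm
      apply hL.1.1
      rw [eq_top_iff, ← hgen, Subgroup.closure_le]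
      intro y hy
      obtain ⟨g, hg⟩ := pgroup_le_conj_sylow (isPGroup_zpowers hy) P
      have h5 : (P : Subgroup G).map (MulAut.conj g).toMonoidHom ≤ L := by
        have h6 : L.map (MulAut.conj g).toMonoidHom = L :=
          map_conj_eq_of_mem_normalizer (by rw [hNtop]; trivial)
        rw [← h6]
        exact Subgroup.map_mono hPL
      exact h5 (hg (Subgroup.mem_zpowers y))

/-- Let p be a prime and G a finite group generated by its p-elements. If a finite family of proper subgroups of G covers the set of p-elements of G (every element of p-power order lies in one of them), then the family has at least p + 1 members. -/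
theorem result {G : Type*} [Group G] [Finite G] (p : ℕ) [Fact p.Prime] (hgen : Subgroup.closure {g : G | ∃ k : ℕ, orderOf g = p ^ k} = ⊤)
    {ι : Type*} [Fintype ι] (K : ι → Subgroup G) (hK : ∀ i, K i ≠ ⊤)
    (hcov : ∀ g : G, (∃ k : ℕ, orderOf g = p ^ k) → ∃ i, g ∈ K i) :
    p + 1 ≤ Fintype.card ι := by
  exact main p ι _ G rfl hgen K hK hcov

end Cfsg.Agent.S4182
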