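import Cfsg.Statements.S4186
-- import your own Cfsg.Agent.* helpers here

set_option autoImplicit false
open Cfsg

namespace Cfsg.Agent.S4186

/-- Let T and X be subgroups of a group with T a finite 2-group normalizing X but not centralizing it. Then some element of T inverts some non-identity element of X under conjugation. -/
theorem result {G : Type*} [Group G] (T X : Subgroup G) [Finite ↥T] (hT : IsPGroup 2 ↥T) (hTN : T ≤ Subgroup.normalizer (X : Set G)) (hTC : ¬ T ≤ Subgroup.centralizer (X : Set G)) : ∃ t ∈ T, ∃ x ∈ X, x ≠ 1 ∧ t * x * t⁻¹ = x⁻¹ := by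
  classical
  obtain ⟨t₀, ht₀T, ht₀C⟩ := SetLike.not_le_iff_exists.1 hTC
  obtain ⟨k, hk⟩ := hT ⟨t₀, ht₀T⟩
  have hk' : t₀ ^ 2 ^ k = 1 := by simpa using congrArg Subtype.val hk
  have hex : ∃ j, t₀ ^ 2 ^ j ∈ Subgroup.centralizer (X : Set G) := ⟨k, by rw [hk']; exact one_mem _⟩
  set j := Nat.find hex with hj
  have hjspec : t₀ ^ 2 ^ j ∈ Subgroup.centralizer (X : Set G) := Nat.find_spec hex
  have hj0 : j ≠ 0 := by
    intro h0
    rw [h0] at hjspec
    simp at hjspec
    exact ht₀C hjspec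
  obtain ⟨i, hi⟩ := Nat.exists_eq_succ_of_ne_zero hj0
  have hnot : t₀ ^ 2 ^ i ∉ Subgroup.centralizer (X : Set G) := Nat.find_min hex (by omega)
  set t := t₀ ^ 2 ^ i with ht
  have htT : t ∈ T := pow_mem ht₀T _
  have ht2 : t * t ∈ Subgroup.centralizer (X : Set G) := by
    have : t * t = t₀ ^ 2 ^ j := by
      rw [hi, ht, ← pow_add, Nat.succ_eq_add_one, pow_succ, mul_two]
    rw [this]; exact hjspec
  rw [Subgroup.mem_centralizer_iff] at hnot
  push Not at hnot
  obtain ⟨y, hyX, hy⟩ := hnot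
  have hconj : t * y * t⁻¹ ∈ X := (Subgroup.le_normalizer_iff.1 hTN) t htT y hyX
  refine ⟨t, htT, y⁻¹ * (t * y * t⁻¹), X.mul_mem (X.inv_mem hyX) hconj, ?_, ?_⟩
  · intro h1
    apply hy
    have h2 : t * y * t⁻¹ = y := by
      have := congrArg (fun z => y * z) h1
      simpa using this
    have h3 := congrArg (fun z => z * t) h2
    simpa using h3.symm
  · have h4 : y * (t * t) = t * t * y := (Subgroup.mem_centralizer_iff.1 ht2) y hyX
    have h5 : t * t * y * t⁻¹ * t⁻¹ = y := by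
      rw [← h4]; group
    calc t * (y⁻¹ * (t * y * t⁻¹)) * t⁻¹ = (t * y * t⁻¹)⁻¹ * (t * t * y * t⁻¹ * t⁻¹) := by group
      _ = (t * y * t⁻¹)⁻¹ * y := by rw [h5]
      _ = (y⁻¹ * (t * y * t⁻¹))⁻¹ := by group

end Cfsg.Agent.S4186
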