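import Cfsg.Statements.S4195
import Cfsg.Agent.Lib.Helper22.Real

set_option autoImplicit false
open Cfsg

namespace Cfsg.Agent.S4195

/-- Let x be a non-identity element of a finite group G whose centralizer contains a Sylow 2-subgroup of G. If x is conjugate to its inverse, then x has order 2. -/
theorem result {G : Type*} [Group G] [Finite G] (x : G) (hx : x ≠ 1) (P : Sylow 2 G) (hP : (P : Subgroup G) ≤ Subgroup.centralizer ({x} : Set G)) (hreal : IsConj x x⁻¹) : orderOf x = 2 := by
  have h1 : x⁻¹ = x :=
    Cfsg.Agent.Lib.Helper22.inv_eq_self_of_isConj_inv_of_odd_index x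
      (Cfsg.Agent.Lib.Helper22.not_two_dvd_index_of_sylow_le _ P hP) hreal
  have h2 : x ^ 2 = 1 := by
    rw [pow_two]
    nth_rewrite 1 [← h1]
    exact inv_mul_cancel x
  haveI : Fact (Nat.Prime 2) := ⟨Nat.prime_two⟩
  exact orderOf_eq_prime h2 hx

end Cfsg.Agent.S4195
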