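import Cfsg.Statements.S4196
import Cfsg.Agent.Lib.Helper22.Real

set_option autoImplicit false
open Cfsg

namespace Cfsg.Agent.S4196

/-- A finite group G has elementary abelian Sylow 2-subgroups (commutative with every element squaring to the identity) if and only if every 2-element of G has a Sylow 2-subgroup in its centralizer and is conjugate to its inverse. -/
theorem result {G : Type*} [Group G] [Finite G] (P : Sylow 2 G) :
    (IsMulCommutative (P : Subgroup G) ∧ ∀ x ∈ (P : Subgroup G), x ^ 2 = 1) ↔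
      ∀ x : G, (∃ k : ℕ, orderOf x = 2 ^ k) → (∃ Q : Sylow 2 G, (Q : Subgroup G) ≤ Subgroup.centralizer ({x} : Set G)) ∧ IsConj x x⁻¹ := by
  haveI : Fact (Nat.Prime 2) := ⟨Nat.prime_two⟩
  constructor
  · rintro ⟨hcomm, hsq⟩ x ⟨k, hk⟩
    have hpg : IsPGroup 2 (Subgroup.zpowers x) := by
      rw [IsPGroup.iff_card]
      exact ⟨k, by rw [Nat.card_zpowers, hk]⟩
    obtain ⟨Q, hQ⟩ := hpg.exists_le_sylow
    have hxQ : x ∈ (Q : Subgroup G) := hQ (Subgroup.mem_zpowers x)
    obtain ⟨g, rfl⟩ := MulAction.exists_smul_eq G P Q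
    have hmem : ∀ a, a ∈ ((g • P : Sylow 2 G) : Subgroup G) → ∃ b ∈ (P : Subgroup G), a = g * b * g⁻¹ := by
      intro a ha
      rw [Sylow.coe_subgroup_smul, Subgroup.mem_smul_pointwise_iff_exists] at ha
      obtain ⟨b, hb, rfl⟩ := ha
      exact ⟨b, hb, by simp [MulAut.smul_def]⟩
    obtain ⟨y, hyP, rfl⟩ := hmem x hxQ
    refine ⟨⟨g • P, ?_⟩, ?_⟩
    · intro a ha
      obtain ⟨b, hbP, rfl⟩ := hmem a ha
      rw [Subgroup.mem_centralizer_iff]
      intro z hz
      rw [Set.mem_singleton_iff.1 hz]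
      have hc : y * b = b * y := Subgroup.mul_comm_of_mem_isMulCommutative (H := (P : Subgroup G)) hyP hbP
      calc g * y * g⁻¹ * (g * b * g⁻¹) = g * (y * b) * g⁻¹ := by group
        _ = g * (b * y) * g⁻¹ := by rw [hc]
        _ = g * b * g⁻¹ * (g * y * g⁻¹) := by group
    · have h2 : y ^ 2 = 1 := hsq y hyP
      have h3 : (g * y * g⁻¹)⁻¹ = g * y * g⁻¹ := by
        have h4 : y⁻¹ = y := by
          rw [inv_eq_iff_mul_eq_one, ← pow_two, h2]
        calc (g * y * g⁻¹)⁻¹ = g * y⁻¹ * g⁻¹ := by group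
          _ = g * y * g⁻¹ := by rw [h4]
      rw [h3]
  · intro h
    have hsq : ∀ x ∈ (P : Subgroup G), x ^ 2 = 1 := by
      intro x hx
      have hk : ∃ k : ℕ, orderOf x = 2 ^ k := by
        obtain ⟨k, hk⟩ := (IsPGroup.iff_orderOf.1 P.2) ⟨x, hx⟩
        exact ⟨k, by rw [← hk, Subgroup.orderOf_mk]⟩
      obtain ⟨⟨Q, hQ⟩, hreal⟩ := h x hk
      have h1 : x⁻¹ = x :=
        Cfsg.Agent.Lib.Helper22.inv_eq_self_of_isConj_inv_of_odd_index x
          (Cfsg.Agent.Lib.Helper22.not_two_dvd_index_of_sylow_le _ Q hQ) hreal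
      rw [pow_two]
      nth_rewrite 1 [← h1]
      exact inv_mul_cancel x
    refine ⟨IsMulCommutative.of_comm ?_, hsq⟩
    rintro ⟨a, ha⟩ ⟨b, hb⟩
    apply Subtype.ext
    show a * b = b * a
    have h1 := hsq a ha
    have h2 := hsq b hb
    have h3 := hsq (a * b) (mul_mem ha hb)
    have ha' : a⁻¹ = a := by rw [inv_eq_iff_mul_eq_one, ← pow_two, h1]
    have hb' : b⁻¹ = b := by rw [inv_eq_iff_mul_eq_one, ← pow_two, h2]
    have hab' : (a * b)⁻¹ = a * b := by rw [inv_eq_iff_mul_eq_one, ← pow_two, h3]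
    rw [← hab', mul_inv_rev, ha', hb']

end Cfsg.Agent.S4196
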