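import Cfsg.Statements.S4230
-- import your own Cfsg.Agent.* helpers here

set_option autoImplicit false
open Cfsg

namespace Cfsg.Agent.S4230

/-- Let p be an odd prime, q a natural number not divisible by p, and e the multiplicative order of q modulo p. For a natural number f, p divides the value at q of the f-th cyclotomic polynomial if and only if f = e·p^j for some j ≥ 0. -/
theorem result (p q f : ℕ) (hp : p.Prime) (hp2 : p ≠ 2) (hpq : ¬ p ∣ q) :
    ((p : ℤ) ∣ (Polynomial.cyclotomic f ℤ).eval (q : ℤ)) ↔ ∃ j : ℕ, f = orderOf (q : ZMod p) * p ^ j := by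
  have : Fact p.Prime := ⟨hp⟩
  have hq0 : (q : ZMod p) ≠ 0 := by
    intro h
    exact hpq ((ZMod.natCast_eq_zero_iff q p).mp h)
  have hfin : IsOfFinOrder (q : ZMod p) :=
    isOfFinOrder_iff_pow_eq_one.mpr ⟨p - 1, Nat.sub_pos_of_lt hp.one_lt, ZMod.pow_card_sub_one_eq_one hq0⟩
  have hepos : 0 < orderOf (q : ZMod p) := orderOf_pos_iff.mpr hfin
  have hedvd : orderOf (q : ZMod p) ∣ p - 1 := orderOf_dvd_of_pow_eq_one (ZMod.pow_card_sub_one_eq_one hq0)
  have hpe : ¬ p ∣ orderOf (q : ZMod p) := by
    intro h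
    have h1 := Nat.le_of_dvd (Nat.sub_pos_of_lt hp.one_lt) (h.trans hedvd)
    have := hp.one_lt
    omega
  have hroot : ((p : ℤ) ∣ (Polynomial.cyclotomic f ℤ).eval (q : ℤ)) ↔
      (Polynomial.cyclotomic f (ZMod p)).IsRoot (q : ZMod p) := by
    rw [← ZMod.intCast_zmod_eq_zero_iff_dvd, Polynomial.IsRoot.def, ← Polynomial.map_cyclotomic_int f (ZMod p)]
    have := Polynomial.eval_intCast_map (Int.castRingHom (ZMod p)) (Polynomial.cyclotomic f ℤ) (q : ℤ)
    simp only [Int.cast_natCast, eq_intCast] at this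
    rw [this]
  rw [hroot]
  rcases Nat.eq_zero_or_pos f with hf | hf
  · subst hf
    simp only [Polynomial.cyclotomic_zero, Polynomial.IsRoot.def, Polynomial.eval_one, one_ne_zero, false_iff]
    rintro ⟨j, hj⟩
    have : 0 < orderOf (q : ZMod p) * p ^ j := Nat.mul_pos hepos (pow_pos hp.pos j)
    omega
  · obtain ⟨k, m, hm, rfl⟩ := Nat.exists_eq_pow_mul_and_not_dvd hf.ne' p hp.ne_one
    have : NeZero (m : ZMod p) := ⟨fun h => hm ((ZMod.natCast_eq_zero_iff m p).mp h)⟩
    rw [Polynomial.isRoot_cyclotomic_prime_pow_mul_iff_of_charP]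
    constructor
    · intro h
      exact ⟨k, by rw [← h.eq_orderOf, mul_comm]⟩
    · rintro ⟨j, hj⟩
      have hme : m = orderOf (q : ZMod p) := by
        rcases le_total k j with hkj | hkj
        · obtain ⟨d, rfl⟩ := Nat.exists_eq_add_of_le hkj
          rw [pow_add, mul_comm (orderOf _), mul_assoc] at hj
          have h2 := Nat.eq_of_mul_eq_mul_left (pow_pos hp.pos k) hj
          rcases d with _ | d
          · simpa using h2
          · exfalso; apply hm; rw [h2]
            exact Dvd.dvd.mul_right (dvd_pow_self p (Nat.succ_ne_zero d)) _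
        · obtain ⟨d, rfl⟩ := Nat.exists_eq_add_of_le hkj
          rw [pow_add, mul_comm (orderOf _), mul_assoc] at hj
          have h2 := Nat.eq_of_mul_eq_mul_left (pow_pos hp.pos j) hj
          rcases d with _ | d
          · simpa using h2
          · exfalso; apply hpe; rw [← h2]
            exact Dvd.dvd.mul_right (dvd_pow_self p (Nat.succ_ne_zero d)) _
      rw [hme]
      exact IsPrimitiveRoot.orderOf _

end Cfsg.Agent.S4230
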