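import Cfsg.Statements.S4238
import Cfsg.Agent.Lib.Helper5.NPC
import Cfsg.Agent.S0071

set_option autoImplicit false
open Cfsg

namespace Cfsg.Agent.S4238

open Cfsg.Agent.Lib.Helper5 (NPC npc_iff)

theorem mem_of_index_pow {p : ℕ} {X : Type*} [Group X] (L : Subgroup X) [L.Normal] (k : ℕ)
    (hk : L.index = p ^ k) (x : X) (hx : (orderOf x).Coprime p) : x ∈ L := by
  rw [← QuotientGroup.eq_one_iff]
  have h1 : ((x : X ⧸ L)) ^ (p ^ k) = 1 := by
    rw [← hk, Subgroup.index_eq_card]; exact pow_card_eq_one'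
  have h2 : (x : X ⧸ L) ^ orderOf x = 1 := by
    rw [← QuotientGroup.mk_pow, pow_orderOf_eq_one]; rfl
  rw [← orderOf_eq_one_iff]
  exact Nat.eq_one_of_dvd_coprimes (hx.pow_right k) (orderOf_dvd_of_pow_eq_one h2)
    (orderOf_dvd_of_pow_eq_one h1)

theorem eq_one_of_mem_coprime {p : ℕ} {X : Type*} [Group X] (L : Subgroup X)
    (hL : (Nat.card L).Coprime p) (w : X) (hw : w ∈ L) (j : ℕ) (hj : w ^ (p ^ j) = 1) : w = 1 := by
  rw [← orderOf_eq_one_iff]
  exact Nat.eq_one_of_dvd_coprimes (hL.pow_right j) (Subgroup.orderOf_dvd_natCard L hw)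
    (orderOf_dvd_of_pow_eq_one hj)

theorem centralizes_of_NPC {p : ℕ} {X : Type*} [Group X] [Finite X] [Fact p.Prime]
    (Q M : Subgroup X) (hQ : IsPGroup p Q) (g : X)
    (hg : g ∈ Subgroup.normalizer (Q : Set X)) (hgo : (orderOf g).Coprime p) (hQM : Q ≤ M)
    (hgM : g ∈ M) (h : NPC p M) : g ∈ Subgroup.centralizer (Q : Set X) := by
  obtain ⟨N, hN, hcop, k, hk⟩ := h
  have := hN
  have hgN : (⟨g, hgM⟩ : M) ∈ N := mem_of_index_pow N k hk _ (by rwa [Subgroup.orderOf_mk])
  rw [Subgroup.mem_centralizer_iff]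
  intro u hu
  have h1 : (⟨u, hQM hu⟩ : M) * ⟨g, hgM⟩ * (⟨u, hQM hu⟩ : M)⁻¹ * (⟨g, hgM⟩ : M)⁻¹ ∈ N :=
    mul_mem (hN.conj_mem _ hgN _) (inv_mem hgN)
  have h2 : u * g * u⁻¹ * g⁻¹ ∈ Q := by
    have h3 : g * u⁻¹ * g⁻¹ ∈ Q := (Subgroup.mem_normalizer_iff.1 hg u⁻¹).1 (inv_mem hu)
    have e : u * g * u⁻¹ * g⁻¹ = u * (g * u⁻¹ * g⁻¹) := by group
    rw [e]; exact mul_mem hu h3
  obtain ⟨j, hj⟩ := hQ ⟨_, h2⟩
  have hj' : (u * g * u⁻¹ * g⁻¹) ^ (p ^ j) = 1 := by
    have := congrArg Subtype.val hj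
    simpa using this
  have h3 := eq_one_of_mem_coprime N hcop _ h1 j (Subtype.ext (by simpa using hj'))
  have h4 : u * g * u⁻¹ * g⁻¹ = 1 := by
    have := congrArg Subtype.val h3
    simpa using this
  calc u * g = (u * g * u⁻¹ * g⁻¹) * (g * u) := by group
    _ = g * u := by rw [h4, one_mul]

theorem exists_orderOf_eq_exponent {p : ℕ} {X : Type*} [Group X] [Finite X] [Fact p.Prime] (k : ℕ)
    (hk : Nat.card X = p ^ k) : ∃ x : X, orderOf x = Monoid.exponent X := by
  have hp : p.Prime := Fact.out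
  obtain ⟨x0, hx0⟩ := Finite.exists_max (fun x : X => orderOf x)
  refine ⟨x0, Nat.dvd_antisymm (Monoid.order_dvd_exponent x0) ?_⟩
  apply Monoid.exponent_dvd_of_forall_pow_eq_one
  intro x
  have h1 : orderOf x ∣ p ^ k := hk ▸ orderOf_dvd_natCard x
  have h2 : orderOf x0 ∣ p ^ k := hk ▸ orderOf_dvd_natCard x0
  obtain ⟨a, -, ha⟩ := (Nat.dvd_prime_pow hp).1 h1
  obtain ⟨b, -, hb⟩ := (Nat.dvd_prime_pow hp).1 h2
  have h3 : a ≤ b := by
    have := hx0 x
    simp only [ha, hb] at this
    exact (Nat.pow_le_pow_iff_right hp.one_lt).1 this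
  apply orderOf_dvd_iff_pow_eq_one.1
  rw [ha, hb]; exact pow_dvd_pow p h3

theorem minimal_section {p : ℕ} {K : Type*} [Group K] [Finite K] [Fact p.Prime] (hK : ¬ NPC p K)
    (hsub : ∀ M : Subgroup K, M ≠ ⊤ → NPC p M)
    (hquot : ∀ (L : Subgroup K) [L.Normal], L ≠ ⊥ → NPC p (K ⧸ L)) :
    Cfsg.pPrimeCore p K = ⊥ ∧ ¬ ∃ k : K, orderOf k = Monoid.exponent K := by
  classical
  have hp : p.Prime := Fact.out
  have step1 : ∀ L : Subgroup K, L.Normal → (Nat.card L).Coprime p → L = ⊥ := by
    intro L hL hc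
    by_contra hne
    have := hL
    exact hK (NPC.of_quot L hc (hquot L hne))
  refine ⟨eq_bot_iff.2 (sSup_le fun N hN => (step1 N hN.1 hN.2).le), ?_⟩
  obtain ⟨P⟩ : Nonempty (Sylow p K) := inferInstance
  have hF := Cfsg.Agent.S0071.result P
  have hnot : ¬ ∃ N : Subgroup K, N.Normal ∧ N.IsComplement' (P : Subgroup K) := by
    rintro ⟨N, hN, hc⟩
    exact hK (npc_iff.1 ⟨P, N, hN, hc⟩)
  rw [hF] at hnot
  push Not at hnot
  have hex : ∃ n, ∃ (Q : Subgroup K) (g : K), IsPGroup p Q ∧
      g ∈ Subgroup.normalizer (Q : Set K) ∧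
      (orderOf g).Coprime p ∧ g ∉ Subgroup.centralizer (Q : Set K) ∧ orderOf g = n := by
    obtain ⟨Q, hQP, g, hg, hgo, hgc⟩ := hnot
    exact ⟨_, Q, g, P.2.to_le hQP, hg, hgo, hgc, rfl⟩
  obtain ⟨Q, y, hQ, hyN, hyo, hyC, hyn⟩ := Nat.find_spec hex
  have hmin : ∀ g : K, g ∈ Subgroup.normalizer (Q : Set K) → (orderOf g).Coprime p →
      orderOf g < orderOf y → g ∈ Subgroup.centralizer (Q : Set K) := by
    intro g hg hgo hlt
    by_contra hgc
    have := Nat.find_min' hex ⟨Q, g, hQ, hg, hgo, hgc, rfl⟩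
    omega
  have htop : ∀ R : Subgroup K, IsPGroup p R → y ∈ Subgroup.normalizer (R : Set K) →
      y ∉ Subgroup.centralizer (R : Set K) → R ⊔ Subgroup.zpowers y = ⊤ := by
    intro R hR hyR hyc
    by_contra hne
    exact hyc (centralizes_of_NPC R _ hR y hyR hyo le_sup_left
      (Subgroup.mem_sup_right (Subgroup.mem_zpowers y)) (hsub _ hne))
  have hQtop := htop Q hQ hyN hyC
  have hcen : ∀ R : Subgroup K, R ⊔ Subgroup.zpowers y = ⊤ → ∀ z : K,
      z ∈ Subgroup.centralizer (R : Set K) → Commute z y → z ∈ Subgroup.center K := by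
    intro R hR z hz hzy
    have h1 : R ⊔ Subgroup.zpowers y ≤ Subgroup.centralizer {z} := by
      apply sup_le
      · intro r hr
        rw [Subgroup.mem_centralizer_singleton_iff]
        exact (Subgroup.mem_centralizer_iff.1 hz) r hr
      · rw [Subgroup.zpowers_le, Subgroup.mem_centralizer_singleton_iff]
        exact hzy.eq.symm
    rw [hR] at h1
    rw [Subgroup.mem_center_iff]
    intro g
    have h2 := h1 (Subgroup.mem_top g)
    rw [Subgroup.mem_centralizer_singleton_iff] at h2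
    exact h2
  have hnc : ∀ z : K, z ∈ Subgroup.center K → (Subgroup.zpowers z).Normal := by
    intro z hz
    have hle : Subgroup.zpowers z ≤ Subgroup.center K := by rwa [Subgroup.zpowers_le]
    constructor
    intro n hn g
    have : g * n * g⁻¹ = n := by
      rw [(Subgroup.mem_center_iff.1 (hle hn) g), mul_inv_cancel_right]
    rw [this]; exact hn
  have hy1 : y ≠ 1 := by
    rintro rfl
    exact hyC (one_mem _)
  have hyq : (orderOf y).Prime := by
    obtain ⟨r, hr, hry⟩ := Nat.exists_prime_and_dvd (n := orderOf y)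
      (by rwa [Ne, orderOf_eq_one_iff])
    have ho : orderOf (y ^ r) < orderOf y := by
      rw [orderOf_pow_of_dvd hr.ne_zero hry]
      exact Nat.div_lt_self (orderOf_pos y) hr.one_lt
    have hco : (orderOf (y ^ r)).Coprime p :=
      Nat.Coprime.coprime_dvd_left (orderOf_pow_dvd r) hyo
    have h1 := hmin (y ^ r) (pow_mem hyN r) hco ho
    have h2 := hcen Q hQtop (y ^ r) h1 ((Commute.refl y).pow_left r)
    have h3 := hnc _ h2
    have h4 := step1 _ h3 (by rw [Nat.card_zpowers]; exact hco)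
    have h5 : y ^ r = 1 := by rwa [Subgroup.zpowers_eq_bot] at h4
    have h6 := orderOf_dvd_of_pow_eq_one h5
    rcases (Nat.dvd_prime hr).1 h6 with h | h
    · exact absurd (orderOf_eq_one_iff.1 h) hy1
    · rw [h]; exact hr
  obtain ⟨q, hq⟩ : ∃ q, q = orderOf y := ⟨_, rfl⟩
  have key : ∀ R : Subgroup K, R.Normal → IsPGroup p R → R ⊔ Subgroup.zpowers y = ⊤ →
      ∀ z ∈ R, z ∈ Subgroup.center K → z = 1 := by
    intro R hRn hR hRtop z hzR hzc
    by_contra hz1
    have hNn := hnc z hzc
    have hNb : Subgroup.zpowers z ≠ ⊥ := by rwa [Ne, Subgroup.zpowers_eq_bot]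
    obtain ⟨L, hL, hLc, k, hk⟩ := hquot (Subgroup.zpowers z) hNb
    have := hL
    obtain ⟨π, hπ⟩ : ∃ π : K →* K ⧸ Subgroup.zpowers z, π = QuotientGroup.mk' _ := ⟨_, rfl⟩
    have hyL : π y ∈ L := by
      apply mem_of_index_pow L k hk
      exact Nat.Coprime.coprime_dvd_left (orderOf_map_dvd π y) hyo
    have hyn : (Subgroup.zpowers y).Normal := by
      constructor
      intro n hn g
      have hy' : g * y * g⁻¹ ∈ Subgroup.zpowers y := by
        have h1 : g * y * g⁻¹ ∈ ((R ⊔ Subgroup.zpowers y : Subgroup K) : Set K) := by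
          rw [hRtop]; trivial
        rw [Subgroup.normal_mul] at h1
        obtain ⟨u, hu, v, hv, huv⟩ := Set.mem_mul.1 h1
        have hvL : π v ∈ L := by
          obtain ⟨i, rfl⟩ := Subgroup.mem_zpowers_iff.1 hv
          rw [map_zpow]
          exact zpow_mem hyL i
        have hgL : π (g * y * g⁻¹) ∈ L := by
          rw [map_mul, map_mul, map_inv]
          exact hL.conj_mem _ hyL _
        have huL : π u ∈ L := by
          have e : u = (g * y * g⁻¹) * v⁻¹ := by rw [← huv]; group
          rw [e, map_mul, map_inv]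
          exact mul_mem hgL (inv_mem hvL)
        obtain ⟨j, hj⟩ := hR ⟨u, hu⟩
        have hj' : u ^ (p ^ j) = 1 := by simpa using congrArg Subtype.val hj
        have hu1 : π u = 1 :=
          eq_one_of_mem_coprime L hLc _ huL j (by rw [← map_pow, hj', map_one])
        have huz : u ∈ Subgroup.zpowers z := by
          rw [hπ] at hu1
          exact (QuotientGroup.eq_one_iff u).1 hu1
        have huc : u ∈ Subgroup.center K := (Subgroup.zpowers_le.2 hzc) huz
        have h2 : (u * v) ^ q = 1 := by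
          rw [huv, conj_pow, hq, pow_orderOf_eq_one]; group
        have hcomm : Commute u v := (Subgroup.mem_center_iff.1 huc v).symm
        have hvq : v ^ q = 1 := by
          obtain ⟨i, rfl⟩ := Subgroup.mem_zpowers_iff.1 hv
          rw [← zpow_natCast, ← zpow_mul, mul_comm, zpow_mul, zpow_natCast, hq,
            pow_orderOf_eq_one, one_zpow]
        rw [hcomm.mul_pow, hvq, mul_one] at h2
        have hu1' : u = 1 := by
          rw [← orderOf_eq_one_iff]
          exact Nat.eq_one_of_dvd_coprimes (a := q) (b := p ^ j)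
            (by rw [hq]; exact hyo.pow_right j) (orderOf_dvd_of_pow_eq_one h2)
            (orderOf_dvd_of_pow_eq_one hj')
        rw [← huv, hu1', one_mul]; exact hv
      obtain ⟨i, rfl⟩ := Subgroup.mem_zpowers_iff.1 hn
      rw [← conj_zpow]
      exact zpow_mem hy' i
    have h9 := step1 _ hyn (by rw [Nat.card_zpowers]; exact hyo)
    rw [Subgroup.zpowers_eq_bot] at h9
    exact hy1 h9
  have hnormal : ∀ R : Subgroup K, y ∈ Subgroup.normalizer (R : Set K) →
      R ⊔ Subgroup.zpowers y = ⊤ → R.Normal := by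
    intro R hyR hRtop
    rw [← Subgroup.normalizer_eq_top_iff, eq_top_iff, ← hRtop]
    exact sup_le Subgroup.le_normalizer (by rwa [Subgroup.zpowers_le])
  have hQn := hnormal Q hyN hQtop
  obtain ⟨A, hA⟩ : ∃ A : Subgroup K, A = Q ⊓ Subgroup.centralizer (Q : Set K) := ⟨_, rfl⟩
  have hAn : A.Normal := by rw [hA]; infer_instance
  have hAQ : A ≤ Q := by rw [hA]; exact inf_le_left
  have hAC : A ≤ Subgroup.centralizer (Q : Set K) := by rw [hA]; exact inf_le_right
  have hAp : IsPGroup p A := hQ.to_le hAQ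
  have hQne : Q ≠ ⊥ := by
    rintro rfl
    apply hyC
    rw [Subgroup.mem_centralizer_iff]
    intro h hh
    rw [SetLike.mem_coe, Subgroup.mem_bot] at hh
    rw [hh, one_mul, mul_one]
  obtain ⟨z0, hz0Q, hz0C, hz01⟩ : ∃ z0 : K, z0 ∈ Q ∧ z0 ∈ Subgroup.centralizer (Q : Set K) ∧
      z0 ≠ 1 := by
    have : Nontrivial Q := (Subgroup.nontrivial_iff_ne_bot Q).2 hQne
    have hnt := hQ.center_nontrivial
    obtain ⟨z, hz⟩ := exists_ne (1 : Subgroup.center Q)
    refine ⟨((z : Q) : K), (z : Q).2, ?_, ?_⟩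
    · rw [Subgroup.mem_centralizer_iff]
      intro h hh
      have := Subgroup.mem_center_iff.1 z.2 ⟨h, hh⟩
      exact congrArg Subtype.val this
    · intro h
      apply hz
      exact Subtype.ext (Subtype.ext h)
  rintro ⟨k, hk⟩
  by_cases hyA : y ∈ Subgroup.centralizer (A : Set K)
  · have h1 : Commute z0 y :=
      (Subgroup.mem_centralizer_iff.1 hyA) z0 (by rw [hA]; exact Subgroup.mem_inf.2 ⟨hz0Q, hz0C⟩)
    exact hz01 (key Q hQn hQ hQtop z0 hz0Q (hcen Q hQtop z0 hz0C h1))
  · have hAtop := htop A hAp (by rw [Subgroup.normalizer_eq_top_iff.2 hAn]; trivial) hyA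
    have hAab : ∀ a ∈ A, a ∈ Subgroup.centralizer (A : Set K) := by
      intro a ha
      rw [Subgroup.mem_centralizer_iff]
      intro b hb
      exact (Subgroup.mem_centralizer_iff.1 (hAC ha)) b (hAQ hb)
    have hpe : p ∣ Monoid.exponent K := by
      obtain ⟨j, hj⟩ := hQ ⟨z0, hz0Q⟩
      have hj' : z0 ^ (p ^ j) = 1 := by simpa using congrArg Subtype.val hj
      obtain ⟨i, -, hi⟩ := (Nat.dvd_prime_pow hp).1 (orderOf_dvd_of_pow_eq_one hj')
      have hi0 : i ≠ 0 := by
        rintro rfl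
        rw [pow_zero, orderOf_eq_one_iff] at hi
        exact hz01 hi
      exact (dvd_pow_self p hi0).trans (hi ▸ Monoid.order_dvd_exponent z0)
    have hqe : q ∣ Monoid.exponent K := hq ▸ Monoid.order_dvd_exponent y
    have hqp : q.Coprime p := hq ▸ hyo
    have hqpr : q.Prime := hq ▸ hyq
    have hpq : p * q ∣ orderOf k := by
      rw [hk]
      exact Nat.Coprime.mul_dvd_of_dvd_of_dvd hqp.symm hpe hqe
    have hk0 : orderOf k ≠ 0 := (orderOf_pos k).ne'
    obtain ⟨k1, hk1⟩ : ∃ k1, k1 = k ^ (orderOf k / (p * q)) := ⟨_, rfl⟩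
    have hk1o : orderOf k1 = p * q := by
      rw [hk1, orderOf_pow_of_dvd (by
        intro h
        rw [Nat.div_eq_zero_iff] at h
        rcases h with h | h
        · exact (Nat.mul_ne_zero hp.ne_zero hqpr.ne_zero) h
        · exact absurd (Nat.le_of_dvd (orderOf_pos k) hpq) (by omega)) (Nat.div_dvd_of_dvd hpq),
        Nat.div_div_self hpq hk0]
    have hso : orderOf (k1 ^ q) = p := by
      rw [orderOf_pow_of_dvd hqpr.ne_zero (by rw [hk1o]; exact Dvd.intro_left p rfl), hk1o,
        Nat.mul_div_cancel _ hqpr.pos]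
    have hto : orderOf (k1 ^ p) = q := by
      rw [orderOf_pow_of_dvd hp.ne_zero (by rw [hk1o]; exact Dvd.intro q rfl), hk1o,
        Nat.mul_div_cancel_left _ hp.pos]
    have hdec : ∀ g : K, ∃ a ∈ A, ∃ v ∈ Subgroup.zpowers y, a * v = g := by
      intro g
      have h1 : g ∈ ((A ⊔ Subgroup.zpowers y : Subgroup K) : Set K) := by
        rw [hAtop]; trivial
      rw [Subgroup.normal_mul] at h1
      obtain ⟨u, hu, v, hv, huv⟩ := Set.mem_mul.1 h1
      exact ⟨u, hu, v, hv, huv⟩
    have hvq : ∀ v ∈ Subgroup.zpowers y, v ^ q = 1 := by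
      intro v hv
      obtain ⟨i, rfl⟩ := Subgroup.mem_zpowers_iff.1 hv
      rw [← zpow_natCast, ← zpow_mul, mul_comm, zpow_mul, zpow_natCast, hq,
        pow_orderOf_eq_one, one_zpow]
    have hsA : k1 ^ q ∈ A := by
      obtain ⟨a, ha, v, hv, hav⟩ := hdec k1
      rw [← QuotientGroup.eq_one_iff, QuotientGroup.mk_pow, ← hav, QuotientGroup.mk_mul,
        (QuotientGroup.eq_one_iff a).2 ha, one_mul, ← QuotientGroup.mk_pow, hvq v hv]
      rfl
    obtain ⟨a', ha', v', hv', hav'⟩ := hdec (k1 ^ p)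
    have hv1 : v' ≠ 1 := by
      intro h
      rw [h, mul_one] at hav'
      obtain ⟨j, hj⟩ := hAp ⟨a', ha'⟩
      have hj' : a' ^ (p ^ j) = 1 := by simpa using congrArg Subtype.val hj
      have h2 : orderOf a' = 1 :=
        Nat.eq_one_of_dvd_coprimes (a := q) (b := p ^ j) (hqp.pow_right j)
          (by rw [hav', hto]) (orderOf_dvd_of_pow_eq_one hj')
      rw [hav', hto] at h2
      exact hqpr.one_lt.ne' h2
    have hst : Commute (k1 ^ q) (k1 ^ p) := ((Commute.refl k1).pow_left q).pow_right p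
    have hsa : Commute (k1 ^ q) a' :=
      ((Subgroup.mem_centralizer_iff.1 (hAab _ hsA)) a' ha').symm
    have hsv : Commute (k1 ^ q) v' := by
      have e : v' = a'⁻¹ * (k1 ^ p) := by rw [← hav']; group
      rw [e]
      exact hsa.inv_right.mul_right hst
    have hsy : Commute (k1 ^ q) y := by
      have : Fact q.Prime := ⟨hqpr⟩
      have hcard : Nat.card (Subgroup.zpowers y) = q := by rw [Nat.card_zpowers, hq]
      have h3 := mem_zpowers_of_prime_card (G := Subgroup.zpowers y) hcard (g := ⟨v', hv'⟩)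
        (g' := ⟨y, Subgroup.mem_zpowers y⟩) (by
          intro h; exact hv1 (congrArg Subtype.val h))
      obtain ⟨i, hi⟩ := Subgroup.mem_zpowers_iff.1 h3
      have h4 : v' ^ i = y := by simpa using congrArg Subtype.val hi
      rw [← h4]
      exact hsv.zpow_right i
    have hs1 := key A hAn hAp hAtop _ hsA (hcen A hAtop _ (hAab _ hsA) hsy)
    rw [hs1, orderOf_one] at hso
    exact hp.one_lt.ne hso

/-- Let G be a finite group and p a prime. Then G has a normal p-complement if and only if every section K = H/N of G (N a normal subgroup of a subgroup H) whose largest normal subgroup of order prime to p is trivial contains an element whose order equals the exponent of K. -/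
theorem result {G : Type*} [Group G] [Finite G] (p : ℕ) [Fact p.Prime] :
    Cfsg.HasNormalPComplement p G ↔
      ∀ (H : Subgroup G) (N : Subgroup H) [N.Normal], Cfsg.pPrimeCore p (H ⧸ N) = ⊥ →
        ∃ k : H ⧸ N, orderOf k = Monoid.exponent (H ⧸ N) := by
  classical
  constructor
  · intro h H N _ hO
    have h1 : NPC p G := npc_iff.1 h
    have h2 : NPC p H := h1.subgroup H
    have h3 : NPC p (H ⧸ N) :=
      h2.of_surjective (QuotientGroup.mk' N) (QuotientGroup.mk'_surjective N)
    obtain ⟨L, hL, hc, k, hk⟩ := h3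
    have hLb : L = ⊥ := by
      rw [eq_bot_iff, ← hO]; exact le_sSup ⟨hL, hc⟩
    rw [hLb, Subgroup.index_bot] at hk
    exact exists_orderOf_eq_exponent k hk
  · intro h
    by_contra hG
    have hG' : ¬ NPC p G := fun h' => hG (npc_iff.2 h')
    have hex : ∃ n, ∃ H : Subgroup G, ¬ NPC p H ∧ Nat.card H = n :=
      ⟨_, ⊤, fun h' => hG' (NPC.of_top rfl h'), rfl⟩
    obtain ⟨H, hH, hHn⟩ := Nat.find_spec hex
    have hHmin : ∀ H' : Subgroup G, Nat.card H' < Nat.card H → NPC p H' := by
      intro H' hlt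
      by_contra hc
      have := Nat.find_min' hex ⟨H', hc, rfl⟩
      omega
    have hex2 : ∃ n, ∃ N : Subgroup H, ∃ _ : N.Normal, ¬ NPC p (H ⧸ N) ∧ N.index = n :=
      ⟨_, ⊥, inferInstance, fun h' => hH (NPC.of_quot ⊥ (by simp) h'), rfl⟩
    obtain ⟨N, hN, hHN, hNn⟩ := Nat.find_spec hex2
    have hNmin : ∀ (N' : Subgroup H) [N'.Normal], N'.index < N.index → NPC p (H ⧸ N') := by
      intro N' hN' hlt
      by_contra hc
      have := Nat.find_min' hex2 ⟨N', hN', hc, rfl⟩
      omega
    have hsurj := QuotientGroup.mk'_surjective N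
    have hsub : ∀ M : Subgroup (H ⧸ N), M ≠ ⊤ → NPC p M := by
      intro M hM
      have h1 : M.comap (QuotientGroup.mk' N) ≠ ⊤ := by
        intro h2
        apply hM
        apply Subgroup.comap_injective hsurj
        rw [h2, Subgroup.comap_top]
      have h2 : Nat.card (M.comap (QuotientGroup.mk' N)) < Nat.card H :=
        lt_of_le_of_ne (Subgroup.card_le_card_group _) (fun h => h1 (Subgroup.eq_top_of_card_eq _ h))
      have h3 : NPC p ((M.comap (QuotientGroup.mk' N)).map H.subtype) := by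
        apply hHmin
        rw [Subgroup.card_map_of_injective H.subtype_injective]
        exact h2
      have h4 : NPC p (M.comap (QuotientGroup.mk' N)) :=
        h3.of_equiv (Subgroup.equivMapOfInjective _ H.subtype H.subtype_injective).symm
      exact h4.of_surjective ((QuotientGroup.mk' N).subgroupComap M)
        (MonoidHom.subgroupComap_surjective_of_surjective _ M hsurj)
    have hquot : ∀ (L : Subgroup (H ⧸ N)) [L.Normal], L ≠ ⊥ → NPC p ((H ⧸ N) ⧸ L) := by
      intro L hL hLb
      have h1 : (L.comap (QuotientGroup.mk' N)).index < N.index := by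
        rw [Subgroup.index_comap_of_surjective L hsurj, Subgroup.index_eq_card N,
          ← Subgroup.card_mul_index L]
        have h2 : 1 < Nat.card L := (Subgroup.one_lt_card_iff_ne_bot L).2 hLb
        have h3 : 0 < L.index := Nat.pos_of_ne_zero Subgroup.index_ne_zero_of_finite
        nlinarith
      have h2 := hNmin (L.comap (QuotientGroup.mk' N)) h1
      have hs2 : Function.Surjective ((QuotientGroup.mk' L).comp (QuotientGroup.mk' N)) := by
        rw [MonoidHom.coe_comp]
        exact (QuotientGroup.mk'_surjective L).comp hsurj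
      refine h2.of_surjective (QuotientGroup.lift _
        ((QuotientGroup.mk' L).comp (QuotientGroup.mk' N)) ?_)
        (QuotientGroup.lift_surjective_of_surjective _ _ hs2 _)
      intro x hx
      rw [MonoidHom.mem_ker, MonoidHom.comp_apply]
      exact (QuotientGroup.eq_one_iff _).2 hx
    obtain ⟨hO, hno⟩ := minimal_section hHN hsub hquot
    exact hno (h H N hO)

end Cfsg.Agent.S4238
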