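import Cfsg.Statements.S4242
import Cfsg.Agent.S0071
import Cfsg.Agent.S0023
import Cfsg.Agent.Lib.Helper2.GrpNil
import Cfsg.Agent.Lib.Helper13.Frobenius
import Cfsg.Agent.Lib.Helper23.Fitting
import Cfsg.Agent.Lib.Helper22.Basic
import Cfsg.Agent.Lib.Helper5.Card

set_option autoImplicit false
open Cfsg

namespace Cfsg.Agent.S4242

section
variable {G : Type*} [Group G]

theorem nil_of_le {U V : Subgroup G} (h : U ≤ V) (hV : Group.IsNilpotent V) :
    Group.IsNilpotent U := by
  have : Group.IsNilpotent (U.subgroupOf V) := inferInstance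
  exact Group.nilpotent_of_mulEquiv (Subgroup.subgroupOfEquivOfLe h)

theorem commute_of_nil [Finite G] {U : Subgroup G} (hU : Group.IsNilpotent U) {x y : G}
    (hx : x ∈ U) (hy : y ∈ U) (h : (orderOf x).Coprime (orderOf y)) : x * y = y * x := by
  have := Cfsg.Agent.Lib.Helper2.commute_of_coprime_of_isNilpotent (G := U)
    (x := ⟨x, hx⟩) (y := ⟨y, hy⟩) (by rw [Subgroup.orderOf_mk, Subgroup.orderOf_mk]; exact h)
  exact congrArg Subtype.val this.eq

theorem nil_sup_of_commute (A K : Subgroup G) (hA : Group.IsNilpotent A)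
    (hK : Group.IsNilpotent K) (hc : ∀ a ∈ A, ∀ k ∈ K, Commute a k) :
    Group.IsNilpotent (A ⊔ K : Subgroup G) := by
  let f : A × K →* G := MonoidHom.noncommCoprod A.subtype K.subtype
    (fun a k => hc a a.2 k k.2)
  have h2 : Group.IsNilpotent f.range :=
    Group.nilpotent_of_surjective _ (MonoidHom.rangeRestrict_surjective f)
  apply nil_of_le _ h2
  apply sup_le
  · intro a ha
    refine ⟨(⟨a, ha⟩, 1), ?_⟩
    show A.subtype ⟨a, ha⟩ * K.subtype 1 = a
    simp
  · intro k hk
    refine ⟨(1, ⟨k, hk⟩), ?_⟩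
    show A.subtype 1 * K.subtype ⟨k, hk⟩ = k
    simp

theorem nil_of_proper [Finite G] {p : ℕ}
    (hmax : ∀ M : Subgroup G, IsCoatom M → p ∣ Nat.card M → Group.IsNilpotent M)
    (U : Subgroup G) (hU : U ≠ ⊤) (hp : p ∣ Nat.card U) : Group.IsNilpotent U := by
  obtain h | ⟨M, hM, hle⟩ := eq_top_or_exists_le_coatom U
  · exact absurd h hU
  · exact nil_of_le hle (hmax M hM (hp.trans (Subgroup.card_dvd_of_le hle)))

theorem le_of_sup_eq_top {A K Z : Subgroup G} (hAK : A ≤ K)
    (hZA : Z ≤ Subgroup.normalizer (A : Set G)) (hdisj : Disjoint Z K) (htop : A ⊔ Z = ⊤) :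
    K ≤ A := by
  intro k hk
  have hk' : k ∈ ((A ⊔ Z : Subgroup G) : Set G) := by rw [htop]; trivial
  rw [Subgroup.coe_mul_of_right_le_normalizer_left A Z hZA] at hk'
  obtain ⟨a, ha, w, hw, rfl⟩ := Set.mem_mul.1 hk'
  have hwK : w ∈ K := by
    have := K.mul_mem (K.inv_mem (hAK ha)) hk
    rwa [inv_mul_cancel_left] at this
  have : w = 1 := Subgroup.disjoint_def.1 hdisj hw hwK
  rw [this, mul_one]; exact ha

theorem forward [Finite G] (p : ℕ) [hp : Fact p.Prime] (hpG : p ∣ Nat.card G)
    (hmax : ∀ M : Subgroup G, IsCoatom M → p ∣ Nat.card M → Group.IsNilpotent M)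
    (K : Subgroup G) (hK : IsCoatom K) (hKn : ¬ Group.IsNilpotent K) :
    ∃ Z K : Subgroup G, Z.Normal ∧ K.Normal ∧ Z ⊓ K = ⊥ ∧ Z ⊔ K = ⊤ ∧ Nat.card Z = p ∧
          Cfsg.IsMinimalNonNilpotent K ∧ ¬ p ∣ Nat.card K := by
  have hpK : ¬ p ∣ Nat.card K := fun h => hKn (hmax K hK h)
  have hcopK : ∀ k ∈ K, (orderOf k).Coprime p := by
    intro k hk
    have h1 : orderOf k ∣ Nat.card K := by
      have := orderOf_dvd_natCard (⟨k, hk⟩ : K)
      rwa [Subgroup.orderOf_mk] at this
    exact Nat.Coprime.coprime_dvd_left h1 ((Nat.Prime.coprime_iff_not_dvd hp.out).2 hpK).symm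
  let P : Sylow p G := default
  have hF : ∀ Q : Subgroup G, Q ≤ (P : Subgroup G) → ∀ g ∈ Subgroup.normalizer (Q : Set G),
      Nat.Coprime (orderOf g) p → g ∈ Subgroup.centralizer (Q : Set G) := by
    intro Q hQP g hg hgo
    have hQp : IsPGroup p Q := P.2.to_le hQP
    by_cases hQ : Q = ⊥
    · rw [hQ, Subgroup.mem_centralizer_iff]
      intro h hh
      rw [SetLike.mem_coe, Subgroup.mem_bot] at hh
      rw [hh, one_mul, mul_one]
    have hpQ : p ∣ Nat.card Q := by
      have : Nontrivial Q := (Subgroup.nontrivial_iff_ne_bot Q).2 hQ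
      obtain ⟨n, hn0, hn⟩ := hQp.nontrivial_iff_card.1 this
      rw [hn]; exact dvd_pow_self _ hn0.ne'
    by_cases hU : Q ⊔ Subgroup.zpowers g = ⊤
    · exfalso
      apply hKn
      have hQn : Q.Normal := by
        rw [← Subgroup.normalizer_eq_top_iff, eq_top_iff, ← hU]
        exact sup_le Subgroup.le_normalizer (by rw [Subgroup.zpowers_le]; exact hg)
      have hform : ∀ a : G, ∃ i : ℤ, (a : G ⧸ Q) = (g : G ⧸ Q) ^ i := by
        intro a
        have ha : a ∈ ((Q ⊔ Subgroup.zpowers g : Subgroup G) : Set G) := by rw [hU]; trivial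
        rw [Subgroup.normal_mul] at ha
        obtain ⟨x, hx, w, hw, rfl⟩ := Set.mem_mul.1 ha
        obtain ⟨i, rfl⟩ := Subgroup.mem_zpowers_iff.1 hw
        refine ⟨i, ?_⟩
        rw [QuotientGroup.mk_mul, (QuotientGroup.eq_one_iff x).2 hx, one_mul,
          QuotientGroup.mk_zpow]
      have hdisj : Disjoint Q K := Subgroup.disjoint_of_coprime_natCard (by
        obtain ⟨n, hn⟩ := hQp.exists_card_eq
        rw [hn]
        exact Nat.Coprime.pow_left n ((Nat.Prime.coprime_iff_not_dvd hp.out).2 hpK))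
      have hcomm : ∀ a b : K, a * b = b * a := by
        intro a b
        obtain ⟨i, hi⟩ := hform a
        obtain ⟨j, hj⟩ := hform b
        have h1 : (((a : G) * b : G) : G ⧸ Q) = (((b : G) * a : G) : G ⧸ Q) := by
          rw [QuotientGroup.mk_mul, QuotientGroup.mk_mul, hi, hj, ← zpow_add, ← zpow_add,
            add_comm]
        have h2 : ((a : G) * b)⁻¹ * ((b : G) * a) ∈ Q := QuotientGroup.eq.1 h1
        have h3 : ((a : G) * b)⁻¹ * ((b : G) * a) ∈ K :=
          K.mul_mem (K.inv_mem (K.mul_mem a.2 b.2)) (K.mul_mem b.2 a.2)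
        have h4 := Subgroup.disjoint_def.1 hdisj h2 h3
        apply Subtype.ext
        exact (inv_mul_eq_one.1 h4)
      let _ : CommGroup K := { (inferInstance : Group K) with mul_comm := hcomm }
      exact CommGroup.isNilpotent
    · have hUn := nil_of_proper hmax _ hU (hpQ.trans (Subgroup.card_dvd_of_le le_sup_left))
      rw [Subgroup.mem_centralizer_iff]
      intro x hx
      apply commute_of_nil hUn (Subgroup.mem_sup_left hx)
        (Subgroup.mem_sup_right (Subgroup.mem_zpowers g))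
      obtain ⟨n, hn⟩ := (hQp ⟨x, hx⟩)
      have h1 : orderOf x ∣ p ^ n := by
        apply orderOf_dvd_of_pow_eq_one
        exact congrArg Subtype.val hn
      exact Nat.Coprime.coprime_dvd_left h1 (Nat.Coprime.pow_left n hgo.symm)
  obtain ⟨N, hNn, hNc⟩ := (Cfsg.Agent.S0071.result P).2 hF
  have hKN : K ≤ N := fun k hk => Cfsg.Agent.Lib.Helper13.mem_of_coprime_of_isPGroup_quotient
    (Cfsg.Agent.Lib.Helper13.isPGroup_quotient_of_isComplement' hNc) (hcopK k hk)
  have hNtop : N ≠ ⊤ := by
    intro h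
    have := Cfsg.Agent.Lib.Helper13.card_coprime_of_isComplement' hNc
    rw [h, Subgroup.card_top] at this
    exact (Nat.Prime.coprime_iff_not_dvd hp.out).1 this.symm hpG
  have hKeq : K = N := by
    by_contra hne
    exact hNtop (hK.2 N (lt_of_le_of_ne hKN hne))
  have hKnormal : K.Normal := hKeq ▸ hNn
  obtain ⟨z, hz⟩ := exists_prime_orderOf_dvd_card' p hpG
  have hzK : z ∉ K := by
    intro h
    have := hcopK z h
    rw [hz] at this
    exact hp.out.one_lt.ne' ((Nat.coprime_self p).1 this)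
  have hcardZ : Nat.card (Subgroup.zpowers z) = p := by rw [Nat.card_zpowers, hz]
  have hcop : (Nat.card (Subgroup.zpowers z)).Coprime (Nat.card K) := by
    rw [hcardZ]; exact (Nat.Prime.coprime_iff_not_dvd hp.out).2 hpK
  have hdisjZK : Disjoint (Subgroup.zpowers z) K := Subgroup.disjoint_of_coprime_natCard hcop
  have hpsup : ∀ A : Subgroup G, p ∣ Nat.card ↥(A ⊔ Subgroup.zpowers z) := fun A =>
    (dvd_of_eq hcardZ.symm).trans (Subgroup.card_dvd_of_le le_sup_right)
  have hzc : ∀ k ∈ K, k * z = z * k := by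
    have htop : (Subgroup.centralizer ({z} : Set G)).subgroupOf K = ⊤ := by
      apply Cfsg.Agent.Lib.Helper23.eq_top_of_forall_sylow_le
      intro q _
      obtain ⟨Q, hQ⟩ := Cfsg.Agent.S0023.result (Subgroup.zpowers z) K
        (by rw [Subgroup.normalizer_eq_top]; exact le_top) hcop (Or.inl inferInstance) q
      refine ⟨Q, ?_⟩
      intro x hx
      rw [Subgroup.mem_subgroupOf, Subgroup.mem_centralizer_singleton_iff]
      have hxQ' : (x : G) ∈ (Q : Subgroup K).map K.subtype := ⟨x, hx, rfl⟩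
      have hQ'K : (Q : Subgroup K).map K.subtype ≤ K := Subgroup.map_subtype_le _
      have hU : (Q : Subgroup K).map K.subtype ⊔ Subgroup.zpowers z ≠ ⊤ := by
        intro htop
        apply hKn
        have hKQ : K ≤ (Q : Subgroup K).map K.subtype := le_of_sup_eq_top hQ'K hQ hdisjZK htop
        have hKq : IsPGroup q K := by
          intro k
          obtain ⟨y, hy, hyk⟩ := hKQ k.2
          have hyk' : y = k := Subtype.ext hyk
          obtain ⟨n, hn⟩ := Q.2 ⟨k, hyk' ▸ hy⟩
          exact ⟨n, congrArg Subtype.val hn⟩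
        exact hKq.isNilpotent
      have hUn := nil_of_proper hmax _ hU (hpsup _)
      exact commute_of_nil hUn (Subgroup.mem_sup_left hxQ')
        (Subgroup.mem_sup_right (Subgroup.mem_zpowers z)) (by rw [hz]; exact hcopK x x.2)
    intro k hk
    have : (⟨k, hk⟩ : K) ∈ (Subgroup.centralizer ({z} : Set G)).subgroupOf K := by
      rw [htop]; trivial
    exact Subgroup.mem_centralizer_singleton_iff.1 (Subgroup.mem_subgroupOf.1 this)
  have hsup : Subgroup.zpowers z ⊔ K = ⊤ := hK.2 _ (lt_of_le_of_ne le_sup_right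
    (fun h => hzK (by rw [h]; exact Subgroup.mem_sup_left (Subgroup.mem_zpowers z))))
  have hzcen : ∀ a : G, a * z = z * a := by
    intro a
    have ha : a ∈ Subgroup.centralizer ({z} : Set G) := by
      have hle : Subgroup.zpowers z ⊔ K ≤ Subgroup.centralizer ({z} : Set G) := by
        apply sup_le
        · rw [Subgroup.zpowers_le, Subgroup.mem_centralizer_singleton_iff]
        · intro k hk; exact Subgroup.mem_centralizer_singleton_iff.2 (hzc k hk)
      exact hle (hsup ▸ Subgroup.mem_top a)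
    exact Subgroup.mem_centralizer_singleton_iff.1 ha
  have hZn : (Subgroup.zpowers z).Normal := by
    refine ⟨fun n hn a => ?_⟩
    obtain ⟨i, rfl⟩ := Subgroup.mem_zpowers_iff.1 hn
    have : a * z ^ i * a⁻¹ = z ^ i := by
      have hc : Commute a (z ^ i) := (show Commute a z from hzcen a).zpow_right i
      rw [hc.eq, mul_inv_cancel_right]
    rw [this]; exact hn
  have hmin : Cfsg.IsMinimalNonNilpotent K := by
    refine ⟨hKn, fun H hH => ?_⟩
    have hH'K : H.map K.subtype ≤ K := Subgroup.map_subtype_le _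
    have hZnorm : Subgroup.zpowers z ≤ Subgroup.normalizer ((H.map K.subtype : Subgroup G) : Set G) := by
      rw [Subgroup.zpowers_le, Subgroup.mem_normalizer_iff]
      intro h
      rw [← hzcen h, mul_inv_cancel_right]
    have hU : H.map K.subtype ⊔ Subgroup.zpowers z ≠ ⊤ := by
      intro htop
      apply hH
      have hKH : K ≤ H.map K.subtype := le_of_sup_eq_top hH'K hZnorm hdisjZK htop
      rw [eq_top_iff]
      intro k _
      obtain ⟨y, hy, hyk⟩ := hKH k.2
      have : y = k := Subtype.ext hyk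
      rwa [← this]
    have hUn := nil_of_proper hmax _ hU (hpsup _)
    have hH'n : Group.IsNilpotent ↥(H.map K.subtype) := nil_of_le le_sup_left hUn
    exact Group.nilpotent_of_mulEquiv (H.equivMapOfInjective K.subtype K.subtype_injective).symm
  exact ⟨Subgroup.zpowers z, K, hZn, hKnormal, hdisjZK.eq_bot, hsup, hcardZ, hmin, hpK⟩

theorem backward [Finite G] (p : ℕ) [hp : Fact p.Prime] (Z K : Subgroup G) (hZn : Z.Normal)
    (hKn : K.Normal) (hinf : Z ⊓ K = ⊥) (hsup : Z ⊔ K = ⊤)
    (hZ : Nat.card Z = p) (hK : Cfsg.IsMinimalNonNilpotent K) (hpK : ¬ p ∣ Nat.card K)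
    (M : Subgroup G) (hM : IsCoatom M) (hpM : p ∣ Nat.card M) : Group.IsNilpotent M := by
  obtain ⟨y, hy⟩ := exists_prime_orderOf_dvd_card' (G := M) p hpM
  have hyo : orderOf (y : G) = p := by rw [Subgroup.orderOf_coe]; exact hy
  have hidx : Z.index = Nat.card K := by
    have h1 := Cfsg.Agent.Lib.Helper5.card_sup_mul_card_inf Z K
      (by rw [Subgroup.normalizer_eq_top]; exact le_top)
    rw [hinf, hsup, Subgroup.card_bot, mul_one, Subgroup.card_top] at h1
    have h2 := Z.card_mul_index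
    have h3 : 0 < Nat.card Z := Nat.card_pos
    exact Nat.eq_of_mul_eq_mul_left h3 (h2.trans h1)
  have hyZ : (y : G) ∈ Z := by
    apply Cfsg.Agent.Lib.Helper22.mem_of_pow_mem_of_coprime Z (y : G) p Z.index
    · rw [hidx]; exact (Nat.Prime.coprime_iff_not_dvd hp.out).2 hpK
    · rw [← hyo, pow_orderOf_eq_one]; exact Z.one_mem
    · exact Subgroup.pow_index_mem Z _
  have hZM : Z ≤ M := by
    have : Subgroup.zpowers (y : G) = Z := by
      apply Subgroup.eq_of_le_of_card_ge
      · rw [Subgroup.zpowers_le]; exact hyZ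
      · rw [Nat.card_zpowers, hyo, hZ]
    rw [← this, Subgroup.zpowers_le]; exact y.2
  have hMK : M ⊓ K ≠ K := by
    intro h
    apply hM.1
    rw [eq_top_iff, ← hsup]
    exact sup_le hZM (h ▸ inf_le_left)
  have hMKn : Group.IsNilpotent ↥(M ⊓ K) := by
    have h1 : (M ⊓ K).subgroupOf K ≠ ⊤ := by
      intro h
      rw [Subgroup.subgroupOf_eq_top] at h
      exact hMK (le_antisymm inf_le_right h)
    have := hK.2 _ h1
    exact Group.nilpotent_of_mulEquiv (Subgroup.subgroupOfEquivOfLe inf_le_right)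
  have hZnil : Group.IsNilpotent Z :=
    (IsPGroup.of_card (p := p) (n := 1) (by rw [hZ, pow_one])).isNilpotent
  have hsupn := nil_sup_of_commute Z (M ⊓ K) hZnil hMKn (fun a ha k hk =>
    Subgroup.commute_of_normal_of_disjoint Z K hZn hKn (disjoint_iff.2 hinf) a k ha
      (Subgroup.mem_inf.1 hk).2)
  apply nil_of_le _ hsupn
  intro m hm
  have hm' : m ∈ ((Z ⊔ K : Subgroup G) : Set G) := by rw [hsup]; trivial
  rw [Subgroup.normal_mul] at hm'
  obtain ⟨a, ha, k, hk, rfl⟩ := Set.mem_mul.1 hm'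
  refine Subgroup.mul_mem_sup ha (Subgroup.mem_inf.2 ⟨?_, hk⟩)
  have := M.mul_mem (M.inv_mem (hZM ha)) hm
  rwa [inv_mul_cancel_left] at this

end

/-- Let G be a finite group and p a prime dividing its order. Every maximal subgroup of G of order divisible by p is nilpotent if and only if G is nilpotent, or G is a minimal non-nilpotent group, or G is the internal direct product of a normal subgroup of order p and a normal minimal non-nilpotent subgroup of order prime to p. -/
theorem result {G : Type*} [Group G] [Finite G] (p : ℕ) (hp : p.Prime) (hpG : p ∣ Nat.card G) :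
    (∀ M : Subgroup G, IsCoatom M → p ∣ Nat.card M → Group.IsNilpotent M) ↔
      (Group.IsNilpotent G ∨ Cfsg.IsMinimalNonNilpotent G ∨
        ∃ Z K : Subgroup G, Z.Normal ∧ K.Normal ∧ Z ⊓ K = ⊥ ∧ Z ⊔ K = ⊤ ∧ Nat.card Z = p ∧
          Cfsg.IsMinimalNonNilpotent K ∧ ¬ p ∣ Nat.card K) := by
  have : Fact p.Prime := ⟨hp⟩
  constructor
  · intro hmax
    by_cases hnil : Group.IsNilpotent G
    · exact Or.inl hnil
    by_cases hmin : Cfsg.IsMinimalNonNilpotent G
    · exact Or.inr (Or.inl hmin)
    right; right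
    have hex : ∃ H : Subgroup G, H ≠ ⊤ ∧ ¬ Group.IsNilpotent H := by
      by_contra hcon
      push Not at hcon
      exact hmin ⟨hnil, hcon⟩
    obtain ⟨K0, hK0, hK0n⟩ := hex
    obtain h | ⟨K, hK, hle⟩ := eq_top_or_exists_le_coatom K0
    · exact absurd h hK0
    exact forward p hpG hmax K hK (fun h => hK0n (nil_of_le hle h))
  · rintro (h | h | ⟨Z, K, hZn, hKn, hinf, hsup, hZ, hK, hpK⟩) M hM hpM
    · infer_instance
    · exact h.2 M hM.1
    · exact backward p Z K hZn hKn hinf hsup hZ hK hpK M hM hpM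

end Cfsg.Agent.S4242
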