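import Cfsg.Statements.S4251
import Cfsg.Agent.Lib.Helper13.Frobenius

set_option autoImplicit false
open Cfsg

namespace Cfsg.Agent.S4251

/-- Let P be a Sylow p-subgroup of a finite group G. Call an intersection H = P ∩ Q with a Sylow p-subgroup Q tame when N_P(H) and N_Q(H) are Sylow p-subgroups of N_G(H). If N_G(H)/C_G(H) is a p-group for every nontrivial tame intersection H = P ∩ Q, then G has a normal p-complement. -/
theorem result {G : Type*} [Group G] [Finite G] (p : ℕ) [Fact p.Prime] (P : Sylow p G)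
    (h : ∀ Q : Sylow p G, (P : Subgroup G) ⊓ (Q : Subgroup G) ≠ ⊥ → (¬ p ∣ ((P : Subgroup G) ⊓ Subgroup.normalizer (((P : Subgroup G) ⊓ (Q : Subgroup G) : Subgroup G) : Set G)).relIndex (Subgroup.normalizer (((P : Subgroup G) ⊓ (Q : Subgroup G) : Subgroup G) : Set G)) ∧ ¬ p ∣ ((Q : Subgroup G) ⊓ Subgroup.normalizer (((P : Subgroup G) ⊓ (Q : Subgroup G) : Subgroup G) : Set G)).relIndex (Subgroup.normalizer (((P : Subgroup G) ⊓ (Q : Subgroup G) : Subgroup G) : Set G))) →
      IsPGroup p (Subgroup.normalizer (((P : Subgroup G) ⊓ (Q : Subgroup G) : Subgroup G) : Set G) ⧸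
        (Subgroup.centralizer (((P : Subgroup G) ⊓ (Q : Subgroup G) : Subgroup G) : Set G)).subgroupOf
          (Subgroup.normalizer (((P : Subgroup G) ⊓ (Q : Subgroup G) : Subgroup G) : Set G)))) :
    Cfsg.HasNormalPComplement p G := by
  open Cfsg.Agent.Lib.Helper13 in
  have hctl : ∀ (A : Subgroup G), A ≤ P → ∀ g : G, cj A g ≤ P →
      ∃ u ∈ (P : Subgroup G), ∀ a ∈ A, g⁻¹ * a * g = u⁻¹ * a * u := by
    intro A hA g hg
    refine (alperin_tame P A hA g hg).control (P : Subgroup G) ?_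
    intro Q x hx
    by_cases hbot : (P : Subgroup G) ⊓ Q = ⊥
    · refine ⟨1, one_mem _, fun a ha => ?_⟩
      rw [hbot, Subgroup.mem_bot] at ha
      subst ha; simp
    · have hq := h Q hbot ⟨hx.2.1, hx.2.2.1⟩
      have hU : ∀ g ∈ Subgroup.normalizer (((P : Subgroup G) ⊓ Q : Subgroup G) : Set G),
          Nat.Coprime (orderOf g) p →
          g ∈ Subgroup.centralizer (((P : Subgroup G) ⊓ Q : Subgroup G) : Set G) := by
        intro g hg hgo
        have := mem_of_coprime_of_isPGroup_quotient hq (g := ⟨g, hg⟩)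
          (by rwa [Subgroup.orderOf_mk])
        exact Subgroup.mem_subgroupOf.1 this
      obtain ⟨u, hu, c, hc, rfl⟩ := frob_normalizer_decomp hU hx.2.1 x hx.1
      refine ⟨u, (Subgroup.mem_inf.mp hu).1, fun a ha => ?_⟩
      have h1 : u⁻¹ * a * u ∈ (P : Subgroup G) ⊓ Q := by
        have := mem_normalizer_iff_cj.mp (Subgroup.mem_inf.mp hu).2
        rw [← this]; exact conj_mem_cj ha
      have h2 := (Subgroup.mem_centralizer_iff.mp hc) _ h1
      calc (u * c)⁻¹ * a * (u * c) = c⁻¹ * (u⁻¹ * a * u * c) := by group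
        _ = c⁻¹ * (c * (u⁻¹ * a * u)) := by rw [h2]
        _ = u⁻¹ * a * u := by group
  open Cfsg.Agent.Lib.Helper13 in
  have hF : FrobCond p (P : Subgroup G) := by
    intro Q hQ g hg hgo
    have hcj : cj Q g = Q := mem_normalizer_iff_cj.mp hg
    obtain ⟨u, hu, hu'⟩ := hctl Q hQ g (by rw [hcj]; exact hQ)
    have hk : ∀ k : ℕ, ∀ a ∈ Q, (g ^ k)⁻¹ * a * g ^ k = (u ^ k)⁻¹ * a * u ^ k ∧
        (g ^ k)⁻¹ * a * g ^ k ∈ Q := by
      intro k
      induction k with
      | zero => intro a ha; simpa using ha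
      | succ k ih =>
        intro a ha
        obtain ⟨h1, h2⟩ := ih a ha
        have h3 : (g ^ (k + 1))⁻¹ * a * g ^ (k + 1) = g⁻¹ * ((g ^ k)⁻¹ * a * g ^ k) * g := by
          rw [pow_succ]; group
        have h4 : (u ^ (k + 1))⁻¹ * a * u ^ (k + 1) = u⁻¹ * ((u ^ k)⁻¹ * a * u ^ k) * u := by
          rw [pow_succ]; group
        constructor
        · rw [h3, h4, hu' _ h2, h1]
        · rw [h3]
          have h5 : g⁻¹ * ((g ^ k)⁻¹ * a * g ^ k) * g ∈ cj Q g := conj_mem_cj h2
          rwa [hcj] at h5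
    obtain ⟨m, hm⟩ := P.2 ⟨u, hu⟩
    have hm' : u ^ p ^ m = 1 := by
      have := congrArg Subtype.val hm
      simpa using this
    have hcen : g ^ p ^ m ∈ Subgroup.centralizer (Q : Set G) := by
      rw [Subgroup.mem_centralizer_iff]
      intro a ha
      have h1 := (hk (p ^ m) a ha).1
      rw [hm'] at h1
      have h2 : (g ^ p ^ m)⁻¹ * a * g ^ p ^ m = a := by simpa using h1
      calc a * g ^ p ^ m = g ^ p ^ m * ((g ^ p ^ m)⁻¹ * a * g ^ p ^ m) := by group
        _ = g ^ p ^ m * a := by rw [h2]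
    obtain ⟨j, hj⟩ := exists_pow_eq_self_of_coprime (x := g) (n := p ^ m)
      (Nat.Coprime.pow_left m hgo.symm)
    rw [← hj]
    exact pow_mem hcen j
  obtain ⟨N, hN, hc⟩ := Cfsg.Agent.Lib.Helper13.frobenius_npc (Nat.card G) G P rfl hF
  exact ⟨P, N, hN, hc⟩

end Cfsg.Agent.S4251
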