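import Cfsg.Statements.S4260
-- import your own Cfsg.Agent.* helpers here

set_option autoImplicit false
open Cfsg

namespace Cfsg.Agent.S4260

/-- Let H be a Hall subgroup of a finite group G (the order of H is coprime to its index) such that x^[G : H] lies in H for every x in G. Then H is normal in G. -/
theorem result {G : Type*} [Group G] [Finite G] (H : Subgroup G) (hHall : (Nat.card H).Coprime H.index)
    (hexp : ∀ x : G, x ^ H.index ∈ H) : H.Normal := by
  constructor
  intro h hh g
  have ho : orderOf (g * h * g⁻¹) = orderOf h := by
    have := (MulAut.conj g).orderOf_eq h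
    simpa [MulAut.conj_apply] using this
  have hd : orderOf (g * h * g⁻¹) ∣ Nat.card H := ho ▸ Subgroup.orderOf_dvd_natCard H hh
  have hc : Nat.Coprime H.index (orderOf (g * h * g⁻¹)) :=
    (Nat.Coprime.coprime_dvd_left hd hHall).symm
  obtain ⟨m, hm⟩ := exists_pow_eq_self_of_coprime hc
  rw [← hm]
  exact H.pow_mem (hexp _) m

end Cfsg.Agent.S4260
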