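import Cfsg.Statements.S4261
import Cfsg.Agent.Lib.Helper22.Basic
import Cfsg.Agent.S0048

set_option autoImplicit false
open Cfsg

namespace Cfsg.Agent.S4261

/-- Let M be a maximal subgroup of a finite solvable group G such that x^[G : M] lies in M for every x in G. Then M is normal in G. -/
theorem result {G : Type*} [Group G] [Finite G] (hG : Group.IsSolvable G) (M : Subgroup G) (hM : IsCoatom M)
    (hexp : ∀ x : G, x ^ M.index ∈ M) : M.Normal := by
  have : Group.IsSolvable G := hG
  obtain ⟨p, a, hp, ha, hpa⟩ := Cfsg.Agent.S0048.result M hM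
  have hp' : p.Prime := hp.nat_prime
  have : Fact p.Prime := ⟨hp'⟩
  have h1 : ∀ x : G, (orderOf x).Coprime p → x ∈ M := by
    intro x hx
    apply Cfsg.Agent.Lib.Helper22.mem_of_pow_mem_of_coprime M x (orderOf x) (p ^ a)
      (Nat.Coprime.pow_right a hx)
    · rw [pow_orderOf_eq_one]; exact M.one_mem
    · rw [hpa]; exact hexp x
  have h2 : ∀ x : G, (orderOf x).Coprime p → x ∈ M.normalCore := by
    intro x hx b
    apply h1
    have : orderOf (b * x * b⁻¹) = orderOf x := by
      have := orderOf_injective (MulAut.conj b).toMonoidHom (MulAut.conj b).injective x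
      simpa using this
    rwa [this]
  have h3 : IsPGroup p (G ⧸ M.normalCore) := by
    intro y
    obtain ⟨g, rfl⟩ := QuotientGroup.mk_surjective y
    obtain ⟨k, m, hm, hkm⟩ :=
      Nat.exists_eq_pow_mul_and_not_dvd (orderOf_pos g).ne' p hp'.ne_one
    refine ⟨k, ?_⟩
    rw [← QuotientGroup.mk_pow, QuotientGroup.eq_one_iff]
    apply h2
    rw [orderOf_pow_of_dvd (pow_ne_zero _ hp'.ne_zero) (hkm ▸ dvd_mul_right _ _), hkm,
      Nat.mul_div_cancel_left _ (pow_pos hp'.pos _)]
    exact (Nat.Coprime.symm ((Nat.Prime.coprime_iff_not_dvd hp').2 hm))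
  have : Group.IsNilpotent (G ⧸ M.normalCore) := h3.isNilpotent
  have hker : (QuotientGroup.mk' M.normalCore).ker ≤ M := by
    rw [QuotientGroup.ker_mk']; exact Subgroup.normalCore_le M
  have hcm : (M.map (QuotientGroup.mk' M.normalCore)).comap (QuotientGroup.mk' M.normalCore) = M :=
    Subgroup.comap_map_eq_self hker
  have hlt : M.map (QuotientGroup.mk' M.normalCore) < ⊤ := by
    rw [lt_top_iff_ne_top]
    intro h
    rw [h, Subgroup.comap_top] at hcm
    exact hM.1 hcm.symm
  have hn := Group.normalizerCondition_of_isNilpotent _ hlt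
  have hn2 : M < Subgroup.normalizer (M : Set G) := by
    have h5 := Subgroup.comap_normalizer_eq_of_surjective
      (M.map (QuotientGroup.mk' M.normalCore)) (QuotientGroup.mk'_surjective M.normalCore)
    rw [hcm] at h5
    refine lt_of_le_of_ne Subgroup.le_normalizer (fun heq => ?_)
    rw [← heq] at h5
    have := Subgroup.comap_injective (QuotientGroup.mk'_surjective _) (h5.trans hcm.symm)
    exact hn.ne this.symm
  exact Subgroup.normalizer_eq_top_iff.1 (hM.2 _ hn2)

end Cfsg.Agent.S4261
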