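import Cfsg.Statements.S4263
import Cfsg.Agent.Lib.Helper23.Fitting

set_option autoImplicit false
open Cfsg

namespace Cfsg.Agent.S4263

/-- Let G be a finite group. An element x lies in the Fitting subgroup F(G) if and only if, for every subgroup H of G, the power x^[G : H] lies in H. -/
theorem result {G : Type*} [Group G] [Finite G] (x : G) :
    x ∈ Cfsg.fittingSubgroup G ↔ ∀ H : Subgroup G, x ^ H.index ∈ H := by
  classical
  constructor
  · intro hx H
    have h1 := Cfsg.Agent.Lib.Helper23.fittingSubgroup_normal' G
    have h2 := Cfsg.Agent.Lib.Helper23.fittingSubgroup_isNilpotent G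
    exact Cfsg.Agent.Lib.Helper23.pow_index_mem_of_normal_isNilpotent (Cfsg.fittingSubgroup G) H hx
  · intro h
    have hn := Cfsg.Agent.Lib.Helper23.fittingSubgroup_normal' G
    rw [← QuotientGroup.eq_one_iff, ← orderOf_eq_one_iff]
    by_contra hne
    obtain ⟨q, hq, hdvd⟩ := Nat.exists_prime_and_dvd hne
    have : Fact q.Prime := ⟨hq⟩
    obtain ⟨Q⟩ : Nonempty (Sylow q G) := inferInstance
    -- the index of any Sylow q-subgroup is the same
    have hidx : ∀ P : Sylow q G, (P : Subgroup G).index = (Q : Subgroup G).index := by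
      intro P
      have h1 := (P : Subgroup G).card_mul_index
      have h2 := (Q : Subgroup G).card_mul_index
      have h3 : Nat.card (P : Subgroup G) = Nat.card (Q : Subgroup G) := Sylow.card_eq_multiplicity P |>.trans (Sylow.card_eq_multiplicity Q).symm
      rw [h3, ← h2] at h1
      exact Nat.eq_of_mul_eq_mul_left Nat.card_pos h1
    have hmem : x ^ (Q : Subgroup G).index ∈ (⨅ P : Sylow q G, (P : Subgroup G)) := by
      rw [Subgroup.mem_iInf]
      intro P
      rw [← hidx P]
      exact h P
    have hnormal : (⨅ P : Sylow q G, (P : Subgroup G)).Normal := by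
      constructor
      intro n hn g
      rw [Subgroup.mem_iInf] at hn ⊢
      intro P
      have h5 := hn (g⁻¹ • P)
      rw [Sylow.coe_subgroup_smul, Subgroup.mem_pointwise_smul_iff_inv_smul_mem] at h5
      simpa [MulAut.smul_def] using h5
    have hp : IsPGroup q (⨅ P : Sylow q G, (P : Subgroup G) : Subgroup G) :=
      Q.2.to_le (iInf_le _ Q)
    have hle := Cfsg.Agent.Lib.Helper23.le_fittingSubgroup hnormal hp.isNilpotent
    have hone : ((x : G ⧸ Cfsg.fittingSubgroup G)) ^ (Q : Subgroup G).index = 1 := by
      rw [← QuotientGroup.mk_pow, QuotientGroup.eq_one_iff]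
      exact hle hmem
    exact Q.not_dvd_index (hdvd.trans (orderOf_dvd_of_pow_eq_one hone))

end Cfsg.Agent.S4263
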