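import Cfsg.Statements.S4269
-- import your own Cfsg.Agent.* helpers here

set_option autoImplicit false
open Cfsg

namespace Cfsg.Agent.S4269

open scoped commutatorElement

theorem mem_cmap {G : Type*} [Group G] {H : Subgroup G} {g y : G} :
    y ∈ H.map (MulAut.conj g).toMonoidHom ↔ g⁻¹ * y * g ∈ H := by
  constructor
  · rintro ⟨a, ha, rfl⟩
    have : g⁻¹ * ((MulAut.conj g).toMonoidHom a) * g = a := by simp [mul_assoc]
    rw [this]; exact ha
  · intro h
    exact ⟨g⁻¹ * y * g, h, by simp [mul_assoc]⟩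

theorem cmap_mul {G : Type*} [Group G] (H : Subgroup G) (a b : G) :
    H.map (MulAut.conj (a * b)).toMonoidHom =
      (H.map (MulAut.conj b).toMonoidHom).map (MulAut.conj a).toMonoidHom := by
  ext y
  rw [mem_cmap, mem_cmap, mem_cmap]
  have : (a * b)⁻¹ * y * (a * b) = b⁻¹ * (a⁻¹ * y * a) * b := by group
  rw [this]

theorem cmap_of_mem_normalizer {G : Type*} [Group G] {H : Subgroup G} {n : G}
    (hn : n ∈ Subgroup.normalizer (H : Set G)) : H.map (MulAut.conj n).toMonoidHom = H := by
  ext y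
  rw [mem_cmap]
  have := Subgroup.mem_normalizer_iff.1 (inv_mem hn) y
  rw [inv_inv] at this
  exact this.symm

theorem cmap_of_mem {G : Type*} [Group G] {H : Subgroup G} {h : G} (hh : h ∈ H) :
    H.map (MulAut.conj h).toMonoidHom = H :=
  cmap_of_mem_normalizer (Subgroup.le_normalizer hh)

theorem mem_normalizer_of_cmap_eq {G : Type*} [Group G] {H : Subgroup G} {u w : G}
    (h : H.map (MulAut.conj u).toMonoidHom = H.map (MulAut.conj w).toMonoidHom) :
    w⁻¹ * u ∈ Subgroup.normalizer (H : Set G) := by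
  rw [Subgroup.mem_normalizer_iff]
  intro y
  have h1 : u * y * u⁻¹ ∈ H.map (MulAut.conj u).toMonoidHom ↔ y ∈ H := by
    rw [mem_cmap]
    have : u⁻¹ * (u * y * u⁻¹) * u = y := by group
    rw [this]
  rw [← h1, h, mem_cmap]
  have : w⁻¹ * (u * y * u⁻¹) * w = w⁻¹ * u * y * (w⁻¹ * u)⁻¹ := by group
  rw [this]

/-- Let G be a finite group, V an abelian normal subgroup and H a subgroup with HV = G. Then H is pronormal in G (H and gHg⁻¹ are conjugate inside the subgroup they generate, for every g) if and only if every H-invariant subgroup U of V satisfies U = N_U(H)·[H, U], that is, U is the join of U ∩ N_G(H) and the commutator subgroup [H, U]. -/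
theorem result {G : Type*} [Group G] [Finite G]
    (V : Subgroup G) [V.Normal] (hV : IsMulCommutative ↥V) (H : Subgroup G) (hHV : H ⊔ V = ⊤) :
    Cfsg.IsPronormal H ↔
      ∀ U : Subgroup G, U ≤ V → (∀ h ∈ H, U.map (MulAut.conj h).toMonoidHom = U) →
        U = (U ⊓ Subgroup.normalizer (H : Set G)) ⊔ ⁅H, U⁆ := by
  have hcomm : ∀ a ∈ V, ∀ b ∈ V, a * b = b * a := by
    intro a ha b hb
    have := hV.is_comm.comm ⟨a, ha⟩ ⟨b, hb⟩
    exact congrArg Subtype.val this
  have hVn : V.Normal := inferInstance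
  constructor
  · intro hpro U hUV hinv
    have hinv' : ∀ h ∈ H, ∀ u ∈ U, h * u * h⁻¹ ∈ U := by
      intro h hh u hu
      have : h * u * h⁻¹ ∈ U.map (MulAut.conj h).toMonoidHom := by
        rw [mem_cmap]
        have : h⁻¹ * (h * u * h⁻¹) * h = u := by group
        rw [this]; exact hu
      rwa [hinv h hh] at this
    have hBU : ⁅H, U⁆ ≤ U := by
      rw [Subgroup.commutator_le]
      intro h hh u hu
      rw [commutatorElement_def]
      exact mul_mem (hinv' h hh u hu) (inv_mem hu)
    have hHB : H ≤ Subgroup.normalizer ((⁅H, U⁆ : Subgroup G) : Set G) := by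
      have key : ∀ k ∈ H, ∀ y ∈ ⁅H, U⁆, k * y * k⁻¹ ∈ ⁅H, U⁆ := by
        intro k hk y hy
        have h1 : (MulAut.conj k).toMonoidHom y ∈ (⁅H, U⁆).map (MulAut.conj k).toMonoidHom :=
          Subgroup.mem_map_of_mem _ hy
        rw [Subgroup.map_commutator, cmap_of_mem hk, hinv k hk] at h1
        simpa using h1
      intro k hk
      rw [Subgroup.mem_normalizer_iff]
      intro y
      constructor
      · exact key k hk y
      · intro hy
        have := key k⁻¹ (inv_mem hk) _ hy
        have e : k⁻¹ * (k * y * k⁻¹) * k⁻¹⁻¹ = y := by group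
        rwa [e] at this
    apply le_antisymm
    · intro u hu
      obtain ⟨x, hx, hxe⟩ := hpro u
      have hle : H ⊔ H.map (MulAut.conj u).toMonoidHom ≤ ⁅H, U⁆ ⊔ H := by
        apply sup_le le_sup_right
        intro y hy
        rw [mem_cmap] at hy
        have e : y = ⁅u, u⁻¹ * y * u⁆ * (u⁻¹ * y * u) := by
          rw [commutatorElement_def]; group
        rw [e]
        apply mul_mem
        · apply (le_sup_left : ⁅H, U⁆ ≤ ⁅H, U⁆ ⊔ H)
          rw [Subgroup.commutator_comm]
          exact Subgroup.commutator_mem_commutator hu hy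
        · exact (le_sup_right : H ≤ ⁅H, U⁆ ⊔ H) hy
      have hx2 : x ∈ ((⁅H, U⁆ ⊔ H : Subgroup G) : Set G) := hle hx
      rw [Subgroup.coe_mul_of_right_le_normalizer_left _ _ hHB] at hx2
      obtain ⟨w, hw, h, hh, rfl⟩ := hx2
      rw [cmap_mul, cmap_of_mem hh] at hxe
      have hn := mem_normalizer_of_cmap_eq hxe
      have e : u = w * (w⁻¹ * u) := by group
      rw [e]
      apply mul_mem
      · exact (le_sup_right : ⁅H, U⁆ ≤ _) hw
      · exact (le_sup_left : U ⊓ Subgroup.normalizer (H : Set G) ≤ _)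
          (Subgroup.mem_inf.2 ⟨mul_mem (inv_mem (hBU hw)) hu, hn⟩)
    · exact sup_le inf_le_left hBU
  · intro hyp g
    have hg : g ∈ ((V ⊔ H : Subgroup G) : Set G) := by
      rw [sup_comm, hHV]; trivial
    rw [Subgroup.normal_mul] at hg
    obtain ⟨v, hv, h, hh, rfl⟩ := hg
    rw [cmap_mul, cmap_of_mem hh]
    set J := H ⊔ H.map (MulAut.conj v).toMonoidHom with hJ
    have hHJ : H ≤ J := le_sup_left
    have hcV : ∀ k : G, ∀ b ∈ V, ⁅k, b⁆ ∈ V := by
      intro k b hb
      rw [commutatorElement_def]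
      exact mul_mem (hVn.conj_mem b hb k) (inv_mem hb)
    let U : Subgroup G :=
      { carrier := {u | u ∈ V ∧ ∀ k ∈ H, ⁅k, u⁆ ∈ J}
        one_mem' := ⟨one_mem _, fun k _ => by simp⟩
        mul_mem' := by
          rintro a b ⟨ha, ha'⟩ ⟨hb, hb'⟩
          refine ⟨mul_mem ha hb, fun k hk => ?_⟩
          have e : ⁅k, a * b⁆ = ⁅k, a⁆ * (a * ⁅k, b⁆ * a⁻¹) := by
            simp only [commutatorElement_def]; group
          rw [e, hcomm a ha _ (hcV k b hb), mul_inv_cancel_right]
          exact mul_mem (ha' k hk) (hb' k hk)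
        inv_mem' := by
          rintro a ⟨ha, ha'⟩
          refine ⟨inv_mem ha, fun k hk => ?_⟩
          have e : ⁅k, a⁻¹⁆ = a⁻¹ * ⁅k, a⁆⁻¹ * a := by
            simp only [commutatorElement_def]; group
          rw [e, hcomm a⁻¹ (inv_mem ha) _ (inv_mem (hcV k a ha)), inv_mul_cancel_right]
          exact inv_mem (ha' k hk) }
    have hUmem : ∀ u, u ∈ U ↔ u ∈ V ∧ ∀ k ∈ H, ⁅k, u⁆ ∈ J := fun _ => Iff.rfl
    have hUV : U ≤ V := fun u hu => hu.1
    have hvU : v ∈ U := by
      refine ⟨hv, fun k hk => ?_⟩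
      have e : ⁅k, v⁆ = k * (v * k⁻¹ * v⁻¹) := by rw [commutatorElement_def]; group
      rw [e]
      apply mul_mem (hHJ hk)
      apply (le_sup_right : H.map (MulAut.conj v).toMonoidHom ≤ J)
      rw [mem_cmap]
      have : v⁻¹ * (v * k⁻¹ * v⁻¹) * v = k⁻¹ := by group
      rw [this]; exact inv_mem hk
    have hUinv' : ∀ k ∈ H, ∀ u ∈ U, k * u * k⁻¹ ∈ U := by
      rintro k hk u ⟨hu, hu'⟩
      refine ⟨hVn.conj_mem u hu k, fun l hl => ?_⟩
      have e : ⁅l, k * u * k⁻¹⁆ = k * ⁅k⁻¹ * l * k, u⁆ * k⁻¹ := by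
        simp only [commutatorElement_def]; group
      rw [e]
      exact mul_mem (mul_mem (hHJ hk) (hu' _ (mul_mem (mul_mem (inv_mem hk) hl) hk)))
        (inv_mem (hHJ hk))
    have hUinv : ∀ k ∈ H, U.map (MulAut.conj k).toMonoidHom = U := by
      intro k hk
      ext y
      rw [mem_cmap]
      constructor
      · intro hy
        have := hUinv' k hk _ hy
        have e : k * (k⁻¹ * y * k) * k⁻¹ = y := by group
        rwa [e] at this
      · intro hy
        have := hUinv' k⁻¹ (inv_mem hk) _ hy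
        rwa [inv_inv] at this
    have hdec := hyp U hUV hUinv
    have hBV : ⁅H, U⁆ ≤ V := by
      rw [Subgroup.commutator_le]
      intro k _ u hu
      exact hcV k u (hUV hu)
    have hBJ : ⁅H, U⁆ ≤ J := by
      rw [Subgroup.commutator_le]
      intro k hk u hu
      exact hu.2 k hk
    have hAB : U ⊓ Subgroup.normalizer (H : Set G) ≤
        Subgroup.normalizer ((⁅H, U⁆ : Subgroup G) : Set G) := by
      intro a ha
      have haV : a ∈ V := hUV ha.1
      rw [Subgroup.mem_normalizer_iff]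
      intro y
      constructor
      · intro hy
        rw [hcomm a haV y (hBV hy), mul_inv_cancel_right]
        exact hy
      · intro hy
        have h1 := hcomm a⁻¹ (inv_mem haV) _ (hBV hy)
        have e : a⁻¹ * (a * y * a⁻¹) = y * a⁻¹ := by group
        rw [e] at h1
        have h2 : y = a * y * a⁻¹ := mul_right_cancel h1
        rw [h2]; exact hy
    have hv2 : v ∈ (((U ⊓ Subgroup.normalizer (H : Set G)) ⊔ ⁅H, U⁆ : Subgroup G) : Set G) := by
      rw [← hdec]; exact hvU
    rw [Subgroup.coe_mul_of_left_le_normalizer_right _ _ hAB] at hv2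
    obtain ⟨n, hn, w, hw, hnw⟩ := hv2
    have hnw' : v = w * n := by
      rw [← hnw]
      exact hcomm n (hUV hn.1) w (hBV hw)
    refine ⟨w, hBJ hw, ?_⟩
    rw [hnw', cmap_mul, cmap_of_mem_normalizer hn.2]

end Cfsg.Agent.S4269
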