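import Cfsg.Statements.S4304
import Mathlib
import Cfsg.Agent.Lib.Helper21.SylowNum

set_option autoImplicit false
open Cfsg
open Cfsg.Agent.Lib.Helper21

namespace Cfsg.Agent.S4304

/-- No finite group has exactly 15 Sylow 7-subgroups. -/
theorem result {G : Type*} [Group G] [Finite G] : Nat.card (Sylow 7 G) ≠ 15 := by
  intro hn
  haveI : Fact (Nat.Prime 7) := ⟨by norm_num⟩
  obtain ⟨S, _, _, hS, hnS, hP⟩ := exists_simple_of_sylow_num (G := G) 7 15 hn
    (by
      intro m hm h7
      have hle : m ≤ 15 := Nat.le_of_dvd (by norm_num) hm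
      interval_cases m <;> omega)
    (by norm_num)
    (not_isPrimePow_of_two_primes (a := 3) (b := 5) (by norm_num) (by norm_num) (by norm_num)
      (by norm_num) (by norm_num))
    (by norm_num)
  obtain ⟨P⟩ : Nonempty (Sylow 7 S) := inferInstance
  obtain ⟨e, he, hc⟩ := sn_card (p := 7) (by rw [hnS]) (by norm_num) P (hP P)
  have hele : e ≤ 6 := Nat.le_of_dvd (by norm_num) he
  have h7 : 7 ∣ Nat.card S := ⟨(1 + 2 * 7) * e, by rw [hc]; ring⟩
  haveI : Fact (Nat.Prime 2) := ⟨by norm_num⟩
  haveI : Fact (Nat.Prime 5) := ⟨by norm_num⟩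
  interval_cases e
  · omega
  · exact sn_kill' (G := S) (p := 7) 5 (by rw [hc]; norm_num) (by rw [hc]; norm_num)
      (by rw [hc]; norm_num) (by norm_num) h7
  · exact sn_kill' (G := S) (p := 7) 2 (by rw [hc]; norm_num) (by rw [hc]; norm_num)
      (by rw [hc]; norm_num) (by norm_num) h7
  · exact sn_kill' (G := S) (p := 7) 5 (by rw [hc]; norm_num) (by rw [hc]; norm_num)
      (by rw [hc]; norm_num) (by norm_num) h7
  · omega
  · omega
  · exact sn_kill' (G := S) (p := 7) 2 (by rw [hc]; norm_num) (by rw [hc]; norm_num)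
      (by rw [hc]; norm_num) (by norm_num) h7

end Cfsg.Agent.S4304
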