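import Cfsg.Statements.S4331
import Mathlib
import Cfsg.Agent.Lib.Helper15.OTQ
import Cfsg.Agent.Lib.Helper4.Subnormal2
import Cfsg.Agent.Lib.Helper1.Fitting

set_option autoImplicit false
open Cfsg

namespace Cfsg.Agent.S4331

open Cfsg.Agent.Lib.Helper15.OTBasic Cfsg.Agent.Lib.Helper15.OTQ

abbrev V9 : Type := ZMod 3 × ZMod 3
abbrev MV9 : Type := Multiplicative V9

/-- multiplication by the primitive element `1 + i` of `𝔽₉ = 𝔽₃[i]` -/
def zAdd : V9 ≃+ V9 where
  toFun v := (v.1 - v.2, v.1 + v.2)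
  invFun v := (2 * (v.1 + v.2), 2 * (v.2 - v.1))
  left_inv := by decide
  right_inv := by decide
  map_add' := by decide

/-- the Frobenius map of `𝔽₉` -/
def fAdd : V9 ≃+ V9 where
  toFun v := (v.1, - v.2)
  invFun v := (v.1, - v.2)
  left_inv := by decide
  right_inv := by decide
  map_add' := by decide

def zM : MulAut MV9 := AddEquiv.toMultiplicative zAdd
def fM : MulAut MV9 := AddEquiv.toMultiplicative fAdd

lemma zM_pow : zM ^ 8 = 1 := by
  apply MulEquiv.ext; decide
lemma fM_pow : fM ^ 2 = 1 := by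
  apply MulEquiv.ext; decide

def u8 : (ZMod 8)ˣ := ⟨3, 3, by decide, by decide⟩
lemma u8_pow : u8 ^ 2 = 1 := by decide

/-- the action of `ℤ/2` on `ℤ/8` -/
def ψ9 : Multiplicative (ZMod 2) →* MulAut (Multiplicative (ZMod 8)) :=
  ((MulAutMultiplicative (ZMod 8)).symm.toMonoidHom.comp
    (DistribMulAction.toAddAut (ZMod 8)ˣ (ZMod 8))).comp (powHom 2 u8 u8_pow)

/-- the semidihedral group of order `16` -/
abbrev SD : Type := Multiplicative (ZMod 8) ⋊[ψ9] Multiplicative (ZMod 2)

instance : Fintype SD := Fintype.ofEquiv _ SemidirectProduct.equivProd.symm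

lemma compat9 (g : Multiplicative (ZMod 2)) :
    (powHom 8 zM zM_pow).comp (ψ9 g).toMonoidHom
      = (MulAut.conj (powHom 2 fM fM_pow g)).toMonoidHom.comp (powHom 8 zM zM_pow) := by
  apply MonoidHom.ext; intro i; apply MulEquiv.ext; intro v
  revert g i v; decide

/-- the action of `SD₁₆` on `𝔽₉` -/
def φ9 : SD →* MulAut MV9 :=
  SemidirectProduct.lift (powHom 8 zM zM_pow) (powHom 2 fM fM_pow) compat9

/-- `AΓL₁(9)` -/
abbrev Q9 : Type := MV9 ⋊[φ9] SD

instance : Fintype Q9 := Fintype.ofEquiv _ SemidirectProduct.equivProd.symm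

instance : Group.IsSolvable SD := isSolvable_semidirect ψ9
instance Q9_isSolvable : Group.IsSolvable Q9 := isSolvable_semidirect φ9

/-- the Frobenius involution -/
def a9 : Q9 := SemidirectProduct.inr (SemidirectProduct.inr (Multiplicative.ofAdd 1))

/-- a vector moved by the Frobenius involution -/
def v9 : Q9 := SemidirectProduct.inl (Multiplicative.ofAdd (0, 1))

lemma a9_sq : a9 ^ 2 = 1 := by decide +kernel
lemma a9_ne : a9 ≠ 1 := by decide +kernel

lemma comm_ne : a9 * v9 * a9⁻¹ * v9⁻¹ ≠ 1 := by decide +kernel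
lemma comm_cube : (a9 * v9 * a9⁻¹ * v9⁻¹) ^ 3 = 1 := by decide +kernel

set_option maxRecDepth 100000 in
lemma key9 : ∀ c : Q9, ∃ x : Q9, (x * c * x⁻¹) * a9 = a9 * (x * c * x⁻¹) ∨ (x * c * x⁻¹).left = 1 := by
  decide +kernel

lemma card_SD : Nat.card SD = 16 := by
  rw [Nat.card_eq_fintype_card]; decide +kernel

/-- There is a finite solvable group G with a subgroup A of order 2 such that every conjugacy class of G contains an element g for which A is subnormal in the subgroup generated by A and g, and yet A is not contained in O_2(G). (So the corresponding criteria for odd primes fail at the prime 2, even for solvable groups.) -/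
theorem result :
    ∃ (G : Type) (_ : Group G) (_ : Finite G) (A : Subgroup G), Group.IsSolvable G ∧ Nat.card A = 2 ∧
      (∀ c : G, ∃ g : G, IsConj c g ∧ (A.subgroupOf (A ⊔ Subgroup.zpowers g)).IsSubnormal) ∧
      ¬ A ≤ Cfsg.pCore 2 G := by
  haveI : Fact (Nat.Prime 2) := ⟨Nat.prime_two⟩
  refine ⟨Q9, inferInstance, inferInstance, Subgroup.zpowers a9, inferInstance, ?_, ?_, ?_⟩
  · rw [Nat.card_zpowers]
    exact orderOf_eq_prime a9_sq a9_ne
  · intro c
    obtain ⟨x, hx⟩ := key9 c
    refine ⟨x * c * x⁻¹, isConj_iff.mpr ⟨x, rfl⟩, ?_⟩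
    set g := x * c * x⁻¹ with hg
    rcases hx with hx | hx
    · -- commuting case
      apply Subgroup.Normal.isSubnormal
      have hK : Subgroup.zpowers a9 ⊔ Subgroup.zpowers g ≤ Subgroup.centralizer (Subgroup.zpowers a9 : Set Q9) := by
        rw [sup_le_iff]
        constructor
        · rw [Subgroup.zpowers_le, Subgroup.mem_centralizer_iff]
          intro h hh
          obtain ⟨k, rfl⟩ := Subgroup.mem_zpowers_iff.mp hh
          exact ((Commute.refl a9).zpow_left k).eq
        · rw [Subgroup.zpowers_le, Subgroup.mem_centralizer_iff]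
          intro h hh
          obtain ⟨k, rfl⟩ := Subgroup.mem_zpowers_iff.mp hh
          have : Commute a9 g := hx.symm
          exact (this.zpow_left k).eq
      constructor
      intro n hn k
      rw [Subgroup.mem_subgroupOf] at hn ⊢
      have h1 := hK k.2
      rw [Subgroup.mem_centralizer_iff] at h1
      have h2 := h1 _ hn
      have : ((k * n * k⁻¹ : ↥(Subgroup.zpowers a9 ⊔ Subgroup.zpowers g)) : Q9) = (n : Q9) := by
        push_cast
        rw [← h2]; group
      rw [this]; exact hn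
    · -- 2-group case
      have hK : Subgroup.zpowers a9 ⊔ Subgroup.zpowers g ≤ (SemidirectProduct.inr : SD →* Q9).range := by
        rw [sup_le_iff]
        constructor
        · rw [Subgroup.zpowers_le]; exact ⟨_, rfl⟩
        · rw [Subgroup.zpowers_le]
          refine ⟨g.right, ?_⟩
          apply SemidirectProduct.ext
          · rw [hx]; simp
          · simp
      have hP : IsPGroup 2 (SemidirectProduct.inr : SD →* Q9).range := by
        apply IsPGroup.of_card (n := 4)
        rw [Nat.card_congr (MonoidHom.ofInjective SemidirectProduct.inr_injective).symm.toEquiv, card_SD]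
        norm_num
      exact Cfsg.Agent.Lib.Helper4.isSubnormal_of_isPGroup 2 (hP.to_le hK) _
  · intro hle
    have ha : a9 ∈ Cfsg.pCore 2 Q9 := hle (Subgroup.mem_zpowers a9)
    have hN : (Cfsg.pCore 2 Q9).Normal := Cfsg.Agent.Lib.Helper1.pCore_normal 2
    have hP : IsPGroup 2 (Cfsg.pCore 2 Q9) := Cfsg.Agent.Lib.Helper1.pCore_isPGroup 2
    have hc : a9 * v9 * a9⁻¹ * v9⁻¹ ∈ Cfsg.pCore 2 Q9 := by
      have h1 : v9 * a9⁻¹ * v9⁻¹ ∈ Cfsg.pCore 2 Q9 := hN.conj_mem _ (Subgroup.inv_mem _ ha) v9
      have h2 := Subgroup.mul_mem _ ha h1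
      have : a9 * (v9 * a9⁻¹ * v9⁻¹) = a9 * v9 * a9⁻¹ * v9⁻¹ := by group
      rwa [this] at h2
    obtain ⟨k, hk⟩ := hP ⟨_, hc⟩
    have hk' : (a9 * v9 * a9⁻¹ * v9⁻¹) ^ 2 ^ k = 1 := by
      have := congrArg Subtype.val hk
      simpa using this
    have h3 := comm_cube
    have hcop : Nat.Coprime (2 ^ k) 3 := by
      apply Nat.Coprime.pow_left; decide
    have : (a9 * v9 * a9⁻¹ * v9⁻¹) ^ Nat.gcd (2 ^ k) 3 = 1 := pow_gcd_eq_one.mpr ⟨hk', h3⟩
    rw [hcop.gcd_eq_one, pow_one] at this
    exact comm_ne this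

end Cfsg.Agent.S4331
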