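import Cfsg.Statements.S4333
import Cfsg.Agent.S0066
import Cfsg.Agent.Lib.Helper17.Core

set_option autoImplicit false
open Pointwise
open Cfsg

namespace Cfsg.Agent.S4333

open Pointwise
open Cfsg.Agent.S0066

universe u

theorem aux : ∀ (n : ℕ) (G : Type u) [Group G] [Finite G], Nat.card G = n → ∀ A : Subgroup G,
    (∀ a ∈ A, ∀ g : G, (A.subgroupOf (A ⊔ MulAut.conj (g⁻¹ * a * g) • A)).IsSubnormal) →
      A.IsSubnormal := by
  intro n
  induction n using Nat.strong_induction_on with
  | _ n ih =>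
  intro G _ _ hn A h
  by_contra hA
  have hconj : ∀ g x : G, ∀ b ∈ MulAut.conj g • A, ((MulAut.conj g • A).subgroupOf
      (MulAut.conj g • A ⊔ MulAut.conj (x⁻¹ * b * x) • MulAut.conj g • A)).IsSubnormal := by
    intro g x b hb
    rw [Cfsg.Agent.Lib.Helper15.mem_conj_smul_iff] at hb
    have h1 := subn_conj g (h _ hb (g⁻¹ * x * g))
    have h2 : MulAut.conj g •
        (A ⊔ MulAut.conj ((g⁻¹ * x * g)⁻¹ * (g⁻¹ * b * g) * (g⁻¹ * x * g)) • A)
        = MulAut.conj g • A ⊔ MulAut.conj (x⁻¹ * b * x) • MulAut.conj g • A := by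
      rw [Subgroup.smul_sup, smul_smul, smul_smul, ← map_mul, ← map_mul]
      congr 3
      group
    rwa [h2] at h1
  have KF : ∀ V : Subgroup G, V ≠ ⊤ → ∀ g : G, MulAut.conj g • A ≤ V →
      ((MulAut.conj g • A).subgroupOf V).IsSubnormal := by
    intro V hV g hgV
    have hcard : Nat.card V < n := by
      rw [← hn, ← Subgroup.card_top (G := G)]
      exact Cfsg.Agent.Lib.Helper1.card_lt_of_lt (lt_top_iff_ne_top.mpr hV)
    apply ih _ hcard V rfl
    intro b hb v
    have h1 := hconj g (v : G) (b : G) hb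
    have e : (v : G)⁻¹ * b * v = ((v⁻¹ * b * v : V) : G) := rfl
    rw [e] at h1
    have hvB : MulAut.conj ((v⁻¹ * b * v : V) : G) • MulAut.conj g • A ≤ V :=
      Subgroup.conj_smul_le_of_le hgV (v⁻¹ * b * v)
    have h2 := subn_sub (sup_le hgV hvB) h1
    rw [Subgroup.subgroupOf_sup hgV hvB, ← Subgroup.conj_smul_subgroupOf hgV (v⁻¹ * b * v)] at h2
    exact h2
  let 𝒰 : Set (Subgroup G) := {U | A ≤ U ∧ U ≠ ⊤}
  let S : Subgroup G → Set (Subgroup G) := fun V =>
    {B | (∃ g : G, B = MulAut.conj g • A) ∧ B ≤ V ∧ (B.subgroupOf V).IsSubnormal}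
  have hAtop : A ≠ ⊤ := fun e => hA (e ▸ Subgroup.IsSubnormal.top)
  have hmemS : ∀ V ∈ 𝒰, ∀ g : G, MulAut.conj g • A ≤ V → MulAut.conj g • A ∈ S V :=
    fun V hV g hg => ⟨⟨g, rfl⟩, hg, KF V hV.2 g hg⟩
  have hAS : ∀ V ∈ 𝒰, A ∈ S V := by
    intro V hV
    have := hmemS V hV 1 (by simpa using hV.1)
    simpa using this
  obtain ⟨M, hM, hMmax⟩ := Cfsg.Agent.S0540.result A 𝒰 ⟨A, le_rfl, hAtop⟩ S (fun V B => Iff.rfl) hAS
    (by
      intro V hV W hW B hB hBV
      obtain ⟨⟨g, rfl⟩, -, -⟩ := hB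
      exact hmemS V hV g hBV)
    (by
      intro V hV W hW
      have hAT : A ≤ sSup (S V ∩ S W) := le_sSup ⟨hAS V hV, hAS W hW⟩
      refine ⟨Subgroup.normalizer ((sSup (S V ∩ S W) : Subgroup G) : Set G), ⟨?_, ?_⟩, le_rfl⟩
      · exact hAT.trans Subgroup.le_normalizer
      · intro htop
        apply hA
        have hTn : (sSup (S V ∩ S W)).Normal := Subgroup.normalizer_eq_top_iff.mp htop
        have hTV : sSup (S V ∩ S W) ≤ V := sSup_le (fun B hB => hB.1.2.1)
        exact Subgroup.IsSubnormal.trans hAT (subn_restrict hTV (hAS V hV).2.2) hTn.isSubnormal)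
  by_cases hex : ∃ a ∈ A, ∃ g : G, A ⊔ MulAut.conj (g⁻¹ * a * g) • A = ⊤
  · obtain ⟨a, ha, g, hg⟩ := hex
    have := h a ha g
    rw [hg] at this
    exact hA (Subgroup.IsSubnormal.trans le_top this Subgroup.IsSubnormal.top)
  · push Not at hex
    have hAM : A ≤ M := hM.1
    have hsnM : (A.subgroupOf M).IsSubnormal := by
      have := KF M hM.2 1 (by simpa using hAM)
      rwa [map_one, one_smul] at this
    have hNM : Subgroup.normalizer (M : Set G) ≤ M := by
      apply hMmax
      refine ⟨hAM.trans Subgroup.le_normalizer, ?_⟩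
      intro htop
      have hMn : M.Normal := Subgroup.normalizer_eq_top_iff.mp htop
      exact hA (Subgroup.IsSubnormal.trans hAM hsnM hMn.isSubnormal)
    have hall : ∀ a ∈ A, ∀ g : G, g⁻¹ * a * g ∈ M := by
      intro a ha g
      have h1 : MulAut.conj (g⁻¹ * a * g) • A ≤ M :=
        le_sup_right.trans (hMmax _ ⟨le_sup_left, hex a ha g⟩)
      generalize g⁻¹ * a * g = x at h1
      have h2 : A ≤ MulAut.conj x⁻¹ • M := by
        rw [← Subgroup.pointwise_smul_le_pointwise_smul_iff (a := MulAut.conj x), smul_smul,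
          ← map_mul, mul_inv_cancel, map_one, one_smul]
        exact h1
      have hc : Nat.card (MulAut.conj x⁻¹ • M : Subgroup G) = Nat.card M :=
        Cfsg.Agent.Lib.Helper17.card_map_conj M x⁻¹
      have h3 : MulAut.conj x⁻¹ • M ≠ ⊤ := by
        intro e
        apply hM.2
        apply Subgroup.eq_top_of_card_eq
        rw [← hc, e, Subgroup.card_top]
      have h4 : MulAut.conj x⁻¹ • M ≤ M := hMmax _ ⟨h2, h3⟩
      have h5 : MulAut.conj x⁻¹ • M = M := Subgroup.eq_of_le_of_card_ge h4 hc.ge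
      have h6 : x⁻¹ ∈ Subgroup.normalizer (M : Set G) :=
        Cfsg.Agent.Lib.Helper17.mem_normalizer_iff_map_conj.2 h5
      have := hNM (inv_mem h6)
      simpa using this
    have hAN : A ≤ M.normalCore := by
      intro a ha b
      have := hall a ha b⁻¹
      simpa using this
    have hNtop : M.normalCore ≠ ⊤ := fun e => hM.2 (top_le_iff.mp (e ▸ M.normalCore_le))
    have := KF M.normalCore hNtop 1 (by simpa using hAN)
    rw [map_one, one_smul] at this
    exact hA (Subgroup.IsSubnormal.trans hAN this (M.normalCore_normal).isSubnormal)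

/-- Let A be a subgroup of a finite group G. If A is subnormal in the subgroup generated by A and its conjugate by g⁻¹ a g, for every a ∈ A and every g ∈ G, then A is subnormal in G. (A sharpening of Wielandt's subnormality criterion: only conjugates of A by conjugates of elements of A are needed.) -/
theorem result {G : Type*} [Group G] [Finite G]
    (A : Subgroup G)
    (h : ∀ a ∈ A, ∀ g : G, (A.subgroupOf (A ⊔ MulAut.conj (g⁻¹ * a * g) • A)).IsSubnormal) :
    A.IsSubnormal := by
  exact aux _ G rfl A h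

end Cfsg.Agent.S4333
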