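import Cfsg.Statements.S4334
import Mathlib
import Cfsg.Agent.S0071
import Cfsg.Agent.S0132
import Cfsg.Agent.S0536
import Cfsg.Agent.Lib.Helper2.GrpNil
import Cfsg.Agent.Lib.Helper5.Card

set_option autoImplicit false
open Cfsg

namespace Cfsg.Agent.S4334

open scoped Pointwise

/-- Sylow-conjugation step. -/
lemma stepA {G : Type*} [Group G] [Finite G] (H K L R : Subgroup G) (r : ℕ) [Fact r.Prime]
    (hLn : ∀ k ∈ K, ∀ l ∈ L, k * l * k⁻¹ ∈ L)
    (hRK : R ≤ K) (hK : ∀ k ∈ K, ∃ l ∈ L, ∃ y ∈ R, k = l * y) (hR : IsPGroup r R)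
    (g₀ : G) (hg₀ : ∀ l ∈ L, g₀ * l * g₀⁻¹ ∈ H)
    (S : Sylow r G) (hSH : (S : Subgroup G) ≤ H)
    (hSc : ∀ s ∈ (S : Subgroup G), ∀ l ∈ L, s * (g₀ * l * g₀⁻¹) = (g₀ * l * g₀⁻¹) * s) :
    ∃ g : G, ∀ k ∈ K, g * k * g⁻¹ ∈ H := by
  classical
  set N := Subgroup.normalizer (L : Set G) with hN
  let S' : Sylow r G := g₀⁻¹ • S
  have hS'mem : ∀ x, x ∈ (S' : Subgroup G) ↔ g₀ * x * g₀⁻¹ ∈ (S : Subgroup G) := by
    intro x
    show x ∈ MulAut.conj g₀⁻¹ • (S : Subgroup G) ↔ _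
    rw [Subgroup.mem_pointwise_smul_iff_inv_smul_mem]
    simp [MulAut.smul_def, MulAut.conj_apply]
  have hS'N : (S' : Subgroup G) ≤ N := by
    intro x hx
    apply Subgroup.centralizer_le_normalizer
    rw [Subgroup.mem_centralizer_iff]
    intro l hl
    have h1 := hSc _ ((hS'mem x).1 hx) l hl
    have h2 : g₀ * (x * l) * g₀⁻¹ = g₀ * (l * x) * g₀⁻¹ := by
      calc g₀ * (x * l) * g₀⁻¹ = (g₀ * x * g₀⁻¹) * (g₀ * l * g₀⁻¹) := by group
        _ = (g₀ * l * g₀⁻¹) * (g₀ * x * g₀⁻¹) := h1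
        _ = g₀ * (l * x) * g₀⁻¹ := by group
    have h3 : x * l = l * x := mul_left_cancel (mul_right_cancel h2)
    exact h3.symm
  have hKN : K ≤ N := by
    intro k hk
    rw [hN, Subgroup.mem_normalizer_iff]
    intro l
    constructor
    · exact hLn k hk l
    · intro h
      have := hLn k⁻¹ (K.inv_mem hk) _ h
      have h2 : k⁻¹ * (k * l * k⁻¹) * k⁻¹⁻¹ = l := by group
      rwa [h2] at this
  have hRN : R ≤ N := hRK.trans hKN
  have hR' : IsPGroup r (R.subgroupOf N) := hR.comap_subtype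
  obtain ⟨T, hT⟩ := hR'.exists_le_sylow
  obtain ⟨n, hn⟩ := MulAction.exists_smul_eq N T (S'.subtype hS'N)
  refine ⟨g₀ * n, ?_⟩
  intro k hk
  obtain ⟨l, hl, y, hy, rfl⟩ := hK k hk
  have hy1 : (⟨y, hRN hy⟩ : N) ∈ (T : Subgroup N) := hT (by rw [Subgroup.mem_subgroupOf]; exact hy)
  have hy2 : MulAut.conj n • (⟨y, hRN hy⟩ : N) ∈ MulAut.conj n • (T : Subgroup N) :=
    Subgroup.smul_mem_pointwise_smul _ _ _ hy1
  have hy3 : MulAut.conj n • (⟨y, hRN hy⟩ : N) ∈ ((S'.subtype hS'N : Sylow r N) : Subgroup N) := by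
    rw [← hn]
    exact hy2
  rw [Sylow.coe_subtype, Subgroup.mem_subgroupOf] at hy3
  have hy4 : (n : G) * y * (n : G)⁻¹ ∈ (S' : Subgroup G) := by
    simpa [MulAut.smul_def] using hy3
  have hy5 := hSH ((hS'mem _).1 hy4)
  have hl1 : (n : G) * l * (n : G)⁻¹ ∈ L := (Subgroup.mem_normalizer_iff.1 n.2 l).1 hl
  have hl2 := hg₀ _ hl1
  have h5 := H.mul_mem hl2 hy5
  have e : g₀ * (↑n * l * (↑n : G)⁻¹) * g₀⁻¹ * (g₀ * (↑n * y * (↑n : G)⁻¹) * g₀⁻¹)
      = g₀ * ↑n * (l * y) * (g₀ * ↑n)⁻¹ := by group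
  rwa [e] at h5

section
variable {G : Type*} [Group G] [Finite G] (σ τ : Set ℕ) (hd : Disjoint σ τ) (H Hs Ht : Subgroup G)
  (hs : Cfsg.IsPiSubgroup σ Hs) (ht : Cfsg.IsPiSubgroup τ Ht) (hsn : Group.IsNilpotent Hs)
  (hjoin : Hs ⊔ Ht = H) (hcomm : ∀ a ∈ Hs, ∀ b ∈ Ht, a * b = b * a)

include hcomm in
lemma hs_le_normalizer : Hs ≤ Subgroup.normalizer (Ht : Set G) := by
  apply Cfsg.Agent.Lib.Helper5.le_normalizer_of_le_centralizer
  intro a ha
  rw [Subgroup.mem_centralizer_iff]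
  intro b hb
  exact (hcomm a ha b hb).symm

include hjoin hcomm in
lemma decomp (h : G) (hh : h ∈ H) : ∃ a ∈ Hs, ∃ b ∈ Ht, h = a * b := by
  have hset := Subgroup.coe_mul_of_left_le_normalizer_right Hs Ht (hs_le_normalizer Hs Ht hcomm)
  rw [hjoin] at hset
  have h1 : h ∈ (H : Set G) := hh
  rw [hset, Set.mem_mul] at h1
  obtain ⟨a, ha, b, hb, hab⟩ := h1
  exact ⟨a, ha, b, hb, hab.symm⟩

include hd hs ht in
lemma inter_trivial (z : G) (h1 : z ∈ Hs) (h2 : z ∈ Ht) : z = 1 := by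
  by_contra hz
  have ho : orderOf z ≠ 1 := fun h => hz (orderOf_eq_one_iff.1 h)
  obtain ⟨q, hq, hqz⟩ := Nat.exists_prime_and_dvd ho
  have h3 : orderOf z ∣ Nat.card Hs := by
    have := orderOf_dvd_natCard (⟨z, h1⟩ : Hs)
    rwa [Subgroup.orderOf_mk] at this
  have h4 : orderOf z ∣ Nat.card Ht := by
    have := orderOf_dvd_natCard (⟨z, h2⟩ : Ht)
    rwa [Subgroup.orderOf_mk] at this
  exact Set.disjoint_left.1 hd (hs q hq (hqz.trans h3)) (ht q hq (hqz.trans h4))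

include hd hs ht hcomm in
lemma pow_split (a b : G) (ha : a ∈ Hs) (hb : b ∈ Ht) (m : ℕ) (h : (a * b) ^ m = 1) :
    a ^ m = 1 ∧ b ^ m = 1 := by
  have hc : Commute a b := hcomm a ha b hb
  rw [hc.mul_pow] at h
  have h1 : a ^ m = (b ^ m)⁻¹ := eq_inv_of_mul_eq_one_left h
  have h2 : a ^ m = 1 := by
    apply inter_trivial σ τ hd Hs Ht hs ht _ (Hs.pow_mem ha m)
    rw [h1]
    exact Ht.inv_mem (Ht.pow_mem hb m)
  refine ⟨h2, ?_⟩
  rw [h2, one_mul] at h
  exact h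

include hd hs ht hsn hjoin hcomm in
lemma comm_in_H (p : ℕ) (hp : p.Prime) (hpσ : p ∈ σ) (x y : G) (hx : x ∈ H) (hy : y ∈ H)
    (hxp : ∃ k : ℕ, x ^ p ^ k = 1) (hyp : (orderOf y).Coprime p) : x * y = y * x := by
  obtain ⟨a, ha, b, hb, rfl⟩ := decomp H Hs Ht hjoin hcomm x hx
  obtain ⟨c, hc, d, hd', rfl⟩ := decomp H Hs Ht hjoin hcomm y hy
  obtain ⟨k, hk⟩ := hxp
  obtain ⟨hak, hbk⟩ := pow_split σ τ hd Hs Ht hs ht hcomm a b ha hb _ hk
  have hb1 : b = 1 := by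
    by_contra hb1
    have ho : orderOf b ≠ 1 := fun h => hb1 (orderOf_eq_one_iff.1 h)
    obtain ⟨j, -, hj⟩ := (Nat.dvd_prime_pow hp).1 (orderOf_dvd_of_pow_eq_one hbk)
    have hj0 : j ≠ 0 := by
      rintro rfl
      exact ho (by rw [hj, pow_zero])
    have h1 : p ∣ orderOf b := by
      rw [hj]
      exact dvd_pow_self p hj0
    have h4 : orderOf b ∣ Nat.card Ht := by
      have := orderOf_dvd_natCard (⟨b, hb⟩ : Ht)
      rwa [Subgroup.orderOf_mk] at this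
    exact Set.disjoint_left.1 hd hpσ (ht p hp (h1.trans h4))
  subst hb1
  rw [mul_one]
  obtain ⟨hcm, -⟩ := pow_split σ τ hd Hs Ht hs ht hcomm c d hc hd' _ (pow_orderOf_eq_one (c * d))
  have hco : (orderOf c).Coprime p :=
    Nat.Coprime.coprime_dvd_left (orderOf_dvd_of_pow_eq_one hcm) hyp
  have hac : (orderOf a).Coprime (orderOf c) :=
    Nat.Coprime.coprime_dvd_left (orderOf_dvd_of_pow_eq_one hak) (Nat.Coprime.pow_left k hco.symm)
  have h5 : Commute (⟨a, ha⟩ : Hs) ⟨c, hc⟩ := by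
    apply Cfsg.Agent.Lib.Helper2.commute_of_coprime_of_isNilpotent
    rw [Subgroup.orderOf_mk, Subgroup.orderOf_mk]
    exact hac
  have h6 : a * c = c * a := congrArg Subtype.val h5
  have h7 : a * d = d * a := hcomm a ha d hd'
  calc a * (c * d) = (a * c) * d := by group
    _ = c * (a * d) := by rw [h6]; group
    _ = c * d * a := by rw [h7]; group

include hd hs ht hsn hjoin hcomm in
lemma comm_conj (p : ℕ) (hp : p.Prime) (hpσ : p ∈ σ) (g x y : G) (hx : g * x * g⁻¹ ∈ H)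
    (hy : g * y * g⁻¹ ∈ H)
    (hxp : ∃ k : ℕ, x ^ p ^ k = 1) (hyp : (orderOf y).Coprime p) : x * y = y * x := by
  have h1 := comm_in_H σ τ hd H Hs Ht hs ht hsn hjoin hcomm p hp hpσ _ _ hx hy
    (by
      obtain ⟨k, hk⟩ := hxp
      exact ⟨k, by rw [conj_pow, hk, mul_one, mul_inv_cancel]⟩)
    (by
      have : orderOf (g * y * g⁻¹) = orderOf y := (MulAut.conj g).orderOf_eq y
      rw [this]
      exact hyp)
  have h2 : g * (x * y) * g⁻¹ = g * (y * x) * g⁻¹ := by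
    calc g * (x * y) * g⁻¹ = (g * x * g⁻¹) * (g * y * g⁻¹) := by group
      _ = (g * y * g⁻¹) * (g * x * g⁻¹) := h1
      _ = g * (y * x) * g⁻¹ := by group
  exact mul_left_cancel (mul_right_cancel h2)

end

lemma exists_sylow_le {G : Type*} [Group G] [Finite G] (π : Set ℕ) (H : Subgroup G)
    (hH : Cfsg.IsPiHall π H) (r : ℕ) [hr' : Fact r.Prime] (hr : r ∈ π) :
    ∃ S : Sylow r G, (S : Subgroup G) ≤ H := by
  let S₀ : Sylow r H := default
  have h1 : IsPGroup r ((S₀ : Subgroup H).map H.subtype) := S₀.2.map _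
  have h2 : ¬ r ∣ ((S₀ : Subgroup H).map H.subtype).index := by
    rw [Subgroup.index_map_subtype]
    intro h
    rcases (Nat.Prime.dvd_mul hr'.out).1 h with h | h
    · exact S₀.not_dvd_index h
    · exact hH.2 r hr'.out hr h
  refine ⟨h1.toSylow h2, ?_⟩
  rw [IsPGroup.toSylow_coe]
  exact Subgroup.map_subtype_le _

lemma struct {K : Type*} [Group K] [Finite K] (p : ℕ) [hp : Fact p.Prime] (hpK : p ∣ Nat.card K)
    (h2 : ∀ X : Subgroup K, X ≠ ⊤ → Cfsg.HasNormalPComplement p X) :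
    ∃ (N R : Subgroup K) (r : ℕ), r.Prime ∧ r ∣ Nat.card K ∧ N.Normal ∧ N ≠ ⊤ ∧
      (∀ k : K, ∃ a ∈ N, ∃ b ∈ R, k = a * b) ∧ IsPGroup r R ∧
      ((r = p ∧ (Nat.card N).Coprime p) ∨ (r ≠ p ∧ IsPGroup p N)) := by
  by_cases hnp : Cfsg.HasNormalPComplement p K
  · obtain ⟨P, N, hN, hc⟩ := hnp
    have hcard := hc.card_mul_card
    have hNi : Nat.card N = (P : Subgroup K).index := by
      have h2 := (P : Subgroup K).card_mul_index
      have hpos : 0 < Nat.card (P : Subgroup K) := Nat.card_pos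
      have h3 : Nat.card (P : Subgroup K) * Nat.card N
          = Nat.card (P : Subgroup K) * (P : Subgroup K).index := by
        rw [h2, mul_comm, hcard]
      exact Nat.eq_of_mul_eq_mul_left hpos h3
    have hNcop : (Nat.card N).Coprime p := by
      rw [hNi]
      exact ((Nat.Prime.coprime_iff_not_dvd hp.out).2 P.not_dvd_index).symm
    refine ⟨N, P, p, hp.out, hpK, hN, ?_, ?_, P.2, Or.inl ⟨rfl, hNcop⟩⟩
    · rintro rfl
      rw [Subgroup.card_top] at hNcop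
      exact (Nat.Prime.coprime_iff_not_dvd hp.out).1 hNcop.symm hpK
    · intro k
      obtain ⟨⟨a, b⟩, hab⟩ := hc.2 k
      exact ⟨a.1, a.2, b.1, b.2, hab.symm⟩
  · obtain ⟨hnil, hnn, -⟩ := Cfsg.Agent.S0132.result hnp h2
    obtain ⟨p₁, q₁, hp₁, hq₁, hpq, P₁, Q₁, -, hQn, hsup⟩ :=
      Cfsg.Agent.S0536.result (G := K) ⟨hnn, hnil⟩
    haveI : Fact p₁.Prime := ⟨hp₁⟩
    haveI : Fact q₁.Prime := ⟨hq₁⟩
    have hQtop : (Q₁ : Subgroup K) ≠ ⊤ := by
      intro h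
      apply hnn
      have h1 : IsPGroup q₁ K := by
        intro k
        obtain ⟨j, hj⟩ := Q₁.2 ⟨k, by rw [h]; exact Subgroup.mem_top k⟩
        exact ⟨j, congrArg Subtype.val hj⟩
      exact h1.isNilpotent
    have hPbot : (P₁ : Subgroup K) ≠ ⊥ := by
      intro h
      rw [h, bot_sup_eq] at hsup
      exact hQtop hsup
    obtain ⟨a, ha⟩ := IsPGroup.iff_card.1 P₁.2
    obtain ⟨b, hb⟩ := IsPGroup.iff_card.1 Q₁.2
    have ha0 : a ≠ 0 := by
      rintro rfl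
      rw [pow_zero] at ha
      exact hPbot ((Subgroup.card_eq_one).1 ha)
    have hp₁K : p₁ ∣ Nat.card K := by
      have h1 : p₁ ∣ Nat.card (P₁ : Subgroup K) := by
        rw [ha]
        exact dvd_pow_self _ ha0
      exact h1.trans (Subgroup.card_subgroup_dvd_card _)
    have hdvd : Nat.card K ∣ p₁ ^ a * q₁ ^ b := by
      have h1 := Cfsg.Agent.Lib.Helper5.card_sup_mul_card_inf (P₁ : Subgroup K) (Q₁ : Subgroup K)
        Subgroup.le_normalizer_of_normal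
      rw [hsup, Subgroup.card_top, ha, hb] at h1
      exact ⟨_, h1.symm⟩
    refine ⟨Q₁, P₁, p₁, hp₁, hp₁K, hQn, hQtop, ?_, P₁.2, ?_⟩
    · intro k
      have h1 := Subgroup.normal_mul (Q₁ : Subgroup K) (P₁ : Subgroup K)
      rw [sup_comm, hsup] at h1
      have h3 : k ∈ ((⊤ : Subgroup K) : Set K) := Subgroup.mem_top k
      rw [h1, Set.mem_mul] at h3
      obtain ⟨x, hx, y, hy, hxy⟩ := h3
      exact ⟨x, hx, y, hy, hxy.symm⟩
    · rcases (Nat.Prime.dvd_mul hp.out).1 (hpK.trans hdvd) with h | h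
      · have h1 : p = p₁ := (Nat.prime_dvd_prime_iff_eq hp.out hp₁).1 (hp.out.dvd_of_dvd_pow h)
        left
        refine ⟨h1.symm, ?_⟩
        rw [hb, h1]
        exact Nat.Coprime.pow_left _ ((Nat.coprime_primes hq₁ hp₁).2 hpq.symm)
      · have h1 : p = q₁ := (Nat.prime_dvd_prime_iff_eq hp.out hq₁).1 (hp.out.dvd_of_dvd_pow h)
        right
        refine ⟨?_, ?_⟩
        · rw [h1]
          exact hpq
        · rw [h1]
          exact Q₁.2

theorem main {G : Type*} [Group G] [Finite G]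
    (σ τ π : Set ℕ) (hπ : π = σ ∪ τ) (hd : Disjoint σ τ) (H Hs Ht : Subgroup G)
    (hH : Cfsg.IsPiHall π H)
    (hs : Cfsg.IsPiSubgroup σ Hs) (ht : Cfsg.IsPiSubgroup τ Ht) (hsn : Group.IsNilpotent Hs)
    (hjoin : Hs ⊔ Ht = H) (hcomm : ∀ a ∈ Hs, ∀ b ∈ Ht, a * b = b * a) (hD : Cfsg.IsDPiGroup τ G) :
    ∀ n : ℕ, ∀ K : Subgroup G, Nat.card K = n → Cfsg.IsPiSubgroup π K →
      ∃ g : G, ∀ k ∈ K, g * k * g⁻¹ ∈ H := by
  intro n
  induction n using Nat.strong_induction_on with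
  | _ n ih =>
  intro K hKn hKπ
  by_cases hσ : ∃ p, p.Prime ∧ p ∈ σ ∧ p ∣ Nat.card K
  swap
  · -- `K` is a `τ`-subgroup
    have hKτ : Cfsg.IsPiSubgroup τ K := by
      intro q hq hqK
      have h1 := hKπ q hq hqK
      rw [hπ] at h1
      rcases h1 with h | h
      · exact absurd ⟨q, hq, h, hqK⟩ hσ
      · exact h
    obtain ⟨K', hKK', hK'max⟩ := Finite.exists_le_maximal (p := Cfsg.IsPiSubgroup τ) hKτ
    have hHtH : Ht ≤ H := hjoin ▸ le_sup_right
    have hHtmax : Maximal (Cfsg.IsPiSubgroup τ) Ht := by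
      refine ⟨ht, fun X hX hle => ?_⟩
      rw [← Subgroup.relIndex_eq_one]
      by_contra hne
      obtain ⟨q, hq, hqd⟩ := Nat.exists_prime_and_dvd hne
      have hqτ : q ∈ τ := hX q hq (hqd.trans (Subgroup.relIndex_dvd_card _ _))
      have h1 : Ht.relIndex X ∣ Ht.index := ⟨_, (Subgroup.relIndex_mul_index hle).symm⟩
      have h2 : Ht.index = Ht.relIndex H * H.index := (Subgroup.relIndex_mul_index hHtH).symm
      have h3 : Ht.relIndex H ∣ Nat.card Hs := by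
        have h4 := Cfsg.Agent.Lib.Helper5.card_sup_mul_card_inf Hs Ht (hs_le_normalizer Hs Ht hcomm)
        rw [hjoin] at h4
        have h5 := Cfsg.Agent.Lib.Helper5.card_mul_relIndex hHtH
        rw [← h5] at h4
        have hpos : 0 < Nat.card Ht := Nat.card_pos
        have h6 : Nat.card Ht * (Ht.relIndex H * Nat.card ↥(Hs ⊓ Ht)) = Nat.card Ht * Nat.card Hs := by
          rw [← mul_assoc, h4, mul_comm]
        exact ⟨_, (Nat.eq_of_mul_eq_mul_left hpos h6).symm⟩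
      have h7 : q ∣ Ht.relIndex H * H.index := h2 ▸ (hqd.trans h1)
      rcases (Nat.Prime.dvd_mul hq).1 h7 with h | h
      · exact Set.disjoint_left.1 hd (hs q hq (h.trans h3)) hqτ
      · exact hH.2 q hq (hπ ▸ Or.inr hqτ) h
    obtain ⟨g, hg⟩ := hD Ht K' hHtmax hK'max
    refine ⟨g⁻¹, fun k hk => ?_⟩
    have h1 : k ∈ K' := hKK' hk
    rw [hg] at h1
    obtain ⟨h, hh, rfl⟩ := h1
    have h2 : g⁻¹ * ((MulAut.conj g).toMonoidHom h) * g⁻¹⁻¹ = h := by
      simp [MulAut.conj_apply, mul_assoc]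
    rw [h2]
    exact hHtH hh
  obtain ⟨p, hp, hpσ, hpK⟩ := hσ
  haveI : Fact p.Prime := ⟨hp⟩
  have ih' : ∀ X : Subgroup G, X ≤ K → X ≠ K → ∃ g : G, ∀ x ∈ X, g * x * g⁻¹ ∈ H := by
    intro X hXK hne
    have hlt : Nat.card X < n := by
      by_contra hge
      push Not at hge
      rw [← hKn] at hge
      exact hne (Subgroup.eq_of_le_of_card_ge hXK hge)
    exact ih _ hlt X rfl (fun q hq hqX => hKπ q hq (hqX.trans (Subgroup.card_dvd_of_le hXK)))
  have h2 : ∀ X : Subgroup K, X ≠ ⊤ → Cfsg.HasNormalPComplement p X := by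
    intro X hX
    have hX1 : X.map K.subtype ≤ K := Subgroup.map_subtype_le _
    have hX2 : X.map K.subtype ≠ K := by
      intro h
      apply hX
      rw [eq_top_iff]
      intro k _
      have h1 : (k : G) ∈ X.map K.subtype := by rw [h]; exact k.2
      obtain ⟨k', hk', hkk⟩ := h1
      have : k' = k := Subtype.ext hkk
      rwa [← this]
    obtain ⟨g₁, hg₁⟩ := ih' _ hX1 hX2
    let P : Sylow p X := default
    refine ⟨P, (Cfsg.Agent.S0071.result P).2 ?_⟩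
    intro Q hQP g _ hgp
    rw [Subgroup.mem_centralizer_iff]
    intro u hu
    apply Subtype.ext
    apply Subtype.ext
    show ((u : K) : G) * ((g : K) : G) = ((g : K) : G) * ((u : K) : G)
    apply comm_conj σ τ hd H Hs Ht hs ht hsn hjoin hcomm p hp hpσ g₁
    · exact hg₁ _ ⟨u.1, u.2, rfl⟩
    · exact hg₁ _ ⟨g.1, g.2, rfl⟩
    · obtain ⟨k, hk⟩ := P.2 ⟨u, hQP hu⟩
      refine ⟨k, ?_⟩
      have h1 : u ^ p ^ k = 1 := congrArg Subtype.val hk
      have h3 : ((u ^ p ^ k : X) : K) = 1 := by rw [h1]; rfl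
      have h4 : (((u ^ p ^ k : X) : K) : G) = 1 := by rw [h3]; rfl
      simpa using h4
    · rw [Subgroup.orderOf_coe, Subgroup.orderOf_coe]
      exact hgp
  obtain ⟨N, R, r, hr, hrK, hNn, hNtop, hfac, hRr, hcase⟩ := struct p hpK h2
  haveI : Fact r.Prime := ⟨hr⟩
  have hrπ : r ∈ π := hKπ r hr hrK
  have hL1 : N.map K.subtype ≤ K := Subgroup.map_subtype_le _
  have hL2 : N.map K.subtype ≠ K := by
    intro h
    apply hNtop
    rw [eq_top_iff]
    intro k _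
    have h1 : (k : G) ∈ N.map K.subtype := by rw [h]; exact k.2
    obtain ⟨k', hk', hkk⟩ := h1
    have : k' = k := Subtype.ext hkk
    rwa [← this]
  obtain ⟨g₀, hg₀⟩ := ih' _ hL1 hL2
  obtain ⟨S, hS⟩ := exists_sylow_le π H hH r hrπ
  apply stepA H K (N.map K.subtype) (R.map K.subtype) r ?_ (Subgroup.map_subtype_le _) ?_
    (hRr.map _) g₀ hg₀ S hS ?_
  · rintro k hk _ ⟨l, hl, rfl⟩
    exact ⟨⟨k, hk⟩ * l * ⟨k, hk⟩⁻¹, hNn.conj_mem l hl _, rfl⟩
  · intro k hk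
    obtain ⟨a, ha, b, hb, hab⟩ := hfac ⟨k, hk⟩
    exact ⟨a, ⟨a, ha, rfl⟩, b, ⟨b, hb, rfl⟩, congrArg Subtype.val hab⟩
  · rintro s hs' _ ⟨l, hl, rfl⟩
    have hlH := hg₀ _ ⟨l, hl, rfl⟩
    have hsH := hS hs'
    rcases hcase with ⟨hrp, hcop⟩ | ⟨hrp, hNp⟩
    · subst hrp
      apply comm_in_H σ τ hd H Hs Ht hs ht hsn hjoin hcomm r hp hpσ _ _ hsH hlH
      · obtain ⟨k, hk⟩ := S.2 ⟨s, hs'⟩
        exact ⟨k, congrArg Subtype.val hk⟩
      · have h1 : orderOf (g₀ * (K.subtype l) * g₀⁻¹) = orderOf (K.subtype l) :=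
          (MulAut.conj g₀).orderOf_eq _
        rw [h1]
        have h3 : orderOf (K.subtype l) = orderOf l := Subgroup.orderOf_coe l
        rw [h3]
        have h4 : orderOf l ∣ Nat.card N := by
          have := orderOf_dvd_natCard (⟨l, hl⟩ : N)
          rwa [Subgroup.orderOf_mk] at this
        exact Nat.Coprime.coprime_dvd_left h4 hcop
    · symm
      apply comm_in_H σ τ hd H Hs Ht hs ht hsn hjoin hcomm p hp hpσ _ _ hlH hsH
      · obtain ⟨k, hk⟩ := hNp ⟨l, hl⟩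
        refine ⟨k, ?_⟩
        have h1 : l ^ p ^ k = 1 := congrArg Subtype.val hk
        have h3 : (K.subtype l) ^ p ^ k = 1 := by
          rw [← map_pow, h1, map_one]
        rw [conj_pow, h3, mul_one, mul_inv_cancel]
      · obtain ⟨k, hk⟩ := IsPGroup.iff_orderOf.1 S.2 ⟨s, hs'⟩
        rw [Subgroup.orderOf_mk] at hk
        rw [hk]
        exact Nat.Coprime.pow_left _ ((Nat.coprime_primes hr hp).2 hrp)


/-- Let σ and τ be disjoint sets of primes with union π. Suppose a finite group G has a Hall π-subgroup H which is the direct product of a nilpotent σ-subgroup and a τ-subgroup (two elementwise-commuting subgroups generating H), and that the maximal τ-subgroups of G are pairwise conjugate. Then the maximal π-subgroups of G are pairwise conjugate. -/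
theorem result {G : Type*} [Group G] [Finite G]
    (σ τ π : Set ℕ) (hπ : π = σ ∪ τ) (hd : Disjoint σ τ) (H Hs Ht : Subgroup G) (hH : Cfsg.IsPiHall π H)
    (hs : Cfsg.IsPiSubgroup σ Hs) (ht : Cfsg.IsPiSubgroup τ Ht) (hsn : Group.IsNilpotent Hs)
    (hjoin : Hs ⊔ Ht = H) (hcomm : ∀ a ∈ Hs, ∀ b ∈ Ht, a * b = b * a) (hD : Cfsg.IsDPiGroup τ G) :
    Cfsg.IsDPiGroup π G := by
  have key := main σ τ π hπ hd H Hs Ht hH hs ht hsn hjoin hcomm hD
  have hmax : ∀ A : Subgroup G, Maximal (Cfsg.IsPiSubgroup π) A →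
      ∃ g : G, A = H.map (MulAut.conj g).toMonoidHom := by
    intro A hA
    obtain ⟨g, hg⟩ := key _ A rfl hA.1
    refine ⟨g⁻¹, ?_⟩
    have hY : Cfsg.IsPiSubgroup π (H.map (MulAut.conj g⁻¹).toMonoidHom) := by
      intro q hq hqd
      rw [Subgroup.card_map_of_injective (MulAut.conj g⁻¹).injective] at hqd
      exact hH.1 q hq hqd
    have hle : A ≤ H.map (MulAut.conj g⁻¹).toMonoidHom := by
      intro x hx
      refine ⟨g * x * g⁻¹, hg x hx, ?_⟩
      simp [MulAut.conj_apply, mul_assoc]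
    exact le_antisymm hle (hA.2 hY hle)
  intro A B hA hB
  obtain ⟨a, ha⟩ := hmax A hA
  obtain ⟨b, hb⟩ := hmax B hB
  refine ⟨b * a⁻¹, ?_⟩
  rw [ha, hb, Subgroup.map_map]
  congr 1
  ext x
  simp [MulAut.conj_apply, mul_assoc]

end Cfsg.Agent.S4334
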