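import Cfsg.Statements.S4337
import Cfsg.Agent.Lib.Helper23.PermSmall

set_option autoImplicit false
open Cfsg

namespace Cfsg.Agent.S4337

open Equiv Equiv.Perm

theorem card_union_lt {α : Type*} [DecidableEq α] (X Y : Finset α) (h : ¬ Disjoint X Y) :
    (X ∪ Y).card + 1 ≤ X.card + Y.card := by
  have h1 := Finset.card_union_add_card_inter X Y
  have h2 : 0 < (X ∩ Y).card := by
    rw [Finset.card_pos]
    rw [Finset.not_disjoint_iff] at h
    obtain ⟨x, hx, hy⟩ := h
    exact ⟨x, Finset.mem_inter.2 ⟨hx, hy⟩⟩
  omega

theorem central (n : ℕ) (a b c : Perm (Fin n)) (ha : a.support.card = 2)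
    (hb : b.support.card = 2) (hc : c.support.card = 2)
    (hd : Disjoint a.support (b.support ∪ c.support)) :
    Group.IsSolvable (Subgroup.closure ({a, b, c} : Set (Perm (Fin n)))) := by
  have hab : Commute a b := by
    apply Equiv.Perm.Disjoint.commute
    rw [disjoint_iff_disjoint_support]
    exact hd.mono_right Finset.subset_union_left
  have hac : Commute a c := by
    apply Equiv.Perm.Disjoint.commute
    rw [disjoint_iff_disjoint_support]
    exact hd.mono_right Finset.subset_union_right
  have hA : Group.IsSolvable (Subgroup.closure ({a} : Set (Perm (Fin n)))) := by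
    apply Cfsg.Agent.Lib.Helper23.solvable_closure_of_support a.support (by omega)
    intro σ hσ
    rw [Set.mem_singleton_iff] at hσ
    rw [hσ]
  have hK : Group.IsSolvable (Subgroup.closure ({b, c} : Set (Perm (Fin n)))) := by
    apply Cfsg.Agent.Lib.Helper23.solvable_closure_of_support (b.support ∪ c.support)
    · have := Finset.card_union_le b.support c.support
      omega
    · intro σ hσ
      rcases hσ with rfl | hσ
      · exact Finset.subset_union_left
      · rw [Set.mem_singleton_iff] at hσ
        rw [hσ]
        exact Finset.subset_union_right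
  have h1 : ∀ k ∈ Subgroup.closure ({b, c} : Set (Perm (Fin n))), Commute a k := by
    have : Subgroup.closure ({b, c} : Set (Perm (Fin n))) ≤ Subgroup.centralizer {a} := by
      rw [Subgroup.closure_le]
      intro σ hσ
      rw [SetLike.mem_coe, Subgroup.mem_centralizer_singleton_iff]
      rcases hσ with rfl | hσ
      · exact hab.symm
      · rw [Set.mem_singleton_iff] at hσ
        rw [hσ]
        exact hac.symm
    intro k hk
    exact (Subgroup.mem_centralizer_singleton_iff.1 (this hk)).symm
  have h2 : ∀ x ∈ Subgroup.closure ({a} : Set (Perm (Fin n))),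
      ∀ k ∈ Subgroup.closure ({b, c} : Set (Perm (Fin n))), Commute x k := by
    intro x hx k hk
    have : Subgroup.closure ({a} : Set (Perm (Fin n))) ≤ Subgroup.centralizer {k} := by
      rw [Subgroup.closure_le]
      intro σ hσ
      rw [Set.mem_singleton_iff] at hσ
      rw [SetLike.mem_coe, Subgroup.mem_centralizer_singleton_iff, hσ]
      exact h1 k hk
    exact Subgroup.mem_centralizer_singleton_iff.1 (this hx)
  have h3 := Cfsg.Agent.Lib.Helper23.solvable_sup_of_commute _ _ hA hK h2
  apply Cfsg.Agent.Lib.Helper23.isSolvable_of_le' _ h3
  rw [Subgroup.closure_le]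
  intro σ hσ
  rcases hσ with rfl | hσ
  · exact (le_sup_left : Subgroup.closure ({σ} : Set (Perm (Fin n))) ≤ _)
      (Subgroup.subset_closure rfl)
  · exact (le_sup_right : Subgroup.closure ({b, c} : Set (Perm (Fin n))) ≤ _)
      (Subgroup.subset_closure hσ)

/-- In a finite symmetric group, any three transpositions generate a solvable subgroup. -/
theorem result (n : ℕ) (a b c : Equiv.Perm (Fin n))
    (ha : a.IsSwap) (hb : b.IsSwap) (hc : c.IsSwap) :
    Group.IsSolvable (Subgroup.closure ({a, b, c} : Set (Equiv.Perm (Fin n)))) := by
  classical
  have hcard : ∀ s : Equiv.Perm (Fin n), s.IsSwap → s.support.card = 2 := by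
    intro s hs
    obtain ⟨x, y, hxy, rfl⟩ := hs
    exact card_support_swap hxy
  have ha' := hcard a ha
  have hb' := hcard b hb
  have hc' := hcard c hc
  by_cases h1 : Disjoint a.support (b.support ∪ c.support)
  · exact central n a b c ha' hb' hc' h1
  by_cases h2 : Disjoint b.support (a.support ∪ c.support)
  · have := central n b a c hb' ha' hc' h2
    rwa [Set.insert_comm] at this
  by_cases h3 : Disjoint c.support (a.support ∪ b.support)
  · have := central n c a b hc' ha' hb' h3
    have e : ({c, a, b} : Set (Equiv.Perm (Fin n))) = {a, b, c} := by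
      ext x
      simp only [Set.mem_insert_iff, Set.mem_singleton_iff]
      tauto
    rwa [e] at this
  apply Cfsg.Agent.Lib.Helper23.solvable_closure_of_support
    (a.support ∪ b.support ∪ c.support)
  · by_cases hab : Disjoint a.support b.support
    · have hac : ¬ Disjoint a.support c.support := by
        intro h
        exact h1 (Finset.disjoint_union_right.2 ⟨hab, h⟩)
      have e1 := card_union_lt _ _ hac
      have e2 := card_union_lt _ _ h2
      have e3 : a.support ∪ b.support ∪ c.support = b.support ∪ (a.support ∪ c.support) := by
        ext x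
        simp only [Finset.mem_union]
        tauto
      rw [e3]
      omega
    · have e1 := card_union_lt _ _ hab
      have e2 := card_union_lt _ _ h3
      rw [Finset.union_comm] at e2
      omega
  · intro σ hσ
    rcases hσ with rfl | rfl | hσ
    · exact Finset.subset_union_left.trans Finset.subset_union_left
    · exact Finset.subset_union_right.trans Finset.subset_union_left
    · rw [Set.mem_singleton_iff] at hσ
      rw [hσ]
      exact Finset.subset_union_right

end Cfsg.Agent.S4337
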