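import Cfsg.Statements.S4344
-- import your own Cfsg.Agent.* helpers here

set_option autoImplicit false
open Cfsg

namespace Cfsg.Agent.S4344

/-- Let S be a finite non-abelian simple group, M a maximal subgroup of S and C a cyclic normal subgroup of M. If a Sylow p-subgroup P of S (for a prime p dividing the order of S) is contained in C, then the number of Sylow p-subgroups of S equals the index of M. -/
theorem result {S : Type*} [Group S] [Finite S]
    [IsSimpleGroup S] (hS : ¬ IsMulCommutative S) (p : ℕ) [Fact p.Prime] (hp : p ∣ Nat.card S)
    (M : Subgroup S) (hM : IsCoatom M) (C : Subgroup S) (hCM : C ≤ M) (hCn : (C.subgroupOf M).Normal)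
    (hC : IsCyclic C) (P : Sylow p S) (hP : (P : Subgroup S) ≤ C) :
    Nat.card (Sylow p S) = M.index := by
  open scoped Pointwise in
  have hMN : M ≤ Subgroup.normalizer ((P : Subgroup S) : Set S) := by
    intro m hm
    rw [P.coe_coe, ← Sylow.smul_eq_iff_mem_normalizer]
    have hmC : m ∈ Subgroup.normalizer (C : Set S) :=
      (Subgroup.normal_subgroupOf_iff_le_normalizer hCM).mp hCn hm
    have h2 : ((m • P : Sylow p S) : Subgroup S) ≤ C := by
      rw [Sylow.coe_subgroup_smul]
      intro x hx
      rw [Subgroup.mem_pointwise_smul_iff_inv_smul_mem] at hx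
      have h3 := hP hx
      have h4 := (Subgroup.mem_normalizer_iff.mp hmC _).mp h3
      simpa [MulAut.smul_def, mul_assoc] using h4
    obtain ⟨c, hc⟩ := MulAction.exists_smul_eq C (P.subtype hP) ((m • P).subtype h2)
    rw [Sylow.smul_subtype] at hc
    have h5 : (c : S) • P = m • P := Sylow.subtype_injective hc
    rw [← h5, Sylow.smul_eq_iff_mem_normalizer, ← P.coe_coe]
    apply Subgroup.centralizer_le_normalizer
    rw [Subgroup.mem_centralizer_iff]
    intro x hx
    have hcomm : IsMulCommutative C := inferInstance
    have := hcomm.is_comm.comm ⟨x, hP hx⟩ c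
    simpa using congrArg Subtype.val this
  have hne : Subgroup.normalizer ((P : Subgroup S) : Set S) ≠ ⊤ := by
    intro htop
    have hPn : (P : Subgroup S).Normal := Subgroup.normalizer_eq_top_iff.mp htop
    rcases hPn.eq_bot_or_eq_top with hb | ht
    · exact P.ne_bot_of_dvd_card hp hb
    · apply hS
      have hpg : IsPGroup p S := by
        have := P.2
        rw [ht] at this
        exact IsPGroup.of_equiv this Subgroup.topEquiv
      have hnt : Nontrivial (Subgroup.center S) := hpg.center_nontrivial
      have hcn : (Subgroup.center S).Normal := inferInstance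
      rcases hcn.eq_bot_or_eq_top with hb | ht'
      · exfalso
        rw [Subgroup.nontrivial_iff_ne_bot] at hnt
        exact hnt hb
      · constructor; constructor
        intro a b
        have : a ∈ Subgroup.center S := ht' ▸ Subgroup.mem_top a
        exact (Subgroup.mem_center_iff.mp this b).symm
  have heq : Subgroup.normalizer ((P : Subgroup S) : Set S) = M := by
    rcases eq_or_lt_of_le hMN with h | h
    · exact h.symm
    · exact absurd (hM.2 _ h) hne
  rw [Sylow.card_eq_index_normalizer P, ← P.coe_coe, heq]

end Cfsg.Agent.S4344
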