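import Cfsg.Statements.S4345
import Cfsg.Agent.Lib.Helper23.SylNum2
import Cfsg.Agent.Lib.Helper1.Basic
import Cfsg.Agent.S4341

set_option autoImplicit false
open Cfsg

namespace Cfsg.Agent.S4345

universe u

theorem part_mul {p ℓ a b : ℕ} (ha0 : a ≠ 0) (hb0 : b ≠ 0)
    (ha : ℓ ^ a.factorization ℓ ≡ 1 [MOD p]) (hb : ℓ ^ b.factorization ℓ ≡ 1 [MOD p]) :
    ℓ ^ (a * b).factorization ℓ ≡ 1 [MOD p] := by
  rw [Nat.factorization_mul ha0 hb0, Finsupp.add_apply, pow_add]
  exact ha.mul hb

theorem key (p ℓ : ℕ) [hp : Fact p.Prime] (hℓ : ℓ.Prime) : ∀ (n : ℕ) (G : Type u) [Group G]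
    [Finite G], Nat.card G = n → Group.IsSolvable G →
    ℓ ^ (Nat.card (Sylow p G)).factorization ℓ ≡ 1 [MOD p] := by
  intro n
  induction n using Nat.strong_induction_on with
  | _ n ih =>
    intro G _ _ hn hsol
    by_cases hnt : Nontrivial G
    · obtain ⟨q, hq, K, hKc, hKq, hKne, -⟩ :=
        Cfsg.Agent.Lib.Helper1.exists_char_pSubgroup_of_solvable G
      have hKn : K.Normal := inferInstance
      obtain ⟨P⟩ : Nonempty (Sylow p G) := inferInstance
      by_cases htop : (P : Subgroup G) ⊔ K = ⊤
      · have h1 : Subgroup.normalizer ((P : Subgroup G) : Set G) ⊔ K = ⊤ := by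
          rw [eq_top_iff, ← htop]
          exact sup_le_sup_right Subgroup.le_normalizer K
        have h2 := Cfsg.Agent.Lib.Helper23.card_sylow_eq_relIndex_of_sup_eq_top K P h1
        have h3 : Nat.card (Sylow p G) ∣ Nat.card K := by
          rw [h2]
          exact Subgroup.index_dvd_card _
        have hqf : Fact q.Prime := ⟨hq⟩
        obtain ⟨m, hm⟩ := hKq.exists_card_eq
        rw [hm] at h3
        obtain ⟨j, -, hj⟩ := (Nat.dvd_prime_pow hq).1 h3
        by_cases hℓq : ℓ = q
        · subst hℓq
          rw [hj, Nat.Prime.factorization_pow hq, Finsupp.single_eq_same, ← hj]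
          exact card_sylow_modEq_one p G
        · rw [hj, Nat.Prime.factorization_pow hq, Finsupp.single_eq_of_ne hℓq, pow_zero]
      · set N := ((P : Subgroup G) ⊔ K) ⊓
          Subgroup.normalizer (((P : Subgroup G) ⊓ K : Subgroup G) : Set G) with hN
        have hPN : (P : Subgroup G) ⊓ K ≤ N := by
          exact le_inf (inf_le_left.trans le_sup_left) Subgroup.le_normalizer
        have hnorm : (((P : Subgroup G) ⊓ K).subgroupOf N).Normal :=
          (Subgroup.normal_subgroupOf_iff_le_normalizer hPN).2 inf_le_right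
        have hform := Cfsg.Agent.S4341.result p K P N hN
        have hlt : ∀ X : Subgroup G, X ≤ (P : Subgroup G) ⊔ K → Nat.card X < n := by
          intro X hX
          rw [← hn]
          have h1 : Nat.card X ≤ Nat.card ((P : Subgroup G) ⊔ K : Subgroup G) :=
            Subgroup.card_le_of_le hX
          have h2 : Nat.card ((P : Subgroup G) ⊔ K : Subgroup G) < Nat.card G := by
            refine lt_of_le_of_ne (Subgroup.card_le_card_group _) ?_
            intro h
            exact htop (Subgroup.eq_top_of_card_eq _ h)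
          omega
        have ha : ℓ ^ (Nat.card (Sylow p (G ⧸ K))).factorization ℓ ≡ 1 [MOD p] := by
          apply ih (Nat.card (G ⧸ K)) _ (G ⧸ K) rfl inferInstance
          rw [← hn, ← Subgroup.card_mul_index K]
          have h1 : 1 < Nat.card K := by
            rw [Subgroup.one_lt_card_iff_ne_bot]; exact hKne
          have h2 : 0 < K.index := Nat.pos_of_ne_zero Subgroup.index_ne_zero_of_finite
          show K.index < _
          nlinarith
        have hb : ℓ ^ (Nat.card (Sylow p K)).factorization ℓ ≡ 1 [MOD p] :=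
          ih (Nat.card K) (hlt K le_sup_right) K rfl inferInstance
        have hc : ℓ ^ (Nat.card (Sylow p (N ⧸ ((P : Subgroup G) ⊓ K).subgroupOf N))).factorization ℓ
            ≡ 1 [MOD p] := by
          apply ih _ _ (N ⧸ ((P : Subgroup G) ⊓ K).subgroupOf N) rfl inferInstance
          refine lt_of_le_of_lt ?_ (hlt N inf_le_left)
          exact Nat.card_le_card_of_surjective _ (QuotientGroup.mk'_surjective _)
        rw [hform]
        exact part_mul (mul_ne_zero Nat.card_pos.ne' Nat.card_pos.ne') Nat.card_pos.ne'
          (part_mul Nat.card_pos.ne' Nat.card_pos.ne' ha hb) hc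
    · rw [not_nontrivial_iff_subsingleton] at hnt
      have : Nat.card (Sylow p G) = 1 := by
        rw [Nat.card_eq_one_iff_unique]
        refine ⟨⟨fun A B => ?_⟩, inferInstance⟩
        apply Sylow.ext
        ext x
        rw [Subsingleton.elim x 1]
        simp
      rw [this]
      simp [Nat.ModEq]

/-- Let G be a finite solvable group and p, ℓ primes. Then the largest power of ℓ dividing the number of Sylow p-subgroups of G is congruent to 1 modulo p. -/
theorem result {G : Type*} [Group G] [Finite G]
    (hG : Group.IsSolvable G) (p ℓ : ℕ) [Fact p.Prime] (hℓ : ℓ.Prime) :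
    ℓ ^ (Nat.card (Sylow p G)).factorization ℓ ≡ 1 [MOD p] := by
  exact key p ℓ hℓ _ G rfl hG

end Cfsg.Agent.S4345
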