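import Cfsg.Statements.S4354
import Mathlib
import Cfsg.Agent.Lib.Helper21.KPi2

set_option autoImplicit false
open Cfsg
open Cfsg.Agent.Lib.Helper21

namespace Cfsg.Agent.S4354

lemma relIndex_dvd_index_of_normal' {G : Type*} [Group G] [Finite G] (C N : Subgroup G) [N.Normal] :
    C.relIndex N ∣ C.index := by
  have h1 : C.relIndex N * N.index = (C ⊓ N).index := by
    rw [← Subgroup.inf_relIndex_right, Subgroup.relIndex_mul_index inf_le_right]
  have h2 : N.relIndex C * C.index = (C ⊓ N).index := by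
    rw [← Subgroup.inf_relIndex_left, Subgroup.relIndex_mul_index inf_le_left]
  obtain ⟨t, ht⟩ := Subgroup.relIndex_dvd_index_of_normal N C
  have h0 : 0 < N.relIndex C := Nat.pos_of_ne_zero (by
    intro h
    rw [h, zero_mul] at ht
    exact Subgroup.index_ne_zero_of_finite ht)
  refine ⟨t, ?_⟩
  apply Nat.eq_of_mul_eq_mul_left h0
  rw [h2, ← h1, ht]
  ring

/-- inheritance of the class size condition by normal subgroups -/
lemma inherit_normal {G : Type*} [Group G] [Finite G] (p : ℕ)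
    (h : ∀ x : G, (∃ k : ℕ, orderOf x = p ^ k) → ¬ p ∣ (Subgroup.centralizer ({x} : Set G)).index)
    (N : Subgroup G) [N.Normal] :
    ∀ x : N, (∃ k : ℕ, orderOf x = p ^ k) → ¬ p ∣ (Subgroup.centralizer ({x} : Set N)).index := by
  intro x hx hd
  have h1 : Subgroup.centralizer ({x} : Set N) = (Subgroup.centralizer ({(x : G)} : Set G)).subgroupOf N := by
    ext y
    rw [Subgroup.mem_subgroupOf, Subgroup.mem_centralizer_singleton_iff,
      Subgroup.mem_centralizer_singleton_iff, Subtype.ext_iff]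
    rfl
  rw [h1] at hd
  apply h (x : G) (by rwa [Subgroup.orderOf_coe])
  exact hd.trans (relIndex_dvd_index_of_normal' _ N)

/-- inheritance by quotients -/
lemma inherit_quotient {G : Type*} [Group G] [Finite G] (p : ℕ) [Fact p.Prime]
    (h : ∀ x : G, (∃ k : ℕ, orderOf x = p ^ k) → ¬ p ∣ (Subgroup.centralizer ({x} : Set G)).index)
    (N : Subgroup G) [N.Normal] :
    ∀ x : G ⧸ N, (∃ k : ℕ, orderOf x = p ^ k) →
      ¬ p ∣ (Subgroup.centralizer ({x} : Set (G ⧸ N))).index := by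
  have hp : p.Prime := Fact.out
  intro x hx hd
  obtain ⟨g, rfl⟩ := QuotientGroup.mk_surjective x
  obtain ⟨u, v, huv, hcomm, ⟨k, hu⟩, hv1, hv2⟩ := exists_r_decomp p hp g
  obtain ⟨j, hj⟩ := hx
  -- the image of v is trivial
  have hv : (QuotientGroup.mk' N) v = 1 := by
    have e1 : (QuotientGroup.mk' N) v = ((QuotientGroup.mk' N) u)⁻¹ * (QuotientGroup.mk' N) g := by
      rw [← huv, map_mul, inv_mul_cancel_left]
    have c1 : Commute ((QuotientGroup.mk' N) u)⁻¹ ((QuotientGroup.mk' N) g) := by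
      apply Commute.inv_left
      rw [← huv, map_mul]
      exact (Commute.refl _).mul_right (hcomm.map (QuotientGroup.mk' N))
    have d1 : orderOf ((QuotientGroup.mk' N) v) ∣ p ^ k * p ^ j := by
      rw [e1]
      refine c1.orderOf_mul_dvd_mul_orderOf.trans (Nat.mul_dvd_mul ?_ ?_)
      · rw [orderOf_inv, ← hu]
        exact orderOf_map_dvd _ u
      · exact dvd_of_eq hj
    have d2 : orderOf ((QuotientGroup.mk' N) v) ∣ orderOf v := orderOf_map_dvd _ v
    have hcop : Nat.Coprime (p ^ k * p ^ j) (orderOf v) := by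
      rw [← pow_add]
      exact Nat.Coprime.pow_left _ ((Nat.Prime.coprime_iff_not_dvd hp).2 hv2)
    exact orderOf_eq_one_iff.1 (Nat.eq_one_of_dvd_coprimes hcop d1 d2)
  have hgu : (QuotientGroup.mk g : G ⧸ N) = (QuotientGroup.mk' N) u := by
    change (QuotientGroup.mk' N) g = _
    rw [← huv, map_mul, hv, mul_one]
  rw [hgu] at hd
  apply h u ⟨k, hu⟩
  have hle : (Subgroup.centralizer ({u} : Set G)).map (QuotientGroup.mk' N) ≤
      Subgroup.centralizer ({(QuotientGroup.mk' N) u} : Set (G ⧸ N)) := by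
    rintro _ ⟨y, hy, rfl⟩
    rw [SetLike.mem_coe, Subgroup.mem_centralizer_singleton_iff] at hy
    rw [Subgroup.mem_centralizer_singleton_iff, ← map_mul, ← map_mul, hy]
  exact (hd.trans (Subgroup.index_dvd_of_le hle)).trans
    (Subgroup.index_map_dvd _ (QuotientGroup.mk'_surjective N))

/-- key step -/
lemma exists_central {G : Type*} [Group G] [Finite G] (p : ℕ) [Fact p.Prime]
    (h : ∀ x : G, (∃ k : ℕ, orderOf x = p ^ k) → ¬ p ∣ (Subgroup.centralizer ({x} : Set G)).index)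
    (N : Subgroup G) [N.Normal] (hQ : ∀ Q : Sylow p (G ⧸ N), IsMulCommutative Q)
    (P : Sylow p G) (x : G) (hx : x ∈ (P : Subgroup G)) :
    ∃ z ∈ (P : Subgroup G), (∀ y ∈ (P : Subgroup G), z * y = y * z) ∧ z⁻¹ * x ∈ N := by
  have hp : p.Prime := Fact.out
  have hxp := isPElt_of_mem P x hx
  set H := Subgroup.centralizer ({x} : Set G) with hH
  set K := (Subgroup.centralizer ({(QuotientGroup.mk' N) x} : Set (G ⧸ N))).comap (QuotientGroup.mk' N)
    with hK
  have hHK : H ≤ K := by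
    intro y hy
    rw [hH, Subgroup.mem_centralizer_singleton_iff] at hy
    rw [hK, Subgroup.mem_comap, Subgroup.mem_centralizer_singleton_iff, ← map_mul, ← map_mul, hy]
  have hPK : (P : Subgroup G) ≤ K := by
    intro y hy
    rw [hK, Subgroup.mem_comap, Subgroup.mem_centralizer_singleton_iff]
    have hc := hQ (Sylow.mapSurjective (QuotientGroup.mk'_surjective N) P)
    have m1 : (QuotientGroup.mk' N) y ∈ Sylow.mapSurjective (QuotientGroup.mk'_surjective N) P := by
      change _ ∈ ((Sylow.mapSurjective (QuotientGroup.mk'_surjective N) P : Sylow p (G ⧸ N)) :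
        Subgroup (G ⧸ N))
      rw [Sylow.coe_mapSurjective]
      exact ⟨y, hy, rfl⟩
    have m2 : (QuotientGroup.mk' N) x ∈ Sylow.mapSurjective (QuotientGroup.mk'_surjective N) P := by
      change _ ∈ ((Sylow.mapSurjective (QuotientGroup.mk'_surjective N) P : Sylow p (G ⧸ N)) :
        Subgroup (G ⧸ N))
      rw [Sylow.coe_mapSurjective]
      exact ⟨x, hx, rfl⟩
    exact congrArg Subtype.val (hc.is_comm.comm ⟨_, m1⟩ ⟨_, m2⟩)
  have hnd : ¬ p ∣ Nat.card (K ⧸ H.subgroupOf K) := by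
    intro hd
    exact h x hxp (hd.trans (Subgroup.relIndex_dvd_index_of_le hHK))
  have hPg : IsPGroup p ((P : Subgroup G).subgroupOf K) := P.2.comap_subtype
  obtain ⟨q, hq⟩ := hPg.nonempty_fixed_point_of_prime_not_dvd_card (K ⧸ H.subgroupOf K) hnd
  obtain ⟨w, rfl⟩ := QuotientGroup.mk_surjective q
  have hw : ∀ u ∈ (P : Subgroup G), (w : G)⁻¹ * u * w ∈ H := by
    intro u hu
    have h1 := hq ⟨⟨u⁻¹, hPK (Subgroup.inv_mem _ hu)⟩, by
      rw [Subgroup.mem_subgroupOf]; exact Subgroup.inv_mem _ hu⟩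
    have h2 : ((⟨u⁻¹, hPK (Subgroup.inv_mem _ hu)⟩ * w : K) : K ⧸ H.subgroupOf K) = (w : K ⧸ H.subgroupOf K) := h1
    rw [QuotientGroup.eq, Subgroup.mem_subgroupOf] at h2
    have h3 : (((⟨u⁻¹, hPK (Subgroup.inv_mem _ hu)⟩ * w : K)⁻¹ * w : K) : G) = (w : G)⁻¹ * u * w := by
      simp [mul_assoc]
    rwa [h3] at h2
  set z := (w : G) * x * (w : G)⁻¹ with hz
  have hzc : ∀ y ∈ (P : Subgroup G), z * y = y * z := by
    intro y hy
    have h1 := hw y hy
    rw [hH, Subgroup.mem_centralizer_singleton_iff] at h1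
    calc z * y = (w : G) * (x * ((w : G)⁻¹ * y * w)) * (w : G)⁻¹ := by rw [hz]; group
      _ = (w : G) * (((w : G)⁻¹ * y * w) * x) * (w : G)⁻¹ := by rw [h1]
      _ = y * z := by rw [hz]; group
  have hzP : z ∈ (P : Subgroup G) := by
    have hzp : IsPGroup p (Subgroup.zpowers z) := by
      obtain ⟨k, hk⟩ := hxp
      apply IsPGroup.of_card (n := k)
      rw [Nat.card_zpowers, hz, orderOf_conj_eq, hk]
    have h1 := hzp.inf_normalizer_sylow P
    have hzn : z ∈ Subgroup.normalizer ((P : Subgroup G) : Set G) := by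
      rw [Subgroup.mem_normalizer_iff]
      intro y
      constructor
      · intro hy
        rw [hzc y hy, mul_inv_cancel_right]
        exact hy
      · intro hy
        have h3 := hzc _ hy
        have h4 : y = z * y * z⁻¹ := by
          have : z * (z * y * z⁻¹) = z * y := by rw [h3]; group
          exact (mul_left_cancel this).symm
        rw [h4]; exact hy
    have h2 : z ∈ Subgroup.zpowers z ⊓ (P : Subgroup G) := by
      rw [← h1]; exact Subgroup.mem_inf.2 ⟨Subgroup.mem_zpowers z, hzn⟩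
    exact h2.2
  refine ⟨z, hzP, hzc, ?_⟩
  have hwK : (QuotientGroup.mk' N) (w : G) ∈
      Subgroup.centralizer ({(QuotientGroup.mk' N) x} : Set (G ⧸ N)) := w.2
  rw [Subgroup.mem_centralizer_singleton_iff] at hwK
  rw [← QuotientGroup.ker_mk' N, MonoidHom.mem_ker, hz]
  simp only [map_mul, map_inv]
  rw [hwK]
  group

lemma sylow_comm {G : Type*} [Group G] [Finite G] (p : ℕ) [Fact p.Prime]
    (h : ∀ x : G, (∃ k : ℕ, orderOf x = p ^ k) → ¬ p ∣ (Subgroup.centralizer ({x} : Set G)).index)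
    (N : Subgroup G) [N.Normal] (hN : ∀ Q : Sylow p N, IsMulCommutative Q)
    (hQ : ∀ Q : Sylow p (G ⧸ N), IsMulCommutative Q) (P : Sylow p G) : IsMulCommutative P := by
  have hPN : IsPGroup p ((P : Subgroup G).subgroupOf N) := P.2.comap_subtype
  obtain ⟨R, hR⟩ := hPN.exists_le_sylow
  have hRc := hN R
  have hcomm : ∀ a ∈ (P : Subgroup G), ∀ b ∈ (P : Subgroup G), a ∈ N → b ∈ N → a * b = b * a := by
    intro a ha b hb haN hbN
    have m1 : (⟨a, haN⟩ : N) ∈ R := hR (by rw [Subgroup.mem_subgroupOf]; exact ha)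
    have m2 : (⟨b, hbN⟩ : N) ∈ R := hR (by rw [Subgroup.mem_subgroupOf]; exact hb)
    have := congrArg Subtype.val (hRc.is_comm.comm ⟨_, m1⟩ ⟨_, m2⟩)
    exact congrArg Subtype.val this
  constructor
  constructor
  rintro ⟨a, ha⟩ ⟨b, hb⟩
  apply Subtype.ext
  change a * b = b * a
  obtain ⟨z, hz, hzc, hzN⟩ := exists_central p h N hQ P a ha
  obtain ⟨z', hz', hzc', hzN'⟩ := exists_central p h N hQ P b hb
  have hq : z⁻¹ * a ∈ (P : Subgroup G) := Subgroup.mul_mem _ (Subgroup.inv_mem _ hz) ha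
  have hq' : z'⁻¹ * b ∈ (P : Subgroup G) := Subgroup.mul_mem _ (Subgroup.inv_mem _ hz') hb
  have e := hcomm _ hq _ hq' hzN hzN'
  have e1 := hzc b hb
  have e2 := hzc' a ha
  have e3 := hzc z' hz'
  -- a = z q, b = z' q'
  calc a * b = z * ((z⁻¹ * a) * (z' * (z'⁻¹ * b))) := by group
    _ = z * (((z⁻¹ * a) * z') * (z'⁻¹ * b)) := by group
    _ = z * ((z' * (z⁻¹ * a)) * (z'⁻¹ * b)) := by rw [hzc' _ hq]
    _ = z * z' * ((z⁻¹ * a) * (z'⁻¹ * b)) := by group
    _ = z * z' * ((z'⁻¹ * b) * (z⁻¹ * a)) := by rw [e]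
    _ = z' * z * ((z'⁻¹ * b) * (z⁻¹ * a)) := by rw [e3]
    _ = z' * ((z * (z'⁻¹ * b)) * (z⁻¹ * a)) := by group
    _ = z' * (((z'⁻¹ * b) * z) * (z⁻¹ * a)) := by rw [hzc _ hq']
    _ = b * a := by group

/-- Let G be a finite group and p a prime such that the Sylow p-subgroups of G are non-abelian while every element of p-power order has conjugacy class size prime to p, and suppose no nontrivial proper normal subgroup N of G has this property and no quotient G/N by such an N has it. Then G is simple. -/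
theorem result {G : Type*} [Group G] [Finite G]
    (p : ℕ) [Fact p.Prime] (h : ((∃ P : Sylow p G, ¬ IsMulCommutative P) ∧ ∀ x : G, (∃ k : ℕ, orderOf x = p ^ k) → ¬ p ∣ (Subgroup.centralizer ({x} : Set G)).index))
    (hmin : ∀ (N : Subgroup G) [N.Normal], N ≠ ⊥ → N ≠ ⊤ →
      ¬ ((∃ P : Sylow p N, ¬ IsMulCommutative P) ∧ ∀ x : N, (∃ k : ℕ, orderOf x = p ^ k) → ¬ p ∣ (Subgroup.centralizer ({x} : Set N)).index) ∧
      ¬ ((∃ P : Sylow p (G ⧸ N), ¬ IsMulCommutative P) ∧ ∀ x : (G ⧸ N), (∃ k : ℕ, orderOf x = p ^ k) → ¬ p ∣ (Subgroup.centralizer ({x} : Set (G ⧸ N))).index)) :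
    IsSimpleGroup G := by
  obtain ⟨⟨P, hP⟩, hc⟩ := h
  haveI : Nontrivial G := by
    by_contra hnt
    rw [not_nontrivial_iff_subsingleton] at hnt
    apply hP
    constructor
    constructor
    intro a b
    exact Subsingleton.elim _ _
  refine ⟨fun N hN => ?_⟩
  by_contra hcon
  push Not at hcon
  obtain ⟨h1, h2⟩ := hmin N hcon.1 hcon.2
  have hN' : ∀ Q : Sylow p N, IsMulCommutative Q := by
    intro Q
    by_contra hQ
    exact h1 ⟨⟨Q, hQ⟩, inherit_normal p hc N⟩
  have hQ' : ∀ Q : Sylow p (G ⧸ N), IsMulCommutative Q := by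
    intro Q
    by_contra hQ
    exact h2 ⟨⟨Q, hQ⟩, inherit_quotient p hc N⟩
  exact hP (sylow_comm p hc N hN' hQ' P)

end Cfsg.Agent.S4354
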