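import Cfsg.Statements.S4365
-- import your own Cfsg.Agent.* helpers here

set_option autoImplicit false
open Cfsg

namespace Cfsg.Agent.S4365

theorem ncard_class {G : Type*} [Group G] (x : G) :
    (ConjClasses.mk x).carrier.ncard = (Subgroup.centralizer ({x} : Set G)).index := by
  rw [← ConjAct.orbit_eq_carrier_conjClasses, ← MulAction.index_stabilizer,
    Subgroup.centralizer_eq_comap_stabilizer]
  exact (Subgroup.index_comap_of_surjective _ ConjAct.toConjAct.surjective).symm

theorem eq_of_le_of_index_eq {G : Type*} [Group G] [Finite G] {H K : Subgroup G} (h : H ≤ K)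
    (hi : H.index = K.index) : H = K := by
  have h1 := Subgroup.relIndex_mul_index h
  rw [hi] at h1
  have h2 : H.relIndex K = 1 := by
    have hpos : 0 < K.index := Nat.pos_of_ne_zero Subgroup.index_ne_zero_of_finite
    exact Nat.eq_of_mul_eq_mul_right hpos (by rw [h1, one_mul])
  exact le_antisymm h (Subgroup.relIndex_eq_one.1 h2)

theorem mem_cent {G : Type*} [Group G] {x g : G} :
    g ∈ Subgroup.centralizer ({x} : Set G) ↔ g * x = x * g := by
  rw [Subgroup.mem_centralizer_singleton_iff]

theorem conj_pow_left {G : Type*} [Group G] {g x z : G} (hz : z ∈ Subgroup.center G)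
    (h : g * x = x * g * z) (k : ℕ) : g ^ k * x = x * g ^ k * z ^ k := by
  induction k with
  | zero => simp
  | succ k ih =>
    have hc : ∀ y : G, z * y = y * z := fun y => (Subgroup.mem_center_iff.1 hz y).symm
    have hck : ∀ y : G, z ^ k * y = y * z ^ k :=
      fun y => (Subgroup.mem_center_iff.1 (pow_mem hz k) y).symm
    calc g ^ (k + 1) * x = g ^ k * (g * x) := by rw [pow_succ, mul_assoc]
      _ = g ^ k * x * g * z := by rw [h]; simp only [mul_assoc]
      _ = x * g ^ k * z ^ k * g * z := by rw [ih]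
      _ = x * g ^ k * (z ^ k * g) * z := by simp only [mul_assoc]
      _ = x * g ^ k * (g * z ^ k) * z := by rw [hck]
      _ = x * g ^ (k + 1) * z ^ (k + 1) := by simp only [pow_succ, mul_assoc]

theorem conj_pow_right {G : Type*} [Group G] {g x z : G} (hz : z ∈ Subgroup.center G)
    (h : g * x = x * g * z) (k : ℕ) : g * x ^ k = x ^ k * g * z ^ k := by
  induction k with
  | zero => simp
  | succ k ih =>
    have hc : ∀ y : G, z * y = y * z := fun y => (Subgroup.mem_center_iff.1 hz y).symm
    have hck : ∀ y : G, z ^ k * y = y * z ^ k :=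
      fun y => (Subgroup.mem_center_iff.1 (pow_mem hz k) y).symm
    calc g * x ^ (k + 1) = g * x ^ k * x := by rw [pow_succ, mul_assoc]
      _ = x ^ k * g * (z ^ k * x) := by rw [ih]; simp only [mul_assoc]
      _ = x ^ k * (g * x) * z ^ k := by rw [hck]; simp only [mul_assoc]
      _ = x ^ k * x * g * (z * z ^ k) := by rw [h]; simp only [mul_assoc]
      _ = x ^ (k + 1) * g * z ^ (k + 1) := by rw [hc]; simp only [pow_succ, mul_assoc]

/-- If `[g,x]` is central and `g ^ k` commutes with `x`, then `g` commutes with `x ^ k`. -/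
theorem comm_pow_of {G : Type*} [Group G] {g x z : G} (hz : z ∈ Subgroup.center G)
    (h : g * x = x * g * z) (k : ℕ) (hk : g ^ k * x = x * g ^ k) : g * x ^ k = x ^ k * g := by
  have h1 := conj_pow_left hz h k
  rw [hk] at h1
  have h2 : z ^ k = 1 := by simpa using h1.symm
  have h3 := conj_pow_right hz h k
  rw [h2, mul_one] at h3
  exact h3

theorem comm_pow_of' {G : Type*} [Group G] {g x z : G} (hz : z ∈ Subgroup.center G)
    (h : g * x = x * g * z) (k : ℕ) (hk : g * x ^ k = x ^ k * g) : g ^ k * x = x * g ^ k := by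
  have h1 := conj_pow_right hz h k
  rw [hk] at h1
  have h2 : z ^ k = 1 := by simpa using h1.symm
  have h3 := conj_pow_left hz h k
  rw [h2, mul_one] at h3
  exact h3

/-- Let P be a finite p-group whose conjugacy class sizes are exactly 1 and pᵃ for some a ≥ 1. Then every element of P has its p-th power in the center of P (P/Z(P) has exponent p). -/
theorem result {P : Type*} [Group P] [Finite P] (p : ℕ) [Fact p.Prime]
    (hP : IsPGroup p P) (a : ℕ) (ha : 1 ≤ a)
    (hcs : {k : ℕ | ∃ x : P, (Subgroup.centralizer ({x} : Set P)).index = k} = {1, p ^ a}) (x : P) :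
    x ^ p ∈ Subgroup.center P := by
  classical
  by_contra hxp
  set Z := Subgroup.center P with hZ
  -- index of centralizers
  have hidx : ∀ s : P, s ∉ Z → (Subgroup.centralizer ({s} : Set P)).index = p ^ a := by
    intro s hs
    have h1 : (Subgroup.centralizer ({s} : Set P)).index ∈ ({1, p ^ a} : Set ℕ) := by
      rw [← hcs]; exact ⟨s, rfl⟩
    rcases h1 with h1 | h1
    · exfalso
      apply hs
      rw [Subgroup.index_eq_one] at h1
      rw [hZ, Subgroup.mem_center_iff]
      intro g
      have : g ∈ Subgroup.centralizer ({s} : Set P) := by rw [h1]; trivial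
      exact mem_cent.1 this
    · exact h1
  have hE : ∀ s t : P, s ∉ Z → t ∉ Z →
      Subgroup.centralizer ({s} : Set P) ≤ Subgroup.centralizer ({t} : Set P) →
      Subgroup.centralizer ({s} : Set P) = Subgroup.centralizer ({t} : Set P) := by
    intro s t hs ht hle
    exact eq_of_le_of_index_eq hle (by rw [hidx s hs, hidx t ht])
  have hZc : ∀ z ∈ Z, ∀ y : P, z * y = y * z := fun z hz y => (Subgroup.mem_center_iff.1 hz y).symm
  have hxZ : x ∉ Z := fun h => hxp (pow_mem h p)
  have hCx : Subgroup.centralizer ({x} : Set P) = Subgroup.centralizer ({x ^ p} : Set P) := by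
    apply hE x (x ^ p) hxZ hxp
    intro g hg
    rw [mem_cent] at hg ⊢
    exact ((Commute.pow_right (show Commute g x from hg) p) : _)
  -- lemma L
  have hL : ∀ g z : P, z ∈ Z → g * x = x * g * z → g ^ p * x = x * g ^ p → g * x = x * g := by
    intro g z hz h hk
    have h1 := comm_pow_of hz h p hk
    have h2 : g ∈ Subgroup.centralizer ({x ^ p} : Set P) := mem_cent.2 h1
    rw [← hCx] at h2
    exact mem_cent.1 h2
  -- the element u
  have hnt : Nontrivial (P ⧸ Z) := by
    by_contra hcon
    rw [not_nontrivial_iff_subsingleton] at hcon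
    apply hxZ
    exact (QuotientGroup.eq_one_iff x).1 (Subsingleton.elim _ _)
  have hPZ : IsPGroup p (P ⧸ Z) := hP.to_quotient Z
  have hcnt : Nontrivial (Subgroup.center (P ⧸ Z)) := hPZ.center_nontrivial
  have hcp : IsPGroup p (Subgroup.center (P ⧸ Z)) := hPZ.to_subgroup _
  obtain ⟨w, hw⟩ : ∃ w : Subgroup.center (P ⧸ Z), orderOf w = p := by
    rcases hcp.card_eq_or_dvd with h | h
    · exfalso
      have := (Nat.card_eq_one_iff_unique.1 h).1
      exact not_subsingleton _ this
    · exact exists_prime_orderOf_dvd_card' p h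
  obtain ⟨u, hu⟩ := QuotientGroup.mk'_surjective Z (w : P ⧸ Z)
  have huZ : u ∉ Z := by
    intro h
    have h1 : (w : P ⧸ Z) = 1 := by rw [← hu]; exact (QuotientGroup.eq_one_iff u).2 h
    have h2 : w = 1 := Subtype.ext h1
    rw [h2, orderOf_one] at hw
    exact (Fact.out : p.Prime).one_lt.ne hw
  have hup : u ^ p ∈ Z := by
    have h1 : w ^ p = 1 := by rw [← hw]; exact pow_orderOf_eq_one w
    have h2 : (w : P ⧸ Z) ^ p = 1 := by
      have := congrArg Subtype.val h1
      simpa using this
    rw [← hu] at h2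
    exact (QuotientGroup.eq_one_iff _).1 h2
  have hu2 : ∀ g : P, ∃ z ∈ Z, g * u = u * g * z := by
    intro g
    have h1 : (QuotientGroup.mk' Z g) * (w : P ⧸ Z) = (w : P ⧸ Z) * (QuotientGroup.mk' Z g) :=
      Subgroup.mem_center_iff.1 w.2 _
    rw [← hu, ← map_mul, ← map_mul] at h1
    have h2 := QuotientGroup.eq.1 h1.symm
    exact ⟨_, h2, by group⟩
  -- u commutes with x
  have hux : u * x = x * u := by
    obtain ⟨z, hz, h⟩ := hu2 x
    have h' : u * x = x * u * z⁻¹ := by rw [h]; group
    exact hL u z⁻¹ (inv_mem hz) h' (hZc _ hup x)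
  have hxu : (x * u) ^ p = x ^ p * u ^ p := (show Commute x u from hux.symm).mul_pow p
  have hxup : (x * u) ^ p ∉ Z := by
    intro h
    rw [hxu] at h
    exact hxp (by simpa using mul_mem h (inv_mem hup))
  have hxuZ : x * u ∉ Z := fun h => hxup (pow_mem h p)
  have hC1 : Subgroup.centralizer ({x * u} : Set P) = Subgroup.centralizer ({x} : Set P) := by
    apply hE _ _ hxuZ hxZ
    intro g hg
    rw [hCx]
    rw [mem_cent] at hg ⊢
    have h1 : g * (x * u) ^ p = (x * u) ^ p * g := (Commute.pow_right (show Commute g (x * u) from hg) p)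
    rw [hxu] at h1
    have h2 : g * x ^ p * u ^ p = x ^ p * g * u ^ p := by
      calc g * x ^ p * u ^ p = x ^ p * u ^ p * g := by rw [mul_assoc, h1]
        _ = x ^ p * g * u ^ p := by rw [mul_assoc, hZc _ hup g, mul_assoc]
    exact mul_right_cancel h2
  have hC2 : Subgroup.centralizer ({x} : Set P) = Subgroup.centralizer ({u} : Set P) := by
    apply hE _ _ hxZ huZ
    intro g hg
    have hg' := hg
    rw [← hC1] at hg'
    rw [mem_cent] at hg hg' ⊢
    have : x * (g * u) = x * (u * g) := by
      calc x * (g * u) = g * (x * u) := by rw [← mul_assoc, ← hg, mul_assoc]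
        _ = x * (u * g) := by rw [hg', mul_assoc]
    exact mul_left_cancel this
  set C := Subgroup.centralizer ({x} : Set P) with hC
  have hCn : C.Normal := by
    constructor
    intro g hg h
    rw [hC2, mem_cent] at hg ⊢
    obtain ⟨z, hz, hh⟩ := hu2 h⁻¹
    -- h⁻¹ u = u h⁻¹ z
    have h1 : h⁻¹ * u * h = u * z := by
      rw [hh, mul_assoc, mul_assoc, hZc z hz h]; group
    have h2 : g * (u * z) = (u * z) * g := by
      rw [← mul_assoc, hg, mul_assoc, mul_assoc, hZc z hz g]
    rw [← h1] at h2
    calc h * g * h⁻¹ * u = h * (g * (h⁻¹ * u * h)) * h⁻¹ := by group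
      _ = h * ((h⁻¹ * u * h) * g) * h⁻¹ := by rw [h2]
      _ = u * (h * g * h⁻¹) := by group
  have hpC : ∀ g : P, g ^ p ∈ C := by
    intro g
    rw [hC2, mem_cent]
    obtain ⟨z, hz, hh⟩ := hu2 g
    exact comm_pow_of' hz hh p (hZc _ hup g).symm
  set A := Subgroup.centralizer (C : Set P) with hA
  have hAn : A.Normal := inferInstance
  have hxC : x ∈ C := mem_cent.2 rfl
  have hxA : x ∈ A := by
    rw [hA, Subgroup.mem_centralizer_iff]
    intro c hc
    exact mem_cent.1 hc
  have hZA : Z ≤ A := Subgroup.center_le_centralizer _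
  have hZC : Z ≤ C := Subgroup.center_le_centralizer _
  have hAb : ∀ b ∈ A, b ∉ Z → Subgroup.centralizer ({b} : Set P) = C := by
    intro b hb hbZ
    symm
    apply hE _ _ hxZ hbZ
    intro c hc
    rw [mem_cent]
    exact Subgroup.mem_centralizer_iff.1 hb c hc
  obtain ⟨y, hy⟩ : ∃ y, y ∉ C := by
    by_contra hcon
    push Not at hcon
    apply hxZ
    rw [hZ, Subgroup.mem_center_iff]
    intro g
    exact mem_cent.1 (hcon g)
  have hyZ : y ∉ Z := fun h => hy (hZC h)
  have hinf : Subgroup.centralizer ({y} : Set P) ⊓ A = Z := by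
    apply le_antisymm
    · rintro b ⟨hb1, hb2⟩
      by_contra hbZ
      apply hy
      rw [← hAb b hb2 hbZ, mem_cent]
      exact (mem_cent.1 hb1).symm
    · exact le_inf (Subgroup.center_le_centralizer _) hZA
  have hrel : Z.relIndex A ≤ p ^ a := by
    rw [← hinf, Subgroup.inf_relIndex_right, ← hidx y hyZ]
    have h1 := Subgroup.index_inf_le (H := Subgroup.centralizer ({y} : Set P)) (K := A)
    rw [← Subgroup.relIndex_mul_index (inf_le_right : Subgroup.centralizer ({y} : Set P) ⊓ A ≤ A),
      Subgroup.inf_relIndex_right] at h1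
    exact Nat.le_of_mul_le_mul_right h1 (Nat.pos_of_ne_zero Subgroup.index_ne_zero_of_finite)
  -- D
  set D := (Subgroup.centralizer ({(QuotientGroup.mk' Z x)} : Set (P ⧸ Z))).comap
    (QuotientGroup.mk' Z) with hD
  have hDidx : D.index < p ^ a := by
    rw [hD, Subgroup.index_comap_of_surjective _ (QuotientGroup.mk'_surjective Z), ← ncard_class]
    have hsub : (ConjClasses.mk (QuotientGroup.mk' Z x)).carrier ⊆
        ((A.map (QuotientGroup.mk' Z) : Subgroup (P ⧸ Z)) : Set (P ⧸ Z)) \ {1} := by
      intro v hv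
      rw [ConjClasses.mem_carrier_iff_mk_eq, ConjClasses.mk_eq_mk_iff_isConj, isConj_comm,
        isConj_iff] at hv
      obtain ⟨c, hc⟩ := hv
      obtain ⟨g, rfl⟩ := QuotientGroup.mk'_surjective Z c
      rw [← map_inv, ← map_mul, ← map_mul] at hc
      constructor
      · rw [← hc]
        exact Subgroup.mem_map_of_mem _ (hAn.conj_mem x hxA g)
      · intro h1
        rw [Set.mem_singleton_iff, ← hc] at h1
        have h2 : g * x * g⁻¹ ∈ Z := (QuotientGroup.eq_one_iff _).1 h1
        have h3 := (inferInstance : Z.Normal).conj_mem _ h2 g⁻¹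
        apply hxZ
        simpa [mul_assoc] using h3
    have h1 := Set.ncard_le_ncard hsub (Set.toFinite _)
    have h2 : (((A.map (QuotientGroup.mk' Z) : Subgroup (P ⧸ Z)) : Set (P ⧸ Z)) \ {1}).ncard
        = Z.relIndex A - 1 := by
      rw [Set.ncard_sdiff_singleton_of_mem (Subgroup.one_mem _)]
      congr 1
      have := Subgroup.relIndex_ker (K := A) (QuotientGroup.mk' Z)
      rw [QuotientGroup.ker_mk'] at this
      rw [this]
      rfl
    rw [h2] at h1
    have h3 : 0 < p ^ a := pow_pos (Fact.out : p.Prime).pos a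
    omega
  have hCD : ∃ g ∈ D, g ∉ C := by
    by_contra hcon
    push Not at hcon
    have hle : D ≤ C := hcon
    have h1 := Subgroup.index_dvd_of_le hle
    have h2 := Nat.le_of_dvd (Nat.pos_of_ne_zero Subgroup.index_ne_zero_of_finite) h1
    rw [hC, hidx x hxZ] at h2
    omega
  obtain ⟨g, hgD, hgC⟩ := hCD
  apply hgC
  rw [hD, Subgroup.mem_comap, mem_cent, ← map_mul, ← map_mul] at hgD
  have h2 := QuotientGroup.eq.1 hgD.symm
  rw [hC, mem_cent]
  exact hL g _ h2 (by group) (mem_cent.1 (hpC g))

end Cfsg.Agent.S4365
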