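import Cfsg.Statements.S4370
import Cfsg.Agent.S0016
import Cfsg.Agent.Lib.Helper2.GrpNil

set_option autoImplicit false
open Cfsg

namespace Cfsg.Agent.S4370

open QuaternionGroup in
theorem two_tors (n : ℕ) [NeZero n] (j : ZMod (2 * n)) (h : j + j = 0) : j = 0 ∨ j = n := by
  have h1 : ((j.val + j.val : ℕ) : ZMod (2 * n)) = 0 := by
    push_cast
    rw [ZMod.natCast_zmod_val]
    exact h
  rw [ZMod.natCast_eq_zero_iff] at h1
  have h2 : j.val < 2 * n := ZMod.val_lt j
  obtain ⟨c, hc⟩ := h1
  have hn : 0 < n := Nat.pos_of_ne_zero (NeZero.ne n)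
  have hc2 : c = 0 ∨ c = 1 := by
    by_contra hcon
    have h3 : 2 ≤ c := by omega
    have h4 : 2 * n * 2 ≤ 2 * n * c := Nat.mul_le_mul_left _ h3
    omega
  rcases hc2 with rfl | rfl
  · left
    have h3 : j.val = 0 := by omega
    exact (ZMod.val_eq_zero j).1 h3
  · right
    have h3 : j.val = n := by omega
    have h4 := ZMod.natCast_zmod_val j
    rw [h3] at h4
    exact h4.symm

open QuaternionGroup in
theorem cent_xa (n : ℕ) [NeZero n] (i : ZMod (2 * n)) (g : QuaternionGroup n)
    (hg : g * xa i = xa i * g) : g ∈ Subgroup.zpowers (xa i : QuaternionGroup n) := by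
  rcases g with j | j
  · rw [a_mul_xa, xa_mul_a] at hg
    have h : i - j = i + j := by injection hg
    have h1 : j + j = 0 := by linear_combination (-1 : ZMod (2 * n)) * h
    rcases two_tors n j h1 with rfl | rfl
    · rw [a_zero]; exact one_mem _
    · rw [← xa_sq i]
      exact Subgroup.pow_mem _ (Subgroup.mem_zpowers _) 2
  · rw [xa_mul_xa, xa_mul_xa] at hg
    have h : (n : ZMod (2 * n)) + i - j = n + j - i := by injection hg
    have h1 : (j - i) + (j - i) = 0 := by linear_combination (-1 : ZMod (2 * n)) * h
    rcases two_tors n (j - i) h1 with h2 | h2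
    · have h3 : j = i := sub_eq_zero.1 h2
      rw [h3]; exact Subgroup.mem_zpowers _
    · have h3 : (xa j : QuaternionGroup n) = xa i * (xa i) ^ 2 := by
        rw [xa_sq, xa_mul_a]
        congr 1
        linear_combination h2
      rw [h3]
      exact Subgroup.mul_mem _ (Subgroup.mem_zpowers _)
        (Subgroup.pow_mem _ (Subgroup.mem_zpowers _) 2)

open QuaternionGroup in
theorem cent_a (n : ℕ) [NeZero n] (i : ZMod (2 * n)) (hi : i + i ≠ 0) (g : QuaternionGroup n)
    (hg : g * a i = a i * g) : g ∈ Subgroup.zpowers (a 1 : QuaternionGroup n) := by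
  rcases g with j | j
  · rw [← ZMod.natCast_zmod_val j, ← a_one_pow]
    exact Subgroup.pow_mem _ (Subgroup.mem_zpowers _) _
  · exfalso
    rw [xa_mul_a, a_mul_xa] at hg
    have h : j + i = j - i := by injection hg
    exact hi (by linear_combination h)

open QuaternionGroup in
theorem backward_prod (k m : ℕ) (hm : Odd m)
    (x : QuaternionGroup (2 ^ k) × Multiplicative (ZMod m))
    (hx : x ∉ Subgroup.center (QuaternionGroup (2 ^ k) × Multiplicative (ZMod m))) :
    IsCyclic (Subgroup.centralizer ({x} : Set (QuaternionGroup (2 ^ k) × Multiplicative (ZMod m)))) := by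
  have : NeZero (2 ^ k) := ⟨by positivity⟩
  have hm0 : m ≠ 0 := by
    rintro rfl
    exact absurd hm (by decide)
  have : NeZero m := ⟨hm0⟩
  have ht : ∃ t : QuaternionGroup (2 ^ k), ∀ g : QuaternionGroup (2 ^ k),
      g * x.1 = x.1 * g → g ∈ Subgroup.zpowers t := by
    obtain ⟨q, c⟩ := x
    rcases q with i | i
    · refine ⟨a 1, fun g hg => cent_a _ i ?_ g hg⟩
      intro hi
      apply hx
      rw [Subgroup.mem_center_iff]
      rintro ⟨q', c'⟩
      refine Prod.ext ?_ (mul_comm _ _)
      show q' * a i = a i * q'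
      rcases q' with j | j
      · rw [a_mul_a, a_mul_a, add_comm]
      · rw [xa_mul_a, a_mul_xa]
        congr 1
        linear_combination hi
    · exact ⟨xa i, fun g hg => cent_xa _ i g hg⟩
  obtain ⟨t, ht⟩ := ht
  let C := Subgroup.centralizer ({x} : Set (QuaternionGroup (2 ^ k) × Multiplicative (ZMod m)))
  have hC : ∀ g : C, (g : QuaternionGroup (2 ^ k) × Multiplicative (ZMod m)).1 ∈ Subgroup.zpowers t := by
    intro g
    apply ht
    have h1 := Subgroup.mem_centralizer_singleton_iff.1 g.2
    exact congrArg Prod.fst h1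
  let f : C →* Subgroup.zpowers t × Multiplicative (ZMod m) :=
    MonoidHom.prod
      (MonoidHom.codRestrict ((MonoidHom.fst _ _).comp C.subtype) (Subgroup.zpowers t) hC)
      ((MonoidHom.snd _ _).comp C.subtype)
  have hf : Function.Injective f := by
    intro g g' hgg
    have h1 : (g : QuaternionGroup (2 ^ k) × Multiplicative (ZMod m)).1 = (g' : QuaternionGroup (2 ^ k) × Multiplicative (ZMod m)).1 :=
      congrArg (fun u => ((u.1 : Subgroup.zpowers t) : QuaternionGroup (2 ^ k))) hgg
    have h2 : (g : QuaternionGroup (2 ^ k) × Multiplicative (ZMod m)).2 = (g' : QuaternionGroup (2 ^ k) × Multiplicative (ZMod m)).2 :=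
      congrArg (fun u => u.2) hgg
    exact Subtype.ext (Prod.ext h1 h2)
  have hcyc : IsCyclic (Subgroup.zpowers t × Multiplicative (ZMod m)) := by
    rw [Group.isCyclic_prod_iff]
    refine ⟨inferInstance, inferInstance, ?_⟩
    have h1 : Nat.card (Subgroup.zpowers t) ∣ 2 ^ (k + 2) := by
      have h2 := Subgroup.card_subgroup_dvd_card (Subgroup.zpowers t)
      rw [Nat.card_eq_fintype_card (α := QuaternionGroup (2 ^ k)), QuaternionGroup.card] at h2
      have h3 : 4 * 2 ^ k = 2 ^ (k + 2) := by ring
      rwa [h3] at h2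
    have h2 : Nat.card (Multiplicative (ZMod m)) = m := Nat.card_zmod m
    rw [h2]
    exact Nat.Coprime.coprime_dvd_left h1 (Nat.Coprime.pow_left _ (Nat.coprime_two_left.2 hm))
  exact isCyclic_of_injective f hf

theorem mem_zpowers_of_cyclic {C : Type*} [Group C] [Finite C] [IsCyclic C] (p : ℕ) (hp : 0 < p)
    (u z : C) (hz : orderOf z = p) (hu : u ^ p = 1) : u ∈ Subgroup.zpowers z := by
  classical
  have := Fintype.ofFinite C
  have h1 := IsCyclic.card_pow_eq_one_le (α := C) hp
  let S : Finset C := Finset.univ.filter (fun a => a ∈ Subgroup.zpowers z)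
  have hS : S.card = p := by
    rw [← hz, ← Nat.card_zpowers]
    exact (Nat.subtype_card S (fun a => by simp [S])).symm
  have hsub : S ⊆ Finset.univ.filter (fun a : C => a ^ p = 1) := by
    intro a ha
    have ha' : a ∈ Subgroup.zpowers z := by simpa [S] using ha
    obtain ⟨k, rfl⟩ := ha'
    simp only [Finset.mem_filter, Finset.mem_univ, true_and]
    show (z ^ k) ^ p = 1
    rw [← zpow_natCast, ← zpow_mul, mul_comm, zpow_mul, zpow_natCast, ← hz, pow_orderOf_eq_one,
      one_zpow]
  have heq := Finset.eq_of_subset_of_card_le hsub (by rw [hS]; exact h1)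
  have hu' : u ∈ S := by
    rw [heq]
    simp [hu]
  simpa [S] using hu'

theorem forward {G : Type*} [Group G] [Finite G] (hG : Group.IsNilpotent G)
    (hna : ¬ IsMulCommutative G)
    (h : ∀ x : G, x ∉ Subgroup.center G → IsCyclic (Subgroup.centralizer ({x} : Set G))) :
    ∃ (k m : ℕ), 1 ≤ k ∧ Odd m ∧
      Nonempty (G ≃* QuaternionGroup (2 ^ k) × Multiplicative (ZMod m)) := by
  -- a non-abelian Sylow subgroup
  have hex : ∃ (p : ℕ) (_ : Fact p.Prime) (P : Sylow p G), ¬ IsMulCommutative P := by
    by_contra hall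
    push Not at hall
    obtain ⟨e⟩ := ((Group.isNilpotent_of_finite_tfae (G := G)).out 0 4).mp hG
    apply hna
    refine ⟨⟨fun x y => e.symm.injective ?_⟩⟩
    rw [map_mul, map_mul]
    funext l S
    have hl : Fact (l : ℕ).Prime := ⟨Nat.prime_of_mem_primeFactors l.2⟩
    exact (hall l hl S).is_comm.comm _ _
  obtain ⟨p, hp, P, hPna⟩ := hex
  have hPn : (P : Subgroup G).Normal := by
    have h03 := ((Group.isNilpotent_of_finite_tfae (G := G)).out 0 3).mp hG
    exact h03 p hp P
  obtain ⟨O, hO⟩ := Subgroup.exists_right_complement'_of_coprime (N := (P : Subgroup G))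
    P.card_coprime_index
  have hcop : (Nat.card P).Coprime (Nat.card O) := by
    have h1 := P.card_coprime_index
    rwa [hO.symm.index_eq_card] at h1
  have hcomm : ∀ a ∈ P, ∀ b ∈ O, a * b = b * a := by
    intro a ha b hb
    have h1 : orderOf a ∣ Nat.card P := Subgroup.orderOf_dvd_natCard _ ha
    have h2 : orderOf b ∣ Nat.card O := Subgroup.orderOf_dvd_natCard _ hb
    exact Cfsg.Agent.Lib.Helper2.commute_of_coprime_of_isNilpotent
      (Nat.Coprime.coprime_dvd_left h1 (Nat.Coprime.coprime_dvd_right h2 hcop))
  -- a noncentral element of `P`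
  have hxy : ∃ x y : P, x * y ≠ y * x := by
    by_contra hcon
    push Not at hcon
    exact hPna ⟨⟨hcon⟩⟩
  obtain ⟨x, y, hxy⟩ := hxy
  have hxnc : (x : G) ∉ Subgroup.center G := by
    intro hx
    apply hxy
    apply Subtype.ext
    exact ((Subgroup.mem_center_iff.1 hx) y).symm
  have hCx := h x hxnc
  have hOle : O ≤ Subgroup.centralizer ({(x : G)} : Set G) := by
    intro b hb
    rw [Subgroup.mem_centralizer_singleton_iff]
    exact (hcomm x x.2 b hb).symm
  have hOcyc : IsCyclic O :=
    isCyclic_of_injective (Subgroup.inclusion hOle) (Subgroup.inclusion_injective hOle)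
  -- a central element of order `p` in `P`
  have hPp : IsPGroup p P := P.isPGroup'
  have hPnt : Nontrivial P := ⟨⟨x * y, y * x, hxy⟩⟩
  have hZnt : Nontrivial (Subgroup.center P) := hPp.center_nontrivial
  have hZdvd : p ∣ Nat.card (Subgroup.center P) := by
    rcases (hPp.to_subgroup (Subgroup.center P)).card_eq_or_dvd with h1 | h1
    · have := Finite.one_lt_card (α := Subgroup.center P)
      omega
    · exact h1
  obtain ⟨z, hz⟩ := exists_prime_orderOf_dvd_card' (G := Subgroup.center P) p hZdvd
  have hz' : orderOf (z : P) = p := by rw [Subgroup.orderOf_coe]; exact hz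
  have hzc : ∀ u : P, u * (z : P) = (z : P) * u := fun u => Subgroup.mem_center_iff.1 z.2 u
  have key : ∀ w : G, w ∉ Subgroup.center G → ∀ u : P, (u : G) * w = w * u →
      (((z : P) : G)) * w = w * ((z : P) : G) → orderOf u = p → u ∈ Subgroup.zpowers (z : P) := by
    intro w hw u huw hzw hu
    have hC := h w hw
    let u' : Subgroup.centralizer ({w} : Set G) :=
      ⟨u, Subgroup.mem_centralizer_singleton_iff.2 huw⟩
    let z' : Subgroup.centralizer ({w} : Set G) :=
      ⟨((z : P) : G), Subgroup.mem_centralizer_singleton_iff.2 hzw⟩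
    have h1 : orderOf z' = p := by
      rw [← Subgroup.orderOf_coe]
      show orderOf ((z : P) : G) = p
      rw [Subgroup.orderOf_coe]; exact hz'
    have h2 : u' ^ p = 1 := by
      apply Subtype.ext
      show (u : G) ^ p = 1
      have h3 : u ^ p = 1 := by
        have h4 := pow_orderOf_eq_one u
        rwa [hu] at h4
      exact_mod_cast congrArg Subtype.val h3
    obtain ⟨k, hk⟩ := mem_zpowers_of_cyclic p hp.out.pos u' z' h1 h2
    refine ⟨k, ?_⟩
    apply Subtype.ext
    have h3 := congrArg Subtype.val hk
    simpa [u', z'] using h3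
  have claim : ∀ u : P, orderOf u = p → u ∈ Subgroup.zpowers (z : P) := by
    intro u hu
    by_cases huc : (u : G) ∈ Subgroup.center G
    · refine key x hxnc u ?_ ?_ hu
      · exact ((Subgroup.mem_center_iff.1 huc) x).symm
      · exact (congrArg Subtype.val (hzc x)).symm
    · refine key u huc u rfl ?_ hu
      exact (congrArg Subtype.val (hzc u)).symm
  have huniq' : ∀ H : Subgroup P, Nat.card H = p → H = Subgroup.zpowers (z : P) := by
    intro H hH
    apply Subgroup.eq_of_le_of_card_ge
    · intro a ha
      by_cases ha1 : a = 1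
      · rw [ha1]; exact one_mem _
      · apply claim
        have h1 : orderOf a ∣ p := by
          have h4 := Subgroup.orderOf_dvd_natCard _ ha
          rwa [hH] at h4
        rcases (Nat.dvd_prime hp.out).1 h1 with h2 | h2
        · exact absurd (orderOf_eq_one_iff.1 h2) ha1
        · exact h2
    · rw [Nat.card_zpowers, hz', hH]
  rcases Cfsg.Agent.S0016.result (G := P) p hPp
    (fun H K hH hK => (huniq' H hH).trans (huniq' K hK).symm) with hc | ⟨hp2, n, ⟨eQ⟩⟩
  · exact (hPna inferInstance).elim
  · have hn : n ≠ 0 := by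
      rintro rfl
      rw [pow_zero] at eQ
      have := QuaternionGroup.quaternionGroup_one_isCyclic
      have hc : IsCyclic P := isCyclic_of_surjective eQ.symm eQ.symm.surjective
      exact hPna inferInstance
    have hodd : Odd (Nat.card O) := by
      have h1 : p ∣ Nat.card P := by
        rcases hPp.card_eq_or_dvd with h1 | h1
        · have := Finite.one_lt_card (α := P)
          omega
        · exact h1
      have h2 : 2 ∣ Nat.card P := hp2 ▸ h1
      exact Nat.coprime_two_left.1 (Nat.Coprime.coprime_dvd_left h2 hcop)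
    let f : P × O →* G :=
      { toFun := fun t => (t.1 : G) * (t.2 : G)
        map_one' := by simp
        map_mul' := by
          intro s t
          show ((s.1 : G) * (t.1 : G)) * ((s.2 : G) * (t.2 : G)) =
            ((s.1 : G) * (s.2 : G)) * ((t.1 : G) * (t.2 : G))
          rw [mul_assoc, mul_assoc, ← mul_assoc (t.1 : G), hcomm t.1 t.1.2 s.2 s.2.2, mul_assoc] }
    have hf : Function.Bijective f := hO
    let e₁ : P × O ≃* G := MulEquiv.ofBijective f hf
    exact ⟨n, Nat.card O, Nat.one_le_iff_ne_zero.2 hn, hodd,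
      ⟨e₁.symm.trans (MulEquiv.prodCongr eQ (zmodCyclicMulEquiv hOcyc).symm)⟩⟩

/-- Let G be a finite non-abelian nilpotent group. Then the centralizer of every non-central element of G is cyclic if and only if G is isomorphic to the direct product of a generalized quaternion group and a cyclic group of odd order. -/
theorem result {G : Type*} [Group G] [Finite G] (hG : Group.IsNilpotent G)
    (hna : ¬ IsMulCommutative G) :
    (∀ x : G, x ∉ Subgroup.center G → IsCyclic (Subgroup.centralizer ({x} : Set G))) ↔
      ∃ (k m : ℕ), 1 ≤ k ∧ Odd m ∧ Nonempty (G ≃* QuaternionGroup (2 ^ k) × Multiplicative (ZMod m)) := by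
  constructor
  · exact forward hG hna
  · rintro ⟨k, m, hk, hm, ⟨e⟩⟩ x hx
    have hex : e x ∉ Subgroup.center (QuaternionGroup (2 ^ k) × Multiplicative (ZMod m)) := by
      intro h
      apply hx
      rw [Subgroup.mem_center_iff] at h ⊢
      intro g
      apply e.injective
      rw [map_mul, map_mul]
      exact h (e g)
    have hc := backward_prod k m hm (e x) hex
    let f : Subgroup.centralizer ({x} : Set G) →*
        Subgroup.centralizer ({e x} : Set (QuaternionGroup (2 ^ k) × Multiplicative (ZMod m))) :=
      MonoidHom.codRestrict (e.toMonoidHom.comp (Subgroup.subtype _)) _ (by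
        intro g
        rw [Subgroup.mem_centralizer_singleton_iff]
        have h1 := Subgroup.mem_centralizer_singleton_iff.1 g.2
        show e g * e x = e x * e g
        rw [← map_mul, ← map_mul, h1])
    refine isCyclic_of_injective f ?_
    intro g g' hgg
    have h1 : e g = e g' := congrArg Subtype.val hgg
    exact Subtype.ext (e.injective h1)

end Cfsg.Agent.S4370
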