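import Cfsg.Statements.S4376
import Mathlib
import Cfsg.Agent.Lib.Helper15.OTBasic
import Cfsg.Agent.Lib.Helper15.OTP
import Cfsg.Agent.Lib.Helper15.OTQ
import Cfsg.Agent.Lib.Helper15.OTTerms

set_option autoImplicit false
open Cfsg

namespace Cfsg.Agent.S4376

open Cfsg.Agent.Lib.Helper15.OTBasic Cfsg.Agent.Lib.Helper15.OTP Cfsg.Agent.Lib.Helper15.OTQ
  Cfsg.Agent.Lib.Helper15.OTTerms

/-- the solvable group -/
abbrev GG : Type := (Multiplicative (ZMod 4)) × ((Multiplicative (ZMod 4)) × ((DihedralGroup 7) × (K7 × (K8 × (K11 × (K12 × (Q × (K16 × (K16 × (K19 × (K20 × K22)))))))))))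

/-- the solvable cofactor of the non-solvable group -/
abbrev HR : Type := (Multiplicative (ZMod 2)) × ((Multiplicative (ZMod 2)) × ((Multiplicative (ZMod 2)) × ((Multiplicative (ZMod 2)) × ((Multiplicative (ZMod 3)) × ((DihedralGroup 4) × ((QuaternionGroup 3) × ((QuaternionGroup 7) × ((QuaternionGroup 7) × (K10 × (K13 × (K14 × (K15 × (K17 × (K18 × K21))))))))))))))

/-- the non-solvable group -/
abbrev HH : Type := P × HR

lemma cnt_eq_of_hasTab' {X Y : Type} [Group X] [Group Y] {T T' : Fin 12 → ℕ}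
    (h : HasTab X T) (h' : HasTab Y T') (hT : ∀ i, T i = T' i) (n : ℕ) : cnt X n = cnt Y n :=
  cnt_eq_of_hasTab h ⟨h'.1, fun i => (h'.2 i).trans (hT i).symm⟩ n

lemma cnt_eq (n : ℕ) : cnt GG n = cnt HH n := by
  have hG : HasTab GG _ := tab_A_C4.prod (tab_A_C4.prod (tab_A_D7.prod (tab_K7.prod (tab_K8.prod (tab_K11.prod (tab_K12.prod (Q_hasTab.prod (tab_K16.prod (tab_K16.prod (tab_K19.prod (tab_K20.prod tab_K22)))))))))))
  have hH : HasTab HH _ := P_hasTab.prod (tab_A_C2.prod (tab_A_C2.prod (tab_A_C2.prod (tab_A_C2.prod (tab_A_C3.prod (tab_A_D4.prod (tab_A_Q3.prod (tab_A_Q7.prod (tab_A_Q7.prod (tab_K10.prod (tab_K13.prod (tab_K14.prod (tab_K15.prod (tab_K17.prod (tab_K18.prod tab_K21)))))))))))))))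
  exact cnt_eq_of_hasTab' hG hH (by decide +kernel) n

lemma HH_not_isSolvable : ¬ Group.IsSolvable HH := by
  intro h
  exact P_not_isSolvable (Group.isSolvable_of_isSolvable_injective (f := MonoidHom.inl P HR)
    (fun a b hab => congrArg Prod.fst hab))

/-- There are finite groups G and H having the same number of elements of each order (the same order type) with G solvable and H not solvable. -/
theorem result :
    ∃ (G : Type) (_ : Group G) (_ : Finite G) (H : Type) (_ : Group H) (_ : Finite H),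
      Group.IsSolvable G ∧ ¬ Group.IsSolvable H ∧ ∀ n : ℕ, Nat.card {g : G // orderOf g = n} = Nat.card {h : H // orderOf h = n} := by
  exact ⟨GG, inferInstance, inferInstance, HH, inferInstance, inferInstance, inferInstance,
    HH_not_isSolvable, fun n => orderType_eq cnt_eq n⟩

end Cfsg.Agent.S4376
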