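import Cfsg.Statements.S4377
-- import your own Cfsg.Agent.* helpers here

set_option autoImplicit false
open Cfsg

namespace Cfsg.Agent.S4377

theorem key (G : Type*) [Group G] [Finite G] {n : ℕ} (hn : 0 < n) :
    ∑ m ∈ n.divisors, Nat.card {g : G // orderOf g = m} = Nat.card {g : G // g ^ n = 1} := by
  classical
  have := Fintype.ofFinite G
  have h := sum_card_orderOf_eq_card_pow_eq_one (G := G) hn.ne'
  simp only [Nat.card_eq_fintype_card, Fintype.card_subtype]
  exact h

/-- Two finite groups have the same number of elements of each order if and only if, for every n, they have the same number of elements g with gⁿ = 1. -/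
theorem result {G H : Type*} [Group G] [Finite G] [Group H] [Finite H] :
    (∀ n : ℕ, Nat.card {g : G // orderOf g = n} = Nat.card {h : H // orderOf h = n}) ↔
      ∀ n : ℕ, Nat.card {g : G // g ^ n = 1} = Nat.card {h : H // h ^ n = 1} := by
  constructor
  · intro h
    have hpos : ∀ n, 0 < n →
        Nat.card {g : G // g ^ n = 1} = Nat.card {h : H // h ^ n = 1} := by
      intro n hn
      rw [← key G hn, ← key H hn]
      exact Finset.sum_congr rfl (fun m _ => h m)
    intro n
    rcases Nat.eq_zero_or_pos n with rfl | hn
    · have hc : 0 < Nat.card G * Nat.card H := Nat.mul_pos Nat.card_pos Nat.card_pos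
      have h1 := hpos _ hc
      have hG : Nat.card {g : G // g ^ (Nat.card G * Nat.card H) = 1} = Nat.card G :=
        Nat.card_congr (Equiv.subtypeUnivEquiv
          (fun g => by rw [pow_mul, pow_card_eq_one', one_pow]))
      have hH : Nat.card {g : H // g ^ (Nat.card G * Nat.card H) = 1} = Nat.card H :=
        Nat.card_congr (Equiv.subtypeUnivEquiv
          (fun g => by rw [mul_comm, pow_mul, pow_card_eq_one', one_pow]))
      have hG0 : Nat.card {g : G // g ^ 0 = 1} = Nat.card G :=
        Nat.card_congr (Equiv.subtypeUnivEquiv (fun g => pow_zero g))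
      have hH0 : Nat.card {g : H // g ^ 0 = 1} = Nat.card H :=
        Nat.card_congr (Equiv.subtypeUnivEquiv (fun g => pow_zero g))
      omega
    · exact hpos n hn
  · intro h n
    induction n using Nat.strong_induction_on with
    | _ n ih =>
      rcases Nat.eq_zero_or_pos n with rfl | hn
      · have hG : Nat.card {g : G // orderOf g = 0} = 0 := by
          have : IsEmpty {g : G // orderOf g = 0} := ⟨fun g => (orderOf_pos g.1).ne' g.2⟩
          exact Nat.card_of_isEmpty
        have hH : Nat.card {g : H // orderOf g = 0} = 0 := by
          have : IsEmpty {g : H // orderOf g = 0} := ⟨fun g => (orderOf_pos g.1).ne' g.2⟩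
          exact Nat.card_of_isEmpty
        rw [hG, hH]
      · have h1 := key G hn
        have h2 := key H hn
        rw [← Nat.cons_self_properDivisors hn.ne', Finset.sum_cons] at h1 h2
        have h3 : ∑ m ∈ n.properDivisors, Nat.card {g : G // orderOf g = m}
            = ∑ m ∈ n.properDivisors, Nat.card {g : H // orderOf g = m} :=
          Finset.sum_congr rfl (fun m hm => ih m (Nat.mem_properDivisors.1 hm).2)
        have := h n
        omega

end Cfsg.Agent.S4377
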