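import Cfsg.Statements.S4387
import Cfsg.Agent.Lib.Helper22.Basic

set_option autoImplicit false
open Pointwise
open Cfsg

namespace Cfsg.Agent.S4387

/-- Let G be a non-trivial finite group in which any two maximal subgroups are conjugate. Then G is cyclic of prime-power order. -/
theorem result {G : Type*} [Group G] [Finite G] [Nontrivial G]
    (h : ∀ M N : Subgroup G, IsCoatom M → IsCoatom N → ∃ g : G, N = MulAut.conj g • M) :
    IsCyclic G ∧ IsPrimePow (Nat.card G) := by
  classical
  obtain ⟨M, hM⟩ : ∃ M : Subgroup G, IsCoatom M := by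
    obtain h | ⟨M, hM, -⟩ := eq_top_or_exists_le_coatom (⊥ : Subgroup G)
    · exact absurd h bot_ne_top
    · exact ⟨M, hM⟩
  obtain ⟨x, hx⟩ : ∃ x : G, ∀ g : G, x ∉ MulAut.conj g • M := by
    by_contra hcon
    push Not at hcon
    have hsub : Subsingleton (G ⧸ M) := by
      apply Cfsg.Agent.Lib.Helper22.subsingleton_of_forall_exists_fixed (G := G)
      intro y
      obtain ⟨g, hg⟩ := hcon y
      refine ⟨(g : G ⧸ M), ?_⟩
      rw [Subgroup.mem_pointwise_smul_iff_inv_smul_mem] at hg
      show ((y * g : G) : G ⧸ M) = g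
      rw [eq_comm, QuotientGroup.eq]
      simpa [MulAut.smul_def, mul_assoc] using hg
    apply hM.1
    rw [← Subgroup.index_eq_one]
    exact Nat.card_eq_one_iff_unique.2 ⟨hsub, ⟨((1 : G) : G ⧸ M)⟩⟩
  have htop : Subgroup.zpowers x = ⊤ := by
    obtain h' | ⟨N, hN, hle⟩ := eq_top_or_exists_le_coatom (Subgroup.zpowers x)
    · exact h'
    · obtain ⟨g, rfl⟩ := h M N hM hN
      exact absurd (hle (Subgroup.mem_zpowers x)) (hx g)
  have hcyc : IsCyclic G :=
    ⟨x, fun y => by have : y ∈ (⊤ : Subgroup G) := trivial; rwa [← htop] at this⟩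
  have hcomm : ∀ a b : G, a * b = b * a := fun a b => (IsCyclic.commGroup).mul_comm a b
  refine ⟨hcyc, ?_⟩
  rw [isPrimePow_iff_unique_prime_dvd]
  have hne1 : Nat.card G ≠ 1 := by
    have := Finite.one_lt_card (α := G)
    omega
  obtain ⟨p, hp, hpd⟩ := Nat.exists_prime_and_dvd hne1
  refine ⟨p, ⟨hp, hpd⟩, ?_⟩
  rintro q ⟨hq, hqd⟩
  by_contra hne
  have key : ∀ r : ℕ, r.Prime → r ∣ Nat.card G → x ^ r ∈ M := by
    intro r hr hrd
    obtain h' | ⟨N, hN, hle⟩ := eq_top_or_exists_le_coatom (Subgroup.zpowers (x ^ r))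
    · exfalso
      have h1 : orderOf (x ^ r) = Nat.card G := by
        rw [← Nat.card_zpowers, h', Subgroup.card_top]
      have h2 : orderOf x = Nat.card G := by
        rw [← Nat.card_zpowers, htop, Subgroup.card_top]
      have h3 : orderOf (x ^ r) = orderOf x / r := orderOf_pow_of_dvd hr.ne_zero (h2 ▸ hrd)
      rw [h1, h2] at h3
      have h4 : 0 < Nat.card G := Nat.card_pos
      have := Nat.div_lt_self h4 hr.one_lt
      omega
    · obtain ⟨g, rfl⟩ := h M N hM hN
      have h1 := hle (Subgroup.mem_zpowers (x ^ r))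
      rw [Subgroup.mem_pointwise_smul_iff_inv_smul_mem] at h1
      have h2 : (MulAut.conj g)⁻¹ • (x ^ r) = x ^ r := by
        rw [MulAut.smul_def, ← map_inv, MulAut.conj_apply, inv_inv, hcomm g⁻¹, mul_assoc,
          inv_mul_cancel, mul_one]
      rwa [h2] at h1
  have hxM : x ∈ M := Cfsg.Agent.Lib.Helper22.mem_of_pow_mem_of_coprime M x p q
    ((Nat.coprime_primes hp hq).2 (Ne.symm hne)) (key p hp hpd) (key q hq hqd)
  apply hx 1
  simpa using hxM

end Cfsg.Agent.S4387
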