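import Cfsg.Statements.S4400
import Mathlib
import Cfsg.Agent.Lib.Helper11.PGroup
import Cfsg.Agent.Lib.Helper23.FrattiniP
import Cfsg.Agent.Lib.Helper5.Card

set_option autoImplicit false
open Cfsg

namespace Cfsg.Agent.S4400

open scoped commutatorElement

theorem two_le_orderOf {S : Type*} [Group S] [Finite S] {z : S} (hz1 : z ≠ 1) : 2 ≤ orderOf z := by
  have h1 : orderOf z ≠ 1 := by rwa [Ne, orderOf_eq_one_iff]
  have h0 : 0 < orderOf z := orderOf_pos z
  omega

theorem center_map_eq {S : Type*} [Group S] [Finite S] {P : Subgroup S}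
    (hZ : Nat.card ↥(Subgroup.center ↥P) = 2) {z : S} (hzP : z ∈ P) (hz1 : z ≠ 1)
    (hc : ∀ x ∈ P, x * z = z * x) :
    (Subgroup.center ↥P).map P.subtype = Subgroup.zpowers z := by
  symm
  apply Subgroup.eq_of_le_of_card_ge
  · rw [Subgroup.zpowers_le]
    refine ⟨⟨z, hzP⟩, ?_, rfl⟩
    rw [SetLike.mem_coe, Subgroup.mem_center_iff]
    intro g
    exact Subtype.ext (hc g g.2)
  · rw [Subgroup.card_map_of_injective P.subtype_injective, hZ, Nat.card_zpowers]
    exact two_le_orderOf hz1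

theorem center_le_frattini {P : Type*} [Group P] [Finite P] (h2 : IsPGroup 2 P)
    (hP : ¬ IsMulCommutative P) (hZ : Nat.card ↥(Subgroup.center P) = 2) :
    Subgroup.center P ≤ frattini P := by
  have hcomm : commutator P ≠ ⊥ := by
    intro h
    apply hP
    refine ⟨⟨fun a b => ?_⟩⟩
    have : ⁅a, b⁆ ∈ commutator P :=
      Subgroup.commutator_mem_commutator (Subgroup.mem_top a) (Subgroup.mem_top b)
    rw [h, Subgroup.mem_bot, commutatorElement_eq_one_iff_mul_comm] at this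
    exact this
  obtain ⟨z, hz, hz1, hzc⟩ :=
    Cfsg.Agent.Lib.Helper11.exists_mem_center_of_normal_ne_bot 2 h2 (commutator P) hcomm
  have hle : commutator P ≤ frattini P := by
    rw [commutator_eq_closure, Subgroup.closure_le]
    rintro _ ⟨a, b, rfl⟩
    have := Cfsg.Agent.Lib.Helper23.comm_mem_frattini h2 b⁻¹ a⁻¹
    have e : ⁅a, b⁆ = (b⁻¹ * a⁻¹)⁻¹ * (a⁻¹ * b⁻¹) := by
      rw [commutatorElement_def]
      group
    rw [SetLike.mem_coe, e]
    exact this
  have heq : Subgroup.zpowers z = Subgroup.center P := by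
    apply Subgroup.eq_of_le_of_card_ge
    · rw [Subgroup.zpowers_le]; exact hzc
    · rw [hZ, Nat.card_zpowers]; exact two_le_orderOf hz1
  rw [← heq, Subgroup.zpowers_le]
  exact hle hz

theorem four_le_index_frattini {P : Type*} [Group P] [Finite P] (hP : ¬ IsMulCommutative P) :
    4 ≤ (frattini P).index := by
  by_contra hlt
  push Not at hlt
  apply hP
  have hpos : (frattini P).index ≠ 0 := Subgroup.index_ne_zero_of_finite
  have hcyc : IsCyclic (P ⧸ frattini P) := by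
    have hc : Nat.card (P ⧸ frattini P) = (frattini P).index := rfl
    have : (frattini P).index = 1 ∨ (frattini P).index = 2 ∨ (frattini P).index = 3 := by omega
    rcases this with h | h | h
    · have : Subsingleton (P ⧸ frattini P) := (Nat.card_eq_one_iff_unique.1 (hc.trans h)).1
      infer_instance
    · have : Fact (Nat.Prime 2) := ⟨Nat.prime_two⟩
      exact isCyclic_of_prime_card (hc.trans h)
    · have : Fact (Nat.Prime 3) := ⟨Nat.prime_three⟩
      exact isCyclic_of_prime_card (hc.trans h)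
  obtain ⟨g, hg⟩ := hcyc.exists_generator
  obtain ⟨x, rfl⟩ := QuotientGroup.mk_surjective g
  have htop : Subgroup.zpowers x = ⊤ := by
    apply frattini_nongenerating
    rw [eq_top_iff]
    intro y _
    obtain ⟨k, hk⟩ := Subgroup.mem_zpowers_iff.1 (hg (y : P ⧸ frattini P))
    have h1 : (x ^ k)⁻¹ * y ∈ frattini P := by
      rw [← QuotientGroup.eq]; simpa using hk
    have h2 : y = x ^ k * ((x ^ k)⁻¹ * y) := by group
    rw [h2]
    exact Subgroup.mul_mem_sup (Subgroup.zpow_mem_zpowers x k) h1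
  refine ⟨⟨fun a b => ?_⟩⟩
  have ha : a ∈ Subgroup.zpowers x := htop ▸ Subgroup.mem_top a
  have hb : b ∈ Subgroup.zpowers x := htop ▸ Subgroup.mem_top b
  obtain ⟨i, rfl⟩ := Subgroup.mem_zpowers_iff.1 ha
  obtain ⟨j, rfl⟩ := Subgroup.mem_zpowers_iff.1 hb
  rw [← zpow_add, ← zpow_add, add_comm]

/-- Let S be a finite 2-group of sectional 2-rank at most 4, and let P and Q be normal non-abelian subgroups of S whose centres have order 2 and are different. Then P and Q commute elementwise and intersect trivially, and PQ contains its own centralizer in S. -/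
theorem result {S : Type*} [Group S] [Finite S] (h2 : IsPGroup 2 S) (hr : Cfsg.SectionalPRankLE 2 4 S)
    (P Q : Subgroup S) [P.Normal] [Q.Normal] (hP : ¬ IsMulCommutative ↥P) (hQ : ¬ IsMulCommutative ↥Q)
    (hZP : Nat.card ↥(Subgroup.center ↥P) = 2) (hZQ : Nat.card ↥(Subgroup.center ↥Q) = 2)
    (hne : (Subgroup.center ↥P).map P.subtype ≠ (Subgroup.center ↥Q).map Q.subtype) :
    ⁅P, Q⁆ = ⊥ ∧ P ⊓ Q = ⊥ ∧ Subgroup.centralizer ((P ⊔ Q : Subgroup S) : Set S) ≤ P ⊔ Q := by
  have hPQ : P ⊓ Q = ⊥ := by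
    by_contra h
    obtain ⟨z, hz, hz1, hzc⟩ :=
      Cfsg.Agent.Lib.Helper11.exists_mem_center_of_normal_ne_bot 2 h2 (P ⊓ Q) h
    rw [Subgroup.mem_center_iff] at hzc
    exact hne ((center_map_eq hZP hz.1 hz1 (fun x _ => hzc x)).trans
      (center_map_eq hZQ hz.2 hz1 (fun x _ => hzc x)).symm)
  have hcomm : ⁅P, Q⁆ = ⊥ := eq_bot_iff.2 ((Subgroup.commutator_le_inf P Q).trans_eq hPQ)
  refine ⟨hcomm, hPQ, ?_⟩
  have hcPQ : ∀ a ∈ P, ∀ b ∈ Q, a * b = b * a := by
    intro a ha b hb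
    have := (Subgroup.commutator_eq_bot_iff_le_centralizer.1 hcomm) ha
    exact (Subgroup.mem_centralizer_iff.1 this b hb).symm
  by_contra hnot
  obtain ⟨c0, hc0, hc0n⟩ := SetLike.not_le_iff_exists.1 hnot
  obtain ⟨c, hc, hcn, hc2⟩ : ∃ c ∈ Subgroup.centralizer ((P ⊔ Q : Subgroup S) : Set S),
      c ∉ P ⊔ Q ∧ c ^ 2 ∈ P ⊔ Q := by
    classical
    obtain ⟨k, hk⟩ := h2 c0
    have hex : ∃ i, c0 ^ 2 ^ i ∈ P ⊔ Q := ⟨k, by rw [hk]; exact one_mem _⟩
    have hspec := Nat.find_spec hex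
    have hmin := fun j => Nat.find_min hex (m := j)
    rcases hi : Nat.find hex with _ | i
    · rw [hi] at hspec; simp at hspec; exact absurd hspec hc0n
    · refine ⟨c0 ^ 2 ^ i, Subgroup.pow_mem _ hc0 _, hmin i (by omega), ?_⟩
      rw [hi] at hspec
      rwa [← pow_mul, ← pow_succ]
  set FP : Subgroup S := (frattini ↥P).map P.subtype with hFP
  set FQ : Subgroup S := (frattini ↥Q).map Q.subtype with hFQ
  have hFPn : FP.Normal := ConjAct.normal_of_characteristic_of_normal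
  have hFQn : FQ.Normal := ConjAct.normal_of_characteristic_of_normal
  have hFPle : FP ≤ P := Subgroup.map_subtype_le _
  have hFQle : FQ ≤ Q := Subgroup.map_subtype_le _
  have h2P : IsPGroup 2 P := h2.to_subgroup P
  have h2Q : IsPGroup 2 Q := h2.to_subgroup Q
  have sqP : ∀ a ∈ P, a ^ 2 ∈ FP := fun a ha =>
    ⟨⟨a, ha⟩ ^ 2, Cfsg.Agent.Lib.Helper23.pow_mem_frattini h2P ⟨a, ha⟩, rfl⟩
  have sqQ : ∀ a ∈ Q, a ^ 2 ∈ FQ := fun a ha =>
    ⟨⟨a, ha⟩ ^ 2, Cfsg.Agent.Lib.Helper23.pow_mem_frattini h2Q ⟨a, ha⟩, rfl⟩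
  have cenP : ∀ a ∈ P, (∀ x ∈ P, x * a = a * x) → a ∈ FP := by
    intro a ha hx
    refine ⟨⟨a, ha⟩, center_le_frattini h2P hP hZP ?_, rfl⟩
    rw [Subgroup.mem_center_iff]
    intro g
    exact Subtype.ext (hx g g.2)
  have cenQ : ∀ a ∈ Q, (∀ x ∈ Q, x * a = a * x) → a ∈ FQ := by
    intro a ha hx
    refine ⟨⟨a, ha⟩, center_le_frattini h2Q hQ hZQ ?_, rfl⟩
    rw [Subgroup.mem_center_iff]
    intro g
    exact Subtype.ext (hx g g.2)
  have hDn : (FP ⊔ FQ).Normal := inferInstance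
  have hc_comm : ∀ y ∈ P ⊔ Q, y * c = c * y := fun y hy => Subgroup.mem_centralizer_iff.1 hc y hy
  have hc2D : c ^ 2 ∈ FP ⊔ FQ := by
    have h0 : c ^ 2 ∈ ((P ⊔ Q : Subgroup S) : Set S) := hc2
    rw [Subgroup.normal_mul] at h0
    obtain ⟨a, ha, b, hb, hab⟩ := Set.mem_mul.1 h0
    have hcc : ∀ y ∈ P ⊔ Q, y * (a * b) = (a * b) * y := by
      intro y hy
      rw [hab]
      have := hc_comm y hy
      rw [pow_two, ← mul_assoc, this, mul_assoc, this, mul_assoc]
    have haF : a ∈ FP := cenP a ha (fun x hx => by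
      have h1 := hcc x (Subgroup.mem_sup_left hx)
      have h2 : b * x = x * b := (hcPQ x hx b hb).symm
      rw [mul_assoc a b x, h2, ← mul_assoc, ← mul_assoc] at h1
      exact mul_right_cancel h1)
    have hbF : b ∈ FQ := cenQ b hb (fun x hx => by
      have h1 := hcc x (Subgroup.mem_sup_right hx)
      have h2 : x * a = a * x := (hcPQ a ha x hx).symm
      rw [← mul_assoc, h2, mul_assoc, mul_assoc] at h1
      exact mul_left_cancel h1)
    rw [← hab]
    exact Subgroup.mul_mem_sup haF hbF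
  have hsq : ∀ x ∈ P ⊔ Q ⊔ Subgroup.zpowers c, x ^ 2 ∈ FP ⊔ FQ := by
    intro x hx
    have hx' : x ∈ ((P ⊔ Q ⊔ Subgroup.zpowers c : Subgroup S) : Set S) := hx
    rw [Subgroup.normal_mul] at hx'
    obtain ⟨y, hy, w, hw, rfl⟩ := Set.mem_mul.1 hx'
    have hy' : y ∈ ((P ⊔ Q : Subgroup S) : Set S) := hy
    rw [Subgroup.normal_mul] at hy'
    obtain ⟨a, ha, b, hb, rfl⟩ := Set.mem_mul.1 hy'
    obtain ⟨k, rfl⟩ := Subgroup.mem_zpowers_iff.1 hw
    have c1 : Commute (a * b) (c ^ k) := (show Commute (a * b) c from hc_comm _ hy).zpow_right k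
    have c2 : Commute a b := hcPQ a ha b hb
    rw [c1.mul_pow, c2.mul_pow]
    refine (FP ⊔ FQ).mul_mem (Subgroup.mul_mem_sup (sqP a ha) (sqQ b hb)) ?_
    have h3 : (c ^ k) ^ 2 = (c ^ 2) ^ k := by
      rw [← zpow_natCast, ← zpow_mul, mul_comm, zpow_mul, zpow_natCast]
    rw [h3]
    exact (FP ⊔ FQ).zpow_mem hc2D k
  have hDX : FP ⊔ FQ ≤ P ⊔ Q ⊔ Subgroup.zpowers c :=
    sup_le (hFPle.trans (le_sup_left.trans le_sup_left))
      (hFQle.trans (le_sup_right.trans le_sup_left))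
  generalize hX : P ⊔ Q ⊔ Subgroup.zpowers c = X at hsq hDX
  generalize hD : FP ⊔ FQ = D at hsq hDX hDn hc2D
  have hq2 : ∀ a : X ⧸ D.subgroupOf X, a ^ 2 = 1 := by
    intro a
    obtain ⟨x, rfl⟩ := QuotientGroup.mk_surjective a
    rw [← QuotientGroup.mk_pow, QuotientGroup.eq_one_iff, Subgroup.mem_subgroupOf]
    exact hsq x x.2
  have hqinv : ∀ a : X ⧸ D.subgroupOf X, a⁻¹ = a := fun a => by
    rw [inv_eq_iff_mul_eq_one, ← pow_two]; exact hq2 a
  have hqc : ∀ a b : X ⧸ D.subgroupOf X, a * b = b * a := fun a b => by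
    calc a * b = (a * b)⁻¹ := (hqinv _).symm
      _ = b⁻¹ * a⁻¹ := mul_inv_rev a b
      _ = b * a := by rw [hqinv, hqinv]
  have hcard := hr X (D.subgroupOf X) ⊤ ⟨⟨fun a b => Subtype.ext (hqc a b)⟩⟩ (fun a _ => hq2 a)
  rw [Subgroup.card_top] at hcard
  have hidx : Nat.card (X ⧸ D.subgroupOf X) = D.relIndex X := rfl
  rw [hidx] at hcard
  have e1 : Nat.card D * D.relIndex X = Nat.card X := Cfsg.Agent.Lib.Helper5.card_mul_relIndex hDX
  have e2 : Nat.card ↥(P ⊔ Q) = Nat.card P * Nat.card Q := by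
    have := Cfsg.Agent.Lib.Helper5.card_sup_mul_card_inf P Q
      (by rw [Subgroup.normalizer_eq_top]; exact le_top)
    rw [hPQ, Subgroup.card_bot, mul_one] at this; exact this
  have e3 : Nat.card D = Nat.card FP * Nat.card FQ := by
    have := Cfsg.Agent.Lib.Helper5.card_sup_mul_card_inf FP FQ
      (by rw [Subgroup.normalizer_eq_top]; exact le_top)
    have hbot : FP ⊓ FQ = ⊥ := eq_bot_iff.2 ((inf_le_inf hFPle hFQle).trans_eq hPQ)
    rw [hbot, Subgroup.card_bot, mul_one, hD] at this; exact this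
  have e4 : Nat.card FP * (frattini ↥P).index = Nat.card P := by
    rw [hFP, Subgroup.card_map_of_injective P.subtype_injective, Subgroup.card_mul_index]
  have e5 : Nat.card FQ * (frattini ↥Q).index = Nat.card Q := by
    rw [hFQ, Subgroup.card_map_of_injective Q.subtype_injective, Subgroup.card_mul_index]
  have e6 : 4 ≤ (frattini ↥P).index := four_le_index_frattini hP
  have e7 : 4 ≤ (frattini ↥Q).index := four_le_index_frattini hQ
  have e8 : 2 * Nat.card ↥(P ⊔ Q) ≤ Nat.card X := by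
    have hle : P ⊔ Q ≤ X := hX ▸ le_sup_left
    have hne' : P ⊔ Q ≠ X := fun h =>
      hcn (h ▸ hX ▸ Subgroup.mem_sup_right (Subgroup.mem_zpowers c))
    obtain ⟨m, hm⟩ := Subgroup.card_dvd_of_le hle
    have hXpos : 0 < Nat.card X := Nat.card_pos
    rcases m with _ | _ | m
    · omega
    · exfalso
      exact hne' (Subgroup.eq_of_le_of_card_ge hle (by omega))
    · rw [hm]; nlinarith
  have h16 : 16 ≤ (frattini ↥P).index * (frattini ↥Q).index := Nat.mul_le_mul e6 e7
  have hDpos : 0 < Nat.card D := Nat.card_pos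
  have f1 : Nat.card D * 32 ≤ Nat.card D * 16 := by
    calc Nat.card D * 32 ≤ Nat.card D * (2 * ((frattini ↥P).index * (frattini ↥Q).index)) :=
          Nat.mul_le_mul_left _ (by omega)
      _ = 2 * ((Nat.card FP * (frattini ↥P).index) * (Nat.card FQ * (frattini ↥Q).index)) := by
          rw [e3]; ring
      _ = 2 * Nat.card ↥(P ⊔ Q) := by rw [e4, e5, e2]
      _ ≤ Nat.card X := e8
      _ = Nat.card D * D.relIndex X := e1.symm
      _ ≤ Nat.card D * 16 := Nat.mul_le_mul_left _ (by simpa using hcard)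
  omega

end Cfsg.Agent.S4400
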