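import Cfsg.Statements.S4401
import Cfsg.Agent.S4400
import Cfsg.Agent.Lib.Helper23.SecRank

set_option autoImplicit false
open Cfsg

namespace Cfsg.Agent.S4401

theorem not_comm_of_equiv {A B : Type*} [Group A] [Group B] (e : A ≃* B)
    (h : ¬ IsMulCommutative A) : ¬ IsMulCommutative B := by
  intro hB
  apply h
  refine ⟨⟨fun a b => e.injective ?_⟩⟩
  rw [map_mul, map_mul]
  exact hB.is_comm.comm _ _

theorem lemK {S : Type*} [Group S] [Finite S] (h2 : IsPGroup 2 S)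
    (hr : Cfsg.SectionalPRankLE 2 4 S)
    (P S₀ : Subgroup S) (hP : ¬ IsMulCommutative ↥P) (hZP : Nat.card ↥(Subgroup.center ↥P) = 2)
    (z : S) (hzP : z ∈ P) (hz1 : z ≠ 1) (hzc : ∀ x ∈ P, x * z = z * x)
    (hzu : ∀ a ∈ P, (∀ x ∈ P, x * a = a * x) → a = 1 ∨ a = z)
    (hS₀ : ∀ g, g ∈ S₀ ↔ g * z = z * g) (hPn : ∀ s ∈ S₀, ∀ x ∈ P, s * x * s⁻¹ ∈ P)
    (t : S) (htN : ∀ g, g ∈ S₀ ↔ t * g * t⁻¹ ∈ S₀) (ht : t ∉ S₀) :
    (∀ x ∈ P, ∀ y ∈ P, x * (t * y * t⁻¹) = (t * y * t⁻¹) * x) ∧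
    (∀ x ∈ P, t * x * t⁻¹ ∈ P → x = 1) ∧
    (∀ c ∈ S₀, (∀ x ∈ P, x * c = c * x) → (∀ x ∈ P, (t * x * t⁻¹) * c = c * (t * x * t⁻¹)) →
      ∃ x ∈ P, ∃ y ∈ P, c = x * (t * y * t⁻¹)) := by
  have hPle : P ≤ S₀ := fun x hx => (hS₀ x).2 (hzc x hx)
  obtain ⟨Q, hQ⟩ : ∃ Q : Subgroup S, Q = P.map (MulAut.conj t).toMonoidHom := ⟨_, rfl⟩
  have hQmem : ∀ y, y ∈ Q ↔ ∃ x ∈ P, y = t * x * t⁻¹ := by
    intro y
    rw [hQ]
    constructor
    · rintro ⟨x, hx, rfl⟩
      exact ⟨x, hx, rfl⟩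
    · rintro ⟨x, hx, rfl⟩
      exact ⟨x, hx, rfl⟩
  have hQle : Q ≤ S₀ := by
    intro y hy
    obtain ⟨x, hx, rfl⟩ := (hQmem y).1 hy
    exact (htN x).1 (hPle hx)
  have hPn' : (P.subgroupOf S₀).Normal :=
    (Subgroup.normal_subgroupOf_iff hPle).2 (fun h k hh hk => hPn k hk h hh)
  have hQn' : (Q.subgroupOf S₀).Normal := (Subgroup.normal_subgroupOf_iff hQle).2 (by
    intro h k hh hk
    obtain ⟨x, hx, rfl⟩ := (hQmem h).1 hh
    have hk' : t⁻¹ * k * t ∈ S₀ := by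
      rw [htN]
      have e : t * (t⁻¹ * k * t) * t⁻¹ = k := by group
      rw [e]; exact hk
    exact (hQmem _).2 ⟨(t⁻¹ * k * t) * x * (t⁻¹ * k * t)⁻¹, hPn _ hk' x hx, by group⟩)
  let eP : P.subgroupOf S₀ ≃* P := Subgroup.subgroupOfEquivOfLe hPle
  let eQ : Q.subgroupOf S₀ ≃* Q := Subgroup.subgroupOfEquivOfLe hQle
  have eC : Nonempty (P ≃* Q) := by
    rw [hQ]
    exact ⟨(MulAut.conj t).subgroupMap P⟩
  obtain ⟨eC⟩ := eC
  have hP' : ¬ IsMulCommutative ↥(P.subgroupOf S₀) := not_comm_of_equiv eP.symm hP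
  have hQ' : ¬ IsMulCommutative ↥(Q.subgroupOf S₀) := not_comm_of_equiv (eC.trans eQ.symm) hP
  have hZP' : Nat.card ↥(Subgroup.center ↥(P.subgroupOf S₀)) = 2 := by
    rw [Nat.card_congr (Subgroup.centerCongr eP).toEquiv]; exact hZP
  have hZQ' : Nat.card ↥(Subgroup.center ↥(Q.subgroupOf S₀)) = 2 := by
    rw [Nat.card_congr (Subgroup.centerCongr (eQ.trans eC.symm)).toEquiv]; exact hZP
  have hne : (Subgroup.center ↥(P.subgroupOf S₀)).map (P.subgroupOf S₀).subtype ≠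
      (Subgroup.center ↥(Q.subgroupOf S₀)).map (Q.subgroupOf S₀).subtype := by
    intro heq
    have hz'Q : t * z * t⁻¹ ∈ Q := (hQmem _).2 ⟨z, hzP, rfl⟩
    have hmem : (⟨t * z * t⁻¹, hQle hz'Q⟩ : S₀) ∈
        (Subgroup.center ↥(Q.subgroupOf S₀)).map (Q.subgroupOf S₀).subtype := by
      refine ⟨⟨⟨t * z * t⁻¹, hQle hz'Q⟩, Subgroup.mem_subgroupOf.2 hz'Q⟩, ?_, rfl⟩
      rw [SetLike.mem_coe, Subgroup.mem_center_iff]
      intro g
      apply Subtype.ext
      apply Subtype.ext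
      obtain ⟨x, hx, hgx⟩ := (hQmem _).1 (Subgroup.mem_subgroupOf.1 g.2)
      show ((g : S₀) : S) * (t * z * t⁻¹) = (t * z * t⁻¹) * ((g : S₀) : S)
      rw [hgx]
      have h3 := hzc x hx
      calc t * x * t⁻¹ * (t * z * t⁻¹) = t * (x * z) * t⁻¹ := by group
        _ = t * (z * x) * t⁻¹ := by rw [h3]
        _ = _ := by group
    rw [← heq] at hmem
    obtain ⟨a, ha, hae⟩ := hmem
    rw [SetLike.mem_coe, Subgroup.mem_center_iff] at ha
    have hae' : (((a : S₀)) : S) = t * z * t⁻¹ := congrArg Subtype.val hae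
    have haP : t * z * t⁻¹ ∈ P := by
      have h1 := Subgroup.mem_subgroupOf.1 a.2
      rwa [hae'] at h1
    have hcen : ∀ x ∈ P, x * (t * z * t⁻¹) = (t * z * t⁻¹) * x := by
      intro x hx
      have h1 := ha ⟨⟨x, hPle hx⟩, Subgroup.mem_subgroupOf.2 hx⟩
      have h3 : x * (((a : S₀)) : S) = (((a : S₀)) : S) * x :=
        congrArg (fun u : ↥(P.subgroupOf S₀) => ((u : S₀) : S)) h1
      rwa [hae'] at h3
    rcases hzu _ haP hcen with h | h
    · apply hz1
      have e : z = t⁻¹ * (t * z * t⁻¹) * t := by group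
      rw [e, h]; group
    · apply ht
      rw [hS₀]
      calc t * z = (t * z * t⁻¹) * t := by group
        _ = z * t := by rw [h]
  obtain ⟨r1, r2, r3⟩ := Cfsg.Agent.S4400.result (h2.to_subgroup S₀)
    (Cfsg.Agent.Lib.Helper23.sectionalPRankLE_subgroup hr S₀) (P.subgroupOf S₀) (Q.subgroupOf S₀)
    hP' hQ' hZP' hZQ' hne
  refine ⟨?_, ?_, ?_⟩
  · intro x hx y hy
    have hc := Subgroup.commutator_eq_bot_iff_le_centralizer.1 r1
    have hyQ : t * y * t⁻¹ ∈ Q := (hQmem _).2 ⟨y, hy, rfl⟩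
    have hx₀ : (⟨x, hPle hx⟩ : S₀) ∈ P.subgroupOf S₀ := Subgroup.mem_subgroupOf.2 hx
    have hy₀ : (⟨t * y * t⁻¹, hQle hyQ⟩ : S₀) ∈ Q.subgroupOf S₀ := Subgroup.mem_subgroupOf.2 hyQ
    have h3 := Subgroup.mem_centralizer_iff.1 (hc hx₀) _ hy₀
    exact (congrArg Subtype.val h3).symm
  · intro x hx hxt
    have hxQ : t * x * t⁻¹ ∈ Q := (hQmem _).2 ⟨x, hx, rfl⟩
    have h3 : (⟨t * x * t⁻¹, hQle hxQ⟩ : S₀) ∈ P.subgroupOf S₀ ⊓ Q.subgroupOf S₀ :=
      Subgroup.mem_inf.2 ⟨Subgroup.mem_subgroupOf.2 hxt, Subgroup.mem_subgroupOf.2 hxQ⟩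
    rw [r2, Subgroup.mem_bot] at h3
    have h4 : t * x * t⁻¹ = 1 := congrArg Subtype.val h3
    have e : x = t⁻¹ * (t * x * t⁻¹) * t := by group
    rw [e, h4]; group
  · intro c hc hcP hcQ
    have hle : P.subgroupOf S₀ ⊔ Q.subgroupOf S₀ ≤ Subgroup.centralizer {(⟨c, hc⟩ : S₀)} := by
      refine sup_le ?_ ?_
      · intro g hg
        rw [Subgroup.mem_centralizer_singleton_iff]
        exact Subtype.ext (hcP g (Subgroup.mem_subgroupOf.1 hg))
      · intro g hg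
        rw [Subgroup.mem_centralizer_singleton_iff]
        obtain ⟨x, hx, hgx⟩ := (hQmem _).1 (Subgroup.mem_subgroupOf.1 hg)
        apply Subtype.ext
        show (g : S) * c = c * (g : S)
        rw [hgx]
        exact hcQ x hx
    have hcc : (⟨c, hc⟩ : S₀) ∈ Subgroup.centralizer
        ((P.subgroupOf S₀ ⊔ Q.subgroupOf S₀ : Subgroup S₀) : Set S₀) :=
      Subgroup.mem_centralizer_iff.2 fun h hh => Subgroup.mem_centralizer_singleton_iff.1 (hle hh)
    have h0 : (⟨c, hc⟩ : S₀) ∈ ((P.subgroupOf S₀ ⊔ Q.subgroupOf S₀ : Subgroup S₀) : Set S₀) :=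
      r3 hcc
    rw [Subgroup.normal_mul] at h0
    obtain ⟨a, ha, b, hb, hab⟩ := Set.mem_mul.1 h0
    obtain ⟨y, hy, hby⟩ := (hQmem _).1 (Subgroup.mem_subgroupOf.1 hb)
    refine ⟨a, Subgroup.mem_subgroupOf.1 ha, y, hy, ?_⟩
    rw [← hby]
    exact (congrArg Subtype.val hab).symm

/-- Let S be a finite 2-group of sectional 2-rank at most 4 and P a proper non-abelian subgroup whose centre has order 2. Let S₀ be the centralizer in S of Z(P) and suppose P is normal in S₀. Then either S₀ = S, or P has sectional 2-rank at most 2 and S₀ has index 2 in S. -/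
theorem result {S : Type*} [Group S] [Finite S] (h2 : IsPGroup 2 S) (hr : Cfsg.SectionalPRankLE 2 4 S)
    (P : Subgroup S) (hPlt : P ≠ ⊤) (hP : ¬ IsMulCommutative ↥P) (hZP : Nat.card ↥(Subgroup.center ↥P) = 2)
    (S₀ : Subgroup S) (hS₀ : S₀ = Subgroup.centralizer (((Subgroup.center ↥P).map P.subtype : Subgroup S) : Set S))
    (hPn : ∀ s ∈ S₀, ∀ x ∈ P, s * x * s⁻¹ ∈ P) :
    S₀ = ⊤ ∨ (Cfsg.SectionalPRankLE 2 2 ↥P ∧ S₀.index = 2) := by
  obtain ⟨z₀, hz₀, huniq⟩ := (Nat.card_eq_two_iff' (1 : Subgroup.center ↥P)).1 hZP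
  obtain ⟨z, hzdef⟩ : ∃ z : S, z = ((z₀ : P) : S) := ⟨_, rfl⟩
  have hzP : z ∈ P := by rw [hzdef]; exact (z₀ : P).2
  have hz1 : z ≠ 1 := by
    intro h
    apply hz₀
    apply Subtype.ext
    apply Subtype.ext
    rw [← hzdef]; exact h
  have hzc : ∀ x ∈ P, x * z = z * x := by
    intro x hx
    rw [hzdef]
    exact congrArg Subtype.val (Subgroup.mem_center_iff.1 z₀.2 ⟨x, hx⟩)
  have hzu : ∀ a ∈ P, (∀ x ∈ P, x * a = a * x) → a = 1 ∨ a = z := by
    intro a ha hax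
    have hac : (⟨a, ha⟩ : P) ∈ Subgroup.center P := by
      rw [Subgroup.mem_center_iff]
      intro g
      exact Subtype.ext (hax g g.2)
    by_cases h1 : (⟨⟨a, ha⟩, hac⟩ : Subgroup.center P) = 1
    · left
      exact congrArg (fun u : Subgroup.center P => ((u : P) : S)) h1
    · right
      rw [hzdef]
      exact congrArg (fun u : Subgroup.center P => ((u : P) : S)) (huniq _ h1)
  have hS₀m : ∀ g, g ∈ S₀ ↔ g * z = z * g := by
    intro g
    rw [hS₀, Subgroup.mem_centralizer_iff]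
    constructor
    · intro h
      exact (h z ⟨(z₀ : P), z₀.2, hzdef.symm⟩).symm
    · rintro h _ ⟨a, ha, rfl⟩
      have hax : ∀ x ∈ P, x * (a : S) = a * x := fun x hx =>
        congrArg Subtype.val (Subgroup.mem_center_iff.1 ha ⟨x, hx⟩)
      show (a : S) * g = g * a
      rcases hzu a a.2 hax with h1 | h1
      · rw [h1]; simp
      · rw [h1]; exact h.symm
  have hz2 : z * z = 1 := by
    have h3 := pow_card_eq_one' (x := z₀)
    rw [hZP, pow_two] at h3
    rw [hzdef]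
    exact congrArg (fun u : Subgroup.center P => ((u : P) : S)) h3
  have hzinv : z⁻¹ = z := inv_eq_of_mul_eq_one_left hz2
  by_cases hS : S₀ = ⊤
  · left; exact hS
  right
  have K := fun t htN ht => lemK h2 hr P S₀ hP hZP z hzP hz1 hzc hzu hS₀m hPn t htN ht
  have hnil : Group.IsNilpotent S := h2.isNilpotent
  have hNC := Group.normalizerCondition_of_isNilpotent (G := S)
  obtain ⟨T, hTdef⟩ : ∃ T : Subgroup S, T = Subgroup.normalizer (S₀ : Set S) := ⟨_, rfl⟩
  have hTm : ∀ t, t ∈ T ↔ ∀ g, g ∈ S₀ ↔ t * g * t⁻¹ ∈ S₀ := by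
    intro t
    rw [hTdef]
    exact Subgroup.mem_normalizer_iff
  have hlt : S₀ < T := by
    rw [hTdef]
    exact hNC S₀ (lt_top_iff_ne_top.2 hS)
  obtain ⟨s, hsT, hsS⟩ := SetLike.exists_of_lt hlt
  have hS₀T : S₀ ≤ T := hlt.le
  have hPle : P ≤ S₀ := fun x hx => (hS₀m x).2 (hzc x hx)
  obtain ⟨px, hpx, py, hpy, hpxy⟩ : ∃ x ∈ P, ∃ y ∈ P, x * y ≠ y * x := by
    by_contra hcon
    push Not at hcon
    exact hP ⟨⟨fun a b => Subtype.ext (hcon a a.2 b b.2)⟩⟩
  have I3 : ∀ t₁ ∈ T, t₁ ∉ S₀ → ∀ t₂ ∈ T, t₂ ∉ S₀ → t₁⁻¹ * t₂ ∈ S₀ := by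
    intro t₁ h1T h1 t₂ h2T h2'
    by_contra h3
    have h3T : t₁⁻¹ * t₂ ∈ T := T.mul_mem (T.inv_mem h1T) h2T
    obtain ⟨a1, -, c1⟩ := K t₁ ((hTm t₁).1 h1T) h1
    obtain ⟨a2, -, -⟩ := K t₂ ((hTm t₂).1 h2T) h2'
    obtain ⟨a3, -, -⟩ := K (t₁⁻¹ * t₂) ((hTm _).1 h3T) h3
    have hc12 : ∀ x ∈ P, ∀ y ∈ P,
        (t₁ * x * t₁⁻¹) * (t₂ * y * t₂⁻¹) = (t₂ * y * t₂⁻¹) * (t₁ * x * t₁⁻¹) := by
      intro x hx y hy
      have h := a3 x hx y hy
      calc (t₁ * x * t₁⁻¹) * (t₂ * y * t₂⁻¹)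
          = t₁ * (x * ((t₁⁻¹ * t₂) * y * (t₁⁻¹ * t₂)⁻¹)) * t₁⁻¹ := by group
        _ = t₁ * (((t₁⁻¹ * t₂) * y * (t₁⁻¹ * t₂)⁻¹) * x) * t₁⁻¹ := by rw [h]
        _ = _ := by group
    apply hpxy
    have hrS : ∀ y ∈ P, t₂ * y * t₂⁻¹ ∈ S₀ := fun y hy => ((hTm t₂).1 h2T y).1 (hPle hy)
    obtain ⟨a, ha, b, hb, hab⟩ := c1 (t₂ * px * t₂⁻¹) (hrS px hpx)
      (fun x hx => a2 x hx px hpx) (fun x hx => hc12 x hx px hpx)
    have e1 : (t₂ * px * t₂⁻¹) * (t₂ * py * t₂⁻¹) = (t₂ * py * t₂⁻¹) * (t₂ * px * t₂⁻¹) := by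
      rw [hab]
      calc a * (t₁ * b * t₁⁻¹) * (t₂ * py * t₂⁻¹)
          = a * ((t₁ * b * t₁⁻¹) * (t₂ * py * t₂⁻¹)) := mul_assoc _ _ _
        _ = a * ((t₂ * py * t₂⁻¹) * (t₁ * b * t₁⁻¹)) := by rw [hc12 b hb py hpy]
        _ = (a * (t₂ * py * t₂⁻¹)) * (t₁ * b * t₁⁻¹) := (mul_assoc _ _ _).symm
        _ = ((t₂ * py * t₂⁻¹) * a) * (t₁ * b * t₁⁻¹) := by rw [a2 a ha py hpy]
        _ = (t₂ * py * t₂⁻¹) * (a * (t₁ * b * t₁⁻¹)) := mul_assoc _ _ _
    have e2 : t₂ * (px * py) * t₂⁻¹ = t₂ * (py * px) * t₂⁻¹ := by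
      calc t₂ * (px * py) * t₂⁻¹ = (t₂ * px * t₂⁻¹) * (t₂ * py * t₂⁻¹) := by group
        _ = (t₂ * py * t₂⁻¹) * (t₂ * px * t₂⁻¹) := e1
        _ = t₂ * (py * px) * t₂⁻¹ := by group
    exact mul_left_cancel (mul_right_cancel e2)
  have I3' : ∀ a ∈ T, a ∉ S₀ → ∀ b ∈ T, b ∉ S₀ → a * b ∈ S₀ := by
    intro a haT ha b hbT hb
    have h3 := I3 a⁻¹ (T.inv_mem haT) (fun h => ha (by simpa using S₀.inv_mem h)) b hbT hb
    simpa using h3
  have hnorm : ∀ a ∈ T, ∀ g ∈ S₀, a * g * a⁻¹ ∈ S₀ := fun a ha g hg => ((hTm a).1 ha g).1 hg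
  have hTtop : T = ⊤ := by
    by_contra hT
    have hlt2 := hNC T (lt_top_iff_ne_top.2 hT)
    obtain ⟨u, huN, huT⟩ := SetLike.exists_of_lt hlt2
    have huN' : ∀ g, g ∈ T ↔ u * g * u⁻¹ ∈ T := Subgroup.mem_normalizer_iff.1 huN
    have huinv : ∀ g ∈ T, u⁻¹ * g * u ∈ T := by
      intro g hg
      rw [huN']
      have e : u * (u⁻¹ * g * u) * u⁻¹ = g := by group
      rw [e]; exact hg
    have hzS₀ : z ∈ S₀ := hPle hzP
    obtain ⟨w, hw⟩ : ∃ w : S, w = u * z * u⁻¹ := ⟨_, rfl⟩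
    have hwT : w ∈ T := by rw [hw]; exact (huN' z).1 (hS₀T hzS₀)
    have hcw : ∀ g, (u⁻¹ * g * u) ∈ S₀ → g * w = w * g := by
      intro g hg
      have h := (hS₀m _).1 hg
      calc g * w = u * ((u⁻¹ * g * u) * z) * u⁻¹ := by rw [hw]; group
        _ = u * (z * (u⁻¹ * g * u)) * u⁻¹ := by rw [h]
        _ = w * g := by rw [hw]; group
    have F1 : ∀ a ∈ T, ∀ b ∈ T, a * b * a⁻¹ * b⁻¹ ∈ S₀ := by
      intro a ha b hb
      by_cases haS : a ∈ S₀
      · have h1 := hnorm b hb a⁻¹ (S₀.inv_mem haS)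
        have e : a * b * a⁻¹ * b⁻¹ = a * (b * a⁻¹ * b⁻¹) := by group
        rw [e]; exact S₀.mul_mem haS h1
      · by_cases hbS : b ∈ S₀
        · exact S₀.mul_mem (hnorm a ha b hbS) (S₀.inv_mem hbS)
        · have h1 := I3' a ha haS b hb hbS
          have h3 := I3' a⁻¹ (T.inv_mem ha) (fun h => haS (by simpa using S₀.inv_mem h))
            b⁻¹ (T.inv_mem hb) (fun h => hbS (by simpa using S₀.inv_mem h))
          have e : a * b * a⁻¹ * b⁻¹ = (a * b) * (a⁻¹ * b⁻¹) := by group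
          rw [e]; exact S₀.mul_mem h1 h3
    by_cases hwS : w ∈ S₀
    · obtain ⟨k1, k2, k3⟩ := K s ((hTm s).1 hsT) hsS
      obtain ⟨z', hz'⟩ : ∃ z' : S, z' = s * z * s⁻¹ := ⟨_, rfl⟩
      have hconj : ∀ g ∈ T, g ∉ S₀ → g * z * g⁻¹ = z' := by
        intro g hgT hg
        have h := (hS₀m _).1 (I3 s hsT hsS g hgT hg)
        calc g * z * g⁻¹ = s * ((s⁻¹ * g) * z) * g⁻¹ := by group
          _ = s * (z * (s⁻¹ * g)) * g⁻¹ := by rw [h]
          _ = z' := by rw [hz']; group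
      have hconj' : ∀ g ∈ T, g ∉ S₀ → g * z' * g⁻¹ = z := by
        intro g hgT hg
        have h := (hS₀m _).1 (I3' g hgT hg s hsT hsS)
        calc g * z' * g⁻¹ = ((g * s) * z) * (g * s)⁻¹ := by rw [hz']; group
          _ = (z * (g * s)) * (g * s)⁻¹ := by rw [h]
          _ = z := by group
      have hz'S : z' ∈ S₀ := by rw [hz']; exact hnorm s hsT z hzS₀
      have hzz' : z' * z = z * z' := (hS₀m _).1 hz'S
      have hz'c : ∀ g ∈ S₀, g * z' = z' * g := by
        intro g hg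
        have hg' : s⁻¹ * g * s ∈ S₀ := by
          have h3 := hnorm s⁻¹ (T.inv_mem hsT) g hg
          simpa using h3
        have h := (hS₀m _).1 hg'
        calc g * z' = s * ((s⁻¹ * g * s) * z) * s⁻¹ := by rw [hz']; group
          _ = s * (z * (s⁻¹ * g * s)) * s⁻¹ := by rw [h]
          _ = z' * g := by rw [hz']; group
      have hζ : ∀ g ∈ T, g * (z * z') = (z * z') * g := by
        intro g hgT
        by_cases hg : g ∈ S₀
        · calc g * (z * z') = (g * z) * z' := (mul_assoc _ _ _).symm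
            _ = (z * g) * z' := by rw [(hS₀m g).1 hg]
            _ = z * (g * z') := mul_assoc _ _ _
            _ = z * (z' * g) := by rw [hz'c g hg]
            _ = (z * z') * g := (mul_assoc _ _ _).symm
        · have h1 := hconj g hgT hg
          have h3 := hconj' g hgT hg
          calc g * (z * z') = (g * z * g⁻¹) * (g * z' * g⁻¹) * g := by group
            _ = z' * z * g := by rw [h1, h3]
            _ = (z * z') * g := by rw [hzz']
      obtain ⟨ω, hω⟩ : ∃ ω : S, ω = u * (z * z') * u⁻¹ := ⟨_, rfl⟩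
      have hωc : ∀ g ∈ T, g * ω = ω * g := by
        intro g hg
        have h := hζ _ (huinv g hg)
        calc g * ω = u * ((u⁻¹ * g * u) * (z * z')) * u⁻¹ := by rw [hω]; group
          _ = u * ((z * z') * (u⁻¹ * g * u)) * u⁻¹ := by rw [h]
          _ = ω * g := by rw [hω]; group
      have hzz'ne : z' ≠ z := by
        intro h
        apply hsS
        rw [hS₀m]
        calc s * z = (s * z * s⁻¹) * s := by group
          _ = z * s := by rw [← hz', h]
      have hωP : ω ∉ P := by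
        intro hP'
        rcases hzu ω hP' (fun x hx => hωc x (hS₀T (hPle hx))) with h | h
        · have h1 : z * z' = 1 := by
            have e : z * z' = u⁻¹ * ω * u := by rw [hω]; group
            rw [e, h]; group
          exact hzz'ne (mul_left_cancel (h1.trans hz2.symm))
        · apply hsS
          rw [hS₀m]
          have h3 := hωc s hsT
          rwa [h] at h3
      have claim : ∀ t ∈ T, ∀ y ∈ P, (t * y * t⁻¹) * w = w * (t * y * t⁻¹) := by
        intro t htT y hy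
        obtain ⟨r, hrdef⟩ : ∃ r : S, r = t * y * t⁻¹ := ⟨_, rfl⟩
        rw [← hrdef]
        have hrS : r ∈ S₀ := by rw [hrdef]; exact hnorm t htT y (hPle hy)
        have hr'T : u⁻¹ * r * u ∈ T := huinv r (hS₀T hrS)
        by_cases hr' : u⁻¹ * r * u ∈ S₀
        · exact hcw r hr'
        · exfalso
          have h1 := hconj _ hr'T hr'
          have h3 : r * w * r⁻¹ * w⁻¹ = ω := by
            calc r * w * r⁻¹ * w⁻¹
                = u * (((u⁻¹ * r * u) * z * (u⁻¹ * r * u)⁻¹) * z⁻¹) * u⁻¹ := by rw [hw]; group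
              _ = u * (z' * z⁻¹) * u⁻¹ := by rw [h1]
              _ = ω := by rw [hω, hzinv, hzz']
          have hw' : t⁻¹ * w * t ∈ S₀ := by
            have h4 := hnorm t⁻¹ (T.inv_mem htT) w hwS
            simpa using h4
          have h4 : y * ((t⁻¹ * w * t) * y⁻¹ * (t⁻¹ * w * t)⁻¹) ∈ P :=
            P.mul_mem hy (hPn _ hw' _ (P.inv_mem hy))
          have h5 : t⁻¹ * ω * t = y * ((t⁻¹ * w * t) * y⁻¹ * (t⁻¹ * w * t)⁻¹) := by
            rw [← h3, hrdef]; group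
          have h6 : t⁻¹ * ω * t = ω := by
            have h7 := hωc t htT
            calc t⁻¹ * ω * t = t⁻¹ * (ω * t) := by group
              _ = t⁻¹ * (t * ω) := by rw [h7]
              _ = ω := by group
          apply hωP
          rw [← h6, h5]; exact h4
      have hwP : ∀ x ∈ P, x * w = w * x := by
        intro x hx
        have h3 := claim 1 T.one_mem x hx
        simpa using h3
      have hwQ : ∀ x ∈ P, (s * x * s⁻¹) * w = w * (s * x * s⁻¹) := fun x hx => claim s hsT x hx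
      obtain ⟨a, ha, b, hb, hab⟩ := k3 w hwS hwP hwQ
      have haZ : a = 1 ∨ a = z := by
        apply hzu a ha
        intro x hx
        have h1 := hwP x hx
        rw [hab] at h1
        have h3 := k1 x hx b hb
        have h4 : x * a * (s * b * s⁻¹) = a * x * (s * b * s⁻¹) := by
          calc x * a * (s * b * s⁻¹) = x * (a * (s * b * s⁻¹)) := mul_assoc _ _ _
            _ = a * (s * b * s⁻¹) * x := h1
            _ = a * ((s * b * s⁻¹) * x) := mul_assoc _ _ _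
            _ = a * (x * (s * b * s⁻¹)) := by rw [h3]
            _ = a * x * (s * b * s⁻¹) := (mul_assoc _ _ _).symm
        exact mul_right_cancel h4
      have hbZ : b = 1 ∨ b = z := by
        apply hzu b hb
        intro x hx
        have h1 := hwQ x hx
        rw [hab] at h1
        have h3 := k1 a ha x hx
        have h4 : a * ((s * x * s⁻¹) * (s * b * s⁻¹)) = a * ((s * b * s⁻¹) * (s * x * s⁻¹)) := by
          calc a * ((s * x * s⁻¹) * (s * b * s⁻¹))
              = (a * (s * x * s⁻¹)) * (s * b * s⁻¹) := (mul_assoc _ _ _).symm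
            _ = ((s * x * s⁻¹) * a) * (s * b * s⁻¹) := by rw [h3]
            _ = (s * x * s⁻¹) * (a * (s * b * s⁻¹)) := mul_assoc _ _ _
            _ = a * (s * b * s⁻¹) * (s * x * s⁻¹) := h1
            _ = a * ((s * b * s⁻¹) * (s * x * s⁻¹)) := mul_assoc _ _ _
        have h5 := mul_left_cancel h4
        have h6 : s * (x * b) * s⁻¹ = s * (b * x) * s⁻¹ := by
          calc s * (x * b) * s⁻¹ = (s * x * s⁻¹) * (s * b * s⁻¹) := by group
            _ = (s * b * s⁻¹) * (s * x * s⁻¹) := h5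
            _ = s * (b * x) * s⁻¹ := by group
        exact mul_left_cancel (mul_right_cancel h6)
      rcases haZ with ha1 | ha1 <;> rcases hbZ with hb1 | hb1
      · apply hz1
        have h3 : w = 1 := by rw [hab, ha1, hb1]; group
        have e : z = u⁻¹ * w * u := by rw [hw]; group
        rw [e, h3]; group
      · apply huT
        have h3 : w = z' := by rw [hab, ha1, hb1, one_mul, hz']
        have h4 : s⁻¹ * u ∈ S₀ := by
          rw [hS₀m]
          calc (s⁻¹ * u) * z = s⁻¹ * (u * z * u⁻¹) * u := by group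
            _ = s⁻¹ * (s * z * s⁻¹) * u := by rw [← hw, h3, hz']
            _ = z * (s⁻¹ * u) := by group
        have e : u = s * (s⁻¹ * u) := by group
        rw [e]
        exact T.mul_mem hsT (hS₀T h4)
      · apply huT
        apply hS₀T
        rw [hS₀m]
        have h3 : w = z := by rw [hab, ha1, hb1]; group
        calc u * z = (u * z * u⁻¹) * u := by group
          _ = z * u := by rw [← hw, h3]
      · apply hsS
        rw [hS₀m]
        have h3 : w = z * z' := by rw [hab, ha1, hb1, hz']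
        have h4 := hζ (u * s * u⁻¹) ((huN' s).1 hsT)
        rw [← h3, hw] at h4
        have h5 : u * (s * z) * u⁻¹ = u * (z * s) * u⁻¹ := by
          calc u * (s * z) * u⁻¹ = u * s * u⁻¹ * (u * z * u⁻¹) := by group
            _ = u * z * u⁻¹ * (u * s * u⁻¹) := h4
            _ = u * (z * s) * u⁻¹ := by group
        exact mul_left_cancel (mul_right_cancel h5)
    · obtain ⟨-, k2, -⟩ := K w ((hTm w).1 hwT) hwS
      obtain ⟨c, hc⟩ : ∃ c : S, c = px * py * px⁻¹ * py⁻¹ := ⟨_, rfl⟩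
      have hcP : c ∈ P := by
        rw [hc]
        exact P.mul_mem (P.mul_mem (P.mul_mem hpx hpy) (P.inv_mem hpx)) (P.inv_mem hpy)
      have hc1 : c ≠ 1 := by
        intro h
        apply hpxy
        have e : px * py = c * (py * px) := by rw [hc]; group
        rw [e, h, one_mul]
      have hcu : u⁻¹ * c * u ∈ S₀ := by
        have e : u⁻¹ * c * u = (u⁻¹ * px * u) * (u⁻¹ * py * u) * (u⁻¹ * px * u)⁻¹ *
            (u⁻¹ * py * u)⁻¹ := by rw [hc]; group
        rw [e]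
        exact F1 _ (huinv _ (hS₀T (hPle hpx))) _ (huinv _ (hS₀T (hPle hpy)))
      have h3 := hcw c hcu
      apply hc1
      apply k2 c hcP
      have e : w * c * w⁻¹ = c := by rw [← h3]; group
      rw [e]; exact hcP
  refine ⟨?_, ?_⟩
  · obtain ⟨k1, k2, -⟩ := K s ((hTm s).1 hsT) hsS
    let φ : P × P →* S := MonoidHom.noncommCoprod P.subtype
      ((MulAut.conj s).toMonoidHom.comp P.subtype) (fun a b => k1 a a.2 b b.2)
    have hφ : Function.Injective φ := by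
      rw [injective_iff_map_eq_one]
      rintro ⟨a, b⟩ hab
      have h1 : (a : S) * (s * b * s⁻¹) = 1 := hab
      have h3 : s * (b : S) * s⁻¹ ∈ P := by
        have e : s * (b : S) * s⁻¹ = (a : S)⁻¹ := eq_inv_of_mul_eq_one_right h1
        rw [e]; exact P.inv_mem a.2
      have hb1 : (b : S) = 1 := k2 b b.2 h3
      have ha1 : (a : S) = 1 := by
        rw [hb1] at h1
        simpa using h1
      exact Prod.ext (Subtype.ext ha1) (Subtype.ext hb1)
    exact Cfsg.Agent.Lib.Helper23.sectionalPRankLE_of_prod_self (k := 2)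
      (Cfsg.Agent.Lib.Helper23.sectionalPRankLE_of_injective φ hφ hr)
  · rw [Subgroup.index_eq_two_iff_exists_notMem_and]
    refine ⟨s, hsS, fun b => ?_⟩
    by_cases hb : b ∈ S₀
    · right; exact hb
    · left
      have hbT : b ∈ T := hTtop ▸ Subgroup.mem_top b
      exact I3' b hbT hb s hsT hsS

end Cfsg.Agent.S4401
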