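import Cfsg.Statements.S4403
import Cfsg.Agent.Lib.Helper21.CyclicSylow
import Cfsg.Agent.Lib.Helper10.Components
import Cfsg.Agent.Lib.Helper10.PCore
import Cfsg.Agent.Lib.Helper1.Fitting
import Cfsg.Agent.Lib.Helper5.PCore

set_option autoImplicit false
open Cfsg

namespace Cfsg.Agent.S4403

open Subgroup Cfsg.Agent.Lib.Helper21 in
open scoped Pointwise in
/-- every nontrivial normal subgroup contains the elements of order `p` of `P`. -/
theorem mem_normal {K : Type*} [Group K] [Finite K] (p : ℕ) [hp : Fact p.Prime]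
    (hO : Cfsg.pPrimeCore p K = ⊥) (P : Sylow p K) (hP : IsCyclic ↥(P : Subgroup K))
    (hPc : ∀ a ∈ (P : Subgroup K), ∀ b ∈ (P : Subgroup K), a * b = b * a)
    {z : K} (hzP : z ∈ (P : Subgroup K)) (hz : orderOf z = p)
    (N : Subgroup K) (hN : N.Normal) (hN1 : N ≠ ⊥) : z ∈ N := by
  have hpN : p ∣ Nat.card N := by
    by_contra hnd
    have hc : (Nat.card N).Coprime p := ((Nat.Prime.coprime_iff_not_dvd hp.out).2 hnd).symm
    have := Cfsg.Agent.Lib.Helper5.le_pPrimeCore hN hc
    rw [hO] at this
    exact hN1 (le_bot_iff.1 this)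
  obtain ⟨w0, hw0⟩ := exists_prime_orderOf_dvd_card' (G := ↥N) p hpN
  have hw : orderOf (w0 : K) = p := by rw [Subgroup.orderOf_coe]; exact hw0
  have hwP : IsPGroup p (zpowers (w0 : K)) := by
    apply IsPGroup.of_card (n := 1)
    rw [Nat.card_zpowers, hw, pow_one]
  obtain ⟨Q, hQ⟩ := hwP.exists_le_sylow
  obtain ⟨g, hg⟩ := MulAction.exists_smul_eq K P Q
  have hQ' : (Q : Subgroup K) = MulAut.conj g • (P : Subgroup K) := by rw [← hg]; rfl
  have hwQ : (w0 : K) ∈ MulAut.conj g • (P : Subgroup K) := by
    rw [← hQ']; exact hQ (mem_zpowers _)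
  obtain ⟨s, hs, hsw⟩ := Subgroup.mem_smul_pointwise_iff_exists _ _ _ |>.1 hwQ
  have hsw' : g * s * g⁻¹ = (w0 : K) := by simpa [MulAut.smul_def] using hsw
  have hs1 : s ≠ 1 := by
    rintro rfl
    have : (w0 : K) = 1 := by rw [← hsw']; simp
    rw [this, orderOf_one] at hw
    exact hp.out.one_lt.ne hw
  have hsp : s ^ p = 1 := by
    have h1 : (g * s * g⁻¹) ^ p = 1 := by rw [hsw', ← hw, pow_orderOf_eq_one]
    rw [conj_pow, conj_eq_one_iff] at h1
    exact h1
  have hso : orderOf s = p := orderOf_eq_prime hsp hs1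
  have hsN : s ∈ N := by
    have h1 : g⁻¹ * (w0 : K) * g⁻¹⁻¹ ∈ N := hN.conj_mem _ w0.2 g⁻¹
    rw [← hsw'] at h1
    have h2 : g⁻¹ * (g * s * g⁻¹) * g⁻¹⁻¹ = s := by group
    rwa [h2] at h1
  have hzz : z ∈ zpowers s :=
    mem_zpowers_of_commute_cyc P hP hso (by rw [← hz, pow_orderOf_eq_one]) (hPc s hs z hzP)
  exact (zpowers_le.2 hsN) hzz

open Subgroup Cfsg.Agent.Lib.Helper21 Cfsg.Agent.Lib.Helper10 in
open scoped commutatorElement in
/-- Let K be a finite group, p a prime dividing its order with O_{p'}(K) = 1 (no nontrivial normal subgroup of order prime to p), and P a cyclic Sylow p-subgroup of K. Then either P is normal and self-centralizing in K with K/P cyclic of order dividing p − 1 (so K is the semidirect product of P by a group of automorphisms of P of order dividing p − 1), or the generalized Fitting subgroup F*(K) is a non-abelian simple group and p does not divide the index of F*(K) in K. -/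
theorem result {K : Type*} [Group K] [Finite K] (p : ℕ) [Fact p.Prime] (hp : p ∣ Nat.card K) (hO : Cfsg.pPrimeCore p K = ⊥)
    (P : Sylow p K) (hP : IsCyclic ↥(P : Subgroup K)) :
    ((P : Subgroup K).Normal ∧ Subgroup.centralizer ((P : Subgroup K) : Set K) = (P : Subgroup K) ∧
      (∀ (_ : (P : Subgroup K).Normal), IsCyclic (K ⧸ (P : Subgroup K))) ∧ (P : Subgroup K).index ∣ p - 1) ∨
    (IsSimpleGroup ↥(Cfsg.generalizedFittingSubgroup K) ∧ ¬ IsMulCommutative ↥(Cfsg.generalizedFittingSubgroup K) ∧
      ¬ p ∣ (Cfsg.generalizedFittingSubgroup K).index) := by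
  classical
  have hpp : p.Prime := Fact.out
  obtain ⟨x0, hx0⟩ := IsCyclic.exists_generator (α := (P : Subgroup K))
  have hgen : ∀ c ∈ (P : Subgroup K), c ∈ zpowers (x0 : K) := by
    intro c hc
    obtain ⟨j, hj⟩ := mem_zpowers_iff.1 (hx0 ⟨c, hc⟩)
    refine mem_zpowers_iff.2 ⟨j, ?_⟩
    have := congrArg Subtype.val hj
    simpa using this
  have hPc : ∀ a ∈ (P : Subgroup K), ∀ b ∈ (P : Subgroup K), a * b = b * a := by
    intro a ha b hb
    obtain ⟨i, rfl⟩ := mem_zpowers_iff.1 (hgen a ha)
    obtain ⟨j, rfl⟩ := mem_zpowers_iff.1 (hgen b hb)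
    exact (((Commute.refl (x0 : K)).zpow_left i).zpow_right j).eq
  have hPcard : p ∣ Nat.card (P : Subgroup K) := by
    have h1 : (P : Subgroup K) ≠ ⊥ := P.ne_bot_of_dvd_card hp
    obtain ⟨n, hn⟩ := IsPGroup.iff_card.1 P.2
    rw [hn]
    rcases Nat.eq_zero_or_pos n with rfl | hn0
    · rw [pow_zero] at hn
      exact absurd (Subgroup.card_eq_one.1 hn) h1
    · exact dvd_pow_self p hn0.ne'
  obtain ⟨z0, hz0⟩ := exists_prime_orderOf_dvd_card' (G := ↥(P : Subgroup K)) p hPcard
  have hz : orderOf (z0 : K) = p := by rw [Subgroup.orderOf_coe]; exact hz0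
  have hzP : (z0 : K) ∈ (P : Subgroup K) := z0.2
  have hz1 : (z0 : K) ≠ 1 := by
    intro h
    rw [h, orderOf_one] at hz
    exact hpp.one_lt.ne hz
  have hzp : (z0 : K) ^ p = 1 := by
    have := pow_orderOf_eq_one (z0 : K)
    rwa [hz] at this
  have hR2 := fun N hN hN1 => mem_normal p hO P hP hPc hzP hz N hN hN1
  by_cases hOp : Cfsg.pCore p K = ⊥
  · -- the simple case
    right
    have hF : Cfsg.fittingSubgroup K = ⊥ := by
      rw [Cfsg.Agent.Lib.Helper1.fitting_eq_pCore_of_pPrimeCore_eq_bot p hO, hOp]
    have hFs : Cfsg.generalizedFittingSubgroup K = Cfsg.layer K := by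
      unfold Cfsg.generalizedFittingSubgroup
      rw [hF, sup_bot_eq]
    have hE1 : Cfsg.layer K ≠ ⊥ := by
      intro h
      have h1 := centralizer_genFitting_le K
      rw [hFs, h] at h1
      have h2 : (z0 : K) ∈ centralizer (((⊥ : Subgroup K) : Subgroup K) : Set K) := by
        rw [mem_centralizer_iff]
        intro c hc
        have : c = 1 := by simpa using hc
        rw [this]; simp
      exact hz1 (Subgroup.mem_bot.1 (h1 h2))
    obtain ⟨L, hL⟩ : ∃ L : Subgroup K, Cfsg.IsComponent L := by
      by_contra hno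
      push Not at hno
      apply hE1
      rw [← le_bot_iff, layer_le_iff]
      intro L hL
      exact absurd hL (hno L)
    have hZ : ∀ L : Subgroup K, Cfsg.IsComponent L → ∀ g ∈ L, (∀ l ∈ L, g * l = l * g) → g = 1 := by
      intro L hL g hg hgl
      have h1 : g ∈ Cfsg.layer K ⊓ centralizer (Cfsg.layer K : Set K) := by
        refine Subgroup.mem_inf.2 ⟨component_le_layer hL hg, ?_⟩
        have h2 : Cfsg.layer K ≤ centralizer ({g} : Set K) := by
          rw [layer_le_iff]
          intro M hM m hm
          rw [mem_centralizer_iff]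
          intro c hc
          rw [Set.mem_singleton_iff] at hc
          subst hc
          rcases components_eq_or_commute hL hM with rfl | hcm
          · exact hgl m hm
          · exact commute_of_commutator_eq_bot hcm c hg m hm
        rw [mem_centralizer_iff]
        intro c hc
        have := h2 hc
        rw [mem_centralizer_iff] at this
        exact (this g rfl).symm
      have h3 := center_layer_le_fitting K h1
      rw [hF] at h3
      exact Subgroup.mem_bot.1 h3
    have hpL : ∀ L : Subgroup K, Cfsg.IsComponent L → p ∣ Nat.card L := by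
      intro L hL
      by_contra hnd
      have hc : (Nat.card L).Coprime p := ((Nat.Prime.coprime_iff_not_dvd hpp).2 hnd).symm
      have := le_pPrimeCore_of_isSubnormal p K L hL.1 hc
      rw [hO] at this
      exact component_ne_bot hL (le_bot_iff.1 this)
    have huniq : ∀ M : Subgroup K, Cfsg.IsComponent M → M = L := by
      intro M hM
      rcases components_eq_or_commute hM hL with h | hcm
      · exact h
      · exfalso
        obtain ⟨l0, hl0⟩ := exists_prime_orderOf_dvd_card' (G := ↥L) p (hpL L hL)
        obtain ⟨m0, hm0⟩ := exists_prime_orderOf_dvd_card' (G := ↥M) p (hpL M hM)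
        have hl : orderOf (l0 : K) = p := by rw [Subgroup.orderOf_coe]; exact hl0
        have hm : orderOf (m0 : K) = p := by rw [Subgroup.orderOf_coe]; exact hm0
        have hc := commute_of_commutator_eq_bot hcm
        have h1 : (m0 : K) ∈ zpowers (l0 : K) :=
          mem_zpowers_of_commute_cyc P hP hl (by rw [← hm, pow_orderOf_eq_one])
            (hc m0 m0.2 l0 l0.2).symm
        have h2 : (m0 : K) ∈ L := (zpowers_le.2 l0.2) h1
        have h3 := hZ L hL m0 h2 (fun l hl' => hc m0 m0.2 l hl')
        rw [h3, orderOf_one] at hm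
        exact hpp.one_lt.ne hm
    have hEL : Cfsg.layer K = L :=
      le_antisymm (layer_le_iff.2 (fun M hM => (huniq M hM).le)) (component_le_layer hL)
    have hLn : L.Normal := hEL ▸ layer_normal K
    rw [hFs, hEL]
    have hLne : L ≠ ⊥ := component_ne_bot hL
    haveI : Nontrivial ↥L := (Subgroup.nontrivial_iff_ne_bot L).2 hLne
    have hcen : Subgroup.center ↥L = ⊥ := by
      rw [eq_bot_iff]
      intro g hg
      rw [Subgroup.mem_bot]
      apply Subtype.ext
      apply hZ L hL g g.2
      intro l hl
      have := (Subgroup.mem_center_iff.1 hg) ⟨l, hl⟩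
      exact (congrArg Subtype.val this).symm
    refine ⟨?_, ?_, ?_⟩
    · haveI := hL.2.2
      have hbij : Function.Bijective (QuotientGroup.mk' (Subgroup.center ↥L)) := by
        refine ⟨?_, QuotientGroup.mk'_surjective _⟩
        rw [injective_iff_map_eq_one]
        intro a ha
        have : a ∈ Subgroup.center ↥L := (QuotientGroup.eq_one_iff a).1 ha
        rw [hcen] at this
        exact Subgroup.mem_bot.1 this
      let e := MulEquiv.ofBijective (QuotientGroup.mk' (Subgroup.center ↥L)) hbij
      exact IsSimpleGroup.isSimpleGroup_of_surjective e.symm.toMonoidHom e.symm.surjective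
    · intro hcomm
      obtain ⟨g, hg⟩ := exists_ne (1 : ↥L)
      apply hg
      apply Subtype.ext
      apply hZ L hL g g.2
      intro l hl
      exact congrArg Subtype.val (hcomm.is_comm.comm g ⟨l, hl⟩)
    · -- p does not divide the index
      set H : Subgroup K := L ⊔ (P : Subgroup K) with hH
      have hPH : (P : Subgroup K) ≤ H := le_sup_right
      have hLH : L ≤ H := le_sup_left
      let PH : Sylow p ↥H := P.subtype hPH
      have hPHc : (PH : Subgroup ↥H) = (P : Subgroup K).subgroupOf H := Sylow.coe_subtype _ _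
      have hcyc : IsCyclic ↥(PH : Subgroup ↥H) := by
        rw [hPHc]
        exact isCyclic_of_surjective (Subgroup.subgroupOfEquivOfLe hPH).symm
          (Subgroup.subgroupOfEquivOfLe hPH).symm.surjective
      have hPL : (P : Subgroup K) ≤ L := by
        rcases cyc_sylow_dichotomy PH hcyc with ⟨T, hTn, hcT, hTc, -⟩ | hle
        · exfalso
          have h1 : L.subgroupOf H ≤ commutator ↥H := by
            have h2 : (⁅L.subgroupOf H, L.subgroupOf H⁆).map H.subtype = L := by
              rw [Subgroup.map_commutator, Subgroup.subgroupOf_map_subtype, inf_of_le_left hLH]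
              exact component_perfect hL
            have h3 : L.subgroupOf H = ⁅L.subgroupOf H, L.subgroupOf H⁆ := by
              apply Subgroup.map_injective H.subtype_injective
              rw [h2, Subgroup.subgroupOf_map_subtype, inf_of_le_left hLH]
            rw [h3, _root_.commutator_def]
            exact Subgroup.commutator_mono le_top le_top
          have h4 : Nat.card (L.subgroupOf H) ∣ Nat.card T := Subgroup.card_dvd_of_le (h1.trans hcT)
          rw [Nat.card_congr (Subgroup.subgroupOfEquivOfLe hLH).toEquiv] at h4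
          have h5 : p ∣ Nat.card T := (hpL L hL).trans h4
          exact hpp.one_lt.ne' (Nat.eq_one_of_dvd_coprimes hTc h5 (dvd_refl p))
        · have h1 : commutator ↥H ≤ L.subgroupOf H := by
            rw [_root_.commutator_def, Subgroup.commutator_le]
            intro g1 _ g2 _
            rw [Subgroup.mem_subgroupOf]
            have hdec : ∀ g : ↥H, ∃ l ∈ L, ∃ u ∈ (P : Subgroup K), (g : K) = l * u := by
              intro g
              have hg : (g : K) ∈ ((L ⊔ (P : Subgroup K) : Subgroup K) : Set K) := g.2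
              rw [Subgroup.normal_mul] at hg
              obtain ⟨l, hl, u, hu, hlu⟩ := Set.mem_mul.1 hg
              exact ⟨l, hl, u, hu, hlu.symm⟩
            obtain ⟨l1, hl1, u1, hu1, e1⟩ := hdec g1
            obtain ⟨l2, hl2, u2, hu2, e2⟩ := hdec g2
            have hcoe : ((⁅g1, g2⁆ : ↥H) : K) = ⁅(g1 : K), (g2 : K)⁆ := by
              simp [commutatorElement_def]
            rw [hcoe, ← QuotientGroup.eq_one_iff (N := L)]
            have hq1 : ((g1 : K) : K ⧸ L) = ((u1 : K) : K ⧸ L) := by
              rw [e1, QuotientGroup.mk_mul, (QuotientGroup.eq_one_iff l1).2 hl1, one_mul]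
            have hq2 : ((g2 : K) : K ⧸ L) = ((u2 : K) : K ⧸ L) := by
              rw [e2, QuotientGroup.mk_mul, (QuotientGroup.eq_one_iff l2).2 hl2, one_mul]
            have hq : ((⁅(g1 : K), (g2 : K)⁆ : K) : K ⧸ L) = ((⁅u1, u2⁆ : K) : K ⧸ L) := by
              simp only [commutatorElement_def, QuotientGroup.mk_mul, QuotientGroup.mk_inv, hq1, hq2]
            rw [hq]
            have : ⁅u1, u2⁆ = 1 := commutatorElement_eq_one_iff_commute.2 (hPc u1 hu1 u2 hu2)
            rw [this]
            rfl
          intro a ha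
          have h2 : (⟨a, hPH ha⟩ : ↥H) ∈ (PH : Subgroup ↥H) := by
            rw [hPHc, Subgroup.mem_subgroupOf]
            exact ha
          exact Subgroup.mem_subgroupOf.1 (h1 (hle h2))
      intro hd
      exact P.not_dvd_index (hd.trans (Subgroup.index_dvd_of_le hPL))
  · -- the local case
    left
    have hRn : (Cfsg.pCore p K).Normal := Cfsg.Agent.Lib.Helper1.pCore_normal p
    have hzR : (z0 : K) ∈ Cfsg.pCore p K := hR2 _ hRn hOp
    have hRP : Cfsg.pCore p K ≤ (P : Subgroup K) := Cfsg.Agent.Lib.Helper5.pCore_le_sylow P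
    have hconj : ∀ k : K, k * (z0 : K) * k⁻¹ ∈ zpowers (z0 : K) := by
      intro k
      apply mem_zpowers_of_commute_cyc P hP hz
      · rw [conj_pow, hzp]; simp
      · exact hPc _ hzP _ (hRP (hRn.conj_mem _ hzR k))
    haveI hΩn : (zpowers (z0 : K)).Normal := by
      refine ⟨fun n hn g => ?_⟩
      obtain ⟨j, rfl⟩ := mem_zpowers_iff.1 hn
      rw [← conj_zpow]
      exact Subgroup.zpow_mem _ (hconj g) j
    set C : Subgroup K := centralizer ((zpowers (z0 : K) : Subgroup K) : Set K) with hC
    haveI hCn : C.Normal := by rw [hC]; infer_instance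
    have hPC : (P : Subgroup K) ≤ C := by
      intro a ha
      rw [hC, mem_centralizer_iff]
      intro c hc
      exact hPc c ((zpowers_le.2 hzP) hc) a ha
    let PC : Sylow p ↥C := P.subtype hPC
    have hPCc : (PC : Subgroup ↥C) = (P : Subgroup K).subgroupOf C := Sylow.coe_subtype _ _
    have hNC : normalizer ((PC : Subgroup ↥C) : Set ↥C) ≤ centralizer ((PC : Subgroup ↥C) : Set ↥C) := by
      intro y hy
      rw [hPCc] at hy ⊢
      have hyN : (y : K) ∈ normalizer ((P : Subgroup K) : Set K) := by
        rw [mem_normalizer_iff]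
        intro h
        constructor
        · intro hh
          have := (mem_normalizer_iff.1 hy ⟨h, hPC hh⟩).1 (Subgroup.mem_subgroupOf.2 hh)
          exact Subgroup.mem_subgroupOf.1 this
        · intro hh
          have hhC : h ∈ C := by
            have h1 : (y : K)⁻¹ * ((y : K) * h * (y : K)⁻¹) * (y : K) ∈ C :=
              C.mul_mem (C.mul_mem (C.inv_mem y.2) (hPC hh)) y.2
            have h2 : (y : K)⁻¹ * ((y : K) * h * (y : K)⁻¹) * (y : K) = h := by group
            rwa [h2] at h1
          have := (mem_normalizer_iff.1 hy ⟨h, hhC⟩).2 (Subgroup.mem_subgroupOf.2 hh)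
          exact Subgroup.mem_subgroupOf.1 this
      have hcj : (y : K) * (x0 : K) * (y : K)⁻¹ ∈ (P : Subgroup K) :=
        (mem_normalizer_iff.1 hyN _).1 x0.2
      obtain ⟨k, hk⟩ := (mem_powers_iff_mem_zpowers.2 (hgen _ hcj))
      have hk' : (y : K) * (x0 : K) * (y : K)⁻¹ = (x0 : K) ^ k := hk.symm
      obtain ⟨j, hj⟩ := mem_zpowers_iff.1 (hgen _ hzP)
      have hyz : (y : K) * (z0 : K) * (y : K)⁻¹ = (z0 : K) := by
        have h0 : (y : K) ∈ centralizer ((zpowers (z0 : K) : Subgroup K) : Set K) := y.2
        have h1 := (mem_centralizer_iff.1 h0) (z0 : K) (mem_zpowers _)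
        rw [← h1]; group
      have hzk : (z0 : K) ^ k = (z0 : K) := by
        calc (z0 : K) ^ k = ((x0 : K) ^ k) ^ j := by
              rw [← hj, ← zpow_natCast, ← zpow_natCast, ← zpow_mul, ← zpow_mul, mul_comm]
          _ = ((y : K) * (x0 : K) * (y : K)⁻¹) ^ j := by rw [hk']
          _ = (y : K) * (z0 : K) * (y : K)⁻¹ := by rw [conj_zpow, hj]
          _ = (z0 : K) := hyz
      have hdvd : (p : ℤ) ∣ (k : ℤ) - 1 := by
        rw [← hz, orderOf_dvd_iff_zpow_eq_one, zpow_sub, zpow_natCast, zpow_one, hzk]
        simp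
      have hcomm := cyc_sylow_commute P x0.2 hgen hyN hk' hdvd
      rw [mem_centralizer_iff]
      intro c hc
      have hcP : (c : K) ∈ (P : Subgroup K) := Subgroup.mem_subgroupOf.1 hc
      obtain ⟨i, hi⟩ := mem_zpowers_iff.1 (hgen _ hcP)
      apply Subtype.ext
      show (c : K) * (y : K) = (y : K) * (c : K)
      rw [← hi]
      exact ((hcomm.zpow_right i).eq).symm
    obtain ⟨T, hTn, -, hTc, hTcompl⟩ := burnside_complement PC hNC
    have hT1 : T = ⊥ := by
      have h1 : T ≤ Cfsg.pPrimeCore p ↥C := Cfsg.Agent.Lib.Helper5.le_pPrimeCore hTn hTc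
      have h2 := (Subgroup.map_mono (f := C.subtype) h1).trans (map_pPrimeCore_le_of_normal C hCn)
      rw [hO, le_bot_iff] at h2
      exact (Subgroup.map_eq_bot_iff_of_injective T C.subtype_injective).1 h2
    have hCP : C = (P : Subgroup K) := by
      rw [hT1, Subgroup.isComplement'_bot_left, hPCc, Subgroup.subgroupOf_eq_top] at hTcompl
      exact le_antisymm hTcompl hPC
    have hPn : (P : Subgroup K).Normal := hCP ▸ hCn
    have hcard : Nat.card (zpowers (z0 : K)) = p := by rw [Nat.card_zpowers, hz]
    haveI : Fact (Nat.card (zpowers (z0 : K))).Prime := ⟨by rw [hcard]; exact hpp⟩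
    haveI hcycA : IsCyclic (MulAut (zpowers (z0 : K))) :=
      isCyclic_of_injective (IsCyclic.mulAutMulEquiv (zpowers (z0 : K))).toMonoidHom
        (IsCyclic.mulAutMulEquiv (zpowers (z0 : K))).injective
    have hcardA : Nat.card (MulAut (zpowers (z0 : K))) = p - 1 := by
      rw [IsCyclic.card_mulAut, hcard, Nat.totient_prime hpp]
    let φ : K →* MulAut (zpowers (z0 : K)) := MulAut.conjNormal
    have hφ : ∀ g : K, φ g = 1 ↔ g ∈ (P : Subgroup K) := by
      intro g
      have hmemP : g ∈ (P : Subgroup K) ↔ g ∈ centralizer ((zpowers (z0 : K) : Subgroup K) : Set K) :=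
        ⟨fun h => hPC h, fun h => hCP.le h⟩
      rw [hmemP, mem_centralizer_iff]
      constructor
      · intro h c hc
        have h1 := congrArg (fun f => ((f ⟨c, hc⟩ : zpowers (z0 : K)) : K)) h
        simp only [φ, MulAut.conjNormal_apply, MulAut.one_apply] at h1
        calc c * g = (g * c * g⁻¹) * g := by rw [h1]
          _ = g * c := by group
      · intro h
        ext c
        simp only [φ, MulAut.conjNormal_apply, MulAut.one_apply]
        rw [← h c c.2]; group
    have key : ∀ (hn : (P : Subgroup K).Normal), ∃ f : (K ⧸ (P : Subgroup K)) →* MulAut (zpowers (z0 : K)),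
        Function.Injective f := by
      intro hn
      refine ⟨QuotientGroup.lift (P : Subgroup K) φ (fun g hg => MonoidHom.mem_ker.2 ((hφ g).2 hg)), ?_⟩
      rw [injective_iff_map_eq_one]
      intro q
      induction q using QuotientGroup.induction_on with
      | H g =>
        intro h
        rw [QuotientGroup.lift_mk] at h
        exact (QuotientGroup.eq_one_iff g).2 ((hφ g).1 h)
    refine ⟨hPn, ?_, ?_, ?_⟩
    · apply le_antisymm
      · have h1 : centralizer ((P : Subgroup K) : Set K) ≤ C :=
          Subgroup.centralizer_le (fun c hc => (zpowers_le.2 hzP) hc)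
        exact h1.trans hCP.le
      · intro a ha
        rw [mem_centralizer_iff]
        intro c hc
        exact hPc c hc a ha
    · intro hn
      obtain ⟨f, hf⟩ := key hn
      exact isCyclic_of_injective f hf
    · obtain ⟨f, hf⟩ := key hPn
      rw [Subgroup.index_eq_card, ← hcardA]
      exact Subgroup.card_dvd_of_injective f hf

end Cfsg.Agent.S4403
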