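import Cfsg.Statements.S4405
import Cfsg.Agent.S1784
import Cfsg.Agent.S0061
import Cfsg.Agent.Lib.Helper1.Fitting
import Cfsg.Agent.Lib.Helper17.Core

set_option autoImplicit false
open Cfsg

namespace Cfsg.Agent.S4405


open Cfsg.Agent.S1784

variable {G : Type*} [Group G]

theorem card_modEq [Finite G] (H : Subgroup G) [H.Normal] (w : G) (p : ℕ) [Fact p.Prime]
    (hw : orderOf w = p) :
    Nat.card H ≡ Nat.card (H ⊓ Subgroup.centralizer {w} : Subgroup G) [MOD p] := by
  obtain ⟨P, hP⟩ : ∃ P : Subgroup (ConjAct G), P = Subgroup.zpowers (ConjAct.toConjAct w) :=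
    ⟨_, rfl⟩
  have hPp : IsPGroup p P := by
    apply IsPGroup.of_card (n := 1)
    rw [hP, Nat.card_zpowers, pow_one, ← hw]
    exact MulEquiv.orderOf_eq ConjAct.toConjAct w
  have h1 := hPp.card_modEq_card_fixedPoints (↥H)
  have h2 : Nat.card (MulAction.fixedPoints P ↥H) =
      Nat.card (H ⊓ Subgroup.centralizer {w} : Subgroup G) := by
    apply Nat.card_congr
    refine ⟨fun h => ⟨h.1.1, h.1.2, ?_⟩, fun h => ⟨⟨h.1, h.2.1⟩, ?_⟩, fun h => rfl, fun h => rfl⟩
    · show h.1.1 ∈ Subgroup.centralizer {w}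
      rw [Subgroup.mem_centralizer_singleton_iff]
      have := h.2 ⟨ConjAct.toConjAct w, hP ▸ Subgroup.mem_zpowers _⟩
      have h3 := congrArg Subtype.val this
      have h4 : w * h.1.1 * w⁻¹ = h.1.1 := h3
      calc h.1.1 * w = (w * h.1.1 * w⁻¹) * w := by rw [h4]
        _ = w * h.1.1 := by group
    · rintro ⟨g, hg⟩
      rw [hP] at hg
      obtain ⟨k, rfl⟩ := hg
      apply Subtype.ext
      have h5 : h.1 ∈ Subgroup.centralizer {w} := h.2.2
      rw [Subgroup.mem_centralizer_singleton_iff] at h5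
      have h6 : Commute (w ^ k) h.1 := (Commute.zpow_left (show Commute w h.1 from h5.symm) k)
      show (w ^ k) * h.1 * (w ^ k)⁻¹ = h.1
      rw [h6.eq]; group
  rw [← h2]
  exact h1

/-- the subgroup of elements acting trivially mod `⟨z⟩` on a set `R`, `z` central. -/
def CC (z : G) (hz : ∀ g : G, g * z = z * g) (R : Set G) : Subgroup G where
  carrier := {g | ∀ r ∈ R, bb g r ∈ Subgroup.zpowers z}
  one_mem' := by
    intro r _
    have : bb 1 r = 1 := by unfold bb; group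
    rw [this]; exact one_mem _
  mul_mem' := by
    intro a b ha hb r hr
    have e : bb (a * b) r = a * bb b r * a⁻¹ * bb a r := by unfold bb; group
    obtain ⟨k, hk⟩ := hb r hr
    have hc : a * bb b r * a⁻¹ = bb b r := by
      rw [← hk]
      have : Commute a (z ^ k) := Commute.zpow_right (hz a) k
      show a * z ^ k * a⁻¹ = z ^ k
      rw [this.eq]; group
    rw [e, hc]
    exact mul_mem (hb r hr) (ha r hr)
  inv_mem' := by
    intro a ha r hr
    have e : bb a⁻¹ r = a⁻¹ * (bb a r)⁻¹ * a := by unfold bb; group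
    obtain ⟨k, hk⟩ := ha r hr
    have hc : a⁻¹ * (bb a r)⁻¹ * a = (bb a r)⁻¹ := by
      rw [← hk]
      have : Commute a (z ^ k)⁻¹ := (Commute.zpow_right (hz a) k).inv_right
      show a⁻¹ * (z ^ k)⁻¹ * a = (z ^ k)⁻¹
      rw [mul_assoc, ← this.eq]; group
    rw [e, hc]
    exact inv_mem (ha r hr)

theorem mem_CC (z : G) (hz : ∀ g : G, g * z = z * g) (R : Set G) (g : G) :
    g ∈ CC z hz R ↔ ∀ r ∈ R, bb g r ∈ Subgroup.zpowers z := Iff.rfl

/-- `Q₀`. -/
def Q0 (z : G) (hz : ∀ g : G, g * z = z * g) (H : Subgroup G) (T : G) : Subgroup G where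
  carrier := {q | q ∈ H ∧ bb T q ∈ Subgroup.zpowers z}
  one_mem' := by
    refine ⟨one_mem _, ?_⟩
    have : bb T 1 = 1 := by unfold bb; group
    rw [this]; exact one_mem _
  mul_mem' := by
    rintro a b ⟨ha, ha'⟩ ⟨hb, hb'⟩
    refine ⟨mul_mem ha hb, ?_⟩
    have e : bb T (a * b) = bb T a * (a * bb T b * a⁻¹) := by unfold bb; group
    obtain ⟨k, hk⟩ := hb'
    have hc : a * bb T b * a⁻¹ = bb T b := by
      rw [← hk]
      have : Commute a (z ^ k) := Commute.zpow_right (hz a) k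
      show a * z ^ k * a⁻¹ = z ^ k
      rw [this.eq]; group
    rw [e, hc]
    exact mul_mem ha' ⟨k, hk⟩
  inv_mem' := by
    rintro a ⟨ha, ha'⟩
    refine ⟨inv_mem ha, ?_⟩
    have e : bb T a⁻¹ = a⁻¹ * (bb T a)⁻¹ * a := by unfold bb; group
    obtain ⟨k, hk⟩ := ha'
    have hc : a⁻¹ * (bb T a)⁻¹ * a = (bb T a)⁻¹ := by
      rw [← hk]
      have : Commute a (z ^ k)⁻¹ := (Commute.zpow_right (hz a) k).inv_right
      show a⁻¹ * (z ^ k)⁻¹ * a = (z ^ k)⁻¹
      rw [mul_assoc, ← this.eq]; group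
    rw [e, hc]
    exact inv_mem ⟨k, hk⟩

theorem mem_Q0 (z : G) (hz : ∀ g : G, g * z = z * g) (H : Subgroup G) (T : G) (q : G) :
    q ∈ Q0 z hz H T ↔ q ∈ H ∧ bb T q ∈ Subgroup.zpowers z := Iff.rfl


theorem cent_D_le {Q : Subgroup G} {z α : G} (h : Dat Q z) (a : Act Q z α) (D : Subgroup G)
    (hgen : ∀ q ∈ Q, bb α q ∈ D) {q : G} (hq' : q ∈ Q)
    (hqD : q ∈ Subgroup.centralizer (D : Set G)) : bb α q ∈ Subgroup.zpowers z := by
  have hbQ : ∀ q ∈ Q, bb α q ∈ Q := fun q hq => Q.mul_mem (a.nrm q hq) (Q.inv_mem hq)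
  have hsplit : ∀ q, bb α q = (α * q * α⁻¹) * q⁻¹ := fun q => rfl
  rw [mem_zp h]
  refine h.cq _ (hbQ q hq') fun x hx => ?_
  have hr := a.nrm q hq'
  have hx' := a.nrm x hx
  rw [hsplit, h.bl hr (Q.inv_mem hq') hx, h.binvl hq' hx]
  have e3 : bb (α * q * α⁻¹) (α * (α * x * α⁻¹) * α⁻¹) = bb q (α * x * α⁻¹) := a.bα h hq' hx'
  have e4 : α * (α * x * α⁻¹) * α⁻¹ = x := by
    calc α * (α * x * α⁻¹) * α⁻¹ = (α * α) * x * (α * α)⁻¹ := by group
      _ = x := by rw [a.sq]; group
  rw [e4] at e3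
  rw [e3, ← h.binvr hq' hx, ← h.br hq' hx' (Q.inv_mem hx), ← hsplit, bb_eq_one_iff]
  exact (hqD _ (hgen x hx)).symm

theorem dvd32 {n : ℕ} (h : n ∣ 32) : n = 1 ∨ n = 2 ∨ n = 4 ∨ n = 8 ∨ n = 16 ∨ n = 32 := by
  have h1 : n ≤ 32 := Nat.le_of_dvd (by norm_num) h
  interval_cases n <;> simp_all

/-- Let G be a finite group of order 320 = 64·5 whose largest normal 2-subgroup H = O₂(G) equals the Fitting subgroup F(G) and is extraspecial of order 32 containing no elementary abelian subgroup of order 8 (so H is the central product of a quaternion group and a dihedral group of order 8). If T is an involution of G outside H whose centralizer in H contains an elementary abelian subgroup of order 4, then C_H(T) itself is elementary abelian of order 4. -/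
theorem result {G : Type*} [Group G] [Finite G]
    (hG : Nat.card G = 320) (hHF : Cfsg.pCore 2 G = Cfsg.fittingSubgroup G)
    (hex : Cfsg.IsExtraspecial 2 ↥(Cfsg.pCore 2 G)) (h32 : Nat.card ↥(Cfsg.pCore 2 G) = 32)
    (hminus : ∀ A : Subgroup G, A ≤ Cfsg.pCore 2 G → Cfsg.IsElementaryAbelian 2 A → Nat.card ↥A ≤ 4)
    (T : G) (hT : orderOf T = 2) (hTH : T ∉ Cfsg.pCore 2 G)
    (V : Subgroup G) (hV : V ≤ Cfsg.pCore 2 G ⊓ Subgroup.centralizer ({T} : Set G)) (hV4 : Nat.card ↥V = 4) (hVe : Cfsg.IsElementaryAbelian 2 V) :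
    Nat.card ↥(Cfsg.pCore 2 G ⊓ Subgroup.centralizer ({T} : Set G)) = 4 ∧
      Cfsg.IsElementaryAbelian 2 (Cfsg.pCore 2 G ⊓ Subgroup.centralizer ({T} : Set G)) := by
  obtain ⟨H, hH⟩ : ∃ H, H = Cfsg.pCore 2 G := ⟨_, rfl⟩
  rw [← hH] at hHF hex h32 hminus hTH hV ⊢
  have hHn : H.Normal := hH ▸ pCore_normal 2 G
  have hH2 : IsPGroup 2 H := IsPGroup.of_card (n := 5) (by rw [h32]; norm_num)
  have hsolv : Group.IsSolvable G :=
    Cfsg.Agent.S0061.result 2 5 6 Nat.prime_two (by norm_num) (by rw [hG]; norm_num)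
  have hCH : Subgroup.centralizer (H : Set G) ≤ H := by
    have := Cfsg.Agent.Lib.Helper1.centralizer_fitting_le (G := G)
    rwa [← hHF] at this
  obtain ⟨z₀, hz₀c, hz₀1⟩ : ∃ z₀ : ↥H, z₀ ∈ Subgroup.center ↥H ∧ z₀ ≠ 1 := by
    obtain ⟨w, hw1, -⟩ := (Nat.card_eq_two_iff' (1 : Subgroup.center ↥H)).mp hex.2
    exact ⟨w.1, w.2, fun e => hw1 (Subtype.ext e)⟩
  have hdat := dat_of_extraspecial hex H.subtype Subtype.val_injective z₀ hz₀c hz₀1
  rw [Subgroup.range_subtype] at hdat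
  obtain ⟨z, hz⟩ : ∃ z : G, z = H.subtype z₀ := ⟨_, rfl⟩
  rw [← hz] at hdat
  have hzG : ∀ g : G, g * z = z * g := by
    intro g
    have hm : g * z * g⁻¹ ∈ H := hHn.conj_mem z hdat.z_mem g
    have hc : ∀ x ∈ H, bb (g * z * g⁻¹) x = 1 := by
      intro x hx
      rw [bb_eq_one_iff]
      have hx' : g⁻¹ * x * g ∈ H := by simpa using hHn.conj_mem x hx g⁻¹
      have := hdat.cen _ hx'
      calc g * z * g⁻¹ * x = g * (z * (g⁻¹ * x * g)) * g⁻¹ := by group
        _ = g * ((g⁻¹ * x * g) * z) * g⁻¹ := by rw [this]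
        _ = x * (g * z * g⁻¹) := by group
    rcases hdat.cq _ hm hc with e | e
    · exfalso; apply hdat.z_ne
      calc z = g⁻¹ * (g * z * g⁻¹) * g := by group
        _ = 1 := by rw [e]; group
    · calc g * z = (g * z * g⁻¹) * g := by group
        _ = z * g := by rw [e]
  have hTsq : T * T = 1 := by
    have := pow_orderOf_eq_one T
    rwa [hT, pow_two] at this
  have hact : Act H z T := by
    refine ⟨hTsq, hzG T, fun q hq => hHn.conj_mem q hq T, ?_⟩
    by_contra hcon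
    push Not at hcon
    apply hTH
    apply hCH
    intro q hq
    exact ((bb_eq_one_iff _ _).1 (hcon q hq)).symm
  obtain ⟨Q₀, hQ₀d⟩ : ∃ Q₀, Q₀ = Q0 z hzG H T := ⟨_, rfl⟩
  have hQ₀ : ∀ q, q ∈ Q₀ ↔ q ∈ H ∧ bb T q ∈ Subgroup.zpowers z := by
    intro q; rw [hQ₀d]; exact mem_Q0 z hzG H T q
  have hQ₀H : Q₀ ≤ H := fun q hq => ((hQ₀ q).1 hq).1
  obtain ⟨D, hD⟩ : ∃ D, D = Subgroup.closure ((fun q => bb T q) '' (H : Set G)) := ⟨_, rfl⟩
  have hmain : D = Q₀ ⊓ Subgroup.centralizer (Q₀ : Set G) := hD ▸ main hdat hact Q₀ hQ₀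
  have hgen : ∀ q ∈ H, bb T q ∈ D := fun q hq => hD ▸ Subgroup.subset_closure ⟨q, hq, rfl⟩
  obtain ⟨K, hK⟩ : ∃ K, K = H ⊓ Subgroup.centralizer ({T} : Set G) := ⟨_, rfl⟩
  rw [← hK] at hV ⊢
  have hKH : K ≤ H := hK ▸ inf_le_left
  have hKT : ∀ k ∈ K, T * k = k * T := by
    intro k hk
    rw [hK] at hk
    exact (Subgroup.mem_centralizer_singleton_iff.1 hk.2).symm
  have hKQ : K ≤ Q₀ := by
    intro k hk
    rw [hQ₀]
    refine ⟨hKH hk, ?_⟩
    rw [(bb_eq_one_iff _ _).2 (hKT k hk)]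
    exact one_mem _
  have hz2 : Nat.card (Subgroup.zpowers z) = 2 := by
    rw [Nat.card_zpowers]
    exact orderOf_eq_prime (by rw [pow_two]; exact hdat.z_sq) hdat.z_ne
  have hQ₀dvd : Nat.card Q₀ ∣ 32 := h32 ▸ Subgroup.card_dvd_of_le hQ₀H
  have hA : Nat.card Q₀ ≤ 8 := by
    by_contra hbig
    have h16 : 16 ≤ Nat.card Q₀ := by
      rcases dvd32 hQ₀dvd with e | e | e | e | e | e <;> omega
    obtain ⟨S, hS⟩ : ∃ S, S = H ⊔ Subgroup.zpowers T := ⟨_, rfl⟩
    have hHS : H ≤ S := hS ▸ le_sup_left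
    have hTS : T ∈ S :=
      hS ▸ (le_sup_right : Subgroup.zpowers T ≤ H ⊔ Subgroup.zpowers T) (Subgroup.mem_zpowers T)
    have hS2 : IsPGroup 2 S := by
      rw [hS, sup_comm]
      refine IsPGroup.to_sup_of_normal_right ?_ hH2
      apply IsPGroup.of_card (n := 1)
      rw [Nat.card_zpowers, hT, pow_one]
    obtain ⟨g, hg⟩ : ∃ g : G, g * T * g⁻¹ ∉ S := by
      by_contra hcon
      push Not at hcon
      have hSn : S.Normal := by
        constructor
        intro s hs g
        have hle : S ≤ S.comap (MulAut.conj g).toMonoidHom := by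
          conv_lhs => rw [hS]
          refine sup_le (fun h hh => ?_) ?_
          · exact hHS (hHn.conj_mem h hh g)
          · rw [Subgroup.zpowers_le]
            exact hcon g
        exact hle hs
      exact hTH (hH ▸ Cfsg.Agent.Lib.Helper17.le_pCore hSn hS2 hTS)
    obtain ⟨Q₁, hQ₁⟩ : ∃ Q₁, Q₁ = Q₀.map (MulAut.conj g).toMonoidHom := ⟨_, rfl⟩
    have hQ₁H : Q₁ ≤ H := by
      rw [hQ₁]
      rintro _ ⟨q, hq, rfl⟩
      exact hHn.conj_mem q (hQ₀H hq) g
    have hQ₁c : Nat.card Q₁ = Nat.card Q₀ := by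
      rw [hQ₁]
      exact Subgroup.card_map_of_injective (MulAut.conj g).injective
    obtain ⟨R, hR⟩ : ∃ R, R = Q₀ ⊓ Q₁ := ⟨_, rfl⟩
    have hRH : R ≤ H := hR ▸ inf_le_left.trans hQ₀H
    have hR8 : 8 ≤ Nat.card R := by
      have r0 := Subgroup.relIndex_mul_relIndex ⊥ Q₀ H bot_le hQ₀H
      have r1 := Subgroup.relIndex_mul_relIndex ⊥ Q₁ H bot_le hQ₁H
      have r2 := Subgroup.relIndex_mul_relIndex ⊥ R H bot_le hRH
      have r3 : R.relIndex H ≤ Q₀.relIndex H * Q₁.relIndex H := hR ▸ Subgroup.relIndex_inf_le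
      simp only [Subgroup.relIndex_bot_left, h32, hQ₁c] at r0 r1 r2
      have a0 : Q₀.relIndex H ≤ 2 := by nlinarith
      have a1 : Q₁.relIndex H ≤ 2 := by nlinarith
      have a2 : R.relIndex H ≤ 4 := by nlinarith
      nlinarith
    obtain ⟨C, hC⟩ : ∃ C, C = CC z hzG (R : Set G) := ⟨_, rfl⟩
    have hCmem : ∀ c, c ∈ C ↔ ∀ r ∈ R, bb c r ∈ Subgroup.zpowers z := by
      intro c; rw [hC]; exact mem_CC z hzG _ c
    have hHC : H ≤ C := by
      intro h hh
      rw [hCmem]
      intro r hr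
      rw [mem_zp hdat]
      exact hdat.comm h hh r (hRH hr)
    have hTC : T ∈ C := by
      rw [hCmem]
      intro r hr
      rw [hR] at hr
      exact ((hQ₀ r).1 hr.1).2
    have hT'C : g * T * g⁻¹ ∈ C := by
      rw [hCmem]
      intro r hr
      rw [hR, hQ₁] at hr
      obtain ⟨q, hq, rfl⟩ := hr.2
      have e : bb (g * T * g⁻¹) ((MulAut.conj g).toMonoidHom q) = g * bb T q * g⁻¹ := by
        simp only [MulEquiv.coe_toMonoidHom, MulAut.conj_apply]
        unfold bb; group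
      rw [e]
      rcases (mem_zp hdat _).1 ((hQ₀ q).1 hq).2 with e1 | e1 <;> rw [e1]
      · simp
      · rw [hzG g]; simp
    have hSC : S ≤ C := by
      rw [hS]
      exact sup_le hHC (by rw [Subgroup.zpowers_le]; exact hTC)
    have h5 : 5 ∣ Nat.card C := by
      by_contra h5
      have c1 : Nat.card C ∣ 64 * 5 := by
        have := Subgroup.card_subgroup_dvd_card C
        rwa [hG] at this
      have c2 : Nat.card C ∣ 64 :=
        Nat.Coprime.dvd_of_dvd_mul_right
          ((Nat.Coprime.symm ((Nat.Prime.coprime_iff_not_dvd (by norm_num)).2 h5))) c1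
      have c3 : Nat.card C ≤ 64 := Nat.le_of_dvd (by norm_num) c2
      have c4 : 64 ≤ Nat.card S := by
        obtain ⟨k, hk⟩ := Subgroup.card_dvd_of_le hHS
        have hne : Nat.card H ≠ Nat.card S := fun e =>
          hTH ((Subgroup.eq_of_le_of_card_ge hHS e.ge) ▸ hTS)
        have hpos : 0 < Nat.card S := Nat.card_pos
        rw [h32] at hk hne
        rcases k with _ | _ | k
        · omega
        · omega
        · omega
      have c5 : S = C := Subgroup.eq_of_le_of_card_ge hSC (by omega)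
      exact hg (c5 ▸ hT'C)
    have : Fact (Nat.Prime 5) := ⟨by norm_num⟩
    obtain ⟨w', hw'⟩ := exists_prime_orderOf_dvd_card' (G := ↥C) 5 h5
    obtain ⟨w, hw⟩ : ∃ w : G, w = (w' : G) := ⟨_, rfl⟩
    have hwC : w ∈ C := hw ▸ w'.2
    have hw5 : orderOf w = 5 := by rw [hw, Subgroup.orderOf_coe, hw']
    have hwR : ∀ r ∈ R, w * r = r * w := by
      intro r hr
      rcases (mem_zp hdat _).1 ((hCmem w).1 hwC r hr) with e | e
      · exact (bb_eq_one_iff _ _).1 e
      · have e1 : w * r * w⁻¹ = z * r := by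
          calc w * r * w⁻¹ = bb w r * r := by unfold bb; group
            _ = z * r := by rw [e]
        have e2 : Commute (w ^ 2) r := by
          show w ^ 2 * r = r * w ^ 2
          rw [pow_two]
          calc w * w * r = w * (w * r * w⁻¹) * w⁻¹ * (w * w) := by group
            _ = w * (z * r) * w⁻¹ * (w * w) := by rw [e1]
            _ = (w * z) * r * w⁻¹ * (w * w) := by group
            _ = z * (w * r * w⁻¹) * (w * w) := by rw [hzG w]; group
            _ = (z * z) * r * (w * w) := by rw [e1]; group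
            _ = r * (w * w) := by rw [hdat.z_sq, one_mul]
        have e3 : (w ^ 2) ^ 3 = w := by
          have := pow_orderOf_eq_one w
          rw [hw5] at this
          rw [← pow_mul, show 2 * 3 = 5 + 1 from rfl, pow_succ, this, one_mul]
        have e4 := e2.pow_left 3
        rw [e3] at e4
        exact e4.eq
    obtain ⟨B, hB⟩ : ∃ B, B = H ⊓ Subgroup.centralizer ({w} : Set G) := ⟨_, rfl⟩
    have hRB : R ≤ B := by
      intro r hr
      rw [hB]
      refine ⟨hRH hr, ?_⟩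
      show r ∈ Subgroup.centralizer ({w} : Set G)
      rw [Subgroup.mem_centralizer_singleton_iff]
      exact (hwR r hr).symm
    have hB8 : 8 ≤ Nat.card B := hR8.trans (Subgroup.card_le_of_le hRB)
    have hBH : B ≤ H := hB ▸ inf_le_left
    have hBdvd : Nat.card B ∣ 32 := h32 ▸ Subgroup.card_dvd_of_le hBH
    have hmod := card_modEq H w 5 hw5
    rw [← hB, h32] at hmod
    have hB32 : Nat.card B = 32 := by
      unfold Nat.ModEq at hmod
      rcases dvd32 hBdvd with e | e | e | e | e | e <;> omega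
    have hBeq : B = H := Subgroup.eq_of_le_of_card_ge hBH (by omega)
    have hwH : w ∈ H := by
      apply hCH
      intro h hh
      rw [← hBeq, hB] at hh
      exact (Subgroup.mem_centralizer_singleton_iff.1 hh.2)
    have := Subgroup.orderOf_dvd_natCard H hwH
    rw [hw5, h32] at this
    omega
  have hKdvd : Nat.card K ∣ 32 := h32 ▸ Subgroup.card_dvd_of_le hKH
  have hVK : 4 ≤ Nat.card K := hV4 ▸ Subgroup.card_le_of_le hV
  have hK8 : Nat.card K ≤ 8 := (Subgroup.card_le_of_le hKQ).trans hA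
  have hK4 : Nat.card K = 4 := by
    rcases dvd32 hKdvd with e | e | e | e | e | e <;> try omega
    exfalso
    have hKeq : K = Q₀ := Subgroup.eq_of_le_of_card_ge hKQ (by omega)
    have hDQ₀ : D ≤ Q₀ := hmain ▸ inf_le_left
    have hDH : D ≤ H := hDQ₀.trans hQ₀H
    have hDcomm : ∀ a ∈ D, ∀ b ∈ D, a * b = b * a := by
      intro a ha b hb
      rw [hmain] at ha
      exact (ha.2 b (hDQ₀ hb)).symm
    have hDexp : ∀ d ∈ D, d ^ 2 = 1 := by
      intro d hd
      have hd' := hd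
      rw [hD] at hd'
      induction hd' using Subgroup.closure_induction with
      | mem x hx =>
        obtain ⟨q, hq, rfl⟩ := hx
        have hc : bb T q ∈ K := hKeq ▸ hDQ₀ (hgen q hq)
        have e1 := hKT _ hc
        have e2 : T * bb T q * T⁻¹ = (T * T) * q * T⁻¹ * q⁻¹ * T⁻¹ := by unfold bb; group
        have e3 : (bb T q)⁻¹ = q * (T * T) * T⁻¹ * q⁻¹ * T⁻¹ := by unfold bb; group
        have e4 : T * bb T q * T⁻¹ = (bb T q)⁻¹ := by rw [e2, e3, hTsq]; group
        have e5 : bb T q = (bb T q)⁻¹ := by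
          rw [← e4, e1]; group
        show bb T q ^ 2 = 1
        rw [pow_two]
        nth_rewrite 1 [e5]
        group
      | one => simp
      | mul x y hx hy ihx ihy =>
        have hx' : x ∈ D := hD ▸ hx
        have hy' : y ∈ D := hD ▸ hy
        have := ihx hx'
        have := ihy hy'
        rw [(show Commute x y from hDcomm x hx' y hy').mul_pow, ihx hx', ihy hy', one_mul]
      | inv x hx ihx =>
        rw [inv_pow, ihx (hD ▸ hx), inv_one]
    have hDea : Cfsg.IsElementaryAbelian 2 D :=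
      ⟨⟨⟨fun a b => Subtype.ext (hDcomm a a.2 b b.2)⟩⟩, hDexp⟩
    have hD4 := hminus D hDH hDea
    have hzD : z ∈ D := by
      rw [hmain]
      refine ⟨(hQ₀ z).2 ⟨hdat.z_mem, ?_⟩, fun q _ => hzG q⟩
      rw [(bb_eq_one_iff _ _).2 (hzG T)]
      exact one_mem _
    have M2 := mono_card hdat D hDH _ (Subgroup.zpowers z)
      (by rw [Subgroup.zpowers_le]; exact hzD) le_rfl
    have c2 : H ⊓ Subgroup.centralizer ((Subgroup.zpowers z : Subgroup G) : Set G) = H := by
      rw [inf_eq_left]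
      intro x _
      rw [mem_cent_iff, Subgroup.zpowers_le, Subgroup.mem_centralizer_singleton_iff]
      exact (hzG x).symm
    have hCD : H ⊓ Subgroup.centralizer (D : Set G) ≤ Q₀ := by
      rintro q ⟨hq, hqD⟩
      rw [hQ₀]
      exact ⟨hq, cent_D_le hdat hact D hgen hq hqD⟩
    have c3 := Subgroup.card_le_of_le hCD
    rw [c2, hz2, h32] at M2
    nlinarith
  refine ⟨hK4, ?_⟩
  have hVeq : V = K := Subgroup.eq_of_le_of_card_ge hV (by omega)
  exact hVeq ▸ hVe

end Cfsg.Agent.S4405
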