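import Cfsg.Statements.S4406
-- import your own Cfsg.Agent.* helpers here
import Mathlib
import Cfsg.Agent.Lib.Helper17.Core

set_option autoImplicit false
open Cfsg

namespace Cfsg.Agent.S4406


abbrev A4 := ↥(alternatingGroup (Fin 4))

set_option maxRecDepth 100000 in
theorem t1 : ∀ x : A4, x ^ 2 = 1 ∨ x ^ 3 = 1 := by decide +kernel

set_option maxRecDepth 100000 in
theorem cardA4 : Fintype.card A4 = 12 := by decide +kernel

set_option maxRecDepth 100000 in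
set_option synthInstance.maxSize 100000 in
set_option synthInstance.maxHeartbeats 0 in
theorem t2 : ∀ a : A4, a ≠ 1 → a ^ 3 = 1 →
   ∀ b : A4, b ≠ 1 → b ^ 3 = 1 →
   ∀ u1 : A4, u1 ≠ 1 → u1 ^ 2 = 1 →
   ∀ u2 : A4, u2 ≠ 1 → u2 ^ 2 = 1 →
   ∀ v1 : A4, v1 ≠ 1 → v1 ^ 2 = 1 → v1 ≠ u1 →
   ∀ v2 : A4, v2 ≠ 1 → v2 ^ 2 = 1 → v2 ≠ u2 →
   ((((a * u1 * a⁻¹ = v1 ∧ b * u2 * b⁻¹ = v2) ∨ (a * u1 * a⁻¹ = u1 * v1 ∧ b * u2 * b⁻¹ = u2 * v2)) ∧
    ((a * v1 * a⁻¹ = u1 ∧ b * v2 * b⁻¹ = u2) ∨ (a * v1 * a⁻¹ = u1 * v1 ∧ b * v2 * b⁻¹ = u2 * v2))) ∨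
   (((a * u1 * a⁻¹ = v1 ∧ b⁻¹ * u2 * b = v2) ∨ (a * u1 * a⁻¹ = u1 * v1 ∧ b⁻¹ * u2 * b = u2 * v2)) ∧
    ((a * v1 * a⁻¹ = u1 ∧ b⁻¹ * v2 * b = u2) ∨ (a * v1 * a⁻¹ = u1 * v1 ∧ b⁻¹ * v2 * b = u2 * v2)))) := by
  decide +kernel

theorem two_el (x : A4) (k : ℕ) (hk : x ^ (2 ^ k) = 1) : x ^ 2 = 1 := by
  rcases t1 x with h | h
  · exact h
  · have hc : Nat.gcd (2 ^ k) 3 = 1 := by
      have : Nat.Coprime (2 ^ k) 3 := Nat.Coprime.pow_left k (by decide)
      exact this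
    have h1 := pow_gcd_eq_one.mpr ⟨hk, h⟩
    rw [hc, pow_one] at h1
    rw [h1, one_pow]

theorem three_el (x : A4) (k : ℕ) (hk : x ^ (3 ^ k) = 1) : x ^ 3 = 1 := by
  rcases t1 x with h | h
  · have hc : Nat.gcd (3 ^ k) 2 = 1 := by
      have : Nat.Coprime (3 ^ k) 2 := Nat.Coprime.pow_left k (by decide)
      exact this
    have h1 := pow_gcd_eq_one.mpr ⟨hk, h⟩
    rw [hc, pow_one] at h1
    rw [h1, one_pow]
  · exact h

theorem zpowers_le_norm {G : Type*} [Group G] [Finite G] {H : Subgroup G} {g : G}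
    (h : ∀ x ∈ H, g * x * g⁻¹ ∈ H) : Subgroup.zpowers g ≤ Subgroup.normalizer (H : Set G) := by
  apply Cfsg.Agent.Lib.Helper17.le_normalizer_of_conj_mem
  intro k hk
  rw [← mem_powers_iff_mem_zpowers] at hk
  obtain ⟨j, rfl⟩ := hk
  induction j with
  | zero => intro x hx; simpa using hx
  | succ j ih =>
    intro x hx
    have := h _ (ih x hx)
    have e : g ^ (j + 1) * x * (g ^ (j + 1))⁻¹ = g * (g ^ j * x * (g ^ j)⁻¹) * g⁻¹ := by
      rw [pow_succ']; group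
    rw [e]; exact this

theorem cardG : Nat.card (A4 × A4) = 144 := by
  rw [Nat.card_prod, Nat.card_eq_fintype_card, cardA4]

theorem cardQ (Q : Sylow 3 (A4 × A4)) : Nat.card (Q : Subgroup (A4 × A4)) = 9 := by
  haveI : Fact (Nat.Prime 3) := ⟨by decide⟩
  obtain ⟨k, hk⟩ := IsPGroup.iff_card.mp Q.isPGroup'
  have h1 := (Q : Subgroup (A4 × A4)).card_mul_index
  have h2 := Q.not_dvd_index
  rw [cardG, hk] at h1
  rw [hk]
  match k, h1 with
  | 0, h1 => exfalso; apply h2; simp at h1; rw [h1]; decide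
  | 1, h1 => exfalso; apply h2; have : (Q : Subgroup (A4 × A4)).index = 48 := by omega
             rw [this]; decide
  | 2, _ => rfl
  | (k + 3), h1 =>
    exfalso
    have : 27 * (3 ^ k * (Q : Subgroup (A4 × A4)).index) = 144 := by rw [← h1]; ring
    omega

theorem kerlem (Q : Sylow 3 (A4 × A4)) (f : (A4 × A4) →* A4) :
    ∃ q ∈ (Q : Subgroup (A4 × A4)), q ≠ 1 ∧ f q = 1 := by
  haveI : Fact (Nat.Prime 3) := ⟨by decide⟩
  set F : (Q : Subgroup (A4 × A4)) →* A4 := f.comp (Q : Subgroup (A4 × A4)).subtype with hF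
  have h1 : Nat.card F.ker * Nat.card F.range = 9 := by
    rw [← Subgroup.index_ker, Subgroup.card_mul_index, cardQ]
  have hp : IsPGroup 3 F.range :=
    Q.isPGroup'.of_surjective F.rangeRestrict F.rangeRestrict_surjective
  obtain ⟨n, hn⟩ := IsPGroup.iff_card.mp hp
  have hd : Nat.card F.range ∣ 12 := by
    have := Subgroup.card_subgroup_dvd_card F.range
    rwa [Nat.card_eq_fintype_card (α := A4), cardA4] at this
  have hle : Nat.card F.range ≤ 3 := by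
    rw [hn] at hd ⊢
    match n, hd with
    | 0, _ => norm_num
    | 1, _ => norm_num
    | (n + 2), hd =>
      exfalso
      have : 9 ∣ 12 := Dvd.dvd.trans ⟨3 ^ n, by ring⟩ hd
      omega
  have hker : 1 < Nat.card F.ker := by
    by_contra hc
    have : Nat.card F.ker ≤ 1 := by omega
    nlinarith
  haveI : Nontrivial F.ker := Finite.one_lt_card_iff_nontrivial.mp hker
  obtain ⟨q, hq⟩ := exists_ne (1 : F.ker)
  refine ⟨q.1.1, q.1.2, ?_, q.2⟩
  intro h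
  apply hq
  exact Subtype.ext (Subtype.ext h)

/-- In the direct product P = A₄ × A₄, let X be the Sylow 2-subgroup, X₁ and X₂ its intersections with the two direct factors, Q a Sylow 3-subgroup and Q₁, Q₂ its intersections with the two factors. Then every subgroup B of X of order 4 either meets X₁ or X₂ nontrivially, or is normalized by one of the two subgroups of Q of order 3 other than Q₁ and Q₂. -/
theorem result
    (X : Sylow 2 (↥(alternatingGroup (Fin 4)) × ↥(alternatingGroup (Fin 4))))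
    (Q : Sylow 3 (↥(alternatingGroup (Fin 4)) × ↥(alternatingGroup (Fin 4))))
    (B : Subgroup (↥(alternatingGroup (Fin 4)) × ↥(alternatingGroup (Fin 4)))) (hBX : B ≤ (X : Subgroup _)) (hB4 : Nat.card ↥B = 4) :
    B ⊓ ((X : Subgroup _) ⊓ Subgroup.prod ⊤ ⊥) ≠ ⊥ ∨ B ⊓ ((X : Subgroup _) ⊓ Subgroup.prod ⊥ ⊤) ≠ ⊥ ∨
      ∃ R : Subgroup (↥(alternatingGroup (Fin 4)) × ↥(alternatingGroup (Fin 4))), R ≤ (Q : Subgroup _) ∧ Nat.card ↥R = 3 ∧
        R ≠ (Q : Subgroup _) ⊓ Subgroup.prod ⊤ ⊥ ∧ R ≠ (Q : Subgroup _) ⊓ Subgroup.prod ⊥ ⊤ ∧ R ≤ Subgroup.normalizer (B : Set _) := by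
  by_cases h1 : B ⊓ ((X : Subgroup _) ⊓ Subgroup.prod ⊤ ⊥) = ⊥
  swap
  · exact Or.inl h1
  by_cases h2 : B ⊓ ((X : Subgroup _) ⊓ Subgroup.prod ⊥ ⊤) = ⊥
  swap
  · exact Or.inr (Or.inl h2)
  right; right
  have hB2 : ∀ u ∈ B, u.1 ^ 2 = 1 ∧ u.2 ^ 2 = 1 := by
    intro u hu
    obtain ⟨k, hk⟩ := X.isPGroup' ⟨u, hBX hu⟩
    have hk' : u ^ (2 ^ k) = 1 := congrArg Subtype.val hk
    exact ⟨two_el u.1 k (congrArg Prod.fst hk'), two_el u.2 k (congrArg Prod.snd hk')⟩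
  have hBa : ∀ u ∈ B, u.2 = 1 → u = 1 := by
    intro u hu h
    have : u ∈ B ⊓ ((X : Subgroup _) ⊓ Subgroup.prod ⊤ ⊥) :=
      ⟨hu, hBX hu, Subgroup.mem_prod.mpr ⟨Subgroup.mem_top _, Subgroup.mem_bot.mpr h⟩⟩
    rw [h1] at this
    exact Subgroup.mem_bot.mp this
  have hBb : ∀ u ∈ B, u.1 = 1 → u = 1 := by
    intro u hu h
    have : u ∈ B ⊓ ((X : Subgroup _) ⊓ Subgroup.prod ⊥ ⊤) :=
      ⟨hu, hBX hu, Subgroup.mem_prod.mpr ⟨Subgroup.mem_bot.mpr h, Subgroup.mem_top _⟩⟩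
    rw [h2] at this
    exact Subgroup.mem_bot.mp this
  have hcard : (B : Set (A4 × A4)).ncard = 4 := hB4
  obtain ⟨u, huB, hu1⟩ : ∃ u ∈ B, u ≠ 1 := by
    by_contra hc
    push Not at hc
    have hs : (B : Set (A4 × A4)) ⊆ {1} := fun x hx => hc x hx
    have := Set.ncard_le_ncard hs (Set.toFinite _)
    rw [hcard, Set.ncard_singleton] at this
    omega
  obtain ⟨v, hvB, hv1, hvu⟩ : ∃ v ∈ B, v ≠ 1 ∧ v ≠ u := by
    by_contra hc
    push Not at hc
    have hs : (B : Set (A4 × A4)) ⊆ {1, u} := fun x hx => by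
      by_cases h : x = 1
      · simp [h]
      · simp [hc x hx h]
    have h3 := Set.ncard_le_ncard hs (Set.toFinite _)
    have h4 := Set.ncard_insert_le (1 : A4 × A4) {u}
    rw [Set.ncard_singleton] at h4
    omega
  have husq : u * u = 1 := by
    have := hB2 u huB
    ext1
    · simpa [pow_two] using this.1
    · simpa [pow_two] using this.2
  have huv1 : u * v ≠ 1 := by
    intro h
    apply hvu
    have : u * v = u * u := by rw [h, husq]
    exact mul_left_cancel this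
  have hBeq : ∀ n ∈ B, n = 1 ∨ n = u ∨ n = v ∨ n = u * v := by
    have hsub : ({1, u, v, u * v} : Set (A4 × A4)) ⊆ B := by
      intro x hx
      simp only [Set.mem_insert_iff, Set.mem_singleton_iff] at hx
      rcases hx with rfl | rfl | rfl | rfl
      · exact B.one_mem
      · exact huB
      · exact hvB
      · exact B.mul_mem huB hvB
    have hc4 : ({1, u, v, u * v} : Set (A4 × A4)).ncard = 4 := by
      rw [Set.ncard_insert_of_notMem, Set.ncard_insert_of_notMem, Set.ncard_pair]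
      · intro h
        apply hu1
        have : 1 * v = u * v := by rw [one_mul]; exact h
        exact (mul_right_cancel this).symm
      · simp only [Set.mem_insert_iff, Set.mem_singleton_iff, not_or]
        refine ⟨fun h => hvu h.symm, fun h => hv1 ?_⟩
        have : u * 1 = u * v := by rw [mul_one]; exact h
        exact (mul_left_cancel this).symm
      · simp only [Set.mem_insert_iff, Set.mem_singleton_iff, not_or]
        exact ⟨fun h => hu1 h.symm, fun h => hv1 h.symm, fun h => huv1 h.symm⟩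
    have heq := Set.eq_of_subset_of_ncard_le hsub (by rw [hcard, hc4]) (Set.toFinite _)
    intro n hn
    have : n ∈ ({1, u, v, u * v} : Set (A4 × A4)) := by rw [heq]; exact hn
    simpa using this
  -- elements of Q
  obtain ⟨qa, hqaQ, hqa1, hqa2⟩ := kerlem Q (MonoidHom.snd A4 A4)
  obtain ⟨qb, hqbQ, hqb1, hqb2⟩ := kerlem Q (MonoidHom.fst A4 A4)
  have hQ3 : ∀ q ∈ (Q : Subgroup (A4 × A4)), q.1 ^ 3 = 1 ∧ q.2 ^ 3 = 1 := by
    intro q hq
    obtain ⟨k, hk⟩ := Q.isPGroup' ⟨q, hq⟩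
    have hk' : q ^ (3 ^ k) = 1 := congrArg Subtype.val hk
    exact ⟨three_el q.1 k (congrArg Prod.fst hk'), three_el q.2 k (congrArg Prod.snd hk')⟩
  obtain ⟨a, a', rfl⟩ : ∃ a a', qa = (a, a') := ⟨qa.1, qa.2, rfl⟩
  obtain ⟨b', b, rfl⟩ : ∃ b' b, qb = (b', b) := ⟨qb.1, qb.2, rfl⟩
  simp only [MonoidHom.coe_snd, MonoidHom.coe_fst] at hqa2 hqb2
  subst hqa2 hqb2
  have ha1 : a ≠ 1 := fun h => hqa1 (by rw [h]; rfl)
  have hb1 : b ≠ 1 := fun h => hqb1 (by rw [h]; rfl)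
  have ha3 : a ^ 3 = 1 := (hQ3 _ hqaQ).1
  have hb3 : b ^ 3 = 1 := (hQ3 _ hqbQ).2
  have hu1' : u.1 ≠ 1 := fun h => hu1 (hBb u huB h)
  have hu2' : u.2 ≠ 1 := fun h => hu1 (hBa u huB h)
  have hv1' : v.1 ≠ 1 := fun h => hv1 (hBb v hvB h)
  have hv2' : v.2 ≠ 1 := fun h => hv1 (hBa v hvB h)
  have hvu1 : v.1 ≠ u.1 := by
    intro h
    apply huv1
    apply hBb _ (B.mul_mem huB hvB)
    show u.1 * v.1 = 1
    rw [h, ← pow_two]; exact (hB2 u huB).1
  have hvu2 : v.2 ≠ u.2 := by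
    intro h
    apply huv1
    apply hBa _ (B.mul_mem huB hvB)
    show u.2 * v.2 = 1
    rw [h, ← pow_two]; exact (hB2 u huB).2
  -- a general finishing step
  have fin : ∀ c : A4, c ≠ 1 → c ^ 3 = 1 → ((a, c) : A4 × A4) ∈ (Q : Subgroup (A4 × A4)) →
      ((a, c) : A4 × A4) * u * ((a, c) : A4 × A4)⁻¹ ∈ B →
      ((a, c) : A4 × A4) * v * ((a, c) : A4 × A4)⁻¹ ∈ B →
      ∃ R : Subgroup (A4 × A4), R ≤ (Q : Subgroup _) ∧ Nat.card ↥R = 3 ∧
        R ≠ (Q : Subgroup _) ⊓ Subgroup.prod ⊤ ⊥ ∧ R ≠ (Q : Subgroup _) ⊓ Subgroup.prod ⊥ ⊤ ∧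
        R ≤ Subgroup.normalizer (B : Set _) := by
    intro c hc1 hc3 hcQ hcu hcv
    refine ⟨Subgroup.zpowers (a, c), ?_, ?_, ?_, ?_, ?_⟩
    · rw [Subgroup.zpowers_le]; exact hcQ
    · rw [Nat.card_zpowers]
      apply orderOf_eq_prime
      · ext1
        · exact ha3
        · exact hc3
      · intro h
        exact ha1 (congrArg Prod.fst h)
    · intro h
      have hm : ((a, c) : A4 × A4) ∈ (Q : Subgroup _) ⊓ Subgroup.prod (⊤ : Subgroup A4) (⊥ : Subgroup A4) := by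
        rw [← h]; exact Subgroup.mem_zpowers _
      exact hc1 (Subgroup.mem_bot.mp (Subgroup.mem_prod.mp hm.2).2)
    · intro h
      have hm : ((a, c) : A4 × A4) ∈ (Q : Subgroup _) ⊓ Subgroup.prod (⊥ : Subgroup A4) (⊤ : Subgroup A4) := by
        rw [← h]; exact Subgroup.mem_zpowers _
      exact ha1 (Subgroup.mem_bot.mp (Subgroup.mem_prod.mp hm.2).1)
    · apply zpowers_le_norm
      intro x hx
      rcases hBeq x hx with rfl | rfl | rfl | rfl
      · rw [mul_one, mul_inv_cancel]; exact B.one_mem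
      · exact hcu
      · exact hcv
      · have e : ((a, c) : A4 × A4) * (u * v) * ((a, c) : A4 × A4)⁻¹ =
            (((a, c) : A4 × A4) * u * ((a, c) : A4 × A4)⁻¹) *
            (((a, c) : A4 × A4) * v * ((a, c) : A4 × A4)⁻¹) := by group
        rw [e]; exact B.mul_mem hcu hcv
  have hQab : ((a, b) : A4 × A4) ∈ (Q : Subgroup (A4 × A4)) := by
    have := (Q : Subgroup (A4 × A4)).mul_mem hqaQ hqbQ
    simpa using this
  have hQab' : ((a, b⁻¹) : A4 × A4) ∈ (Q : Subgroup (A4 × A4)) := by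
    have := (Q : Subgroup (A4 × A4)).mul_mem hqaQ ((Q : Subgroup (A4 × A4)).inv_mem hqbQ)
    simpa using this
  rcases t2 a ha1 ha3 b hb1 hb3 u.1 hu1' (hB2 u huB).1 u.2 hu2' (hB2 u huB).2
    v.1 hv1' (hB2 v hvB).1 hvu1 v.2 hv2' (hB2 v hvB).2 hvu2 with ⟨hU, hV⟩ | ⟨hU, hV⟩
  · apply fin b hb1 hb3 hQab
    · rcases hU with ⟨e1, e2⟩ | ⟨e1, e2⟩
      · have : ((a, b) : A4 × A4) * u * ((a, b) : A4 × A4)⁻¹ = v := Prod.ext e1 e2
        rw [this]; exact hvB
      · have : ((a, b) : A4 × A4) * u * ((a, b) : A4 × A4)⁻¹ = u * v := Prod.ext e1 e2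
        rw [this]; exact B.mul_mem huB hvB
    · rcases hV with ⟨e1, e2⟩ | ⟨e1, e2⟩
      · have : ((a, b) : A4 × A4) * v * ((a, b) : A4 × A4)⁻¹ = u := Prod.ext e1 e2
        rw [this]; exact huB
      · have : ((a, b) : A4 × A4) * v * ((a, b) : A4 × A4)⁻¹ = u * v := Prod.ext e1 e2
        rw [this]; exact B.mul_mem huB hvB
  · apply fin b⁻¹ (inv_ne_one.mpr hb1) (by rw [inv_pow, hb3, inv_one]) hQab'
    · rcases hU with ⟨e1, e2⟩ | ⟨e1, e2⟩
      · have : ((a, b⁻¹) : A4 × A4) * u * ((a, b⁻¹) : A4 × A4)⁻¹ = v :=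
          Prod.ext e1 (by simpa using e2)
        rw [this]; exact hvB
      · have : ((a, b⁻¹) : A4 × A4) * u * ((a, b⁻¹) : A4 × A4)⁻¹ = u * v :=
          Prod.ext e1 (by simpa using e2)
        rw [this]; exact B.mul_mem huB hvB
    · rcases hV with ⟨e1, e2⟩ | ⟨e1, e2⟩
      · have : ((a, b⁻¹) : A4 × A4) * v * ((a, b⁻¹) : A4 × A4)⁻¹ = u :=
          Prod.ext e1 (by simpa using e2)
        rw [this]; exact huB
      · have : ((a, b⁻¹) : A4 × A4) * v * ((a, b⁻¹) : A4 × A4)⁻¹ = u * v :=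
          Prod.ext e1 (by simpa using e2)
        rw [this]; exact B.mul_mem huB hvB

end Cfsg.Agent.S4406
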