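import Cfsg.Statements.S4408
import Mathlib
import Cfsg.Agent.Lib.Helper21.ThDih
import Cfsg.Agent.Lib.Helper1.Fitting

set_option autoImplicit false
open Cfsg

namespace Cfsg.Agent.S4408

/-- Let S be a finite solvable group whose Fitting subgroup F(S) has odd order, and let I be an elementary abelian 2-subgroup of S of order 2ⁿ with n ≥ 1. Then F(S) contains subgroups A₁, …, Aₙ of prime order, each normalized by I, pairwise commuting and generating a subgroup A of order |A₁|⋯|Aₙ| (their internal direct product), such that no non-identity element of I centralizes A. -/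
theorem result {S : Type*} [Group S] [Finite S]
    [Group.IsSolvable S] (hF : Odd (Nat.card ↥(Cfsg.fittingSubgroup S)))
    (I : Subgroup S) (hI : Cfsg.IsElementaryAbelian 2 I) (n : ℕ) (hn : 1 ≤ n) (hIn : Nat.card ↥I = 2 ^ n) :
    ∃ f : Fin n → Subgroup S, (∀ i, (Nat.card ↥(f i)).Prime) ∧ (∀ i, f i ≤ Cfsg.fittingSubgroup S) ∧
      (∀ i, I ≤ Subgroup.normalizer ((f i) : Set S)) ∧ (∀ i j, i ≠ j → ∀ a ∈ f i, ∀ b ∈ f j, a * b = b * a) ∧
      Nat.card ↥(⨆ i, f i) = ∏ i, Nat.card ↥(f i) ∧ I ⊓ Subgroup.centralizer ((⨆ i, f i : Subgroup S) : Set S) = ⊥ := by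
  classical
  have hFn : Group.IsNilpotent ↥(Cfsg.fittingSubgroup S) := Cfsg.Agent.Lib.Helper1.fitting_nilpotent
  haveI hFnorm : (Cfsg.fittingSubgroup S).Normal := Cfsg.Agent.Lib.Helper1.fitting_normal
  have hA2 : ∀ a ∈ I, a * a = 1 := fun a ha => by
    have := hI.2 a ha
    rwa [pow_two] at this
  have hAF : I ≤ Subgroup.normalizer ((Cfsg.fittingSubgroup S : Subgroup S) : Set S) := by
    rw [Subgroup.normalizer_eq_top]; exact le_top
  have hfaith : ∀ a ∈ I, (∀ f ∈ Cfsg.fittingSubgroup S, a * f = f * a) → a = 1 := by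
    intro a ha h
    have h1 : a ∈ Subgroup.centralizer ((Cfsg.fittingSubgroup S : Subgroup S) : Set S) :=
      Subgroup.mem_centralizer_iff.2 (fun f hf => (h f hf).symm)
    have h2 : a ∈ Cfsg.fittingSubgroup S := Cfsg.Agent.Lib.Helper1.centralizer_fitting_le h1
    exact Cfsg.Agent.Lib.Helper21.td_eq_one_of_sq _ hF h2 (hA2 a ha)
  obtain ⟨x, h1, h2, h3, h4, h5, h6⟩ :=
    Cfsg.Agent.Lib.Helper21.td_main _ I hFn hF hA2 hAF hfaith n hIn
  refine ⟨fun i => Subgroup.zpowers (x i), ?_, ?_, ?_, ?_, ?_, ?_⟩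
  · intro i
    rw [Nat.card_zpowers]; exact h2 i
  · intro i
    exact Subgroup.zpowers_le.2 (h1 i)
  · intro i
    apply Cfsg.Agent.Lib.Helper21.td_le_normalizer
    intro a ha y hy
    obtain ⟨k, rfl⟩ := Subgroup.mem_zpowers_iff.1 hy
    rw [← conj_zpow]
    rcases h4 i a ha with h | h
    · rw [h]; exact Subgroup.zpow_mem _ (Subgroup.mem_zpowers _) k
    · rw [h]; exact Subgroup.zpow_mem _ (Subgroup.inv_mem _ (Subgroup.mem_zpowers _)) k
  · intro i j _ a ha b hb
    obtain ⟨k, rfl⟩ := Subgroup.mem_zpowers_iff.1 ha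
    obtain ⟨l, rfl⟩ := Subgroup.mem_zpowers_iff.1 hb
    exact ((show Commute (x i) (x j) from h3 i j).zpow_zpow k l).eq
  · simp only [Nat.card_zpowers]; exact h5
  · rw [eq_bot_iff]
    intro a ha
    obtain ⟨ha1, ha2⟩ := Subgroup.mem_inf.1 ha
    rw [Subgroup.mem_bot]
    apply h6 a ha1
    intro i
    have h7 : x i ∈ (⨆ i, Subgroup.zpowers (x i)) :=
      (le_iSup (fun i => Subgroup.zpowers (x i)) i) (Subgroup.mem_zpowers _)
    exact (Subgroup.mem_centralizer_iff.1 ha2 _ h7).symm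

end Cfsg.Agent.S4408
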