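import Cfsg.Statements.S4420
import Mathlib

set_option autoImplicit false
open Cfsg

namespace Cfsg.Agent.S4420

/-- Structure of groups in which every element outside some proper subgroup has square 1. Let H be a finite group with a proper subgroup A such that every element outside A has square 1. Then H has an abelian normal subgroup B of index 2 such that every element outside B is an involution inverting every element of B; and if H is not an elementary abelian 2-group, B is the only abelian normal subgroup of index 2 with this property. -/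
theorem result {H : Type*} [Group H] [Finite H] (A : Subgroup H) (hA : A ≠ ⊤) (hD : ∀ x : H, x ∉ A → x ^ 2 = 1) :
    ∃ B : Subgroup H, B.Normal ∧ IsMulCommutative ↥B ∧ B.index = 2 ∧
      (∀ x : H, x ∉ B → x ^ 2 = 1 ∧ ∀ b ∈ B, x * b * x⁻¹ = b⁻¹) ∧
      (¬ (IsMulCommutative H ∧ ∀ x : H, x ^ 2 = 1) →
        ∀ B' : Subgroup H, B'.Normal → IsMulCommutative ↥B' → B'.index = 2 →
          (∀ x : H, x ∉ B' → x ^ 2 = 1 ∧ ∀ b ∈ B', x * b * x⁻¹ = b⁻¹) → B' = B) := by
  classical
  have hinvOf : ∀ x : H, x ^ 2 = 1 → x⁻¹ = x := fun x hx =>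
    inv_eq_of_mul_eq_one_right (by rw [← sq]; exact hx)
  have hcommOf : (∀ x : H, x ^ 2 = 1) → ∀ a b : H, a * b = b * a := by
    intro h a b
    calc a * b = (a * b)⁻¹ := (hinvOf _ (h _)).symm
      _ = b⁻¹ * a⁻¹ := mul_inv_rev a b
      _ = b * a := by rw [hinvOf a (h a), hinvOf b (h b)]
  -- uniqueness
  have huniq : ∀ B : Subgroup H, IsMulCommutative ↥B → B.index = 2 →
      (¬ (IsMulCommutative H ∧ ∀ x : H, x ^ 2 = 1) →
        ∀ B' : Subgroup H, B'.Normal → IsMulCommutative ↥B' → B'.index = 2 →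
          (∀ x : H, x ∉ B' → x ^ 2 = 1 ∧ ∀ b ∈ B', x * b * x⁻¹ = b⁻¹) → B' = B) ∨
      ¬ (∀ x : H, x ∉ B → x ^ 2 = 1) := by
    intro B hBc hBi
    by_cases hBx : ∀ x : H, x ∉ B → x ^ 2 = 1
    swap
    · exact Or.inr hBx
    left
    intro hne B' _ _ hBi' hB'
    obtain ⟨y, hy⟩ : ∃ y : H, y ^ 2 ≠ 1 := by
      by_contra hcon
      push Not at hcon
      exact hne ⟨⟨⟨fun a b => hcommOf hcon a b⟩⟩, hcon⟩
    have hyB : y ∈ B := by
      by_contra h; exact hy (hBx y h)
    have hyB' : y ∈ B' := by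
      by_contra h; exact hy (hB' y h).1
    by_contra hneq
    have hnle : ¬ B ≤ B' := by
      intro hle
      have h1 := B.card_mul_index
      have h2 := B'.card_mul_index
      rw [hBi] at h1
      rw [hBi'] at h2
      exact hneq (Subgroup.eq_of_le_of_card_ge hle (by omega)).symm
    obtain ⟨x, hxB, hxB'⟩ := SetLike.not_le_iff_exists.1 hnle
    have h1 := (hB' x hxB').2 y hyB'
    have h2 : x * y = y * x := congrArg Subtype.val (hBc.is_comm.comm ⟨x, hxB⟩ ⟨y, hyB⟩)
    have h3 : x * y * x⁻¹ = y := by rw [h2]; group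
    apply hy
    rw [sq]
    calc y * y = y * (x * y * x⁻¹) := by rw [h3]
      _ = 1 := by rw [h1, mul_inv_cancel]
  obtain ⟨t, ht⟩ : ∃ t : H, t ∉ A := by
    by_contra hcon
    push Not at hcon
    exact hA (eq_top_iff.2 (fun x _ => hcon x))
  by_cases hexp : ∀ x : H, x ^ 2 = 1
  · have hcomm := hcommOf hexp
    have hp : IsPGroup 2 H := fun g => ⟨1, by rw [pow_one]; exact hexp g⟩
    obtain ⟨n, hn⟩ := IsPGroup.iff_card.1 hp
    have hn0 : n ≠ 0 := by
      rintro rfl
      rw [pow_zero] at hn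
      haveI : Subsingleton H := (Nat.card_eq_one_iff_unique.1 hn).1
      exact ht (by rw [Subsingleton.elim t 1]; exact A.one_mem)
    obtain ⟨k, rfl⟩ := Nat.exists_eq_succ_of_ne_zero hn0
    obtain ⟨B, hB⟩ := Sylow.exists_subgroup_card_pow_prime (G := H) 2 (n := k)
      (by rw [hn]; exact pow_dvd_pow 2 (Nat.le_succ k))
    have hBi : B.index = 2 := by
      have h1 := B.card_mul_index
      rw [hB, hn, pow_succ] at h1
      exact Nat.eq_of_mul_eq_mul_left (pow_pos (by norm_num) k) h1
    have hBc : IsMulCommutative ↥B := ⟨⟨fun a b => Subtype.ext (hcomm a b)⟩⟩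
    refine ⟨B, ⟨fun b hb g => by rw [hcomm g b, mul_assoc, mul_inv_cancel, mul_one]; exact hb⟩,
      hBc, hBi, fun x _ => ⟨hexp x, fun b _ => by
        rw [hcomm x b, mul_assoc, mul_inv_cancel, mul_one, hinvOf b (hexp b)]⟩, ?_⟩
    intro hne
    exact absurd ⟨⟨⟨fun a b => hcomm a b⟩⟩, hexp⟩ hne
  · push Not at hexp
    obtain ⟨y, hy⟩ := hexp
    have hyA : y ∈ A := by
      by_contra h; exact hy (hD y h)
    have hinv : ∀ s : H, s ∉ A → ∀ a ∈ A, s * a * s⁻¹ = a⁻¹ := by
      intro s hs a ha
      have h1 : s * a ∉ A := fun h => hs (by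
        have := A.mul_mem h (A.inv_mem ha)
        simpa using this)
      have h2 : s * a * (s * a) = 1 := by rw [← sq]; exact hD _ h1
      rw [hinvOf s (hD s hs)]
      calc s * a * s = (s * a * (s * a)) * a⁻¹ := by group
        _ = a⁻¹ := by rw [h2, one_mul]
    have hAc : IsMulCommutative ↥A := by
      refine ⟨⟨fun a b => Subtype.ext ?_⟩⟩
      have h1 := hinv t ht (a * b) (A.mul_mem a.2 b.2)
      have h2 := hinv t ht a a.2
      have h3 := hinv t ht b b.2
      have h4 : t * ((a : H) * b) * t⁻¹ = (t * a * t⁻¹) * (t * b * t⁻¹) := by group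
      rw [h4, h2, h3] at h1
      have h5 : ((b : H) * a)⁻¹ = ((a : H) * b)⁻¹ := by rw [mul_inv_rev]; exact h1
      exact (inv_injective h5).symm
    have hAi : A.index = 2 := by
      rw [Subgroup.index_eq_two_iff]
      refine ⟨t, fun b => ?_⟩
      by_cases hb : b ∈ A
      · right
        refine ⟨hb, fun h => ht ?_⟩
        have := A.mul_mem (A.inv_mem hb) h
        simpa using this
      · left
        refine ⟨?_, hb⟩
        by_contra hbt
        apply hy
        have h1 := hinv (b * t) hbt y hyA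
        have h2 := hinv t ht y hyA
        have h3 := hinv b hb y⁻¹ (A.inv_mem hyA)
        have h4 : b * t * y * (b * t)⁻¹ = b * (t * y * t⁻¹) * b⁻¹ := by group
        rw [h4, h2, h3, inv_inv] at h1
        rw [sq]
        nth_rewrite 1 [h1]
        exact inv_mul_cancel y
    refine ⟨A, Subgroup.normal_of_index_eq_two hAi, hAc, hAi,
      fun x hx => ⟨hD x hx, hinv x hx⟩, ?_⟩
    rcases huniq A hAc hAi with h | h
    · exact h
    · exact absurd hD h

end Cfsg.Agent.S4420
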