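import Cfsg.Statements.S4517
import Cfsg.Agent.Lib.Helper24.RealBlock
import Cfsg.Agent.Lib.Helper7.BlockHeight

set_option autoImplicit false
open Cfsg

namespace Cfsg.Agent.S4517

/-- Let G be a finite group, M a maximal ideal of the algebraic integers containing 2, and k a natural number coprime to the order of G with g ^ k = g⁻¹ for every element g of odd order (so that g ↦ g ^ k induces a field automorphism of the character values inverting the roots of unity of odd order). If B is a 2-block of full defect (its defect equals the exponent of 2 in the order of G) that is stable under χ ↦ χ ∘ (· ^ k), then B is the principal 2-block. -/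
theorem result {G : Type*} [Group G] [Finite G] (M : Ideal Cfsg.AlgInt) (hM : Cfsg.IsPModular 2 M) (k : ℕ) (hk : Nat.Coprime k (Nat.card G)) (hk₂ : ∀ g : G, Odd (orderOf g) → g ^ k = g⁻¹) (B : Set (Cfsg.IrrCharacter G)) (hB : Cfsg.IsPBlock M B) (hdef : Cfsg.blockDefect 2 B = (Nat.card G).factorization 2) (hstab : ∀ χ ∈ B, ∃ ψ ∈ B, ∀ g : G, (ψ : G → ℂ) g = (χ : G → ℂ) (g ^ k)) : B = Cfsg.principalBlock M G := by
  classical
  haveI := hM.2.1.isPrime
  haveI := Fintype.ofFinite G
  have h1 := Cfsg.Agent.Lib.Helper7.sInf_le_factorization_card hB 2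
  have h2 : sInf ((fun χ : Cfsg.IrrCharacter G =>
      (Cfsg.charDegree (χ : G → ℂ)).factorization 2) '' B) = 0 := by
    rw [Cfsg.blockDefect] at hdef
    omega
  obtain ⟨χ₀, hχ₀⟩ := Cfsg.Agent.Lib.Helper7.isPBlock_nonempty hB
  have hne : ((fun χ : Cfsg.IrrCharacter G =>
      (Cfsg.charDegree (χ : G → ℂ)).factorization 2) '' B).Nonempty := ⟨_, χ₀, hχ₀, rfl⟩
  obtain ⟨χ, hχ, hχ2⟩ := Nat.sInf_mem hne
  rw [h2] at hχ2
  have hodd : ¬ 2 ∣ Cfsg.charDegree (χ : G → ℂ) := by
    rcases (Nat.factorization_eq_zero_iff _ _).1 hχ2 with h | h | h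
    · exact absurd Nat.prime_two h
    · exact h
    · exact absurd h (Cfsg.Agent.Lib.Helper7.charDegree_pos χ).ne'
  obtain ⟨ψ, hψ, hψk⟩ := hstab χ hχ
  have hmem := Cfsg.Agent.Lib.Helper24.mem_principalBlock_of_odd hM χ ψ
    (Cfsg.Agent.Lib.Helper7.sameBlock_of_mem hB hχ hψ)
    (by
      intro g hg
      rw [hψk g, hk₂ g (Nat.not_even_iff_odd.1 (fun h => hg (even_iff_two_dvd.1 h)))])
    hodd
  exact Cfsg.Agent.Lib.Helper24.eq_principalBlock hB hχ hmem

end Cfsg.Agent.S4517
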