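import Cfsg.Statements.S4518
import Cfsg.Agent.Lib.Helper25.Monomial
import Cfsg.Agent.Lib.Helper11.GalChar

set_option autoImplicit false
open Cfsg

namespace Cfsg.Agent.S4518

open Cfsg.Agent.Lib.Helper25

/-- Let N be a normal subgroup of the finite group G whose index is not divisible by the prime p, and let k be coprime to the order of G with k ^ (p ^ e) ≡ 1 modulo the order of G for some e (so g ↦ g ^ k induces a field automorphism of p-power order on character values). If an irreducible character χ of G satisfies χ (g ^ k) = χ g for all g, then every irreducible constituent θ of the restriction of χ to N satisfies θ (n ^ k) = θ n for all n. -/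
theorem result {G : Type*} [Group G] [Fintype G] (p : ℕ) [Fact p.Prime] (N : Subgroup G) [N.Normal] [Fintype N] (hidx : ¬ p ∣ N.index) (k e : ℕ) (hk : Nat.Coprime k (Nat.card G)) (hke : k ^ (p ^ e) ≡ 1 [MOD Nat.card G]) (χ : Cfsg.IrrCharacter G) (hχ : ∀ g : G, (χ : G → ℂ) (g ^ k) = (χ : G → ℂ) g) (θ : Cfsg.IrrCharacter N) (hθ : Cfsg.classInner (fun n : N => (χ : G → ℂ) n) (θ : N → ℂ) ≠ 0) : ∀ n : N, (θ : N → ℂ) (n ^ k) = (θ : N → ℂ) n := by
  classical
  have hkN : Nat.Coprime k (Nat.card N) := Nat.Coprime.coprime_dvd_right (Subgroup.card_subgroup_dvd_card N) hk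
  have hχcl := Cfsg.Agent.Lib.Helper7.isClassFunction_of_isCharacter
    (Cfsg.Agent.Lib.Helper7.isCharacter_of_irr χ.2)
  let O : Finset (N → ℂ) := Finset.univ.image (conjFun N (θ : N → ℂ))
  let s : (N → ℂ) → (N → ℂ) := fun ψ n => ψ (n ^ k)
  have hsiter : ∀ (j : ℕ) (ψ : N → ℂ), s^[j] ψ = fun n => ψ (n ^ (k ^ j)) := by
    intro j
    induction j with
    | zero => intro ψ; simp
    | succ j ih =>
      intro ψ
      rw [Function.iterate_succ_apply', ih]
      funext n
      show ψ ((n ^ k) ^ (k ^ j)) = _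
      rw [← pow_mul, pow_succ, mul_comm]
  have hsid : ∀ ψ : N → ℂ, s^[p ^ e] ψ = ψ := by
    intro ψ
    rw [hsiter]
    funext n
    congr 1
    have h1 : k ^ (p ^ e) ≡ 1 [MOD orderOf n] :=
      hke.of_dvd ((orderOf_dvd_natCard n).trans (Subgroup.card_subgroup_dvd_card N))
    have := pow_eq_pow_iff_modEq.2 h1
    rwa [pow_one] at this
  have hsO : ∀ ψ ∈ O, s ψ ∈ O := by
    intro ψ hψ
    obtain ⟨g, -, rfl⟩ := Finset.mem_image.1 hψ
    have hirr : Cfsg.IsIrrCharacter N (conjFun N (θ : N → ℂ) g) := isIrrCharacter_conjFun N θ.2 g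
    have hirr' : Cfsg.IsIrrCharacter N (s (conjFun N (θ : N → ℂ) g)) :=
      Cfsg.Agent.Lib.Helper11.isIrrCharacter_pow_coprime hirr hkN
    have hne : Cfsg.classInner (fun n : N => (χ : G → ℂ) n) (s (conjFun N (θ : N → ℂ) g)) ≠ 0 := by
      have h1 : Cfsg.classInner (fun n : N => (χ : G → ℂ) n) (s (conjFun N (θ : N → ℂ) g)) =
          Cfsg.classInner (fun n : N => (χ : G → ℂ) n) (conjFun N (θ : N → ℂ) g) := by
        unfold Cfsg.classInner
        congr 1
        refine Fintype.sum_equiv (powCoprime hkN.symm) _ _ (fun n => ?_)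
        show _ = (χ : G → ℂ) ((n ^ k : N) : G) * _
        rw [Subgroup.coe_pow, hχ]
        rfl
      rw [h1, classInner_restrict_conjFun N hχcl]
      exact hθ
    by_contra hnot
    apply hne
    apply classInner_restrict_eq_zero_of_not_conj N χ.2 θ.2 hirr' hθ
    rintro ⟨g', hg'⟩
    exact hnot (Finset.mem_image.2 ⟨g', Finset.mem_univ _, hg'.symm⟩)
  have hcardO : ¬ p ∣ Fintype.card O := by
    rw [Fintype.card_coe]
    have h1 := sum_comp_conjFun N (θ : N → ℂ) (fun _ => (1 : ℕ))
    simp only [Finset.sum_const, Finset.card_univ, smul_eq_mul, mul_one] at h1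
    have h2 : Nat.card {g : G // ∀ h : N, (θ : N → ℂ) ⟨g * h * g⁻¹,
        (inferInstance : N.Normal).conj_mem h h.2 g⟩ = (θ : N → ℂ) h} =
        Nat.card (inertia N (θ : N → ℂ)) := by
      apply Nat.card_congr
      exact Equiv.subtypeEquivRight (fun g => (mem_inertia N _ g).symm)
    rw [h2] at h1
    have h3 := (inertia N (θ : N → ℂ)).card_mul_index
    rw [Nat.card_eq_fintype_card (α := G), h1] at h3
    have hpos : 0 < Nat.card (inertia N (θ : N → ℂ)) := Nat.card_pos
    have h4 : (inertia N (θ : N → ℂ)).index =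
        (Finset.univ.image (conjFun N (θ : N → ℂ))).card := by
      refine Nat.eq_of_mul_eq_mul_left hpos ?_
      convert h3
    show ¬ p ∣ (Finset.univ.image (conjFun N (θ : N → ℂ))).card
    rw [← h4]
    intro hdvd
    apply hidx
    exact hdvd.trans (Subgroup.index_dvd_of_le (le_inertia N
      (Cfsg.Agent.Lib.Helper7.isClassFunction_of_isCharacter
        (Cfsg.Agent.Lib.Helper7.isCharacter_of_irr θ.2))))
  let f : O → O := fun ψ => ⟨s ψ.1, hsO ψ.1 ψ.2⟩
  have hfiter : ∀ (j : ℕ) (ψ : O), ((f^[j] ψ : O) : N → ℂ) = s^[j] ψ.1 := by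
    intro j
    induction j with
    | zero => intro ψ; rfl
    | succ j ih =>
      intro ψ
      rw [Function.iterate_succ_apply', Function.iterate_succ_apply', ← ih]
  have hfid : ∀ ψ : O, f^[p ^ e] ψ = ψ := fun ψ => Subtype.ext (by rw [hfiter, hsid])
  have hpe : p ^ e = (p ^ e - 1) + 1 := by
    have : 0 < p ^ e := pow_pos (Fact.out : p.Prime).pos e
    omega
  let σ : Equiv.Perm O :=
    { toFun := f
      invFun := f^[p ^ e - 1]
      left_inv := fun ψ => by
        have := hfid ψ
        rw [hpe, Function.iterate_succ_apply] at this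
        exact this
      right_inv := fun ψ => by
        have := hfid ψ
        rw [hpe, Function.iterate_succ_apply'] at this
        exact this }
  have hσ : σ ^ p ^ e = 1 := by
    ext1 ψ
    rw [← Equiv.Perm.iterate_eq_pow]
    exact hfid ψ
  obtain ⟨ψ0, hψ0⟩ := Equiv.Perm.exists_fixed_point_of_prime hcardO hσ
  obtain ⟨g, -, hg⟩ := Finset.mem_image.1 ψ0.2
  have hfix : s ψ0.1 = ψ0.1 := congrArg Subtype.val hψ0
  intro n
  have hmem : g⁻¹ * (n : G) * g ∈ N := by
    have := (inferInstance : N.Normal).conj_mem n n.2 g⁻¹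
    simpa using this
  have h1 := congrFun hfix ⟨g⁻¹ * (n : G) * g, hmem⟩
  rw [← hg] at h1
  simp only [s, conjFun_apply] at h1
  convert h1 using 2
  · apply Subtype.ext
    simp only [Subgroup.coe_pow]
    rw [← conj_pow]
    congr 1
    group
  · apply Subtype.ext
    simp only
    group

end Cfsg.Agent.S4518
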