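import Cfsg.Statements.S4520
import Cfsg.Agent.Lib.Helper1.SigmaOdd

set_option autoImplicit false
open Cfsg

namespace Cfsg.Agent.S4520

open Cfsg.Agent.Lib.Helper1 Cfsg.Agent.Lib.Helper7 Cfsg.Agent.Lib.Helper24

theorem Om_regInd_powIrr {G : Type*} [Group G] [Fintype G] {k : ℕ}
    (hk : Nat.Coprime k (Nat.card G)) (p : ℕ) (χ : Cfsg.IrrCharacter G) :
    Om (regInd p G) (powIrr hk χ) = Om (regInd p G) χ := by
  unfold Om
  rw [powIrr_apply, one_pow]
  congr 1
  refine Fintype.sum_equiv (powCoprime hk.symm) _ _ (fun g => ?_)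
  show regInd p G g * (χ : G → ℂ) (g ^ k) = regInd p G (g ^ k) * (χ : G → ℂ) (g ^ k)
  congr 1
  have ho : orderOf (g ^ k) = orderOf g :=
    Nat.Coprime.orderOf_pow (Nat.Coprime.coprime_dvd_right (orderOf_dvd_natCard g) hk).symm
  by_cases hg : p ∣ orderOf g
  · rw [regInd_of_singular hg, regInd_of_singular (ho ▸ hg)]
  · rw [regInd_of_regular hg, regInd_of_regular (ho ▸ hg)]

/-- Let N be a normal subgroup of odd index in the finite group G, M a maximal ideal of the algebraic integers containing 2, and k coprime to the order of G with k ^ (2 ^ e) ≡ 1 modulo the order of G for some e and g ^ k = g⁻¹ for every element g of odd order. Let θ be an irreducible character of N and χ an irreducible character of G over θ, both unchanged by composing with g ↦ g ^ k. Then χ lies in the principal 2-block of G if and only if θ lies in the principal 2-block of N. -/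
theorem result {G : Type*} [Group G] [Fintype G] (M : Ideal Cfsg.AlgInt) (hM : Cfsg.IsPModular 2 M) (N : Subgroup G) [N.Normal] [Fintype N] (hidx : Odd N.index) (k e : ℕ) (hk : Nat.Coprime k (Nat.card G)) (hke : k ^ (2 ^ e) ≡ 1 [MOD Nat.card G]) (hk₂ : ∀ g : G, Odd (orderOf g) → g ^ k = g⁻¹) (θ : Cfsg.IrrCharacter N) (hθ : ∀ n : N, (θ : N → ℂ) (n ^ k) = (θ : N → ℂ) n) (χ : Cfsg.IrrCharacter G) (hχ : ∀ g : G, (χ : G → ℂ) (g ^ k) = (χ : G → ℂ) g) (hover : Cfsg.classInner (fun n : N => (χ : G → ℂ) n) (θ : N → ℂ) ≠ 0) : χ ∈ Cfsg.principalBlock M G ↔ θ ∈ Cfsg.principalBlock M N := by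
  classical
  haveI := hM.2.1.isPrime
  haveI : Fintype (Cfsg.IrrCharacter G) := Fintype.ofFinite _
  have hS : SigHyp G k e := ⟨hk, hke, hk₂⟩
  constructor
  · intro hχB
    exact ad_F1 hM N hχB hover
  · intro hθB
    have hI : Cfsg.IsCharacter G (Cfsg.indFun N (θ : N → ℂ)) :=
      Cfsg.Agent.Lib.Helper25.isCharacter_indFun N _ (Cfsg.Agent.Lib.Helper7.isCharacter_of_irr θ.2)
    obtain ⟨a, ha, hsum⟩ := character_eq_sum_nat hI
    have hapow : ∀ χ : Cfsg.IrrCharacter G, a (powIrr hS.cop χ) = a χ := by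
      intro χ
      have h1 : (a (powIrr hS.cop χ) : ℂ) = a χ := by
        rw [← ha, ← ha, ← classInner_pow hS.cop (Cfsg.indFun N (θ : N → ℂ)) (χ : G → ℂ)]
        congr 1
        funext g
        exact (indFun_pow N hS.cop hθ g).symm
      exact_mod_cast h1
    have hares : ∀ χ : Cfsg.IrrCharacter G,
        Cfsg.classInner (fun n : N => (χ : G → ℂ) n) (θ : N → ℂ) = a χ := by
      intro χ
      have h7 := ha χ
      rw [Cfsg.Agent.Lib.Helper25.frobenius_reciprocity N _ _ (isClassFunction_irr χ)] at h7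
      rw [← Cfsg.Agent.Lib.Helper7.classInner_conj_symm, h7, Complex.conj_natCast]
    let T := Cfsg.Agent.Lib.Helper25.inertia N (θ : N → ℂ)
    have hNT : N ≤ T := Cfsg.Agent.Lib.Helper25.le_inertia N (isClassFunction_irr θ)
    have hdeg : ∀ χ : Cfsg.IrrCharacter G, (a χ : ℂ) * (χ : G → ℂ) 1
        = (a χ : ℂ) ^ 2 * ((T.index : ℂ) * (θ : N → ℂ) 1) := by
      intro χ
      by_cases h0 : a χ = 0
      · simp [h0]
      · have hc : Cfsg.classInner (fun n : N => (χ : G → ℂ) n) (θ : N → ℂ) ≠ 0 := by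
          rw [hares]; exact_mod_cast h0
        have := Cfsg.Agent.Lib.Helper25.clifford_degree N χ.2 θ.2 hc T
          (Cfsg.Agent.Lib.Helper25.mem_inertia N (θ : N → ℂ))
        rw [this, hares]
        ring
    -- the two evaluations
    have h1 := Cfsg.Agent.Lib.Helper25.frobenius_reciprocity N (θ : N → ℂ) (regInd 2 G)
      (isClassFunction_regInd 2)
    have h2 : (fun h : N => regInd 2 G h) = regInd 2 N := by
      funext h
      by_cases hh : 2 ∣ orderOf h
      · rw [regInd_of_singular hh, regInd_of_singular (by rwa [Subgroup.orderOf_coe])]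
      · rw [regInd_of_regular hh, regInd_of_regular (by rwa [Subgroup.orderOf_coe])]
    rw [h2, ad_classInner_regInd] at h1
    have h3 : Cfsg.classInner (Cfsg.indFun N (θ : N → ℂ)) (regInd 2 G)
        = (Nat.card G : ℂ)⁻¹ * ((T.index : ℂ) * (θ : N → ℂ) 1 *
          ∑ χ ∈ Finset.univ.filter (· ∈ Cfsg.principalBlock M G),
            (a χ : ℂ) ^ 2 * Om (regInd 2 G) χ) := by
      conv_lhs => rw [hsum]
      rw [Cfsg.Agent.Lib.Helper7.classInner_sum_left, Finset.sum_filter, Finset.mul_sum, Finset.mul_sum]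
      apply Finset.sum_congr rfl
      intro χ _
      rw [← Nat.cast_smul_eq_nsmul ℂ, Cfsg.Agent.Lib.Helper7.classInner_smul_left, ad_classInner_regInd]
      by_cases hχ : χ ∈ Cfsg.principalBlock M G
      · rw [if_pos hχ]
        have := hdeg χ
        calc (a χ : ℂ) * ((Nat.card G : ℂ)⁻¹ * ((χ : G → ℂ) 1 * Om (regInd 2 G) χ))
            = (Nat.card G : ℂ)⁻¹ * (((a χ : ℂ) * (χ : G → ℂ) 1) * Om (regInd 2 G) χ) := by ring
          _ = _ := by rw [this]; ring
      · rw [if_neg hχ, Om_regInd_eq_zero hM hχ]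
        simp
    rw [h3] at h1
    have hGc : (Nat.card G : ℂ) ≠ 0 := by exact_mod_cast Nat.card_pos.ne'
    have hNc : (Nat.card N : ℂ) ≠ 0 := by exact_mod_cast Nat.card_pos.ne'
    have hθ1 := irr_apply_one_ne_zero θ.2
    have h4 : (T.index : ℂ) * ∑ χ ∈ Finset.univ.filter (· ∈ Cfsg.principalBlock M G),
        (a χ : ℂ) ^ 2 * Om (regInd 2 G) χ = (N.index : ℂ) * Om (regInd 2 N) θ := by
      have h5 : (Nat.card G : ℂ) = Nat.card N * N.index := by
        rw [← N.card_mul_index]; push_cast; ring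
      rw [h5] at h1
      have hidx0 : (N.index : ℂ) ≠ 0 := by exact_mod_cast N.index_ne_zero_of_finite
      field_simp at h1
      linear_combination h1
    have hodd : Odd (∑ χ ∈ Finset.univ.filter (· ∈ Cfsg.principalBlock M G), a χ ^ 2) := by
      by_contra hne
      have heven := Nat.not_odd_iff_even.1 hne
      have h6 : Cfsg.MemLocalIdeal M (∑ χ ∈ Finset.univ.filter (· ∈ Cfsg.principalBlock M G),
          (a χ : ℂ) ^ 2 * Om (regInd 2 G) χ) := by
        have h7 : ∑ χ ∈ Finset.univ.filter (· ∈ Cfsg.principalBlock M G),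
            (a χ : ℂ) ^ 2 * Om (regInd 2 G) χ
            = ∑ χ ∈ Finset.univ.filter (· ∈ Cfsg.principalBlock M G),
              (a χ : ℂ) ^ 2 * (Om (regInd 2 G) χ - Om (regInd 2 G) (oneIrr G))
              + ((∑ χ ∈ Finset.univ.filter (· ∈ Cfsg.principalBlock M G), a χ ^ 2 : ℕ) : ℂ)
                * Om (regInd 2 G) (oneIrr G) := by
          push_cast
          rw [Finset.sum_mul, ← Finset.sum_add_distrib]
          apply Finset.sum_congr rfl
          intro χ _
          ring
        rw [h7]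
        apply memLocalIdeal_add
        · apply memLocalIdeal_sum
          intro χ hχ
          have hχB := (Finset.mem_filter.1 hχ).2
          apply memLocalIdeal_mul_left (memLocalRing_pow (memLocalRing_natCast _) 2)
          exact centralSubring_congr (M := M) (v := Om (regInd 2 G))
            ⟨regInd 2 G, isClassFunction_regInd 2, memLocalRing_regInd 2, rfl⟩
            (sameBlock_symm hχB)
        · apply memLocalIdeal_mul_right
          · rw [memLocalIdeal_natCast_iff hM]
            exact even_iff_two_dvd.1 heven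
          · rw [Om_regInd_one]
            exact memLocalRing_natCast _
      have h8 := memLocalIdeal_mul_left (memLocalRing_natCast (M := M) T.index) h6
      rw [h4] at h8
      have h9 : ¬ Cfsg.MemLocalIdeal M ((N.index : ℕ) : ℂ) := by
        rw [memLocalIdeal_natCast_iff hM]
        exact fun h => (Nat.not_even_iff_odd.2 hidx) (even_iff_two_dvd.2 h)
      exact not_memLocalIdeal_mul (memLocalRing_natCast _) h9
        ((mem_principalBlock_iff hM θ).1 hθB) h8
    obtain ⟨χ₀, hχ₀B, hfix, hoddχ⟩ := sig_exists_fixed hS (Cfsg.principalBlock M G)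
      (fun χ hχ => by
        rw [mem_principalBlock_iff hM, Om_regInd_powIrr]
        exact (mem_principalBlock_iff hM χ).1 hχ) a hapow hodd
    have hχ₀ : ∀ g : G, (χ₀ : G → ℂ) (g ^ k) = (χ₀ : G → ℂ) g := by
      intro g
      conv_rhs => rw [← hfix]
      rfl
    have hc₀ : Cfsg.classInner (fun n : N => (χ₀ : G → ℂ) n) (θ : N → ℂ) ≠ 0 := by
      rw [hares]
      have : a χ₀ ≠ 0 := fun h0 => by
        rw [h0] at hoddχ; exact (Nat.not_odd_iff_even.2 Even.zero) hoddχ
      exact_mod_cast this
    rw [sig_unique N hidx hS θ χ χ₀ hχ hχ₀ hover hc₀]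
    exact hχ₀B

end Cfsg.Agent.S4520
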