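import Cfsg.Statements.S4521
import Cfsg.Agent.Lib.Helper1.RegTools
import Cfsg.Agent.Lib.Helper24.CanonA

set_option autoImplicit false
open Cfsg

namespace Cfsg.Agent.S4521

open Cfsg.Agent.Lib.Helper1 Cfsg.Agent.Lib.Helper7 Cfsg.Agent.Lib.Helper24
open scoped ComplexConjugate

theorem mem_iff_ne_zero {G : Type*} [Group G] [Fintype G] {p : ℕ} {M : Ideal Cfsg.AlgInt}
    (hM : Cfsg.IsPModular p M) (χ : Cfsg.IrrCharacter G) :
    χ ∈ Cfsg.principalBlock M G ↔ Om (regInd p G) χ ≠ 0 := by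
  haveI := hM.2.1.isPrime
  constructor
  · intro h
    exact ne_zero_of_not_memLocalIdeal ((mem_principalBlock_iff hM χ).1 h)
  · intro h
    by_contra hn
    exact h (Om_regInd_eq_zero hM hn)

theorem ratio {G : Type*} [Group G] [Fintype G] (U : Subgroup G) [Fintype U]
    (hU : U ⊔ Subgroup.centralizer (U : Set G) = ⊤) (χ : Cfsg.IrrCharacter G)
    (ψ : Cfsg.IrrCharacter U)
    (h : Cfsg.classInner (fun u : U => (χ : G → ℂ) u) (ψ : U → ℂ) ≠ 0) (u : U) :
    (ψ : U → ℂ) u / (ψ : U → ℂ) 1 = (χ : G → ℂ) u / (χ : G → ℂ) 1 := by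
  haveI := normal_of_sup_centralizer hU
  have hinv : ∀ g : G, Cfsg.Agent.Lib.Helper25.conjFun U (ψ : U → ℂ) g = ψ := by
    intro g
    funext x
    rw [Cfsg.Agent.Lib.Helper25.conjFun_apply]
    obtain ⟨v, hv, c, hc, rfl⟩ := exists_mul_of_sup_centralizer hU g
    have h1 := isClassFunction_irr ψ x ⟨v, hv⟩
    rw [← h1]
    apply congrArg
    apply Subtype.ext
    have e1 : c * (x : G) = (x : G) * c := (Subgroup.mem_centralizer_iff.1 hc x x.2).symm
    show v * c * (x : G) * (v * c)⁻¹ = v * (x : G) * v⁻¹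
    calc v * c * (x : G) * (v * c)⁻¹ = v * (c * (x : G)) * c⁻¹ * v⁻¹ := by group
      _ = v * (x : G) * v⁻¹ := by rw [e1]; group
  have hr := Cfsg.Agent.Lib.Helper25.restrict_eq_smul_of_invariant U χ.2 ψ.2 h hinv
  have h1 := congrFun hr u
  have h2 := congrFun hr 1
  simp only [Pi.smul_apply, smul_eq_mul, OneMemClass.coe_one] at h1 h2
  rw [h1, h2, mul_div_mul_left _ _ h]

theorem regular_mul {G : Type*} [Group G] {p : ℕ} (hp : p.Prime) {x y : G} (hc : Commute x y)
    (hx : ¬ p ∣ orderOf x) (hy : ¬ p ∣ orderOf y) : ¬ p ∣ orderOf (x * y) := by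
  intro h
  have h1 := h.trans (hc.orderOf_mul_dvd_lcm.trans (Nat.lcm_dvd_mul _ _))
  rcases (hp.dvd_mul).1 h1 with h2 | h2
  · exact hx h2
  · exact hy h2

/-- Let the finite group G be generated by subgroups U₁ and U₂ that commute elementwise and whose intersection is a p-group, and let M be a maximal ideal of the algebraic integers containing the prime p. If the irreducible character χ of G has the irreducible constituents ψ₁ on U₁ and ψ₂ on U₂, then χ lies in the principal block of G if and only if ψ₁ and ψ₂ lie in the principal blocks of U₁ and U₂. -/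
theorem result {G : Type*} [Group G] [Fintype G] (p : ℕ) [Fact p.Prime] (M : Ideal Cfsg.AlgInt) (hM : Cfsg.IsPModular p M) (U₁ U₂ : Subgroup G) [Fintype U₁] [Fintype U₂] (hcomm : ∀ u ∈ U₁, ∀ v ∈ U₂, u * v = v * u) (hgen : U₁ ⊔ U₂ = ⊤) (hZ : IsPGroup p ↥(U₁ ⊓ U₂)) (χ : Cfsg.IrrCharacter G) (ψ₁ : Cfsg.IrrCharacter U₁) (ψ₂ : Cfsg.IrrCharacter U₂) (h₁ : Cfsg.classInner (fun u : U₁ => (χ : G → ℂ) u) (ψ₁ : U₁ → ℂ) ≠ 0) (h₂ : Cfsg.classInner (fun u : U₂ => (χ : G → ℂ) u) (ψ₂ : U₂ → ℂ) ≠ 0) : χ ∈ Cfsg.principalBlock M G ↔ (ψ₁ ∈ Cfsg.principalBlock M U₁ ∧ ψ₂ ∈ Cfsg.principalBlock M U₂) := by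
  classical
  have hp : p.Prime := Fact.out
  have hle2 : U₂ ≤ Subgroup.centralizer (U₁ : Set G) := by
    intro v hv
    rw [Subgroup.mem_centralizer_iff]
    intro u hu
    exact hcomm u hu v hv
  have hle1 : U₁ ≤ Subgroup.centralizer (U₂ : Set G) := by
    intro u hu
    rw [Subgroup.mem_centralizer_iff]
    intro v hv
    exact (hcomm u hu v hv).symm
  have hC1 : U₁ ⊔ Subgroup.centralizer (U₁ : Set G) = ⊤ := by
    rw [eq_top_iff, ← hgen]
    exact sup_le_sup_left hle2 _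
  have hC2 : U₂ ⊔ Subgroup.centralizer (U₂ : Set G) = ⊤ := by
    rw [eq_top_iff, ← hgen, sup_comm]
    exact sup_le_sup_left hle1 _
  haveI := normal_of_sup_centralizer hC1
  let r : G → ℂ := fun g => (χ : G → ℂ) g / (χ : G → ℂ) 1
  have hχ1 := irr_apply_one_ne_zero χ.2
  have hr : ∀ u ∈ U₁, ∀ v ∈ U₂, r (u * v) = r u * r v := by
    intro u hu v hv
    have := char_mul_of_sup_centralizer hC1 χ hu (hle2 hv)
    show (χ : G → ℂ) (u * v) / (χ : G → ℂ) 1
      = (χ : G → ℂ) u / (χ : G → ℂ) 1 * ((χ : G → ℂ) v / (χ : G → ℂ) 1)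
    field_simp
    exact this
  have hOmG : Om (regInd p G) χ = ∑ g ∈ Finset.univ.filter (fun g : G => ¬ p ∣ orderOf g), r g := by
    unfold Om
    rw [Finset.sum_div, Finset.sum_filter]
    apply Finset.sum_congr rfl
    intro g _
    by_cases hg : p ∣ orderOf g
    · rw [regInd_of_singular hg, if_neg (not_not.2 hg)]; simp
    · rw [regInd_of_regular hg, if_pos hg, one_mul]
  have hOm1 : Om (regInd p U₁) ψ₁
      = ∑ u ∈ Finset.univ.filter (fun u : U₁ => ¬ p ∣ orderOf u), r u := by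
    unfold Om
    rw [Finset.sum_div, Finset.sum_filter]
    apply Finset.sum_congr rfl
    intro g _
    by_cases hg : p ∣ orderOf g
    · rw [regInd_of_singular hg, if_neg (not_not.2 hg)]; simp
    · rw [regInd_of_regular hg, if_pos hg, one_mul]
      exact ratio U₁ hC1 χ ψ₁ h₁ g
  have hOm2 : Om (regInd p U₂) ψ₂
      = ∑ u ∈ Finset.univ.filter (fun u : U₂ => ¬ p ∣ orderOf u), r u := by
    unfold Om
    rw [Finset.sum_div, Finset.sum_filter]
    apply Finset.sum_congr rfl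
    intro g _
    by_cases hg : p ∣ orderOf g
    · rw [regInd_of_singular hg, if_neg (not_not.2 hg)]; simp
    · rw [regInd_of_regular hg, if_pos hg, one_mul]
      exact ratio U₂ hC2 χ ψ₂ h₂ g
  have hprod : Om (regInd p G) χ = Om (regInd p U₁) ψ₁ * Om (regInd p U₂) ψ₂ := by
    rw [hOmG, hOm1, hOm2, Finset.sum_mul_sum, ← Finset.sum_product']
    symm
    obtain ⟨a, m, hm, ham⟩ := Nat.exists_eq_pow_mul_and_not_dvd (Nat.card_pos (α := G)).ne' p
      hp.ne_one
    have hregpow : ∀ (x : G) (t : ℕ), ¬ p ∣ orderOf ((x ^ (p ^ a)) ^ t) := by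
      intro x t hd
      apply hm
      apply hd.trans
      apply orderOf_dvd_of_pow_eq_one
      rw [← pow_mul, ← pow_mul]
      have e : p ^ a * (t * m) = Nat.card G * t := by rw [ham]; ring
      rw [e, pow_mul, pow_card_eq_one', one_pow]
    refine Finset.sum_bij (fun x _ => ((x.1 : U₁) : G) * ((x.2 : U₂) : G)) ?_ ?_ ?_ ?_
    · intro x hx
      rw [Finset.mem_product, Finset.mem_filter, Finset.mem_filter] at hx
      rw [Finset.mem_filter]
      refine ⟨Finset.mem_univ _, ?_⟩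
      apply regular_mul hp (hcomm _ x.1.2 _ x.2.2)
      · rw [Subgroup.orderOf_coe]; exact hx.1.2
      · rw [Subgroup.orderOf_coe]; exact hx.2.2
    · rintro ⟨u, v⟩ hx ⟨u', v'⟩ hx' heq
      rw [Finset.mem_product, Finset.mem_filter, Finset.mem_filter] at hx hx'
      simp only at heq hx hx'
      have hz : (u' : G)⁻¹ * u = v' * (v : G)⁻¹ := by
        have : (u : G) = u' * v' * (v : G)⁻¹ := by rw [← heq]; group
        rw [this]; group
      have hz1 : (u' : G)⁻¹ * u ∈ U₁ := U₁.mul_mem (U₁.inv_mem u'.2) u.2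
      have hz2 : (u' : G)⁻¹ * u ∈ U₂ := by rw [hz]; exact U₂.mul_mem v'.2 (U₂.inv_mem v.2)
      have hcz : Commute ((u' : G)⁻¹) (u : G) := by
        have h3 : (u' : G) * ((u' : G)⁻¹ * u) = ((u' : G)⁻¹ * u) * u' := hcomm _ u'.2 _ hz2
        show (u' : G)⁻¹ * u = u * (u' : G)⁻¹
        have h4 : (u : G) = (u' : G)⁻¹ * u * u' := by
          rw [← h3]; group
        calc (u' : G)⁻¹ * u = ((u' : G)⁻¹ * u * u') * (u' : G)⁻¹ := by group
          _ = u * (u' : G)⁻¹ := by rw [← h4]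
      have hreg : ¬ p ∣ orderOf ((u' : G)⁻¹ * u) := by
        apply regular_mul hp hcz
        · rw [orderOf_inv, Subgroup.orderOf_coe]; exact hx'.1.2
        · rw [Subgroup.orderOf_coe]; exact hx.1.2
      obtain ⟨k, hk⟩ := hZ ⟨(u' : G)⁻¹ * u, hz1, hz2⟩
      have hk' : ((u' : G)⁻¹ * u) ^ (p ^ k) = 1 := congrArg Subtype.val hk
      have hone : (u' : G)⁻¹ * u = 1 := by
        obtain ⟨j, -, hj⟩ := (Nat.dvd_prime_pow hp).1 (orderOf_dvd_of_pow_eq_one hk')
        rcases Nat.eq_zero_or_pos j with rfl | hj0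
        · rw [pow_zero] at hj; exact orderOf_eq_one_iff.1 hj
        · exact absurd (hj ▸ dvd_pow_self p hj0.ne') hreg
      have hu : (u : G) = u' := by
        have := inv_mul_eq_one.1 hone
        exact this.symm
      have hv : (v : G) = v' := by
        rw [hone] at hz
        exact (mul_inv_eq_one.1 hz.symm).symm
      exact Prod.ext (Subtype.ext hu) (Subtype.ext hv)
    · intro g hg
      rw [Finset.mem_filter] at hg
      have hgm : g ∈ U₁ ⊔ U₂ := by rw [hgen]; exact Subgroup.mem_top g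
      obtain ⟨u, hu, v, hv, rfl⟩ := Subgroup.mem_sup_of_normal_left.1 hgm
      have hc : (p ^ a).Coprime (orderOf (u * v)) :=
        Nat.Coprime.pow_left a ((Nat.Prime.coprime_iff_not_dvd hp).2 hg.2)
      obtain ⟨t, ht⟩ := exists_pow_eq_self_of_coprime hc
      refine ⟨(⟨(u ^ (p ^ a)) ^ t, U₁.pow_mem (U₁.pow_mem hu _) _⟩,
        ⟨(v ^ (p ^ a)) ^ t, U₂.pow_mem (U₂.pow_mem hv _) _⟩), ?_, ?_⟩
      · rw [Finset.mem_product, Finset.mem_filter, Finset.mem_filter]
        refine ⟨⟨Finset.mem_univ _, ?_⟩, ⟨Finset.mem_univ _, ?_⟩⟩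
        · rw [← Subgroup.orderOf_coe]; exact hregpow u t
        · rw [← Subgroup.orderOf_coe]; exact hregpow v t
      · have hcuv : Commute u v := hcomm u hu v hv
        show (u ^ (p ^ a)) ^ t * (v ^ (p ^ a)) ^ t = u * v
        rw [← ((hcuv.pow_pow _ _).mul_pow t), ← hcuv.mul_pow, ht]
    · intro x _
      exact (hr _ x.1.2 _ x.2.2).symm
  rw [mem_iff_ne_zero hM, mem_iff_ne_zero hM, mem_iff_ne_zero hM, hprod, mul_ne_zero_iff]

end Cfsg.Agent.S4521
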