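import Cfsg.Statements.S4541
import Cfsg.Agent.Lib.Helper26.CtrF

set_option autoImplicit false
open Cfsg

namespace Cfsg.Agent.S4541

/-- Let B be a 2-block of the finite group G (relative to a maximal ideal M of the algebraic integers containing 2), u a 2-element, and b a block of the centralizer of u inducing B (a subsection (u, b)), of defect q and 2-regular rank l; write s for the integer square root of l and k₀(B) for the number of members of B of height zero. If s is odd then k₀(B) ≤ s·2 ^ q, and otherwise (s + 1)·k₀(B) ≤ l·2 ^ q; in particular k₀(B) ≤ 2 ^ q when l ≤ 3. -/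
theorem result {G : Type*} [Group G] [Finite G] (M : Ideal Cfsg.AlgInt) (hM : Cfsg.IsPModular 2 M) (B : Set (Cfsg.IrrCharacter G)) (hB : Cfsg.IsPBlock M B) (u : G) (hu : ∃ j : ℕ, orderOf u = 2 ^ j) (b : Set (Cfsg.IrrCharacter ↥(Subgroup.centralizer ({u} : Set G)))) (hb : Cfsg.IsInducedBlock M (Subgroup.centralizer ({u} : Set G)) b B) : (Odd (Nat.sqrt (Cfsg.blockRank 2 b)) → Nat.card {χ : Cfsg.IrrCharacter G // χ ∈ B ∧ Cfsg.blockHeight 2 B (χ : G → ℂ) = 0} ≤ Nat.sqrt (Cfsg.blockRank 2 b) * 2 ^ Cfsg.blockDefect 2 b) ∧ (¬ Odd (Nat.sqrt (Cfsg.blockRank 2 b)) → (Nat.sqrt (Cfsg.blockRank 2 b) + 1) * Nat.card {χ : Cfsg.IrrCharacter G // χ ∈ B ∧ Cfsg.blockHeight 2 B (χ : G → ℂ) = 0} ≤ Cfsg.blockRank 2 b * 2 ^ Cfsg.blockDefect 2 b) ∧ (Cfsg.blockRank 2 b ≤ 3 → Nat.card {χ : Cfsg.IrrCharacter G // χ ∈ B ∧ Cfsg.blockHeight 2 B (χ : G → ℂ) = 0} ≤ 2 ^ Cfsg.blockDefect 2 b) := by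
  classical
  haveI := Fintype.ofFinite G
  haveI := Fintype.ofFinite (Cfsg.IrrCharacter G)
  haveI := Fintype.ofFinite (Subgroup.centralizer ({u} : Set G))
  obtain ⟨k, hk⟩ := hu
  set F0 := Finset.univ.filter
    (fun χ : Cfsg.IrrCharacter G => χ ∈ B ∧ Cfsg.blockHeight 2 B (χ : G → ℂ) = 0) with hF0
  have hcard : Nat.card {χ : Cfsg.IrrCharacter G // χ ∈ B ∧ Cfsg.blockHeight 2 B (χ : G → ℂ) = 0}
      = F0.card := by
    rw [Nat.card_eq_fintype_card, Fintype.card_subtype]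
  obtain ⟨m, h1, h2⟩ := Cfsg.Agent.Lib.Helper26.Ctr.two_block_data hM hk rfl hb F0
    (fun χ => by rw [hF0, Finset.mem_filter]; simp)
  have h3 := Cfsg.Agent.Lib.Helper26.Ctr.two_block_arith F0 m (2 ^ Cfsg.blockDefect 2 b)
    (Cfsg.blockRank 2 b) (by push_cast; exact h1) (by push_cast; exact h2)
  rw [hcard]
  refine ⟨h3.1, h3.2, ?_⟩
  intro hl
  have hcases : Cfsg.blockRank 2 b = 0 ∨ Cfsg.blockRank 2 b = 1 ∨ Cfsg.blockRank 2 b = 2
      ∨ Cfsg.blockRank 2 b = 3 := by omega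
  have s0 : Nat.sqrt 0 = 0 := (Nat.eq_sqrt.2 ⟨by norm_num, by norm_num⟩).symm
  have s1 : Nat.sqrt 1 = 1 := (Nat.eq_sqrt.2 ⟨by norm_num, by norm_num⟩).symm
  have s2 : Nat.sqrt 2 = 1 := (Nat.eq_sqrt.2 ⟨by norm_num, by norm_num⟩).symm
  have s3 : Nat.sqrt 3 = 1 := (Nat.eq_sqrt.2 ⟨by norm_num, by norm_num⟩).symm
  rcases hcases with h | h | h | h
  · have h4 := h3.2 (by rw [h, s0]; decide)
    rw [h, s0] at h4
    simp at h4
    rw [h4]
    exact Nat.zero_le _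
  · have h4 := h3.1 (by rw [h, s1]; decide)
    rw [h, s1, one_mul] at h4
    exact h4
  · have h4 := h3.1 (by rw [h, s2]; decide)
    rw [h, s2, one_mul] at h4
    exact h4
  · have h4 := h3.1 (by rw [h, s3]; decide)
    rw [h, s3, one_mul] at h4
    exact h4

end Cfsg.Agent.S4541
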