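import Cfsg.Statements.S4549
import Cfsg.Agent.Lib.Helper10.SigmaB1
import Cfsg.Agent.Lib.Helper24.BlockPNilp
import Cfsg.Agent.Lib.Helper25.Codegree
import Cfsg.Agent.Lib.Helper7.BlockKer

set_option autoImplicit false
open Cfsg

namespace Cfsg.Agent.S4549

/-- Let G be a finite group and M a maximal ideal of the algebraic integers containing 2. Let k be a natural number with g ^ k = g ^ 3 for every 2-element g and g ^ k = g for every element g of odd order (such k exist); an irreducible character χ is unchanged by g ↦ g ^ k exactly when it is fixed by the field automorphism that cubes the 2-power roots of unity and fixes the roots of unity of odd order. Then G has a normal 2-complement if and only if every member χ of the principal 2-block of odd degree with χ (g ^ k) = χ g for all g has degree one. -/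
theorem result {G : Type*} [Group G] [Finite G] (M : Ideal Cfsg.AlgInt) (hM : Cfsg.IsPModular 2 M) (k : ℕ) (hk₁ : ∀ g : G, (∃ j : ℕ, orderOf g = 2 ^ j) → g ^ k = g ^ 3) (hk₂ : ∀ g : G, Odd (orderOf g) → g ^ k = g) : Cfsg.HasNormalPComplement 2 G ↔ ∀ χ ∈ Cfsg.principalBlock M G, Odd (Cfsg.charDegree (χ : G → ℂ)) → (∀ g : G, (χ : G → ℂ) (g ^ k) = (χ : G → ℂ) g) → Cfsg.charDegree (χ : G → ℂ) = 1 := by
  classical
  haveI : Fact (Nat.Prime 2) := ⟨Nat.prime_two⟩
  haveI := Fintype.ofFinite G
  constructor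
  · rintro ⟨P, K, hKn, hc⟩ χ hχ hodd -
    haveI := hKn
    have hidx : K.index = Nat.card (P : Subgroup G) := hc.symm.index_eq_card
    obtain ⟨a, ha⟩ := IsPGroup.iff_card.mp P.2
    have hKodd : (Nat.card K).Coprime 2 := by
      have h1 : (P : Subgroup G).index = Nat.card K := hc.index_eq_card
      rw [← h1]
      exact ((Nat.Prime.coprime_iff_not_dvd Nat.prime_two).2 P.not_dvd_index).symm
    have hker := (Cfsg.Agent.Lib.Helper24.mem_principalBlock_iff_of_index hM K hKodd
      (hidx.trans ha) χ).1 hχ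
    obtain ⟨L, -, hL⟩ := Cfsg.Agent.Lib.Helper7.exists_ker_subgroup
      (Cfsg.Agent.Lib.Helper7.isCharacter_of_irr χ.2)
    have hKL : K ≤ L := fun h hh => (hL h).2 (hker h hh)
    have hspec := Cfsg.Agent.Lib.Helper25.cod_spec χ.2
    have hcardL : Nat.card {g : G // (χ : G → ℂ) g = (χ : G → ℂ) 1} = Nat.card L :=
      Nat.card_congr (Equiv.subtypeEquivRight (fun g => (hL g).symm))
    obtain ⟨t, ht⟩ := Subgroup.card_dvd_of_le hKL
    rw [hcardL, ht, ← K.card_mul_index, hidx, ha] at hspec
    have h2 : Cfsg.charDegree (χ : G → ℂ) ∣ 2 ^ a := by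
      have h3 : Nat.card K * (Cfsg.Agent.Lib.Helper25.cod (χ : G → ℂ) * t *
          Cfsg.charDegree (χ : G → ℂ)) = Nat.card K * 2 ^ a := by
        rw [← hspec]; ring
      have h4 := Nat.eq_of_mul_eq_mul_left Nat.card_pos h3
      exact ⟨Cfsg.Agent.Lib.Helper25.cod (χ : G → ℂ) * t, by rw [← h4]; ring⟩
    obtain ⟨i, -, hi⟩ := (Nat.dvd_prime_pow Nat.prime_two).1 h2
    rcases Nat.eq_zero_or_pos i with rfl | hpos
    · simpa using hi
    · exfalso
      rw [hi] at hodd
      exact (Nat.not_even_iff_odd.2 hodd) ((Nat.even_pow).2 ⟨even_two, hpos.ne'⟩)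
  · intro hyp
    have hodd := Cfsg.Agent.Lib.Helper10.SigmaB0.odd_card_pResidual hM k hk₁ hk₂ hyp
    obtain ⟨P⟩ : Nonempty (Sylow 2 G) := inferInstance
    haveI hN : (Cfsg.pResidual 2 G).Normal := inferInstance
    refine ⟨P, Cfsg.pResidual 2 G, hN, ?_⟩
    obtain ⟨a, ha⟩ := IsPGroup.iff_card.mp P.2
    have hcop : Nat.Coprime (Nat.card (Cfsg.pResidual 2 G)) (Nat.card (P : Subgroup G)) := by
      rw [ha]
      exact Nat.Coprime.pow_right a (Nat.coprime_two_right.2 hodd)
    have hdisj : Disjoint (Cfsg.pResidual 2 G) (P : Subgroup G) :=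
      Subgroup.disjoint_of_coprime_natCard hcop  
    apply Subgroup.isComplement'_of_disjoint_and_mul_eq_univ hdisj
    have hsup := Cfsg.Agent.Lib.Helper17.pResidual_sup_sylow P
    rw [← Subgroup.normal_mul, hsup]
    rfl

end Cfsg.Agent.S4549
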