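import Cfsg.Statements.S4551
import Cfsg.Agent.Lib.Helper1.AlperinDade

set_option autoImplicit false
open Cfsg

namespace Cfsg.Agent.S4551

/-- Let N be a normal subgroup of the finite group G of index prime to p, P a Sylow p-subgroup of G with G = N·C_G(P), and M a maximal ideal of the algebraic integers containing p. Then restriction to N is a bijection from the principal p-block of G onto the principal p-block of N: every member of the principal block of G restricts to a member of the principal block of N, and every member of the principal block of N is the restriction of exactly one member of the principal block of G. -/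
theorem result {G : Type*} [Group G] [Finite G] (p : ℕ) [Fact p.Prime] (M : Ideal Cfsg.AlgInt) (hM : Cfsg.IsPModular p M) (N : Subgroup G) [N.Normal] (hidx : ¬ p ∣ N.index) (P : Sylow p G) (hsup : N ⊔ Subgroup.centralizer ((P : Subgroup G) : Set G) = ⊤) : (∀ χ ∈ Cfsg.principalBlock M G, ∃ θ ∈ Cfsg.principalBlock M ↥N, ∀ n : N, (χ : G → ℂ) n = (θ : N → ℂ) n) ∧ ∀ θ ∈ Cfsg.principalBlock M ↥N, ∃! χ : Cfsg.IrrCharacter G, χ ∈ Cfsg.principalBlock M G ∧ ∀ n : N, (χ : G → ℂ) n = (θ : N → ℂ) n := by
  classical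
  haveI : Fintype N := Fintype.ofFinite _
  haveI : Fintype G := Fintype.ofFinite _
  have hPN : (P : Subgroup G) ≤ N := by
    intro s hs
    obtain ⟨k, hk⟩ := P.2 ⟨s, hs⟩
    have hk' : s ^ p ^ k = 1 := congrArg Subtype.val hk
    have h1 : orderOf (QuotientGroup.mk' N s) ∣ p ^ k := by
      apply orderOf_dvd_of_pow_eq_one
      rw [← map_pow, hk', map_one]
    have h2 : orderOf (QuotientGroup.mk' N s) ∣ N.index := by
      rw [Subgroup.index_eq_card]; exact orderOf_dvd_natCard _
    have hcop : N.index.Coprime p :=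
      ((Nat.Prime.coprime_iff_not_dvd (Fact.out : p.Prime)).2 hidx).symm
    have h3 := Nat.dvd_gcd h2 h1
    rw [(hcop.pow_right k : Nat.gcd _ _ = 1), Nat.dvd_one, orderOf_eq_one_iff] at h3
    rwa [← MonoidHom.mem_ker, QuotientGroup.ker_mk'] at h3
  have hcov : ∀ x : G, ∃ n ∈ N, ∃ c ∈ Cfsg.Agent.Lib.Helper1.adGood p N, x = n * c := by
    intro x
    have hx : x ∈ ((N ⊔ Subgroup.centralizer ((P : Subgroup G) : Set G) : Subgroup G) : Set G) := by
      rw [hsup]; trivial
    rw [Subgroup.normal_mul] at hx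
    obtain ⟨n, hn, c, hc, hnc⟩ := hx
    refine ⟨n, hn, c, ⟨P, hPN, P.not_dvd_index, ?_⟩, hnc.symm⟩
    intro q hq
    rw [Subgroup.mem_centralizer_singleton_iff]
    exact (Subgroup.mem_centralizer_iff.1 hc q hq)
  constructor
  · intro χ hχ
    obtain ⟨θ, hcon⟩ := Cfsg.Agent.Lib.Helper7.exists_constituent_res N χ
    have hθ := Cfsg.Agent.Lib.Helper1.ad_F1 hM N hχ hcon
    obtain ⟨χ', hχ', hext⟩ := Cfsg.Agent.Lib.Helper1.ad_exists hM N hcov θ hθ
    have := Cfsg.Agent.Lib.Helper1.ad_unique_block hM N hcov hχ hχ' hext hcon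
    exact ⟨θ, hθ, fun n => by rw [this]; exact hext n⟩
  · intro θ hθ
    obtain ⟨χ', hχ', hext⟩ := Cfsg.Agent.Lib.Helper1.ad_exists hM N hcov θ hθ
    refine ⟨χ', ⟨hχ', hext⟩, ?_⟩
    rintro χ ⟨hχ, hχext⟩
    apply Cfsg.Agent.Lib.Helper1.ad_unique_block hM N hcov hχ hχ' hext
    have : (fun n : N => (χ : G → ℂ) n) = (θ : N → ℂ) := funext hχext
    rw [this, Cfsg.Agent.Lib.Helper7.classInner_irr_self θ.2]
    exact one_ne_zero

end Cfsg.Agent.S4551
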