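import Cfsg.Statements.S4553
import Cfsg.Agent.Lib.Helper10.SigmaB2

set_option autoImplicit false
open Cfsg

namespace Cfsg.Agent.S4553

/-- Let G be a finite group, p a prime, P a Sylow p-subgroup, N the p-residual of G (the subgroup generated by the elements of order prime to p, the smallest normal subgroup with G/N a p-group), and M a maximal ideal of the algebraic integers containing p; suppose G/N is cyclic and nontrivial. Let k be a natural number with g ^ k = g ^ (1 + p) for every p-element g and g ^ k = g for every element g of order prime to p (so that χ (g ^ k) is the image of χ g under the field automorphism that raises p-power roots of unity to the power 1 + p and fixes the roots of unity of order prime to p). Then the number of members χ of the principal block of G of degree prime to p with χ (g ^ k) = χ g for all g equals p times the number of members θ of the principal block of N of degree prime to p that are invariant under conjugation by P and satisfy θ (n ^ k) = θ n for all n.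 -/
theorem result {G : Type*} [Group G] [Finite G] (p : ℕ) [Fact p.Prime] (M : Ideal Cfsg.AlgInt) (hM : Cfsg.IsPModular p M) (P : Sylow p G) (N : Subgroup G) [hN : N.Normal] (hNres : N = Cfsg.pResidual p G) (hcyc : IsCyclic (G ⧸ N)) (hnt : N ≠ ⊤) (k : ℕ) (hk₁ : ∀ g : G, (∃ j : ℕ, orderOf g = p ^ j) → g ^ k = g ^ (1 + p)) (hk₂ : ∀ g : G, Nat.Coprime (orderOf g) p → g ^ k = g) : Nat.card {χ : Cfsg.IrrCharacter G // χ ∈ Cfsg.principalBlock M G ∧ ¬ p ∣ Cfsg.charDegree (χ : G → ℂ) ∧ ∀ g : G, (χ : G → ℂ) (g ^ k) = (χ : G → ℂ) g} = p * Nat.card {θ : Cfsg.IrrCharacter ↥N // θ ∈ Cfsg.principalBlock M ↥N ∧ ¬ p ∣ Cfsg.charDegree (θ : ↥N → ℂ) ∧ (∀ x ∈ (P : Subgroup G), ∀ n : ↥N, (θ : ↥N → ℂ) ⟨x * n * x⁻¹, hN.conj_mem n n.2 x⟩ = (θ : ↥N → ℂ) n) ∧ ∀ n : ↥N, (θ : ↥N → ℂ) (n ^ k) = (θ : ↥N → ℂ) n} := by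
  subst hNres
  obtain ⟨j, hj⟩ : ∃ j, (Cfsg.pResidual p G).index = p ^ j := by
    obtain ⟨n, hn⟩ := IsPGroup.iff_card.mp
      (Cfsg.Agent.Lib.Helper17.pResidual_quotient_isPGroup (G := G) (p := p))
    exact ⟨n, by rw [Subgroup.index_eq_card]; exact hn⟩
  exact Cfsg.Agent.Lib.Helper10.SigmaB0.card_sigma_cyclic p hM P (Cfsg.pResidual p G)
    (fun g hg => Subgroup.subset_closure
      ((Nat.Prime.coprime_iff_not_dvd (Fact.out : p.Prime)).2 hg).symm) hj
    (Cfsg.Agent.Lib.Helper17.pResidual_sup_sylow P)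
    (fun θ => Cfsg.Agent.Lib.Helper25.detOrder_coprime_pResidual (Fact.out : p.Prime)
      (Cfsg.Agent.Lib.Helper7.isCharacter_of_irr θ.2)) hcyc hnt k hk₁ hk₂

end Cfsg.Agent.S4553
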