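import Cfsg.Statements.S4565
import Cfsg.Agent.Lib.Lead.FullRam

set_option autoImplicit false
open Cfsg

namespace Cfsg.Agent.S4565

/-- Let χ be an irreducible character of the finite group H that is fully ramified over the normal subgroup Z: the restriction of χ to Z is e times an irreducible character of Z with e ^ 2 equal to the index of Z. If Z ≠ H, then H/Z has no cyclic subgroup that is its own centralizer. -/
theorem result {H : Type*} [Group H] [Finite H] (Z : Subgroup H) [Z.Normal] (χ : Cfsg.IrrCharacter H) (hfr : ∃ (θ : Cfsg.IrrCharacter ↥Z) (e : ℕ), e ^ 2 = Z.index ∧ ∀ z : ↥Z, (χ : H → ℂ) z = (e : ℂ) * (θ : ↥Z → ℂ) z) (hZ : Z ≠ ⊤) (C : Subgroup (H ⧸ Z)) (hC : IsCyclic C) : Subgroup.centralizer (C : Set (H ⧸ Z)) ≠ C := by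
  classical
  intro hcent
  obtain ⟨θ, e, he, hres⟩ := hfr
  haveI := Fintype.ofFinite H
  haveI : Fintype Z := Fintype.ofFinite _
  obtain ⟨c, hcirr⟩ := χ
  obtain ⟨t, htirr⟩ := θ
  simp only at hres
  have hccf := Cfsg.Agent.Lib.Helper7.isClassFunction_of_isCharacter
    (Cfsg.Agent.Lib.Helper7.isCharacter_of_irr hcirr)
  have htc := Cfsg.Agent.Lib.Helper7.isCharacter_of_irr htirr
  have e0 : (e : ℂ) ≠ 0 := by
    intro h0
    have h1 : e = 0 := by exact_mod_cast h0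
    rw [h1] at he
    exact Z.index_ne_zero_of_finite (by rw [← he]; norm_num)
  have hvan : ∀ g, g ∉ Z → c g = 0 := by
    rw [Cfsg.Agent.Lib.Helper25.vanish_off_iff Z hcirr]
    have h1 : (fun n : Z => c n) = (e : ℂ) • t := funext hres
    rw [h1, Cfsg.Agent.Lib.Helper7.classInner_smul_left,
      Cfsg.Agent.Lib.Helper7.classInner_smul_right,
      Cfsg.Agent.Lib.Helper7.classInner_irr_self htirr, ← he]
    simp
    ring
  obtain ⟨⟨q, hqC⟩, hq⟩ := hC.exists_generator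
  obtain ⟨g, rfl⟩ := QuotientGroup.mk_surjective q
  have hCz : ∀ y ∈ C, y ∈ Subgroup.zpowers (g : H ⧸ Z) := by
    intro y hy
    obtain ⟨i, hi⟩ := Subgroup.mem_zpowers_iff.1 (hq ⟨y, hy⟩)
    refine Subgroup.mem_zpowers_iff.2 ⟨i, ?_⟩
    have := congrArg Subtype.val hi
    simpa using this
  have hmem : ∀ x : H, (x : H ⧸ Z) * (g : H ⧸ Z) = (g : H ⧸ Z) * (x : H ⧸ Z) →
      (x : H ⧸ Z) ∈ Subgroup.zpowers (g : H ⧸ Z) := by
    intro x hx
    apply hCz
    rw [← hcent, Subgroup.mem_centralizer_iff]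
    intro y hy
    obtain ⟨i, hi⟩ := Subgroup.mem_zpowers_iff.1 (hCz y hy)
    rw [← hi]
    exact ((Commute.zpow_right (show Commute (x : H ⧸ Z) (g : H ⧸ Z) from hx) i).eq).symm
  have hgZ : g ∉ Z := by
    intro hg
    apply hZ
    rw [eq_top_iff]
    intro x _
    have h1 : (g : H ⧸ Z) = 1 := (QuotientGroup.eq_one_iff g).2 hg
    have h2 := hmem x (by rw [h1]; simp)
    rw [h1] at h2
    simp only [Subgroup.zpowers_one_eq_bot, Subgroup.mem_bot] at h2
    exact (QuotientGroup.eq_one_iff x).1 h2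
  have key : ∀ w : Z, ∑ z : Z, c ((z : H)⁻¹ * (g * w) * z * (g * w)⁻¹) = 0 := by
    intro w
    have hgw : (g * w : H) ∉ Z := by
      intro h
      apply hgZ
      have := Z.mul_mem h (Z.inv_mem w.2)
      simpa using this
    have hmk : ((g * w : H) : H ⧸ Z) = (g : H ⧸ Z) := QuotientGroup.mk_mul_of_mem g w.2
    have h0 := Cfsg.Agent.Lib.Lead.FullRam.conj_sum hcirr (g * w) (g * w)⁻¹
    rw [hvan _ hgw] at h0
    obtain ⟨n, hn, hsum⟩ := Cfsg.Agent.Lib.Lead.FullRam.sum_coset_reduction Z (g * w)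
      (fun x => c (x⁻¹ * (g * w) * x * (g * w)⁻¹))
      (by
        intro x
        show c _ = c _
        congr 1
        group)
      (by
        intro x hx
        rw [hmk]
        apply hmem
        have h1 : x⁻¹ * (g * w) * x * (g * w)⁻¹ ∈ Z := by
          by_contra h
          exact hx (hvan _ h)
        have h2 := (QuotientGroup.eq_one_iff _).2 h1
        rw [QuotientGroup.mk_mul, QuotientGroup.mk_mul, QuotientGroup.mk_mul, QuotientGroup.mk_inv,
          QuotientGroup.mk_inv, hmk] at h2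
        have h3 : (x : H ⧸ Z)⁻¹ * (g : H ⧸ Z) * (x : H ⧸ Z) = (g : H ⧸ Z) := by
          rw [mul_inv_eq_one] at h2
          exact h2
        calc (x : H ⧸ Z) * (g : H ⧸ Z)
            = (x : H ⧸ Z) * ((x : H ⧸ Z)⁻¹ * (g : H ⧸ Z) * (x : H ⧸ Z)) := by rw [h3]
          _ = (g : H ⧸ Z) * (x : H ⧸ Z) := by group)
    rw [h0] at hsum
    have hn' : (n : ℂ) ≠ 0 := by exact_mod_cast hn
    have h5 : (n : ℂ) * ∑ z : Z, c ((z : H)⁻¹ * (g * w) * z * (g * w)⁻¹) = 0 := by
      rw [← hsum]; simp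
    exact (mul_eq_zero.1 h5).resolve_left hn'
  -- evaluate the double sum
  let A : Z → Z := fun z => ⟨g⁻¹ * (z : H)⁻¹ * g, by
    have := ‹Z.Normal›.conj_mem _ (Z.inv_mem z.2) g⁻¹
    simpa using this⟩
  have hA : ∀ z : Z, t (A z) = t z⁻¹ := by
    intro z
    apply mul_left_cancel₀ e0
    rw [← hres, ← hres]
    show c (g⁻¹ * (z : H)⁻¹ * g) = c ((z : H)⁻¹)
    have := hccf (z : H)⁻¹ g⁻¹
    simpa using this
  have hterm : ∀ z w : Z, c ((z : H)⁻¹ * (g * w) * z * (g * w)⁻¹)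
      = (e : ℂ) * t (A z * (w * z * w⁻¹)) := by
    intro z w
    rw [← hres]
    have := hccf ((z : H)⁻¹ * (g * w) * z * (g * w)⁻¹) g⁻¹
    rw [← this]
    congr 1
    show _ = g⁻¹ * (z : H)⁻¹ * g * ((w : H) * z * (w : H)⁻¹)
    group
  have hZ0 : (Nat.card Z : ℂ) ≠ 0 := by exact_mod_cast Nat.card_pos.ne'
  have ht1 := Cfsg.Agent.Lib.Helper7.irr_apply_one_ne_zero htirr
  have htot : ∑ z : Z, ∑ w : Z, c ((z : H)⁻¹ * (g * w) * z * (g * w)⁻¹) = 0 := by
    rw [Finset.sum_comm]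
    exact Finset.sum_eq_zero (fun w _ => key w)
  have hnorm : ∑ z : Z, t z * t z⁻¹ = (Nat.card Z : ℂ) := by
    have h1 := Cfsg.Agent.Lib.Helper7.classInner_irr_self htirr
    unfold Cfsg.classInner at h1
    have h2 : ∑ z : Z, t z * t z⁻¹ = ∑ z : Z, t z * (starRingEnd ℂ) (t z) := by
      apply Finset.sum_congr rfl
      intro z _
      rw [Cfsg.Agent.Lib.Helper7.char_inv_eq_conj htc]
    rw [h2]
    field_simp at h1
    exact h1
  have heval : ∑ z : Z, ∑ w : Z, c ((z : H)⁻¹ * (g * w) * z * (g * w)⁻¹)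
      = (e : ℂ) * (Nat.card Z : ℂ) / t 1 * ∑ z : Z, t z * t z⁻¹ := by
    rw [Finset.mul_sum]
    apply Finset.sum_congr rfl
    intro z _
    simp only [hterm]
    rw [← Finset.mul_sum, Cfsg.Agent.Lib.Lead.FullRam.conj_sum' htirr z (A z), hA]
    ring
  rw [htot, hnorm] at heval
  have : (e : ℂ) * (Nat.card Z : ℂ) / t 1 * (Nat.card Z : ℂ) ≠ 0 := by
    apply mul_ne_zero _ hZ0
    exact div_ne_zero (mul_ne_zero e0 hZ0) ht1
  exact this heval.symm

end Cfsg.Agent.S4565
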