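import Cfsg.Statements.S4566
import Cfsg.Agent.Lib.Helper25.Central1

set_option autoImplicit false
open Cfsg

namespace Cfsg.Agent.S4566

open Cfsg.Agent.Lib.Helper25

/-- Let N be a central subgroup of the finite group G, ψ a faithful irreducible (hence degree-one) character of N, and χ an irreducible character of G whose restriction to N contains ψ. If g ∈ G and some x ∈ G has commutator x⁻¹ g⁻¹ x g in N but different from 1, then χ g = 0. -/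
theorem result {G : Type*} [Group G] [Fintype G] (N : Subgroup G) [Fintype N] (hN : N ≤ Subgroup.center G) (ψ : Cfsg.IrrCharacter ↥N) (hfaith : ∀ n : ↥N, (ψ : ↥N → ℂ) n = (ψ : ↥N → ℂ) 1 → n = 1) (χ : Cfsg.IrrCharacter G) (hover : Cfsg.classInner (fun n : ↥N => (χ : G → ℂ) n) (ψ : ↥N → ℂ) ≠ 0) (g x : G) (hcomm : x⁻¹ * g⁻¹ * x * g ∈ N) (hne : x⁻¹ * g⁻¹ * x * g ≠ 1) : (χ : G → ℂ) g = 0 := by
  have hχc := Cfsg.Agent.Lib.Helper7.isCharacter_of_irr χ.2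
  have hcf := Cfsg.Agent.Lib.Helper7.isClassFunction_of_isCharacter hχc
  have h1 := central_mul N hN ψ.2 χ.2 hover ⟨_, hcomm⟩ g⁻¹
  have h2 : (x⁻¹ * g⁻¹ * x * g) * g⁻¹ = x⁻¹ * g⁻¹ * x⁻¹⁻¹ := by group
  simp only [h2, hcf g⁻¹ x⁻¹] at h1
  have h3 : (ψ : ↥N → ℂ) ⟨_, hcomm⟩ ≠ (ψ : ↥N → ℂ) 1 := by
    intro h
    exact hne (congrArg Subtype.val (hfaith _ h))
  have h4 : (χ : G → ℂ) g⁻¹ = 0 := by
    have h5 : (χ : G → ℂ) g⁻¹ * ((ψ : ↥N → ℂ) 1 - (ψ : ↥N → ℂ) ⟨_, hcomm⟩) = 0 := by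
      rw [mul_sub, h1]; ring
    rcases mul_eq_zero.1 h5 with h | h
    · exact h
    · exact absurd (sub_eq_zero.1 h).symm h3
  have h6 := conj_char hχc g
  rw [h4] at h6
  exact (map_eq_zero _).1 h6

end Cfsg.Agent.S4566
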