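import Cfsg.Statements.S4567
import Cfsg.Agent.Lib.Helper25.CentralCount2

set_option autoImplicit false
open Cfsg

namespace Cfsg.Agent.S4567

open Cfsg.Agent.Lib.Helper25 Cfsg.Agent.Lib

/-- Let N be a central subgroup of the finite group G and ψ a faithful irreducible (hence degree-one) character of N. Call a coset g N special when every x ∈ G whose commutator x⁻¹ g⁻¹ x g lies in N actually commutes with g (this depends only on the coset). Then the number of irreducible characters of G whose restriction to N contains ψ equals the number of conjugacy classes of G/N consisting of special cosets. -/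
theorem result {G : Type*} [Group G] [Fintype G] (N : Subgroup G) [N.Normal] [Fintype N] (hN : N ≤ Subgroup.center G) (ψ : Cfsg.IrrCharacter ↥N) (hfaith : ∀ n : ↥N, (ψ : ↥N → ℂ) n = (ψ : ↥N → ℂ) 1 → n = 1) : Nat.card {χ : Cfsg.IrrCharacter G // Cfsg.classInner (fun n : ↥N => (χ : G → ℂ) n) (ψ : ↥N → ℂ) ≠ 0} = Nat.card {C : ConjClasses (G ⧸ N) // ∃ g : G, ConjClasses.mk (g : G ⧸ N) = C ∧ ∀ x : G, x⁻¹ * g⁻¹ * x * g ∈ N → x * g = g * x} := by
  have hψ1 : (ψ : N → ℂ) 1 = 1 := by
    apply linear_of_abelian_mod_ker ψ.2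
    intro x y
    have h1 : x * y * x⁻¹ * y⁻¹ = 1 := by
      apply Subtype.ext
      have := Subgroup.mem_center_iff.mp (hN x.2) y
      simp only [Subgroup.coe_mul, Subgroup.coe_inv, Subgroup.coe_one]
      rw [← this]
      group
    rw [h1]
  obtain ⟨l, hl⟩ := Helper7.exists_hom_of_linear (Helper7.isCharacter_of_irr ψ.2) hψ1
  have hψl : (ψ : N → ℂ) = fun n => ((l n : ℂˣ) : ℂ) := funext hl
  have hf : ∀ n : N, l n = 1 → n = 1 := by
    intro n hn
    apply hfaith
    rw [hl, hn, hψ1, Units.val_one]
  have h1 := card_over_mul N hN l hf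
  have h2 := card_special_classes_mul N hN
  rw [← h2] at h1
  have h3 := Nat.eq_of_mul_eq_mul_left Nat.card_pos h1
  have h4 := Nat.eq_of_mul_eq_mul_right Nat.card_pos h3
  rw [hψl]
  exact h4

end Cfsg.Agent.S4567
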