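import Cfsg.Statements.S4574
import Cfsg.Agent.Lib.Helper25.GalSum
import Cfsg.Agent.Lib.Helper2.CharKer

set_option autoImplicit false
open Cfsg

namespace Cfsg.Agent.S4574

/-- Let χ be an irreducible character of the finite group G, of degree d, and let Z(χ) be the set of elements g with |χ g| = d (the centre of χ). Then χ vanishes on at least (d ^ 2 - 1) · |Z(χ)| elements of G, with equality when every value |χ g| is 0, 1 or d. -/
theorem result {G : Type*} [Group G] [Fintype G] [DecidableEq G] (χ : G → ℂ) (hχ : Cfsg.IsIrrCharacter G χ) : (Cfsg.charDegree χ ^ 2 - 1) * (Finset.univ.filter (fun g : G => ‖χ g‖ = (Cfsg.charDegree χ : ℝ))).card ≤ (Finset.univ.filter (fun g : G => χ g = 0)).card ∧ ((∀ g : G, ‖χ g‖ = 0 ∨ ‖χ g‖ = 1 ∨ ‖χ g‖ = (Cfsg.charDegree χ : ℝ)) → (Cfsg.charDegree χ ^ 2 - 1) * (Finset.univ.filter (fun g : G => ‖χ g‖ = (Cfsg.charDegree χ : ℝ))).card = (Finset.univ.filter (fun g : G => χ g = 0)).card) := by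
  classical
  have hχc := Cfsg.Agent.Lib.Helper2.IsIrrCharacter.isCharacter hχ
  have hsumsq := Cfsg.Agent.Lib.Helper25.sum_norm_sq_eq_card hχ
  obtain ⟨d, hd0, hd⟩ := Cfsg.Agent.Lib.Helper2.IsIrrCharacter.apply_one_pos hχ
  have hdeg : Cfsg.charDegree χ = d := by
    simp [Cfsg.charDegree, hd]
  rw [hdeg]
  have hpow : ∀ (g : G) (k : ℕ), ‖χ g‖ = (d : ℝ) → ‖χ (g ^ k)‖ = (d : ℝ) := by
    obtain ⟨n, ρ, hirr, rfl⟩ := hχ
    have hn : (Module.finrank ℂ (Fin n → ℂ) : ℝ) = d := by
      have h1 := Representation.char_one ρ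
      rw [hd] at h1
      exact_mod_cast h1.symm
    intro g k hg
    rw [← hn] at hg ⊢
    rw [Cfsg.Agent.Lib.Helper2.norm_char_eq_iff] at hg ⊢
    obtain ⟨ω, hω⟩ := hg
    refine ⟨ω ^ k, ?_⟩
    rw [map_pow, hω]
    have e : (LinearMap.id : (Fin n → ℂ) →ₗ[ℂ] (Fin n → ℂ)) = 1 := rfl
    rw [e, smul_pow, one_pow]
  set f : G → ℝ := fun x => ‖χ x‖ ^ 2 with hf
  set Zc : Finset G := Finset.univ.filter (fun g : G => ‖χ g‖ = (d : ℝ)) with hZc
  set V : Finset G := Finset.univ.filter (fun g : G => χ g = 0) with hV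
  let S : Finset G := Finset.univ.filter (fun x => ¬ ‖χ x‖ = (d : ℝ) ∧ ¬ χ x = 0)
  have hV' : V = Finset.univ.filter (fun x => ¬ ‖χ x‖ = (d : ℝ) ∧ χ x = 0) := by
    ext x
    simp only [hV, Finset.mem_filter, Finset.mem_univ, true_and]
    constructor
    · intro h
      refine ⟨?_, h⟩
      rw [h, norm_zero]
      intro h0
      have : (d : ℝ) ≠ 0 := by exact_mod_cast hd0.ne'
      exact this h0.symm
    · exact fun h => h.2
  have hsplit1 : ∀ F : G → ℝ, ∑ x, F x = ∑ x ∈ Zc, F x + (∑ x ∈ V, F x + ∑ x ∈ S, F x) := by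
    intro F
    rw [← Finset.sum_filter_add_sum_filter_not Finset.univ (fun x => ‖χ x‖ = (d : ℝ)) F]
    congr 1
    rw [← Finset.sum_filter_add_sum_filter_not (Finset.univ.filter (fun x => ¬ ‖χ x‖ = (d : ℝ)))
      (fun x => χ x = 0) F, Finset.filter_filter, Finset.filter_filter, hV']
  have h1 := hsplit1 f
  have h2 := hsplit1 (fun _ => 1)
  simp only [Finset.sum_const, Finset.card_univ, nsmul_eq_mul, mul_one] at h2
  rw [hsumsq, Nat.card_eq_fintype_card] at h1
  have hV0 : ∑ x ∈ V, f x = 0 := by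
    apply Finset.sum_eq_zero
    intro x hx
    simp only [hV, Finset.mem_filter, Finset.mem_univ, true_and] at hx
    simp [hf, hx]
  have hZ0 : ∑ x ∈ Zc, f x = (Zc.card : ℝ) * (d : ℝ) ^ 2 := by
    rw [← nsmul_eq_mul, ← Finset.sum_const]
    apply Finset.sum_congr rfl
    intro x hx
    simp only [hZc, Finset.mem_filter, Finset.mem_univ, true_and] at hx
    simp [hf, hx]
  have hS : (S.card : ℝ) ≤ ∑ x ∈ S, f x := by
    apply Cfsg.Agent.Lib.Helper25.card_le_sum_norm_sq hχc
    · intro g hg m hm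
      simp only [S, Finset.mem_filter, Finset.mem_univ, true_and] at hg ⊢
      refine ⟨?_, ?_⟩
      · intro hmem
        obtain ⟨k, -, hk⟩ := Cfsg.Agent.Lib.Helper25.exists_pow_pow_eq g hm
        apply hg.1
        rw [← hk]
        exact hpow _ k hmem
      · rw [Cfsg.Agent.Lib.Helper25.char_pow_eq_zero_iff hχc g hm]
        exact hg.2
    · intro g hg
      simp only [S, Finset.mem_filter, Finset.mem_univ, true_and] at hg
      exact hg.2
  have hd1 : 1 ≤ d ^ 2 := Nat.one_le_pow _ _ hd0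
  have hcast : (((d ^ 2 - 1) * Zc.card : ℕ) : ℝ) = ((d : ℝ) ^ 2 - 1) * (Zc.card : ℝ) := by
    push_cast [Nat.cast_sub hd1]
    ring
  constructor
  · have : (((d ^ 2 - 1) * Zc.card : ℕ) : ℝ) ≤ (V.card : ℝ) := by
      rw [hcast]
      nlinarith
    exact_mod_cast this
  · intro hall
    have hS' : ∑ x ∈ S, f x = (S.card : ℝ) := by
      rw [← mul_one (S.card : ℝ), ← nsmul_eq_mul, ← Finset.sum_const]
      apply Finset.sum_congr rfl
      intro x hx
      simp only [S, Finset.mem_filter, Finset.mem_univ, true_and] at hx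
      rcases hall x with h | h | h
      · exact absurd (norm_eq_zero.1 h) hx.2
      · simp [hf, h]
      · exact absurd h hx.1
    have : (((d ^ 2 - 1) * Zc.card : ℕ) : ℝ) = (V.card : ℝ) := by
      rw [hcast]
      nlinarith
    exact_mod_cast this

end Cfsg.Agent.S4574
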