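import Cfsg.Statements.S4580
import Cfsg.Agent.Lib.Helper24.RealBlock
import Cfsg.Agent.Lib.Helper25.DetExt
import Cfsg.Agent.Lib.Helper2.CharMore

set_option autoImplicit false
open Cfsg

namespace Cfsg.Agent.S4580

/-- Let N be a normal subgroup of the finite group G, M a maximal ideal of the algebraic integers containing 2, and θ a real-valued irreducible character of N of odd degree that extends to G (some irreducible character of G restricts to θ). Then θ has an extension to G lying in the principal 2-block of G. -/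
theorem result {G : Type*} [Group G] [Finite G] (N : Subgroup G) [N.Normal] (M : Ideal Cfsg.AlgInt) (hM : Cfsg.IsPModular 2 M) (θ : Cfsg.IrrCharacter N) (hreal : ∀ n : N, ((θ : N → ℂ) n).im = 0) (hodd : Odd (Cfsg.charDegree (θ : N → ℂ))) (hext : ∃ η : Cfsg.IrrCharacter G, ∀ n : N, (η : G → ℂ) n = (θ : N → ℂ) n) :
    ∃ η : Cfsg.IrrCharacter G, (∀ n : N, (η : G → ℂ) n = (θ : N → ℂ) n) ∧ η ∈ Cfsg.principalBlock M G := by
  classical
  obtain ⟨η, hη⟩ := hext
  haveI : Fintype G := Fintype.ofFinite G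
  haveI := hM.2.1.isPrime
  have hc : IsIrrCharacter G (fun g => (starRingEnd ℂ) ((η : G → ℂ) g)) :=
    Cfsg.Agent.Lib.Helper2.IsIrrCharacter.conj η.2
  have hext' : ∀ n : N, (fun g => (starRingEnd ℂ) ((η : G → ℂ) g)) (n : G) = (θ : N → ℂ) n := by
    intro n
    show (starRingEnd ℂ) ((η : G → ℂ) n) = _
    rw [hη n]
    exact Complex.conj_eq_iff_im.2 (hreal n)
  obtain ⟨b, hbN, hb⟩ := Cfsg.Agent.Lib.Helper25.exists_linear_of_extensions N θ.2 η.2 hc hη hext'
  obtain ⟨a, m, hm, hcard⟩ := Nat.exists_eq_two_pow_mul_odd (Nat.card_pos.ne' : Nat.card G ≠ 0)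
  obtain ⟨k, hk⟩ := hm
  let lam : G →* ℂˣ := b ^ (k + 1)
  let η' : IrrCharacter G := ⟨fun g => (lam g : ℂ) * (η : G → ℂ) g,
    Cfsg.Agent.Lib.Helper25.isIrrCharacter_linear_mul lam η.2⟩
  have hη'N : ∀ n : N, (η' : G → ℂ) n = (θ : N → ℂ) n := by
    intro n
    show (lam n : ℂ) * (η : G → ℂ) n = (θ : N → ℂ) n
    have : lam n = 1 := by
      show (b ^ (k + 1)) (n : G) = 1
      rw [MonoidHom.pow_apply, hbN n, one_pow]
    rw [this, hη n]
    simp
  refine ⟨η', hη'N, ?_⟩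
  apply Cfsg.Agent.Lib.Helper24.mem_principalBlock_of_odd hM η' η'
    (Cfsg.Agent.Lib.Helper7.sameBlock_refl _)
  · intro g hg
    rw [Cfsg.Agent.Lib.Helper7.char_inv_eq_conj (Cfsg.Agent.Lib.Helper7.isCharacter_of_irr η'.2) g]
    show (lam g : ℂ) * (η : G → ℂ) g = (starRingEnd ℂ) ((lam g : ℂ) * (η : G → ℂ) g)
    have hgm : g ^ m = 1 := by
      apply orderOf_dvd_iff_pow_eq_one.1
      have h1 : orderOf g ∣ 2 ^ a * m := hcard ▸ orderOf_dvd_natCard g
      have h2 : Nat.Coprime (orderOf g) (2 ^ a) :=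
        Nat.Coprime.pow_right _ ((Nat.coprime_comm.1 ((Nat.Prime.coprime_iff_not_dvd Nat.prime_two).2 hg)))
      exact h2.dvd_of_dvd_mul_left h1
    obtain ⟨z, hz⟩ : ∃ z : ℂ, z = (b g : ℂ) := ⟨_, rfl⟩
    have hzm : z ^ (2 * k + 1) = 1 := by
      rw [hz, ← Units.val_pow_eq_pow_val, ← map_pow, ← hk, hgm, map_one, Units.val_one]
    have hlam : (lam g : ℂ) = z ^ (k + 1) := by
      show (((b ^ (k + 1)) g : ℂˣ) : ℂ) = _
      rw [MonoidHom.pow_apply, Units.val_pow_eq_pow_val, hz]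
    have hconj : (starRingEnd ℂ) ((η : G → ℂ) g) = z * (η : G → ℂ) g := by
      rw [hz]
      exact congrFun hb g
    obtain ⟨w, hw⟩ : ∃ w : ℂ, w = (starRingEnd ℂ) z := ⟨_, rfl⟩
    have hwz : w * z = 1 := by
      rw [hw, Complex.conj_mul', Complex.norm_eq_one_of_pow_eq_one hzm (by omega)]
      simp
    rw [hlam, map_mul, map_pow, ← hw, hconj]
    have h1 : z ^ (k + 1) = w ^ k := by
      calc z ^ (k + 1) = (w * z) ^ k * z ^ (k + 1) := by rw [hwz, one_pow, one_mul]
        _ = w ^ k * z ^ (2 * k + 1) := by rw [mul_pow]; ring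
        _ = w ^ k := by rw [hzm, mul_one]
    calc z ^ (k + 1) * (η : G → ℂ) g = w ^ k * (w * z) * (η : G → ℂ) g := by rw [h1, hwz, mul_one]
      _ = w ^ (k + 1) * (z * (η : G → ℂ) g) := by ring
  · have h1 : Cfsg.charDegree (η' : G → ℂ) = Cfsg.charDegree (θ : N → ℂ) := by
      unfold Cfsg.charDegree
      have := hη'N 1
      rw [OneMemClass.coe_one] at this
      rw [this]
    rw [h1]
    exact Nat.not_even_iff_odd.2 hodd ∘ (even_iff_two_dvd.2)

end Cfsg.Agent.S4580
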