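import Cfsg.Statements.S4582
import Mathlib

set_option autoImplicit false
open Cfsg

namespace Cfsg.Agent.S4582

open Subgroup

/-- The transfer of the restriction of a homomorphism into a commutative group is a power. -/
theorem transfer_restrict_eq_pow {H : Type*} [Group H] {A : Type*} [CommGroup A] (P : Subgroup H)
    [P.FiniteIndex] (π : H →* A) (g : H) :
    MonoidHom.transfer (π.comp P.subtype) g = π g ^ P.index := by
  classical
  letI := P.fintypeQuotientOfFiniteIndex
  rw [MonoidHom.transfer_eq_prod_quotient_orbitRel_zpowers_quot,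
    Subgroup.index_eq_sum_minimalPeriod P g, ← Finset.prod_pow_eq_pow_sum]
  refine Finset.prod_congr rfl fun q _ => ?_
  simp only [MonoidHom.comp_apply, Subgroup.subtype_apply, map_mul, map_inv, map_pow]
  rw [mul_comm, mul_inv_cancel_left]

/-- The transfer commutes with homomorphisms of the target. -/
theorem map_transfer' {H : Type*} [Group H] {A B : Type*} [CommGroup A] [CommGroup B]
    (P : Subgroup H) [P.FiniteIndex] (ϕ : P →* A) (ρ : A →* B) (g : H) :
    ρ (MonoidHom.transfer ϕ g) = MonoidHom.transfer (ρ.comp ϕ) g := by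
  classical
  letI := P.fintypeQuotientOfFiniteIndex
  rw [MonoidHom.transfer_eq_prod_quotient_orbitRel_zpowers_quot,
    MonoidHom.transfer_eq_prod_quotient_orbitRel_zpowers_quot, map_prod]
  rfl

theorem eq_one_of_pow_coprime {A : Type*} [Group A] {a : A} {m n : ℕ} (hm : a ^ m = 1)
    (hn : a ^ n = 1) (h : Nat.Coprime m n) : a = 1 := by
  have h1 := orderOf_dvd_of_pow_eq_one hm
  have h2 := orderOf_dvd_of_pow_eq_one hn
  have h3 : orderOf a ∣ 1 := h ▸ Nat.dvd_gcd h1 h2
  exact orderOf_eq_one_iff.1 (Nat.dvd_one.1 h3)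

theorem main_top {H : Type*} [Group H] [Finite H] (N : Subgroup H) [N.Normal] (P : Sylow 2 H)
    (htop : N ⊔ (P : Subgroup H) = ⊤)
    (hP : ∀ x ∈ (P : Subgroup H),
      x ^ 2 ∈ ((P : Subgroup H) ⊓ N) ⊔ ⁅(P : Subgroup H), (P : Subgroup H)⁆)
    (hQ : ∀ x ∈ (P : Subgroup H) ⊓ N, x ^ 2 ∈ ⁅(P : Subgroup H) ⊓ N, (P : Subgroup H) ⊓ N⁆)
    (hodd : Odd (Nat.card (Abelianization N))) :
    ∀ x ∈ (P : Subgroup H), x ^ 2 ∈ ⁅(P : Subgroup H), (P : Subgroup H)⁆ := by
  classical
  obtain ⟨PP, hPP⟩ : ∃ PP : Subgroup H, PP = (P : Subgroup H) := ⟨_, rfl⟩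
  rw [← hPP] at htop hP hQ ⊢
  have hidx : ¬ 2 ∣ PP.index := hPP ▸ P.not_dvd_index
  obtain ⟨k, hk⟩ : ∃ k, Nat.card PP = 2 ^ k := by
    rw [hPP]; exact IsPGroup.iff_card.1 P.isPGroup'
  let ϕ : PP →* Abelianization PP := Abelianization.of
  have hϕsurj : Function.Surjective ϕ := QuotientGroup.mk'_surjective _
  -- kernel of `ϕ`
  have hker : ∀ w : PP, ϕ w = 1 ↔ (w : H) ∈ ⁅PP, PP⁆ := by
    intro w
    have h0 : (w : H) = PP.subtype w := rfl
    rw [← Subgroup.map_subtype_commutator, h0, Subgroup.mem_map_iff_mem PP.subtype_injective,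
      ← Abelianization.ker_of, MonoidHom.mem_ker]
  have h2grp : ∀ a : Abelianization PP, a ^ 2 ^ k = 1 := by
    intro a
    obtain ⟨w, rfl⟩ := hϕsurj a
    rw [← map_pow, ← hk, pow_card_eq_one', map_one]
  let V : H →* Abelianization PP := MonoidHom.transfer ϕ
  -- `V` kills `N`
  have hVN : N ≤ V.ker := by
    intro n hn
    rw [MonoidHom.mem_ker]
    have h1 : (Abelianization.lift (V.comp N.subtype)) (Abelianization.of ⟨n, hn⟩) = V n := by
      rw [Abelianization.lift_apply_of]; rfl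
    have h2 : V n ^ Nat.card (Abelianization N) = 1 := by
      rw [← h1, ← map_pow, pow_card_eq_one', map_one]
    refine eq_one_of_pow_coprime (h2grp _) h2 ?_
    exact Nat.Coprime.pow_left _ (Nat.coprime_two_left.2 hodd)
  have hVc : ⁅PP, PP⁆ ≤ V.ker := by
    rw [Subgroup.commutator_le]
    intro a _ b _
    rw [MonoidHom.mem_ker, map_commutatorElement, commutatorElement_eq_one_iff_mul_comm, mul_comm]
  have hVsq : ∀ x ∈ PP, V x ^ 2 = 1 := by
    intro x hx
    rw [← map_pow]
    exact (sup_le (inf_le_right.trans hVN) hVc) (hP x hx)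
  -- the map to the abelianization of the quotient
  let π : H →* Abelianization (H ⧸ N) := (Abelianization.of).comp (QuotientGroup.mk' N)
  have hmapP : PP.map (QuotientGroup.mk' N) = ⊤ := by
    have h1 : (N ⊔ PP).map (QuotientGroup.mk' N) = ⊤ := by
      rw [htop, ← MonoidHom.range_eq_map, MonoidHom.range_eq_top]
      exact QuotientGroup.mk'_surjective N
    rw [Subgroup.map_sup] at h1
    have h2 : N.map (QuotientGroup.mk' N) = ⊥ := by
      rw [← le_bot_iff, Subgroup.map_le_iff_le_comap]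
      intro n hn
      rw [Subgroup.mem_comap, Subgroup.mem_bot]
      exact (QuotientGroup.eq_one_iff n).2 hn
    rwa [h2, bot_sup_eq] at h1
  have hπ : ∀ w ∈ PP, π w = 1 → w ∈ (PP ⊓ N) ⊔ ⁅PP, PP⁆ := by
    intro w hw h1
    have h2 : QuotientGroup.mk' N w ∈ commutator (H ⧸ N) := by
      rw [← Abelianization.ker_of, MonoidHom.mem_ker]; exact h1
    rw [_root_.commutator_def, ← hmapP, ← Subgroup.map_commutator] at h2
    obtain ⟨c, hc, hcw⟩ := h2
    have hcP : c ∈ PP := Subgroup.commutator_le_self PP hc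
    have h3 : c⁻¹ * w ∈ N := by
      rw [← QuotientGroup.eq]; exact hcw
    have h5 : w = c * (c⁻¹ * w) := by group
    rw [h5]
    exact Subgroup.mul_mem _ (Subgroup.mem_sup_right hc)
      (Subgroup.mem_sup_left ⟨PP.mul_mem (PP.inv_mem hcP) hw, h3⟩)
  let ρ : Abelianization PP →* Abelianization (H ⧸ N) := Abelianization.lift (π.comp PP.subtype)
  have hρϕ : ρ.comp ϕ = π.comp PP.subtype := by
    ext w
    exact Abelianization.lift_apply_of _ _
  have hρV : ∀ g : H, ρ (V g) = π g ^ PP.index := by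
    intro g
    rw [map_transfer', hρϕ, transfer_restrict_eq_pow]
  -- squares vanish on `(PP ⊓ N) ⊔ ⁅PP, PP⁆`
  have hsq : ∀ w : PP, (w : H) ∈ (PP ⊓ N) ⊔ ⁅PP, PP⁆ → ϕ w ^ 2 = 1 := by
    let K₂ : Subgroup H := (((powMonoidHom 2 : Abelianization PP →* Abelianization PP).comp ϕ).ker).map
      PP.subtype
    have hK : (PP ⊓ N) ⊔ ⁅PP, PP⁆ ≤ K₂ := by
      refine sup_le ?_ ?_
      · intro q hq
        refine ⟨⟨q, hq.1⟩, ?_, rfl⟩
        show ϕ ⟨q, hq.1⟩ ^ 2 = 1
        rw [← map_pow, hker]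
        exact Subgroup.commutator_mono inf_le_left inf_le_left (hQ q hq)
      · intro c hc
        refine ⟨⟨c, Subgroup.commutator_le_self PP hc⟩, ?_, rfl⟩
        show ϕ ⟨c, _⟩ ^ 2 = 1
        rw [(hker _).2 hc, one_pow]
    intro w hw
    obtain ⟨w', hw', hww⟩ := hK hw
    have : w' = w := Subtype.ext hww
    rw [← this]
    exact hw'
  intro x hx
  obtain ⟨a, ha⟩ : ∃ a, a = ϕ ⟨x, hx⟩ := ⟨_, rfl⟩
  obtain ⟨w, hw⟩ := hϕsurj ((V x)⁻¹ * a ^ PP.index)
  have hρa : ρ a = π x := by
    rw [ha]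
    exact DFunLike.congr_fun hρϕ ⟨x, hx⟩
  have hπw : π w = 1 := by
    have h1 : π w = ρ (ϕ w) := (DFunLike.congr_fun hρϕ w).symm
    rw [h1, hw, map_mul, map_inv, hρV, map_pow, hρa, inv_mul_cancel]
  have h1 := hsq w (hπ w w.2 hπw)
  rw [hw, mul_pow, inv_pow, hVsq x hx, inv_one, one_mul, ← pow_mul, mul_comm, pow_mul] at h1
  have h2 : (a ^ 2) ^ 2 ^ k = 1 := h2grp _
  have h3 : a ^ 2 = 1 := by
    refine eq_one_of_pow_coprime h2 h1 ?_
    exact Nat.Coprime.pow_left _ ((Nat.Prime.coprime_iff_not_dvd Nat.prime_two).2 hidx)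
  rw [ha, ← map_pow, hker] at h3
  exact h3

/-- Let N be a normal subgroup of the finite group G, P a Sylow 2-subgroup of G and Q = P ∩ N. Suppose that P/QP' and Q/Q' are elementary abelian (every square of an element of P lies in the subgroup generated by Q and the derived subgroup of P, and every square of an element of Q lies in the derived subgroup of Q), and that the commutator factor group N/N' has odd order. Then P/P' is elementary abelian. -/
theorem result {G : Type*} [Group G] [Finite G] (N : Subgroup G) [N.Normal] (P : Sylow 2 G)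
    (hP : ∀ x ∈ (P : Subgroup G), x ^ 2 ∈ ((P : Subgroup G) ⊓ N) ⊔ ⁅(P : Subgroup G), (P : Subgroup G)⁆)
    (hQ : ∀ x ∈ (P : Subgroup G) ⊓ N, x ^ 2 ∈ ⁅(P : Subgroup G) ⊓ N, (P : Subgroup G) ⊓ N⁆)
    (hodd : Odd (Nat.card (Abelianization N))) :
    ∀ x ∈ (P : Subgroup G), x ^ 2 ∈ ⁅(P : Subgroup G), (P : Subgroup G)⁆ := by
  classical
  obtain ⟨HH, hHH⟩ : ∃ HH : Subgroup G, HH = N ⊔ (P : Subgroup G) := ⟨_, rfl⟩
  have hNH : N ≤ HH := hHH ▸ le_sup_left
  have hPH : (P : Subgroup G) ≤ HH := hHH ▸ le_sup_right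
  have hinj : Function.Injective HH.subtype := HH.subtype_injective
  have hmapP : ((P.subtype hPH : Sylow 2 HH) : Subgroup HH).map HH.subtype = (P : Subgroup G) := by
    rw [Sylow.coe_subtype, Subgroup.subgroupOf_map_subtype, inf_of_le_left hPH]
  have hmapN : (N.subgroupOf HH).map HH.subtype = N := by
    rw [Subgroup.subgroupOf_map_subtype, inf_of_le_left hNH]
  have hmem : ∀ (S : Subgroup HH) (y : HH), y ∈ S ↔ (y : G) ∈ S.map HH.subtype := by
    intro S y
    exact (Subgroup.mem_map_iff_mem hinj).symm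
  have key := main_top (N.subgroupOf HH) (P.subtype hPH) ?_ ?_ ?_ ?_
  · intro x hx
    have h1 := key ⟨x, hPH hx⟩ (by rw [hmem, hmapP]; exact hx)
    rw [hmem, Subgroup.map_commutator, hmapP] at h1
    exact h1
  · rw [Sylow.coe_subtype, ← Subgroup.subgroupOf_sup hNH hPH, ← hHH, Subgroup.subgroupOf_self]
  · intro x hx
    rw [hmem, hmapP] at hx
    rw [hmem, Subgroup.map_sup, Subgroup.map_commutator, Subgroup.map_inf _ _ _ hinj, hmapP, hmapN]
    exact hP x hx
  · intro x hx
    rw [hmem, Subgroup.map_inf _ _ _ hinj, hmapP, hmapN] at hx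
    rw [hmem, Subgroup.map_commutator, Subgroup.map_inf _ _ _ hinj, hmapP, hmapN]
    exact hQ x hx
  · have e : Abelianization (N.subgroupOf HH) ≃* Abelianization N :=
      (Subgroup.subgroupOfEquivOfLe hNH).abelianizationCongr
    rw [Nat.card_congr e.toEquiv]
    exact hodd

end Cfsg.Agent.S4582
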