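import Cfsg.Statements.S4583
import Cfsg.Agent.Lib.Helper1.RegTools

set_option autoImplicit false
open Cfsg

namespace Cfsg.Agent.S4583

open Cfsg.Agent.Lib.Helper1 Cfsg.Agent.Lib.Helper7 Cfsg.Agent.Lib.Helper24

theorem aux {G : Type*} [Group G] [Finite G] (N : Subgroup G) [N.Normal] [Fintype N] (p : ℕ) [Fact p.Prime]
    (M : Ideal Cfsg.AlgInt) (hM : Cfsg.IsPModular p M)
    (θ : Cfsg.IrrCharacter N) (hθ : θ ∈ Cfsg.principalBlock M N)
    (hdeg : ¬ p ∣ Cfsg.charDegree (θ : N → ℂ)) (H : Subgroup G) (hNH : N ≤ H)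
    (hidx : ¬ p ∣ H.index) (k : ℕ) (hk : (N.subgroupOf H).index = p ^ k)
    (η : Cfsg.IrrCharacter H) (hη : ∀ n : N, (η : H → ℂ) (Subgroup.inclusion hNH n) = (θ : N → ℂ) n) :
    ∃ χ : Cfsg.IrrCharacter G, χ ∈ Cfsg.principalBlock M G ∧ ¬ p ∣ Cfsg.charDegree (χ : G → ℂ) ∧
      Cfsg.classInner (fun n : N => (χ : G → ℂ) n) (θ : N → ℂ) ≠ 0 := by
  classical
  haveI := hM.2.1.isPrime
  haveI := Fintype.ofFinite G
  haveI : Fintype (Cfsg.IrrCharacter G) := Fintype.ofFinite _
  haveI : Fintype H := Fintype.ofFinite _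
  haveI : Fintype (Cfsg.IrrCharacter H) := Fintype.ofFinite _
  have hp : p.Prime := Fact.out
  let N' : Subgroup H := N.subgroupOf H
  let e : N' ≃* N := Subgroup.subgroupOfEquivOfLe hNH
  have hreg : ∀ h : H, ¬ p ∣ orderOf h → h ∈ N' := by
    intro h hh
    have h1 : h ^ (p ^ k) ∈ N' := by
      rw [← hk]; exact Subgroup.pow_index_mem N' h
    have hc : (p ^ k).Coprime (orderOf h) :=
      Nat.Coprime.pow_left k ((Nat.Prime.coprime_iff_not_dvd hp).2 hh)
    obtain ⟨m, hm⟩ := exists_pow_eq_self_of_coprime hc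
    rw [← hm]
    exact N'.pow_mem h1 m
  have hηB : η ∈ Cfsg.principalBlock M H := by
    rw [rt_mem_iff_of_regular_le hM N' hreg η (mapIrr e θ)]
    · exact (mapIrr_mem_principalBlock_iff e θ).2 hθ
    · intro x
      exact hη (e x)
  have hI : Cfsg.IsCharacter G (Cfsg.indFun H (η : H → ℂ)) :=
    Cfsg.Agent.Lib.Helper25.isCharacter_indFun H _ (Cfsg.Agent.Lib.Helper7.isCharacter_of_irr η.2)
  obtain ⟨a, ha, hsum⟩ := character_eq_sum_nat hI
  have hcount := rt_count hM H η a hsum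
  have hη1 : (η : H → ℂ) 1 = (θ : N → ℂ) 1 := hη 1
  have hrhs : ¬ Cfsg.MemLocalIdeal M ((H.index : ℂ) * ((η : H → ℂ) 1 * Om (regInd p H) η)) := by
    have h1 : ¬ Cfsg.MemLocalIdeal M ((H.index : ℕ) : ℂ) := by
      rw [memLocalIdeal_natCast_iff hM]
      exact hidx
    have h2 : ¬ Cfsg.MemLocalIdeal M ((η : H → ℂ) 1) := by
      rw [hη1, ← charDegree_cast (Cfsg.Agent.Lib.Helper7.isCharacter_of_irr θ.2),
        memLocalIdeal_natCast_iff hM]
      exact hdeg
    have h3 := (mem_principalBlock_iff hM η).1 hηB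
    have h4 : Cfsg.MemLocalRing M ((η : H → ℂ) 1) := by
      rw [← charDegree_cast (Cfsg.Agent.Lib.Helper7.isCharacter_of_irr η.2)]
      exact memLocalRing_natCast _
    exact not_memLocalIdeal_mul (memLocalRing_natCast _) h1
      (not_memLocalIdeal_mul h4 h2 h3)
  obtain ⟨χ, hχB, haχ, hχp⟩ : ∃ χ : Cfsg.IrrCharacter G, χ ∈ Cfsg.principalBlock M G ∧ a χ ≠ 0 ∧
      ¬ p ∣ Cfsg.charDegree (χ : G → ℂ) := by
    by_contra hcon
    push Not at hcon
    apply hrhs
    rw [← hcount]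
    apply memLocalIdeal_sum
    intro χ hχ
    have hχB := (Finset.mem_filter.1 hχ).2
    by_cases h0 : a χ = 0
    · rw [h0]; simp only [Nat.cast_zero, zero_mul]; exact memLocalIdeal_zero
    · have hd := hcon χ hχB h0
      apply memLocalIdeal_mul_left (memLocalRing_natCast _)
      apply memLocalIdeal_mul_right _ (rt_memLocalRing_Om hM hχB)
      rw [← charDegree_cast (Cfsg.Agent.Lib.Helper7.isCharacter_of_irr χ.2),
        memLocalIdeal_natCast_iff hM]
      exact hd
  refine ⟨χ, hχB, hχp, ?_⟩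
  -- θ is a constituent of χ_N
  have hχH : Cfsg.IsCharacter H (fun h : H => (χ : G → ℂ) h) :=
    isCharacter_restrict (Cfsg.Agent.Lib.Helper7.isCharacter_of_irr χ.2) H
  obtain ⟨b, hb, hbsum⟩ := character_eq_sum_nat hχH
  have hbη : b η ≠ 0 := by
    have h7 := ha χ
    rw [Cfsg.Agent.Lib.Helper25.frobenius_reciprocity H _ _ (isClassFunction_irr χ)] at h7
    have h8 := hb η
    rw [← Cfsg.Agent.Lib.Helper7.classInner_conj_symm, h7, Complex.conj_natCast] at h8
    have : (a χ : ℂ) = b η := h8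
    have h9 : a χ = b η := by exact_mod_cast this
    rw [← h9]; exact haχ
  let ι : N →* H := Subgroup.inclusion hNH
  have hdecomp : (fun n : N => (χ : G → ℂ) n)
      = ∑ ξ : Cfsg.IrrCharacter H, (b ξ : ℂ) • (fun n : N => (ξ : H → ℂ) (ι n)) := by
    funext n
    have := congrFun hbsum (ι n)
    simp only [Finset.sum_apply, Pi.smul_apply, smul_eq_mul, nsmul_eq_mul] at this ⊢
    exact this
  have hnat : ∀ ξ : Cfsg.IrrCharacter H, ∃ m : ℕ,
      Cfsg.classInner (fun n : N => (ξ : H → ℂ) (ι n)) (θ : N → ℂ) = m := fun ξ =>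
    classInner_char_nat
      (isCharacter_comp_hom (Cfsg.Agent.Lib.Helper7.isCharacter_of_irr ξ.2) ι)
      (Cfsg.Agent.Lib.Helper7.isCharacter_of_irr θ.2)
  choose m hm using hnat
  have hmη : m η = 1 := by
    have h1 := hm η
    have h2 : (fun n : N => (η : H → ℂ) (ι n)) = (θ : N → ℂ) := funext hη
    rw [h2, classInner_irr_self θ.2] at h1
    exact_mod_cast h1.symm
  have hfin : Cfsg.classInner (fun n : N => (χ : G → ℂ) n) (θ : N → ℂ)
      = ((∑ ξ : Cfsg.IrrCharacter H, b ξ * m ξ : ℕ) : ℂ) := by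
    rw [hdecomp, Cfsg.Agent.Lib.Helper7.classInner_sum_left]
    push_cast
    apply Finset.sum_congr rfl
    intro ξ _
    rw [Cfsg.Agent.Lib.Helper7.classInner_smul_left, hm]
  rw [hfin]
  have hpos : 0 < ∑ ξ : Cfsg.IrrCharacter H, b ξ * m ξ := by
    apply Finset.sum_pos'
    · intro ξ _; exact Nat.zero_le _
    · exact ⟨η, Finset.mem_univ _, by rw [hmη, mul_one]; exact Nat.pos_of_ne_zero hbη⟩
  exact_mod_cast hpos.ne'

/-- Let N be a normal subgroup of the finite group G, p a prime, M a maximal ideal of the algebraic integers containing p, and P a Sylow p-subgroup of G. Let θ be an irreducible character of N of degree prime to p lying in the principal p-block of N, and suppose θ extends to the subgroup NP (some irreducible character of NP restricts to θ). Then some irreducible character χ of G of degree prime to p in the principal p-block of G lies over θ (θ is a constituent of the restriction of χ to N). -/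
theorem result {G : Type*} [Group G] [Finite G] (N : Subgroup G) [N.Normal] (p : ℕ) [Fact p.Prime] (M : Ideal Cfsg.AlgInt) (hM : Cfsg.IsPModular p M) (P : Sylow p G)
    (θ : Cfsg.IrrCharacter N) (hθ : θ ∈ Cfsg.principalBlock M N) (hdeg : ¬ p ∣ Cfsg.charDegree (θ : N → ℂ))
    (hext : ∃ η : Cfsg.IrrCharacter ↥(N ⊔ (P : Subgroup G)), ∀ n : N, (η : ↥(N ⊔ (P : Subgroup G)) → ℂ) (Subgroup.inclusion le_sup_left n) = (θ : N → ℂ) n) :
    ∃ χ : Cfsg.IrrCharacter G, χ ∈ Cfsg.principalBlock M G ∧ ¬ p ∣ Cfsg.charDegree (χ : G → ℂ) ∧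
      haveI := Fintype.ofFinite N; Cfsg.classInner (fun n : N => (χ : G → ℂ) n) (θ : N → ℂ) ≠ 0 := by
  classical
  have hp : p.Prime := Fact.out
  obtain ⟨η, hη⟩ := hext
  obtain ⟨k, hk⟩ : ∃ k : ℕ, (N.subgroupOf (N ⊔ (P : Subgroup G))).index = p ^ k := by
    have h1 : (N.subgroupOf (N ⊔ (P : Subgroup G))).index = N.relIndex (P : Subgroup G) := by
      show N.relIndex (N ⊔ (P : Subgroup G)) = _
      exact Subgroup.relIndex_sup_left (P : Subgroup G) N
    have h2 : N.relIndex (P : Subgroup G) ∣ Nat.card (P : Subgroup G) :=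
      Subgroup.index_dvd_card _
    obtain ⟨n, hn⟩ := P.2.exists_card_eq
    rw [hn] at h2
    obtain ⟨k, -, hk⟩ := (Nat.dvd_prime_pow hp).1 h2
    exact ⟨k, h1.trans hk⟩
  exact @aux G _ _ N _ (Fintype.ofFinite N) p _ M hM θ hθ hdeg (N ⊔ (P : Subgroup G)) le_sup_left
    (fun hd => P.not_dvd_index (hd.trans (Subgroup.index_dvd_of_le le_sup_right))) k hk η hη

end Cfsg.Agent.S4583
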