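import Cfsg.Statements.S4584
import Mathlib
import Cfsg.Agent.Lib.Helper21.P4

set_option autoImplicit false
open Cfsg

namespace Cfsg.Agent.S4584

/-- Let p be a prime and P a group of order p^4. Then the derived subgroup P' has order p if and only if the centre Z(P) has index p^2 in P. -/
theorem result {P : Type*} [Group P] [Finite P] (p : ℕ) [Fact p.Prime] (hP : Nat.card P = p ^ 4) :
    Nat.card (commutator P) = p ↔ (Subgroup.center P).index = p ^ 2 := by
  classical
  have hp : p.Prime := Fact.out
  have hp1 : 1 < p := hp.one_lt
  by_cases hc : ∀ a b : P, a * b = b * a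
  · have hZ : Subgroup.center P = ⊤ := by
      rw [eq_top_iff]
      intro a _
      rw [Subgroup.mem_center_iff]
      intro g
      exact hc g a
    have hC : commutator P = ⊥ := (commutator_eq_bot_iff_center_eq_top P).2 hZ
    rw [hC, hZ, Subgroup.card_bot, Subgroup.index_top]
    constructor
    · intro h
      omega
    · intro h
      have : 1 < p ^ 2 := Nat.one_lt_pow (by norm_num) hp1
      omega
  · have h1 := Cfsg.Agent.Lib.Helper21.p4_card p hP hc
    have h2 := (Subgroup.center P).card_mul_index
    rw [hP] at h2
    constructor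
    · intro h
      rw [h] at h1
      have h3 : p * Nat.card (Subgroup.center P) = p * p ^ 2 := by rw [h1]; ring
      have h4 := Nat.eq_of_mul_eq_mul_left hp.pos h3
      rw [h4] at h2
      have h5 : p ^ 2 * (Subgroup.center P).index = p ^ 2 * p ^ 2 := by rw [h2]; ring
      exact Nat.eq_of_mul_eq_mul_left (pow_pos hp.pos 2) h5
    · intro h
      rw [h] at h2
      have h3 : Nat.card (Subgroup.center P) * p ^ 2 = p ^ 2 * p ^ 2 := by rw [h2]; ring
      have h4 := Nat.eq_of_mul_eq_mul_right (pow_pos hp.pos 2) h3
      rw [h4] at h1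
      have h5 : Nat.card (commutator P) * p ^ 2 = p * p ^ 2 := by rw [h1]; ring
      exact Nat.eq_of_mul_eq_mul_right (pow_pos hp.pos 2) h5

end Cfsg.Agent.S4584
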