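import Cfsg.Statements.S4585
import Mathlib
import Cfsg.Agent.Lib.Helper21.P4

set_option autoImplicit false
open Cfsg

namespace Cfsg.Agent.S4585

/-- Let p be a prime and P a group of order p^4. Then P' has index p^2 in P if and only if P has maximal nilpotency class, that is, nilpotency class exactly 3. -/
theorem result {P : Type*} [Group P] [Finite P] (p : ℕ) [Fact p.Prime] (hP : Nat.card P = p ^ 4) :
    (commutator P).index = p ^ 2 ↔ Group.nilpotencyClass P = 3 := by
  classical
  have hp : p.Prime := Fact.out
  have hp1 : 1 < p := hp.one_lt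
  have hPG : IsPGroup p P := IsPGroup.of_card hP
  haveI hnil : Group.IsNilpotent P := hPG.isNilpotent
  by_cases hc : ∀ a b : P, a * b = b * a
  · have hZ : Subgroup.center P = ⊤ := by
      rw [eq_top_iff]
      intro a _
      rw [Subgroup.mem_center_iff]
      intro g
      exact hc g a
    have hC : commutator P = ⊥ := (commutator_eq_bot_iff_center_eq_top P).2 hZ
    have hcl : Group.nilpotencyClass P ≤ 1 :=
      Group.IsNilpotent.nilpotencyClass_le_one_iff.2 ⟨⟨hc⟩⟩
    rw [hC, Subgroup.index_bot, hP]
    constructor
    · intro h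
      have := Nat.pow_right_injective hp1 h
      omega
    · intro h
      omega
  · have h1 := Cfsg.Agent.Lib.Helper21.p4_card p hP hc
    have h2 := (Subgroup.center P).card_mul_index
    rw [hP] at h2
    have h3 := (commutator P).card_mul_index
    rw [hP] at h3
    have hcl1 := Group.nilpotencyClass_quotient_center (G := P)
    haveI : Group.IsNilpotent (P ⧸ Subgroup.center P) := (hPG.to_quotient _).isNilpotent
    haveI : Nontrivial P := by
      by_contra h
      rw [not_nontrivial_iff_subsingleton] at h
      exact hc (fun a b => Subsingleton.elim _ _)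
    have hZbot : Subgroup.center P ≠ ⊥ := by
      haveI := hPG.center_nontrivial
      exact (Subgroup.nontrivial_iff_ne_bot _).1 inferInstance
    have hidx : Nat.card (P ⧸ Subgroup.center P) = (Subgroup.center P).index := rfl
    constructor
    · intro h
      rw [h] at h3
      have h4 : Nat.card (commutator P) * p ^ 2 = p ^ 2 * p ^ 2 := by rw [h3]; ring
      have h5 := Nat.eq_of_mul_eq_mul_right (pow_pos hp.pos 2) h4
      rw [h5] at h1
      have h6 : p ^ 2 * Nat.card (Subgroup.center P) = p ^ 2 * p := by rw [h1]; ring
      have h7 := Nat.eq_of_mul_eq_mul_left (pow_pos hp.pos 2) h6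
      rw [h7] at h2
      have h8 : p * (Subgroup.center P).index = p * p ^ 3 := by rw [h2]; ring
      have h9 := Nat.eq_of_mul_eq_mul_left hp.pos h8
      -- the quotient by the centre is not commutative
      have hQnc : ¬ Group.nilpotencyClass (P ⧸ Subgroup.center P) ≤ 1 := by
        intro hle
        have hcomm := Group.IsNilpotent.nilpotencyClass_le_one_iff.1 hle
        have hle2 := Subgroup.Normal.quotient_commutative_iff_commutator_le.1 hcomm
        have hd := Subgroup.card_dvd_of_le hle2
        rw [h5, h7] at hd
        have : p ^ 2 ∣ p ^ 1 := by rwa [pow_one]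
        have := (Nat.pow_dvd_pow_iff_le_right hp1).1 this
        omega
      -- the second quotient is commutative
      have hQG : IsPGroup p (P ⧸ Subgroup.center P) := hPG.to_quotient _
      haveI : Nontrivial (P ⧸ Subgroup.center P) := by
        rw [← Finite.one_lt_card_iff_nontrivial, hidx, h9]
        exact Nat.one_lt_pow (by norm_num) hp1
      have hZQ : Subgroup.center (P ⧸ Subgroup.center P) ≠ ⊥ := by
        haveI := hQG.center_nontrivial
        exact (Subgroup.nontrivial_iff_ne_bot _).1 inferInstance
      have d0 := Cfsg.Agent.Lib.Helper21.pg_mul_card_dvd hQG (bot_lt_iff_ne_bot.2 hZQ)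
      rw [Subgroup.card_bot, mul_one] at d0
      have h10 := (Subgroup.center (P ⧸ Subgroup.center P)).card_mul_index
      rw [hidx, h9] at h10
      have h11 : (Subgroup.center (P ⧸ Subgroup.center P)).index ∣ p ^ 2 := by
        obtain ⟨c, hc'⟩ := d0
        rw [hc'] at h10
        have h12 : p * (c * (Subgroup.center (P ⧸ Subgroup.center P)).index) = p * p ^ 2 := by
          rw [← mul_assoc, h10]; ring
        exact Dvd.intro_left c (Nat.eq_of_mul_eq_mul_left hp.pos h12)
      haveI : Group.IsNilpotent ((P ⧸ Subgroup.center P) ⧸ Subgroup.center (P ⧸ Subgroup.center P)) :=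
        (hQG.to_quotient _).isNilpotent
      have hcl3 : Group.nilpotencyClass
          ((P ⧸ Subgroup.center P) ⧸ Subgroup.center (P ⧸ Subgroup.center P)) ≤ 1 :=
        Group.IsNilpotent.nilpotencyClass_le_one_iff.2
          ⟨⟨Cfsg.Agent.Lib.Helper21.comm_of_card_dvd_sq p h11⟩⟩
      have hcl2 := Group.nilpotencyClass_quotient_center (G := P ⧸ Subgroup.center P)
      omega
    · intro h
      obtain ⟨k, hk, hZk⟩ := (Nat.dvd_prime_pow hp).1 (Dvd.intro_left _ h1)
      have d0 := Cfsg.Agent.Lib.Helper21.pg_mul_card_dvd hPG (bot_lt_iff_ne_bot.2 hZbot)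
      rw [Subgroup.card_bot, mul_one, hZk] at d0
      have hk1 : 1 ≤ k := by
        have : p ^ 1 ∣ p ^ k := by rwa [pow_one]
        exact (Nat.pow_dvd_pow_iff_le_right hp1).1 this
      have hk2 : k < 2 := by
        by_contra hk2
        push Not at hk2
        have h4 : (Subgroup.center P).index ∣ p ^ 2 := by
          rw [hZk] at h2
          obtain ⟨m, rfl⟩ := Nat.exists_eq_add_of_le hk2
          have h5 : p ^ 2 * (p ^ m * (Subgroup.center P).index) = p ^ 2 * p ^ 2 := by
            rw [← mul_assoc, ← pow_add, h2]; ring
          exact Dvd.intro_left _ (Nat.eq_of_mul_eq_mul_left (pow_pos hp.pos 2) h5)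
        have hcl3 : Group.nilpotencyClass (P ⧸ Subgroup.center P) ≤ 1 :=
          Group.IsNilpotent.nilpotencyClass_le_one_iff.2
            ⟨⟨Cfsg.Agent.Lib.Helper21.comm_of_card_dvd_sq p h4⟩⟩
        omega
      have hk' : k = 1 := by omega
      rw [hk', pow_one] at hZk
      rw [hZk] at h1
      have h4 : Nat.card (commutator P) * p = p ^ 2 * p := by rw [h1]; ring
      have h5 := Nat.eq_of_mul_eq_mul_right hp.pos h4
      rw [h5] at h3
      have h6 : p ^ 2 * (commutator P).index = p ^ 2 * p ^ 2 := by rw [h3]; ring
      exact Nat.eq_of_mul_eq_mul_left (pow_pos hp.pos 2) h6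

end Cfsg.Agent.S4585
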