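import Cfsg.Statements.S4586
import Mathlib
import Cfsg.Agent.Lib.Helper21.P4

set_option autoImplicit false
open Cfsg

namespace Cfsg.Agent.S4586

open scoped commutatorElement in
lemma key {P : Type*} [Group P] [Finite P] (p : ℕ) [Fact p.Prime] (hP : IsPGroup p P)
    (N : Subgroup P) [N.Normal] (hN : N.index = p) (x : P) (hx : x ∉ N) :
    (commutator P).index = p ^ 2 ↔
      Nat.card {n : N // x * n * x⁻¹ * (n : P)⁻¹ ∈ (commutator N).map N.subtype}
        = p * Nat.card (commutator N) := by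
  classical
  have hp : p.Prime := Fact.out
  obtain ⟨D, hD⟩ : ∃ D : Subgroup P, D = (commutator N).map N.subtype := ⟨_, rfl⟩
  haveI hDn : D.Normal := by
    rw [hD]
    exact ConjAct.normal_of_characteristic_of_normal
  have hDN : D ≤ N := by
    rw [hD]
    exact Subgroup.map_subtype_le _
  have hDcard : Nat.card D = Nat.card (commutator N) := by
    rw [hD]
    exact Subgroup.card_map_of_injective N.subtype_injective
  have hDP : D ≤ commutator P := by
    rw [hD, commutator_def, commutator_def, Subgroup.map_commutator]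
    exact Subgroup.commutator_mono le_top le_top
  rw [← hD, ← hDcard]
  obtain ⟨A, hA⟩ : ∃ A : Subgroup (P ⧸ D), A = N.map (QuotientGroup.mk' D) := ⟨_, rfl⟩
  haveI hAn : A.Normal := by
    rw [hA]
    exact Subgroup.Normal.map inferInstance _ (QuotientGroup.mk'_surjective D)
  have hAc : ∀ a ∈ A, ∀ b ∈ A, a * b = b * a := by
    intro a ha b hb
    rw [hA] at ha hb
    obtain ⟨m, hm, rfl⟩ := Subgroup.mem_map.1 ha
    obtain ⟨n, hn, rfl⟩ := Subgroup.mem_map.1 hb
    show (QuotientGroup.mk m : P ⧸ D) * QuotientGroup.mk n = QuotientGroup.mk n * QuotientGroup.mk m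
    rw [← QuotientGroup.mk_mul, ← QuotientGroup.mk_mul, QuotientGroup.eq]
    have h1 : ⁅(⟨n, hn⟩ : ↥N)⁻¹, (⟨m, hm⟩ : ↥N)⁻¹⁆ ∈ commutator ↥N := by
      rw [commutator_def]
      exact Subgroup.commutator_mem_commutator (Subgroup.mem_top _) (Subgroup.mem_top _)
    have h2 : ((⁅(⟨n, hn⟩ : ↥N)⁻¹, (⟨m, hm⟩ : ↥N)⁻¹⁆ : ↥N) : P) ∈ D := by
      rw [hD]
      exact Subgroup.mem_map.2 ⟨_, h1, rfl⟩
    rw [commutatorElement_def] at h2
    have e : (m * n)⁻¹ * (n * m) = n⁻¹ * m⁻¹ * n⁻¹⁻¹ * m⁻¹⁻¹ := by group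
    rw [e]
    exact h2
  have htop : N ⊔ Subgroup.zpowers x = ⊤ := by
    have hlt : N < N ⊔ Subgroup.zpowers x := by
      refine lt_of_le_of_ne le_sup_left ?_
      intro e
      apply hx
      rw [e]
      exact (le_sup_right : Subgroup.zpowers x ≤ _) (Subgroup.mem_zpowers x)
    have h1 := Cfsg.Agent.Lib.Helper21.pg_mul_card_dvd hP hlt
    apply Subgroup.eq_top_of_card_eq
    have h2 := N.card_mul_index
    rw [hN, mul_comm] at h2
    rw [h2] at h1
    exact Nat.dvd_antisymm (Subgroup.card_subgroup_dvd_card _) h1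
  have hgen : A ⊔ Subgroup.zpowers (QuotientGroup.mk x : P ⧸ D) = ⊤ := by
    have h1 := congrArg (Subgroup.map (QuotientGroup.mk' D)) htop
    rw [Subgroup.map_sup, MonoidHom.map_zpowers,
      Subgroup.map_top_of_surjective _ (QuotientGroup.mk'_surjective D), ← hA] at h1
    exact h1
  have hLA := Cfsg.Agent.Lib.Helper21.card_commutator_mul_card_centralizer A hAc
    (QuotientGroup.mk x : P ⧸ D) hgen
  -- cardinalities
  have hrel : ∀ K : Subgroup P, D ≤ K →
      Nat.card K = Nat.card D * Nat.card ↥(K.map (QuotientGroup.mk' D)) := by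
    intro K hK
    have h1 := Subgroup.relIndex_mul_relIndex ⊥ D K bot_le hK
    rw [Subgroup.relIndex_bot_left, Subgroup.relIndex_bot_left] at h1
    have h2 := Subgroup.relIndex_ker (K := K) (QuotientGroup.mk' D)
    rw [QuotientGroup.ker_mk'] at h2
    rw [← h1, h2]
  have c1 := hrel N hDN
  rw [← hA] at c1
  have c2 := hrel (commutator P) hDP
  have hmapc : (commutator P).map (QuotientGroup.mk' D) = commutator (P ⧸ D) := by
    rw [commutator_def, commutator_def, Subgroup.map_commutator,
      Subgroup.map_top_of_surjective _ (QuotientGroup.mk'_surjective D)]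
  rw [hmapc] at c2
  obtain ⟨E, hE⟩ : ∃ E : Subgroup P, E = (A ⊓ Subgroup.centralizer
      ({(QuotientGroup.mk x : P ⧸ D)} : Set (P ⧸ D))).comap (QuotientGroup.mk' D) := ⟨_, rfl⟩
  have hDE : D ≤ E := by
    intro d hd
    rw [hE, Subgroup.mem_comap]
    have : QuotientGroup.mk' D d = 1 := (QuotientGroup.eq_one_iff d).2 hd
    rw [this]
    exact Subgroup.one_mem _
  have c3 := hrel E hDE
  rw [hE, Subgroup.map_comap_eq_self_of_surjective (QuotientGroup.mk'_surjective D), ← hE] at c3
  have hmemE : ∀ g : P, g ∈ E ↔ g ∈ N ∧ x * g * x⁻¹ * g⁻¹ ∈ D := by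
    intro g
    rw [hE, Subgroup.mem_comap, Subgroup.mem_inf, Subgroup.mem_centralizer_singleton_iff, hA]
    constructor
    · rintro ⟨h1, h2⟩
      constructor
      · obtain ⟨n, hn, hng⟩ := Subgroup.mem_map.1 h1
        have h3 : n⁻¹ * g ∈ D := QuotientGroup.eq.1 hng
        have : g = n * (n⁻¹ * g) := by group
        rw [this]
        exact N.mul_mem hn (hDN h3)
      · rw [← QuotientGroup.eq_one_iff]
        have h2' : (QuotientGroup.mk g : P ⧸ D) * QuotientGroup.mk x
            = QuotientGroup.mk x * QuotientGroup.mk g := h2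
        rw [QuotientGroup.mk_mul, QuotientGroup.mk_mul, QuotientGroup.mk_mul,
          QuotientGroup.mk_inv, QuotientGroup.mk_inv, ← h2']
        group
    · rintro ⟨h1, h2⟩
      refine ⟨Subgroup.mem_map.2 ⟨g, h1, rfl⟩, ?_⟩
      show (QuotientGroup.mk g : P ⧸ D) * QuotientGroup.mk x
            = QuotientGroup.mk x * QuotientGroup.mk g
      have h3 := (QuotientGroup.eq_one_iff _).2 h2
      rw [QuotientGroup.mk_mul, QuotientGroup.mk_mul, QuotientGroup.mk_mul,
          QuotientGroup.mk_inv, QuotientGroup.mk_inv] at h3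
      calc (QuotientGroup.mk g : P ⧸ D) * QuotientGroup.mk x
          = 1 * (QuotientGroup.mk g * QuotientGroup.mk x) := by rw [one_mul]
        _ = _ := by rw [← h3]; group
  have c4 : Nat.card {n : N // x * n * x⁻¹ * (n : P)⁻¹ ∈ D} = Nat.card E := by
    refine Nat.card_congr
      { toFun := fun n => ⟨(n.1 : P), (hmemE _).2 ⟨n.1.2, n.2⟩⟩
        invFun := fun g => ⟨⟨g.1, ((hmemE _).1 g.2).1⟩, ((hmemE _).1 g.2).2⟩
        left_inv := fun n => rfl
        right_inv := fun g => rfl }
  rw [c4, c3]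
  have c5 := N.card_mul_index
  rw [hN] at c5
  have c6 := (commutator P).card_mul_index
  have hDpos : 0 < Nat.card D := Nat.card_pos
  have hCpos : 0 < Nat.card (commutator (P ⧸ D)) := Nat.card_pos
  obtain ⟨cC, hcC⟩ : ∃ c : ℕ, c = Nat.card ↥(A ⊓ Subgroup.centralizer
      ({(QuotientGroup.mk x : P ⧸ D)} : Set (P ⧸ D))) := ⟨_, rfl⟩
  rw [← hcC] at hLA ⊢
  have hidx : (commutator P).index = cC * p := by
    rw [← c5, c1, ← hLA, c2] at c6
    have h1 : Nat.card D * Nat.card (commutator (P ⧸ D)) * (commutator P).index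
        = Nat.card D * Nat.card (commutator (P ⧸ D)) * (cC * p) := by rw [c6]; ring
    exact Nat.eq_of_mul_eq_mul_left (Nat.mul_pos hDpos hCpos) h1
  rw [hidx]
  constructor
  · intro h
    have h1 : cC * p = p * p := by rw [h]; ring
    rw [Nat.eq_of_mul_eq_mul_right hp.pos h1, mul_comm]
  · intro h
    have h1 : Nat.card D * cC = Nat.card D * p := by rw [h]; ring
    rw [Nat.eq_of_mul_eq_mul_left hDpos h1]
    ring

/-- Let p be a prime, P a finite p-group and N a normal subgroup of P of index p. For x ∈ P write c(x) for the number of elements n of N whose commutator x n x⁻¹ n⁻¹ lies in the derived subgroup N' (so c(x)/#N' is the order of the centralizer of x acting on N/N'). Then [P : P'] = p² if and only if c(x) = p·#N' for every x ∈ P outside N, and also if and only if c(x) = p·#N' for some x ∈ P outside N. -/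
theorem result {P : Type*} [Group P] [Finite P] (p : ℕ) [Fact p.Prime] (hP : IsPGroup p P) (N : Subgroup P) [N.Normal] (hN : N.index = p) :
    ((commutator P).index = p ^ 2 ↔ ∀ x : P, x ∉ N →
        Nat.card {n : N // x * n * x⁻¹ * (n : P)⁻¹ ∈ (commutator N).map N.subtype} = p * Nat.card (commutator N)) ∧
    ((commutator P).index = p ^ 2 ↔ ∃ x : P, x ∉ N ∧
        Nat.card {n : N // x * n * x⁻¹ * (n : P)⁻¹ ∈ (commutator N).map N.subtype} = p * Nat.card (commutator N)) := by
  have hp : p.Prime := Fact.out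
  obtain ⟨x0, hx0⟩ : ∃ x : P, x ∉ N := by
    by_contra hcon
    push Not at hcon
    have : N = ⊤ := (Subgroup.eq_top_iff' N).2 hcon
    rw [this, Subgroup.index_top] at hN
    exact hp.one_lt.ne hN
  refine ⟨⟨fun h x hx => (key p hP N hN x hx).1 h, fun h => (key p hP N hN x0 hx0).2 (h x0 hx0)⟩,
    ⟨fun h => ⟨x0, hx0, (key p hP N hN x0 hx0).1 h⟩, ?_⟩⟩
  rintro ⟨x, hx, h⟩
  exact (key p hP N hN x hx).2 h

end Cfsg.Agent.S4586
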