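import Cfsg.Statements.S4593
import Cfsg.Agent.S0215
import Cfsg.Agent.Lib.Helper10.OrbitProd
import Cfsg.Agent.Lib.Helper10.PCore

set_option autoImplicit false
open Cfsg

namespace Cfsg.Agent.S4593

open Cfsg.Agent.Lib.Helper10

theorem aux {G Γ : Type*} [Group G] [Finite G] [Group Γ] [Finite Γ] (ι : G →* Γ)
    (hι : Function.Injective ι) (hn : ι.range.Normal) (a : Γ)
    (hdec : ∀ s : Γ, ∃ (g : G) (k : ℤ), s = ι g * a ^ k)
    (hC : ∀ c : Γ, (∀ g, c * ι g = ι g * c) → c = 1)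
    (hcore : Cfsg.pPrimeCore 2 G = ⊥) (P : Sylow 2 G)
    (hab : ∀ x ∈ P, ∀ y ∈ P, x * y = y * x)
    (ha2 : ∃ j : ℕ, orderOf a = 2 ^ j) (hfix : ∀ x ∈ P, a * ι x = ι x * a) : a ∈ ι.range := by
  by_contra haI
  haveI : Fact (Nat.Prime 2) := ⟨Nat.prime_two⟩
  obtain ⟨j, hj⟩ := ha2
  -- the 2-group generated by the image of P and a
  have hP2 : IsPGroup 2 ((P : Subgroup G).map ι) := P.2.map ι
  have hA2 : IsPGroup 2 (Subgroup.zpowers a) := by
    rw [IsPGroup.iff_card]
    exact ⟨j, by rw [Nat.card_zpowers, hj]⟩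
  have hnorm : Subgroup.zpowers a ≤ Subgroup.normalizer (((P : Subgroup G).map ι : Subgroup Γ) : Set Γ) := by
    rw [Subgroup.zpowers_le, Subgroup.mem_normalizer_iff]
    intro h
    constructor
    · rintro ⟨x, hx, rfl⟩
      exact ⟨x, hx, by rw [hfix x hx]; group⟩
    · rintro ⟨x, hx, hxe⟩
      refine ⟨x, hx, ?_⟩
      have h1 : h = a⁻¹ * (a * h * a⁻¹) * a := by group
      rw [h1, ← hxe, mul_assoc, ← hfix x hx]; group
  have hS0 : IsPGroup 2 (Subgroup.zpowers a ⊔ (P : Subgroup G).map ι : Subgroup Γ) :=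
    IsPGroup.to_sup_of_normal_right' hA2 hP2 hnorm
  obtain ⟨S, hS⟩ := hS0.exists_le_sylow
  have haS : a ∈ (S : Subgroup Γ) := hS (Subgroup.mem_sup_left (Subgroup.mem_zpowers a))
  have hPS : ∀ x ∈ P, ι x ∈ (S : Subgroup Γ) := fun x hx =>
    hS (Subgroup.mem_sup_right ⟨x, hx, rfl⟩)
  have hcomap : (S : Subgroup Γ).comap ι = (P : Subgroup G) := by
    apply P.is_maximal' (S.2.comap_of_injective ι hι)
    intro x hx
    exact hPS x hx
  have hSdec : ∀ s ∈ (S : Subgroup Γ), ∃ x ∈ P, ∃ k : ℤ, s = ι x * a ^ k := by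
    intro s hs
    obtain ⟨g, k, rfl⟩ := hdec s
    refine ⟨g, ?_, k, rfl⟩
    have h1 : ι g ∈ (S : Subgroup Γ) := by
      have := (S : Subgroup Γ).mul_mem hs ((S : Subgroup Γ).inv_mem ((S : Subgroup Γ).zpow_mem haS k))
      simpa using this
    have h2 : g ∈ (S : Subgroup Γ).comap ι := h1
    rw [hcomap] at h2
    exact h2
  have hSab : ∀ s ∈ (S : Subgroup Γ), ∀ t ∈ (S : Subgroup Γ), Commute s t := by
    intro s hs t ht
    obtain ⟨x, hx, k, rfl⟩ := hSdec s hs
    obtain ⟨y, hy, l, rfl⟩ := hSdec t ht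
    have h1 : Commute (ι x) (ι y) := by
      show ι x * ι y = ι y * ι x
      rw [← map_mul, ← map_mul, hab x hx y hy]
    have h2 : Commute (a ^ k) (ι y) := Commute.zpow_left (hfix y hy) k
    have h3 : Commute (ι x) (a ^ l) := (Commute.zpow_left (hfix x hx) l).symm
    have h4 : Commute (a ^ k) (a ^ l) := (Commute.refl a).zpow_zpow k l
    exact (h1.mul_right h3).mul_left (h2.mul_right h4)
  set N : Subgroup Γ := Subgroup.normalizer ((S : Subgroup Γ) : Set Γ) with hN
  have hSN : (S : Subgroup Γ) ≤ N := Subgroup.le_normalizer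
  have hNS : ∀ n ∈ N, ∀ s ∈ (S : Subgroup Γ), n * s * n⁻¹ ∈ (S : Subgroup Γ) := by
    intro n hn s hs
    exact (Subgroup.mem_normalizer_iff.1 hn s).1 hs
  obtain ⟨O, comm, hO, hOfix⟩ := exists_orbit_prod N a
    (fun n hn => hSab a haS _ (hNS n hn a haS))
  set ν : Γ := O.noncommProd id comm with hν
  have hνS : ν ∈ (S : Subgroup Γ) := by
    apply Subgroup.noncommProd_mem
    intro c hc
    obtain ⟨n, hn, rfl⟩ := (hO c).1 hc
    exact hNS n hn a haS
  -- the orbit has odd size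
  have hodd : Odd O.card := by
    have h1 := ncard_conj_dvd_relIndex N (S : Subgroup Γ) a hSN
      (fun s hs => (hSab s hs a haS))
    have h2 : {w | ∃ n ∈ N, w = n * a * n⁻¹} = (O : Set Γ) := by
      ext w; simp [hO]
    rw [h2, Set.ncard_coe_finset] at h1
    have h3 : (S : Subgroup Γ).relIndex N ∣ (S : Subgroup Γ).index :=
      ⟨N.index, (Subgroup.relIndex_mul_index hSN).symm⟩
    have h4 : ¬ 2 ∣ (S : Subgroup Γ).index := S.not_dvd_index
    rw [← Nat.not_even_iff_odd, even_iff_two_dvd]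
    intro h5
    exact h4 (h5.trans (h1.trans h3))
  -- image in the quotient
  have hνI : ν ∉ ι.range := by
    intro h
    apply haI
    have h1 : QuotientGroup.mk' ι.range ν = (QuotientGroup.mk' ι.range a) ^ O.card := by
      rw [hν, Finset.map_noncommProd]
      apply Finset.noncommProd_eq_pow_card
      intro w hw
      obtain ⟨n, _, rfl⟩ := (hO w).1 hw
      obtain ⟨g, k, rfl⟩ := hdec n
      simp only [id]
      rw [QuotientGroup.mk'_apply, QuotientGroup.mk'_apply, QuotientGroup.eq]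
      have h2 : (ι g * a ^ k * a * (ι g * a ^ k)⁻¹)⁻¹ * a = ι g * (a⁻¹ * (ι g)⁻¹ * a⁻¹⁻¹) := by
        have h3 : a ^ k * a * (a ^ k)⁻¹ = a := by
          rw [← zpow_add_one, ← zpow_neg, ← zpow_add]; simp
        have h4 : ι g * a ^ k * a * (ι g * a ^ k)⁻¹ = ι g * (a ^ k * a * (a ^ k)⁻¹) * (ι g)⁻¹ := by
          group
        rw [h4, h3]; group
      rw [h2]
      exact ι.range.mul_mem ⟨g, rfl⟩ (hn.conj_mem _ (ι.range.inv_mem ⟨g, rfl⟩) _)
    have h2 : QuotientGroup.mk' ι.range ν = 1 := by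
      rw [QuotientGroup.mk'_apply, QuotientGroup.eq_one_iff]; exact h
    rw [h2] at h1
    have h3 : (QuotientGroup.mk' ι.range a) ^ (2 ^ j) = 1 := by
      rw [← map_pow, ← hj, pow_orderOf_eq_one, map_one]
    have h4 : orderOf (QuotientGroup.mk' ι.range a) ∣ Nat.gcd O.card (2 ^ j) :=
      Nat.dvd_gcd (orderOf_dvd_of_pow_eq_one h1.symm) (orderOf_dvd_of_pow_eq_one h3)
    have h5 : Nat.gcd O.card (2 ^ j) = 1 := by
      apply Nat.Coprime.pow_right
      exact (Nat.coprime_two_right).2 hodd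
    rw [h5, Nat.dvd_one, orderOf_eq_one_iff, QuotientGroup.mk'_apply, QuotientGroup.eq_one_iff] at h4
    exact h4
  have hν1 : ν ≠ 1 := by
    intro h
    exact hνI (h ▸ ι.range.one_mem)
  obtain ⟨m, hm⟩ := S.2 ⟨ν, hνS⟩
  have hm' : ν ^ (2 ^ m) = 1 := by
    have := congrArg Subtype.val hm
    simpa using this
  obtain ⟨k, hk⟩ := exists_pow_orderOf_two ν m hm' hν1
  set γ : Γ := ν ^ k with hγ
  have hγS : γ ∈ (S : Subgroup Γ) := (S : Subgroup Γ).pow_mem hνS k
  have hγfix : ∀ n ∈ N, n * γ * n⁻¹ = γ := by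
    intro n hn
    rw [hγ, ← conj_pow, hOfix n hn]
  have hiso : ∀ g : Γ, g * γ * g⁻¹ ∈ S → g * γ * g⁻¹ = γ := by
    intro g hg
    have h1 : γ ∈ Subgroup.centralizer ((S : Subgroup Γ) : Set Γ) := by
      rw [Subgroup.mem_centralizer_iff]
      intro s hs
      exact hSab s hs γ hγS
    have h2 : g⁻¹⁻¹ * γ * g⁻¹ ∈ Subgroup.centralizer ((S : Subgroup Γ) : Set Γ) := by
      rw [inv_inv, Subgroup.mem_centralizer_iff]
      intro s hs
      exact hSab s hs _ hg
    obtain ⟨n, hn, hn2⟩ := S.conj_eq_normalizer_conj_of_mem_centralizer γ g⁻¹ h1 h2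
    rw [inv_inv] at hn2
    rw [hn2]
    have := hγfix n⁻¹ (N.inv_mem hn)
    rw [inv_inv] at this
    exact this
  obtain ⟨K, hKn, hKo, hK⟩ := Cfsg.Agent.S0215.result S γ hk hγS hiso
  -- K is trivial
  have hK1 : K = ⊥ := by
    have h1 : K.comap ι = ⊥ := by
      rw [eq_bot_iff, ← hcore]
      apply le_pPrimeCore (hKn.comap ι)
      have h2 : Nat.card (K.comap ι) ∣ Nat.card K := by
        have h3 : Nat.card (K.comap ι) = Nat.card ((K.comap ι).map ι) :=
          (Subgroup.card_map_of_injective hι).symm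
        rw [h3]
        exact Subgroup.card_dvd_of_le (Subgroup.map_comap_le ι K)
      have h4 : (Nat.card K).Coprime 2 := (Nat.coprime_two_right).2 hKo
      exact Nat.Coprime.coprime_dvd_left h2 h4
    rw [eq_bot_iff]
    intro c hc
    rw [Subgroup.mem_bot]
    apply hC
    intro g
    have h2 : c * ι g * c⁻¹ * (ι g)⁻¹ ∈ K := by
      have : c * ι g * c⁻¹ * (ι g)⁻¹ = c * (ι g * c⁻¹ * (ι g)⁻¹) := by group
      rw [this]
      exact K.mul_mem hc (hKn.conj_mem _ (K.inv_mem hc) _)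
    have h3 : c * ι g * c⁻¹ * (ι g)⁻¹ ∈ ι.range :=
      ι.range.mul_mem (hn.conj_mem _ ⟨g, rfl⟩ _) (ι.range.inv_mem ⟨g, rfl⟩)
    obtain ⟨y, hy⟩ := h3
    have h4 : y ∈ K.comap ι := by
      rw [Subgroup.mem_comap, hy]; exact h2
    rw [h1, Subgroup.mem_bot] at h4
    rw [h4, map_one] at hy
    have h5 := hy.symm
    rw [mul_inv_eq_one, mul_inv_eq_iff_eq_mul] at h5
    exact h5
  have hγ1 : γ = 1 := by
    apply hC
    intro g
    have := hK (ι g)
    rw [hK1, Subgroup.mem_bot, mul_inv_eq_one, mul_inv_eq_iff_eq_mul] at this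
    exact this
  rw [hγ1, orderOf_one] at hk
  omega

/-- Let G be a finite group with trivial centre and no nontrivial normal subgroup of odd order, whose Sylow 2-subgroups are abelian, and let P be a Sylow 2-subgroup. Every automorphism of G of 2-power order that fixes P elementwise is inner. -/
theorem result {G : Type*} [Group G] [Finite G] (hZ : Subgroup.center G = ⊥) (hcore : Cfsg.pPrimeCore 2 G = ⊥) (P : Sylow 2 G) (hab : IsMulCommutative (P : Subgroup G))
    (α : MulAut G) (h2 : ∃ j : ℕ, orderOf α = 2 ^ j) (hfix : ∀ x ∈ (P : Subgroup G), α x = x) :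
    ∃ g : G, ∀ x : G, α x = g * x * g⁻¹ := by
  classical
  have hinj : Function.Injective (MulAut.conj : G →* MulAut G) := by
    rw [injective_iff_map_eq_one]
    intro g hg
    have : g ∈ Subgroup.center G := by
      rw [Subgroup.mem_center_iff]
      intro x
      have h1 := DFunLike.congr_fun hg x
      simp only [MulAut.conj_apply, MulAut.one_apply] at h1
      rw [mul_inv_eq_iff_eq_mul] at h1
      exact h1.symm
    rw [hZ] at this
    exact Subgroup.mem_bot.1 this
  have hconj : ∀ (β : MulAut G) (g : G), β * MulAut.conj g * β⁻¹ = MulAut.conj (β g) := by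
    intro β g
    ext x
    simp [MulAut.mul_apply, MulAut.conj_apply]
  haveI hIn : (MulAut.conj : G →* MulAut G).range.Normal := by
    constructor
    rintro _ ⟨g, rfl⟩ β
    exact ⟨β g, (hconj β g).symm⟩
  set Γ : Subgroup (MulAut G) := (MulAut.conj : G →* MulAut G).range ⊔ Subgroup.zpowers α with hΓ
  have hle : ∀ g : G, MulAut.conj g ∈ Γ := fun g => Subgroup.mem_sup_left ⟨g, rfl⟩
  have hαΓ : α ∈ Γ := Subgroup.mem_sup_right (Subgroup.mem_zpowers α)
  let ι : G →* Γ := (MulAut.conj : G →* MulAut G).codRestrict Γ hle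
  have hιv : ∀ g, ((ι g : Γ) : MulAut G) = MulAut.conj g := fun _ => rfl
  have key : (⟨α, hαΓ⟩ : Γ) ∈ ι.range := by
    apply aux ι ?_ ?_ ⟨α, hαΓ⟩ ?_ ?_ hcore P ?_ ?_ ?_
    · intro x y hxy
      exact hinj (congrArg Subtype.val hxy)
    · constructor
      rintro _ ⟨g, rfl⟩ β
      exact ⟨(β : MulAut G) g, Subtype.ext (by simp [hιv, hconj])⟩
    · intro s
      have hs : (s : MulAut G) ∈ ((MulAut.conj : G →* MulAut G).range ⊔ Subgroup.zpowers α : Subgroup (MulAut G)) := s.2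
      rw [← SetLike.mem_coe, Subgroup.normal_mul] at hs
      obtain ⟨_, ⟨g, rfl⟩, _, ⟨k, rfl⟩, hgk⟩ := hs
      exact ⟨g, k, Subtype.ext (by simp [hιv, ← hgk])⟩
    · intro c hc
      apply Subtype.ext
      ext x
      have h1 := congrArg Subtype.val (hc x)
      simp only [Subgroup.coe_mul, hιv] at h1
      have h2 : (c : MulAut G) * MulAut.conj x * (c : MulAut G)⁻¹ = MulAut.conj x := by
        rw [h1]; group
      rw [hconj] at h2
      simpa using hinj h2
    · intro x hx y hy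
      have := hab.is_comm.comm ⟨x, hx⟩ ⟨y, hy⟩
      exact congrArg Subtype.val this
    · obtain ⟨j, hj⟩ := h2
      exact ⟨j, by rw [← hj, ← Subgroup.orderOf_coe]⟩
    · intro x hx
      apply Subtype.ext
      simp only [Subgroup.coe_mul, hιv]
      have h1 := hconj α x
      rw [hfix x hx, mul_inv_eq_iff_eq_mul] at h1
      exact h1
  obtain ⟨g, hg⟩ := key
  refine ⟨g, fun x => ?_⟩
  have h1 : MulAut.conj g = α := congrArg Subtype.val hg
  rw [← h1]; rfl

end Cfsg.Agent.S4593
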