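import Cfsg.Statements.S4602
import Mathlib
import Cfsg.Agent.Lib.Helper5.PSolv
import Cfsg.Agent.Lib.Helper1.CoprimeSylow
-- import your own Cfsg.Agent.* helpers here

set_option autoImplicit false
open Cfsg

namespace Cfsg.Agent.S4602

/-- Let G be a finite p-solvable group and q a prime different from p. Some Sylow p-subgroup of G normalizes some Sylow q-subgroup of G if and only if q does not divide the order of G/O_{p'}(G), the quotient by the largest normal subgroup of order prime to p. -/
theorem result {G : Type*} [Group G] [Finite G] (p q : ℕ) [Fact p.Prime] [Fact q.Prime] (hpq : p ≠ q) (hsolv : Cfsg.IsPSolvable p G) :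
    (∃ (P : Sylow p G) (Q : Sylow q G), (P : Subgroup G) ≤ Subgroup.normalizer ((Q : Subgroup G) : Set G)) ↔ ¬ q ∣ (Cfsg.pPrimeCore p G).index := by
  have hp : p.Prime := Fact.out
  have hq : q.Prime := Fact.out
  obtain ⟨K, hK⟩ : ∃ K, K = Cfsg.pPrimeCore p G := ⟨_, rfl⟩
  have hKn : K.Normal := by rw [hK]; infer_instance
  rw [← hK]
  constructor
  · rintro ⟨P, Q, hPQ⟩
    have hQK : (Q : Subgroup G) ≤ K := by
      let π := QuotientGroup.mk' K
      have hπ : Function.Surjective π := QuotientGroup.mk'_surjective K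
      have hsol' : Cfsg.IsPSolvable p (G ⧸ K) :=
        Cfsg.Agent.Lib.Helper5.isPSolvable_of_surjective π hπ hsolv
      have hO : Cfsg.pPrimeCore p (G ⧸ K) = ⊥ := by
        subst hK
        exact Cfsg.Agent.Lib.Helper5.pPrimeCore_quot_pPrimeCore
      have hC := Cfsg.Agent.Lib.Helper5.centralizer_pCore_le hsol' hO
      obtain ⟨R, hR⟩ : ∃ R, R = Cfsg.pCore p (G ⧸ K) := ⟨_, rfl⟩
      rw [← hR] at hC
      have hRn : R.Normal := by rw [hR]; infer_instance
      have hRp : IsPGroup p R := by rw [hR]; exact Cfsg.Agent.Lib.Helper5.pCore_isPGroup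
      have hRP : R ≤ (P : Subgroup G).map π := by
        have := Cfsg.Agent.Lib.Helper5.pCore_le_sylow (P.mapSurjective hπ)
        rw [← hR] at this
        exact this
      have hQq : IsPGroup q ((Q : Subgroup G).map π) := Q.2.map π
      have hdisj : R ⊓ (Q : Subgroup G).map π = ⊥ :=
        disjoint_iff.mp (IsPGroup.disjoint_of_ne p q hpq R _ hRp hQq)
      have hcen : (Q : Subgroup G).map π ≤ Subgroup.centralizer (R : Set (G ⧸ K)) := by
        rintro _ ⟨y, hy, rfl⟩
        rw [Subgroup.mem_centralizer_iff]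
        intro r hr
        obtain ⟨x, hx, rfl⟩ := hRP hr
        have h1 : π x * π y * (π x)⁻¹ * (π y)⁻¹ ∈ R ⊓ (Q : Subgroup G).map π := by
          constructor
          · have h2 := hRn.conj_mem _ (R.inv_mem hr) (π y)
            have h3 := R.mul_mem hr h2
            have e : π x * (π y * (π x)⁻¹ * (π y)⁻¹) = π x * π y * (π x)⁻¹ * (π y)⁻¹ := by group
            rwa [e] at h3
          · refine ⟨x * y * x⁻¹ * y⁻¹, ?_, by simp⟩
            have h4 := (Subgroup.mem_normalizer_iff.mp (hPQ hx) y).mp hy
            exact (Q : Subgroup G).mul_mem h4 ((Q : Subgroup G).inv_mem hy)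
        rw [hdisj, Subgroup.mem_bot] at h1
        calc π x * π y = (π x * π y * (π x)⁻¹ * (π y)⁻¹) * (π y * π x) := by group
          _ = π y * π x := by rw [h1, one_mul]
      have hbot : (Q : Subgroup G).map π ≤ ⊥ := by
        rw [← hdisj]
        exact le_inf (hcen.trans hC) le_rfl
      intro y hy
      have h5 := hbot ⟨y, hy, rfl⟩
      rw [Subgroup.mem_bot] at h5
      exact (QuotientGroup.eq_one_iff y).mp h5
    intro hdvd
    exact Q.not_dvd_index (hdvd.trans (Subgroup.index_dvd_of_le hQK))
  · intro hnd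
    obtain ⟨P⟩ : Nonempty (Sylow p G) := inferInstance
    have hAK : (P : Subgroup G) ≤ Subgroup.normalizer (K : Set G) := by
      rw [Subgroup.normalizer_eq_top_iff.mpr hKn]; exact le_top
    have hcop : (Nat.card (P : Subgroup G)).Coprime (Nat.card K) := by
      obtain ⟨k, hk⟩ := IsPGroup.iff_card.mp P.2
      rw [hk, hK]
      exact (Nat.Coprime.pow_right k Cfsg.Agent.Lib.Helper5.pPrimeCore_coprime).symm
    have hnil : Group.IsNilpotent (P : Subgroup G) := P.2.isNilpotent
    obtain ⟨⟨Q0, hQ0⟩, -⟩ := Cfsg.Agent.Lib.Helper1.invariant_sylow (P : Subgroup G) K hAK hcop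
      (Or.inl inferInstance) q
    have hidx : ¬ q ∣ ((Q0 : Subgroup K).map K.subtype).index := by
      rw [Subgroup.index_map_subtype]
      intro h
      rcases hq.dvd_mul.mp h with h | h
      · exact Q0.not_dvd_index h
      · exact hnd h
    exact ⟨P, (Q0.2.map K.subtype).toSylow hidx, hQ0⟩

end Cfsg.Agent.S4602
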