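import Cfsg.Statements.S4601
import Mathlib
import Cfsg.Agent.S4602
import Cfsg.Agent.Lib.Helper1.ClassSize
-- import your own Cfsg.Agent.* helpers here

set_option autoImplicit false
open Cfsg

namespace Cfsg.Agent.S4601

universe u

/-- a subgroup of index prime to `p` contains a Sylow `p`-subgroup. -/
theorem exists_sylow_le {G : Type*} [Group G] [Finite G] (p : ℕ) [Fact p.Prime] (C : Subgroup G)
    (hC : ¬ p ∣ C.index) : ∃ S : Sylow p G, (S : Subgroup G) ≤ C := by
  have hp : p.Prime := Fact.out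
  obtain ⟨S0⟩ : Nonempty (Sylow p C) := inferInstance
  have hidx : ¬ p ∣ ((S0 : Subgroup C).map C.subtype).index := by
    rw [Subgroup.index_map_subtype]
    intro h
    rcases hp.dvd_mul.mp h with h | h
    · exact S0.not_dvd_index h
    · exact hC h
  exact ⟨(S0.2.map C.subtype).toSylow hidx, Subgroup.map_subtype_le _⟩

theorem psolv_case {G : Type*} [Group G] [Finite G] (p q : ℕ) [Fact p.Prime] [Fact q.Prime] (hpq : p ≠ q)
    (hsolv : Cfsg.IsPSolvable p G)
    (h : ∀ y : G, (∃ k : ℕ, orderOf y = q ^ k) → ¬ p ∣ (Subgroup.centralizer ({y} : Set G)).index) :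
    ∃ (P : Sylow p G) (Q : Sylow q G), (P : Subgroup G) ≤ Subgroup.normalizer ((Q : Subgroup G) : Set G) := by
  have hp : p.Prime := Fact.out
  have hq : q.Prime := Fact.out
  rw [Cfsg.Agent.S4602.result p q hpq hsolv]
  obtain ⟨K, hK⟩ : ∃ K, K = Cfsg.pPrimeCore p G := ⟨_, rfl⟩
  have hKn : K.Normal := by rw [hK]; infer_instance
  rw [← hK]
  obtain ⟨Q⟩ : Nonempty (Sylow q G) := inferInstance
  suffices hQK : (Q : Subgroup G) ≤ K from
    fun hdvd => Q.not_dvd_index (hdvd.trans (Subgroup.index_dvd_of_le hQK))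
  intro y hy
  obtain ⟨k, hk⟩ := (IsPGroup.iff_orderOf.mp Q.2) ⟨y, hy⟩
  rw [Subgroup.orderOf_mk] at hk
  obtain ⟨S, hS⟩ := exists_sylow_le p _ (h y ⟨k, hk⟩)
  let π := QuotientGroup.mk' K
  have hπ : Function.Surjective π := QuotientGroup.mk'_surjective K
  have hsol' : Cfsg.IsPSolvable p (G ⧸ K) :=
    Cfsg.Agent.Lib.Helper5.isPSolvable_of_surjective π hπ hsolv
  have hO : Cfsg.pPrimeCore p (G ⧸ K) = ⊥ := by
    subst hK
    exact Cfsg.Agent.Lib.Helper5.pPrimeCore_quot_pPrimeCore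
  have hC := Cfsg.Agent.Lib.Helper5.centralizer_pCore_le hsol' hO
  have hRp : IsPGroup p (Cfsg.pCore p (G ⧸ K)) := Cfsg.Agent.Lib.Helper5.pCore_isPGroup
  have hRS : Cfsg.pCore p (G ⧸ K) ≤ (S : Subgroup G).map π :=
    Cfsg.Agent.Lib.Helper5.pCore_le_sylow (S.mapSurjective hπ)
  have hyR : π y ∈ Cfsg.pCore p (G ⧸ K) := by
    apply hC
    rw [Subgroup.mem_centralizer_iff]
    intro r hr
    obtain ⟨x, hx, rfl⟩ := hRS hr
    have := Subgroup.mem_centralizer_singleton_iff.mp (hS hx)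
    rw [← map_mul, ← map_mul, this]
  obtain ⟨a, ha⟩ := hRp ⟨π y, hyR⟩
  have ha' : (π y) ^ (p ^ a) = 1 := congrArg Subtype.val ha
  have hb' : (π y) ^ (q ^ k) = 1 := by rw [← map_pow, ← hk, pow_orderOf_eq_one, map_one]
  have h1 : orderOf (π y) ∣ Nat.gcd (p ^ a) (q ^ k) :=
    Nat.dvd_gcd (orderOf_dvd_of_pow_eq_one ha') (orderOf_dvd_of_pow_eq_one hb')
  have hco : Nat.Coprime (p ^ a) (q ^ k) := Nat.Coprime.pow a k ((Nat.coprime_primes hp hq).mpr hpq)
  rw [hco, Nat.dvd_one, orderOf_eq_one_iff] at h1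
  exact (QuotientGroup.eq_one_iff y).mp h1

/-- the class size hypothesis passes to quotients. -/
theorem hyp_quot {G : Type*} [Group G] [Finite G] (p q : ℕ) [Fact p.Prime] [Fact q.Prime]
    (h : ∀ y : G, (∃ k : ℕ, orderOf y = q ^ k) → ¬ p ∣ (Subgroup.centralizer ({y} : Set G)).index)
    (N : Subgroup G) [N.Normal] :
    ∀ y : G ⧸ N, (∃ k : ℕ, orderOf y = q ^ k) → ¬ p ∣ (Subgroup.centralizer ({y} : Set (G ⧸ N))).index := by
  rintro y ⟨k, hk⟩
  have hπ : Function.Surjective (QuotientGroup.mk' N) := QuotientGroup.mk'_surjective N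
  have hyp : IsPGroup q (Subgroup.zpowers y) := by
    apply IsPGroup.of_card (n := k)
    rw [Nat.card_zpowers, hk]
  obtain ⟨Qb, hQb⟩ := hyp.exists_le_sylow
  obtain ⟨Q, rfl⟩ := Sylow.mapSurjective_surjective hπ q Qb
  obtain ⟨x, hx, rfl⟩ := hQb (Subgroup.mem_zpowers y)
  obtain ⟨j, hj⟩ := (IsPGroup.iff_orderOf.mp Q.2) ⟨x, hx⟩
  rw [Subgroup.orderOf_mk] at hj
  intro hdvd
  exact h x ⟨j, hj⟩ (hdvd.trans (Cfsg.Agent.Lib.Helper1.index_centralizer_map_dvd _ hπ x))

theorem qprime_step {G : Type*} [Group G] [Finite G] (p q : ℕ) [Fact p.Prime] [Fact q.Prime] (hpq : p ≠ q)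
    (h : ∀ y : G, (∃ k : ℕ, orderOf y = q ^ k) → ¬ p ∣ (Subgroup.centralizer ({y} : Set G)).index)
    (N : Subgroup G) [hNn : N.Normal] (hN : (Nat.card N).Coprime q)
    (P : Sylow p G) (Q : Sylow q G)
    (hPM : (P : Subgroup G) ≤ Subgroup.normalizer (((Q : Subgroup G) ⊔ N : Subgroup G) : Set G)) :
    ∃ (P' : Sylow p G) (Q' : Sylow q G),
      (P' : Subgroup G) ≤ Subgroup.normalizer ((Q' : Subgroup G) : Set G) := by
  have hp : p.Prime := Fact.out
  have hq : q.Prime := Fact.out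
  obtain ⟨M, hM⟩ : ∃ M, M = (Q : Subgroup G) ⊔ N := ⟨_, rfl⟩
  rw [← hM] at hPM
  have hQM : (Q : Subgroup G) ≤ M := hM ▸ le_sup_left
  have hNM : N ≤ M := hM ▸ le_sup_right
  have hnormN : ∀ A : Subgroup G, A ≤ Subgroup.normalizer (N : Set G) := fun A => by
    rw [Subgroup.normalizer_eq_top_iff.mpr hNn]; exact le_top
  have hcopQ : (Nat.card (Q : Subgroup G)).Coprime (Nat.card N) := by
    obtain ⟨k, hk⟩ := IsPGroup.iff_card.mp Q.2
    rw [hk]; exact (Nat.Coprime.pow_right k hN).symm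
  have hnilQ : Group.IsNilpotent (Q : Subgroup G) := Q.2.isNilpotent
  obtain ⟨⟨S, hS⟩, -⟩ := Cfsg.Agent.Lib.Helper1.invariant_sylow (Q : Subgroup G) N (hnormN _) hcopQ
    (Or.inl inferInstance) p
  have hcent : ∀ y ∈ (Q : Subgroup G), ∀ s ∈ (S : Subgroup N), (s : G) * y = y * s := by
    intro y hy s hs
    obtain ⟨k, hk⟩ := (IsPGroup.iff_orderOf.mp Q.2) ⟨y, hy⟩
    rw [Subgroup.orderOf_mk] at hk
    have hidx := h y ⟨k, hk⟩
    obtain ⟨C, hC⟩ : ∃ C, C = Subgroup.centralizer ({y} : Set G) := ⟨_, rfl⟩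
    rw [← hC] at hidx
    have hrel : ¬ p ∣ (C.subgroupOf N).index := fun hd =>
      hidx (hd.trans (Cfsg.Agent.Lib.Helper4.relIndex_dvd_index_of_normal_right C N))
    obtain ⟨S₁, hS₁⟩ := exists_sylow_le p (C.subgroupOf N) hrel
    have hS₁c : ∀ t ∈ (S₁ : Subgroup N), (t : G) * y = y * t := by
      intro t ht
      have h1 : (t : G) ∈ C := hS₁ ht
      rw [hC] at h1
      exact Subgroup.mem_centralizer_singleton_iff.mp h1
    have hAy : Subgroup.zpowers y ≤ (Q : Subgroup G) := Subgroup.zpowers_le.mpr hy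
    have hcopA : (Nat.card (Subgroup.zpowers y)).Coprime (Nat.card N) :=
      Nat.Coprime.coprime_dvd_left (Subgroup.card_dvd_of_le hAy) hcopQ
    obtain ⟨-, hconj⟩ := Cfsg.Agent.Lib.Helper1.invariant_sylow (Subgroup.zpowers y) N (hnormN _) hcopA
      (Or.inl inferInstance) p
    have h1 : Subgroup.zpowers y ≤
        Subgroup.normalizer (((S₁ : Subgroup N).map N.subtype : Subgroup G) : Set G) := by
      rw [Subgroup.le_normalizer_iff]
      rintro a ha _ ⟨t, ht, rfl⟩
      obtain ⟨j, rfl⟩ := Subgroup.mem_zpowers_iff.mp ha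
      have hc : Commute (y ^ j) (t : G) := (Commute.zpow_left (hS₁c t ht).symm j)
      refine ⟨t, ht, ?_⟩
      show (t : G) = y ^ j * t * (y ^ j)⁻¹
      rw [hc.eq, mul_inv_cancel_right]
    have h2 : Subgroup.zpowers y ≤
        Subgroup.normalizer (((S : Subgroup N).map N.subtype : Subgroup G) : Set G) := hAy.trans hS
    obtain ⟨c, hc, hcS⟩ := hconj S₁ S h1 h2
    have hs' : s ∈ ((MulAut.conj c • S₁ : Sylow p N) : Subgroup N) := hcS ▸ hs
    rw [Sylow.pointwise_smul_def, Subgroup.mem_pointwise_smul_iff_inv_smul_mem] at hs'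
    have hs'' : c⁻¹ * s * c ∈ (S₁ : Subgroup N) := by
      simpa [MulAut.smul_def, MulAut.conj_inv_apply] using hs'
    have e1 := hS₁c _ hs''
    have e2 : y * (c : G) = c * y :=
      Subgroup.mem_centralizer_iff.mp hc y (Subgroup.mem_zpowers y)
    have e3 : Commute ((c : G)) y := e2.symm
    have e4 : Commute (((c⁻¹ * s * c : N) : G)) y := e1
    have e5 : (s : G) = c * ((c⁻¹ * s * c : N) : G) * (c : G)⁻¹ := by
      push_cast; group
    rw [e5]
    exact ((e3.mul_left e4).mul_left e3.inv_left).eq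
  have hcardSyl : ¬ p ∣ Nat.card (Sylow q M) := by
    rw [(Q.subtype hQM).card_eq_index_normalizer]
    obtain ⟨S', hS'⟩ : ∃ S', S' = (S : Subgroup N).map N.subtype := ⟨_, rfl⟩
    have hS'M : (S'.subgroupOf M) ≤ Subgroup.normalizer (((Q.subtype hQM : Sylow q M) : Subgroup M) : Set M) := by
      rw [Subgroup.le_normalizer_iff]
      intro a ha t ht
      have ha' : (a : G) ∈ S' := ha
      rw [hS'] at ha'
      obtain ⟨s, hs, hsa⟩ := ha'
      have ht' : (t : G) ∈ (Q : Subgroup G) := ht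
      have hc := hcent t ht' s hs
      have : a * t * a⁻¹ = t := by
        apply Subtype.ext
        have hsa' : (s : G) = a := hsa
        push_cast
        rw [← hsa', hc, mul_inv_cancel_right]
      rw [this]; exact ht
    intro hd
    have hd2 : p ∣ S'.relIndex M := hd.trans (Subgroup.index_dvd_of_le hS'M)
    have h3 := Subgroup.relIndex_mul_relIndex S' N M (hS' ▸ Subgroup.map_subtype_le _) hNM
    rw [← h3] at hd2
    rcases hp.dvd_mul.mp hd2 with h4 | h4
    · have h5 : S'.relIndex N = (S : Subgroup N).index := by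
        rw [hS']
        change (Subgroup.comap N.subtype ((S : Subgroup N).map N.subtype)).index = _
        rw [Subgroup.comap_map_eq_self_of_injective N.subtype_injective]
      rw [h5] at h4
      exact S.not_dvd_index h4
    · rw [hM, Subgroup.relIndex_sup_right] at h4
      have h5 := h4.trans (Subgroup.relIndex_dvd_card N (Q : Subgroup G))
      obtain ⟨b, hb⟩ := IsPGroup.iff_card.mp Q.2
      rw [hb] at h5
      exact hpq ((Nat.prime_dvd_prime_iff_eq hp hq).mp (hp.dvd_of_dvd_pow h5))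
  let _ : MulAction (P : Subgroup G) (Sylow q M) :=
    MulAction.compHom (Sylow q M) (Cfsg.Agent.Lib.Helper1.conjHom (P : Subgroup G) M hPM)
  obtain ⟨Q', hQ'⟩ := P.2.nonempty_fixed_point_of_prime_not_dvd_card (Sylow q M) hcardSyl
  have hPQ' := Cfsg.Agent.Lib.Helper1.le_normalizer_of_conjHom_smul_eq (P : Subgroup G) M hPM Q'
    (fun a => congrArg (fun R : Sylow q M => (R : Subgroup M)) (hQ' a))
  have hidx : ¬ q ∣ ((Q' : Subgroup M).map M.subtype).index := by
    rw [Subgroup.index_map_subtype]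
    intro hd
    rcases hq.dvd_mul.mp hd with hd | hd
    · exact Q'.not_dvd_index hd
    · exact Q.not_dvd_index (hd.trans (Subgroup.index_dvd_of_le hQM))
  exact ⟨P, (Q'.2.map M.subtype).toSylow hidx, hPQ'⟩

theorem qsolv_case (p q : ℕ) [Fact p.Prime] [Fact q.Prime] (hpq : p ≠ q) :
    ∀ (n : ℕ) (G : Type u) [Group G] [Finite G], Nat.card G = n → Cfsg.IsPSolvable q G →
      (∀ y : G, (∃ k : ℕ, orderOf y = q ^ k) → ¬ p ∣ (Subgroup.centralizer ({y} : Set G)).index) →
      ∃ (P : Sylow p G) (Q : Sylow q G),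
        (P : Subgroup G) ≤ Subgroup.normalizer ((Q : Subgroup G) : Set G) := by
  intro n
  induction n using Nat.strong_induction_on with
  | _ n ih =>
  intro G _ _ hn hsolv h
  have lift : ∀ (N : Subgroup G) [N.Normal], N ≠ ⊥ → ∃ (P : Sylow p G) (Q : Sylow q G),
      (P : Subgroup G) ≤ Subgroup.normalizer (((Q : Subgroup G) ⊔ N : Subgroup G) : Set G) := by
    intro N _ hN
    have hlt := Cfsg.Agent.Lib.Helper1.card_quotient_lt N hN
    have hπ : Function.Surjective (QuotientGroup.mk' N) := QuotientGroup.mk'_surjective N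
    obtain ⟨Pb, Qb, hb⟩ := ih _ (hn ▸ hlt) (G ⧸ N) rfl
      (Cfsg.Agent.Lib.Helper5.isPSolvable_of_surjective _ hπ hsolv) (hyp_quot p q h N)
    obtain ⟨P, rfl⟩ := Sylow.mapSurjective_surjective hπ p Pb
    obtain ⟨Q, rfl⟩ := Sylow.mapSurjective_surjective hπ q Qb
    refine ⟨P, Q, ?_⟩
    rw [Subgroup.le_normalizer_iff]
    intro x hx t ht
    have h1 : (QuotientGroup.mk' N) t ∈ (Q : Subgroup G).map (QuotientGroup.mk' N) := by
      have h0 : ((Q : Subgroup G) ⊔ N).map (QuotientGroup.mk' N) = (Q : Subgroup G).map (QuotientGroup.mk' N) := by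
        rw [Subgroup.map_sup, QuotientGroup.map_mk'_self, sup_bot_eq]
      exact h0 ▸ Subgroup.mem_map_of_mem _ ht
    have h2 := (Subgroup.le_normalizer_iff.mp hb) ((QuotientGroup.mk' N) x) ⟨x, hx, rfl⟩
      ((QuotientGroup.mk' N) t) h1
    obtain ⟨t', ht', he⟩ := h2
    have h3 : t'⁻¹ * (x * t * x⁻¹) ∈ N := by
      rw [← QuotientGroup.eq]
      simpa using he
    have h4 : x * t * x⁻¹ = t' * (t'⁻¹ * (x * t * x⁻¹)) := by group
    rw [h4]
    exact Subgroup.mul_mem _ ((le_sup_left : (Q : Subgroup G) ≤ _) ht') ((le_sup_right : N ≤ _) h3)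
  by_cases hK : Cfsg.pPrimeCore q G = ⊥
  · by_cases hR : Cfsg.pCore q G = ⊥
    · have hC := Cfsg.Agent.Lib.Helper5.centralizer_pCore_le hsolv hK
      rw [hR] at hC
      have htop : ∀ x : G, x = 1 := fun x => by
        have h1 : x ∈ (⊥ : Subgroup G) := hC (by
          rw [Subgroup.mem_centralizer_iff]
          intro y hy
          rw [Subgroup.mem_bot.mp hy]; simp)
        exact Subgroup.mem_bot.mp h1
      obtain ⟨P⟩ : Nonempty (Sylow p G) := inferInstance
      obtain ⟨Q⟩ : Nonempty (Sylow q G) := inferInstance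
      exact ⟨P, Q, fun x _ => by rw [htop x]; exact Subgroup.one_mem _⟩
    · obtain ⟨P, Q, hPQ⟩ := lift (Cfsg.pCore q G) hR
      refine ⟨P, Q, ?_⟩
      have h1 : (Q : Subgroup G) ⊔ Cfsg.pCore q G = Q :=
        sup_eq_left.mpr (Cfsg.Agent.Lib.Helper5.pCore_le_sylow Q)
      rwa [h1] at hPQ
  · obtain ⟨P, Q, hPQ⟩ := lift (Cfsg.pPrimeCore q G) hK
    exact qprime_step p q hpq h (Cfsg.pPrimeCore q G) Cfsg.Agent.Lib.Helper5.pPrimeCore_coprime P Q hPQ

/-- Let p and q be primes and G a finite group that is p-solvable or q-solvable, in which no q-element has conjugacy class size divisible by p. Then some Sylow p-subgroup of G normalizes some Sylow q-subgroup of G. -/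
theorem result {G : Type*} [Group G] [Finite G] (p q : ℕ) [Fact p.Prime] [Fact q.Prime] (hsolv : Cfsg.IsPSolvable p G ∨ Cfsg.IsPSolvable q G)
    (h : ∀ y : G, (∃ k : ℕ, orderOf y = q ^ k) → ¬ p ∣ (Subgroup.centralizer ({y} : Set G)).index) :
    ∃ (P : Sylow p G) (Q : Sylow q G), (P : Subgroup G) ≤ Subgroup.normalizer ((Q : Subgroup G) : Set G) := by
  by_cases hpq : p = q
  · subst hpq
    obtain ⟨P⟩ : Nonempty (Sylow p G) := inferInstance
    exact ⟨P, P, Subgroup.le_normalizer⟩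
  · rcases hsolv with hs | hs
    · exact psolv_case p q hpq hs h
    · exact qsolv_case p q hpq _ G rfl hs h

end Cfsg.Agent.S4601
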