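import Cfsg.Statements.S4604
import Cfsg.Agent.Lib.Helper2.RGen
import Cfsg.Agent.S0876
import Cfsg.Agent.Lib.Helper7.BlockHeight

set_option autoImplicit false
open Cfsg

namespace Cfsg.Agent.S4604

open Cfsg.Agent.Lib.Helper2

theorem list_sum_pow {p : ℕ} (hp : p.Prime) (n : ℕ) (l : List ℂ) (hl : ∀ z ∈ l, IsIntegral ℤ z) :
    IsIntegral ℤ l.sum ∧ ∃ r : ℂ, IsIntegral ℤ r ∧
      l.sum ^ p ^ n = (l.map (· ^ p ^ n)).sum + (p : ℂ) * r := by
  induction l with
  | nil =>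
    refine ⟨by simpa using isIntegral_zero, 0, isIntegral_zero, ?_⟩
    have : p ^ n ≠ 0 := (pow_pos hp.pos n).ne'
    rw [List.sum_nil, List.map_nil, List.sum_nil, zero_pow this, mul_zero, add_zero]
  | cons a l ih =>
    obtain ⟨h1, r, hr, h2⟩ := ih fun z hz => hl z (List.mem_cons_of_mem _ hz)
    have ha : IsIntegral ℤ a := hl a List.mem_cons_self
    refine ⟨by rw [List.sum_cons]; exact ha.add h1, ?_⟩
    obtain ⟨r1, hr1⟩ := exists_add_pow_prime_pow_eq hp (⟨a, ha⟩ : Cfsg.AlgInt) ⟨l.sum, h1⟩ n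
    have h3 := congrArg (fun w : Cfsg.AlgInt => (w : ℂ)) hr1
    have hcast : ((p : Cfsg.AlgInt) : ℂ) = (p : ℂ) := by simp
    simp only [Subalgebra.coe_add, Subalgebra.coe_pow, Subalgebra.coe_mul, hcast] at h3
    refine ⟨r + a * l.sum * r1, hr.add ((ha.mul h1).mul r1.2), ?_⟩
    rw [List.sum_cons, List.map_cons, List.sum_cons, h3, h2]
    ring

theorem char_pow_congr {G : Type*} [Group G] [Finite G] {p : ℕ} (hp : p.Prime) (n : ℕ)
    {χ : G → ℂ} (hχ : Cfsg.IsCharacter G χ) (g : G) :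
    ∃ r : ℂ, IsIntegral ℤ r ∧ χ g ^ p ^ n = χ (g ^ p ^ n) + (p : ℂ) * r := by
  obtain ⟨l, hl1, hl2⟩ := Cfsg.Agent.Lib.Helper7.exists_eigenvalues hχ g
  have hl : ∀ z ∈ l, IsIntegral ℤ z := by
    intro z hz
    apply IsIntegral.of_pow (orderOf_pos g)
    rw [hl1 z hz]; exact isIntegral_one
  obtain ⟨_, r, hr, h⟩ := list_sum_pow hp n l hl
  refine ⟨r, hr, ?_⟩
  have h1 := hl2 1
  have h2 := hl2 ((p ^ n : ℕ) : ℤ)
  simp only [zpow_one, zpow_natCast, List.map_id'] at h1 h2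
  rw [h1, h2]
  exact h

/-- Let G be a finite group, p a prime and p^a the p-part of the order of G. Let x, y ∈ G and let x′, y′ be their p-regular parts: x′ has order prime to p, commutes with x·x′⁻¹, and x·x′⁻¹ has p-power order (likewise for y). Then x′ and y′ are conjugate in G if and only if for every irreducible character χ of G the algebraic integer χ(x)^(p^a) − χ(y)^(p^a) is p times an algebraic integer. -/
theorem result {G : Type*} [Group G] [Finite G] (p : ℕ) [Fact p.Prime] (x y x' y' : G)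
    (hx : (∃ k : ℕ, orderOf (x * x'⁻¹) = p ^ k) ∧ Commute (x * x'⁻¹) x' ∧ ¬ p ∣ orderOf x')
    (hy : (∃ k : ℕ, orderOf (y * y'⁻¹) = p ^ k) ∧ Commute (y * y'⁻¹) y' ∧ ¬ p ∣ orderOf y') :
    IsConj x' y' ↔ ∀ χ : Cfsg.IrrCharacter G, ∃ γ : Cfsg.AlgInt,
      (χ : G → ℂ) x ^ (p ^ (Nat.card G).factorization p) - (χ : G → ℂ) y ^ (p ^ (Nat.card G).factorization p) = (p : ℂ) * (γ : ℂ) := by
  classical
  have hp : p.Prime := Fact.out
  set q := p ^ (Nat.card G).factorization p with hq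
  have hpart : ∀ z z' : G, (∃ k : ℕ, orderOf (z * z'⁻¹) = p ^ k) → Commute (z * z'⁻¹) z' →
      z ^ q = z' ^ q := by
    intro z z' ⟨k, hk⟩ hc
    have h1 : (z * z'⁻¹) ^ q = 1 := by
      apply orderOf_dvd_iff_pow_eq_one.1
      have h2 : p ^ k ∣ Nat.card G := hk ▸ orderOf_dvd_natCard _
      rw [hk, hq]
      exact pow_dvd_pow _ ((Nat.Prime.pow_dvd_iff_le_factorization hp Nat.card_pos.ne').1 h2)
    have h3 : z = (z * z'⁻¹) * z' := by group
    calc z ^ q = ((z * z'⁻¹) * z') ^ q := by rw [← h3]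
      _ = z' ^ q := by rw [hc.mul_pow, h1, one_mul]
  constructor
  · intro hc χ
    have hχ := IsIrrCharacter.isCharacter χ.2
    obtain ⟨r1, hr1, h1⟩ := char_pow_congr hp ((Nat.card G).factorization p) hχ x
    obtain ⟨r2, hr2, h2⟩ := char_pow_congr hp ((Nat.card G).factorization p) hχ y
    refine ⟨⟨r1 - r2, hr1.sub hr2⟩, ?_⟩
    rw [h1, h2, ← hq, hpart x x' hx.1 hx.2.1, hpart y y' hy.1 hy.2.1]
    have h3 : (χ : G → ℂ) (x' ^ q) = (χ : G → ℂ) (y' ^ q) := by
      obtain ⟨c, hc⟩ := isConj_iff.1 hc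
      rw [← hc, conj_pow]
      exact ((IsCharacter.isClassFunction hχ) _ c).symm
    rw [h3]
    ring
  · intro hall
    obtain ⟨M, hM⟩ := Cfsg.Agent.Lib.Helper7.exists_isPModular hp
    haveI := hM.2.1.isPrime
    have hxa : Cfsg.IsPPart p x (x * x'⁻¹) := ⟨x', by group, hx.2.1, hx.1, hx.2.2⟩
    have hyb : Cfsg.IsPPart p y (y * y'⁻¹) := ⟨y', by group, hy.2.1, hy.1, hy.2.2⟩
    have key := (Cfsg.Agent.S0876.result p M hM x y _ _ hxa hyb).2 ?_
    · have e1 : (x * x'⁻¹)⁻¹ * x = x' := by group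
      have e2 : (y * y'⁻¹)⁻¹ * y = y' := by group
      rwa [e1, e2] at key
    · intro χ
      have hχ := IsIrrCharacter.isCharacter χ.2
      obtain ⟨γ, hγ⟩ := hall χ
      let A : Cfsg.AlgInt := ⟨(χ : G → ℂ) x, Cfsg.Agent.Lib.Helper7.char_isIntegral hχ x⟩
      let B : Cfsg.AlgInt := ⟨(χ : G → ℂ) y, Cfsg.Agent.Lib.Helper7.char_isIntegral hχ y⟩
      obtain ⟨r, hr⟩ := exists_add_pow_prime_pow_eq hp (A - B) B ((Nat.card G).factorization p)
      have h1 : A ^ q - B ^ q = (p : Cfsg.AlgInt) * γ := by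
        apply Subtype.ext
        have hcast : ((p : Cfsg.AlgInt) : ℂ) = (p : ℂ) := by simp
        simp only [Subalgebra.coe_sub, Subalgebra.coe_pow, Subalgebra.coe_mul, hcast, A, B]
        exact hγ
      have h2 : (A - B) ^ q = (p : Cfsg.AlgInt) * (γ - (A - B) * B * r) := by
        rw [sub_add_cancel, ← hq] at hr
        have : (A - B) ^ q = A ^ q - B ^ q - (p : Cfsg.AlgInt) * ((A - B) * B * r) := by
          rw [hr]; ring
        rw [this, h1]; ring
      have h3 : (A - B) ^ q ∈ M := by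
        rw [h2]; exact M.mul_mem_right _ hM.2.2
      have h4 : A - B ∈ M := Ideal.IsPrime.mem_of_pow_mem inferInstance q h3
      have h5 := (Cfsg.Agent.Lib.Helper7.memLocalIdeal_coe_iff (M := M) (A - B)).2 h4
      simpa only [Subalgebra.coe_sub, A, B] using h5

end Cfsg.Agent.S4604
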