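import Cfsg.Statements.S4611
import Cfsg.Agent.Lib.Helper24.PrincipalKer
import Cfsg.Agent.Lib.Helper7.BlockKer
import Cfsg.Agent.Lib.Helper2.CharReg

set_option autoImplicit false
open Cfsg

namespace Cfsg.Agent.S4611

open Cfsg.Agent.Lib.Helper7 Cfsg.Agent.Lib.Helper24

theorem exists_irr_ne_one {Q : Type*} [Group Q] [Finite Q] [Nontrivial Q] :
    ∃ ψ : Cfsg.IrrCharacter Q, (ψ : Q → ℂ) ≠ fun _ => 1 := by
  classical
  haveI := Fintype.ofFinite Q
  haveI := Fintype.ofFinite (Cfsg.IrrCharacter Q)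
  by_contra hcon
  push Not at hcon
  obtain ⟨g, hg⟩ := exists_ne (1 : Q)
  have h1 := Cfsg.Agent.Lib.Helper2.sum_irr_one_mul g
  rw [if_neg hg] at h1
  have h2 : ∑ χ : Cfsg.IrrCharacter Q, (χ : Q → ℂ) 1 * (χ : Q → ℂ) g
      = (Fintype.card (Cfsg.IrrCharacter Q) : ℂ) := by
    simp [hcon]
  rw [h2] at h1
  have h3 : Fintype.card (Cfsg.IrrCharacter Q) = 0 := by exact_mod_cast h1
  have : IsEmpty (Cfsg.IrrCharacter Q) := Fintype.card_eq_zero_iff.1 h3
  exact this.elim ⟨_, isIrrCharacter_one⟩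


/-- Let G be a finite solvable group and π a nonempty set of primes, each dividing the order of G; fix for each p in π a maximal ideal M p of the algebraic integers containing p. Then the only irreducible character lying in the principal p-block for every p in π is the principal character if and only if G is generated by the subgroups O_{p'}(G), p in π (the largest normal subgroups of order prime to p). -/
theorem result {G : Type*} [Group G] [Finite G] [Group.IsSolvable G] (π : Set ℕ) (hπ : ∀ p ∈ π, p.Prime ∧ p ∣ Nat.card G) (hne : π.Nonempty) (M : ℕ → Ideal Cfsg.AlgInt) (hM : ∀ p ∈ π, Cfsg.IsPModular p (M p)) :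
    (∀ χ : Cfsg.IrrCharacter G, (∀ p ∈ π, χ ∈ Cfsg.principalBlock (M p) G) → (χ : G → ℂ) = fun _ => 1) ↔
      ⨆ p ∈ π, Cfsg.pPrimeCore p G = ⊤ := by
  classical
  have hmem : ∀ p ∈ π, ∀ χ : Cfsg.IrrCharacter G, χ ∈ Cfsg.principalBlock (M p) G ↔
      ∀ u ∈ Cfsg.pPrimeCore p G, (χ : G → ℂ) u = (χ : G → ℂ) 1 := by
    intro p hp χ
    haveI : Fact p.Prime := ⟨(hπ p hp).1⟩
    exact mem_principalBlock_iff_of_pConstrained (hM p hp) isPConstrained_of_isSolvable χ
  set K : Subgroup G := ⨆ p ∈ π, Cfsg.pPrimeCore p G with hK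
  have hKn : K.Normal := by
    rw [hK]
    exact Subgroup.biSup_normal π (fun p => Cfsg.pPrimeCore p G) (fun p _ => inferInstance)
  have hle : ∀ p ∈ π, Cfsg.pPrimeCore p G ≤ K := fun p hp =>
    le_iSup₂ (f := fun p (_ : p ∈ π) => Cfsg.pPrimeCore p G) p hp
  constructor
  · intro h
    by_contra hne
    haveI : Nontrivial (G ⧸ K) := by
      rw [QuotientGroup.nontrivial_iff]
      exact hne
    obtain ⟨ψ, hψ⟩ := exists_irr_ne_one (Q := G ⧸ K)
    have hirr : Cfsg.IsIrrCharacter G (fun g => (ψ : G ⧸ K → ℂ) (QuotientGroup.mk' K g)) :=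
      Cfsg.Agent.Lib.Helper25.isIrrCharacter_comp_surjective (QuotientGroup.mk' K)
        (QuotientGroup.mk'_surjective K) ψ.2
    have h1 := h ⟨_, hirr⟩ (by
      intro p hp
      rw [hmem p hp]
      intro u hu
      have : QuotientGroup.mk' K u = 1 := (QuotientGroup.eq_one_iff _).2 (hle p hp hu)
      simp only [this, map_one])
    apply hψ
    ext y
    obtain ⟨g, rfl⟩ := QuotientGroup.mk'_surjective K y
    exact congrFun h1 g
  · intro htop χ hχ
    obtain ⟨L, -, hL⟩ := exists_ker_subgroup (isCharacter_of_irr χ.2)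
    have h1 : K ≤ L := by
      rw [hK]
      apply iSup₂_le
      intro p hp u hu
      exact (hL u).2 ((hmem p hp χ).1 (hχ p hp) u hu)
    rw [htop] at h1
    have h2 : ∀ g, (χ : G → ℂ) g = (χ : G → ℂ) 1 := fun g => (hL g).1 (h1 (Subgroup.mem_top g))
    haveI := Fintype.ofFinite G
    have h3 := classInner_irr χ.2 (isIrrCharacter_one (G := G))
    by_cases h4 : (χ : G → ℂ) = fun _ => 1
    · exact h4
    · exfalso
      rw [if_neg h4, Cfsg.classInner] at h3
      have hG0 : (Nat.card G : ℂ) ≠ 0 := by exact_mod_cast Nat.card_pos.ne'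
      have h5 : ∑ g : G, (χ : G → ℂ) g * (starRingEnd ℂ) 1 = (Nat.card G : ℂ) * (χ : G → ℂ) 1 := by
        simp only [h2, map_one, mul_one, Finset.sum_const, Finset.card_univ, nsmul_eq_mul,
          Nat.card_eq_fintype_card]
      rw [h5, inv_mul_cancel_left₀ hG0] at h3
      exact irr_apply_one_ne_zero χ.2 h3

end Cfsg.Agent.S4611
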