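import Cfsg.Statements.S4620
import Mathlib
import Cfsg.Agent.Lib.Helper10.PCore
import Cfsg.Agent.Lib.Helper17.Core
import Cfsg.Agent.Lib.Helper14.SylowConj
-- import your own Cfsg.Agent.* helpers here

set_option autoImplicit false
open scoped Pointwise
open Cfsg

namespace Cfsg.Agent.S4620

open Cfsg.Agent.Lib

section aux
variable {H : Type*} [Group H] [Finite H] {p : ℕ} [Fact p.Prime]

/-- elementwise trivial-intersection property -/
def TI (S : Subgroup H) : Prop :=
  ∀ y x : H, x ∈ S → x ≠ 1 → y * x * y⁻¹ ∈ S → y ∈ Subgroup.normalizer (S : Set H)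

theorem ti_all (P : Sylow p H) (h : TI (P : Subgroup H)) (P' : Sylow p H) :
    TI (P' : Subgroup H) := by
  obtain ⟨g, rfl⟩ := MulAction.exists_smul_eq H P P'
  have key : ∀ z : H, z ∈ ((g • P : Sylow p H) : Subgroup H) ↔ g⁻¹ * z * g ∈ (P : Subgroup H) := by
    intro z
    rw [Sylow.coe_subgroup_smul, Subgroup.mem_pointwise_smul_iff_inv_smul_mem]
    simp [MulAut.smul_def]
  intro y x hx hx1 hyx
  rw [key] at hx hyx
  have h1 := h (g⁻¹ * y * g) (g⁻¹ * x * g) hx
    (by
      intro h0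
      apply hx1
      have : x = g * (g⁻¹ * x * g) * g⁻¹ := by group
      rw [this, h0]; group)
    (by convert hyx using 1; group)
  rw [Subgroup.mem_normalizer_iff] at h1 ⊢
  intro z
  rw [key, key, h1 (g⁻¹ * z * g)]
  have : g⁻¹ * y * g * (g⁻¹ * z * g) * (g⁻¹ * y * g)⁻¹ = g⁻¹ * (y * z * y⁻¹) * g := by group
  rw [this]

theorem exists_p_elt (hOp' : Cfsg.pPrimeCore p H = ⊥) (L : Subgroup H) (hL : L.IsSubnormal)
    (hL1 : L ≠ ⊥) : ∃ x ∈ L, orderOf x = p := by
  have hdvd : p ∣ Nat.card L := by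
    by_contra hnd
    have hc : (Nat.card L).Coprime p :=
      ((Nat.Prime.coprime_iff_not_dvd Fact.out).2 hnd).symm
    have := Helper10.le_pPrimeCore_of_isSubnormal p H L hL hc
    rw [hOp'] at this
    exact hL1 (le_bot_iff.1 this)
  obtain ⟨x, hx⟩ := exists_prime_orderOf_dvd_card' p hdvd
  exact ⟨x, x.2, by rwa [Subgroup.orderOf_coe]⟩

theorem isP_of_order {x : H} (hx : orderOf x = p) : IsPGroup p (Subgroup.zpowers x) :=
  Helper14.isPGroup_zpowers (k := 1) (by rw [pow_one, ← hx]; exact pow_orderOf_eq_one x)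

theorem ne_one_of_order {x : H} (hx : orderOf x = p) : x ≠ 1 := by
  rintro rfl
  rw [orderOf_one] at hx
  exact (Fact.out : p.Prime).one_lt.ne hx

theorem not_le_normalizer (hOp : Cfsg.pCore p H = ⊥) (hOp' : Cfsg.pPrimeCore p H = ⊥)
    (L : Subgroup H) (hL : L.IsSubnormal) (hL1 : L ≠ ⊥) (P' : Sylow p H) :
    ¬ L ≤ Subgroup.normalizer ((P' : Subgroup H) : Set H) := by
  intro hle
  obtain ⟨x, hxL, hxo⟩ := exists_p_elt hOp' L hL hL1
  have hxP : x ∈ (P' : Subgroup H) := by
    have h1 := (isP_of_order hxo).inf_normalizer_sylow P'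
    have hx' : x ∈ Subgroup.zpowers x ⊓ Subgroup.normalizer (P' : Set H) :=
      ⟨Subgroup.mem_zpowers x, hle hxL⟩
    rw [h1] at hx'
    exact hx'.2
  have hR : ((P' : Subgroup H) ⊓ L).IsSubnormal := by
    refine Subgroup.IsSubnormal.step _ L inf_le_right hL ?_
    rw [Subgroup.normal_subgroupOf_iff_le_normalizer inf_le_right]
    exact Helper17.le_normalizer_inf hle Subgroup.le_normalizer
  have hRp : IsPGroup p ((P' : Subgroup H) ⊓ L : Subgroup H) := P'.2.to_le inf_le_left
  have h2 := Helper17.subnormal_pgroup_le_pCore hR hRp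
  rw [hOp] at h2
  have hx1 : x = 1 := by simpa using h2 ⟨hxP, hxL⟩
  exact ne_one_of_order hxo hx1

theorem no_commuting (hTI : ∀ P' : Sylow p H, TI (P' : Subgroup H))
    (hOp : Cfsg.pCore p H = ⊥) (hOp' : Cfsg.pPrimeCore p H = ⊥)
    (K L : Subgroup H) (hK : K.IsSubnormal) (hK1 : K ≠ ⊥)
    (hL : L.IsSubnormal) (hL1 : L ≠ ⊥) (hc : ∀ k ∈ K, ∀ l ∈ L, l * k = k * l) : False := by
  obtain ⟨x, hxK, hxo⟩ := exists_p_elt hOp' K hK hK1
  obtain ⟨P', hP'⟩ := (isP_of_order hxo).exists_le_sylow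
  apply not_le_normalizer hOp hOp' L hL hL1 P'
  intro l hl
  apply hTI P' l x (hP' (Subgroup.mem_zpowers x)) (ne_one_of_order hxo)
  rw [hc x hxK l hl]
  simpa using hP' (Subgroup.mem_zpowers x)

theorem commute_of_disjoint {A B N : Subgroup H} (hA : A ≤ N) (hB : B ≤ N)
    (hAn : N ≤ Subgroup.normalizer (A : Set H)) (hBn : N ≤ Subgroup.normalizer (B : Set H))
    (hd : A ⊓ B = ⊥) : ∀ a ∈ A, ∀ b ∈ B, b * a = a * b := by
  intro a ha b hb
  have h1 : a * b * a⁻¹ * b⁻¹ ∈ A ⊓ B := by
    refine Subgroup.mem_inf.2 ⟨?_, ?_⟩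
    · have := A.mul_mem ha (Helper17.conj_mem_of_le_normalizer hAn (hB hb) (A.inv_mem ha))
      simpa [mul_assoc] using this
    · exact B.mul_mem (Helper17.conj_mem_of_le_normalizer hBn (hA ha) hb) (B.inv_mem hb)
  rw [hd, Subgroup.mem_bot] at h1
  have : a * b = (a * b * a⁻¹ * b⁻¹) * (b * a) := by group
  rw [this, h1, one_mul]

end aux

/-- Let H be a finite group with no nontrivial normal p-subgroup and no nontrivial normal subgroup of order prime to p, whose Sylow p-subgroup P is nontrivial and a trivial-intersection set (P meets its conjugates by elements outside N_H(P) trivially). Then H has a unique minimal normal subgroup N; N is non-abelian simple with trivial centralizer in H (so H embeds in Aut(N)), and a Sylow p-subgroup of N is again a nontrivial trivial-intersection set in N. -/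
theorem result {H : Type*} [Group H] [Finite H] (p : ℕ) [Fact p.Prime] (hOp : Cfsg.pCore p H = ⊥) (hOp' : Cfsg.pPrimeCore p H = ⊥) (P : Sylow p H) (hP1 : (P : Subgroup H) ≠ ⊥)
    (hTI : ∀ g : H, g ∉ Subgroup.normalizer ((P : Subgroup H) : Set H) → (P : Subgroup H) ⊓ (MulAut.conj g • (P : Subgroup H)) = ⊥) :
    ∃ N : Subgroup H, N.Normal ∧ N ≠ ⊥ ∧ (∀ K : Subgroup H, K.Normal → K ≠ ⊥ → N ≤ K) ∧
      IsSimpleGroup N ∧ ¬ IsMulCommutative N ∧ Subgroup.centralizer (N : Set H) = ⊥ ∧
      ∀ Q : Sylow p N, (Q : Subgroup N) ≠ ⊥ ∧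
        ∀ n : N, n ∉ Subgroup.normalizer ((Q : Subgroup N) : Set N) → (Q : Subgroup N) ⊓ (MulAut.conj n • (Q : Subgroup N)) = ⊥ := by
  classical
  have hTI0 : TI (P : Subgroup H) := by
    intro y x hx hx1 hyx
    by_contra hy
    have h1 := hTI y hy
    have h2 : y * x * y⁻¹ ∈ (P : Subgroup H) ⊓ (MulAut.conj y • (P : Subgroup H)) := by
      refine Subgroup.mem_inf.2 ⟨hyx, ?_⟩
      rw [Subgroup.mem_pointwise_smul_iff_inv_smul_mem]
      simpa [MulAut.smul_def, mul_assoc] using hx
    rw [h1, Subgroup.mem_bot] at h2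
    apply hx1
    have : x = y⁻¹ * (y * x * y⁻¹) * y := by group
    rw [this, h2]; group
  have hTIall := ti_all P hTI0
  have hD := no_commuting hTIall hOp hOp'
  have hHne : (⊤ : Subgroup H) ≠ ⊥ := by
    intro h
    apply hP1
    exact le_bot_iff.1 (h ▸ le_top)
  obtain ⟨N, ⟨hNn, hN1⟩, hNmin⟩ :=
    WellFounded.has_min (measure (fun J : Subgroup H => Nat.card J)).wf
      {J : Subgroup H | J.Normal ∧ J ≠ ⊥} ⟨⊤, inferInstance, hHne⟩
  have hNsub : N.IsSubnormal := hNn.isSubnormal
  have huniq : ∀ K : Subgroup H, K.Normal → K ≠ ⊥ → N ≤ K := by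
    intro K hK hK1
    by_cases hd : N ⊓ K = ⊥
    · exfalso
      refine hD N K hNsub hN1 hK.isSubnormal hK1 ?_
      intro k hk l hl
      exact (Subgroup.commute_of_normal_of_disjoint N K hNn hK (disjoint_iff.2 hd) k l hk hl).eq.symm
    · have hnorm : (N ⊓ K).Normal := Subgroup.normal_inf_normal N K
      have h1 : ¬ Nat.card (N ⊓ K : Subgroup H) < Nat.card N := hNmin (N ⊓ K) ⟨hnorm, hd⟩
      have h2 : N ⊓ K = N := Subgroup.eq_of_le_of_card_ge inf_le_left (not_lt.1 h1)
      exact h2 ▸ inf_le_right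
  have hcent : Subgroup.centralizer (N : Set H) = ⊥ := by
    by_contra hne
    have hCn : (Subgroup.centralizer (N : Set H)).Normal := inferInstance
    refine hD N _ hNsub hN1 hCn.isSubnormal hne ?_
    intro k hk l hl
    exact (Subgroup.mem_centralizer_iff.1 hl k hk).symm
  have hnc : ¬ IsMulCommutative N := by
    intro hc
    refine hD N N hNsub hN1 hNsub hN1 ?_
    intro k hk l hl
    have := hc.is_comm.comm (⟨l, hl⟩ : N) ⟨k, hk⟩
    exact congrArg Subtype.val this
  obtain ⟨J, ⟨hJN, hJn, hJ1⟩, hJmin⟩ :=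
    WellFounded.has_min (measure (fun J : Subgroup H => Nat.card J)).wf
      {J : Subgroup H | J ≤ N ∧ N ≤ Subgroup.normalizer (J : Set H) ∧ J ≠ ⊥}
      ⟨N, le_rfl, Subgroup.le_normalizer, hN1⟩
  have hsubn : ∀ T : Subgroup H, T ≤ N → N ≤ Subgroup.normalizer (T : Set H) → T.IsSubnormal := by
    intro T hT hTn
    exact Subgroup.IsSubnormal.step _ N hT hNsub
      ((Subgroup.normal_subgroupOf_iff_le_normalizer hT).2 hTn)
  have hJeq : J = N := by
    have hJnorm : J.Normal := by
      constructor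
      intro x hx h
      obtain ⟨J', hJ'⟩ : ∃ J', J' = J.map (MulAut.conj h).toMonoidHom := ⟨_, rfl⟩
      have hmem : ∀ z, z ∈ J' ↔ h⁻¹ * z * h ∈ J := by
        intro z; rw [hJ']; exact Helper17.mem_map_conj
      have hJ'N : J' ≤ N := by
        intro z hz
        have h1 := hNn.conj_mem _ (hJN ((hmem z).1 hz)) h
        have h2 : h * (h⁻¹ * z * h) * h⁻¹ = z := by group
        rwa [h2] at h1
      have hJ'n : N ≤ Subgroup.normalizer (J' : Set H) := by
        apply Helper17.le_normalizer_of_conj_mem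
        intro n hn z hz
        rw [hmem] at hz ⊢
        have h1 : h⁻¹ * n * h ∈ N := by
          have := hNn.conj_mem n hn h⁻¹
          simpa using this
        have h2 := Helper17.conj_mem_of_le_normalizer hJn h1 hz
        have h3 : h⁻¹ * n * h * (h⁻¹ * z * h) * (h⁻¹ * n * h)⁻¹ = h⁻¹ * (n * z * n⁻¹) * h := by group
        rwa [h3] at h2
      have hJ'1 : J' ≠ ⊥ := by
        intro h0
        apply hJ1
        rw [eq_bot_iff]
        intro z hz
        have h1 : h * z * h⁻¹ ∈ J' := by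
          rw [hmem]
          have h2 : h⁻¹ * (h * z * h⁻¹) * h = z := by group
          rwa [h2]
        rw [h0, Subgroup.mem_bot] at h1
        rw [Subgroup.mem_bot]
        have h2 : z = h⁻¹ * (h * z * h⁻¹) * h := by group
        rw [h2, h1]; group
      have hxJ' : h * x * h⁻¹ ∈ J' := by
        rw [hmem]
        have h2 : h⁻¹ * (h * x * h⁻¹) * h = x := by group
        rwa [h2]
      by_cases hd : J' ⊓ J = ⊥
      · exfalso
        exact hD J' J (hsubn J' hJ'N hJ'n) hJ'1 (hsubn J hJN hJn) hJ1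
          (commute_of_disjoint hJ'N hJN hJ'n hJn hd)
      · have h1 : ¬ Nat.card (J' ⊓ J : Subgroup H) < Nat.card J :=
          hJmin (J' ⊓ J) ⟨inf_le_left.trans hJ'N, Helper17.le_normalizer_inf hJ'n hJn, hd⟩
        have hcard : Nat.card J' = Nat.card J := by
          rw [hJ']; exact Helper17.card_map_conj J h
        have h2 : J' ⊓ J = J' :=
          Subgroup.eq_of_le_of_card_ge inf_le_left (by rw [hcard]; exact not_lt.1 h1)
        exact (h2 ▸ inf_le_right : J' ≤ J) hxJ'
    exact le_antisymm hJN (huniq J hJnorm hJ1)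
  have hsimple : IsSimpleGroup N := by
    have : Nontrivial N := (Subgroup.nontrivial_iff_ne_bot N).2 hN1
    refine { toNontrivial := inferInstance, eq_bot_or_eq_top_of_normal := fun T' hT' => ?_ }
    by_cases hT1 : T' = ⊥
    · left; exact hT1
    · right
      obtain ⟨T, hT⟩ : ∃ T, T = T'.map N.subtype := ⟨_, rfl⟩
      have hTN : T ≤ N := hT ▸ Subgroup.map_subtype_le T'
      have hTn : N ≤ Subgroup.normalizer (T : Set H) := by
        rw [← Subgroup.normal_subgroupOf_iff_le_normalizer hTN, hT]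
        have h0 : (Subgroup.map N.subtype T').subgroupOf N = T' :=
          Subgroup.comap_map_eq_self_of_injective N.subtype_injective T'
        rw [h0]
        exact hT'
      have hT1' : T ≠ ⊥ := by
        rw [hT]
        intro h0
        exact hT1 ((Subgroup.map_eq_bot_iff_of_injective _ N.subtype_injective).1 h0)
      have h1 : ¬ Nat.card T < Nat.card J := hJmin T ⟨hTN, hTn, hT1'⟩
      have hTeq : T = N := Subgroup.eq_of_le_of_card_ge hTN (by rw [← hJeq]; exact not_lt.1 h1)
      rw [eq_top_iff]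
      intro x _
      have hx : (x : H) ∈ T := hTeq ▸ x.2
      rw [hT] at hx
      obtain ⟨y, hy, hyx⟩ := hx
      have : y = x := Subtype.ext hyx
      exact this ▸ hy
  refine ⟨N, hNn, hN1, huniq, hsimple, hnc, hcent, ?_⟩
  intro Q
  have hQp : IsPGroup p ((Q : Subgroup N).map N.subtype) := Q.2.map _
  obtain ⟨P', hP'⟩ := hQp.exists_le_sylow
  have hQmem : ∀ n : N, n ∈ (Q : Subgroup N) ↔ (n : H) ∈ (P' : Subgroup H) := by
    have hle : (Q : Subgroup N) ≤ (P' : Subgroup H).subgroupOf N := fun n hn => hP' ⟨n, hn, rfl⟩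
    have hp : IsPGroup p ((P' : Subgroup H).subgroupOf N) := P'.2.comap_subtype
    have h1 := Q.3 hp hle
    intro n
    rw [← h1]
    exact Subgroup.mem_subgroupOf
  constructor
  · obtain ⟨x, hxN, hxo⟩ := exists_p_elt hOp' N hNsub hN1
    apply Sylow.ne_bot_of_dvd_card
    have := orderOf_dvd_natCard (⟨x, hxN⟩ : N)
    rwa [Subgroup.orderOf_mk, hxo] at this
  · intro n hn
    rw [eq_bot_iff]
    intro z hz
    obtain ⟨hz1, hz2⟩ := Subgroup.mem_inf.1 hz
    rw [Subgroup.mem_pointwise_smul_iff_inv_smul_mem] at hz2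
    have hz2' : n⁻¹ * z * n ∈ (Q : Subgroup N) := by
      simpa [MulAut.smul_def] using hz2
    by_contra hz0
    apply hn
    have h1 : (n : H) ∈ Subgroup.normalizer ((P' : Subgroup H) : Set H) := by
      refine hTIall P' n ((n⁻¹ * z * n : N) : H) ((hQmem _).1 hz2') ?_ ?_
      · intro h0
        apply hz0
        rw [Subgroup.mem_bot]
        have h2 : n⁻¹ * z * n = 1 := Subtype.ext h0
        have h3 : z = n * (n⁻¹ * z * n) * n⁻¹ := by group
        rw [h3, h2]; group
      · have h2 : (n : H) * ((n⁻¹ * z * n : N) : H) * (n : H)⁻¹ = (z : H) := by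
          push_cast; group
        rw [h2]
        exact (hQmem z).1 hz1
    rw [Subgroup.mem_normalizer_iff] at h1 ⊢
    intro w
    rw [hQmem, hQmem]
    exact h1 w

end Cfsg.Agent.S4620
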