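import Cfsg.Statements.S4702
-- import your own Cfsg.Agent.* helpers here
import Cfsg.Agent.Lib.Helper29.Sharp3

set_option autoImplicit false
open Cfsg

namespace Cfsg.Agent.S4702

open Cfsg.Agent.Lib.Helper29.Sharp3

theorem sl_iso (F : Type*) [Field F] [Finite F] [CharP F 2] :
    Nonempty (Matrix.ProjGenLinGroup (Fin 2) F ≃* Matrix.SpecialLinearGroup (Fin 2) F) := by
  have hinj : Function.Injective (Matrix.SpecialLinearGroup.toPGL (n := Fin 2) (R := F)) := by
    rw [← MonoidHom.ker_eq_bot_iff, Matrix.SpecialLinearGroup.toPGL_ker, eq_bot_iff]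
    intro A hA
    rw [Matrix.SpecialLinearGroup.mem_center_iff] at hA
    obtain ⟨r, hr, hrA⟩ := hA
    rw [Fintype.card_fin] at hr
    have h1 : (r - 1) ^ 2 = 0 := by
      have h2 : (2 : F) = 0 := CharP.cast_eq_zero F 2
      have : (r - 1) ^ 2 = r ^ 2 - 2 * r + 1 := by ring
      rw [this, hr, h2]; ring_nf
      exact h2
    have h3 : r = 1 := by
      have := pow_eq_zero_iff (two_ne_zero) |>.mp h1
      exact sub_eq_zero.mp this
    rw [Subgroup.mem_bot]
    apply Subtype.ext
    rw [← hrA, h3]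
    simp
  have hsurj : Function.Surjective (Matrix.SpecialLinearGroup.toPGL (n := Fin 2) (R := F)) := by
    intro g
    obtain ⟨x, hx⟩ := Matrix.ProjectiveSpecialLinearGroup.toPGL_surj_of_roots (n := Fin 2) (R := F) (by
      intro r
      haveI := Fintype.ofFinite F
      obtain ⟨k, hk⟩ := FiniteField.isSquare_of_char_two (F := F) (ringChar.eq F 2) (r : F)
      have hk0 : k ≠ 0 := by
        intro e
        rw [e, mul_zero] at hk
        exact r.ne_zero hk
      refine ⟨Units.mk0 k hk0, ?_⟩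
      ext
      rw [Fintype.card_fin, Units.val_pow_eq_pow_val, Units.val_mk0, hk, sq]) g
    obtain ⟨y, rfl⟩ := QuotientGroup.mk_surjective x
    exact ⟨y, hx⟩
  exact ⟨(MulEquiv.ofBijective _ ⟨hinj, hsurj⟩).symm⟩

/-- Let G be a triply transitive permutation group on a finite set of odd size m ≥ 3 in which only the identity fixes three or more points. Then m = 2^a + 1 for some a ≥ 1 and G is isomorphic to SL(2, 2^a). -/
theorem result {α : Type*} [Fintype α] [DecidableEq α] (hm : 3 ≤ Fintype.card α) (hodd : Odd (Fintype.card α)) (G : Subgroup (Equiv.Perm α)) (h3 : MulAction.IsMultiplyPretransitive G α 3) (hfix : ∀ g : G, 3 ≤ Nat.card (MulAction.fixedBy α g) → g = 1) : ∃ a : ℕ, 1 ≤ a ∧ Fintype.card α = 2 ^ a + 1 ∧ ∃ (F : Type) (_ : Field F) (_ : Fintype F), Fintype.card F = 2 ^ a ∧ Nonempty (G ≃* Matrix.SpecialLinearGroup (Fin 2) F) := by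
  have h : IsSharp3 G := by
    refine ⟨trans_of h3, ?_⟩
    intro g hg a b c hab hac hbc ha hb hc
    have h1 := hfix ⟨g, hg⟩ (by
      rw [Nat.card_coe_set_eq]
      have hsub : (({a, b, c} : Finset α) : Set α) ⊆ MulAction.fixedBy α (⟨g, hg⟩ : G) := by
        intro z hz
        simp only [Finset.coe_insert, Finset.coe_singleton, Set.mem_insert_iff, Set.mem_singleton_iff] at hz
        rcases hz with rfl | rfl | rfl
        · exact ha
        · exact hb
        · exact hc
      have h2 := Set.ncard_le_ncard hsub (Set.toFinite _)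
      rw [Set.ncard_coe_finset, Finset.card_eq_three.mpr ⟨a, b, c, hab, hac, hbc, rfl⟩] at h2
      exact h2)
    exact congrArg Subtype.val h1
  obtain ⟨f, hf, hcard, ⟨e⟩⟩ := main_even h hodd hm
  haveI : Fact (Nat.Prime 2) := ⟨Nat.prime_two⟩
  obtain ⟨e'⟩ := sl_iso (GaloisField 2 f)
  refine ⟨f, hf, hcard, GaloisField 2 f, inferInstance, Fintype.ofFinite _, ?_, ⟨e.trans e'⟩⟩
  rw [Fintype.card_eq_nat_card, GaloisField.card 2 f (by omega)]

end Cfsg.Agent.S4702
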