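import Cfsg.Statements.S4742
import Cfsg.Agent.Lib.Helper10.DefZero

set_option autoImplicit false
open Cfsg

namespace Cfsg.Agent.S4742

/-- Let p ≠ q be primes dividing the order of the finite group G, and suppose the centralizer of every non-identity p-element of G has order prime to q. Then either G has an irreducible character of p-defect zero, or for every non-identity q-element z of G there are conjugates g, h of z such that g h⁻¹ is a non-identity p-element. -/
theorem result {G : Type*} [Group G] [Finite G] (p q : ℕ) [Fact p.Prime] [Fact q.Prime] (hppq : p ≠ q) (hpG : p ∣ Nat.card G) (hqG : q ∣ Nat.card G) (hC : ∀ g : G, g ≠ 1 → (∃ k : ℕ, orderOf g = p ^ k) → ¬ q ∣ Nat.card ↥(Subgroup.centralizer ({g} : Set G))) : (∃ χ : Cfsg.IrrCharacter G, (Cfsg.charDegree (χ : G → ℂ)).factorization p = (Nat.card G).factorization p) ∨ ∀ z : G, z ≠ 1 → (∃ k : ℕ, orderOf z = q ^ k) → ∃ g h : G, IsConj z g ∧ IsConj z h ∧ g * h⁻¹ ≠ 1 ∧ ∃ k : ℕ, orderOf (g * h⁻¹) = p ^ k := by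
  have hp : p.Prime := Fact.out
  have hq : q.Prime := Fact.out
  by_cases hex : ∃ χ : Cfsg.IrrCharacter G,
      (Cfsg.charDegree (χ : G → ℂ)).factorization p = (Nat.card G).factorization p
  · exact Or.inl hex
  right
  intro z hz1 hzq
  by_contra hcon
  apply hex
  apply Cfsg.Agent.Lib.Helper10.exists_defect_zero_of_sep p z
  · intro h
    obtain ⟨u, hu, huz⟩ := Cfsg.Agent.Lib.Helper10.exists_orderOf_commute h
    have hu1 : u ≠ 1 := by
      rintro rfl
      rw [orderOf_one] at hu
      exact hp.one_lt.ne hu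
    apply hC u hu1 ⟨1, by rw [hu, pow_one]⟩
    have hmem : z ∈ Subgroup.centralizer ({u} : Set G) := by
      rw [Subgroup.mem_centralizer_singleton_iff]
      exact huz.symm
    have hdvd : orderOf z ∣ Nat.card (Subgroup.centralizer ({u} : Set G)) := by
      have := orderOf_dvd_natCard (⟨z, hmem⟩ : Subgroup.centralizer ({u} : Set G))
      rwa [Subgroup.orderOf_mk] at this
    obtain ⟨k, hk⟩ := hzq
    have hk0 : k ≠ 0 := by
      rintro rfl
      rw [pow_zero, orderOf_eq_one_iff] at hk
      exact hz1 hk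
    exact (dvd_pow_self q hk0).trans (hk ▸ hdvd)
  · intro g h hg hh hk
    by_contra hne
    exact hcon ⟨g, h, hg, hh, hne, hk⟩

end Cfsg.Agent.S4742
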