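import Cfsg.Statements.S4743
import Cfsg.Agent.Lib.Helper10.DefZero2

set_option autoImplicit false
open Cfsg

namespace Cfsg.Agent.S4743

/-- Let p ≠ q be primes dividing the order of the finite group G, suppose the centralizer of every non-identity p-element has order prime to q, and suppose G is p-solvable or q-solvable. Then G has an irreducible character of p-defect zero or an irreducible character of q-defect zero. -/
theorem result {G : Type*} [Group G] [Finite G] (p q : ℕ) [Fact p.Prime] [Fact q.Prime] (hppq : p ≠ q) (hpG : p ∣ Nat.card G) (hqG : q ∣ Nat.card G) (hC : ∀ g : G, g ≠ 1 → (∃ k : ℕ, orderOf g = p ^ k) → ¬ q ∣ Nat.card ↥(Subgroup.centralizer ({g} : Set G))) (hsolv : Cfsg.IsPSolvable p G ∨ Cfsg.IsPSolvable q G) : (∃ χ : Cfsg.IrrCharacter G, (Cfsg.charDegree (χ : G → ℂ)).factorization p = (Nat.card G).factorization p) ∨ (∃ χ : Cfsg.IrrCharacter G, (Cfsg.charDegree (χ : G → ℂ)).factorization q = (Nat.card G).factorization q) := by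
  have hp : p.Prime := Fact.out
  have hno : ∀ u v : G, orderOf u = p → orderOf v = q → ¬ Commute u v := by
    intro u v hu hv hc
    have hu1 : u ≠ 1 := by
      rintro rfl
      rw [orderOf_one] at hu
      exact hp.one_lt.ne hu
    apply hC u hu1 ⟨1, by rw [hu, pow_one]⟩
    have hmem : v ∈ Subgroup.centralizer ({u} : Set G) := by
      rw [Subgroup.mem_centralizer_singleton_iff]
      exact hc.symm
    have hdvd : orderOf v ∣ Nat.card (Subgroup.centralizer ({u} : Set G)) := by
      have := orderOf_dvd_natCard (⟨v, hmem⟩ : Subgroup.centralizer ({u} : Set G))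
      rwa [Subgroup.orderOf_mk] at this
    rwa [hv] at hdvd
  rcases hsolv with h | h
  · exact Cfsg.Agent.Lib.Helper10.defect_zero_of_pSolvable p q hppq hno hpG h
  · exact (Cfsg.Agent.Lib.Helper10.defect_zero_of_pSolvable q p hppq.symm
      (fun u v hu hv hc => hno v u hv hu hc.symm) hqG h).symm

end Cfsg.Agent.S4743
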