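import Cfsg.Statements.S4744
import Cfsg.Agent.Lib.Helper10.DefZero

set_option autoImplicit false
open Cfsg

namespace Cfsg.Agent.S4744

/-- Let p be an odd prime and G a finite group of even order divisible by p in which the centralizer of every non-identity p-element has odd order. Then either G has an irreducible character of p-defect zero, or the normalizer of every Sylow p-subgroup P of G has even order and P is abelian. -/
theorem result {G : Type*} [Group G] [Finite G] (p : ℕ) [Fact p.Prime] (hp2 : p ≠ 2) (hpG : p ∣ Nat.card G) (h2G : 2 ∣ Nat.card G) (hC : ∀ g : G, g ≠ 1 → (∃ k : ℕ, orderOf g = p ^ k) → Odd (Nat.card ↥(Subgroup.centralizer ({g} : Set G)))) : (∃ χ : Cfsg.IrrCharacter G, (Cfsg.charDegree (χ : G → ℂ)).factorization p = (Nat.card G).factorization p) ∨ ∀ P : Sylow p G, Even (Nat.card ↥(Subgroup.normalizer ((P : Subgroup G) : Set G))) ∧ IsMulCommutative ↥(P : Subgroup G) := by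
  by_cases hex : ∃ χ : Cfsg.IrrCharacter G,
      (Cfsg.charDegree (χ : G → ℂ)).factorization p = (Nat.card G).factorization p
  · exact Or.inl hex
  right
  intro P
  obtain ⟨s, hs⟩ := exists_prime_orderOf_dvd_card' 2 h2G
  obtain ⟨s', hss', hinv⟩ :=
    Cfsg.Agent.Lib.Helper10.exists_conj_inverting_of_no_defect_zero p hC hex hs P
  have hs'2 : orderOf s' = 2 := by rw [Cfsg.Agent.Lib.Helper10.orderOf_of_isConj hss', hs]
  constructor
  · have hmem : s' ∈ Subgroup.normalizer ((P : Subgroup G) : Set G) := by
      apply Cfsg.Agent.Lib.Helper10.invol_mem_normalizer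
        (Cfsg.Agent.Lib.Helper28.sq_eq_one_of_orderOf_two hs'2)
      intro x hx
      rw [hinv x hx]
      exact Subgroup.inv_mem _ hx
    have hdvd : orderOf s' ∣ Nat.card (Subgroup.normalizer ((P : Subgroup G) : Set G)) := by
      have := orderOf_dvd_natCard (⟨s', hmem⟩ : Subgroup.normalizer ((P : Subgroup G) : Set G))
      rwa [Subgroup.orderOf_mk] at this
    rw [hs'2] at hdvd
    exact even_iff_two_dvd.2 hdvd
  · refine ⟨⟨fun a b => ?_⟩⟩
    ext
    have h1 := hinv _ (a * b).2
    have h2 := hinv _ a.2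
    have h3 := hinv _ b.2
    simp only [Subgroup.coe_mul] at h1 ⊢
    have h4 : s' * ((a : G) * b) * s'⁻¹ = (s' * a * s'⁻¹) * (s' * b * s'⁻¹) := by group
    rw [h4, h2, h3, mul_inv_rev] at h1
    have h5 := congrArg (·⁻¹) h1
    simpa using h5.symm

end Cfsg.Agent.S4744
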