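import Cfsg.Statements.S4746
import Cfsg.Agent.S4744
import Cfsg.Agent.Lib.Helper7.CharColumn
import Cfsg.Agent.Lib.Helper7.BlockDefect
import Cfsg.Agent.Lib.Helper2.CharInt

set_option autoImplicit false
open Cfsg

namespace Cfsg.Agent.S4746

open scoped ComplexConjugate in
theorem sq_sum_eq {ι : Type*} (s : Finset ι) (x : ι → ℂ) (hx : ∀ i, IsIntegral ℤ (x i)) :
    IsIntegral ℤ (∑ i ∈ s, x i) ∧
    ∃ c : ℂ, IsIntegral ℤ c ∧ (∑ i ∈ s, x i) ^ 2 = ∑ i ∈ s, x i ^ 2 + 2 * c := by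
  classical
  induction s using Finset.induction_on with
  | empty => exact ⟨by simpa using isIntegral_zero, 0, isIntegral_zero, by simp⟩
  | insert a s ha ih =>
    obtain ⟨h1, c, hc, h⟩ := ih
    refine ⟨by rw [Finset.sum_insert ha]; exact (hx a).add h1,
      c + x a * ∑ i ∈ s, x i, hc.add ((hx a).mul h1), ?_⟩
    rw [Finset.sum_insert ha, Finset.sum_insert ha, add_sq, h]
    ring

/-- if all degrees are odd, a nonidentity real element has a centralizer of even order -/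
theorem even_card_centralizer_of_real {G : Type*} [Group G] [Finite G]
    (hodd : ∀ χ : Cfsg.IrrCharacter G, Odd (Cfsg.charDegree (χ : G → ℂ))) {u : G} (hu : u ≠ 1)
    (hreal : IsConj u u⁻¹) : Even (Nat.card ↥(Subgroup.centralizer ({u} : Set G))) := by
  classical
  haveI := Fintype.ofFinite G
  haveI : Finite (Cfsg.IrrCharacter G) := Cfsg.Agent.Lib.Helper2.finite_irrCharacter
  haveI : Fintype (Cfsg.IrrCharacter G) := Fintype.ofFinite _
  have hint : ∀ χ : Cfsg.IrrCharacter G, IsIntegral ℤ ((χ : G → ℂ) u) := fun χ =>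
    Cfsg.Agent.Lib.Helper7.char_isIntegral (Cfsg.Agent.Lib.Helper7.isCharacter_of_irr χ.2) u
  choose m hm using hodd
  have h1 : ∑ χ : Cfsg.IrrCharacter G, (χ : G → ℂ) u * (χ : G → ℂ) 1 = 0 := by
    have hne : ¬ IsConj u 1 := by
      intro h
      exact hu (isConj_one_left.1 h)
    have := Cfsg.Agent.Lib.Helper7.column_orthogonality_ne hne
    rw [← this]
    exact Finset.sum_congr rfl fun χ _ => by rw [Cfsg.Agent.Lib.Helper7.conj_irr_one]
  have hdeg : ∀ χ : Cfsg.IrrCharacter G, (χ : G → ℂ) 1 = 2 * (m χ : ℂ) + 1 := by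
    intro χ
    rw [← Cfsg.Agent.Lib.Helper7.charDegree_cast (Cfsg.Agent.Lib.Helper7.isCharacter_of_irr χ.2),
      hm χ]
    push_cast; ring
  have h2 : ∑ χ : Cfsg.IrrCharacter G, (χ : G → ℂ) u
      = 2 * (-∑ χ : Cfsg.IrrCharacter G, (m χ : ℂ) * (χ : G → ℂ) u) := by
    have : ∑ χ : Cfsg.IrrCharacter G, (χ : G → ℂ) u * (χ : G → ℂ) 1
        = 2 * (∑ χ : Cfsg.IrrCharacter G, (m χ : ℂ) * (χ : G → ℂ) u)
          + ∑ χ : Cfsg.IrrCharacter G, (χ : G → ℂ) u := by
      rw [Finset.mul_sum, ← Finset.sum_add_distrib]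
      exact Finset.sum_congr rfl fun χ _ => by rw [hdeg]; ring
    rw [h1] at this
    linear_combination -this
  have hb : IsIntegral ℤ (-∑ χ : Cfsg.IrrCharacter G, (m χ : ℂ) * (χ : G → ℂ) u) :=
    (IsIntegral.sum _ fun χ _ => (isIntegral_natCast (R := ℤ) _).mul (hint χ)).neg
  have h3 : ∑ χ : Cfsg.IrrCharacter G, (χ : G → ℂ) u ^ 2
      = (Nat.card ↥(Subgroup.centralizer ({u} : Set G)) : ℂ) := by
    rw [← Cfsg.Agent.Lib.Helper7.column_orthogonality_self u]
    apply Finset.sum_congr rfl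
    intro χ _
    rw [← Cfsg.Agent.Lib.Helper7.char_inv_eq_conj
      (Cfsg.Agent.Lib.Helper7.isCharacter_of_irr χ.2) u,
      ← Cfsg.Agent.Lib.Helper7.classFunction_eq_of_isConj
        (Cfsg.Agent.Lib.Helper7.isClassFunction_irr χ) hreal, sq]
  obtain ⟨-, c, hc, h4⟩ := sq_sum_eq Finset.univ (fun χ : Cfsg.IrrCharacter G => (χ : G → ℂ) u) hint
  rw [h2, h3] at h4
  set b := -∑ χ : Cfsg.IrrCharacter G, (m χ : ℂ) * (χ : G → ℂ) u with hbdef
  have h5 : ((Nat.card ↥(Subgroup.centralizer ({u} : Set G)) : ℚ) / 2 : ℚ) = (2 * b ^ 2 - c : ℂ) := by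
    push_cast
    linear_combination (-1 / 2 : ℂ) * h4
  obtain ⟨k, hk⟩ := Cfsg.Agent.Lib.Helper2.exists_int_of_isIntegral_of_rat
    (x := 2 * b ^ 2 - c) (((isIntegral_natCast (R := ℤ) 2).mul (hb.pow 2)).sub hc) _ h5.symm
  have h6 : (Nat.card ↥(Subgroup.centralizer ({u} : Set G)) : ℂ) = ((2 * k : ℤ) : ℂ) := by
    push_cast
    rw [← hk]
    linear_combination (-1 : ℂ) * h4
  have h7 : ((Nat.card ↥(Subgroup.centralizer ({u} : Set G)) : ℤ)) = 2 * k := by exact_mod_cast h6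
  have h8 : Even ((Nat.card ↥(Subgroup.centralizer ({u} : Set G)) : ℤ)) := ⟨k, by rw [h7]; ring⟩
  exact (Int.even_coe_nat _).1 h8


/-- Let p be an odd prime and G a finite group of even order divisible by p in which the centralizer of every non-identity p-element has odd order. Then G has an irreducible character of p-defect zero or an irreducible character of even degree. -/
theorem result {G : Type*} [Group G] [Finite G] (p : ℕ) [Fact p.Prime] (hp2 : p ≠ 2) (hpG : p ∣ Nat.card G) (h2G : 2 ∣ Nat.card G) (hC : ∀ g : G, g ≠ 1 → (∃ k : ℕ, orderOf g = p ^ k) → Odd (Nat.card ↥(Subgroup.centralizer ({g} : Set G)))) : (∃ χ : Cfsg.IrrCharacter G, (Cfsg.charDegree (χ : G → ℂ)).factorization p = (Nat.card G).factorization p) ∨ ∃ χ : Cfsg.IrrCharacter G, Even (Cfsg.charDegree (χ : G → ℂ)) := by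
  classical
  by_contra hcon
  push Not at hcon
  obtain ⟨hno, hodd⟩ := hcon
  have hodd' : ∀ χ : Cfsg.IrrCharacter G, Odd (Cfsg.charDegree (χ : G → ℂ)) :=
    fun χ => Nat.not_even_iff_odd.1 (hodd χ)
  rcases Cfsg.Agent.S4744.result p hp2 hpG h2G hC with ⟨χ, hχ⟩ | h
  · exact hno χ hχ
  obtain ⟨P⟩ : Nonempty (Sylow p G) := inferInstance
  obtain ⟨hev, hab⟩ := h P
  haveI : Fact (Nat.Prime 2) := ⟨Nat.prime_two⟩
  obtain ⟨t, ht⟩ := exists_prime_orderOf_dvd_card' 2 hev.two_dvd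
  obtain ⟨u0, hu0⟩ := exists_prime_orderOf_dvd_card' p (P.dvd_card_of_dvd_card hpG)
  have hp : p.Prime := Fact.out
  -- u := u0, an element of order p in P
  set u : G := (u0 : G) with hu
  have huo : orderOf u = p := by rw [hu, Subgroup.orderOf_coe]; exact hu0
  have hu1 : u ≠ 1 := by
    intro h1
    rw [h1, orderOf_one] at huo
    exact hp.one_lt.ne huo
  set s : G := (t : G) with hs
  have hso : orderOf s = 2 := by rw [hs, Subgroup.orderOf_coe]; exact ht
  have hs2 : s * s = 1 := by rw [← sq, ← hso]; exact pow_orderOf_eq_one s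
  have hsinv : s⁻¹ = s := inv_eq_of_mul_eq_one_left hs2
  have hsu : s * u * s⁻¹ ∈ (P : Subgroup G) :=
    (Subgroup.mem_normalizer_iff.1 t.2 u).1 u0.2
  -- w = u * (s u s⁻¹) is fixed by s
  set w : G := u * (s * u * s⁻¹) with hw
  have hwP : w ∈ (P : Subgroup G) := mul_mem u0.2 hsu
  have hcomm : u * (s * u * s⁻¹) = (s * u * s⁻¹) * u := by
    have := hab.is_comm.comm (⟨u, u0.2⟩ : (P : Subgroup G)) ⟨s * u * s⁻¹, hsu⟩
    exact congrArg Subtype.val this
  have hsw : s * w * s⁻¹ = w := by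
    rw [hw]
    calc s * (u * (s * u * s⁻¹)) * s⁻¹ = (s * u * s⁻¹) * ((s * s) * u * (s * s)⁻¹) := by group
      _ = (s * u * s⁻¹) * u := by rw [hs2]; group
      _ = u * (s * u * s⁻¹) := hcomm.symm
  have hw1 : w = 1 := by
    by_contra hne
    obtain ⟨k, hk⟩ := (IsPGroup.iff_orderOf.1 P.2) ⟨w, hwP⟩
    have hodd1 := hC w hne ⟨k, by rw [← hk, ← Subgroup.orderOf_coe]⟩
    have hsC : s ∈ Subgroup.centralizer ({w} : Set G) := by
      rw [Subgroup.mem_centralizer_singleton_iff]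
      calc s * w = s * w * s⁻¹ * s := by group
        _ = w * s := by rw [hsw]
    have h2 : orderOf (⟨s, hsC⟩ : Subgroup.centralizer ({w} : Set G)) = 2 := by
      rw [← Subgroup.orderOf_coe]; exact hso
    have h3 := orderOf_dvd_natCard (⟨s, hsC⟩ : Subgroup.centralizer ({w} : Set G))
    rw [h2] at h3
    exact (Nat.not_even_iff_odd.2 hodd1) (even_iff_two_dvd.2 h3)
  have hreal : IsConj u u⁻¹ := by
    rw [isConj_iff]
    refine ⟨s, ?_⟩
    rw [hw] at hw1
    exact (inv_eq_of_mul_eq_one_right hw1).symm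
  have hev2 := even_card_centralizer_of_real hodd' hu1 hreal
  exact (Nat.not_even_iff_odd.2 (hC u hu1 ⟨1, by rw [huo, pow_one]⟩)) hev2

end Cfsg.Agent.S4746
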