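import Cfsg.Statements.S4748
import Cfsg.Agent.Lib.Helper1.TISylA
import Cfsg.Agent.Lib.Helper1.TISylC

set_option autoImplicit false
open scoped Pointwise
open Cfsg

namespace Cfsg.Agent.S4748

/-- Let G be a finite p-solvable group whose Sylow p-subgroup P meets each conjugate g P g⁻¹ with g outside N_G(P) trivially, and let χ be a faithful character of G (χ g = χ 1 only for g = 1) whose degree d satisfies d² ≤ |P|. Then P is normal in G. -/
theorem result {G : Type*} [Group G] [Finite G] (p : ℕ) [Fact p.Prime] (hsolv : Cfsg.IsPSolvable p G) (P : Sylow p G) (hTI : ∀ g : G, g ∉ Subgroup.normalizer ((P : Subgroup G) : Set G) → (P : Subgroup G) ⊓ (MulAut.conj g • (P : Subgroup G)) = ⊥) (χ : G → ℂ) (hχ : Cfsg.IsCharacter G χ) (hfaith : ∀ g : G, χ g = χ 1 → g = 1) (hdeg : Cfsg.charDegree χ ^ 2 ≤ Nat.card ↥(P : Subgroup G)) : (P : Subgroup G).Normal := by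
  classical
  have hp : p.Prime := Fact.out
  apply Cfsg.Agent.Lib.Helper1.ti_normal_of_centralizes hsolv P hTI
  intro K hKn hKcop
  haveI := hKn
  obtain ⟨r, hr⟩ := IsPGroup.iff_card.1 P.isPGroup'
  have hcop' : (Nat.card K).Coprime (Nat.card (P : Subgroup G)) := by
    rw [hr]; exact Nat.Coprime.pow_right r hKcop
  have hdisj : Disjoint K (P : Subgroup G) := Subgroup.disjoint_of_coprime_natCard hcop'
  have hKX : K ≤ K ⊔ (P : Subgroup G) := le_sup_left
  have hPX : (P : Subgroup G) ≤ K ⊔ (P : Subgroup G) := le_sup_right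
  have hfixG : ∀ u ∈ (P : Subgroup G), u ≠ 1 → ∀ k ∈ K, k * u = u * k →
      ∀ v ∈ (P : Subgroup G), k * v = v * k := by
    intro u hu hu1 k hk hku v hv
    have hkN : k ∈ Subgroup.normalizer ((P : Subgroup G) : Set G) := by
      by_contra hg
      have h1 := hTI k hg
      have h2 : u ∈ (P : Subgroup G) ⊓ (MulAut.conj k • (P : Subgroup G)) := by
        refine Subgroup.mem_inf.2 ⟨hu, ?_⟩
        rw [Subgroup.mem_pointwise_smul_iff_inv_smul_mem]
        have h3 : k⁻¹ * u * k = u := by rw [mul_assoc, ← hku]; group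
        simpa [h3] using hu
      rw [h1, Subgroup.mem_bot] at h2
      exact hu1 h2
    have h1 : k * v * k⁻¹ ∈ (P : Subgroup G) := (Subgroup.mem_normalizer_iff.1 hkN v).1 hv
    have h2 : k * v * k⁻¹ * v⁻¹ ∈ (P : Subgroup G) := Subgroup.mul_mem _ h1 (Subgroup.inv_mem _ hv)
    have h3 : k * v * k⁻¹ * v⁻¹ ∈ K := by
      have : k * v * k⁻¹ * v⁻¹ = k * (v * k⁻¹ * v⁻¹) := by group
      rw [this]
      exact K.mul_mem hk (hKn.conj_mem _ (K.inv_mem hk) v)
    have h4 : k * v * k⁻¹ * v⁻¹ = 1 := Subgroup.disjoint_def.1 hdisj h3 h2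
    have : k * v = (k * v * k⁻¹ * v⁻¹) * (v * k) := by group
    rw [this, h4, one_mul]
  have hcardK : Nat.card (K.subgroupOf (K ⊔ (P : Subgroup G))) = Nat.card K :=
    Nat.card_congr (Subgroup.subgroupOfEquivOfLe hKX).toEquiv
  have hcardP : Nat.card ((P : Subgroup G).subgroupOf (K ⊔ (P : Subgroup G))) =
      Nat.card (P : Subgroup G) :=
    Nat.card_congr (Subgroup.subgroupOfEquivOfLe hPX).toEquiv
  have hcore := Cfsg.Agent.Lib.Helper1.ti_core (X := ↥(K ⊔ (P : Subgroup G)))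
    (K.subgroupOf (K ⊔ (P : Subgroup G))) ((P : Subgroup G).subgroupOf (K ⊔ (P : Subgroup G)))
    hp (by rw [← Subgroup.subgroupOf_sup hKX hPX, Subgroup.subgroupOf_self])
    (by rw [hcardK]; exact hKcop)
    (P.isPGroup'.comap_subtype)
    (by
      intro u hu hu1 k hk hku v hv
      apply Subtype.ext
      exact hfixG u (Subgroup.mem_subgroupOf.1 hu) (fun h => hu1 (Subtype.ext h)) k
        (Subgroup.mem_subgroupOf.1 hk) (congrArg Subtype.val hku) v (Subgroup.mem_subgroupOf.1 hv))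
    (χ := fun x => χ x) (Cfsg.Agent.Lib.Helper7.isCharacter_restrict hχ _)
    (by
      intro k _ hk
      exact Subtype.ext (hfaith k hk))
    (Cfsg.charDegree χ) (Cfsg.Agent.Lib.Helper7.charDegree_cast hχ).symm
    (by rw [hcardP]; exact hdeg)
  intro u hu k hk
  exact congrArg Subtype.val (hcore ⟨u, hPX hu⟩ (Subgroup.mem_subgroupOf.2 hu) ⟨k, hKX hk⟩
    (Subgroup.mem_subgroupOf.2 hk))

end Cfsg.Agent.S4748
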