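import Cfsg.Statements.S4754
import Cfsg.Agent.Lib.Helper7.CharColumn
import Cfsg.Agent.Lib.Helper2.CharReg

set_option autoImplicit false
open Cfsg

namespace Cfsg.Agent.S4754

/-- For elements x, y of a finite group G, the conjugacy class of x y equals the set of all products of a conjugate of x with a conjugate of y if and only if χ(1) χ(a x a⁻¹ b y b⁻¹) = χ(x) χ(y) for all a, b ∈ G and every irreducible character χ. -/
theorem result {G : Type*} [Group G] [Finite G] (x y : G) : (∀ z : G, IsConj (x * y) z ↔ ∃ a b : G, z = a * x * a⁻¹ * (b * y * b⁻¹)) ↔ ∀ (a b : G) (χ : Cfsg.IrrCharacter G), (χ : G → ℂ) 1 * (χ : G → ℂ) (a * x * a⁻¹ * (b * y * b⁻¹)) = (χ : G → ℂ) x * (χ : G → ℂ) y := by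
  classical
  cases nonempty_fintype G
  have hG : (Nat.card G : ℂ) ≠ 0 := by exact_mod_cast Nat.card_pos.ne'
  constructor
  · intro h a b χ
    have hcf := Cfsg.Agent.Lib.Helper7.isClassFunction_irr χ
    have h1 : ∀ a b : G, (χ : G → ℂ) (a * x * a⁻¹ * (b * y * b⁻¹)) = (χ : G → ℂ) (x * y) := by
      intro a b
      exact (Cfsg.Agent.Lib.Helper7.classFunction_eq_of_isConj hcf ((h _).mpr ⟨a, b, rfl⟩)).symm
    have h2 := Cfsg.Agent.Lib.Helper2.sum_char_conj_mul χ.2 x y
    have h3 : ∀ t : G, (χ : G → ℂ) (t * x * t⁻¹ * y) = (χ : G → ℂ) (x * y) := by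
      intro t
      have := h1 t 1
      simpa using this
    simp_rw [h3] at h2
    rw [Finset.sum_const, Finset.card_univ, nsmul_eq_mul, ← Nat.card_eq_fintype_card] at h2
    have h0 := Cfsg.Agent.Lib.Helper7.irr_apply_one_ne_zero χ.2
    rw [h1]
    have h4 : (χ : G → ℂ) (x * y) = (χ : G → ℂ) x * (χ : G → ℂ) y / (χ : G → ℂ) 1 := by
      apply mul_left_cancel₀ hG
      rw [h2]
      ring
    rw [h4]
    field_simp
  · intro h z
    constructor
    · intro hz
      obtain ⟨c, rfl⟩ := isConj_iff.mp hz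
      exact ⟨c, c, by group⟩
    · rintro ⟨a, b, rfl⟩
      rw [Cfsg.Agent.Lib.Helper7.isConj_iff_irr_eq]
      intro χ
      have h0 := Cfsg.Agent.Lib.Helper7.irr_apply_one_ne_zero χ.2
      apply mul_left_cancel₀ h0
      rw [h a b χ]
      have := h 1 1 χ
      simpa using this

end Cfsg.Agent.S4754
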