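import Cfsg.Statements.S4755
import Cfsg.Agent.Lib.Helper7.CharColumn
import Cfsg.Agent.Lib.Helper2.CharReg

set_option autoImplicit false
open Cfsg

namespace Cfsg.Agent.S4755

/-- Let x, y be non-identity elements of the finite group G such that χ(x' y') = χ(x') χ(y') for all conjugates x' of x, y' of y and every irreducible character χ. Then the conjugacy class of x y is the set of all products of a conjugate of x with a conjugate of y; every irreducible character of degree greater than 1 vanishes at x y; and the conjugacy class of x y is the coset of the commutator subgroup containing x y. -/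
theorem result {G : Type*} [Group G] [Finite G] (x y : G) (hx : x ≠ 1) (hy : y ≠ 1) (h : ∀ (a b : G) (χ : Cfsg.IrrCharacter G), (χ : G → ℂ) (a * x * a⁻¹ * (b * y * b⁻¹)) = (χ : G → ℂ) (a * x * a⁻¹) * (χ : G → ℂ) (b * y * b⁻¹)) : (∀ z : G, IsConj (x * y) z ↔ ∃ a b : G, z = a * x * a⁻¹ * (b * y * b⁻¹)) ∧ (∀ χ : Cfsg.IrrCharacter G, (χ : G → ℂ) 1 ≠ 1 → (χ : G → ℂ) (x * y) = 0) ∧ (∀ z : G, IsConj (x * y) z ↔ (x * y)⁻¹ * z ∈ commutator G) := by
  classical
  cases nonempty_fintype G
  cases nonempty_fintype (Cfsg.IrrCharacter G)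
  have hG : (Nat.card G : ℂ) ≠ 0 := by exact_mod_cast Nat.card_pos.ne'
  have hcf := fun χ : Cfsg.IrrCharacter G => Cfsg.Agent.Lib.Helper7.isClassFunction_irr χ
  have h1 : ∀ (a b : G) (χ : Cfsg.IrrCharacter G),
      (χ : G → ℂ) (a * x * a⁻¹ * (b * y * b⁻¹)) = (χ : G → ℂ) x * (χ : G → ℂ) y := by
    intro a b χ
    rw [h a b χ, hcf χ x a, hcf χ y b]
  have hxy : ∀ χ : Cfsg.IrrCharacter G, (χ : G → ℂ) (x * y) = (χ : G → ℂ) x * (χ : G → ℂ) y := by
    intro χ
    have := h1 1 1 χ
    simpa using this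
  have c1 : ∀ z : G, IsConj (x * y) z ↔ ∃ a b : G, z = a * x * a⁻¹ * (b * y * b⁻¹) := by
    intro z
    constructor
    · intro hz
      obtain ⟨c, rfl⟩ := isConj_iff.mp hz
      exact ⟨c, c, by group⟩
    · rintro ⟨a, b, rfl⟩
      rw [Cfsg.Agent.Lib.Helper7.isConj_iff_irr_eq]
      intro χ
      rw [h1, hxy]
  have c2 : ∀ χ : Cfsg.IrrCharacter G, (χ : G → ℂ) 1 ≠ 1 → (χ : G → ℂ) (x * y) = 0 := by
    intro χ hχ1
    have h2 := Cfsg.Agent.Lib.Helper2.sum_char_conj_mul χ.2 x y
    have h3 : ∀ t : G, (χ : G → ℂ) (t * x * t⁻¹ * y) = (χ : G → ℂ) (x * y) := by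
      intro t
      have := h1 t 1 χ
      rw [hxy]
      simpa using this
    simp_rw [h3] at h2
    rw [Finset.sum_const, Finset.card_univ, nsmul_eq_mul, ← Nat.card_eq_fintype_card] at h2
    have h0 := Cfsg.Agent.Lib.Helper7.irr_apply_one_ne_zero χ.2
    have h4 : (χ : G → ℂ) (x * y) * (χ : G → ℂ) 1 = (χ : G → ℂ) (x * y) := by
      have h2' : (χ : G → ℂ) (x * y) = (χ : G → ℂ) x * (χ : G → ℂ) y / (χ : G → ℂ) 1 := by
        apply mul_left_cancel₀ hG
        rw [h2]
        ring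
      conv_lhs => rw [h2']
      rw [hxy]
      field_simp
    have h5 : (χ : G → ℂ) (x * y) * ((χ : G → ℂ) 1 - 1) = 0 := by
      rw [mul_sub, h4, mul_one, sub_self]
    rcases mul_eq_zero.mp h5 with h6 | h6
    · exact h6
    · exact absurd (sub_eq_zero.mp h6) hχ1
  refine ⟨c1, c2, ?_⟩
  intro z
  constructor
  · intro hz
    obtain ⟨c, rfl⟩ := isConj_iff.mp hz
    have : (x * y)⁻¹ * (c * (x * y) * c⁻¹) = (x * y)⁻¹ * c * (x * y)⁻¹⁻¹ * c⁻¹ := by group
    rw [this]
    exact Subgroup.commutator_mem_commutator (Subgroup.mem_top _) (Subgroup.mem_top _)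
  · intro hz
    by_contra hcon
    have h2 := Cfsg.Agent.Lib.Helper7.column_orthogonality_ne hcon
    have h3 : ∀ χ : Cfsg.IrrCharacter G,
        (χ : G → ℂ) (x * y) * (starRingEnd ℂ) ((χ : G → ℂ) z)
          = if (χ : G → ℂ) 1 = 1 then 1 else 0 := by
      intro χ
      split_ifs with hχ1
      · obtain ⟨f, hf⟩ := Cfsg.Agent.Lib.Helper7.exists_hom_of_linear
          (Cfsg.Agent.Lib.Helper7.isCharacter_of_irr χ.2) hχ1
        have h4 : f ((x * y)⁻¹ * z) = 1 :=
          MonoidHom.mem_ker.mp (Abelianization.commutator_subset_ker f hz)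
        have h5 : f z = f (x * y) := by
          have : z = (x * y) * ((x * y)⁻¹ * z) := by group
          rw [this, map_mul f (x * y), h4, mul_one]
        rw [hf, hf, h5, Complex.mul_conj, Complex.normSq_eq_norm_sq]
        have h6 : ‖((f (x * y) : ℂˣ) : ℂ)‖ = 1 := by
          apply Complex.norm_eq_one_of_pow_eq_one (n := orderOf (x * y)) _ (orderOf_pos _).ne'
          rw [← Units.val_pow_eq_pow_val, ← map_pow, pow_orderOf_eq_one, map_one, Units.val_one]
        rw [h6]
        simp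
      · rw [c2 χ hχ1, zero_mul]
    simp_rw [h3] at h2
    rw [Finset.sum_boole] at h2
    have h7 : (Finset.univ.filter (fun χ : Cfsg.IrrCharacter G => (χ : G → ℂ) 1 = 1)).card = 0 := by
      exact_mod_cast h2
    rw [Finset.card_eq_zero] at h7
    have h8 : (⟨fun _ => 1, Cfsg.Agent.Lib.Helper7.isIrrCharacter_one⟩ : Cfsg.IrrCharacter G)
        ∈ Finset.univ.filter (fun χ : Cfsg.IrrCharacter G => (χ : G → ℂ) 1 = 1) := by
      simp
    rw [h7] at h8
    simp at h8

end Cfsg.Agent.S4755
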