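import Cfsg.Statements.S4757
import Cfsg.Agent.Lib.Helper7.CharColumn
import Cfsg.Agent.Lib.Helper25.NotPerfect
import Cfsg.Agent.Lib.Helper9.ZStar
import Cfsg.Agent.Lib.Helper5.PCore

set_option autoImplicit false
open Cfsg

namespace Cfsg.Agent.S4757

open Cfsg.Agent.Lib.Helper7
open scoped ComplexConjugate

section aux
universe v
variable {G : Type v} [Group G] [Finite G]

/-- the irreducible character of a linear hom -/
noncomputable def linChar (f : G →* ℂˣ) : Cfsg.IrrCharacter G :=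
  ⟨fun g => (f g : ℂ), isIrrCharacter_of_hom f⟩

noncomputable def trivChar : Cfsg.IrrCharacter G := ⟨fun _ => 1, isIrrCharacter_one⟩

theorem linChar_ne {f : G →* ℂˣ} (hf : f ≠ 1) : ((linChar f : Cfsg.IrrCharacter G) : G → ℂ) ≠ fun _ => 1 := by
  intro h
  apply hf
  ext g
  exact congrFun h g

theorem sum_col (u : G) (hu : u ≠ 1) [Fintype (Cfsg.IrrCharacter G)] :
    ∑ χ : Cfsg.IrrCharacter G, ((χ : G → ℂ) u * (χ : G → ℂ) 1).re = 0 := by
  haveI := Fintype.ofFinite G
  have h := column_orthogonality_ne (G := G) (g := u) (h := 1) (fun h => hu (isConj_one_left.1 h))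
  simp only [conj_irr_one] at h
  have h2 := congrArg Complex.re h
  rw [Complex.re_sum] at h2
  simpa using h2

theorem exists_hom_of_not_perfect (h : commutator G ≠ ⊤) : ∃ f : G →* ℂˣ, f ≠ 1 := by
  obtain ⟨g0, hg0⟩ : ∃ g : G, g ∉ commutator G := by
    by_contra hcon
    push Not at hcon
    exact h (eq_top_iff.2 (fun g _ => hcon g))
  have ha : (Abelianization.of g0 : Abelianization G) ≠ 1 := by
    intro h
    exact hg0 ((QuotientGroup.eq_one_iff g0).1 h)
  obtain ⟨φ, hφ⟩ := CommGroup.exists_apply_ne_one_of_hasEnoughRootsOfUnity (Abelianization G) ℂ ha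
  refine ⟨φ.comp Abelianization.of, ?_⟩
  intro h
  exact hφ (DFunLike.congr_fun h g0)

theorem not_perfect_of_hom {f : G →* ℂˣ} (hf : f ≠ 1) : commutator G ≠ ⊤ := by
  intro h
  apply hf
  ext1 g
  exact Cfsg.Agent.Lib.Helper25.hom_eq_one_of_perfect h f (fun a b => mul_comm _ _) g

variable (u : G) (hu : u ≠ 1) (c : ℂ)
  (hyp : ∀ χ : Cfsg.IrrCharacter G, (χ : G → ℂ) ≠ (fun _ => (1 : ℂ)) →
    ((χ : G → ℂ) 1 - (χ : G → ℂ) u = c ∨ (χ : G → ℂ) u = 0))

include hu hyp in
theorem c_ne_zero : c ≠ 0 := by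
  classical
  haveI := Fintype.ofFinite (Cfsg.IrrCharacter G)
  intro hc
  have h0 := sum_col u hu
  have h1 : ∀ χ : Cfsg.IrrCharacter G, 0 ≤ ((χ : G → ℂ) u * (χ : G → ℂ) 1).re := by
    intro χ
    obtain ⟨n, hn, hn1⟩ := irr_apply_one χ.2
    by_cases hχ : (χ : G → ℂ) = fun _ => 1
    · rw [hχ]; simp
    rcases hyp χ hχ with h | h
    · rw [hc, sub_eq_zero] at h
      rw [← h, hn1]
      have : ((n : ℂ) * (n : ℂ)).re = (n : ℝ) * n := by
        rw [← Nat.cast_mul, Complex.natCast_re]; push_cast; ring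
      rw [this]; positivity
    · rw [h]; simp
  have h2 := Finset.single_le_sum (f := fun χ : Cfsg.IrrCharacter G => ((χ : G → ℂ) u * (χ : G → ℂ) 1).re)
    (fun χ _ => h1 χ) (Finset.mem_univ (trivChar : Cfsg.IrrCharacter G))
  rw [h0] at h2
  simp [trivChar] at h2
  linarith

include hyp in
theorem lin_val {f : G →* ℂˣ} (hf : f ≠ 1) : (f u : ℂ) = 1 - c := by
  rcases hyp (linChar f) (linChar_ne hf) with h | h
  · have h' : ((f 1 : ℂˣ) : ℂ) - (f u : ℂ) = c := h
    rw [map_one, Units.val_one] at h'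
    rw [← h']; ring
  · exact absurd h (Units.ne_zero (f u))

include hu hyp in
theorem lin_facts {f : G →* ℂˣ} (hf : f ≠ 1) : c = 2 ∧ f u = -1 ∧ f * f = 1 ∧
    ∀ f' : G →* ℂˣ, f' ≠ 1 → f' = f := by
  have hc := c_ne_zero u hu c hyp
  have key : ∀ f : G →* ℂˣ, f ≠ 1 → f * f = 1 ∧ (f u : ℂ) = -1 := by
    intro f hf
    have h1 := lin_val u c hyp hf
    have hne1 : (f u : ℂ) ≠ 1 := by
      rw [h1]; intro h; apply hc; linear_combination -h
    have hsq : f * f = 1 := by
      by_contra hsq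
      have h2 := lin_val u c hyp hsq
      rw [MonoidHom.mul_apply, Units.val_mul, ← h1] at h2
      have h3 : (f u : ℂ) * ((f u : ℂ) - 1) = 0 := by linear_combination h2
      rcases mul_eq_zero.1 h3 with h | h
      · exact Units.ne_zero _ h
      · exact hne1 (sub_eq_zero.1 h)
    refine ⟨hsq, ?_⟩
    have h2 : (f u : ℂ) * (f u : ℂ) = 1 := by
      have := DFunLike.congr_fun hsq u
      rw [MonoidHom.mul_apply, MonoidHom.one_apply] at this
      have h3 := congrArg (Units.val) this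
      simpa using h3
    have h3 : ((f u : ℂ) - 1) * ((f u : ℂ) + 1) = 0 := by linear_combination h2
    rcases mul_eq_zero.1 h3 with h | h
    · exact absurd (sub_eq_zero.1 h) hne1
    · linear_combination h
  obtain ⟨hsq, hval⟩ := key f hf
  have hc2 : c = 2 := by
    have h1 := lin_val u c hyp hf
    rw [hval] at h1
    linear_combination h1
  refine ⟨hc2, Units.ext (by simpa using hval), hsq, ?_⟩
  intro f' hf'
  obtain ⟨hsq', hval'⟩ := key f' hf'
  by_contra hne
  have hprod : f' * f ≠ 1 := by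
    intro h
    apply hne
    ext1 g
    have e1 := DFunLike.congr_fun h g
    have e2 := DFunLike.congr_fun hsq g
    rw [MonoidHom.mul_apply, MonoidHom.one_apply] at e1 e2
    exact mul_right_cancel (e1.trans e2.symm)
  have h2 := lin_val u c hyp hprod
  rw [MonoidHom.mul_apply, Units.val_mul, hval, hval', hc2] at h2
  norm_num at h2

/-- shape of the terms when `c = 2` -/
theorem term_nonneg (hyp2 : ∀ χ : Cfsg.IrrCharacter G, (χ : G → ℂ) ≠ (fun _ => (1 : ℂ)) →
    ((χ : G → ℂ) 1 - (χ : G → ℂ) u = 2 ∨ (χ : G → ℂ) u = 0)) (χ : Cfsg.IrrCharacter G)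
    (hχ : (χ : G → ℂ) ≠ fun _ => 1) (hlin : (χ : G → ℂ) 1 ≠ 1) :
    0 ≤ ((χ : G → ℂ) u * (χ : G → ℂ) 1).re ∧
      (((χ : G → ℂ) u * (χ : G → ℂ) 1).re = 0 → (χ : G → ℂ) u = 0) := by
  obtain ⟨n, hn, hn1⟩ := irr_apply_one χ.2
  rcases hyp2 χ hχ with h | h
  · have hn2 : 2 ≤ n := by
      rcases Nat.lt_or_ge n 2 with h2 | h2
      · exfalso
        have : n = 1 := by omega
        apply hlin
        rw [hn1, this]; simp
      · exact h2
    obtain ⟨m, rfl⟩ := Nat.exists_eq_add_of_le hn2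
    have hu' : (χ : G → ℂ) u = (m : ℂ) := by
      rw [hn1] at h
      push_cast at h
      linear_combination -h
    have hre : ((χ : G → ℂ) u * (χ : G → ℂ) 1).re = (m : ℝ) * ((2 + m : ℕ) : ℝ) := by
      rw [hu', hn1, ← Nat.cast_mul, Complex.natCast_re]; push_cast; ring
    rw [hre]
    refine ⟨by positivity, ?_⟩
    intro h0
    rcases mul_eq_zero.1 h0 with h1 | h1
    · rw [hu']
      have : m = 0 := by exact_mod_cast h1
      rw [this]; simp
    · exfalso
      have : 2 + m = 0 := by exact_mod_cast h1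
      omega
  · rw [h]; simp

theorem exists_hom_of_two (hu : u ≠ 1)
    (hyp2 : ∀ χ : Cfsg.IrrCharacter G, (χ : G → ℂ) ≠ (fun _ => (1 : ℂ)) →
    ((χ : G → ℂ) 1 - (χ : G → ℂ) u = 2 ∨ (χ : G → ℂ) u = 0)) : ∃ f : G →* ℂˣ, f ≠ 1 := by
  classical
  haveI := Fintype.ofFinite (Cfsg.IrrCharacter G)
  by_contra hcon
  push Not at hcon
  have h0 := sum_col u hu
  have h1 : ∀ χ : Cfsg.IrrCharacter G, 0 ≤ ((χ : G → ℂ) u * (χ : G → ℂ) 1).re := by
    intro χ
    by_cases hχ : (χ : G → ℂ) = fun _ => 1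
    · rw [hχ]; simp
    refine (term_nonneg u hyp2 χ hχ ?_).1
    intro hlin
    obtain ⟨f, hf⟩ := exists_hom_of_linear (isCharacter_of_irr χ.2) hlin
    apply hχ
    funext g
    rw [hf g, hcon f]; simp
  have h2 := Finset.single_le_sum (f := fun χ : Cfsg.IrrCharacter G => ((χ : G → ℂ) u * (χ : G → ℂ) 1).re)
    (fun χ _ => h1 χ) (Finset.mem_univ (trivChar : Cfsg.IrrCharacter G))
  rw [h0] at h2
  simp [trivChar] at h2
  linarith

/-- all characters other than the two linear ones vanish at `u` -/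
theorem vanish (hu : u ≠ 1)
    (hyp2 : ∀ χ : Cfsg.IrrCharacter G, (χ : G → ℂ) ≠ (fun _ => (1 : ℂ)) →
    ((χ : G → ℂ) 1 - (χ : G → ℂ) u = 2 ∨ (χ : G → ℂ) u = 0)) {f : G →* ℂˣ} (hf : f ≠ 1)
    (hfu : f u = -1) (huniq : ∀ f' : G →* ℂˣ, f' ≠ 1 → f' = f) (χ : Cfsg.IrrCharacter G)
    (h1 : χ ≠ trivChar) (h2 : χ ≠ linChar f) : (χ : G → ℂ) u = 0 := by
  classical
  haveI := Fintype.ofFinite (Cfsg.IrrCharacter G)
  have h0 := sum_col u hu
  have hne : (linChar f : Cfsg.IrrCharacter G) ≠ trivChar := by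
    intro h
    exact linChar_ne hf (congrArg Subtype.val h)
  rw [← Finset.add_sum_erase _ _ (Finset.mem_univ (trivChar : Cfsg.IrrCharacter G)),
    ← Finset.add_sum_erase _ _ (Finset.mem_erase.2 ⟨hne, Finset.mem_univ (linChar f)⟩)] at h0
  have e1 : (((trivChar : Cfsg.IrrCharacter G) : G → ℂ) u * ((trivChar : Cfsg.IrrCharacter G) : G → ℂ) 1).re = 1 := by
    simp [trivChar]
  have e2 : (((linChar f : Cfsg.IrrCharacter G) : G → ℂ) u * ((linChar f : Cfsg.IrrCharacter G) : G → ℂ) 1).re = -1 := by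
    simp [linChar, hfu]
  rw [e1, e2] at h0
  have h3 : ∑ x ∈ (Finset.univ.erase (trivChar : Cfsg.IrrCharacter G)).erase (linChar f),
      ((x : G → ℂ) u * (x : G → ℂ) 1).re = 0 := by linarith
  have hterm : ∀ x ∈ (Finset.univ.erase (trivChar : Cfsg.IrrCharacter G)).erase (linChar f),
      0 ≤ ((x : G → ℂ) u * (x : G → ℂ) 1).re ∧
      (((x : G → ℂ) u * (x : G → ℂ) 1).re = 0 → (x : G → ℂ) u = 0) := by
    intro x hx
    rw [Finset.mem_erase, Finset.mem_erase] at hx
    have hx1 : (x : G → ℂ) ≠ fun _ => 1 := fun h => hx.2.1 (Subtype.ext h)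
    apply term_nonneg u hyp2 x hx1
    intro hlin
    obtain ⟨f', hf'⟩ := exists_hom_of_linear (isCharacter_of_irr x.2) hlin
    have hf'1 : f' ≠ 1 := by
      rintro rfl
      apply hx1
      funext g
      rw [hf' g]; simp
    have := huniq f' hf'1
    subst this
    apply hx.1
    apply Subtype.ext
    funext g
    exact hf' g
  have h4 := (Finset.sum_eq_zero_iff_of_nonneg (fun x hx => (hterm x hx).1)).1 h3 χ
    (Finset.mem_erase.2 ⟨h2, Finset.mem_erase.2 ⟨h1, Finset.mem_univ _⟩⟩)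
  exact (hterm χ (Finset.mem_erase.2 ⟨h2, Finset.mem_erase.2 ⟨h1, Finset.mem_univ _⟩⟩)).2 h4

theorem card_centralizer {f : G →* ℂˣ} (hf : f ≠ 1) (hfu : f u = -1)
    (hv : ∀ χ : Cfsg.IrrCharacter G, χ ≠ trivChar → χ ≠ linChar f → (χ : G → ℂ) u = 0) :
    Nat.card (Subgroup.centralizer ({u} : Set G)) = 2 := by
  classical
  haveI := Fintype.ofFinite (Cfsg.IrrCharacter G)
  haveI := Fintype.ofFinite G
  have h0 := column_orthogonality_self (G := G) u
  have hne : (linChar f : Cfsg.IrrCharacter G) ≠ trivChar := by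
    intro h
    exact linChar_ne hf (congrArg Subtype.val h)
  rw [← Finset.add_sum_erase _ _ (Finset.mem_univ (trivChar : Cfsg.IrrCharacter G)),
    ← Finset.add_sum_erase _ _ (Finset.mem_erase.2 ⟨hne, Finset.mem_univ (linChar f)⟩),
    Finset.sum_eq_zero] at h0
  · have e1 : ((trivChar : Cfsg.IrrCharacter G) : G → ℂ) u = 1 := rfl
    have e2 : ((linChar f : Cfsg.IrrCharacter G) : G → ℂ) u = -1 := by
      show ((f u : ℂˣ) : ℂ) = -1
      rw [hfu]; simp
    rw [e1, e2] at h0
    have h1 : ((Nat.card (Subgroup.centralizer ({u} : Set G)) : ℕ) : ℂ) = ((2 : ℕ) : ℂ) := by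
      rw [← h0]; simp; norm_num
    exact_mod_cast h1
  · intro x hx
    rw [Finset.mem_erase, Finset.mem_erase] at hx
    rw [hv x hx.2.1 hx.1]; simp

theorem odd_ker {f : G →* ℂˣ} (hfu : f u = -1) (huu : u * u = 1)
    (hC : ∀ g : G, g * u = u * g → g = 1 ∨ g = u) : Odd (Nat.card f.ker) := by
  classical
  haveI := Fintype.ofFinite f.ker
  let F : Function.End f.ker := fun k => ⟨u * k * u⁻¹, (inferInstance : f.ker.Normal).conj_mem k k.2 u⟩
  haveI : Fact (Nat.Prime 2) := ⟨Nat.prime_two⟩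
  have hinv : u⁻¹ = u := inv_eq_of_mul_eq_one_left huu
  have hF : F ^ 2 ^ 1 = 1 := by
    funext k
    apply Subtype.ext
    show u * (u * k * u⁻¹) * u⁻¹ = k
    rw [hinv]
    calc u * (u * k * u) * u = (u * u) * k * (u * u) := by group
      _ = k := by rw [huu]; simp
  have h1 := Equiv.Perm.card_fixedPoints_modEq hF
  have h2 : Fintype.card (Function.fixedPoints F) = 1 := by
    rw [Fintype.card_eq_one_iff]
    refine ⟨⟨1, ?_⟩, ?_⟩
    · apply Subtype.ext
      show u * 1 * u⁻¹ = 1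
      simp
    · rintro ⟨k, hk⟩
      apply Subtype.ext
      have hk' : u * (k : G) * u⁻¹ = k := congrArg Subtype.val hk
      have hk2 : (k : G) * u = u * k := by
        rw [mul_inv_eq_iff_eq_mul] at hk'
        exact hk'.symm
      rcases hC k hk2 with h | h
      · exact Subtype.ext h
      · exfalso
        have h3 : f k = 1 := k.2
        rw [h, hfu] at h3
        have h4 := congrArg Units.val h3
        simp at h4
        norm_num at h4
  rw [h2] at h1
  rw [Nat.card_eq_fintype_card, Nat.odd_iff]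
  exact h1

end aux

/-- Let u ≠ 1 be an element of the finite group G and c a complex number such that every non-principal irreducible character χ satisfies χ(1) − χ(u) = c or χ(u) = 0. Then the following are equivalent: (a) u has order 2, G is generated by u together with O(G), the largest normal subgroup of G of odd order, and the centralizer of u is {1, u}; (b) G is not perfect; (c) c = 2. -/
theorem result {G : Type*} [Group G] [Finite G] (u : G) (hu : u ≠ 1) (c : ℂ) (hyp : ∀ χ : Cfsg.IrrCharacter G, (χ : G → ℂ) ≠ (fun _ => (1 : ℂ)) → ((χ : G → ℂ) 1 - (χ : G → ℂ) u = c ∨ (χ : G → ℂ) u = 0)) : ((orderOf u = 2 ∧ Subgroup.zpowers u ⊔ Cfsg.oddCore G = ⊤ ∧ Subgroup.centralizer ({u} : Set G) = Subgroup.zpowers u) ↔ commutator G ≠ ⊤) ∧ (commutator G ≠ ⊤ ↔ c = 2) := by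
  classical
  have hQR : commutator G ≠ ⊤ → c = 2 := by
    intro h
    obtain ⟨f, hf⟩ := exists_hom_of_not_perfect h
    exact (lin_facts u hu c hyp hf).1
  have hRQ : c = 2 → commutator G ≠ ⊤ := by
    intro h
    subst h
    obtain ⟨f, hf⟩ := exists_hom_of_two u hu hyp
    exact not_perfect_of_hom hf
  refine ⟨⟨?_, ?_⟩, hQR, hRQ⟩
  · rintro ⟨ho, hsup, -⟩ hperf
    haveI hN : (Cfsg.oddCore G).Normal := Cfsg.Agent.Lib.Helper9.oddCore_normal
    have hle : commutator G ≤ (QuotientGroup.mk' (Cfsg.oddCore G)).ker := by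
      apply Cfsg.Agent.Lib.Helper25.commutator_le_ker_of_comm
      have hrep : ∀ a : G, ∃ i : ℤ, QuotientGroup.mk' (Cfsg.oddCore G) a =
          (QuotientGroup.mk' (Cfsg.oddCore G) u) ^ i := by
        intro a
        have ha : a ∈ Subgroup.zpowers u ⊔ Cfsg.oddCore G := by rw [hsup]; trivial
        rw [Subgroup.mem_sup_of_normal_right] at ha
        obtain ⟨y, ⟨i, rfl⟩, z, hz, rfl⟩ := ha
        refine ⟨i, ?_⟩
        rw [map_mul, map_zpow]
        have : QuotientGroup.mk' (Cfsg.oddCore G) z = 1 := (QuotientGroup.eq_one_iff z).2 hz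
        rw [this, mul_one]
      intro a b
      obtain ⟨i, hi⟩ := hrep a
      obtain ⟨j, hj⟩ := hrep b
      rw [hi, hj, ← zpow_add, ← zpow_add, add_comm]
    rw [hperf, QuotientGroup.ker_mk'] at hle
    have htop : Cfsg.oddCore G = ⊤ := top_le_iff.1 hle
    have hodd : Odd (Nat.card (Cfsg.oddCore G)) := Cfsg.Agent.Lib.Helper9.oddCore_odd
    rw [htop, Subgroup.card_top] at hodd
    have h2 : 2 ∣ Nat.card G := ho ▸ orderOf_dvd_natCard u
    exact (Nat.not_even_iff_odd.2 hodd) (even_iff_two_dvd.2 h2)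
  · intro h
    obtain ⟨f, hf⟩ := exists_hom_of_not_perfect h
    obtain ⟨hc, hfu, hsq, huniq⟩ := lin_facts u hu c hyp hf
    subst hc
    have hv := vanish u hu hyp hf hfu huniq
    have hcard := card_centralizer u hf hfu hv
    have hle : Subgroup.zpowers u ≤ Subgroup.centralizer ({u} : Set G) := by
      rw [Subgroup.zpowers_le, Subgroup.mem_centralizer_iff]
      intro x hx
      rw [Set.mem_singleton_iff.1 hx]
    have ho : orderOf u = 2 := by
      have h1 : orderOf u ∣ 2 := by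
        rw [← hcard, ← Nat.card_zpowers]
        exact Subgroup.card_dvd_of_le hle
      rcases (Nat.dvd_prime Nat.prime_two).1 h1 with h2 | h2
      · exact absurd (orderOf_eq_one_iff.1 h2) hu
      · exact h2
    have hCeq : Subgroup.centralizer ({u} : Set G) = Subgroup.zpowers u := by
      symm
      apply Subgroup.eq_of_le_of_card_ge hle
      rw [hcard, Nat.card_zpowers, ho]
    have huu : u * u = 1 := by
      rw [← pow_two, ← ho, pow_orderOf_eq_one]
    have hC : ∀ g : G, g * u = u * g → g = 1 ∨ g = u := by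
      intro g hg
      have hg' : g ∈ Subgroup.centralizer ({u} : Set G) := by
        rw [Subgroup.mem_centralizer_iff]
        intro x hx
        rw [Set.mem_singleton_iff.1 hx]
        exact hg.symm
      rw [hCeq, Subgroup.mem_zpowers_iff] at hg'
      obtain ⟨i, rfl⟩ := hg'
      rcases Int.even_or_odd' i with ⟨k, rfl | rfl⟩
      · left
        rw [zpow_mul, zpow_two, huu, one_zpow]
      · right
        rw [zpow_add, zpow_mul, zpow_two, huu, one_zpow, one_mul, zpow_one]
    have hodd := odd_ker u hfu huu hC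
    have hK : f.ker ≤ Cfsg.oddCore G :=
      Cfsg.Agent.Lib.Helper5.le_pPrimeCore inferInstance (Nat.coprime_two_right.2 hodd)
    refine ⟨ho, ?_, hCeq⟩
    rw [eq_top_iff]
    intro g _
    have hg2 : f g * f g = 1 := by
      have := DFunLike.congr_fun hsq g
      rwa [MonoidHom.mul_apply, MonoidHom.one_apply] at this
    have hg3 : f g = 1 ∨ f g = -1 := by
      have h4 : ((f g : ℂˣ) : ℂ) * ((f g : ℂˣ) : ℂ) = 1 := by
        rw [← Units.val_mul, hg2, Units.val_one]
      rcases mul_self_eq_one_iff.1 h4 with h5 | h5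
      · left; exact Units.ext h5
      · right; exact Units.ext (by rw [h5]; simp)
    rcases hg3 with h1 | h1
    · exact (le_sup_right : Cfsg.oddCore G ≤ _) (hK h1)
    · have h3 : u⁻¹ * g ∈ f.ker := by
        rw [MonoidHom.mem_ker, map_mul, map_inv, hfu, h1]
        simp
      have : g = u * (u⁻¹ * g) := by group
      rw [this]
      exact mul_mem ((le_sup_left : Subgroup.zpowers u ≤ _) (Subgroup.mem_zpowers u))
        ((le_sup_right : Cfsg.oddCore G ≤ _) (hK h3))

end Cfsg.Agent.S4757
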