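import Cfsg.Statements.S4762
import Cfsg.Agent.Lib.Helper25.Extra2
import Cfsg.Agent.Lib.Helper25.Ito
import Cfsg.Agent.Lib.Helper10.Fitting
import Cfsg.Agent.Lib.Helper12.TwoGroup
import Cfsg.Agent.Lib.Helper1.Frattini

set_option autoImplicit false
open Cfsg

namespace Cfsg.Agent.S4762

open Cfsg.Agent.Lib.Helper25 Cfsg.Agent.Lib

/-- Let p be a prime and G a finite nilpotent group. Then G has exactly one irreducible complex character of degree divisible by p if and only if p = 2 and G is an extraspecial 2-group. -/
theorem result {G : Type*} [Group G] [Finite G] [Group.IsNilpotent G] (p : ℕ) [Fact p.Prime] : Nat.card {χ : Cfsg.IrrCharacter G // p ∣ Cfsg.charDegree (χ : G → ℂ)} = 1 ↔ (p = 2 ∧ Cfsg.IsExtraspecial 2 G) := by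
  classical
  cases nonempty_fintype G
  have := Helper2.finite_irrCharacter (G := G)
  have : Fintype (IrrCharacter G) := Fintype.ofFinite _
  constructor
  · intro hcount
    obtain ⟨hss, ⟨χ₀, hχ₀⟩⟩ := Nat.card_eq_one_iff_unique.mp hcount
    have huniq : ∀ χ : IrrCharacter G, p ∣ charDegree (χ : G → ℂ) → χ = χ₀ := fun χ h =>
      congrArg Subtype.val (hss.elim ⟨χ, h⟩ ⟨χ₀, hχ₀⟩)
    have hsyl : ∀ (q : ℕ) (_ : Fact q.Prime) (Q : Sylow q G), (Q : Subgroup G).Normal :=
      ((Group.isNilpotent_of_finite_tfae (G := G)).out 0 3).mp ‹Group.IsNilpotent G›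
    obtain ⟨P⟩ : Nonempty (Sylow p G) := inferInstance
    have hPn : (P : Subgroup G).Normal := hsyl p inferInstance P
    set M : Subgroup G := ⁅(P : Subgroup G), (P : Subgroup G)⁆ with hM
    have hMn : M.Normal := inferInstance
    have hMP : M ≤ P := Subgroup.commutator_le_left _ _
    have hM1 : M ≠ ⊥ := by
      intro h0
      have hab : ∀ a ∈ (P : Subgroup G), ∀ b ∈ (P : Subgroup G), a * b = b * a := by
        intro a ha b hb
        have h1 := Subgroup.commutator_mem_commutator ha hb
        rw [← hM, h0, Subgroup.mem_bot, commutatorElement_eq_one_iff_mul_comm] at h1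
        exact h1
      obtain ⟨d, hd, hdvd⟩ := ito_aux _ G rfl (P : Subgroup G) hab _ χ₀.2
      rw [charDegree_eq hd] at hχ₀
      exact P.not_dvd_index (hχ₀.trans hdvd)
    have hker : ∀ χ : IrrCharacter G, χ ≠ χ₀ → ∀ n ∈ M, (χ : G → ℂ) n = (χ : G → ℂ) 1 :=
      fun χ hχ => eq_degree_on_commutator_of_not_dvd (P : Subgroup G) P.2 χ.2
        (fun h => hχ (huniq χ h))
    have h1 := sum_charDegree_sq (G := G)
    have h2 := sum_sq_of_le_ker M
    have h3 := card_center_mul_sq_le χ₀.2
    have h4 : Nat.card G ≤ M.index + (charDegree (χ₀ : G → ℂ)) ^ 2 := by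
      rw [← h1, ← h2, ← Finset.sum_filter_add_sum_filter_not Finset.univ
        (fun χ : IrrCharacter G => ∀ n ∈ M, (χ : G → ℂ) n = (χ : G → ℂ) 1)]
      apply Nat.add_le_add_left
      calc _ ≤ ∑ χ ∈ {χ₀}, (charDegree (χ : G → ℂ)) ^ 2 := by
            apply Finset.sum_le_sum_of_subset
            intro χ hχ
            rw [Finset.mem_singleton]
            by_contra hne
            exact (Finset.mem_filter.mp hχ).2 (hker χ hne)
        _ = _ := Finset.sum_singleton _ _
    have hm2 : 2 ≤ Nat.card M := by
      have : Nat.card M ≠ 1 := fun h => hM1 (Subgroup.card_eq_one.mp h)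
      have : 0 < Nat.card M := Nat.card_pos
      omega
    have hZM : M ⊓ Subgroup.center G ≠ ⊥ := Helper10.normal_inf_center_ne_bot M hMn hM1
    have hz2 : 2 ≤ Nat.card (Subgroup.center G) := by
      have : Nat.card (Subgroup.center G) ≠ 1 := fun h => by
        rw [Subgroup.card_eq_one] at h
        rw [h, inf_bot_eq] at hZM
        exact hZM rfl
      have : 0 < Nat.card (Subgroup.center G) := Nat.card_pos
      omega
    have h5 := M.card_mul_index
    have hi : 0 < M.index := Nat.pos_of_ne_zero M.index_ne_zero_of_finite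
    set z := Nat.card (Subgroup.center G) with hz
    set m := Nat.card M with hm
    set i := M.index with hidx
    set d := charDegree (χ₀ : G → ℂ) with hd
    have h6 : z * m ≤ z + m := by
      have e1 : z * (m * i) ≤ z * i + m * i := by
        calc z * (m * i) = z * Nat.card G := by rw [h5]
          _ ≤ z * (i + d ^ 2) := Nat.mul_le_mul_left _ h4
          _ = z * i + z * d ^ 2 := by ring
          _ ≤ z * i + Nat.card G := Nat.add_le_add_left h3 _
          _ = z * i + m * i := by rw [h5]
      have e2 : (z * m) * i ≤ (z + m) * i := by nlinarith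
      exact Nat.le_of_mul_le_mul_right e2 hi
    have hz' : z = 2 := by nlinarith
    have hm' : m = 2 := by nlinarith
    have hp2 : p = 2 := by
      obtain ⟨k, hk⟩ := IsPGroup.iff_card.mp (P.2.to_le hMP)
      rw [← hm, hm'] at hk
      have hk0 : k ≠ 0 := by
        rintro rfl
        simp at hk
      have : p ∣ 2 := by
        rw [hk]
        exact dvd_pow_self p hk0
      exact (Nat.prime_dvd_prime_iff_eq Fact.out Nat.prime_two).mp this
    have hcard2 : ∀ K : Subgroup G, K ⊓ Subgroup.center G ≠ ⊥ →
        Nat.card (K ⊓ Subgroup.center G : Subgroup G) = 2 := by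
      intro K hK
      have e1 : Nat.card (K ⊓ Subgroup.center G : Subgroup G) ∣ 2 := by
        rw [← hz', hz]
        exact Subgroup.card_dvd_of_le inf_le_right
      rcases (Nat.dvd_prime Nat.prime_two).mp e1 with e2 | e2
      · exact absurd (Subgroup.card_eq_one.mp e2) hK
      · exact e2
    have hMZ : M = Subgroup.center G := by
      have e1 : M ⊓ Subgroup.center G = M :=
        Subgroup.eq_of_le_of_card_ge inf_le_left (by rw [hcard2 M hZM, ← hm, hm'])
      have e2 : M ≤ Subgroup.center G := by
        rw [← e1]
        exact inf_le_right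
      exact Subgroup.eq_of_le_of_card_ge e2 (by rw [← hm, hm', ← hz, hz'])
    have hG2 : IsPGroup 2 G := by
      apply IsPGroup.of_card (n := (Nat.card G).primeFactorsList.length)
      apply Nat.eq_prime_pow_of_unique_prime_dvd Nat.card_pos.ne'
      intro q hq hqd
      have := Fact.mk hq
      obtain ⟨Q⟩ : Nonempty (Sylow q G) := inferInstance
      have hQ1 : (Q : Subgroup G) ≠ ⊥ := by
        intro h0
        have := Q.not_dvd_index
        rw [h0, Subgroup.index_bot] at this
        exact this hqd
      have e1 := hcard2 Q (Helper10.normal_inf_center_ne_bot _ (hsyl q inferInstance Q) hQ1)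
      obtain ⟨k, hk⟩ := IsPGroup.iff_card.mp
        (Q.2.to_le (inf_le_left : (Q : Subgroup G) ⊓ Subgroup.center G ≤ Q))
      rw [e1] at hk
      have hk0 : k ≠ 0 := by
        rintro rfl
        simp at hk
      have : q ∣ 2 := by
        rw [hk]
        exact dvd_pow_self q hk0
      exact (Nat.prime_dvd_prime_iff_eq hq Nat.prime_two).mp this
    subst hp2
    have hPtop : (P : Subgroup G) = ⊤ := by
      have := P.is_maximal' (Q := ⊤) (hG2.to_subgroup ⊤) le_top
      exact this.symm
    have hcomm : commutator G = Subgroup.center G := by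
      rw [← hMZ, hM, hPtop, commutator_def]
    have hsq : ∀ c ∈ Subgroup.center G, c * c = 1 := by
      intro c hc
      have := pow_card_eq_one' (G := Subgroup.center G) (x := ⟨c, hc⟩)
      rw [← hz, hz'] at this
      have := congrArg Subtype.val this
      simpa [pow_two] using this
    have hsqc : ∀ x : G, x * x ∈ Subgroup.center G := by
      intro x
      rw [Subgroup.mem_center_iff]
      intro y
      have hc : x * y * x⁻¹ * y⁻¹ ∈ Subgroup.center G := by
        rw [← hcomm, commutator_def]
        exact Subgroup.commutator_mem_commutator (Subgroup.mem_top x) (Subgroup.mem_top y)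
      set c := x * y * x⁻¹ * y⁻¹ with hcdef
      have e1 : x * y = c * (y * x) := by rw [hcdef]; group
      have e2 : ∀ w, w * c = c * w := Subgroup.mem_center_iff.mp hc
      calc y * (x * x) = (c * c) * (y * x * x) := by rw [hsq c hc, one_mul, mul_assoc]
        _ = c * (c * (y * x)) * x := by group
        _ = c * (x * y) * x := by rw [← e1]
        _ = (x * c) * y * x := by rw [e2 x]; group
        _ = x * (c * (y * x)) := by group
        _ = x * (x * y) := by rw [← e1]
        _ = x * x * y := by group
    refine ⟨rfl, ⟨hG2, ?_, hcomm⟩, hz'⟩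
    apply le_antisymm
    · have e1 := frattini_le_comap_frattini_of_surjective
        (QuotientGroup.mk'_surjective (Subgroup.center G))
      have e2 : frattini (G ⧸ Subgroup.center G) = ⊥ := by
        apply Helper12.frattini_eq_bot_of_sq
        intro r
        obtain ⟨x, rfl⟩ := QuotientGroup.mk_surjective r
        rw [← QuotientGroup.mk_mul, QuotientGroup.eq_one_iff]
        exact hsqc x
      rw [e2, MonoidHom.comap_bot, QuotientGroup.ker_mk'] at e1
      exact e1
    · rw [← hcomm]
      exact Helper1.pgroup_commutator_le_frattini hG2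
  · rintro ⟨rfl, hE⟩
    have hG2 : IsPGroup 2 G := hE.1.1
    have hcomm : commutator G = Subgroup.center G := hE.1.2.2
    have hz : Nat.card (Subgroup.center G) = 2 := hE.2
    have hlin := Cfsg.Agent.S0154.result (G := G)
    rw [hcomm] at hlin
    have h5 := (Subgroup.center G).card_mul_index
    rw [hz] at h5
    set h := (Subgroup.center G).index with hh
    have hpos : 0 < h := Nat.pos_of_ne_zero (Subgroup.index_ne_zero_of_finite)
    have hiff : ∀ χ : IrrCharacter G, 2 ∣ charDegree (χ : G → ℂ) ↔ (χ : G → ℂ) 1 ≠ 1 := by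
      intro χ
      rw [apply_one_eq_charDegree χ.2]
      constructor
      · intro h2 h1
        have : charDegree (χ : G → ℂ) = 1 := by exact_mod_cast h1
        rw [this] at h2
        omega
      · intro h1
        obtain ⟨k, hk⟩ := IsPGroup.iff_card.mp hG2
        have h4 := Helper7.charDegree_dvd_card χ
        rw [hk] at h4
        obtain ⟨j, -, hj⟩ := (Nat.dvd_prime_pow Nat.prime_two).mp h4
        rw [hj]
        apply dvd_pow_self
        rintro rfl
        apply h1
        rw [hj]
        simp
    have hdeg : ∀ χ : IrrCharacter G, (χ : G → ℂ) 1 ≠ 1 → (charDegree (χ : G → ℂ)) ^ 2 = h := by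
      intro χ hnl
      have h1 := sum_norm_sq_eq_card χ.2
      have h2 : ∀ x : G, ‖(χ : G → ℂ) x‖ ^ 2
          = if x ∈ Subgroup.center G then (charDegree (χ : G → ℂ) : ℝ) ^ 2 else 0 := by
        intro x
        split_ifs with hx
        · rw [norm_eq_degree_of_comm_mod_ker χ.2 x, apply_one_eq_charDegree χ.2,
            Complex.norm_natCast]
          intro c
          have := Subgroup.mem_center_iff.1 hx c
          have e : x * c * x⁻¹ * c⁻¹ = 1 := by rw [← this]; group
          rw [e]
        · rw [extraspecial_vanish hE χ.2 hnl hx]; simp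
      simp only [h2] at h1
      rw [← Finset.sum_filter, Finset.sum_const, nsmul_eq_mul] at h1
      have h3 : (Finset.univ.filter (fun x : G => x ∈ Subgroup.center G)).card = 2 := by
        rw [← hz, Nat.card_eq_fintype_card, Fintype.card_subtype]
      rw [h3, ← h5] at h1
      have h4 : 2 * (charDegree (χ : G → ℂ)) ^ 2 = 2 * h := by exact_mod_cast h1
      omega
    have h1 := sum_charDegree_sq (G := G)
    rw [← Finset.sum_filter_add_sum_filter_not Finset.univ
        (fun χ : IrrCharacter G => (χ : G → ℂ) 1 = 1)] at h1
    rw [Finset.sum_congr rfl (g := fun _ => 1), Finset.sum_const, smul_eq_mul, mul_one] at h1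
    · rw [Finset.sum_congr rfl (g := fun _ => h) (s₁ := Finset.univ.filter
        (fun χ : IrrCharacter G => ¬ (χ : G → ℂ) 1 = 1)), Finset.sum_const, smul_eq_mul] at h1
      · rw [Nat.card_eq_fintype_card, Fintype.card_subtype] at hlin
        rw [hlin, ← h5] at h1
        rw [Nat.card_eq_fintype_card, Fintype.card_subtype]
        simp_rw [hiff]
        have : (Finset.univ.filter (fun χ : IrrCharacter G => ¬ (χ : G → ℂ) 1 = 1)).card * h
            = 1 * h := by omega
        exact Nat.eq_of_mul_eq_mul_right hpos this
      · intro χ hχ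
        exact hdeg χ (Finset.mem_filter.mp hχ).2
    · intro χ hχ
      have := (Finset.mem_filter.mp hχ).2
      rw [apply_one_eq_charDegree χ.2] at this
      have : charDegree (χ : G → ℂ) = 1 := by exact_mod_cast this
      rw [this, one_pow]

end Cfsg.Agent.S4762
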