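import Cfsg.Statements.S4763
import Cfsg.Agent.Lib.Helper25.PNilClass1
import Cfsg.Agent.Lib.Helper25.CopAct9
import Cfsg.Agent.Lib.Helper25.TwoDeg7
import Cfsg.Agent.Lib.Helper25.PRes3

set_option autoImplicit false
open Cfsg

namespace Cfsg.Agent.S4763

open Cfsg.Agent.Lib.Helper25 Cfsg.Agent.Lib

/-- Let p be a prime and G a finite group that is not nilpotent and has a normal p-complement (a normal subgroup of order prime to p and index a power of p). If G has exactly one irreducible complex character of degree divisible by p, then G has exactly one conjugacy class whose size is divisible by p. -/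
theorem result {G : Type*} [Group G] [Finite G] (p : ℕ) [Fact p.Prime] (hnil : ¬ Group.IsNilpotent G) (N : Subgroup G) [N.Normal] (hN : (Nat.card N).Coprime p) (hidx : ∃ k : ℕ, N.index = p ^ k) (hone : Nat.card {χ : Cfsg.IrrCharacter G // p ∣ Cfsg.charDegree (χ : G → ℂ)} = 1) : Nat.card {C : ConjClasses G // p ∣ Nat.card C.carrier} = 1 := by
  classical
  have hp : p.Prime := Fact.out
  obtain ⟨k, hk⟩ := hidx
  have hcopidx : (Nat.card N).Coprime N.index := by rw [hk]; exact Nat.Coprime.pow_right k hN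
  obtain ⟨P, hPc⟩ := Subgroup.exists_right_complement'_of_coprime hcopidx
  have hcardP : Nat.card P = p ^ k := by rw [← hk]; exact hPc.symm.index_eq_card.symm
  have hsup : N ⊔ P = ⊤ := hPc.sup_eq_top
  have hcop : (Nat.card N).Coprime (Nat.card P) := by
    rw [hcardP]; exact Nat.Coprime.pow_right k hN
  have hP : IsPGroup p P := IsPGroup.of_card hcardP
  obtain ⟨π, hπK, hπH⟩ := exists_retract N P hsup hcop
  have hπs : Function.Surjective π := fun h => ⟨h, hπH h⟩
  have huniq : ∀ χ ψ : G → ℂ, IsIrrCharacter G χ → IsIrrCharacter G ψ → p ∣ charDegree χ →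
      p ∣ charDegree ψ → χ = ψ := by
    intro χ ψ hχ hψ h1 h2
    have hss : Subsingleton {χ : IrrCharacter G // p ∣ charDegree (χ : G → ℂ)} :=
      (Nat.card_eq_one_iff_unique.1 hone).1
    have := Subsingleton.elim
      (⟨⟨χ, hχ⟩, h1⟩ : {χ : IrrCharacter G // p ∣ charDegree (χ : G → ℂ)}) ⟨⟨ψ, hψ⟩, h2⟩
    exact congrArg (fun x => (x.1 : G → ℂ)) this
  have hk0 : k ≠ 0 := by
    rintro rfl
    obtain ⟨⟨χ, hχ⟩⟩ := (Nat.card_eq_one_iff_unique.1 hone).2
    have h1 := Helper7.charDegree_dvd_card χ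
    have h2 : Nat.card G = Nat.card N := by rw [← N.card_mul_index, hk]; simp
    rw [h2] at h1
    have h4 := Nat.Coprime.coprime_dvd_left (hχ.trans h1) hN
    rw [Nat.coprime_self] at h4
    exact hp.one_lt.ne' h4
  have hiff : ∀ m : ℕ, m.Coprime (Nat.card P) ↔ ¬ p ∣ m := by
    intro m
    rw [hcardP, Nat.coprime_pow_right_iff (Nat.pos_of_ne_zero hk0), Nat.coprime_comm,
      hp.coprime_iff_not_dvd]
  have hNbot : N ≠ ⊥ := by
    intro hb
    apply hnil
    have h2 : Nat.card G = p ^ k := by rw [← N.card_mul_index, hk, hb]; simp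
    exact (IsPGroup.of_card h2).isNilpotent
  obtain ⟨n₀, hn₀, hn₀1⟩ : ∃ n₀ ∈ N, n₀ ≠ 1 := by
    by_contra hcon
    push Not at hcon
    exact hNbot ((Subgroup.eq_bot_iff_forall N).2 hcon)
  have hcomm : ∀ a b : P, a * b = b * a := by
    apply comm_of_forall_linear
    intro ψ
    by_contra hne
    obtain ⟨d, hd0, hd⟩ := Helper7.irr_apply_one ψ.2
    have hdd : d ∣ p ^ k := by
      have := Helper7.charDegree_dvd_card ψ
      rwa [charDegree_eq hd, hcardP] at this
    have hpd : p ∣ d := by
      obtain ⟨j, -, rfl⟩ := (Nat.dvd_prime_pow hp).1 hdd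
      rcases Nat.eq_zero_or_pos j with rfl | hj
      · exfalso; apply hne; rw [hd]; simp
      · exact dvd_pow_self p hj.ne'
    obtain ⟨χ₀, hχ₀def⟩ : ∃ χ₀ : G → ℂ, ∀ g, χ₀ g = (ψ : P → ℂ) (π g) := ⟨_, fun _ => rfl⟩
    have hχ₀ : IsIrrCharacter G χ₀ := by
      have : χ₀ = fun g => (ψ : P → ℂ) (π g) := funext hχ₀def
      rw [this]
      exact isIrrCharacter_comp_surjective π hπs ψ.2
    have hχ₀1 : χ₀ 1 = d := by
      rw [hχ₀def, map_one, hd]
    have hχ₀N : ∀ m ∈ N, χ₀ m = χ₀ 1 := by
      intro m hm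
      have : π m = 1 := by rw [← MonoidHom.mem_ker, hπK]; exact hm
      rw [hχ₀def, hχ₀def, this, map_one]
    apply hn₀1
    apply eq_one_of_forall_irr
    intro χ hχ
    by_cases hpχ : p ∣ charDegree χ
    · have := huniq χ _ hχ hχ₀ hpχ (by rw [charDegree_eq hχ₀1]; exact hpd)
      rw [this]
      exact hχ₀N n₀ hn₀
    · obtain ⟨θ, hθ, hθinv, hθE⟩ := exists_of_coprime_degree N P π hπK hπH hχ ((hiff _).2 hpχ)
      obtain ⟨E, hE, hEN⟩ := exists_ext_of_invUnder N P π hπK hπH hcop hθ hθinv
      obtain ⟨l, hl⟩ := hθE E hE hEN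
      have hres : IsIrrCharacter N (fun m : N => χ m) := by
        have : (fun m : N => χ m) = θ := by
          funext m
          have hm : π m = 1 := by rw [← MonoidHom.mem_ker, hπK]; exact m.2
          rw [hl]
          simp only [hm, map_one, Units.val_one, one_mul]
          exact hEN m
        rw [this]
        exact hθ
      have hprod := gallagher_mul_irr N hχ hres hχ₀ hχ₀N
      obtain ⟨e, he0, he⟩ := Helper7.irr_apply_one hχ
      have hprod1 : (χ₀ * χ) 1 = ((d * e : ℕ) : ℂ) := by
        rw [Pi.mul_apply, hχ₀1, he]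
        push_cast
        ring
      have heq := huniq _ _ hprod hχ₀ (by rw [charDegree_eq hprod1]; exact Dvd.dvd.mul_right hpd e)
        (by rw [charDegree_eq hχ₀1]; exact hpd)
      have hdne : (d : ℂ) ≠ 0 := by exact_mod_cast hd0.ne'
      have h1 := congrFun heq 1
      have h2 := congrFun heq n₀
      rw [Pi.mul_apply] at h1 h2
      rw [hχ₀N n₀ hn₀] at h2
      rw [hχ₀1] at h1 h2
      have h1' : χ 1 = 1 := mul_left_cancel₀ hdne (by rw [h1, mul_one])
      have h2' : χ n₀ = 1 := mul_left_cancel₀ hdne (by rw [h2, mul_one])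
      rw [h1', h2']
  have hsolv : Group.IsSolvable P := by
    have := hP.isNilpotent
    infer_instance
  have hA := card_irr_coprime N P hsup hcop hsolv
  have hB := card_pprime_classes p N P hsup hcop hP hN
    (fun a ha b hb => congrArg Subtype.val (hcomm ⟨a, ha⟩ ⟨b, hb⟩))
  have hcardhom : Nat.card (P →* ℂˣ) = Nat.card P := by
    let _ : CommGroup P := { (inferInstance : Group P) with mul_comm := hcomm }
    exact CommGroup.card_monoidHom_of_hasEnoughRootsOfUnity P ℂ
  rw [hcardhom, Helper7.card_irr_eq_card_conjClasses, ← hB] at hA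
  have hA' : Nat.card {χ : IrrCharacter G // ¬ p ∣ charDegree (χ : G → ℂ)} =
      Nat.card {C : ConjClasses G // ¬ p ∣ Nat.card C.carrier} := by
    rw [← hA]
    exact Nat.card_congr (Equiv.subtypeEquivRight fun χ => (hiff _).symm)
  have hfin := Helper2.finite_irrCharacter (G := G)
  have hT := Helper7.card_irr_eq_card_conjClasses (G := G)
  have h1 : Nat.card (IrrCharacter G) = Nat.card {χ : IrrCharacter G // p ∣ charDegree (χ : G → ℂ)} +
      Nat.card {χ : IrrCharacter G // ¬ p ∣ charDegree (χ : G → ℂ)} := by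
    rw [← Nat.card_sum]
    exact Nat.card_congr (Equiv.sumCompl _).symm
  have h2 : Nat.card (ConjClasses G) = Nat.card {C : ConjClasses G // p ∣ Nat.card C.carrier} +
      Nat.card {C : ConjClasses G // ¬ p ∣ Nat.card C.carrier} := by
    rw [← Nat.card_sum]
    exact Nat.card_congr (Equiv.sumCompl _).symm
  omega

end Cfsg.Agent.S4763
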