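import Cfsg.Statements.S4784
import Cfsg.Agent.Lib.Helper25.FrobSchur4

set_option autoImplicit false
open Cfsg

namespace Cfsg.Agent.S4784

open Cfsg.Agent.Lib.Helper25 Cfsg.Agent.Lib.Helper7

/-- Let H be a subgroup of the finite group G and consider the permutation character of G on the cosets of H (the function induced from the principal character of H). Then exactly one irreducible constituent of it is real-valued with Frobenius–Schur indicator +1 (namely the principal character) if and only if the normal core of H has odd index in G. -/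
theorem result {G : Type*} [Group G] [Fintype G] (H : Subgroup G) : Nat.card {χ : Cfsg.IrrCharacter G // Cfsg.classInner (Cfsg.indFun H (fun _ : H => (1 : ℂ))) (χ : G → ℂ) ≠ 0 ∧ (∀ g : G, (starRingEnd ℂ) ((χ : G → ℂ) g) = (χ : G → ℂ) g) ∧ (Nat.card G : ℂ)⁻¹ * ∑ g : G, (χ : G → ℂ) (g * g) = 1} = 1 ↔ Odd H.normalCore.index := by
  classical
  have := Cfsg.Agent.Lib.Helper2.finite_irrCharacter (G := G)
  cases nonempty_fintype (Cfsg.IrrCharacter G)
  set π : G → ℂ := Cfsg.indFun H (fun _ : H => (1 : ℂ)) with hπ
  have hG : (Nat.card G : ℂ) ≠ 0 := by exact_mod_cast Nat.card_pos.ne'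
  have hH : (Nat.card H : ℂ) ≠ 0 := by exact_mod_cast Nat.card_pos.ne'
  have hext : ∀ y : G, Cfsg.extendByZero H (fun _ : H => (1 : ℂ)) y = if y ∈ H then 1 else 0 := by
    intro y
    split_ifs with hy
    · rw [extendByZero_mem H _ hy]
    · rw [extendByZero_not_mem H _ hy]
  let c : G → ℕ := fun g => (Finset.univ.filter (fun x : G => x⁻¹ * g * x ∈ H)).card
  have hπc : ∀ g, π g = (Nat.card H : ℂ)⁻¹ * (c g : ℂ) := by
    intro g
    rw [hπ, indFun_apply]
    simp only [hext, c, Finset.card_filter]
    push_cast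
    rfl
  have hπchar : Cfsg.IsCharacter G π := isCharacter_indFun H _ isCharacter_one
  let one : Cfsg.IrrCharacter G := ⟨fun _ => 1, isIrrCharacter_one⟩
  have hπ1 : Cfsg.classInner π (one : G → ℂ) = 1 := by
    rw [hπ, frobenius_reciprocity H _ _ (Cfsg.Agent.Lib.Helper7.isClassFunction_of_isCharacter isCharacter_one)]
    exact classInner_irr_self isIrrCharacter_one
  have hν1 : fsInd (one : G → ℂ) = 1 := by
    simp only [fsInd, one, Finset.sum_const, Finset.card_univ, nsmul_eq_mul,
      mul_one, Nat.card_eq_fintype_card]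
    exact inv_mul_cancel₀ (by exact_mod_cast Fintype.card_ne_zero)
  have hone : Cfsg.classInner π (one : G → ℂ) ≠ 0 ∧
      (∀ g : G, (starRingEnd ℂ) ((one : G → ℂ) g) = (one : G → ℂ) g) ∧
      (Nat.card G : ℂ)⁻¹ * ∑ g : G, (one : G → ℂ) (g * g) = 1 :=
    ⟨by rw [hπ1]; exact one_ne_zero, fun g => by simp [one], hν1⟩
  rw [Nat.card_eq_one_iff_unique]
  constructor
  · rintro ⟨hsub, -⟩
    by_contra hnodd
    rw [Nat.not_odd_iff_even] at hnodd
    obtain ⟨q, hq⟩ := exists_prime_orderOf_dvd_card' (G := G ⧸ H.normalCore) 2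
      (even_iff_two_dvd.1 hnodd)
    obtain ⟨t, rfl⟩ := QuotientGroup.mk_surjective q
    have ht1 : t ∉ H.normalCore := by
      intro h
      rw [(QuotientGroup.eq_one_iff t).2 h, orderOf_one] at hq
      norm_num at hq
    have ht2 : t * t ∈ H.normalCore := by
      rw [← QuotientGroup.eq_one_iff, QuotientGroup.mk_mul, ← pow_two, ← hq, pow_orderOf_eq_one]
    have hx0 : ∃ x : G, x⁻¹ * t * x ∉ H := by
      by_contra hall
      push Not at hall
      apply ht1
      intro b
      simpa using hall b⁻¹
    obtain ⟨x0, hx0⟩ := hx0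
    have hlt : ∑ g, c g < ∑ g, c (g * g) := by
      apply Finset.sum_lt_sum
      · intro g _
        apply Finset.card_le_card
        intro x hx
        simp only [Finset.mem_filter, Finset.mem_univ, true_and] at hx ⊢
        have := H.mul_mem hx hx
        convert this using 1
        group
      · refine ⟨t, Finset.mem_univ _, ?_⟩
        apply Finset.card_lt_card
        rw [Finset.ssubset_iff_of_subset]
        · refine ⟨x0, ?_, ?_⟩
          · simp only [Finset.mem_filter, Finset.mem_univ, true_and]
            have := ht2 x0⁻¹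
            simpa using this
          · simpa using hx0
        · intro x _
          simp only [Finset.mem_filter, Finset.mem_univ, true_and]
          have := ht2 x⁻¹
          simpa using this
    obtain ⟨m, hm, -⟩ := character_eq_sum_nat hπchar
    have hz : ∀ χ : Cfsg.IrrCharacter G, ∃ z : ℤ, fsInd (χ : G → ℂ) = z ∧ (z = 0 ∨ z = 1 ∨ z = -1) := by
      intro χ
      rcases fsInd_trichotomy χ.2 with h | h | h
      · exact ⟨0, by simpa using h, Or.inl rfl⟩
      · exact ⟨1, by simpa using h, Or.inr (Or.inl rfl)⟩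
      · exact ⟨-1, by simpa using h, Or.inr (Or.inr rfl)⟩
    choose z hz hz' using hz
    have hZ : fsInd π = ((∑ χ, (m χ : ℤ) * z χ : ℤ) : ℂ) := by
      rw [fsInd_eq_sum_irr (Cfsg.Agent.Lib.Helper7.isClassFunction_of_isCharacter hπchar)]
      push_cast
      exact Finset.sum_congr rfl (fun χ _ => by rw [hm, hz])
    have hm1 : m one = 1 := by
      have := hm one
      rw [hπ1] at this
      exact_mod_cast this.symm
    have hz1 : z one = 1 := by
      have := hz one
      rw [hν1] at this
      exact_mod_cast this.symm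
    have hZle : (∑ χ, (m χ : ℤ) * z χ) ≤ 1 := by
      rw [← Finset.add_sum_erase _ _ (Finset.mem_univ one), hm1, hz1]
      have : ∑ χ ∈ Finset.univ.erase one, (m χ : ℤ) * z χ ≤ 0 := by
        apply Finset.sum_nonpos
        intro χ hχ
        have hne := Finset.ne_of_mem_erase hχ
        rcases hz' χ with h | h | h
        · rw [h]; simp
        · by_cases hm0 : m χ = 0
          · rw [hm0]; simp
          · exfalso
            apply hne
            have hfs : fsInd (χ : G → ℂ) = 1 := by rw [hz, h]; simp
            have hmem : Cfsg.classInner π (χ : G → ℂ) ≠ 0 ∧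
                (∀ g : G, (starRingEnd ℂ) ((χ : G → ℂ) g) = (χ : G → ℂ) g) ∧
                (Nat.card G : ℂ)⁻¹ * ∑ g : G, (χ : G → ℂ) (g * g) = 1 :=
              ⟨by rw [hm]; exact_mod_cast hm0, conj_eq_of_fsInd_eq_one χ.2 hfs, hfs⟩
            have := hsub.elim ⟨χ, hmem⟩ ⟨one, hone⟩
            exact congrArg Subtype.val this
        · rw [h]
          have : (0 : ℤ) ≤ m χ := Int.natCast_nonneg _
          linarith
      simp only [Nat.cast_one, mul_one]
      linarith
    have hA : (Nat.card G : ℂ) * (Nat.card H : ℂ) * fsInd π = ((∑ g, c (g * g) : ℕ) : ℂ) := by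
      simp only [fsInd, hπc]
      rw [← Finset.mul_sum]
      push_cast
      field_simp
    have hB : (Nat.card G : ℂ) * (Nat.card H : ℂ) = ((∑ g, c g : ℕ) : ℂ) := by
      have h1 := hπ1
      simp only [Cfsg.classInner, hπc, one, map_one, mul_one] at h1
      rw [← Finset.mul_sum] at h1
      push_cast
      field_simp at h1
      rw [h1]
    rw [hZ] at hA
    have hA' : ((Nat.card G * Nat.card H : ℕ) : ℤ) * (∑ χ, (m χ : ℤ) * z χ) =
        ((∑ g, c (g * g) : ℕ) : ℤ) := by exact_mod_cast hA
    have hB' : Nat.card G * Nat.card H = ∑ g, c g := by exact_mod_cast hB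
    have hpos : (0 : ℤ) ≤ ((Nat.card G * Nat.card H : ℕ) : ℤ) := Int.natCast_nonneg _
    have h5 : ((∑ g, c (g * g) : ℕ) : ℤ) ≤ ((Nat.card G * Nat.card H : ℕ) : ℤ) := by
      rw [← hA']
      nlinarith
    rw [hB'] at h5
    have h6 : ∑ g, c (g * g) ≤ ∑ g, c g := by exact_mod_cast h5
    omega
  · intro hodd
    refine ⟨⟨?_⟩, ⟨⟨one, hone⟩⟩⟩
    have hall : ∀ a : {χ : Cfsg.IrrCharacter G // Cfsg.classInner π (χ : G → ℂ) ≠ 0 ∧
        (∀ g : G, (starRingEnd ℂ) ((χ : G → ℂ) g) = (χ : G → ℂ) g) ∧
        (Nat.card G : ℂ)⁻¹ * ∑ g : G, (χ : G → ℂ) (g * g) = 1}, a.1 = one := by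
      rintro ⟨χ, h1, h2, h3⟩
      apply Subtype.ext
      apply eq_one_of_real_of_odd_index H.normalCore hodd χ.2
      · by_contra hker
        apply h1
        apply classInner_eq_zero_of_invariant H.normalCore _ χ.2 hker
        intro k hk g
        rw [hπc, hπc]
        congr 2
        simp only [c]
        congr 1
        ext x
        simp only [Finset.mem_filter, Finset.mem_univ, true_and]
        have hk' : x⁻¹ * k * x ∈ H := by
          have := hk x⁻¹
          simpa using this
        have e : x⁻¹ * (k * g) * x = (x⁻¹ * k * x) * (x⁻¹ * g * x) := by group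
        rw [e, Subgroup.mul_mem_cancel_left H hk']
      · intro g
        rw [← Complex.conj_eq_iff_im]
        exact h2 g
    intro a b
    apply Subtype.ext
    rw [hall a, hall b]

end Cfsg.Agent.S4784
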