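import Cfsg.Statements.S4796
import Cfsg.Agent.Lib.Helper25.Codegree
import Cfsg.Agent.Lib.Helper25.AbelianIndex
import Cfsg.Agent.Lib.Helper15.Frob4

set_option autoImplicit false
open Cfsg

namespace Cfsg.Agent.S4796

open Cfsg.Agent.Lib.Helper25

/-- Let G be a finite group with a faithful irreducible complex character χ whose codegree #G / χ(1) is a prime p (for a faithful character the kernel is trivial, so the codegree is #G / χ(1)). Then either G is cyclic of order p, or G is a Frobenius group whose Frobenius kernel has order p: some proper non-trivial subgroup H satisfies H ∩ gHg⁻¹ = 1 for every element g outside H, and the set of elements lying in no conjugate of H, together with the identity, has exactly p elements. -/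
theorem result {G : Type*} [Group G] [Finite G] (χ : Cfsg.IrrCharacter G) (hfaith : ∀ g : G, (χ : G → ℂ) g = (χ : G → ℂ) 1 → g = 1) (p : ℕ) (hp : p.Prime) (hcod : Nat.card G = p * Cfsg.charDegree (χ : G → ℂ)) : (IsCyclic G ∧ Nat.card G = p) ∨ ∃ H : Subgroup G, Cfsg.IsFrobeniusComplement H ∧ Nat.card ↥(Cfsg.frobeniusKernel H) = p := by
  classical
  haveI : Fact p.Prime := ⟨hp⟩
  obtain ⟨n, hn0, hn⟩ := Cfsg.Agent.Lib.Helper7.irr_apply_one χ.2
  rw [charDegree_eq hn] at hcod
  have hsq := degree_sq_le_card χ.2 hn
  have hnp : n ≤ p := by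
    rw [hcod, pow_two] at hsq
    exact Nat.le_of_mul_le_mul_right hsq hn0
  have hlt : n < p := by
    rcases lt_or_eq_of_le hnp with h | h
    · exact h
    · exfalso
      have hG : Nat.card G = p ^ 2 := by rw [hcod, h, pow_two]
      haveI := IsPGroup.isMulCommutative_of_card_eq_prime_sq hG
      have h1 := Cfsg.Agent.Lib.Helper7.irr_apply_one_of_comm χ.2
      rw [hn] at h1
      have h2 : n = 1 := by exact_mod_cast h1
      have := hp.one_lt
      omega
  by_cases hn1 : n = 1
  · left
    rw [hn1, mul_one] at hcod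
    exact ⟨isCyclic_of_prime_card hcod, hcod⟩
  right
  let P : Sylow p G := default
  have hpn : ¬ p ∣ n := Nat.not_dvd_of_pos_of_lt hn0 hlt
  have hPcard : Nat.card P = p := by
    rw [Sylow.card_eq_multiplicity, hcod, Nat.factorization_mul hp.ne_zero (by omega),
      Finsupp.add_apply, hp.factorization_self, Nat.factorization_eq_zero_of_not_dvd hpn]
    simp
  have hidx : (P : Subgroup G).index = n := by
    have := (P : Subgroup G).card_mul_index
    rw [hPcard, hcod] at this
    exact Nat.eq_of_mul_eq_mul_left hp.pos this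
  have hone : Nat.card (Sylow p G) = 1 := by
    have h1 := card_sylow_modEq_one p G
    have h2 : Nat.card (Sylow p G) ∣ n := hidx ▸ P.card_dvd_index
    have h3 : Nat.card (Sylow p G) ≤ n := Nat.le_of_dvd hn0 h2
    have h4 : Nat.card (Sylow p G) % p = 1 % p := h1
    rw [Nat.mod_eq_of_lt (lt_of_le_of_lt h3 hlt), Nat.mod_eq_of_lt hp.one_lt] at h4
    exact h4
  haveI hnorm : (P : Subgroup G).Normal := by
    have hsub : Subsingleton (Sylow p G) := (Nat.card_eq_one_iff_unique.1 hone).1
    exact Sylow.normal_of_subsingleton P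
  have hcyc : IsCyclic P := isCyclic_of_prime_card hPcard
  have hcop : Nat.Coprime (Nat.card (P : Subgroup G)) (P : Subgroup G).index := by
    rw [hPcard, hidx]
    exact (Nat.Prime.coprime_iff_not_dvd hp).2 hpn
  obtain ⟨H, hH⟩ := Subgroup.exists_right_complement'_of_coprime hcop
  have hHcard : Nat.card H = n := by
    have := hH.card_mul_card
    rw [hPcard, hcod] at this
    exact Nat.eq_of_mul_eq_mul_left hp.pos this
  have hPbot : (P : Subgroup G) ≠ ⊥ := by
    intro h
    have h1 : Nat.card (P : Subgroup G) = 1 := by rw [h]; simp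
    rw [hPcard] at h1
    exact hp.one_lt.ne' h1
  have hHbot : H ≠ ⊥ := by
    intro h
    rw [h] at hHcard
    simp at hHcard
    exact hn1 hHcard.symm
  have hf : ∀ h ∈ H, h ≠ 1 → (P : Subgroup G) ⊓ Subgroup.centralizer {h} = ⊥ := by
    intro h hh hh1
    haveI : Fact (Nat.card (P : Subgroup G)).Prime := ⟨by rw [hPcard]; exact hp⟩
    rcases ((Subgroup.centralizer {h}).subgroupOf (P : Subgroup G)).eq_bot_or_eq_top_of_prime_card
      with hb | ht
    · rw [Subgroup.subgroupOf_eq_bot] at hb
      rw [inf_comm]
      exact hb.eq_bot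
    · exfalso
      rw [Subgroup.subgroupOf_eq_top] at ht
      have hcomm : ∀ x ∈ ((P : Subgroup G) : Set G) ∪ {h}, ∀ y ∈ ((P : Subgroup G) : Set G) ∪ {h},
          x * y = y * x := by
        have hPP : ∀ x ∈ (P : Subgroup G), ∀ y ∈ (P : Subgroup G), x * y = y * x := by
          intro x hx y hy
          obtain ⟨z, hz⟩ := hcyc.exists_generator
          obtain ⟨i, hi⟩ := Subgroup.mem_zpowers_iff.1 (hz ⟨x, hx⟩)
          obtain ⟨j, hj⟩ := Subgroup.mem_zpowers_iff.1 (hz ⟨y, hy⟩)
          have : (⟨x, hx⟩ : P) * ⟨y, hy⟩ = ⟨y, hy⟩ * ⟨x, hx⟩ := by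
            rw [← hi, ← hj, ← zpow_add, ← zpow_add, add_comm]
          exact congrArg Subtype.val this
        have hPh : ∀ x ∈ (P : Subgroup G), h * x = x * h := by
          intro x hx
          exact Subgroup.mem_centralizer_singleton_iff.1 (ht hx) |>.symm
        rintro x (hx | hx) y (hy | hy)
        · exact hPP x hx y hy
        · rw [Set.mem_singleton_iff.1 hy]; exact (hPh x hx).symm
        · rw [Set.mem_singleton_iff.1 hx]; exact hPh y hy
        · rw [Set.mem_singleton_iff.1 hx, Set.mem_singleton_iff.1 hy]
      haveI := Subgroup.isMulCommutative_closure hcomm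
      have h1 := degree_le_index_of_comm χ.2
        (Subgroup.closure (((P : Subgroup G) : Set G) ∪ {h})) hn
      have hle : (P : Subgroup G) ≤ Subgroup.closure (((P : Subgroup G) : Set G) ∪ {h}) :=
        fun x hx => Subgroup.subset_closure (Or.inl hx)
      have h2 := (Subgroup.closure (((P : Subgroup G) : Set G) ∪ {h})).card_mul_index
      have h3 : Nat.card (Subgroup.closure (((P : Subgroup G) : Set G) ∪ {h})) ≤
          Nat.card (P : Subgroup G) := by
        rw [hPcard]
        rw [hcod] at h2
        by_contra hcon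
        push Not at hcon
        have : p * n < Nat.card (Subgroup.closure (((P : Subgroup G) : Set G) ∪ {h})) *
            (Subgroup.closure (((P : Subgroup G) : Set G) ∪ {h})).index :=
          calc p * n < Nat.card (Subgroup.closure (((P : Subgroup G) : Set G) ∪ {h})) * n :=
                Nat.mul_lt_mul_of_pos_right hcon hn0
            _ ≤ _ := Nat.mul_le_mul_left _ h1
        omega
      have h4 := Subgroup.eq_of_le_of_card_ge hle h3
      have h5 : h ∈ (P : Subgroup G) := by
        rw [h4]
        exact Subgroup.subset_closure (Or.inr rfl)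
      have h6 : h ∈ (P : Subgroup G) ⊓ H := ⟨h5, hh⟩
      rw [hH.disjoint.eq_bot, Subgroup.mem_bot] at h6
      exact hh1 h6
  obtain ⟨hF, hK⟩ := Cfsg.Agent.Lib.Helper15.frob_of_fpf (P : Subgroup G) H hH hPbot hHbot hf
  refine ⟨H, hF, ?_⟩
  rw [hK]
  exact hPcard

end Cfsg.Agent.S4796
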