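import Cfsg.Statements.S4797
import Cfsg.Agent.Lib.Helper25.Codegree
import Cfsg.Agent.Lib.Helper25.NotPerfect
import Cfsg.Agent.Lib.Helper2.CharDeg

set_option autoImplicit false
open Cfsg

namespace Cfsg.Agent.S4797

/-- The codegree of an irreducible complex character χ of a finite group G is [G : ker χ] / χ(1), where ker χ is the set of elements at which χ takes the value χ(1). A non-trivial finite group is perfect if and only if no irreducible complex character of it has prime codegree. -/
theorem result {G : Type*} [Group G] [Finite G] [Nontrivial G] : commutator G = ⊤ ↔ ∀ χ : Cfsg.IrrCharacter G, ¬ ((Nat.card G / (Nat.card {g : G // (χ : G → ℂ) g = (χ : G → ℂ) 1} * Cfsg.charDegree (χ : G → ℂ)))).Prime := by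
  classical
  cases nonempty_fintype G
  constructor
  · intro hperf χ hprime
    set p := Nat.card G / (Nat.card {g : G // (χ : G → ℂ) g = (χ : G → ℂ) 1} *
      Cfsg.charDegree (χ : G → ℂ)) with hp
    obtain ⟨n, ρ, hirr, hρ⟩ := id χ.2
    have hcod : Cfsg.Agent.Lib.Helper25.cod ρ.character = p := by rw [hρ]; rfl
    have h1 := Cfsg.Agent.Lib.Helper25.cod_mul ρ
    rw [hcod] at h1
    obtain ⟨hker, hone, hn0, -⟩ := Cfsg.Agent.Lib.Helper25.ker_data ρ
    set K := MonoidHom.ker ρ with hK
    have hle : n ≤ p := by
      have hs := Cfsg.Agent.Lib.Helper2.sum_char_mul_conj (χ := ρ.character) ⟨n, ρ, hirr, rfl⟩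
      simp only [Complex.mul_conj, Complex.normSq_eq_norm_sq] at hs
      have hs' : ∑ g : G, ‖ρ.character g‖ ^ 2 = (Nat.card G : ℝ) := by exact_mod_cast hs
      have h2 : ∑ g ∈ Finset.univ.filter (fun g => g ∈ K), ‖ρ.character g‖ ^ 2 ≤
          ∑ g : G, ‖ρ.character g‖ ^ 2 :=
        Finset.sum_le_sum_of_subset_of_nonneg (Finset.filter_subset _ _)
          (fun _ _ _ => by positivity)
      have h3 : ∑ g ∈ Finset.univ.filter (fun g => g ∈ K), ‖ρ.character g‖ ^ 2 =
          (Nat.card K : ℝ) * (n : ℝ) ^ 2 := by
        rw [Nat.card_eq_fintype_card, Fintype.card_subtype, ← nsmul_eq_mul, ← Finset.sum_const]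
        apply Finset.sum_congr rfl
        intro g hg
        rw [(hker g).1 (Finset.mem_filter.1 hg).2, hone]
        simp
      rw [h3, hs', ← K.card_mul_index, ← h1] at h2
      push_cast at h2
      have hKpos : (0 : ℝ) < Nat.card K := by exact_mod_cast Nat.card_pos
      have hnpos : (0 : ℝ) < n := by exact_mod_cast hn0
      have h4 : (n : ℝ) ≤ p := by
        by_contra hlt
        push Not at hlt
        have : (Nat.card K : ℝ) * ((p : ℝ) * n) < (Nat.card K : ℝ) * (n : ℝ) ^ 2 := by
          apply mul_lt_mul_of_pos_left _ hKpos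
          nlinarith
        linarith
      exact_mod_cast h4
    have hQ : commutator (G ⧸ K) = ⊤ := by
      have h2 := Subgroup.map_commutator (⊤ : Subgroup G) ⊤ (QuotientGroup.mk' K)
      rw [Subgroup.map_top_of_surjective _ (QuotientGroup.mk'_surjective K)] at h2
      have h3 : (⁅(⊤ : Subgroup G), ⊤⁆ : Subgroup G) = ⊤ := hperf
      rw [h3, Subgroup.map_top_of_surjective _ (QuotientGroup.mk'_surjective K)] at h2
      exact h2.symm
    exact Cfsg.Agent.Lib.Helper25.commutator_ne_top_of_card hprime
      (show Nat.card (G ⧸ K) = p * n from h1.symm) hn0 hle hQ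
  · intro hall
    by_contra hne
    obtain ⟨g0, hg0⟩ : ∃ g : G, g ∉ commutator G := by
      by_contra hcon
      push Not at hcon
      exact hne (eq_top_iff.2 (fun g _ => hcon g))
    have ha : (Abelianization.of g0 : Abelianization G) ≠ 1 := by
      intro h
      exact hg0 ((QuotientGroup.eq_one_iff g0).1 h)
    obtain ⟨φ, hφ⟩ := CommGroup.exists_apply_ne_one_of_hasEnoughRootsOfUnity (Abelianization G) ℂ ha
    let lam0 : G →* ℂˣ := φ.comp Abelianization.of
    have hlam0 : lam0 ≠ 1 := by
      intro h
      exact hφ (DFunLike.congr_fun h g0)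
    have hfin : lam0 ^ Nat.card G = 1 := by
      ext1 g
      rw [MonoidHom.pow_apply, ← map_pow, pow_card_eq_one', map_one, MonoidHom.one_apply]
    have ho0 : orderOf lam0 ≠ 0 := by
      rw [Ne, orderOf_eq_zero_iff, not_not]
      exact isOfFinOrder_iff_pow_eq_one.2 ⟨Nat.card G, Nat.card_pos, hfin⟩
    have ho1 : orderOf lam0 ≠ 1 := by
      rw [Ne, orderOf_eq_one_iff]
      exact hlam0
    set p := (orderOf lam0).minFac with hpdef
    have hp : p.Prime := Nat.minFac_prime ho1
    let lam : G →* ℂˣ := lam0 ^ (orderOf lam0 / p)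
    have hord : orderOf lam = p := orderOf_pow_orderOf_div ho0 (Nat.minFac_dvd _)
    have hRfin : Finite lam.range := Set.finite_range lam
    have hexp : Monoid.exponent lam.range ∣ p := by
      apply Monoid.exponent_dvd_of_forall_pow_eq_one
      rintro ⟨_, g, rfl⟩
      apply Subtype.ext
      show (lam g) ^ p = 1
      rw [← MonoidHom.pow_apply, ← hord, pow_orderOf_eq_one, MonoidHom.one_apply]
    rw [IsCyclic.exponent_eq_card] at hexp
    have hcardR : Nat.card lam.range = p := by
      rcases (Nat.dvd_prime hp).1 hexp with h | h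
      · exfalso
        have hsub : Subsingleton lam.range := (Nat.card_eq_one_iff_unique.1 h).1
        have : lam = 1 := by
          ext1 g
          have := hsub.elim ⟨lam g, g, rfl⟩ 1
          exact congrArg Subtype.val this
        rw [this, orderOf_one] at hord
        exact hp.one_lt.ne hord
      · exact h
    have hidx : lam.ker.index = p := by rw [Subgroup.index_ker, hcardR]
    let χ : Cfsg.IrrCharacter G := ⟨fun g => (lam g : ℂ), Cfsg.Agent.Lib.Helper7.isIrrCharacter_of_hom lam⟩
    have hspec := Cfsg.Agent.Lib.Helper25.cod_spec χ.2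
    have hdeg : Cfsg.charDegree (χ : G → ℂ) = 1 :=
      Cfsg.Agent.Lib.Helper25.charDegree_eq (by simp [χ])
    have hk : Nat.card {g : G // (χ : G → ℂ) g = (χ : G → ℂ) 1} = Nat.card lam.ker := by
      apply Nat.card_congr
      refine Equiv.subtypeEquivRight (fun g => ?_)
      simp only [χ, map_one, Units.val_one, MonoidHom.mem_ker]
      exact Units.val_eq_one
    rw [hdeg, hk, mul_one, ← lam.ker.card_mul_index, hidx, mul_comm] at hspec
    have hcod : Cfsg.Agent.Lib.Helper25.cod (χ : G → ℂ) = p :=
      Nat.eq_of_mul_eq_mul_left Nat.card_pos hspec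
    apply hall χ
    have : Nat.card G / (Nat.card {g : G // (χ : G → ℂ) g = (χ : G → ℂ) 1} *
      Cfsg.charDegree (χ : G → ℂ)) = p := hcod
    rw [this]
    exact hp

end Cfsg.Agent.S4797
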