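import Cfsg.Statements.S4798
import Cfsg.Agent.Lib.Helper25.Codegree
import Cfsg.Agent.Lib.Helper25.Perm
import Cfsg.Agent.Lib.Helper2.CharInt

set_option autoImplicit false
open Cfsg

namespace Cfsg.Agent.S4798

open Cfsg.Agent.Lib.Helper25 Cfsg.Agent.Lib.Helper7

/-- Let p be a prime and χ a faithful irreducible complex character of the finite group G (χ(g) = χ(1) only for g = 1), so that its codegree is #G / χ(1). Then #G / χ(1) is a power of p if and only if χ is induced from a character of a Sylow p-subgroup of G. -/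
theorem result {G : Type*} [Group G] [Fintype G] (p : ℕ) [Fact p.Prime] (χ : Cfsg.IrrCharacter G) (hfaith : ∀ g : G, (χ : G → ℂ) g = (χ : G → ℂ) 1 → g = 1) : (∃ k : ℕ, Nat.card G = p ^ k * Cfsg.charDegree (χ : G → ℂ)) ↔ ∃ (P : Sylow p G) (θ : ↥(P : Subgroup G) → ℂ), Cfsg.IsCharacter ↥(P : Subgroup G) θ ∧ (χ : G → ℂ) = Cfsg.indFun (P : Subgroup G) θ := by
  classical
  have hpp : p.Prime := Fact.out
  obtain ⟨d, hd0, hd⟩ := irr_apply_one χ.2
  rw [charDegree_eq hd]
  have hχc := Cfsg.Agent.Lib.Helper7.isCharacter_of_irr χ.2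
  -- degree of an irreducible character of a Sylow subgroup
  have hdegP : ∀ (P : Sylow p G) (θ : ↥(P : Subgroup G) → ℂ), Cfsg.IsIrrCharacter ↥(P : Subgroup G) θ →
      ∃ j : ℕ, θ 1 = ((p ^ j : ℕ) : ℂ) ∧ p ^ j ∣ Nat.card (P : Subgroup G) := by
    intro P θ hθ
    obtain ⟨n, ρ, hirr, hρ⟩ := hθ
    have h4 := Cfsg.Agent.Lib.Helper2.finrank_dvd_card ρ
    obtain ⟨k, hk⟩ := IsPGroup.iff_card.1 P.2
    have h5 := h4
    rw [hk] at h5
    obtain ⟨j, -, hj⟩ := (Nat.dvd_prime_pow hpp).1 h5
    refine ⟨j, ?_, hj ▸ h4⟩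
    rw [← hρ, Representation.char_one, hj]
  constructor
  · rintro ⟨k, hk⟩
    let P : Sylow p G := default
    haveI : Fintype (Cfsg.IrrCharacter ↥(P : Subgroup G)) := Fintype.ofFinite _
    obtain ⟨m, hm, hsum⟩ := character_eq_sum_nat (isCharacter_restrict hχc (P : Subgroup G))
    choose j hj hjd using fun θ : Cfsg.IrrCharacter ↥(P : Subgroup G) => hdegP P θ θ.2
    obtain ⟨a, ha⟩ := IsPGroup.iff_card.1 P.2
    have hidx : ¬ p ∣ (P : Subgroup G).index := P.not_dvd_index
    have hcard := (P : Subgroup G).card_mul_index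
    rw [ha, hk] at hcard
    have hdsum : d = ∑ θ : Cfsg.IrrCharacter ↥(P : Subgroup G), m θ * p ^ j θ := by
      have h1 := congrFun hsum 1
      simp only [Finset.sum_apply, Pi.smul_apply, nsmul_eq_mul, hj] at h1
      have h2 : (χ : G → ℂ) ((1 : ↥(P : Subgroup G)) : G) = d := by simpa using hd
      rw [h2] at h1
      simp only [Pi.mul_apply, Pi.natCast_apply, hj] at h1
      exact_mod_cast h1
    have hka : k ≤ a := by
      by_contra hlt
      push Not at hlt
      apply hidx
      have h1 : p ^ a * (P : Subgroup G).index = p ^ a * (p ^ (k - a) * d) := by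
        rw [hcard, ← mul_assoc, ← pow_add]
        congr 2
        omega
      have h2 := Nat.eq_of_mul_eq_mul_left (pow_pos hpp.pos a) h1
      rw [h2]
      exact Dvd.dvd.mul_right (dvd_pow_self p (by omega)) _
    have hd' : d = p ^ (a - k) * (P : Subgroup G).index := by
      have h1 : p ^ k * (p ^ (a - k) * (P : Subgroup G).index) = p ^ k * d := by
        rw [← hcard, ← mul_assoc, ← pow_add]
        congr 2
        omega
      exact (Nat.eq_of_mul_eq_mul_left (pow_pos hpp.pos k) h1).symm
    have hex : ∃ θ : Cfsg.IrrCharacter ↥(P : Subgroup G), m θ ≠ 0 ∧ j θ ≤ a - k := by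
      by_contra hcon
      push Not at hcon
      have h1 : p ^ (a - k + 1) ∣ d := by
        rw [hdsum]
        apply Finset.dvd_sum
        intro θ _
        by_cases h0 : m θ = 0
        · rw [h0]; simp
        · exact Dvd.dvd.mul_left (pow_dvd_pow p (hcon θ h0)) _
      rw [hd', pow_succ] at h1
      exact hidx (Nat.dvd_of_mul_dvd_mul_left (pow_pos hpp.pos _) h1)
    obtain ⟨θ, hθ0, hθj⟩ := hex
    refine ⟨P, θ, Cfsg.Agent.Lib.Helper7.isCharacter_of_irr θ.2, ?_⟩
    have hind := isCharacter_indFun (P : Subgroup G) (θ : ↥(P : Subgroup G) → ℂ)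
      (Cfsg.Agent.Lib.Helper7.isCharacter_of_irr θ.2)
    have hne : Cfsg.classInner (Cfsg.indFun (P : Subgroup G) (θ : ↥(P : Subgroup G) → ℂ))
        (χ : G → ℂ) ≠ 0 := by
      rw [frobenius_reciprocity _ _ _ (Cfsg.Agent.Lib.Helper7.isClassFunction_of_isCharacter hχc),
        ← Cfsg.Agent.Lib.Helper7.classInner_conj_symm]
      have : Cfsg.classInner (fun h : ↥(P : Subgroup G) => (χ : G → ℂ) h)
          (θ : ↥(P : Subgroup G) → ℂ) = m θ := hm θ
      rw [this]
      simpa using hθ0
    have hsub := isCharacter_sub_irr hind χ.2 hne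
    obtain ⟨r, hr⟩ := isCharacter_apply_one hsub
    have h1 : (Cfsg.indFun (P : Subgroup G) (θ : ↥(P : Subgroup G) → ℂ) - (χ : G → ℂ)) 1 =
        (((P : Subgroup G).index * p ^ j θ : ℕ) : ℂ) - d := by
      rw [Pi.sub_apply, indFun_one, hj, hd]
      push_cast
      ring
    rw [h1] at hr
    have h2 : (P : Subgroup G).index * p ^ j θ = r + d := by
      have : (((P : Subgroup G).index * p ^ j θ : ℕ) : ℂ) = ((r + d : ℕ) : ℂ) := by
        push_cast
        push_cast at hr
        linear_combination hr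
      exact_mod_cast this
    have h3 : (P : Subgroup G).index * p ^ j θ ≤ d := by
      rw [hd', mul_comm]
      exact Nat.mul_le_mul_right _ (Nat.pow_le_pow_right hpp.pos hθj)
    have hr0 : r = 0 := by omega
    have h4 := isCharacter_eq_zero hsub (by rw [h1, hr, hr0]; simp)
    exact (sub_eq_zero.1 h4).symm
  · rintro ⟨P, θ, hθ, hind⟩
    -- θ is nonzero, take an irreducible constituent
    have hθne : θ ≠ 0 := by
      intro h0
      have h1 := congrFun hind 1
      rw [indFun_one, h0, hd] at h1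
      simp only [Pi.zero_apply, mul_zero] at h1
      exact hd0.ne' (by exact_mod_cast h1)
    obtain ⟨θ1, hθ1, hne⟩ := exists_irr_constituent hθ hθne
    have hsub := isCharacter_sub_irr hθ hθ1 hne
    obtain ⟨j, hj, hjd⟩ := hdegP P θ1 hθ1
    have hA := isCharacter_indFun (P : Subgroup G) θ1 (Cfsg.Agent.Lib.Helper7.isCharacter_of_irr hθ1)
    have hB := isCharacter_indFun (P : Subgroup G) (θ - θ1) hsub
    have hAB : (χ : G → ℂ) = Cfsg.indFun (P : Subgroup G) θ1 + Cfsg.indFun (P : Subgroup G) (θ - θ1) := by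
      rw [hind]
      funext g
      simp only [indFun_apply, Pi.add_apply, ← mul_add, ← Finset.sum_add_distrib]
      congr 1
      apply Finset.sum_congr rfl
      intro x _
      by_cases hx : x⁻¹ * g * x ∈ (P : Subgroup G)
      · rw [extendByZero_mem _ _ hx, extendByZero_mem _ _ hx, extendByZero_mem _ _ hx]
        simp
      · rw [extendByZero_not_mem _ _ hx, extendByZero_not_mem _ _ hx, extendByZero_not_mem _ _ hx]
        simp
    have hAne : Cfsg.indFun (P : Subgroup G) θ1 ≠ 0 := by
      intro h0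
      have h1 := congrFun h0 1
      rw [indFun_one, hj] at h1
      simp only [Pi.zero_apply] at h1
      have h2 : (P : Subgroup G).index ≠ 0 := Subgroup.index_ne_zero_of_finite
      have h3 : ((P : Subgroup G).index * p ^ j : ℕ) = 0 := by exact_mod_cast h1
      rcases Nat.mul_eq_zero.1 h3 with h | h
      · exact h2 h
      · exact (pow_pos hpp.pos j).ne' h
    obtain ⟨ψ, hψ, hψne⟩ := exists_irr_constituent hA hAne
    obtain ⟨a1, ha1⟩ := classInner_char_nat hA (Cfsg.Agent.Lib.Helper7.isCharacter_of_irr hψ)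
    obtain ⟨b1, hb1⟩ := classInner_char_nat hB (Cfsg.Agent.Lib.Helper7.isCharacter_of_irr hψ)
    have hψχ : ψ = (χ : G → ℂ) := by
      by_contra hne'
      have h1 := classInner_irr_ne χ.2 hψ (fun h => hne' h.symm)
      rw [hAB, Cfsg.Agent.Lib.Helper7.classInner_add_left, ha1, hb1] at h1
      have h2 : a1 + b1 = 0 := by exact_mod_cast h1
      apply hψne
      rw [ha1]
      have : a1 = 0 := by omega
      rw [this]; simp
    subst hψχ
    have hsubA := isCharacter_sub_irr hA χ.2 hψne
    -- (A - χ) + B = 0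
    have hzero : (Cfsg.indFun (P : Subgroup G) θ1 - (χ : G → ℂ)) 1 +
        Cfsg.indFun (P : Subgroup G) (θ - θ1) 1 = 0 := by
      have := congrFun hAB 1
      simp only [Pi.add_apply] at this
      rw [Pi.sub_apply, this]
      ring
    obtain ⟨r, hr⟩ := isCharacter_apply_one hsubA
    obtain ⟨s, hs⟩ := isCharacter_apply_one hB
    rw [hr, hs] at hzero
    have hrs : r + s = 0 := by exact_mod_cast hzero
    have hr0 : r = 0 := by omega
    rw [hr0, Pi.sub_apply, indFun_one, hj, hd] at hr
    have hdeq : d = (P : Subgroup G).index * p ^ j := by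
      have : (((P : Subgroup G).index * p ^ j : ℕ) : ℂ) = (d : ℂ) := by
        push_cast
        push_cast at hr
        linear_combination hr
      exact_mod_cast this.symm
    obtain ⟨c, hc⟩ := hjd
    obtain ⟨a, ha⟩ := IsPGroup.iff_card.1 P.2
    have hcp : ∃ i, c = p ^ i := by
      have : c ∣ p ^ a := ⟨p ^ j, by rw [← ha, hc]; ring⟩
      obtain ⟨i, -, hi⟩ := (Nat.dvd_prime_pow hpp).1 this
      exact ⟨i, hi⟩
    obtain ⟨i, hi⟩ := hcp
    refine ⟨i, ?_⟩
    rw [← (P : Subgroup G).card_mul_index, hc, hi, hdeq]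
    ring

end Cfsg.Agent.S4798
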