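import Cfsg.Statements.S4801
import Cfsg.Agent.Lib.Helper25.Codegree
import Cfsg.Agent.Lib.Helper7.CharColumn
import Cfsg.Agent.Lib.Helper24.Irred

set_option autoImplicit false
open Cfsg

namespace Cfsg.Agent.S4801

/-- The codegree of an irreducible complex character χ of a finite group G is [G : ker χ] / χ(1), where ker χ is the set of elements at which χ takes the value χ(1). Let S be a finite simple group and G a finite group such that every codegree of an irreducible character of S is a codegree of an irreducible character of G. Then the order of S divides the order of G. -/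
theorem result {S : Type*} [Group S] [Finite S] (hS : IsSimpleGroup S) {G : Type*} [Group G] [Finite G] (hsub : ∀ χ : Cfsg.IrrCharacter S, ∃ ψ : Cfsg.IrrCharacter G, (Nat.card S / (Nat.card {g : S // (χ : S → ℂ) g = (χ : S → ℂ) 1} * Cfsg.charDegree (χ : S → ℂ))) = (Nat.card G / (Nat.card {g : G // (ψ : G → ℂ) g = (ψ : G → ℂ) 1} * Cfsg.charDegree (ψ : G → ℂ)))) : Nat.card S ∣ Nat.card G := by
  classical
  cases nonempty_fintype S
  have := Cfsg.Agent.Lib.Helper2.finite_irrCharacter (G := S)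
  cases nonempty_fintype (Cfsg.IrrCharacter S)
  rw [Nat.dvd_iff_prime_pow_dvd_dvd]
  intro p k hp hpk
  rcases Nat.eq_zero_or_pos k with rfl | hk
  · simp
  have hpS : p ∣ Nat.card S := (dvd_pow_self p hk.ne').trans hpk
  let one : Cfsg.IrrCharacter S := ⟨fun _ => 1, Cfsg.Agent.Lib.Helper7.isIrrCharacter_one⟩
  choose d hd0 hd using fun χ : Cfsg.IrrCharacter S => Cfsg.Agent.Lib.Helper7.irr_apply_one χ.2
  have hex : ∃ χ : Cfsg.IrrCharacter S, χ ≠ one ∧ ¬ p ∣ d χ := by
    by_contra hcon
    push Not at hcon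
    have hsum := Cfsg.Agent.Lib.Helper7.sum_sq_degrees (G := S)
    simp only [hd] at hsum
    have hsum' : ∑ χ : Cfsg.IrrCharacter S, d χ ^ 2 = Nat.card S := by exact_mod_cast hsum
    rw [← Finset.add_sum_erase _ _ (Finset.mem_univ one)] at hsum'
    have h1 : d one = 1 := by
      have := hd one
      simp only [one] at this
      exact_mod_cast this.symm
    have h2 : p ∣ ∑ χ ∈ Finset.univ.erase one, d χ ^ 2 := by
      apply Finset.dvd_sum
      intro χ hχ
      exact (hcon χ (Finset.ne_of_mem_erase hχ)).trans (dvd_pow_self _ (by norm_num))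
    rw [h1, one_pow] at hsum'
    have h3 : p ∣ 1 := by
      have := (Nat.dvd_add_left h2).1 (hsum' ▸ hpS)
      exact this
    exact hp.one_lt.ne' (Nat.dvd_one.1 h3)
  obtain ⟨χ, hχ1, hχp⟩ := hex
  obtain ⟨ψ, hψ⟩ := hsub χ
  have hker : Nat.card {g : S // (χ : S → ℂ) g = (χ : S → ℂ) 1} = 1 := by
    obtain ⟨n, ρ, hirr, hρ⟩ := χ.2
    rw [← hρ, Cfsg.Agent.Lib.Helper25.card_ker_eq]
    rcases hS.eq_bot_or_eq_top_of_normal (MonoidHom.ker ρ) inferInstance with h | h
    · rw [h]; simp
    · exfalso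
      apply hχ1
      apply Subtype.ext
      have hall : ∀ g, ρ g = 1 := fun g => MonoidHom.mem_ker.1 (h ▸ Subgroup.mem_top g)
      have hn1 : Module.finrank ℂ (Fin n → ℂ) = 1 := by
        have hnt := Cfsg.Agent.Lib.Helper2.nontrivial_of_irr ρ
        obtain ⟨v, hv⟩ := exists_ne (0 : Fin n → ℂ)
        have htop := Cfsg.Agent.Lib.Helper24.eq_top_of_invariant ρ (Submodule.span ℂ {v})
          (fun g w hw => by rw [hall g]; exact hw)
          (by rw [Ne, Submodule.span_singleton_eq_bot]; exact hv)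
        rw [← finrank_top, ← htop]
        exact finrank_span_singleton hv
      funext g
      rw [← hρ]
      show LinearMap.trace ℂ _ (ρ g) = 1
      rw [hall g]
      have : LinearMap.trace ℂ (Fin n → ℂ) 1 = (Module.finrank ℂ (Fin n → ℂ) : ℂ) :=
        LinearMap.trace_one ℂ _
      rw [this, hn1]; simp
  have h1 := Cfsg.Agent.Lib.Helper25.cod_spec χ.2
  have h2 := Cfsg.Agent.Lib.Helper25.cod_spec ψ.2
  rw [hker, one_mul, Cfsg.Agent.Lib.Helper25.charDegree_eq (hd χ)] at h1
  have h3 : p ^ k ∣ Cfsg.Agent.Lib.Helper25.cod (χ : S → ℂ) := by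
    have hc : Nat.Coprime (p ^ k) (d χ) := Nat.Coprime.pow_left _ ((Nat.Prime.coprime_iff_not_dvd hp).2 hχp)
    exact hc.dvd_of_dvd_mul_right (h1 ▸ hpk)
  have h4 : Cfsg.Agent.Lib.Helper25.cod (χ : S → ℂ) = Cfsg.Agent.Lib.Helper25.cod (ψ : G → ℂ) := hψ
  rw [← h2, ← h4]
  exact Dvd.dvd.mul_right h3 _

end Cfsg.Agent.S4801
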