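import Cfsg.Statements.S4802
import Cfsg.Agent.Lib.Helper25.Kernel

set_option autoImplicit false
open Cfsg

namespace Cfsg.Agent.S4802

/-- Let N < M be normal subgroups of the finite group G and g ∈ M ∖ N. Then the conjugacy class of g is exactly M ∖ N if and only if every irreducible complex character of G whose kernel contains N takes the same value at all elements of M ∖ N, and every irreducible complex character of G whose kernel does not contain N vanishes at g. -/
theorem result {G : Type*} [Group G] [Finite G] (N M : Subgroup G) [N.Normal] [M.Normal] (hNM : N < M) (g : G) (hgM : g ∈ M) (hgN : g ∉ N) : {h : G | IsConj g h} = (M : Set G) \ (N : Set G) ↔ ((∀ χ : Cfsg.IrrCharacter G, (∀ x ∈ N, (χ : G → ℂ) x = (χ : G → ℂ) 1) → ∀ x ∈ M, x ∉ N → ∀ y ∈ M, y ∉ N → (χ : G → ℂ) x = (χ : G → ℂ) y) ∧ (∀ χ : Cfsg.IrrCharacter G, (∃ x ∈ N, (χ : G → ℂ) x ≠ (χ : G → ℂ) 1) → (χ : G → ℂ) g = 0)) := by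
  classical
  cases nonempty_fintype G
  cases nonempty_fintype (Cfsg.IrrCharacter G)
  constructor
  · intro hcl
    have hconj : ∀ x ∈ M, x ∉ N → IsConj g x := by
      intro x hxM hxN
      have : x ∈ (M : Set G) \ (N : Set G) := ⟨hxM, hxN⟩
      rw [← hcl] at this
      exact this
    constructor
    · intro χ _ x hxM hxN y hyM hyN
      have hcf := Cfsg.Agent.Lib.Helper7.isClassFunction_irr χ
      rw [← Cfsg.Agent.Lib.Helper7.classFunction_eq_of_isConj hcf (hconj x hxM hxN),
        ← Cfsg.Agent.Lib.Helper7.classFunction_eq_of_isConj hcf (hconj y hyM hyN)]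
    · intro χ hker
      have hcf := Cfsg.Agent.Lib.Helper7.isClassFunction_irr χ
      have h1 := Cfsg.Agent.Lib.Helper25.sum_indicator_normal_mul_eq_zero N χ.2 hker g
      have h2 : ∀ n : G, (if n ∈ N then (1 : ℂ) else 0) * (χ : G → ℂ) (n * g)
          = (if n ∈ N then (1 : ℂ) else 0) * (χ : G → ℂ) g := by
        intro n
        split_ifs with hn
        · rw [Cfsg.Agent.Lib.Helper7.classFunction_eq_of_isConj hcf
            (hconj (n * g) (M.mul_mem (hNM.le hn) hgM)
              (fun h => hgN ((Subgroup.mul_mem_cancel_left N hn).mp h)))]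
        · simp
      simp_rw [h2] at h1
      rw [← Finset.sum_mul, Finset.sum_boole] at h1
      rcases mul_eq_zero.mp h1 with h3 | h3
      · exfalso
        have h4 : (Finset.univ.filter (fun n : G => n ∈ N)).card = 0 := by exact_mod_cast h3
        rw [Finset.card_eq_zero] at h4
        have h5 : (1 : G) ∈ Finset.univ.filter (fun n : G => n ∈ N) := by simp [N.one_mem]
        rw [h4] at h5
        simp at h5
      · exact h3
  · rintro ⟨hA, hB⟩
    ext h
    constructor
    · intro hh
      obtain ⟨c, rfl⟩ := isConj_iff.mp hh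
      refine ⟨‹M.Normal›.conj_mem g hgM c, ?_⟩
      intro hN'
      apply hgN
      have := ‹N.Normal›.conj_mem _ hN' c⁻¹
      simpa [mul_assoc] using this
    · rintro ⟨hhM, hhN⟩
      show IsConj g h
      by_contra hcon
      have h2 := Cfsg.Agent.Lib.Helper7.column_orthogonality_ne hcon
      have h3 : ∀ χ : Cfsg.IrrCharacter G,
          (χ : G → ℂ) g * (starRingEnd ℂ) ((χ : G → ℂ) h) = ((‖(χ : G → ℂ) g‖ ^ 2 : ℝ) : ℂ) := by
        intro χ
        by_cases hker : ∀ x ∈ N, (χ : G → ℂ) x = (χ : G → ℂ) 1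
        · rw [hA χ hker h hhM hhN g hgM hgN, Complex.mul_conj, Complex.normSq_eq_norm_sq]
        · push Not at hker
          rw [hB χ hker]
          simp
      simp_rw [h3] at h2
      have h4 : ∑ χ : Cfsg.IrrCharacter G, ‖(χ : G → ℂ) g‖ ^ 2 = 0 := by exact_mod_cast h2
      have h5 := (Finset.sum_eq_zero_iff_of_nonneg (fun χ _ => by positivity)).mp h4
        ⟨fun _ => 1, Cfsg.Agent.Lib.Helper7.isIrrCharacter_one⟩ (Finset.mem_univ _)
      simp at h5

end Cfsg.Agent.S4802
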