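import Cfsg.Statements.S4808
import Cfsg.Agent.Lib.Helper25.Codegree
import Cfsg.Agent.Lib.Helper2.CharReg

set_option autoImplicit false
open Cfsg

namespace Cfsg.Agent.S4808

/-- The codegree of an irreducible complex character χ of a finite group G is [G : ker χ] / χ(1), where ker χ is the set of elements at which χ takes the value χ(1). A prime divides the order of G if and only if it divides the codegree of some irreducible complex character of G. -/
theorem result {G : Type*} [Group G] [Finite G] (p : ℕ) (hp : p.Prime) : p ∣ Nat.card G ↔ ∃ χ : Cfsg.IrrCharacter G, p ∣ (Nat.card G / (Nat.card {g : G // (χ : G → ℂ) g = (χ : G → ℂ) 1} * Cfsg.charDegree (χ : G → ℂ))) := by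
  classical
  cases nonempty_fintype G
  have := Cfsg.Agent.Lib.Helper2.finite_irrCharacter (G := G)
  cases nonempty_fintype (Cfsg.IrrCharacter G)
  constructor
  · intro hpG
    by_contra hcon
    push Not at hcon
    haveI : Fact p.Prime := ⟨hp⟩
    obtain ⟨x, hx⟩ := exists_prime_orderOf_dvd_card' (G := G) p hpG
    have hx1 : x ≠ 1 := by
      intro h
      rw [h, orderOf_one] at hx
      exact hp.one_lt.ne hx
    have hsum := Cfsg.Agent.Lib.Helper2.sum_irr_one_mul x
    rw [if_neg hx1] at hsum
    have hterm : ∀ χ : Cfsg.IrrCharacter G, 0 ≤ ((χ : G → ℂ) 1 * (χ : G → ℂ) x).re := by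
      intro χ
      obtain ⟨d, -, hd⟩ := Cfsg.Agent.Lib.Helper7.irr_apply_one χ.2
      by_cases hk : (χ : G → ℂ) x = (χ : G → ℂ) 1
      · rw [hk, hd]
        have : ((d : ℂ) * (d : ℂ)).re = (d : ℝ) * d := by simp
        rw [this]; positivity
      · have h0 := Cfsg.Agent.Lib.Helper25.eq_zero_of_not_dvd_cod χ.2 hp (hcon χ) hk
          (by rw [← hx, pow_orderOf_eq_one])
        rw [h0]; simp
    have h1 := congrArg Complex.re hsum
    rw [Complex.re_sum, Complex.zero_re] at h1
    have h2 := (Finset.sum_eq_zero_iff_of_nonneg (fun χ _ => hterm χ)).1 h1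
      ⟨fun _ => 1, Cfsg.Agent.Lib.Helper7.isIrrCharacter_one⟩ (Finset.mem_univ _)
    simp at h2
  · rintro ⟨χ, hχ⟩
    have := Cfsg.Agent.Lib.Helper25.cod_spec χ.2
    rw [← this]
    exact Dvd.dvd.mul_right hχ _

end Cfsg.Agent.S4808
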