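import Cfsg.Statements.S4814
import Cfsg.Agent.Lib.Helper25.Count

set_option autoImplicit false
open Cfsg

namespace Cfsg.Agent.S4814

/-- Let G be a finite group such that the sum, over the irreducible complex characters χ of G, of 1/χ(1)² is less than 2. Then every element of G is a product of two commutators. -/
theorem result {G : Type*} [Group G] [Finite G]
    (h : ∑ᶠ χ : Cfsg.IrrCharacter G, 1 / ‖(χ : G → ℂ) 1‖ ^ 2 < (2 : ℝ)) (g : G) :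
    ∃ a b c d : G, (a * b * a⁻¹ * b⁻¹) * (c * d * c⁻¹ * d⁻¹) = g := by
  classical
  cases nonempty_fintype G
  cases nonempty_fintype (Cfsg.IrrCharacter G)
  rw [finsum_eq_sum_of_fintype] at h
  by_contra hcon
  push Not at hcon
  have hG : (Nat.card G : ℂ) ≠ 0 := by exact_mod_cast Nat.card_pos.ne'
  have hN0 : ∀ z : G, (Nat.card {xy : G × G // xy.1 * xy.2 * xy.1⁻¹ * xy.2⁻¹ = z} : ℂ)
      * (Nat.card {xy : G × G // xy.1 * xy.2 * xy.1⁻¹ * xy.2⁻¹ = z⁻¹ * g} : ℂ) = 0 := by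
    intro z
    by_contra hne
    obtain ⟨h1, h2⟩ := mul_ne_zero_iff.mp hne
    have h1' : Nat.card {xy : G × G // xy.1 * xy.2 * xy.1⁻¹ * xy.2⁻¹ = z} ≠ 0 := by
      exact_mod_cast h1
    have h2' : Nat.card {xy : G × G // xy.1 * xy.2 * xy.1⁻¹ * xy.2⁻¹ = z⁻¹ * g} ≠ 0 := by
      exact_mod_cast h2
    obtain ⟨⟨⟨a, b⟩, hab⟩⟩ := (Nat.card_pos_iff.mp (Nat.pos_of_ne_zero h1')).1
    obtain ⟨⟨⟨c, d⟩, hcd⟩⟩ := (Nat.card_pos_iff.mp (Nat.pos_of_ne_zero h2')).1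
    apply hcon a b c d
    simp only at hab hcd
    rw [hab, hcd]
    group
  have hsum : ∑ z : G, (Nat.card {xy : G × G // xy.1 * xy.2 * xy.1⁻¹ * xy.2⁻¹ = z} : ℂ)
      * (Nat.card {xy : G × G // xy.1 * xy.2 * xy.1⁻¹ * xy.2⁻¹ = z⁻¹ * g} : ℂ)
      = (Nat.card G : ℂ) ^ 3 * ∑ χ : Cfsg.IrrCharacter G, (χ : G → ℂ) g / (χ : G → ℂ) 1 ^ 3 := by
    simp only [Cfsg.Agent.Lib.Helper25.card_commutator_eq]
    have e1 : ∀ z : G, ((Nat.card G : ℂ) * ∑ χ : Cfsg.IrrCharacter G, (χ : G → ℂ) z / (χ : G → ℂ) 1)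
        * ((Nat.card G : ℂ) * ∑ χ : Cfsg.IrrCharacter G, (χ : G → ℂ) (z⁻¹ * g) / (χ : G → ℂ) 1)
        = (Nat.card G : ℂ) ^ 2 * ∑ χ : Cfsg.IrrCharacter G, ∑ ψ : Cfsg.IrrCharacter G,
          ((χ : G → ℂ) z * (ψ : G → ℂ) (z⁻¹ * g)) / ((χ : G → ℂ) 1 * (ψ : G → ℂ) 1) := by
      intro z
      have : (∑ χ : Cfsg.IrrCharacter G, (χ : G → ℂ) z / (χ : G → ℂ) 1)
          * (∑ χ : Cfsg.IrrCharacter G, (χ : G → ℂ) (z⁻¹ * g) / (χ : G → ℂ) 1)
          = ∑ χ : Cfsg.IrrCharacter G, ∑ ψ : Cfsg.IrrCharacter G,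
          ((χ : G → ℂ) z * (ψ : G → ℂ) (z⁻¹ * g)) / ((χ : G → ℂ) 1 * (ψ : G → ℂ) 1) := by
        rw [Finset.sum_mul_sum]
        apply Finset.sum_congr rfl
        intro χ _
        apply Finset.sum_congr rfl
        intro ψ _
        rw [div_mul_div_comm]
      rw [← this]
      ring
    simp_rw [e1]
    rw [← Finset.mul_sum, Finset.sum_comm]
    have e2 : ∀ χ : Cfsg.IrrCharacter G, ∑ z : G, ∑ ψ : Cfsg.IrrCharacter G,
        ((χ : G → ℂ) z * (ψ : G → ℂ) (z⁻¹ * g)) / ((χ : G → ℂ) 1 * (ψ : G → ℂ) 1)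
        = (Nat.card G : ℂ) * ((χ : G → ℂ) g / (χ : G → ℂ) 1 ^ 3) := by
      intro χ
      rw [Finset.sum_comm, Finset.sum_eq_single χ]
      · rw [← Finset.sum_div, Cfsg.Agent.Lib.Helper25.sum_irr_conv χ.2 χ.2, if_pos rfl]
        have := Cfsg.Agent.Lib.Helper7.irr_apply_one_ne_zero χ.2
        field_simp
      · intro ψ _ hψ
        rw [← Finset.sum_div, Cfsg.Agent.Lib.Helper25.sum_irr_conv χ.2 ψ.2,
          if_neg (fun e => hψ (Subtype.ext e.symm)), zero_div]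
      · intro hh
        exact absurd (Finset.mem_univ _) hh
    simp_rw [e2]
    rw [← Finset.mul_sum]
    ring
  rw [Finset.sum_congr rfl (fun z _ => hN0 z), Finset.sum_const_zero] at hsum
  have hS : ∑ χ : Cfsg.IrrCharacter G, (χ : G → ℂ) g / (χ : G → ℂ) 1 ^ 3 = 0 := by
    rcases mul_eq_zero.mp hsum.symm with h1 | h1
    · exact absurd (pow_eq_zero_iff (by norm_num) |>.mp h1) hG
    · exact h1
  let t : Cfsg.IrrCharacter G := ⟨fun _ => 1, Cfsg.Agent.Lib.Helper7.isIrrCharacter_one⟩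
  rw [← Finset.add_sum_erase _ _ (Finset.mem_univ t)] at hS h
  have ht : (t : G → ℂ) g / (t : G → ℂ) 1 ^ 3 = 1 := by simp [t]
  have ht' : 1 / ‖(t : G → ℂ) 1‖ ^ 2 = 1 := by simp [t]
  rw [ht] at hS
  rw [ht'] at h
  have hb : ‖∑ χ ∈ Finset.univ.erase t, (χ : G → ℂ) g / (χ : G → ℂ) 1 ^ 3‖
      ≤ ∑ χ ∈ Finset.univ.erase t, 1 / ‖(χ : G → ℂ) 1‖ ^ 2 := by
    refine (norm_sum_le _ _).trans (Finset.sum_le_sum ?_)
    intro χ _
    obtain ⟨n, hn0, hn⟩ := Cfsg.Agent.Lib.Helper7.irr_apply_one χ.2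
    have h1 := Cfsg.Agent.Lib.Helper7.char_norm_le (Cfsg.Agent.Lib.Helper7.isCharacter_of_irr χ.2) g
    rw [hn] at h1 ⊢
    simp only [Complex.natCast_re] at h1
    rw [norm_div, norm_pow, Complex.norm_natCast]
    have hn' : (0 : ℝ) < n := by exact_mod_cast hn0
    rw [div_le_div_iff₀ (by positivity) (by positivity)]
    nlinarith [pow_pos hn' 2]
  have hn1 : ‖∑ χ ∈ Finset.univ.erase t, (χ : G → ℂ) g / (χ : G → ℂ) 1 ^ 3‖ = 1 := by
    have : ∑ χ ∈ Finset.univ.erase t, (χ : G → ℂ) g / (χ : G → ℂ) 1 ^ 3 = -1 := by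
      linear_combination hS
    rw [this]
    simp
  linarith

end Cfsg.Agent.S4814
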