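import Cfsg.Statements.S4825
import Cfsg.Agent.Lib.Helper7.BlockOsima
import Cfsg.Agent.Lib.Helper7.BlockDefect
import Cfsg.Agent.Lib.Helper25.CliffordCorr
import Cfsg.Agent.Lib.Helper25.Monomial
import Cfsg.Agent.Lib.Helper2.CharInner

set_option autoImplicit false
open Cfsg

namespace Cfsg.Agent.S4825

/-- Let p be a prime, G a finite group with Sylow p-subgroup P, M a maximal ideal of the algebraic integers containing p, and B a p-block of G with defect group P. Let N be a normal subgroup of G not containing P and θ an irreducible character of N. Then the number of irreducible characters in B of degree prime to p lying over θ (having θ as a constituent on restriction to N) is either 0 or at least 2, and when p ≤ 3 it is divisible by p. -/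
theorem result {G : Type*} [Group G] [Fintype G] (p : ℕ) [Fact p.Prime] (P : Sylow p G) (M : Ideal Cfsg.AlgInt) (hM : Cfsg.IsPModular p M) (B : Set (Cfsg.IrrCharacter G)) (hB : Cfsg.IsPBlock M B) (hBP : Cfsg.IsDefectGroup p M B P) (N : Subgroup G) [N.Normal] [Fintype N] (hPN : ¬ (P : Subgroup G) ≤ N) (θ : Cfsg.IrrCharacter N) :
    (Nat.card {χ : Cfsg.IrrCharacter G // χ ∈ B ∧ ¬ p ∣ Cfsg.charDegree (χ : G → ℂ) ∧ Cfsg.classInner (fun n : N => (χ : G → ℂ) n) (θ : N → ℂ) ≠ 0} = 0 ∨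
      2 ≤ Nat.card {χ : Cfsg.IrrCharacter G // χ ∈ B ∧ ¬ p ∣ Cfsg.charDegree (χ : G → ℂ) ∧ Cfsg.classInner (fun n : N => (χ : G → ℂ) n) (θ : N → ℂ) ≠ 0}) ∧
    (p ≤ 3 → p ∣ Nat.card {χ : Cfsg.IrrCharacter G // χ ∈ B ∧ ¬ p ∣ Cfsg.charDegree (χ : G → ℂ) ∧ Cfsg.classInner (fun n : N => (χ : G → ℂ) n) (θ : N → ℂ) ≠ 0}) := by
  classical
  haveI := hM.2.1.isPrime
  have hp : p.Prime := Fact.out
  haveI : Finite (Cfsg.IrrCharacter G) := Cfsg.Agent.Lib.Helper2.finite_irrCharacter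
  haveI : Fintype (Cfsg.IrrCharacter G) := Fintype.ofFinite _
  -- p divides the index
  have hidx : p ∣ N.index := by
    by_contra hnd
    apply hPN
    have h1 : IsPGroup p ((P : Subgroup G).map (QuotientGroup.mk' N)) := P.2.map _
    obtain ⟨k, hk⟩ := IsPGroup.iff_card.mp h1
    have h2 : Nat.card ((P : Subgroup G).map (QuotientGroup.mk' N)) ∣ N.index := by
      rw [Subgroup.index_eq_card]
      exact Subgroup.card_subgroup_dvd_card _
    rw [hk] at h2
    have hk0 : k = 0 := by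
      by_contra hk0
      exact hnd ((dvd_pow_self p hk0).trans h2)
    rw [hk0, pow_zero, Subgroup.card_eq_one] at hk
    intro x hx
    have h3 : QuotientGroup.mk' N x ∈ (P : Subgroup G).map (QuotientGroup.mk' N) := ⟨x, hx, rfl⟩
    rw [hk, Subgroup.mem_bot] at h3
    exact (QuotientGroup.eq_one_iff x).1 h3
  set a : Cfsg.IrrCharacter G → ℂ := fun χ => Cfsg.classInner (fun n : N => (χ : G → ℂ) n) (θ : N → ℂ)
    with ha
  set c : ℕ := (Cfsg.Agent.Lib.Helper25.inertia N (θ : N → ℂ)).index * Cfsg.charDegree (θ : N → ℂ)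
    with hc
  have hθ1 : ((Cfsg.charDegree (θ : N → ℂ) : ℕ) : ℂ) = (θ : N → ℂ) 1 :=
    Cfsg.Agent.Lib.Helper7.charDegree_cast (Cfsg.Agent.Lib.Helper7.isCharacter_of_irr θ.2)
  have hχ1 : ∀ χ : Cfsg.IrrCharacter G, ((Cfsg.charDegree (χ : G → ℂ) : ℕ) : ℂ) = (χ : G → ℂ) 1 :=
    fun χ => Cfsg.Agent.Lib.Helper7.charDegree_cast (Cfsg.Agent.Lib.Helper7.isCharacter_of_irr χ.2)
  -- the key sum
  have hT : ∑ χ : Cfsg.IrrCharacter G, B.indicator (fun χ => a χ * (χ : G → ℂ) 1) χ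
      = (N.index : ℂ) * ∑ n : N, (θ : N → ℂ) n⁻¹ * Cfsg.blockCoeff B ((n : G)⁻¹) := by
    have hG0 : (Nat.card G : ℂ) ≠ 0 := by exact_mod_cast Nat.card_pos.ne'
    have hN0 : (Nat.card N : ℂ) ≠ 0 := by exact_mod_cast Nat.card_pos.ne'
    have h1 : ∀ n : N, (θ : N → ℂ) n⁻¹ * Cfsg.blockCoeff B ((n : G)⁻¹)
        = (Nat.card G : ℂ)⁻¹ * ∑ χ : Cfsg.IrrCharacter G,
          B.indicator (fun χ => (χ : G → ℂ) 1 * ((χ : G → ℂ) n * (starRingEnd ℂ) ((θ : N → ℂ) n))) χ := by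
      intro n
      rw [Cfsg.Agent.Lib.Helper7.blockCoeff_eq_sum, mul_left_comm, Finset.mul_sum]
      congr 1
      apply Finset.sum_congr rfl
      intro χ _
      by_cases hχ : χ ∈ B
      · rw [Set.indicator_of_mem hχ, Set.indicator_of_mem hχ,
          Cfsg.Agent.Lib.Helper7.char_inv_eq_conj (Cfsg.Agent.Lib.Helper7.isCharacter_of_irr θ.2),
          Cfsg.Agent.Lib.Helper7.char_inv_eq_conj (Cfsg.Agent.Lib.Helper7.isCharacter_of_irr χ.2),
          Complex.conj_conj]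
        ring
      · rw [Set.indicator_of_notMem hχ, Set.indicator_of_notMem hχ, mul_zero]
    simp_rw [h1]
    rw [← Finset.mul_sum, Finset.sum_comm]
    have h2 : (N.index : ℂ) = (Nat.card G : ℂ) * (Nat.card N : ℂ)⁻¹ := by
      rw [← N.card_mul_index]
      push_cast
      field_simp
    rw [h2, mul_assoc, mul_left_comm ((Nat.card N : ℂ)⁻¹), mul_inv_cancel_left₀ hG0, Finset.mul_sum]
    apply Finset.sum_congr rfl
    intro χ _
    by_cases hχ : χ ∈ B
    · simp only [Set.indicator_of_mem hχ]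
      rw [ha]
      simp only [Cfsg.classInner]
      rw [← Finset.mul_sum]
      ring
    · simp only [Set.indicator_of_notMem hχ]
      simp
  have hTM : Cfsg.MemLocalIdeal M
      (∑ χ : Cfsg.IrrCharacter G, B.indicator (fun χ => a χ * (χ : G → ℂ) 1) χ) := by
    rw [hT]
    apply Cfsg.Agent.Lib.Helper7.memLocalIdeal_mul_right
    · exact (Cfsg.Agent.Lib.Helper7.memLocalIdeal_natCast_iff hM _).2 hidx
    · apply Cfsg.Agent.Lib.Helper7.memLocalRing_sum
      intro n _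
      apply Cfsg.Agent.Lib.Helper7.memLocalRing_mul
      · exact Cfsg.Agent.Lib.Helper7.memLocalRing_of_isIntegral
          (Cfsg.Agent.Lib.Helper7.char_isIntegral (Cfsg.Agent.Lib.Helper7.isCharacter_of_irr θ.2) _)
      · exact Cfsg.Agent.Lib.Helper7.osima hB _
  -- Clifford
  have hcl : ∀ χ : Cfsg.IrrCharacter G, (c : ℂ) * (a χ * (χ : G → ℂ) 1)
      = if a χ ≠ 0 then (((Cfsg.charDegree (χ : G → ℂ)) ^ 2 : ℕ) : ℂ) else 0 := by
    intro χ
    by_cases h0 : a χ = 0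
    · rw [if_neg (not_not.2 h0), h0]; ring
    · rw [if_pos h0]
      have h := Cfsg.Agent.Lib.Helper25.clifford_degree N χ.2 θ.2 h0
        (Cfsg.Agent.Lib.Helper25.inertia N (θ : N → ℂ))
        (Cfsg.Agent.Lib.Helper25.mem_inertia N (θ : N → ℂ))
      have h' : (χ : G → ℂ) 1 = a χ *
          (((Cfsg.Agent.Lib.Helper25.inertia N (θ : N → ℂ)).index : ℂ) * (θ : N → ℂ) 1) := h
      push_cast
      rw [hc, hχ1]
      push_cast
      rw [hθ1, pow_two]
      calc ((Cfsg.Agent.Lib.Helper25.inertia N (θ : N → ℂ)).index : ℂ) * (θ : N → ℂ) 1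
            * (a χ * (χ : G → ℂ) 1)
          = (a χ * (((Cfsg.Agent.Lib.Helper25.inertia N (θ : N → ℂ)).index : ℂ) * (θ : N → ℂ) 1))
            * (χ : G → ℂ) 1 := by ring
        _ = (χ : G → ℂ) 1 * (χ : G → ℂ) 1 := by rw [← h']
  set F : Finset (Cfsg.IrrCharacter G) := Finset.univ.filter (fun χ => χ ∈ B ∧ a χ ≠ 0) with hF
  have hsum : p ∣ ∑ χ ∈ F, (Cfsg.charDegree (χ : G → ℂ)) ^ 2 := by
    rw [← Cfsg.Agent.Lib.Helper7.memLocalIdeal_natCast_iff hM]
    have h1 : ((∑ χ ∈ F, (Cfsg.charDegree (χ : G → ℂ)) ^ 2 : ℕ) : ℂ)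
        = (c : ℂ) * ∑ χ : Cfsg.IrrCharacter G, B.indicator (fun χ => a χ * (χ : G → ℂ) 1) χ := by
      rw [Finset.mul_sum, hF, Finset.sum_filter, Nat.cast_sum]
      apply Finset.sum_congr rfl
      intro χ _
      by_cases hχ : χ ∈ B
      · rw [Set.indicator_of_mem hχ, hcl]
        by_cases h0 : a χ = 0
        · simp [h0]
        · simp [h0, hχ]
      · rw [Set.indicator_of_notMem hχ]
        simp [hχ]
    rw [h1]
    exact Cfsg.Agent.Lib.Helper7.memLocalIdeal_mul_left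
      (Cfsg.Agent.Lib.Helper7.memLocalRing_natCast _) hTM
  set A : Finset (Cfsg.IrrCharacter G) := Finset.univ.filter
    (fun χ => χ ∈ B ∧ ¬ p ∣ Cfsg.charDegree (χ : G → ℂ) ∧ a χ ≠ 0) with hA
  have hcard : Nat.card {χ : Cfsg.IrrCharacter G // χ ∈ B ∧ ¬ p ∣ Cfsg.charDegree (χ : G → ℂ) ∧
      Cfsg.classInner (fun n : N => (χ : G → ℂ) n) (θ : N → ℂ) ≠ 0} = A.card := by
    rw [Nat.card_eq_fintype_card, Fintype.card_subtype]
  have hsumA : p ∣ ∑ χ ∈ A, (Cfsg.charDegree (χ : G → ℂ)) ^ 2 := by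
    have h1 : ∑ χ ∈ F, (Cfsg.charDegree (χ : G → ℂ)) ^ 2
        = ∑ χ ∈ A, (Cfsg.charDegree (χ : G → ℂ)) ^ 2
          + ∑ χ ∈ F.filter (fun χ : Cfsg.IrrCharacter G => p ∣ Cfsg.charDegree (χ : G → ℂ)),
            (Cfsg.charDegree (χ : G → ℂ)) ^ 2 := by
      rw [← Finset.sum_filter_not_add_sum_filter F (fun χ : Cfsg.IrrCharacter G => p ∣ Cfsg.charDegree (χ : G → ℂ))]
      congr 1
      apply Finset.sum_congr _ (fun _ _ => rfl)
      ext χ
      simp only [hF, hA, Finset.mem_filter, Finset.mem_univ, true_and]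
      tauto
    have h2 : p ∣ ∑ χ ∈ F.filter (fun χ : Cfsg.IrrCharacter G => p ∣ Cfsg.charDegree (χ : G → ℂ)),
            (Cfsg.charDegree (χ : G → ℂ)) ^ 2 := by
      apply Finset.dvd_sum
      intro χ hχ
      exact Dvd.dvd.pow (Finset.mem_filter.1 hχ).2 two_ne_zero
    rw [h1] at hsum
    exact (Nat.dvd_add_left h2).1 hsum
  rw [hcard]
  constructor
  · by_contra hcon
    push Not at hcon
    have h1 : A.card = 1 := by omega
    obtain ⟨χ, hχ⟩ := Finset.card_eq_one.1 h1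
    rw [hχ, Finset.sum_singleton] at hsumA
    have h2 : χ ∈ A := by rw [hχ]; exact Finset.mem_singleton_self χ
    exact (Finset.mem_filter.1 h2).2.2.1 (hp.dvd_of_dvd_pow hsumA)
  · intro hp3
    have hsq : ∀ χ ∈ A, (Cfsg.charDegree (χ : G → ℂ)) ^ 2 % p = 1 % p := by
      intro χ hχ
      have hnd := (Finset.mem_filter.1 hχ).2.2.1
      have hp2 := hp.two_le
      have : p = 2 ∨ p = 3 := by omega
      rcases this with rfl | rfl
      · have : Cfsg.charDegree (χ : G → ℂ) % 2 = 1 := by omega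
        rw [Nat.pow_mod, this]
      · have : Cfsg.charDegree (χ : G → ℂ) % 3 = 1 ∨ Cfsg.charDegree (χ : G → ℂ) % 3 = 2 := by omega
        rcases this with h | h <;> rw [Nat.pow_mod, h]
    have h1 : (∑ χ ∈ A, (Cfsg.charDegree (χ : G → ℂ)) ^ 2) % p = (∑ χ ∈ A, 1) % p := by
      rw [Finset.sum_nat_mod, Finset.sum_nat_mod A p (fun _ => 1)]
      congr 1
      exact Finset.sum_congr rfl hsq
    rw [Finset.sum_const, smul_eq_mul, mul_one] at h1
    exact Nat.dvd_of_mod_eq_zero (h1 ▸ Nat.mod_eq_zero_of_dvd hsumA)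

end Cfsg.Agent.S4825
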