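import Cfsg.Statements.S4835
import Cfsg.Agent.Lib.Helper10.Gagola

set_option autoImplicit false
open Cfsg

namespace Cfsg.Agent.S4835

/-- Let G be a finite group of order greater than 2 with an irreducible character χ that is nonzero on exactly two conjugacy classes. Then G has a unique minimal normal subgroup N; N is an elementary abelian p-group for some prime p; χ is nonzero exactly at the elements of N; and any two nonidentity elements of N are conjugate in G. -/
theorem result {G : Type*} [Group G] [Finite G] (hG : 2 < Nat.card G) (χ : Cfsg.IrrCharacter G) (hχ : Nat.card {C : ConjClasses G // ∃ g ∈ C.carrier, (χ : G → ℂ) g ≠ 0} = 2) :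
    ∃ N : Subgroup G, N.Normal ∧ N ≠ ⊥ ∧ (∀ K : Subgroup G, K.Normal → K ≠ ⊥ → N ≤ K) ∧
      (∃ p : ℕ, p.Prime ∧ Cfsg.IsElementaryAbelian p N) ∧
      (∀ g : G, (χ : G → ℂ) g ≠ 0 ↔ g ∈ N) ∧
      (∀ x ∈ N, ∀ y ∈ N, x ≠ 1 → y ≠ 1 → ∃ g : G, g * x * g⁻¹ = y) := by
  open Cfsg.Agent.Lib.Helper10.Gagola in
  obtain ⟨x, h⟩ := exists_twoClass hG χ hχ
  obtain ⟨N, hNn, hN⟩ := h.exists_subgroup
  have hN1 : N ≠ ⊥ := by
    intro hb
    have := h.mem hN
    rw [hb, Subgroup.mem_bot] at this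
    exact h.ne_one this
  refine ⟨N, hNn, hN1, fun K hK hK1 => h.le_of_normal hN K hK1, ?_, fun g => (hN g).symm, ?_⟩
  · exact Cfsg.Agent.Lib.Helper10.Gagola.elemAb_of_conj N hN1
      (fun a ha b hb ha1 hb1 => h.isConj_of_mem hN ha hb ha1 hb1)
  · intro a ha b hb ha1 hb1
    exact isConj_iff.1 (h.isConj_of_mem hN ha hb ha1 hb1)

end Cfsg.Agent.S4835
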