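import Cfsg.Statements.S4837
import Cfsg.Agent.Lib.Helper10.Gagola2

set_option autoImplicit false
open Cfsg

namespace Cfsg.Agent.S4837

/-- Let G be a finite group of order greater than 2 with an irreducible character χ nonzero on exactly two conjugacy classes, and let N be the set of elements where χ is nonzero, given as a nontrivial normal p-subgroup of G for the prime p. Then for every nonidentity x in N the centralizer C_G(x) is a Sylow p-subgroup of G, and for every irreducible character λ ≠ 1 of N the stabilizer of λ in G (its inertia group) is a Sylow p-subgroup of G. -/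
theorem result {G : Type*} [Group G] [Finite G] (hG : 2 < Nat.card G) (χ : Cfsg.IrrCharacter G) (hχ : Nat.card {C : ConjClasses G // ∃ g ∈ C.carrier, (χ : G → ℂ) g ≠ 0} = 2) (p : ℕ) [Fact p.Prime] (N : Subgroup G) [N.Normal] (hN : ∀ g : G, g ∈ N ↔ (χ : G → ℂ) g ≠ 0) (hNp : IsPGroup p N) (hN1 : N ≠ ⊥) :
    (∀ x ∈ N, x ≠ 1 → ∃ P : Sylow p G, Subgroup.centralizer ({x} : Set G) = P) ∧
      (∀ μ : Cfsg.IrrCharacter N, (μ : N → ℂ) ≠ (fun _ => (1 : ℂ)) → ∃ P : Sylow p G, ∀ g : G, g ∈ (P : Subgroup G) ↔ ∀ n n' : N, (n' : G) = g * n * g⁻¹ → (μ : N → ℂ) n' = (μ : N → ℂ) n) := by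
  obtain ⟨x₀, h₀⟩ := Cfsg.Agent.Lib.Helper10.Gagola.exists_twoClass hG χ hχ
  constructor
  · intro x hx hx1
    have h := h₀.of_ne ((hN x).1 hx) hx1
    exact ⟨(h.isPGroup_centralizer hN hNp).toSylow (h.not_dvd_index hN hNp), by simp⟩
  · intro μ hμ
    haveI : IsMulCommutative N := (h₀.elemAb hN hNp).1
    have hc := h₀.card_inertia hN μ hμ
    have hp1 : IsPGroup p (Cfsg.Agent.Lib.Helper25.inertia N (μ : N → ℂ)) := by
      obtain ⟨k, hk⟩ := (IsPGroup.iff_card).1 (h₀.isPGroup_centralizer hN hNp)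
      exact IsPGroup.of_card (hc.trans hk)
    have hidx : (Cfsg.Agent.Lib.Helper25.inertia N (μ : N → ℂ)).index
        = (Subgroup.centralizer ({x₀} : Set G)).index := by
      have e1 := Subgroup.card_mul_index (Cfsg.Agent.Lib.Helper25.inertia N (μ : N → ℂ))
      have e2 := Subgroup.card_mul_index (Subgroup.centralizer ({x₀} : Set G))
      rw [hc, ← e2] at e1
      exact Nat.eq_of_mul_eq_mul_left Nat.card_pos e1
    refine ⟨hp1.toSylow (by rw [hidx]; exact h₀.not_dvd_index hN hNp), fun g => ?_⟩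
    rw [IsPGroup.toSylow_coe, Cfsg.Agent.Lib.Helper25.mem_inertia]
    constructor
    · intro h n n' hn'
      rw [← h n]
      have : n' = ⟨g * n * g⁻¹, ‹N.Normal›.conj_mem n n.2 g⟩ := Subtype.ext hn'
      rw [this]
    · intro h n
      exact h n _ rfl

end Cfsg.Agent.S4837
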