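import Cfsg.Statements.S4839
import Cfsg.Agent.Lib.Helper10.Gagola6

set_option autoImplicit false
open Cfsg

namespace Cfsg.Agent.S4839

/-- Let G be a finite group of order greater than 2 with an irreducible character χ nonzero on exactly two conjugacy classes, and let N be the normal p-subgroup of elements where χ is nonzero. Then N is the whole p-core O_p(G) if and only if G is a doubly transitive Frobenius group with kernel N: G has a Frobenius complement H whose Frobenius kernel is N and whose order is one less than that of N. -/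
theorem result {G : Type*} [Group G] [Finite G] (hG : 2 < Nat.card G) (χ : Cfsg.IrrCharacter G) (hχ : Nat.card {C : ConjClasses G // ∃ g ∈ C.carrier, (χ : G → ℂ) g ≠ 0} = 2) (p : ℕ) [Fact p.Prime] (N : Subgroup G) [N.Normal] (hN : ∀ g : G, g ∈ N ↔ (χ : G → ℂ) g ≠ 0) (hNp : IsPGroup p N) (hN1 : N ≠ ⊥) :
    N = Cfsg.pCore p G ↔ ∃ H : Subgroup G, Cfsg.IsFrobeniusComplement H ∧ Cfsg.frobeniusKernel H = (N : Set G) ∧ Nat.card H + 1 = Nat.card N := by
  obtain ⟨x₀, h₀⟩ := Cfsg.Agent.Lib.Helper10.Gagola.exists_twoClass hG χ hχ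
  constructor
  · intro hcore
    have hmax : ∀ K : Subgroup G, K.Normal → IsPGroup p K → K ≤ N := by
      intro K hK hKp
      rw [hcore]
      exact Cfsg.Agent.Lib.Helper5.le_pCore hK hKp
    apply h₀.exists_frobenius hN hNp
    by_cases hp2 : p = 2
    · subst hp2
      exact h₀.not_two_dvd_index hN hNp hmax
    · exact h₀.not_dvd_index_of_odd hN hNp hmax hp2
  · rintro ⟨H, -, hker, hcard⟩
    exact Cfsg.Agent.Lib.Helper10.Gagola.eq_pCore_of_frobenius hNp hN1 H hker hcard

end Cfsg.Agent.S4839
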