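import Cfsg.Statements.S4866
import Cfsg.Agent.Lib.Helper25.OddReal3
import Cfsg.Agent.Lib.Helper25.IndChar

set_option autoImplicit false
open Cfsg

namespace Cfsg.Agent.S4866

open Cfsg.Agent.Lib.Helper25 Cfsg.Agent.Lib

/-- Let K be a normal subgroup of odd index in the finite group G. Then G has as many orbits on the real-valued irreducible complex characters of K (acting by conjugation) as it has orbits on the conjugacy classes of K that are real in K; equivalently, the number of G-orbits of real-valued irreducible characters of K equals the number of G-conjugacy classes of elements of K that are conjugate in K to their inverses. -/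
theorem result {G : Type*} [Group G] [Finite G] (K : Subgroup G) [K.Normal] (hodd : Odd K.index) : Nat.card (Quot (fun θ η : {θ : Cfsg.IrrCharacter ↥K // (∀ k : ↥K, ((θ : ↥K → ℂ) k).im = 0)} => ∃ g : G, ∀ k k' : ↥K, (k' : G) = g * (k : G) * g⁻¹ → (η.1 : ↥K → ℂ) k' = (θ.1 : ↥K → ℂ) k)) = Nat.card (Quot (fun x y : {x : ↥K // IsConj x x⁻¹} => ∃ g : G, (y.1 : G) = g * x.1 * g⁻¹)) := by
  classical
  cases nonempty_fintype G
  have := Helper2.finite_irrCharacter (G := K)
  have : Fintype (IrrCharacter K) := Fintype.ofFinite _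
  set ρA : G →* Equiv.Perm (IrrCharacter K) := (irrPerm K).comp MulAut.conjNormal with hρA
  set ρB : G →* Equiv.Perm K := (MulAut.toPerm K).comp MulAut.conjNormal with hρB
  have hAapp : ∀ (g : G) (θ : IrrCharacter K) (x : K),
      ((ρA g θ : IrrCharacter K) : K → ℂ) x = (θ : K → ℂ) ((MulAut.conjNormal g : MulAut K)⁻¹ x) :=
    fun g θ x => rfl
  have hBapp : ∀ (g : G) (x : K), ((ρB g x : K) : G) = g * x * g⁻¹ := fun g x => rfl
  have hA := burnside_quot ρA (fun θ => ∀ k : K, ((θ : K → ℂ) k).im = 0) (by
    intro g θ h k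
    rw [hAapp]
    exact h _)
  have hB := burnside_quot ρB (fun x => IsConj x x⁻¹) (by
    intro g x h
    have := MonoidHom.map_isConj (MulAut.conjNormal g : MulAut K).toMonoidHom h
    rw [map_inv] at this
    exact this)
  have eA : Nat.card (Quot (fun θ η : {θ : Cfsg.IrrCharacter ↥K //
        (∀ k : ↥K, ((θ : ↥K → ℂ) k).im = 0)} => ∃ g : G, ∀ k k' : ↥K, (k' : G) = g * (k : G) * g⁻¹ →
          (η.1 : ↥K → ℂ) k' = (θ.1 : ↥K → ℂ) k))
      = Nat.card (Quot (fun a b : {θ : Cfsg.IrrCharacter ↥K //
        (∀ k : ↥K, ((θ : ↥K → ℂ) k).im = 0)} => ∃ g : G, (b : IrrCharacter K) = ρA g a)) := by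
    apply Nat.card_congr
    apply Quot.congrRight
    intro a b
    constructor
    · rintro ⟨g, hg⟩
      refine ⟨g, ?_⟩
      apply Subtype.ext
      funext x
      rw [hAapp]
      apply hg
      rw [MulAut.conjNormal_inv_apply]
      group
    · rintro ⟨g, hg⟩
      refine ⟨g, ?_⟩
      intro k k' hk
      rw [hg, hAapp]
      have : (MulAut.conjNormal g : MulAut K)⁻¹ k' = k := by
        apply Subtype.ext
        rw [MulAut.conjNormal_inv_apply, hk]
        group
      rw [this]
  rw [eA]
  have step1 : ∀ g : G, (Finset.univ.filter (fun θ : IrrCharacter K =>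
      (∀ k : K, ((θ : K → ℂ) k).im = 0) ∧ ρA g θ = θ)).card * Nat.card K
      = ∑ k : K, Nat.card {x : K // x * (MulAut.conjNormal g : MulAut K)⁻¹ k * x⁻¹ = k⁻¹} := by
    intro g
    rw [← card_twisted_irr_mul ((MulAut.conjNormal g : MulAut K)⁻¹)]
    congr 1
    rw [Nat.card_eq_fintype_card, Fintype.card_subtype]
    congr 1
    apply Finset.filter_congr
    intro θ _
    constructor
    · rintro ⟨h1, h2⟩
      funext x
      have h3 := congrFun (congrArg Subtype.val h2) x
      rw [hAapp] at h3
      rw [Function.comp_apply, h3, conjIrr_apply]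
      exact (Complex.conj_eq_iff_im.mpr (h1 x)).symm
    · intro h
      have h1 : ρA g θ = conjIrr θ := Subtype.ext h
      have h2 : ρA g (conjIrr θ) = conjIrr (ρA g θ) := rfl
      have h3 : ρA g (ρA g θ) = θ := by rw [h1, h2, h1, conjIrr_conjIrr]
      have h4 := perm_pow_odd_apply (ρA g) θ h3 hodd
      rw [← map_pow] at h4
      have h5 : ρA (g ^ K.index) θ = θ := by
        apply Subtype.ext
        funext x
        rw [hAapp]
        have hcf := isClassFunction_of_isCharacter (isCharacter_of_irr θ.2)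
        have hm : g ^ K.index ∈ K := K.pow_index_mem g
        have : (MulAut.conjNormal (g ^ K.index) : MulAut K)⁻¹ x
            = (⟨g ^ K.index, hm⟩ : K)⁻¹ * x * (⟨g ^ K.index, hm⟩ : K)⁻¹⁻¹ := by
          apply Subtype.ext
          rw [MulAut.conjNormal_inv_apply]
          simp
        rw [this]
        exact hcf _ _
      have h6 : ρA g θ = θ := h4.symm.trans h5
      refine ⟨?_, h6⟩
      intro k
      have h7 : conjIrr θ = θ := h1.symm.trans h6
      have h8 := congrFun (congrArg Subtype.val h7) k
      rw [conjIrr_apply] at h8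
      exact Complex.conj_eq_iff_im.mp h8
  have hK : 0 < Nat.card K := Nat.card_pos
  have hG : 0 < Nat.card G := Nat.card_pos
  have h2 := sum_twisted_eq K hodd
  simp_rw [← step1] at h2
  rw [← Finset.sum_mul, mul_comm] at h2
  have h3 := Nat.eq_of_mul_eq_mul_left hK h2
  have hB' : ∑ g : G, (Finset.univ.filter (fun x : K => IsConj x x⁻¹ ∧ ρB g x = x)).card
      = ∑ h : G, (Finset.univ.filter
          (fun k : K => IsConj k k⁻¹ ∧ (MulAut.conjNormal h : MulAut K) k = k)).card := rfl
  rw [hB', ← h3, ← hA] at hB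
  have h4 := Nat.eq_of_mul_eq_mul_right hG hB
  rw [← h4]
  apply Nat.card_congr
  apply Quot.congrRight
  intro a b
  constructor
  · rintro ⟨g, hg⟩
    exact ⟨g, by rw [hg, hBapp]⟩
  · rintro ⟨g, hg⟩
    exact ⟨g, Subtype.ext (by rw [hg, hBapp])⟩

end Cfsg.Agent.S4866
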