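import Cfsg.Statements.S4870
import Cfsg.Agent.Lib.Helper25.LinCount
import Cfsg.Agent.Lib.Helper25.Extra1
import Cfsg.Agent.Lib.Helper25.DetExt

set_option autoImplicit false
open Cfsg

namespace Cfsg.Agent.S4870

open Cfsg.Agent.Lib.Helper25 Cfsg.Agent.Lib

/-- Let G be a finite group with a non-abelian minimal normal subgroup N, and let φ be an irreducible complex character of N with stabilizer I in G (the elements g with φ(g n g⁻¹) = φ(n) for all n ∈ N) such that φ extends to an irreducible character of I. Put d = φ(1)·[G : I]. Then the number of linear characters of G is at most [G : I] times the number of irreducible characters of G of degree d. -/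
theorem result {G : Type*} [Group G] [Finite G] (N : Subgroup G) (hN : N.Normal) (hN1 : N ≠ ⊥) (hmin : ∀ M : Subgroup G, M.Normal → M ≤ N → M = ⊥ ∨ M = N) (hna : ¬ IsMulCommutative ↥N) (φ : Cfsg.IrrCharacter ↥N) (I : Subgroup G) (hI : ∀ g : G, g ∈ I ↔ ∀ n n' : ↥N, (n' : G) = g * (n : G) * g⁻¹ → (φ : ↥N → ℂ) n' = (φ : ↥N → ℂ) n) (hNI : N ≤ I) (hext : ∃ ψ : Cfsg.IrrCharacter ↥I, ∀ n : ↥N, (ψ : ↥I → ℂ) (Subgroup.inclusion hNI n) = (φ : ↥N → ℂ) n) : Nat.card {χ : Cfsg.IrrCharacter G // Cfsg.charDegree (χ : G → ℂ) = 1} ≤ I.index * Nat.card {χ : Cfsg.IrrCharacter G // Cfsg.charDegree (χ : G → ℂ) = Cfsg.charDegree (φ : ↥N → ℂ) * I.index} := by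
  classical
  haveI := hN
  have : Fintype G := Fintype.ofFinite _
  have : Fintype I := Fintype.ofFinite _
  have : Fintype N := Fintype.ofFinite _
  have := Helper2.finite_irrCharacter (G := G)
  have : Fintype (IrrCharacter G) := Fintype.ofFinite _
  obtain ⟨ψ, hψ⟩ := hext
  have hT : ∀ g : G, g ∈ I ↔ ∀ h : N, (φ : N → ℂ) ⟨g * h * g⁻¹, hN.conj_mem h h.2 g⟩
      = (φ : N → ℂ) h := by
    intro g
    rw [hI]
    constructor
    · intro h n
      exact h n ⟨_, _⟩ rfl
    · intro h n n' hn'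
      have : n' = ⟨g * n * g⁻¹, hN.conj_mem n n.2 g⟩ := Subtype.ext hn'
      rw [this]
      exact h n
  -- `N` is perfect
  have hperf : N ≤ commutator G := by
    have hle : ⁅N, N⁆ ≤ N := Subgroup.commutator_le_left N N
    rcases hmin ⁅N, N⁆ inferInstance hle with h0 | h0
    · exfalso
      apply hna
      refine ⟨⟨fun a b => ?_⟩⟩
      have h1 := Subgroup.commutator_mem_commutator a.2 b.2
      rw [h0, Subgroup.mem_bot, commutatorElement_eq_one_iff_mul_comm] at h1
      exact Subtype.ext h1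
    · rw [commutator_def]
      calc N = ⁅N, N⁆ := h0.symm
        _ ≤ ⁅⊤, ⊤⁆ := Subgroup.commutator_mono le_top le_top
  -- data of a linear character
  have hlin : ∀ lam : IrrCharacter G, charDegree (lam : G → ℂ) = 1 →
      ∃ f : G →* ℂˣ, (∀ g, (lam : G → ℂ) g = (f g : ℂ)) ∧ N ≤ f.ker := by
    intro lam h1
    have h2 : (lam : G → ℂ) 1 = 1 := by
      rw [apply_one_eq_charDegree lam.2, h1, Nat.cast_one]
    obtain ⟨f, hf⟩ := Helper2.IsCharacter.exists_hom_of_apply_one
      (Helper7.isCharacter_of_irr lam.2) h2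
    refine ⟨f, fun g => by rw [hf], fun n hn => ?_⟩
    have h3 := linear_eq_one_on_commutator (Helper7.isCharacter_of_irr lam.2) h2 (hperf hn)
    rw [MonoidHom.mem_ker]
    apply Units.ext
    rw [Units.val_one, ← h3, hf]
  have hψN : ∀ n : N, (ψ : I → ℂ) ⟨n, hNI n.2⟩ = (φ : N → ℂ) n := fun n => hψ n
  -- twisted characters of `I`
  have htw : ∀ f : G →* ℂˣ, N ≤ f.ker →
      IsIrrCharacter I (fun x : I => (f x : ℂ) * (ψ : I → ℂ) x) ∧
      classInner (fun n : N => (fun x : I => (f x : ℂ) * (ψ : I → ℂ) x) ⟨n, hNI n.2⟩)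
        (φ : N → ℂ) ≠ 0 := by
    intro f hf
    refine ⟨isIrrCharacter_linear_mul (f.comp I.subtype) ψ.2, ?_⟩
    have : (fun n : N => (fun x : I => (f x : ℂ) * (ψ : I → ℂ) x) ⟨n, hNI n.2⟩)
        = (φ : N → ℂ) := by
      funext n
      have h1 : f (n : G) = 1 := hf n.2
      show ((f (n : G) : ℂˣ) : ℂ) * (ψ : I → ℂ) ⟨n, hNI n.2⟩ = _
      rw [h1, hψN, Units.val_one, one_mul]
    rw [this, Helper7.classInner_irr_self φ.2]
    exact one_ne_zero
  have hFirr : ∀ f : G →* ℂˣ, N ≤ f.ker →
      IsIrrCharacter G (indFun I (fun x : I => (f x : ℂ) * (ψ : I → ℂ) x)) := fun f hf =>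
    isIrrCharacter_indFun_of_inertia N I φ.2 hT hNI (htw f hf).1 (htw f hf).2
  have hFdeg : ∀ f : G →* ℂˣ, 
      charDegree (indFun I (fun x : I => (f x : ℂ) * (ψ : I → ℂ) x))
        = charDegree (φ : N → ℂ) * I.index := by
    intro f
    apply charDegree_eq
    rw [indFun_one]
    have h1 : (ψ : I → ℂ) 1 = (φ : N → ℂ) 1 := hψN 1
    have h2 : f ((1 : I) : G) = 1 := by simp
    rw [h2, h1, apply_one_eq_charDegree φ.2]
    push_cast
    ring
  choose f hf1 hf2 using hlin
  let F : {χ : IrrCharacter G // charDegree (χ : G → ℂ) = 1} →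
      {χ : IrrCharacter G // charDegree (χ : G → ℂ) = charDegree (φ : N → ℂ) * I.index} :=
    fun lam => ⟨⟨_, hFirr (f lam.1 lam.2) (hf2 lam.1 lam.2)⟩, hFdeg _⟩
  rw [Nat.card_eq_fintype_card, Nat.card_eq_fintype_card, ← Finset.card_univ, ← Finset.card_univ]
  have key := Finset.card_le_mul_card_image (f := F) Finset.univ I.index ?_
  · refine key.trans (Nat.mul_le_mul_left _ (Finset.card_le_card (Finset.subset_univ _)))
  · intro a ha
    obtain ⟨l0, -, rfl⟩ := Finset.mem_image.mp ha
    have hμ : IsIrrCharacter I (fun x : I => ((l0 : IrrCharacter G) : G → ℂ) x) := by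
      have := isIrrCharacter_linear_mul ((f l0.1 l0.2).comp I.subtype)
        (Helper7.isIrrCharacter_one (G := I))
      convert this using 1
      funext x
      rw [hf1 l0.1 l0.2]
      simp
    have hcard := card_extensions_le I hμ
      ((Finset.univ.filter (fun x => F x = F l0)).image Subtype.val) ?_
    · rwa [Finset.card_image_of_injective _ Subtype.val_injective] at hcard
    · intro χ hχ
      obtain ⟨l, hl, rfl⟩ := Finset.mem_image.mp hχ
      have hl' : F l = F l0 := (Finset.mem_filter.mp hl).2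
      have e1 : indFun I (fun x : I => (f l.1 l.2 x : ℂ) * (ψ : I → ℂ) x)
          = indFun I (fun x : I => (f l0.1 l0.2 x : ℂ) * (ψ : I → ℂ) x) :=
        congrArg (fun z => ((z.1 : IrrCharacter G) : G → ℂ)) hl'
      have e2 := indFun_injective_of_inertia N I φ.2 hT hNI (htw _ (hf2 l.1 l.2)).1
        (htw _ (hf2 l0.1 l0.2)).1 (htw _ (hf2 l.1 l.2)).2 (htw _ (hf2 l0.1 l0.2)).2 e1
      have e3 := linear_fix_trivial (N.subgroupOf I) ψ.2 ?_
        (((f l.1 l.2) / (f l0.1 l0.2)).comp I.subtype) ?_ ?_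
      · funext x
        have e4 := DFunLike.congr_fun e3 x
        simp only [MonoidHom.comp_apply, MonoidHom.div_apply, MonoidHom.one_apply,
          Subgroup.coe_subtype] at e4
        rw [div_eq_one] at e4
        rw [hf1 l.1 l.2, hf1 l0.1 l0.2, e4]
      · convert isIrrCharacter_subgroupOf N hNI φ.2 using 1
        funext x
        exact hψN ⟨x, Subgroup.mem_subgroupOf.mp x.2⟩
      · intro x hx
        have hx' : (x : G) ∈ N := Subgroup.mem_subgroupOf.mp hx
        rw [MonoidHom.mem_ker]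
        simp only [MonoidHom.comp_apply, MonoidHom.div_apply, Subgroup.coe_subtype]
        have a1 : f l.1 l.2 (x : G) = 1 := hf2 l.1 l.2 hx'
        have a2 : f l0.1 l0.2 (x : G) = 1 := hf2 l0.1 l0.2 hx'
        rw [a1, a2, div_one]
      · intro x
        have e4 := congrFun e2 x
        simp only [MonoidHom.comp_apply, MonoidHom.div_apply, Subgroup.coe_subtype]
        rw [Units.val_div_eq_div_val, div_mul_eq_mul_div, e4]
        field_simp

end Cfsg.Agent.S4870
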