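import Cfsg.Statements.S4871
import Cfsg.Agent.Lib.Helper25.LinCount
import Cfsg.Agent.Lib.Helper25.LinExt
import Cfsg.Agent.Lib.Helper25.Monomial
import Cfsg.Agent.Lib.Helper25.Gallagher
import Cfsg.Agent.Lib.Helper25.DetExt
import Cfsg.Agent.Lib.Helper7.BlockDefect
import Cfsg.Agent.Lib.Helper10.FSInd2
import Cfsg.Agent.Lib.Helper10.FSInd3

set_option autoImplicit false
open Cfsg

namespace Cfsg.Agent.S4871

open Cfsg.Agent.Lib.Helper25 Cfsg.Agent.Lib

/-- Let G be a finite group that is the semidirect product of a normal elementary abelian subgroup N of odd order by a non-trivial 2-subgroup P, with N the unique minimal normal subgroup of G. Consider the strongly real irreducible complex characters of G (Frobenius–Schur indicator +1) whose degree is 1 or even. Then their average degree is at least 4/3: four times their number is at most three times the sum of their degrees. -/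
theorem result {G : Type*} [Group G] [Finite G] (N P : Subgroup G) (hN : N.Normal) (q : ℕ) [Fact q.Prime] (hq : q ≠ 2) (hNel : Cfsg.IsElementaryAbelian q N) (hP : IsPGroup 2 ↥P) (hP1 : P ≠ ⊥) (hdisj : N ⊓ P = ⊥) (hprod : N ⊔ P = ⊤) (hmin : N ≠ ⊥ ∧ ∀ M : Subgroup G, M.Normal → M ≠ ⊥ → N ≤ M) : 4 * Nat.card {χ : Cfsg.IrrCharacter G // (Cfsg.charDegree (χ : G → ℂ) = 1 ∨ 2 ∣ Cfsg.charDegree (χ : G → ℂ)) ∧ (Nat.card G : ℂ)⁻¹ * ∑ᶠ g : G, (χ : G → ℂ) (g * g) = 1} ≤ 3 * (∑ᶠ χ : {χ : Cfsg.IrrCharacter G // (Cfsg.charDegree (χ : G → ℂ) = 1 ∨ 2 ∣ Cfsg.charDegree (χ : G → ℂ)) ∧ (Nat.card G : ℂ)⁻¹ * ∑ᶠ g : G, (χ : G → ℂ) (g * g) = 1}, Cfsg.charDegree (χ.1 : G → ℂ)) := by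
  classical
  haveI := hN
  have : Fintype G := Fintype.ofFinite _
  have : Fintype N := Fintype.ofFinite _
  have := Helper2.finite_irrCharacter (G := G)
  have : Fintype (IrrCharacter G) := Fintype.ofFinite _
  have hqp : q.Prime := Fact.out
  have hqodd : Odd q := hqp.odd_of_ne_two hq
  have hNc : ∀ a ∈ N, ∀ b ∈ N, a * b = b * a := fun a ha b hb =>
    congrArg Subtype.val (hNel.1.is_comm.comm ⟨a, ha⟩ ⟨b, hb⟩)
  obtain ⟨z, hzP, hz1, hz2, hzinv⟩ :=
    Helper10.FSInd3.exists_inverting_involution N P hN hNc hP hP1 hdisj hprod hmin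
  -- a nontrivial linear character of `N`
  obtain ⟨l, n0, hl⟩ : ∃ (l : N →* ℂˣ) (n0 : N), l n0 ≠ 1 := by
    letI : CommGroup N := { (inferInstance : Group N) with mul_comm := hNel.1.is_comm.comm }
    obtain ⟨n0, hn0⟩ : ∃ n0 : N, n0 ≠ 1 := by
      haveI : Nontrivial N := (Subgroup.nontrivial_iff_ne_bot N).2 hmin.1
      exact exists_ne 1
    obtain ⟨φ, hφ⟩ := CommGroup.exists_apply_ne_one_of_hasEnoughRootsOfUnity N ℂ hn0
    exact ⟨φ, n0, hφ⟩
  have hpowq : ∀ n : N, n ^ q = 1 := fun n => Subtype.ext (by simpa using hNel.2 n n.2)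
  have hlq : ∀ n : N, l n ^ q = 1 := by
    intro n
    rw [← map_pow, hpowq, map_one]
  -- an element of `ℂˣ` killed by `2` and by `q` is trivial
  have hunit : ∀ w : ℂˣ, w * w = 1 → w ^ q = 1 → w = 1 := by
    intro w h2 hq'
    have ho1 := orderOf_dvd_of_pow_eq_one hq'
    have ho2 : orderOf w ∣ 2 := orderOf_dvd_of_pow_eq_one (by rw [pow_two]; exact h2)
    have ho : orderOf w = 1 := Nat.eq_one_of_dvd_coprimes hqodd.coprime_two_right ho1 ho2
    exact orderOf_eq_one_iff.1 ho
  set φ : N → ℂ := fun n => (l n : ℂ) with hφdef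
  have hφ : IsIrrCharacter N φ := Helper7.isIrrCharacter_of_hom l
  set I : Subgroup G := inertia N φ with hIdef
  have hT : ∀ g : G, g ∈ I ↔ ∀ h : N, φ ⟨g * h * g⁻¹, hN.conj_mem h h.2 g⟩ = φ h :=
    mem_inertia N φ
  have hNI : N ≤ I :=
    le_inertia N (Helper7.isClassFunction_of_isCharacter (Helper7.isCharacter_of_irr hφ))
  have : Fintype I := Fintype.ofFinite _
  -- the index of `N` is a power of `2`
  obtain ⟨c, hc⟩ : ∃ c, N.index = 2 ^ c := by
    have hPG : IsPGroup 2 (G ⧸ N) := by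
      intro x
      induction x using QuotientGroup.induction_on with
      | H g =>
        have hg : g ∈ ((N ⊔ P : Subgroup G) : Set G) := by rw [hprod]; trivial
        rw [Subgroup.normal_mul] at hg
        obtain ⟨n, hn, y, hy, rfl⟩ := Set.mem_mul.1 hg
        obtain ⟨k, hk⟩ := hP ⟨y, hy⟩
        refine ⟨k, ?_⟩
        have h1 : (QuotientGroup.mk (n * y) : G ⧸ N) = QuotientGroup.mk y := by
          rw [QuotientGroup.mk_mul, (QuotientGroup.eq_one_iff n).2 hn, one_mul]
        rw [h1, ← QuotientGroup.mk_pow]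
        have : y ^ 2 ^ k = 1 := by simpa using congrArg Subtype.val hk
        rw [this, QuotientGroup.mk_one]
    obtain ⟨c, hc⟩ := IsPGroup.iff_card.mp hPG
    exact ⟨c, by rw [Subgroup.index_eq_card, hc]⟩
  have hcop2 : Nat.Coprime (2 ^ c) q := Nat.Coprime.pow_left c hqodd.coprime_two_left
  -- the canonical extension of `l` to `I`
  obtain ⟨F, hF1, hFq⟩ := exists_coprime_linear_extension (G := I) (N.subgroupOf I)
    (l.comp (Subgroup.subgroupOfEquivOfLe hNI).toMonoidHom) (by
      intro g n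
      have h1 := (hT g).1 g.2 ⟨((n : I) : G), Subgroup.mem_subgroupOf.1 n.2⟩
      apply Units.ext
      exact h1) q (fun n => hlq _) (by
      have h1 : (N.subgroupOf I).index ∣ N.index := Subgroup.relIndex_dvd_index_of_normal N I
      rw [hc] at h1
      exact Nat.Coprime.coprime_dvd_left h1 hcop2)
  have hFN : ∀ n : N, F ⟨n, hNI n.2⟩ = l n := by
    intro n
    exact hF1 ⟨⟨n, hNI n.2⟩, Subgroup.mem_subgroupOf.2 n.2⟩
  have hI' : ∀ g : G, g ∈ I ↔
      ∀ n : N, F ⟨g * n * g⁻¹, hNI (hN.conj_mem n n.2 g)⟩ = F ⟨n, hNI n.2⟩ := by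
    intro g
    rw [hT]
    constructor
    · intro h n
      have e1 : F ⟨g * n * g⁻¹, hNI (hN.conj_mem n n.2 g)⟩ = l ⟨g * n * g⁻¹, hN.conj_mem n n.2 g⟩ :=
        hFN ⟨g * n * g⁻¹, hN.conj_mem n n.2 g⟩
      rw [e1, hFN]
      exact Units.ext (h n)
    · intro h n
      have e1 : F ⟨g * n * g⁻¹, hNI (hN.conj_mem n n.2 g)⟩ = l ⟨g * n * g⁻¹, hN.conj_mem n n.2 g⟩ :=
        hFN ⟨g * n * g⁻¹, hN.conj_mem n n.2 g⟩
      have h2 := h n
      rw [e1, hFN] at h2
      show ((l _ : ℂˣ) : ℂ) = ((l _ : ℂˣ) : ℂ)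
      rw [h2]
  set θ : I → ℂ := fun x => (F x : ℂ) with hθdef
  have hθirr : IsIrrCharacter I θ := Helper7.isIrrCharacter_of_hom F
  set χ0 : G → ℂ := indFun I θ with hχ0def
  have hν0 : fsInd χ0 = 1 := Helper10.FSInd2.fsInd_indFun_linear N I hNI F hI' z hz2 hzinv q c
    hqodd hFq (fun y _ => by rw [← hc]; exact N.pow_index_mem y)
  -- twists
  have htw : ∀ f : G →* ℂˣ, (∀ g, f g * f g = 1) →
      IsIrrCharacter I (θ * fun h : I => (f h : ℂ)) ∧
      classInner (fun n : N => (θ * fun h : I => (f h : ℂ)) ⟨n, hNI n.2⟩) φ ≠ 0 := by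
    intro f hf
    constructor
    · have := isIrrCharacter_linear_mul (f.comp I.subtype) hθirr
      convert this using 1
      funext x
      exact mul_comm _ _
    · have : (fun n : N => (θ * fun h : I => (f h : ℂ)) ⟨n, hNI n.2⟩) = φ := by
        funext n
        have h1 : f (n : G) = 1 := by
          apply hunit _ (hf _)
          rw [← map_pow]
          have := congrArg Subtype.val (hpowq n)
          rw [Subgroup.coe_pow, Subgroup.coe_one] at this
          rw [this, map_one]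
        show ((F ⟨n, hNI n.2⟩ : ℂˣ) : ℂ) * ((f (n : G) : ℂˣ) : ℂ) = _
        rw [h1, hFN, Units.val_one, mul_one]
      rw [this, Helper7.classInner_irr_self hφ]
      exact one_ne_zero
  have hχ0 : IsIrrCharacter G χ0 := by
    have h1 := htw 1 (fun g => by simp)
    have e : (θ * fun h : I => (((1 : G →* ℂˣ) h : ℂˣ) : ℂ)) = θ := by
      funext x
      simp
    rw [e] at h1
    exact isIrrCharacter_indFun_of_inertia N I hφ hT hNI h1.1 h1.2
  set m : ℕ := I.index with hm
  have hχ0deg : χ0 1 = (m : ℂ) := by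
    rw [hχ0def, indFun_one]
    show (I.index : ℂ) * ((F 1 : ℂˣ) : ℂ) = _
    rw [map_one, Units.val_one, mul_one]
  -- `m` is even
  have hzI : z ∉ I := by
    intro hz
    apply hl
    have h1 := (hT z).1 hz n0
    have h2 : l ⟨z * n0 * z⁻¹, hN.conj_mem n0 n0.2 z⟩ = l n0 := Units.ext h1
    have h3 : (⟨z * n0 * z⁻¹, hN.conj_mem n0 n0.2 z⟩ : N) = n0⁻¹ :=
      Subtype.ext (hzinv n0 n0.2)
    rw [h3, map_inv] at h2
    apply hunit _ _ (hlq n0)
    calc l n0 * l n0 = (l n0)⁻¹ * l n0 := by rw [h2]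
      _ = 1 := inv_mul_cancel _
  have hm2 : 2 ∣ m := by
    have h1 : m ∣ 2 ^ c := by rw [← hc]; exact Subgroup.index_dvd_of_le hNI
    obtain ⟨j, -, hj⟩ := (Nat.dvd_prime_pow Nat.prime_two).1 h1
    have hj0 : j ≠ 0 := by
      rintro rfl
      rw [pow_zero] at hj
      apply hzI
      rw [Subgroup.index_eq_one.1 hj]
      trivial
    rw [hj]
    exact dvd_pow_self 2 hj0
  have hm0 : 0 < m := Nat.pos_of_ne_zero I.index_ne_zero_of_finite
  have hm2' : 2 ≤ m := Nat.le_of_dvd hm0 hm2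
  -- the set of characters
  have hfin : Fintype {χ : IrrCharacter G // (charDegree (χ : G → ℂ) = 1 ∨
      2 ∣ charDegree (χ : G → ℂ)) ∧ (Nat.card G : ℂ)⁻¹ * ∑ᶠ g : G, (χ : G → ℂ) (g * g) = 1} :=
    Fintype.ofFinite _
  set d : {χ : IrrCharacter G // (charDegree (χ : G → ℂ) = 1 ∨
      2 ∣ charDegree (χ : G → ℂ)) ∧ (Nat.card G : ℂ)⁻¹ * ∑ᶠ g : G, (χ : G → ℂ) (g * g) = 1} → ℕ :=
    fun x => charDegree (x.1 : G → ℂ) with hd
  have hlin : ∀ x, d x = 1 → ∃ f : G →* ℂˣ, (∀ g, (x.1 : G → ℂ) g = (f g : ℂ)) ∧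
      ∀ g, f g * f g = 1 := by
    intro x hx
    have h2 : (x.1 : G → ℂ) 1 = 1 := by
      rw [apply_one_eq_charDegree x.1.2]
      have : charDegree (x.1 : G → ℂ) = 1 := hx
      rw [this, Nat.cast_one]
    obtain ⟨f, hf⟩ := Helper2.IsCharacter.exists_hom_of_apply_one
      (Helper7.isCharacter_of_irr x.1.2) h2
    refine ⟨f, hf, fun g => ?_⟩
    have hν' : fsInd (x.1 : G → ℂ) = 1 := by
      rw [fsInd, ← finsum_eq_sum_of_fintype]
      exact x.2.2
    have h3 := conj_eq_of_fsInd_eq_one x.1.2 hν' g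
    rw [← Helper7.char_inv_eq_conj (Helper7.isCharacter_of_irr x.1.2), hf, hf] at h3
    have h4 : f g⁻¹ = f g := Units.ext h3
    calc f g * f g = f g * f g⁻¹ := by rw [h4]
      _ = 1 := by rw [← map_mul, mul_inv_cancel, map_one]
  have hcount : (Finset.univ.filter (fun x => d x = 1)).card
      ≤ m * (Finset.univ.filter (fun x => d x = m)).card := by
    have hinj : Function.Injective (fun y : {χ : IrrCharacter G // (charDegree (χ : G → ℂ) = 1 ∨
        2 ∣ charDegree (χ : G → ℂ)) ∧ (Nat.card G : ℂ)⁻¹ * ∑ᶠ g : G, (χ : G → ℂ) (g * g) = 1} =>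
        (y.1 : G → ℂ)) := fun a b hab => Subtype.ext (Subtype.ext hab)
    rw [← Finset.card_image_of_injective (Finset.univ.filter (fun x => d x = m)) hinj]
    refine Finset.card_le_mul_card_image_of_maps_to
      (f := fun x : {χ : IrrCharacter G // (charDegree (χ : G → ℂ) = 1 ∨ 2 ∣ charDegree (χ : G → ℂ)) ∧ (Nat.card G : ℂ)⁻¹ * ∑ᶠ g : G, (χ : G → ℂ) (g * g) = 1} => χ0 * (x.1 : G → ℂ)) ?_ m ?_
    · intro x hx
      have hx1 : d x = 1 := (Finset.mem_filter.1 hx).2
      obtain ⟨f, hf1, hf2⟩ := hlin x hx1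
      have hirr : IsIrrCharacter G (χ0 * (x.1 : G → ℂ)) := by
        have := isIrrCharacter_linear_mul f hχ0
        convert this using 1
        funext g
        rw [Pi.mul_apply, hf1, mul_comm]
      have hdeg : charDegree (χ0 * (x.1 : G → ℂ)) = m := by
        apply charDegree_eq
        rw [Pi.mul_apply, hχ0deg, hf1, map_one, Units.val_one, mul_one]
      have hν : (Nat.card G : ℂ)⁻¹ * ∑ᶠ g : G, (χ0 * (x.1 : G → ℂ)) (g * g) = 1 := by
        rw [finsum_eq_sum_of_fintype]
        refine Eq.trans ?_ hν0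
        rw [fsInd]
        congr 1
        refine Finset.sum_congr rfl (fun g _ => ?_)
        rw [Pi.mul_apply, hf1, map_mul, hf2, Units.val_one, mul_one]
      refine Finset.mem_image.2 ⟨⟨⟨_, hirr⟩, Or.inr (by rw [hdeg]; exact hm2), hν⟩, ?_, rfl⟩
      exact Finset.mem_filter.2 ⟨Finset.mem_univ _, hdeg⟩
    · intro b _
      rcases (Finset.filter (fun x : {χ : IrrCharacter G // (charDegree (χ : G → ℂ) = 1 ∨ 2 ∣ charDegree (χ : G → ℂ)) ∧ (Nat.card G : ℂ)⁻¹ * ∑ᶠ g : G, (χ : G → ℂ) (g * g) = 1} => χ0 * (x.1 : G → ℂ) = b)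
        (Finset.univ.filter (fun x => d x = 1))).eq_empty_or_nonempty with he | ⟨x0, hx0⟩
      · rw [he]; simp
      · have hx01 : d x0 = 1 := (Finset.mem_filter.1 (Finset.mem_filter.1 hx0).1).2
        have hx0b : χ0 * (x0.1 : G → ℂ) = b := (Finset.mem_filter.1 hx0).2
        obtain ⟨f0, hf01, hf02⟩ := hlin x0 hx01
        have hμ : IsIrrCharacter I (fun h : I => (x0.1 : G → ℂ) h) := by
          have := Helper7.isIrrCharacter_of_hom (f0.comp I.subtype)
          convert this using 1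
          funext h
          rw [hf01]
          rfl
        have hcard := card_extensions_le I hμ
          ((Finset.filter (fun x : {χ : IrrCharacter G // (charDegree (χ : G → ℂ) = 1 ∨ 2 ∣ charDegree (χ : G → ℂ)) ∧ (Nat.card G : ℂ)⁻¹ * ∑ᶠ g : G, (χ : G → ℂ) (g * g) = 1} => χ0 * (x.1 : G → ℂ) = b)
            (Finset.univ.filter (fun x => d x = 1))).image Subtype.val) ?_
        · rwa [Finset.card_image_of_injective _ Subtype.val_injective] at hcard
        · intro χ hχ
          obtain ⟨x, hx, rfl⟩ := Finset.mem_image.1 hχ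
          have hx1 : d x = 1 := (Finset.mem_filter.1 (Finset.mem_filter.1 hx).1).2
          have hxb : χ0 * (x.1 : G → ℂ) = b := (Finset.mem_filter.1 hx).2
          obtain ⟨f, hf1, hf2⟩ := hlin x hx1
          have ex : (x.1 : G → ℂ) = fun g => (f g : ℂ) := funext hf1
          have ex0 : (x0.1 : G → ℂ) = fun g => (f0 g : ℂ) := funext hf01
          have e1 : indFun I (θ * fun h : I => (f h : ℂ)) = indFun I (θ * fun h : I => (f0 h : ℂ)) := by
            have a1 := indFun_mul_restrict I θ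
              (Helper7.isClassFunction_of_isCharacter (Helper7.isCharacter_of_irr x.1.2))
            have a2 := indFun_mul_restrict I θ
              (Helper7.isClassFunction_of_isCharacter (Helper7.isCharacter_of_irr x0.1.2))
            rw [ex] at a1
            rw [ex0] at a2
            rw [a1, a2, ← ex, ← ex0]
            exact hxb.trans hx0b.symm
          have e2 := indFun_injective_of_inertia N I hφ hT hNI (htw f hf2).1 (htw f0 hf02).1
            (htw f hf2).2 (htw f0 hf02).2 e1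
          funext h
          have e3 := congrFun e2 h
          simp only [Pi.mul_apply] at e3
          have hne : θ h ≠ 0 := (F h).ne_zero
          rw [hf1, hf01]
          exact mul_left_cancel₀ hne e3
  have hd2 : ∀ x, d x = 1 ∨ 2 ≤ d x := by
    intro x
    rcases x.2.1 with h | h
    · exact Or.inl h
    · exact Or.inr (Nat.le_of_dvd (Helper7.charDegree_pos x.1) h)
  have hfinal := Helper10.FSInd3.avg_bound d m hm2' hd2 hcount
  rw [finsum_eq_sum_of_fintype, Nat.card_eq_fintype_card]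
  exact hfinal

end Cfsg.Agent.S4871
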