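import Cfsg.Statements.S4873
import Cfsg.Agent.Lib.Helper25.FrobSchur4

set_option autoImplicit false
open Cfsg

namespace Cfsg.Agent.S4873

/-- Let N be a normal subgroup of odd index in the finite group G. Then every irreducible complex character of N with Frobenius–Schur indicator +1 lies under exactly one irreducible character of G with Frobenius–Schur indicator +1. -/
theorem result {G : Type*} [Group G] [Finite G] (N : Subgroup G) [N.Normal] (hodd : Odd N.index) (φ : Cfsg.IrrCharacter ↥N) (hφ : (Nat.card ↥N : ℂ)⁻¹ * ∑ᶠ g : ↥N, (φ : ↥N → ℂ) (g * g) = 1) : ∃! χ : Cfsg.IrrCharacter G, (Nat.card G : ℂ)⁻¹ * ∑ᶠ g : G, (χ : G → ℂ) (g * g) = 1 ∧ (∑ᶠ n : ↥N, (χ : G → ℂ) n * (starRingEnd ℂ) ((φ : ↥N → ℂ) n)) ≠ 0 := by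
  classical
  cases nonempty_fintype G
  have hfs : ∀ χ : G → ℂ, (Nat.card G : ℂ)⁻¹ * ∑ᶠ g : G, χ (g * g) =
      Cfsg.Agent.Lib.Helper25.fsInd χ := by
    intro χ
    rw [finsum_eq_sum_of_fintype]; rfl
  have hfsN : Cfsg.Agent.Lib.Helper25.fsInd (φ : ↥N → ℂ) = 1 := by
    rw [finsum_eq_sum_of_fintype] at hφ
    exact hφ
  have hN : (Nat.card N : ℂ) ≠ 0 := by exact_mod_cast Nat.card_pos.ne'
  have hin : ∀ χ : G → ℂ, (∑ᶠ n : ↥N, χ n * (starRingEnd ℂ) ((φ : ↥N → ℂ) n)) ≠ 0 ↔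
      Cfsg.classInner (fun n : N => χ n) (φ : ↥N → ℂ) ≠ 0 := by
    intro χ
    rw [finsum_eq_sum_of_fintype, Cfsg.classInner]
    constructor
    · intro h
      exact mul_ne_zero (inv_ne_zero hN) h
    · intro h h0
      rw [h0, mul_zero] at h
      exact h rfl
  simp only [hfs, hin]
  obtain ⟨χ, h1, h2⟩ := Cfsg.Agent.Lib.Helper25.exists_strongly_real_over N hodd φ.2 hfsN
  refine ⟨χ, ⟨h1, h2⟩, ?_⟩
  rintro ψ ⟨h3, h4⟩
  apply Subtype.ext
  exact Cfsg.Agent.Lib.Helper25.strongly_real_over_unique N hodd φ.2 ψ.2 χ.2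
    (Cfsg.Agent.Lib.Helper25.conj_eq_of_fsInd_eq_one ψ.2 h3)
    (Cfsg.Agent.Lib.Helper25.conj_eq_of_fsInd_eq_one χ.2 h1) h4 h2

end Cfsg.Agent.S4873
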