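import Cfsg.Statements.S4892
import Cfsg.Agent.Lib.Helper1.PRatG

set_option autoImplicit false
open Cfsg

namespace Cfsg.Agent.S4892

/-- Let p be an odd prime, M a maximal ideal of the algebraic integers containing p, N a normal subgroup of the finite group G, and θ an irreducible character of N that is G-invariant, of degree prime to p, p-rational (values in the field generated over ℚ by a root of unity of order prime to p) and lies in the principal p-block of N. Let Q be a Sylow p-subgroup of N and suppose the index of N·C_G(Q) in G is a power of p. Then θ extends to a p-rational irreducible character of G lying in the principal p-block of G. -/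
theorem result {G : Type*} [Group G] [Finite G] (p : ℕ) [Fact p.Prime] (hp : p ≠ 2) (M : Ideal Cfsg.AlgInt) (hM : Cfsg.IsPModular p M) (N : Subgroup G) [N.Normal] (θ : Cfsg.IrrCharacter ↥N) (hinv : ∀ g : G, ∀ n n' : ↥N, (n' : G) = g * (n : G) * g⁻¹ → (θ : ↥N → ℂ) n' = (θ : ↥N → ℂ) n) (hdeg : ¬ p ∣ Cfsg.charDegree (θ : ↥N → ℂ)) (hrat : ∃ m : ℕ, ¬ p ∣ m ∧ ∀ n : ↥N, (θ : ↥N → ℂ) n ∈ IntermediateField.adjoin ℚ ({Complex.exp (2 * Real.pi * Complex.I / m)} : Set ℂ)) (hB : θ ∈ Cfsg.principalBlock M ↥N) (Q : Sylow p ↥N) (hidx : ∃ a : ℕ, (N ⊔ Subgroup.centralizer (((Q : Subgroup ↥N).map N.subtype : Subgroup G) : Set G)).index = p ^ a) : ∃ χ : Cfsg.IrrCharacter G, χ ∈ (Cfsg.principalBlock M G) ∧ (∃ n : ℕ, ¬ p ∣ n ∧ ∀ g : G, (χ : G → ℂ) g ∈ IntermediateField.adjoin ℚ ({Complex.exp (2 * Real.pi * Complex.I / n)} : Set ℂ)) ∧ ∀ n : ↥N, (χ : G → ℂ) n = (θ : ↥N → ℂ) n := by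
  classical
  have hpp : p.Prime := Fact.out
  obtain ⟨a0, hidx'⟩ := hidx
  have hcov := Cfsg.Agent.Lib.Helper1.pr_cover p N Q hidx'
  obtain ⟨a, n', hn', hcard⟩ := Nat.exists_eq_pow_mul_and_not_dvd (Nat.card_pos (α := G)).ne' p
    hpp.ne_one
  obtain ⟨r, hK⟩ := Cfsg.Agent.Lib.Helper1.pr_hyp (G := G) hpp hp hcard hn'
  obtain ⟨m, hm, hrat'⟩ := hrat
  have hθK : ∀ k ∈ Cfsg.Agent.Lib.Helper1.prK (Nat.card G) n', ∀ n : N,
      (θ : N → ℂ) (n ^ k) = (θ : N → ℂ) n := by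
    intro k hk n
    refine Cfsg.Agent.Lib.Helper1.pr_fixed_of_mem (a := a) (n' := n') (m := m) hpp ?_ hm hn'
      (Cfsg.Agent.Lib.Helper7.isCharacter_of_irr θ.2) hrat' ?_ hk.2 n
    · rw [← hcard]; exact Subgroup.card_subgroup_dvd_card N
    · rw [← hcard]; exact hk.1
  have hinv' : ∀ (g : G) (n : N), (θ : N → ℂ) (MulAut.conjNormal g n) = (θ : N → ℂ) n :=
    fun g n => hinv g n _ rfl
  obtain ⟨χ, hχ⟩ := Cfsg.Agent.Lib.Helper1.pr_exists N hM hK hB hθK hinv' hcov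
  have hχB := Cfsg.Agent.Lib.Helper1.pr_mem_block N hM hK hB hθK hcov χ hχ
  refine ⟨χ, hχB, ⟨n', hn', ?_⟩, fun n => (hχ ⊤).2.1 n (Subgroup.mem_top _)⟩
  intro g
  exact Cfsg.Agent.Lib.Helper1.pr_mem_of_fixed hcard
    (Cfsg.Agent.Lib.Helper7.isCharacter_of_irr χ.2)
    (fun k hk hk1 g => (hχ ⊤).2.2.2 k ⟨hk, hk1⟩ ⟨g, Subgroup.mem_top _⟩) g

end Cfsg.Agent.S4892
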