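import Cfsg.Statements.S4911
import Cfsg.Agent.Lib.Helper25.RealInv1
import Cfsg.Agent.Lib.Helper2.CharPerm

set_option autoImplicit false
open Cfsg

namespace Cfsg.Agent.S4911

open Cfsg.Agent.Lib.Helper25 Cfsg.Agent.Lib

/-- Let P and K be subgroups of a finite group with P a p-group normalizing K and K of order prime to p. Then the number of P-invariant real-valued irreducible complex characters of K equals the number of conjugacy classes of K that are real (closed under inversion) and P-invariant. Moreover, if every real-valued irreducible character of K is P-invariant, then every real element of K (one conjugate in K to its inverse) is conjugate in K to an element centralized by P. -/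
theorem result {G : Type*} [Group G] [Finite G] (p : ℕ) [Fact p.Prime] (P K : Subgroup G) (hP : IsPGroup p ↥P) (hK : ¬ p ∣ Nat.card ↥K) (hPK : P ≤ Subgroup.normalizer (K : Set G)) : Nat.card {θ : Cfsg.IrrCharacter ↥K // (∀ k : ↥K, ((θ : ↥K → ℂ) k).im = 0) ∧ (∀ x ∈ P, ∀ k k' : ↥K, (k' : G) = x * (k : G) * x⁻¹ → (θ : ↥K → ℂ) k' = (θ : ↥K → ℂ) k)} = Nat.card {c : ConjClasses ↥K // (∀ k : ↥K, ConjClasses.mk k = c → IsConj k k⁻¹) ∧ ∀ k : ↥K, ConjClasses.mk k = c → ∀ x ∈ P, ∀ k' : ↥K, (k' : G) = x * (k : G) * x⁻¹ → ConjClasses.mk k' = c} ∧ ((∀ θ : Cfsg.IrrCharacter ↥K, (∀ k : ↥K, ((θ : ↥K → ℂ) k).im = 0) → (∀ x ∈ P, ∀ k k' : ↥K, (k' : G) = x * (k : G) * x⁻¹ → (θ : ↥K → ℂ) k' = (θ : ↥K → ℂ) k)) → ∀ k : ↥K, IsConj k k⁻¹ → ∃ k' : ↥K, IsConj k k' ∧ ∀ x ∈ P, x * (k' : G) * x⁻¹ = (k' : G)) := by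
  classical
  have hp : p.Prime := Fact.out
  have hnorm : ∀ s ∈ P, ∀ g ∈ K, s * g * s⁻¹ ∈ K := fun s hs g hg =>
    (Subgroup.mem_normalizer_iff.mp (hPK hs) g).mp hg
  have hcop : (Nat.card K).Coprime (Nat.card P) := by
    obtain ⟨n, hn⟩ := IsPGroup.iff_card.mp hP
    rw [hn]
    exact Nat.Coprime.pow_right n ((Nat.Prime.coprime_iff_not_dvd hp).mpr hK).symm
  have hnil : Group.IsNilpotent P := hP.isNilpotent
  have hsolv : Group.IsSolvable P := inferInstance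
  have e1 := card_real_inv_irr hp K P hnorm hcop hP
  have e2 := card_real_inv_classes K P hsolv hnorm hcop
  have e3 := Helper2.card_real_irr (G := (K ⊓ Subgroup.centralizer (P : Set G) : Subgroup G))
  have main : Nat.card {θ : Cfsg.IrrCharacter ↥K // (∀ k : ↥K, ((θ : ↥K → ℂ) k).im = 0) ∧
      (∀ x ∈ P, ∀ k k' : ↥K, (k' : G) = x * (k : G) * x⁻¹ → (θ : ↥K → ℂ) k' = (θ : ↥K → ℂ) k)}
      = Nat.card {c : ConjClasses ↥K // (∀ k : ↥K, ConjClasses.mk k = c → IsConj k k⁻¹) ∧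
        ∀ k : ↥K, ConjClasses.mk k = c → ∀ x ∈ P, ∀ k' : ↥K, (k' : G) = x * (k : G) * x⁻¹ →
          ConjClasses.mk k' = c} := (e1.trans e3).trans e2
  refine ⟨main, ?_⟩
  intro hall k hk
  have e4 := Helper2.card_real_irr (G := K)
  have e5 : Nat.card {θ : Cfsg.IrrCharacter ↥K // (∀ k : ↥K, ((θ : ↥K → ℂ) k).im = 0) ∧
      (∀ x ∈ P, ∀ k k' : ↥K, (k' : G) = x * (k : G) * x⁻¹ → (θ : ↥K → ℂ) k' = (θ : ↥K → ℂ) k)}
      = Nat.card {θ : Cfsg.IrrCharacter ↥K // ∀ k : ↥K, ((θ : ↥K → ℂ) k).im = 0} :=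
    Nat.card_congr (Equiv.subtypeEquivRight (fun θ => ⟨fun h => h.1, fun h => ⟨h, hall θ h⟩⟩))
  have e6 := (main.symm.trans e5).trans e4
  let ι : {c : ConjClasses ↥K // (∀ k : ↥K, ConjClasses.mk k = c → IsConj k k⁻¹) ∧
        ∀ k : ↥K, ConjClasses.mk k = c → ∀ x ∈ P, ∀ k' : ↥K, (k' : G) = x * (k : G) * x⁻¹ →
          ConjClasses.mk k' = c} → {c : ConjClasses ↥K // ∀ k : ↥K, ConjClasses.mk k = c →
            IsConj k k⁻¹} := fun c => ⟨c.1, c.2.1⟩
  have hinj : Function.Injective ι := by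
    intro a b h
    have h' : (ι a).1 = (ι b).1 := congrArg Subtype.val h
    exact Subtype.ext h'
  have hsurj : Function.Surjective ι := by
    have hb := (Nat.bijective_iff_injective_and_card ι).mpr ⟨hinj, e6⟩
    exact hb.2
  have hkreal : ∀ k' : K, ConjClasses.mk k' = ConjClasses.mk k → IsConj k' k'⁻¹ := by
    intro k' hk'
    rw [ConjClasses.mk_eq_mk_iff_isConj] at hk'
    have h1 : IsConj k⁻¹ k'⁻¹ := by
      obtain ⟨y, hy⟩ := isConj_iff.mp hk'.symm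
      rw [isConj_iff]
      exact ⟨y, by rw [← hy]; group⟩
    exact (hk'.trans hk).trans h1
  obtain ⟨⟨c, hc1, hc2⟩, hc⟩ := hsurj ⟨ConjClasses.mk k, hkreal⟩
  have hck : c = ConjClasses.mk k := congrArg Subtype.val hc
  subst hck
  obtain ⟨hA, -⟩ := class_corr_aux _ P rfl hsolv K hnorm hcop
  obtain ⟨g, hg, hgx⟩ := hA k k.2 (by
    intro s hs
    have h1 := hc2 k rfl s hs ⟨s * k * s⁻¹, hnorm s hs k k.2⟩ rfl
    rw [ConjClasses.mk_eq_mk_iff_isConj, isConj_comm, isConj_iff] at h1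
    obtain ⟨y, hy⟩ := h1
    exact ⟨y, y.2, (congrArg Subtype.val hy).symm⟩)
  obtain ⟨h1, h2⟩ := mem_inf_centralizer.mp hgx
  refine ⟨⟨g * k * g⁻¹, h1⟩, ?_, ?_⟩
  · rw [isConj_iff]
    exact ⟨⟨g, hg⟩, Subtype.ext rfl⟩
  · intro x hx
    show x * (g * k * g⁻¹) * x⁻¹ = g * k * g⁻¹
    rw [h2 x hx]
    group

end Cfsg.Agent.S4911
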