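import Cfsg.Statements.S4916
import Cfsg.Agent.Lib.Helper24.BlockThird
import Cfsg.Agent.Lib.Helper7.BlockHeight

set_option autoImplicit false
open Cfsg

namespace Cfsg.Agent.S4916

open Cfsg.Agent.Lib.Helper7 Cfsg.Agent.Lib.Helper24


/-- Let G be a finite group, p a prime and M a maximal ideal of the algebraic integers containing p. Then the principal character is the only irreducible character of degree prime to p in the principal p-block of G if and only if p does not divide the order of G. -/
theorem result {G : Type*} [Group G] [Finite G] (p : ℕ) [Fact p.Prime] (M : Ideal Cfsg.AlgInt) (hM : Cfsg.IsPModular p M) : (∀ χ : Cfsg.IrrCharacter G, χ ∈ Cfsg.principalBlock M G → ¬ p ∣ Cfsg.charDegree (χ : G → ℂ) → (χ : G → ℂ) = fun _ => (1 : ℂ)) ↔ ¬ p ∣ Nat.card G := by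
  classical
  haveI := hM.2.1.isPrime
  haveI := Fintype.ofFinite G
  haveI := Fintype.ofFinite (IrrCharacter G)
  have hp : p.Prime := hM.1
  constructor
  · intro h hdiv
    obtain ⟨g, hg⟩ := exists_prime_orderOf_dvd_card' p hdiv
    have h0 := Cfsg.Agent.Lib.Helper7.blockCoeff_eq_zero_of_singular hM (isPBlock_principalBlock (M := M) (G := G))
      (g := g) (by rw [hg])
    rw [blockCoeff_eq_sum_inv, finsum_mem_eq_sum_indicator] at h0
    have hG : ((Nat.card G : ℂ))⁻¹ ≠ 0 := by
      apply inv_ne_zero
      exact_mod_cast Nat.card_pos.ne'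
    have h1 := (mul_eq_zero.1 h0).resolve_left hG
    rw [← Finset.add_sum_erase _ _ (Finset.mem_univ (oneIrr G)),
      Set.indicator_of_mem oneIrr_mem_principalBlock] at h1
    have h2 : MemLocalIdeal M (∑ χ ∈ Finset.univ.erase (oneIrr G),
        (principalBlock M G).indicator (fun χ => (χ : G → ℂ) 1 * (χ : G → ℂ) g⁻¹) χ) := by
      apply memLocalIdeal_sum
      intro χ hχ
      have hne : χ ≠ oneIrr G := (Finset.mem_erase.1 hχ).1
      by_cases hχB : χ ∈ principalBlock M G
      · rw [Set.indicator_of_mem hχB]
        have hd : p ∣ charDegree (χ : G → ℂ) := by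
          by_contra hnd
          exact hne (Subtype.ext (h χ hχB hnd))
        apply memLocalIdeal_mul_right _
          (memLocalRing_of_isIntegral (char_isIntegral (isCharacter_of_irr χ.2) _))
        rw [← charDegree_cast (isCharacter_of_irr χ.2), memLocalIdeal_natCast_iff hM]
        exact hd
      · rw [Set.indicator_of_notMem hχB]
        exact memLocalIdeal_zero
    apply not_memLocalIdeal_one (M := M)
    have h3 : (1 : ℂ) = -(∑ χ ∈ Finset.univ.erase (oneIrr G),
        (principalBlock M G).indicator (fun χ => (χ : G → ℂ) 1 * (χ : G → ℂ) g⁻¹) χ) := by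
      have e : ((oneIrr G : IrrCharacter G) : G → ℂ) 1 * ((oneIrr G : IrrCharacter G) : G → ℂ) g⁻¹
          = 1 := by simp [oneIrr]
      rw [e] at h1
      linear_combination h1
    rw [h3]
    exact memLocalIdeal_neg h2
  · intro hnd χ hχ _
    have h1 : blockOf M ((oneIrr G : IrrCharacter G) : G → ℂ) = {oneIrr G} := by
      apply blockOf_eq_singleton_of_not_dvd hM
      intro hd
      exact hnd (dvd_trans hd (Nat.div_dvd_of_dvd (charDegree_dvd_card _)))
    have h2 : χ ∈ blockOf M ((oneIrr G : IrrCharacter G) : G → ℂ) := hχ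
    rw [h1] at h2
    rw [Set.mem_singleton_iff.1 h2]
    rfl

end Cfsg.Agent.S4916
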