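import Cfsg.Statements.S4989
import Cfsg.Agent.Lib.Helper25.GalSum

set_option autoImplicit false
open Cfsg

namespace Cfsg.Agent.S4989

/-- Let H be a subgroup of the finite group G and χ an irreducible complex character of G. Then the inner product of the restriction of χ to H with itself, (1/#H)·Σ_{h ∈ H} |χ(h)|², is at most 1 + #(Z ∖ H)/#H, where Z is the set of zeros of χ in G. -/
theorem result {G : Type*} [Group G] [Finite G] (H : Subgroup G) (χ : Cfsg.IrrCharacter G) : (Nat.card ↥H : ℝ)⁻¹ * ∑ᶠ h : ↥H, ‖(χ : G → ℂ) h‖ ^ 2 ≤ 1 + (Set.ncard ({x : G | (χ : G → ℂ) x = 0} \ (H : Set G)) : ℝ) / (Nat.card ↥H : ℝ) := by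
  classical
  cases nonempty_fintype G
  have hχc := Cfsg.Agent.Lib.Helper2.IsIrrCharacter.isCharacter χ.2
  set f : G → ℝ := fun x => ‖(χ : G → ℂ) x‖ ^ 2 with hf
  let A : Finset G := Finset.univ.filter (fun x => x ∈ H)
  let Z : Finset G := Finset.univ.filter (fun x => x ∉ H ∧ (χ : G → ℂ) x = 0)
  let S : Finset G := Finset.univ.filter (fun x => x ∉ H ∧ (χ : G → ℂ) x ≠ 0)
  have hsumH : ∑ᶠ h : ↥H, ‖(χ : G → ℂ) h‖ ^ 2 = ∑ x ∈ A, f x := by
    rw [finsum_eq_sum_of_fintype]
    exact (Finset.sum_subtype A (fun x => by simp [A]) f).symm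
  have hcardH : Nat.card H = A.card := by
    rw [Nat.card_eq_fintype_card, Fintype.card_subtype]
  have hZ : Set.ncard ({x : G | (χ : G → ℂ) x = 0} \ (H : Set G)) = Z.card := by
    rw [← Set.ncard_coe_finset]
    congr 1
    ext x
    simp [Z, and_comm]
  have hsplit1 : ∀ F : G → ℝ, ∑ x, F x = ∑ x ∈ A, F x + (∑ x ∈ Z, F x + ∑ x ∈ S, F x) := by
    intro F
    rw [← Finset.sum_filter_add_sum_filter_not Finset.univ (fun x => x ∈ H) F]
    congr 1
    rw [← Finset.sum_filter_add_sum_filter_not (Finset.univ.filter (fun x => x ∉ H))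
      (fun x => (χ : G → ℂ) x = 0) F, Finset.filter_filter, Finset.filter_filter]
  have h1 := hsplit1 f
  have h2 := hsplit1 (fun _ => 1)
  simp only [Finset.sum_const, Finset.card_univ, nsmul_eq_mul, mul_one] at h2
  rw [Cfsg.Agent.Lib.Helper25.sum_norm_sq_eq_card χ.2, Nat.card_eq_fintype_card] at h1
  have hZ0 : ∑ x ∈ Z, f x = 0 := by
    apply Finset.sum_eq_zero
    intro x hx
    simp only [Z, Finset.mem_filter, Finset.mem_univ, true_and] at hx
    simp [hf, hx.2]
  have hS : (S.card : ℝ) ≤ ∑ x ∈ S, f x := by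
    apply Cfsg.Agent.Lib.Helper25.card_le_sum_norm_sq hχc
    · intro g hg m hm
      simp only [S, Finset.mem_filter, Finset.mem_univ, true_and] at hg ⊢
      refine ⟨?_, ?_⟩
      · intro hmem
        obtain ⟨k, -, hk⟩ := Cfsg.Agent.Lib.Helper25.exists_pow_pow_eq g hm
        apply hg.1
        rw [← hk]
        exact H.pow_mem hmem k
      · rw [Ne, Cfsg.Agent.Lib.Helper25.char_pow_eq_zero_iff hχc g hm]
        exact hg.2
    · intro g hg
      simp only [S, Finset.mem_filter, Finset.mem_univ, true_and] at hg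
      exact hg.2
  have hApos : (0 : ℝ) < A.card := by
    rw [← hcardH]
    exact_mod_cast Nat.card_pos
  rw [hsumH, hZ, hcardH, inv_mul_eq_div, div_le_iff₀ hApos, add_mul, one_mul,
    div_mul_cancel₀ _ hApos.ne']
  linarith

end Cfsg.Agent.S4989
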