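import Cfsg.Statements.S4996
import Cfsg.Agent.Lib.Helper26.CharZeros
import Cfsg.Agent.S0868

set_option autoImplicit false
open Cfsg

namespace Cfsg.Agent.S4996

/-- Let N be a normal subgroup of the finite group G and χ an irreducible complex character of G. Then the restriction of χ to N is not irreducible if and only if χ vanishes on some whole coset Nx of N in G. -/
theorem result {G : Type*} [Group G] [Finite G] (N : Subgroup G) [N.Normal] (χ : Cfsg.IrrCharacter G) : ¬ Cfsg.IsIrrCharacter ↥N (fun n : ↥N => (χ : G → ℂ) n) ↔ ∃ x : G, ∀ n : ↥N, (χ : G → ℂ) ((n : G) * x) = 0 := by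
  classical
  open Cfsg.Agent.Lib Cfsg.Agent.Lib.Helper26 in
  cases nonempty_fintype G
  have : Fintype N := Fintype.ofFinite _
  have hχ := χ.2
  have hχc := Helper7.isCharacter_of_irr hχ
  constructor
  · intro hnot
    -- a constituent of the restriction
    have hres : IsCharacter N (fun n : N => (χ : G → ℂ) n) := Helper7.isCharacter_restrict hχc N
    have hne : (fun n : N => (χ : G → ℂ) n) ≠ 0 := by
      intro h0
      exact Helper7.irr_apply_one_ne_zero hχ (congrFun h0 1)
    obtain ⟨ϑ, hϑ, hcon⟩ := Helper25.exists_irr_constituent hres hne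
    have hcf := Helper7.isClassFunction_of_isCharacter (Helper7.isCharacter_of_irr hϑ)
    have hNT : N ≤ Helper25.inertia N ϑ := Helper25.le_inertia N hcf
    by_cases hT : Helper25.inertia N ϑ = ⊤
    · -- invariant case
      have hinv : ∀ (g : G) (n : N),
          ϑ ⟨g * n * g⁻¹, (inferInstance : N.Normal).conj_mem n n.2 g⟩ = ϑ n := by
        intro g n
        exact (Helper25.mem_inertia N ϑ g).mp (hT ▸ Subgroup.mem_top g) n
      obtain ⟨Γ, _, _, π, σ, ϑ', d⟩ := exists_cext N hϑ hinv
      obtain ⟨β, hβ, hβ1, hβ2⟩ := d.factor χ hχ (sum_ne_zero_of_classInner hcon)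
      have hβne : β 1 ≠ 1 := by
        intro h1
        apply hnot
        have : (fun n : N => (χ : G → ℂ) n) = ϑ := by
          funext n
          have h2 := hβ2 (σ n)
          rw [d.sec, hβ1, d.ext, h1, one_mul] at h2
          exact h2
        rw [this]; exact hϑ
      obtain ⟨γ, hγ⟩ := exists_zero_of_nonlinear hβ hβne
      refine ⟨π γ, fun n => ?_⟩
      have h2 := hβ2 (σ n * γ)
      rw [map_mul, d.sec, Helper25.char_mul_of_mem_ker (Helper7.isCharacter_of_irr hβ) (hβ1 n),
        hγ, zero_mul] at h2
      exact h2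
    · -- induced case
      have : Fintype (Helper25.inertia N ϑ) := Fintype.ofFinite _
      obtain ⟨ψ, hψ, hind, -⟩ := Helper25.clifford_corr_exists N (Helper25.inertia N ϑ) hϑ
        (Helper25.mem_inertia N ϑ) hNT hχ hcon
      obtain ⟨x, hx⟩ := exists_not_mem_conj hT
      refine ⟨x, fun n => ?_⟩
      rw [← hind, Helper25.indFun_apply]
      rw [Finset.sum_eq_zero, mul_zero]
      intro y _
      apply Helper25.extendByZero_not_mem
      intro hmem
      apply hx y
      have h1 : y⁻¹ * (n : G) * y ∈ Helper25.inertia N ϑ := by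
        apply hNT
        have := (inferInstance : N.Normal).conj_mem n n.2 y⁻¹
        rwa [inv_inv] at this
      have h2 : y⁻¹ * x * y = (y⁻¹ * (n : G) * y)⁻¹ * (y⁻¹ * ((n : G) * x) * y) := by group
      rw [h2]
      exact Subgroup.mul_mem _ (Subgroup.inv_mem _ h1) hmem
  · rintro ⟨x, hx⟩ hirr
    have h := (Cfsg.Agent.S0868.result N χ hχ hirr χ hχ _ rfl).2.2 rfl
    have h1 := congrFun h x
    simp only [hx, zero_mul, Finset.sum_const_zero, mul_zero] at h1
    exact zero_ne_one h1

end Cfsg.Agent.S4996
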