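-- Statement S5001: a height zero character over a central character forces an extension to the defect group.
import Cfsg.Statements.S5001
import Cfsg.Agent.Lib.Helper7.CharBasic
import Cfsg.Agent.Lib.Helper7.BlockCentral
import Cfsg.Agent.Lib.Helper7.BlockLocal
import Cfsg.Agent.Lib.Helper7.BlockDefect
import Cfsg.Agent.Lib.Helper7.BlockHeight
import Cfsg.Agent.Lib.Helper7.BlockCover
import Cfsg.Agent.S0887

set_option autoImplicit false
open Cfsg

namespace Cfsg.Agent.S5001

open Cfsg.Agent.Lib.Helper7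

theorem norm_hom_eq_one {A : Type*} [Group A] [Finite A] (μ : A →* ℂˣ) (a : A) :
    ‖((μ a : ℂˣ) : ℂ)‖ = 1 := by
  apply Complex.norm_eq_one_of_pow_eq_one (n := Nat.card A) _ Nat.card_pos.ne'
  rw [← Units.val_pow_eq_pow_val, ← map_pow, pow_card_eq_one', map_one, Units.val_one]

theorem eq_of_norm (n : ℝ) (L m w : ℂ) (hL : ‖L‖ = 1) (hm : ‖m‖ = 1) (hw : ‖w‖ ≤ n - 1)
    (h : (n : ℂ) * L = m + w) : m = L := by
  have hLL : L * (starRingEnd ℂ) L = 1 := by
    rw [Complex.mul_conj, Complex.normSq_eq_norm_sq, hL]; simp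
  set u : ℂ := m * (starRingEnd ℂ) L with hu
  have e1 : (n : ℂ) = u + w * (starRingEnd ℂ) L := by
    have : (n : ℂ) * L * (starRingEnd ℂ) L = (m + w) * (starRingEnd ℂ) L := by rw [h]
    rw [mul_assoc, hLL, mul_one] at this
    rw [this, hu]; ring
  have hnu : ‖u‖ = 1 := by rw [hu, norm_mul, hm, Complex.norm_conj, hL, one_mul]
  have hnw : ‖w * (starRingEnd ℂ) L‖ = ‖w‖ := by rw [norm_mul, Complex.norm_conj, hL, mul_one]
  have e2 : n = u.re + (w * (starRingEnd ℂ) L).re := by
    have := congrArg Complex.re e1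
    simpa using this
  have h3 : (w * (starRingEnd ℂ) L).re ≤ ‖w‖ := hnw ▸ Complex.re_le_norm _
  have h4 : 1 ≤ u.re := by linarith
  have h5 : u.re ≤ 1 := hnu ▸ Complex.re_le_norm _
  have h6 : u.re = 1 := le_antisymm h5 h4
  have h7 : u.re * u.re + u.im * u.im = 1 := by
    have := Complex.normSq_eq_norm_sq u
    rw [hnu, Complex.normSq_apply] at this
    simpa using this
  have h8 : u.im = 0 := by
    rw [h6] at h7
    have : u.im * u.im = 0 := by linarith
    exact mul_self_eq_zero.mp this
  have h9 : u = 1 := Complex.ext (by simpa using h6) (by simpa using h8)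
  calc m = m * ((starRingEnd ℂ) L * L) := by rw [mul_comm _ L, hLL, mul_one]
    _ = u * L := by rw [hu]; ring
    _ = L := by rw [h9, one_mul]

theorem key {A : Type*} [Group A] [Finite A] (p : ℕ) [Fact p.Prime] (g : A)
    (hg : g ∈ Subgroup.center A) (hidx : ∃ k, (Subgroup.zpowers g).index = p ^ k) :
    ∀ ψ, IsCharacter A ψ →
      (∃ (μ : A →* ℂˣ) (ψ' : A → ℂ), IsCharacter A ψ' ∧ ∀ a, ψ a = (μ a : ℂ) + ψ' a) ∨
      (∃ β : ℂ, IsIntegral ℤ β ∧ ψ g = p * β) := by
  classical
  haveI := Fintype.ofFinite A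
  apply isCharacter_induction
  · right; exact ⟨0, isIntegral_zero, by simp⟩
  · intro χ ψ hχ hψ ih
    by_cases h1 : χ 1 = 1
    · left
      obtain ⟨f, hf⟩ := exists_hom_of_linear (isCharacter_of_irr hχ) h1
      exact ⟨f, ψ, hψ, fun a => by simp [hf a]⟩
    · rcases ih with ⟨μ, ψ', hψ', h⟩ | ⟨β, hβ, h⟩
      · left
        exact ⟨μ, χ + ψ', isCharacter_add (isCharacter_of_irr hχ) hψ',
          fun a => by simp only [Pi.add_apply, h a]; ring⟩
      · right
        have hle : Subgroup.zpowers g ≤ Subgroup.center A := by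
          rw [Subgroup.zpowers_le]; exact hg
        haveI hN : (Subgroup.zpowers g).Normal := by
          constructor
          intro n hn x
          have := Subgroup.mem_center_iff.mp (hle hn) x
          rw [this, mul_inv_cancel_right]; exact hn
        obtain ⟨θ, hθ⟩ := exists_constituent_res (Subgroup.zpowers g) ⟨χ, hχ⟩
        have hθ1 : (θ : Subgroup.zpowers g → ℂ) 1 = 1 := irr_apply_one_of_comm θ.2
        have hdeg := Cfsg.Agent.S0887.result (Subgroup.zpowers g) χ hχ θ θ.2 hθ (charDegree χ) 1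
          (charDegree_cast (isCharacter_of_irr hχ)).symm (by simpa using hθ1)
        obtain ⟨k, hk⟩ := hidx
        have hd : charDegree χ ∣ p ^ k := by
          have := hdeg.2
          rwa [Nat.div_one, hk] at this
        obtain ⟨j, hj, hcj⟩ := (Nat.dvd_prime_pow (Fact.out : p.Prime)).mp hd
        have hj0 : j ≠ 0 := by
          rintro rfl
          apply h1
          rw [← charDegree_cast (isCharacter_of_irr hχ), hcj]; simp
        have hcent : (Subgroup.centralizer ({g} : Set A)).index = 1 := by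
          rw [Subgroup.index_eq_one, eq_top_iff]
          intro x _
          rw [Subgroup.mem_centralizer_singleton_iff]
          exact (Subgroup.mem_center_iff.mp hg x)
        have hint := centralChar_isIntegral ⟨χ, hχ⟩ g
        have hχ1 : χ 1 ≠ 0 := irr_apply_one_ne_zero hχ
        have hval : χ g = χ 1 * centralChar χ g := by
          rw [centralChar, hcent]; field_simp; simp
        obtain ⟨i, rfl⟩ := Nat.exists_eq_succ_of_ne_zero hj0
        refine ⟨(p : ℂ) ^ i * centralChar χ g + β, ?_, ?_⟩
        · refine IsIntegral.add (IsIntegral.mul ?_ hint) hβ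
          exact (isIntegral_natCast (R := ℤ) (B := ℂ) (a := p)).pow i
        · rw [Pi.add_apply, h, hval, ← charDegree_cast (isCharacter_of_irr hχ), hcj]
          push_cast
          rw [Nat.succ_eq_add_one, pow_succ]
          ring

/-- Let p be a prime, G a finite group and B a p-block of G (relative to a maximal ideal M of the algebraic integers containing p) with defect group D. Let Z be a central p-subgroup of G contained in D and λ a linear character of Z (a homomorphism to the nonzero complex numbers). Say an irreducible character χ of G lies over λ when χ(z) = χ(1)λ(z) for all z ∈ Z. If some irreducible character in B lying over λ has height zero, then λ extends to a linear character of D. -/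
theorem result {G : Type*} [Group G] [Finite G] (p : ℕ) [Fact p.Prime] (M : Ideal Cfsg.AlgInt) (hM : Cfsg.IsPModular p M) (B : Set (Cfsg.IrrCharacter G)) (hB : Cfsg.IsPBlock M B) (D : Subgroup G) (hD : Cfsg.IsDefectGroup p M B D) (Z : Subgroup G) (hZc : Z ≤ Subgroup.center G) (hZp : IsPGroup p ↥Z) (hZD : Z ≤ D) (lam : ↥Z →* ℂˣ) (χ : Cfsg.IrrCharacter G) (hχ : χ ∈ B) (hover : (∀ z : ↥Z, (χ : G → ℂ) z = (χ : G → ℂ) 1 * (lam z : ℂ))) (h0 : Cfsg.blockHeight p B (χ : G → ℂ) = 0) : (∃ μ : ↥D →* ℂˣ, ∀ z : ↥Z, μ ⟨(z : G), hZD z.2⟩ = lam z) := by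
  classical
  haveI := hM.2.1.isPrime
  obtain ⟨g, hg, P, hDP⟩ := hD
  have hunit := not_memLocalIdeal_height_zero hM hB hg hχ h0
  have hDc : D ≤ Subgroup.centralizer ({g} : Set G) := by
    rw [hDP]; exact Subgroup.map_subtype_le _
  have hDp : IsPGroup p D := by
    rw [hDP]; exact P.2.map _
  -- the homomorphism D × ⟨g⟩ → G
  have hcomm : ∀ (d : D) (c : Subgroup.zpowers g), Commute (D.subtype d) ((Subgroup.zpowers g).subtype c) := by
    rintro ⟨d, hd⟩ ⟨c, hc⟩
    obtain ⟨k, rfl⟩ := Subgroup.mem_zpowers_iff.mp hc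
    have : Commute d g := by
      have := Subgroup.mem_centralizer_singleton_iff.mp (hDc hd)
      exact this
    exact this.zpow_right k
  let f : D × Subgroup.zpowers g →* G := MonoidHom.noncommCoprod D.subtype (Subgroup.zpowers g).subtype hcomm
  let g' : D × Subgroup.zpowers g := (1, ⟨g, Subgroup.mem_zpowers g⟩)
  have hfg : f g' = g := by simp [f, g']
  have hg'c : g' ∈ Subgroup.center (D × Subgroup.zpowers g) := by
    rw [Subgroup.mem_center_iff]
    rintro ⟨d, c⟩
    ext
    · simp [g']
    · simp only [g', Prod.mk_mul_mk, Subgroup.coe_mul]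
      obtain ⟨c, hc⟩ := c
      obtain ⟨k, rfl⟩ := Subgroup.mem_zpowers_iff.mp hc
      exact ((Commute.refl g).zpow_left k)
  have hidx : ∃ k, (Subgroup.zpowers g').index = p ^ k := by
    obtain ⟨k, hk⟩ := IsPGroup.iff_card.mp hDp
    refine ⟨k, ?_⟩
    have h1 := (Subgroup.zpowers g').card_mul_index
    rw [Nat.card_prod, hk, Nat.card_zpowers, Nat.card_zpowers] at h1
    have h2 : orderOf g' = orderOf g := by
      rw [Prod.orderOf_mk]
      simp [g']
    rw [h2, mul_comm] at h1
    exact Nat.eq_of_mul_eq_mul_right (orderOf_pos g) h1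
  have hψ : IsCharacter (D × Subgroup.zpowers g) ((χ : G → ℂ) ∘ f) :=
    isCharacter_comp_hom (isCharacter_of_irr χ.2) f
  rcases key p g' hg'c hidx _ hψ with ⟨μ, ψ', hψ', h⟩ | ⟨β, hβ, h⟩
  · refine ⟨μ.comp (MonoidHom.inl D _), ?_⟩
    intro z
    have hz := h (⟨(z : G), hZD z.2⟩, 1)
    have h1 := h 1
    have e1 : f (⟨(z : G), hZD z.2⟩, 1) = z := by simp [f]
    simp only [Function.comp_apply, e1, map_one, Units.val_one] at hz h1
    rw [hover z] at hz
    have hreal : (χ : G → ℂ) 1 = ((charDegree (χ : G → ℂ) : ℝ) : ℂ) := by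
      rw [← charDegree_cast (isCharacter_of_irr χ.2)]; simp
    have hψ1 : (ψ' 1).re = (charDegree (χ : G → ℂ) : ℝ) - 1 := by
      have := congrArg Complex.re h1
      rw [hreal] at this
      simp at this
      linarith
    have hnorm := char_norm_le hψ' (⟨(z : G), hZD z.2⟩, 1)
    rw [hψ1] at hnorm
    rw [hreal] at hz
    have := eq_of_norm _ _ _ _ (norm_hom_eq_one lam z) (norm_hom_eq_one μ _) hnorm hz
    apply Units.ext
    simpa using this
  · exfalso
    apply hunit
    simp only [Function.comp_apply, hfg] at h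
    rw [h]
    exact memLocalIdeal_mul_right (memLocalIdeal_p hM) (memLocalRing_of_isIntegral hβ)

end Cfsg.Agent.S5001
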