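import Cfsg.Statements.S5088
import Cfsg.Agent.Lib.Helper26.Chain
import Cfsg.Agent.S5085

set_option autoImplicit false
open Cfsg

namespace Cfsg.Agent.S5088

/-- In a saturated fusion system over a finite p-group, a subgroup Q is normal in the system if and only if there is a chain of subgroups 1 = Q₀ ≤ Q₁ ≤ ⋯ ≤ Qₙ = Q such that each Qᵢ with i ≥ 1 is strongly closed in the system and [Q, Qᵢ] ≤ Qᵢ₋₁. -/
theorem result {Ω : Type*} [Group Ω] {S : Subgroup Ω} [Finite S] (p : ℕ) [Fact p.Prime] (hS : IsPGroup p S) (F : Cfsg.FusionSystem S) (hF : F.IsSaturated p) (Q : Subgroup Ω) : F.IsNormal Q ↔ ∃ (n : ℕ) (Qs : Fin (n + 1) → Subgroup Ω), Qs 0 = ⊥ ∧ Qs (Fin.last n) = Q ∧ Monotone Qs ∧ ∀ i : Fin n, F.StronglyClosed (Qs i.succ) ∧ ⁅Q, Qs i.succ⁆ ≤ Qs (Fin.castSucc i) := by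
  open Cfsg.Agent.Lib.Helper26 in
  constructor
  · intro h
    have hQS := h.1
    have : Finite Q := finite_of_le hQS
    obtain ⟨n, hn⟩ := exists_ucs_eq (hS.to_le hQS)
    refine ⟨n, fun i => ucs Q i, ucs_zero Q, by simpa using hn,
      fun a b hab => ucs_mono Q hab, fun i => ⟨?_, ?_⟩⟩
    · exact Cfsg.Agent.Lib.Helper27.IsNormal.stronglyClosed
        (Cfsg.Agent.S5085.result F Q _ h (ucs_le Q _) (ucs_char Q _))
    · simpa using ucs_comm Q i
  · rintro ⟨n, Qs, h0, hlast, -, hstep⟩
    have key := isNormal_of_chain_bot hS hF n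
      (fun j => Qs ⟨min j n, by omega⟩) (by simpa using h0)
      (by
        intro j hj
        have e : (⟨min (j + 1) n, by omega⟩ : Fin (n + 1)) = (⟨j, hj⟩ : Fin n).succ := by
          ext; simp; omega
        simp only [e]
        exact (hstep ⟨j, hj⟩).1)
      (by
        intro j hj
        have e : (⟨min (j + 1) n, by omega⟩ : Fin (n + 1)) = (⟨j, hj⟩ : Fin n).succ := by
          ext; simp; omega
        have e2 : (⟨min j n, by omega⟩ : Fin (n + 1)) = Fin.castSucc (⟨j, hj⟩ : Fin n) := by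
          ext; simp; omega
        have e3 : (⟨min n n, by omega⟩ : Fin (n + 1)) = Fin.last n := by
          ext; simp
        simp only [e, e2, e3, hlast]
        exact (hstep ⟨j, hj⟩).2)
    have e3 : (⟨min n n, by omega⟩ : Fin (n + 1)) = Fin.last n := by
      ext; simp
    simp only [e3, hlast] at key
    exact key

end Cfsg.Agent.S5088
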