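import Cfsg.Statements.S5092
import Cfsg.Agent.Lib.Helper26.AlperinTools

set_option autoImplicit false
open Cfsg

namespace Cfsg.Agent.S5092

/-- For a saturated fusion system over a finite p-group S, the focal subgroup is the product of the hyperfocal subgroup and the derived subgroup of S. -/
theorem result {Ω : Type*} [Group Ω] {S : Subgroup Ω} [Finite S] (p : ℕ) [Fact p.Prime] (hS : IsPGroup p S) (F : Cfsg.FusionSystem S) (hF : F.IsSaturated p) : F.focalSubgroup = F.hyperfocalSubgroup p ⊔ ⁅(S : Subgroup Ω), (S : Subgroup Ω)⁆ := by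
  open Cfsg.Agent.Lib.Helper26 in
  open scoped commutatorElement in
  set T := F.hyperfocalSubgroup p ⊔ ⁅S, S⁆ with hT
  have hC : SubPred F S (fun P f => ∀ x ∈ P, x⁻¹ * f x ∈ T) :=
    { congr := fun h hc x hx => by rw [← h x hx]; exact hc x hx
      conj := fun {P a} hP ha x hx => by
        apply Subgroup.mem_sup_right
        have : x⁻¹ * (a * x * a⁻¹) = ⁅x⁻¹, a⁆ := by simp [commutatorElement_def, mul_assoc]
        rw [this]; exact Subgroup.commutator_mem_commutator (S.inv_mem (hP hx)) ha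
      comp := fun {P Q f g} hf hg _ _ h _ hcf hcg x hx => by
        have : x⁻¹ * (g ∘ f) x = (x⁻¹ * f x) * ((f x)⁻¹ * g (f x)) := by simp [mul_assoc]
        rw [this]; exact T.mul_mem (hcf x hx) (hcg _ (h x hx))
      inv := fun {P f g} hf _ _ hg hgf hcf y hy => by
        obtain ⟨x, hx, rfl⟩ := hf.mem_img.mp hy
        rw [hgf x hx]
        have : (f x)⁻¹ * x = (x⁻¹ * f x)⁻¹ := by simp
        rw [this]; exact T.inv_mem (hcf x hx) }
  have hle : F ≤ mkSub F le_rfl hC := by
    apply le_of_pResidual_le hS hF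
    intro P hP
    have hPS := (fullyNormalized_of_eq_or_essential hP).1
    rintro _ ⟨β, hβ, rfl⟩
    rw [mem_autGroup_iff hPS, isMap_mkSub]
    refine ⟨(mem_autGroup_iff hPS).mp β.2, hPS, fun x hx => hPS (autFun_mem _ hx), fun x hx => ?_⟩
    apply Subgroup.mem_sup_left
    apply Subgroup.subset_closure
    refine ⟨P, β, ⟨x, hx⟩, hPS, hβ, ?_⟩
    rw [autFun_of_mem _ hx]
    rfl
  apply le_antisymm
  · apply (Subgroup.closure_le _).mpr
    rintro _ ⟨P, φ, x, hφ, rfl⟩
    have := (le_iff_isMap.mp hle) P _ (isMap_toFun hφ)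
    rw [isMap_mkSub] at this
    have h2 := this.2.2.2 x x.2
    rwa [toFun_apply] at h2
  · apply sup_le
    · apply (Subgroup.closure_le _).mpr
      rintro _ ⟨P, α, x, hP, hα, rfl⟩
      apply Subgroup.subset_closure
      exact ⟨P, P.subtype.comp (α : MulAut P).toMonoidHom, x, (mem_autGroup_iff' hP).mp α.2, rfl⟩
    · rw [Subgroup.commutator_le]
      intro a ha b hb
      apply Subgroup.subset_closure
      refine ⟨S, Cfsg.conjHom S b, ⟨a⁻¹, S.inv_mem ha⟩, F.conj_mem le_rfl hb, ?_⟩
      show ⁅a, b⁆ = (a⁻¹)⁻¹ * (b * a⁻¹ * b⁻¹)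
      simp [commutatorElement_def, mul_assoc]

end Cfsg.Agent.S5092
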