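import Cfsg.Statements.S5126
import Cfsg.Agent.Lib.Helper26.ModelNormal

set_option autoImplicit false
open Cfsg

namespace Cfsg.Agent.S5126

/-- In a saturated fusion system over a finite p-group S, the normalizer system of a fully normalized, centric, radical subgroup R is constrained, and in every model of that normalizer system the largest normal p-subgroup is the image of R. -/
theorem result {Ω : Type*} [Group Ω] {S : Subgroup Ω} [Finite S] (p : ℕ) [Fact p.Prime] (hS : IsPGroup p S) (F : Cfsg.FusionSystem S) (hF : F.IsSaturated p) (R : Subgroup Ω) (hRn : F.IsFullyNormalized R) (hRc : F.IsCentric R) (hRr : F.IsRadical p R) (E : Cfsg.FusionSystem (Cfsg.FusionSystem.normalizerIn S R)) (hE : F.IsNormalizerSystem R E) {G : Type*} [Group G] (ι : ↥(Cfsg.FusionSystem.normalizerIn S R) →* G) : E.IsConstrained p ∧ (E.IsModel p G ι → (Cfsg.pCore p G : Subgroup G) = (R.subgroupOf (Cfsg.FusionSystem.normalizerIn S R)).map ι) := by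
  open Cfsg.Agent.Lib.Helper26 Cfsg.FusionSystem in
  have hNS : normalizerIn S R ≤ S := inf_le_left
  have hfinN : Finite (normalizerIn S R) := finite_of_le hNS
  have hNp : IsPGroup p (normalizerIn S R) := hS.to_le hNS
  have hsat := normalizerSystem_saturated hS hF hRn hE
  have hRnE := normalizerSystem_isNormal hRn.1 hE
  have hRcE := normalizerSystem_centric hRc hE
  have hRrE := normalizerSystem_radical hRr hE
  refine ⟨⟨hsat, R, hRnE, hRcE⟩, ?_⟩
  rintro ⟨hfin, hreal, ⟨T, hT⟩, hC⟩
  obtain ⟨θ, h1, h2, d, hiff⟩ := realized_facData hreal hT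
  have hON : (Cfsg.pCore p G).Normal := Lib.Helper27.pCore_normal'
  have hnormG : (Cfsg.groupFusionSystem (T : Subgroup G)).IsNormal (Cfsg.pCore p G) :=
    Cfsg.Agent.S5102.result p T (Cfsg.pCore p G) Lib.Helper27.pCore_isPGroup
  have hQ := factor_isNormal d hiff hnormG
  have hle := le_of_isNormal_of_centric_radical hNp hQ hRcE hRrE
  have hRN := hRcE.1
  apply le_antisymm
  · intro u hu
    have huT : u ∈ (T : Subgroup G) := Lib.Helper27.pCore_le_sylow T hu
    have h3 : toFun₂ θ u ∈ R := hle (mem_imageAlong.mpr ⟨u, hu, huT, rfl⟩)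
    refine ⟨⟨toFun₂ θ u, (h2 u huT).1⟩, Subgroup.mem_subgroupOf.mpr h3, ?_⟩
    rw [← toFun₂_of_mem ι (h2 u huT).1]
    exact (h2 u huT).2
  · have hn := normal_of_isNormal_groupFS T hC (iso_isNormal_pullback d hiff hRnE)
    have hp : IsPGroup p (preimageAlong θ R) := T.isPGroup'.to_le (FacData.pre_le θ R)
    refine le_trans ?_ (Lib.Helper27.le_pCore hn hp)
    rintro _ ⟨x, hx, rfl⟩
    have hx' := h1 x x.2
    rw [toFun₂_apply] at hx'
    refine mem_preimageAlong.mpr ⟨hx'.1, ?_⟩
    rw [hx'.2]
    exact Subgroup.mem_subgroupOf.mp hx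

end Cfsg.Agent.S5126
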