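import Cfsg.Statements.S5134
import Cfsg.Agent.Lib.Helper26.Factor

set_option autoImplicit false
open Cfsg

namespace Cfsg.Agent.S5134

/-- Let F be a saturated fusion system over a finite p-group S, S₀ a subgroup strongly closed in F, and E the factor system of F modulo S₀ read through θ (a homomorphism on S with kernel S₀ and image the group of E). Then θ is a surjective morphism of fusion systems from F onto E: in particular every map of F, and not only the maps whose source contains S₀, induces along θ a map of E. -/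
theorem result {Ω : Type*} [Group Ω] {S : Subgroup Ω} [Finite S] (p : ℕ) [Fact p.Prime] (hS : IsPGroup p S) (F : Cfsg.FusionSystem S) (hF : F.IsSaturated p) (S₀ : Subgroup Ω) (hS₀ : F.StronglyClosed S₀) {Ω' : Type*} [Group Ω'] {S' : Subgroup Ω'} (θ : S →* Ω') (E : Cfsg.FusionSystem S') (hE : F.IsFactorSystem S₀ θ E) : F.IsSurjectiveMorphism E θ := by
  open Cfsg.Agent.Lib.Helper26 Cfsg.FusionSystem in
  have d : FacData F S₀ θ S' := ⟨hS₀, hE.2.1, hE.2.2.1⟩
  have hiff := (isFactorSystem_iff d).mp hE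
  refine ⟨⟨fun s => by rw [← d.range]; exact ⟨s, rfl⟩, fun P φ hφ => ?_⟩, d.range,
    fun P' hP' φ' hφ' => ((hE.2.2.2 P' φ').mp hφ').2⟩
  have hPS := (F.le_of_mem hφ).1
  obtain ⟨g, hg, hgφ⟩ := exists_ext_mod hS hF hS₀ P _ (isMap_toFun hφ)
  have hpre := d.pre_image hPS
  have himS' : imageAlong θ P ≤ S' := by
    intro y hy
    obtain ⟨x, -, hxS, rfl⟩ := mem_imageAlong.mp hy
    exact d.mem_S' hxS
  have hm : IsMap E (imageAlong θ P) (indFun θ g) := by
    rw [hiff]
    refine ⟨himS', g, by rw [hpre]; exact hg, fun x hx => ?_⟩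
    rw [hpre] at hx
    exact d.indFun_spec hg le_sup_right hx
  obtain ⟨φ', hφ', hφ'g⟩ := hm
  refine ⟨φ', hφ', inducedAlong_iff.mpr ⟨hPS, fun x hx => (isMap_toFun hφ).mem_S hx,
    fun x hx => mem_imageAlong.mpr ⟨x, hx, hPS hx, rfl⟩, fun x hx => ?_⟩⟩
  have h1 : toFun₂ θ x ∈ imageAlong θ P := mem_imageAlong.mpr ⟨x, hx, hPS hx, rfl⟩
  rw [toFun_of_mem φ' h1, hφ'g]
  show indFun θ g (toFun₂ θ x) = _
  rw [d.indFun_spec hg le_sup_right (le_sup_left (a := P) hx)]
  exact ((d.eq_iff ((isMap_toFun hφ).mem_S hx) (hg.mem_S (le_sup_left (a := P) hx))).mpr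
    (hgφ x hx)).symm

end Cfsg.Agent.S5134
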