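import Cfsg.Statements.S5135
import Cfsg.Agent.Lib.Helper26.Factor

set_option autoImplicit false
open Cfsg

namespace Cfsg.Agent.S5135

open Cfsg.Agent.Lib.Helper26 in
lemma isMap_groupFS {G : Type*} [Group G] {S P : Subgroup G} {f : G → G} :
    IsMap (Cfsg.groupFusionSystem S) P f ↔
      P ≤ S ∧ (∀ x ∈ P, f x ∈ S) ∧ ∃ g : G, ∀ x ∈ P, f x = g * x * g⁻¹ := by
  constructor
  · rintro ⟨φ, ⟨hP, hφS, g, hg⟩, hf⟩
    exact ⟨hP, fun x hx => by rw [← hf ⟨x, hx⟩]; exact hφS _, g,
      fun x hx => by rw [← hf ⟨x, hx⟩]; exact hg _⟩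
  · rintro ⟨hP, hfS, g, hg⟩
    refine ⟨Cfsg.conjHom P g, ⟨hP, fun x => ?_, g, fun x => rfl⟩, fun x => (hg x x.2).symm⟩
    have := hfS x x.2
    rw [hg x x.2] at this
    exact this


/-- Let G be a finite group, S a Sylow p-subgroup and H a normal subgroup of G. Then the fusion system of G/H on the image SH/H of S is the factor system of the fusion system of G on S modulo S ∩ H, read through the quotient map restricted to S: for each subgroup P' of SH/H, the conjugation maps by elements of G/H defined on P' with values in SH/H are exactly the homomorphisms induced by the conjugation maps by elements of G defined on the full preimage of P' in S with values in S. -/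
theorem result {G : Type*} [Group G] [Finite G] (p : ℕ) [Fact p.Prime] (S : Sylow p G) (H : Subgroup G) [H.Normal] : (Cfsg.groupFusionSystem (S : Subgroup G)).IsFactorSystem ((S : Subgroup G) ⊓ H) ((QuotientGroup.mk' H).comp (S : Subgroup G).subtype) (Cfsg.groupFusionSystem ((S : Subgroup G).map (QuotientGroup.mk' H))) := by
  open Cfsg.Agent.Lib.Helper26 Cfsg.FusionSystem in
  set θ := (QuotientGroup.mk' H).comp (S : Subgroup G).subtype with hθ
  have hθx : ∀ x ∈ (S : Subgroup G), toFun₂ θ x = (x : G ⧸ H) := fun x hx => toFun₂_of_mem θ hx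
  have d : FacData (Cfsg.groupFusionSystem (S : Subgroup G)) ((S : Subgroup G) ⊓ H) θ
      ((S : Subgroup G).map (QuotientGroup.mk' H)) := by
    refine ⟨⟨inf_le_left, ?_⟩, fun s => ?_, ?_⟩
    · rintro R hR φ ⟨-, hφS, g, hg⟩ x
      refine ⟨hφS x, ?_⟩
      rw [hg]
      exact (inferInstance : H.Normal).conj_mem _ (hR x.2).2 g
    · show ((s : G) : G ⧸ H) = 1 ↔ _
      rw [QuotientGroup.eq_one_iff]
      exact ⟨fun h => ⟨s.2, h⟩, fun h => h.2⟩
    · rw [hθ, MonoidHom.range_comp, Subgroup.range_subtype]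
  rw [isFactorSystem_iff d]
  intro P' f'
  rw [isMap_groupFS]
  constructor
  · rintro ⟨hP', hf'S, gb, hgb⟩
    obtain ⟨g, rfl⟩ := QuotientGroup.mk_surjective gb
    refine ⟨hP', ?_⟩
    set P := preimageAlong θ P' with hP
    have hPS : P ≤ (S : Subgroup G) := FacData.pre_le θ P'
    have h1 : cj g P ≤ (S : Subgroup G) ⊔ H := by
      rintro _ ⟨x, hx, rfl⟩
      have hx' := (mem_preimageAlong.mp hx).2
      have h2 := hf'S _ hx'
      rw [hgb _ hx', hθx x (hPS hx)] at h2
      obtain ⟨s, hs, hs'⟩ := h2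
      have h3 : s⁻¹ * (g * x * g⁻¹) ∈ H := by
        rw [← QuotientGroup.eq]
        exact hs'
      have h4 := Subgroup.mul_mem _ (le_sup_left (a := (S : Subgroup G)) (b := H) hs)
        (le_sup_right (a := (S : Subgroup G)) h3)
      rw [mul_inv_cancel_left] at h4
      exact h4
    have hsyl : SylIn p (S : Subgroup G) ((S : Subgroup G) ⊔ H) :=
      SylIn.of_le le_top (sylIn_top_of_sylow S) le_sup_left le_top
    have hp : IsPGroup p (cj g P) := (S.isPGroup'.to_le hPS).map _
    obtain ⟨u, hu, huS⟩ := hsyl.exists_conj_le h1 hp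
    have hu' : u ∈ (((S : Subgroup G) ⊔ H : Subgroup G) : Set G) := hu
    rw [Subgroup.mul_normal] at hu'
    obtain ⟨s, hs, h, hh, rfl⟩ := hu'
    rw [cj_cj] at huS
    have hmem : ∀ x ∈ P, (h * g) * x * (h * g)⁻¹ ∈ (S : Subgroup G) := by
      intro x hx
      have h5 : (s * h * g) * x * (s * h * g)⁻¹ ∈ (S : Subgroup G) := huS (conj_mem_cj hx)
      have h6 := (S : Subgroup G).mul_mem ((S : Subgroup G).mul_mem
        ((S : Subgroup G).inv_mem hs) h5) hs
      have e : s⁻¹ * ((s * h * g) * x * (s * h * g)⁻¹) * s = (h * g) * x * (h * g)⁻¹ := by group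
      rwa [e] at h6
    refine ⟨fun x => (h * g) * x * (h * g)⁻¹, isMap_groupFS.mpr ⟨hPS, hmem, h * g, fun _ _ => rfl⟩,
      fun x hx => ?_⟩
    rw [hgb _ (mem_preimageAlong.mp hx).2, hθx x (hPS hx), hθx _ (hmem x hx)]
    have hh1 : ((h : G) : G ⧸ H) = 1 := (QuotientGroup.eq_one_iff h).mpr hh
    simp only [QuotientGroup.mk_mul, QuotientGroup.mk_inv, hh1, one_mul]
  · rintro ⟨hP', f, hf, hff'⟩
    obtain ⟨hPS, hfS, g, hg⟩ := isMap_groupFS.mp hf
    refine ⟨hP', fun y hy => ?_, (g : G ⧸ H), fun y hy => ?_⟩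
    · obtain ⟨x, hx, rfl⟩ := d.exists_pre' hP' hy
      rw [hff' x hx]
      exact d.mem_S' (hfS x hx)
    · obtain ⟨x, hx, rfl⟩ := d.exists_pre' hP' hy
      rw [hff' x hx, hθx _ (hfS x hx), hθx x (hPS hx), hg x hx]
      simp only [QuotientGroup.mk_mul, QuotientGroup.mk_inv]

end Cfsg.Agent.S5135
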