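import Cfsg.Statements.S5147
import Cfsg.Agent.Lib.Helper26.SubgroupFS
import Cfsg.Agent.S5135

set_option autoImplicit false
open Cfsg

namespace Cfsg.Agent.S5147

/-- Let G be a finite group with Sylow 2-subgroup S whose 2-fusion system on S is constrained, and L a component of G (a subnormal quasisimple subgroup). Then the 2-fusion system of L/Z(L) on the image of S ∩ L is constrained. -/
theorem result {G : Type*} [Group G] [Finite G] (S : Sylow 2 G) (hF : (Cfsg.groupFusionSystem (S : Subgroup G)).IsConstrained 2) (L : Subgroup G) (hL : Cfsg.IsComponent L) : (Cfsg.groupFusionSystem (((S : Subgroup G).subgroupOf L).map (QuotientGroup.mk' (Subgroup.center L)))).IsConstrained 2 := by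
  open Cfsg.Agent.Lib.Helper26 Cfsg.FusionSystem in
  obtain ⟨hsyl, hc⟩ := subnormal_constrained S hF hL.1
  have hcL := groupFS_constrained_of_subFS inf_le_right hsyl hc
  obtain ⟨R, hR⟩ := hsyl
  rw [Subgroup.inf_subgroupOf_right] at hR hcL
  rw [← hR] at hcL ⊢
  have hfac := Cfsg.Agent.S5135.result 2 R (Subgroup.center L)
  have hcen : ∀ (g : L), ∀ z ∈ (R : Subgroup L) ⊓ Subgroup.center L, g * z * g⁻¹ = z := by
    intro g z hz
    have := Subgroup.mem_center_iff.mp hz.2 g
    rw [this, mul_inv_cancel_right]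
  have d : FacData (Cfsg.groupFusionSystem (R : Subgroup L)) ((R : Subgroup L) ⊓ Subgroup.center L)
      ((QuotientGroup.mk' (Subgroup.center L)).comp (R : Subgroup L).subtype)
      ((R : Subgroup L).map (QuotientGroup.mk' (Subgroup.center L))) := by
    refine ⟨⟨inf_le_left, ?_⟩, hfac.2.1, hfac.2.2.1⟩
    rintro P hP φ ⟨-, -, g, hg⟩ x
    rw [hg, hcen g x (hP x.2)]
    exact hP x.2
  exact factor_constrained R.isPGroup' hcL d ((isFactorSystem_iff d).mp hfac)
    (fun s _ z hz => hcen s z hz)

end Cfsg.Agent.S5147
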