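import Cfsg.Statements.S5148
import Cfsg.Agent.Lib.Helper26.Factor
import Cfsg.Agent.Lib.Helper26.Invariant
import Cfsg.Agent.Lib.Helper27.FusionAbelian

set_option autoImplicit false
open Cfsg

namespace Cfsg.Agent.S5148

/-- A quasisimple fusion system over a finite p-group S (saturated, equal to its p-residual subsystem, with simple — in particular nontrivial — factor system modulo its centre) has S nonabelian. -/
theorem result {Ω : Type*} [Group Ω] {S : Subgroup Ω} [Finite S] (p : ℕ) [Fact p.Prime] (hS : IsPGroup p S) (F : Cfsg.FusionSystem S) (hq : F.Quasisimple p) : ¬ IsMulCommutative S := by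
  open Cfsg.Agent.Lib.Helper26 Cfsg.FusionSystem in
  intro hcomm
  obtain ⟨hF, hhyp, hfac⟩ := hq
  have hab : ∀ x ∈ S, ∀ y ∈ S, x * y = y * x := by
    intro x hx y hy
    exact congrArg Subtype.val (hcomm.is_comm.comm ⟨x, hx⟩ ⟨y, hy⟩)
  have hZc := isCentral_iff.mp (center_isCentral F)
  have hfix : ∀ P f, IsMap F P f → ∀ z ∈ P, z ∈ F.center → f z = z := by
    intro P f hf z hzP hzZ
    obtain ⟨g, hg, hg1, hg2⟩ := hZc.2 P f hf
    rw [← hg1 z hzP, hg2 z hzZ]
  have hsc : F.StronglyClosed F.center := stronglyClosed_iff.mpr ⟨hZc.1, fun R hR f hf x hx => by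
    rw [hfix R f hf x hx (hR hx)]; exact hR hx⟩
  have d : FacData F F.center (QuotientGroup.mk' (F.center.subgroupOf S)) ⊤ :=
    ⟨hsc, fun s => by
      rw [QuotientGroup.mk'_apply, QuotientGroup.eq_one_iff]; exact Subgroup.mem_subgroupOf,
      MonoidHom.range_eq_top.mpr (QuotientGroup.mk'_surjective _)⟩
  obtain ⟨E, hE⟩ := exists_factorSystem d
  obtain ⟨hEs, hne, hsimple⟩ := hfac E hE
  have hE' := (isFactorSystem_iff d).mp hE
  have hTp : IsPGroup p (⊤ : Subgroup (S ⧸ F.center.subgroupOf S)) :=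
    (hS.to_quotient _).to_subgroup _
  have hTab : ∀ x ∈ (⊤ : Subgroup (S ⧸ F.center.subgroupOf S)), ∀ y ∈
      (⊤ : Subgroup (S ⧸ F.center.subgroupOf S)), x * y = y * x := by
    intro x _ y _
    induction x using QuotientGroup.induction_on with
    | H a =>
      induction y using QuotientGroup.induction_on with
      | H b =>
        rw [← QuotientGroup.mk_mul, ← QuotientGroup.mk_mul, hcomm.is_comm.comm a b]
  have hn := Lib.Helper27.abelian_isNormal_top hTp hEs hTab
  have hin := Lib.Helper27.inner_isNormalIn_of_isNormal hTp hEs hn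
  rcases hsimple _ _ hin with h | ⟨-, h⟩
  · exact hne h
  have hEid : ∀ P' f', IsMap E P' f' → ∀ y ∈ P', f' y = y := by
    rintro P' f' ⟨φ, hφ, hf⟩ y hy
    rw [← h P'] at hφ
    obtain ⟨_, g, hg, hg'⟩ := hφ
    rw [← hf ⟨y, hy⟩, hg', hTab g trivial y trivial, mul_inv_cancel_right]
  have hpre : preimageAlong (QuotientGroup.mk' (F.center.subgroupOf S)) ⊤ = S := by
    ext x
    rw [mem_preimageAlong]
    exact ⟨fun h => h.1, fun h => ⟨h, trivial⟩⟩
  have hmod : ∀ f, IsMap F S f → ∀ x ∈ S, x⁻¹ * f x ∈ F.center := by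
    intro f hf x hx
    have hfm : FacMap F (QuotientGroup.mk' (F.center.subgroupOf S)) ⊤ ⊤
        (indFun (QuotientGroup.mk' (F.center.subgroupOf S)) f) :=
      ⟨le_rfl, f, by rw [hpre]; exact hf, fun x hx => d.indFun_spec hf hZc.1 (by rwa [hpre] at hx)⟩
    have h1 := hEid _ _ ((hE' _ _).mpr hfm)
      (toFun₂ (QuotientGroup.mk' (F.center.subgroupOf S)) x) trivial
    rw [d.indFun_spec hf hZc.1 hx] at h1
    exact (d.eq_iff hx (hf.mem_S hx)).mp h1.symm
  have hA : ∀ α ∈ F.autGroup S, α = 1 := by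
    intro α hα
    have hnd := Lib.Helper27.abelian_autGroup_top_not_dvd hS hF hab
    have hαm := (mem_autGroup_iff le_rfl).mp hα
    have hord : orderOf α ∣ Nat.card (F.autGroup S) := by
      rw [← Subgroup.orderOf_mk α hα]
      exact orderOf_dvd_natCard _
    ext x
    have hz : (x : Ω)⁻¹ * autFun α x ∈ F.center := hmod _ hαm x x.2
    have hzS : (x : Ω)⁻¹ * autFun α x ∈ S := hZc.1 hz
    have hzfix : autFun α ((x : Ω)⁻¹ * autFun α x) = (x : Ω)⁻¹ * autFun α x :=
      hfix S _ hαm _ hzS hz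
    have hpow : ∀ k : ℕ, autFun (α ^ k) x = x * ((x : Ω)⁻¹ * autFun α x) ^ k := by
      intro k
      induction k with
      | zero => rw [pow_zero, pow_zero, mul_one, autFun_one x.2]
      | succ k ih =>
        have hzk : ((x : Ω)⁻¹ * autFun α x) ^ k ∈ S := S.pow_mem hzS k
        have hzkfix : autFun α (((x : Ω)⁻¹ * autFun α x) ^ k) = ((x : Ω)⁻¹ * autFun α x) ^ k :=
          hfix S _ hαm _ hzk (Subgroup.pow_mem _ hz k)
        rw [pow_succ', autFun_mul _ _ x.2, ih, hαm.map_mul x.2 hzk, hzkfix, pow_succ', ← mul_assoc,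
          mul_inv_cancel_left]
    have h1 := hpow (orderOf α)
    rw [pow_orderOf_eq_one, autFun_one x.2] at h1
    have h2 : ((x : Ω)⁻¹ * autFun α x) ^ orderOf α = 1 := by
      have := h1.symm
      rwa [mul_eq_left] at this
    obtain ⟨j, hj⟩ := hS ⟨_, hzS⟩
    have h3 : ((x : Ω)⁻¹ * autFun α x) ^ p ^ j = 1 := congrArg Subtype.val hj
    have hcop : Nat.Coprime (orderOf α) (p ^ j) := by
      apply Nat.Coprime.pow_right
      rw [Nat.coprime_comm, Nat.Prime.coprime_iff_not_dvd (Fact.out)]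
      exact fun hd => hnd (hd.trans hord)
    have h4 : (x : Ω)⁻¹ * autFun α x = 1 := by
      have h5 := orderOf_dvd_of_pow_eq_one h2
      have h6 := orderOf_dvd_of_pow_eq_one h3
      have := Nat.eq_one_of_dvd_coprimes hcop h5 h6
      exact orderOf_eq_one_iff.mp this
    rw [inv_mul_eq_one, autFun_apply] at h4
    exact h4.symm
  have hbot : F.hyperfocalSubgroup p = ⊥ := by
    rw [Subgroup.eq_bot_iff_forall]
    intro y hy
    have hle : F.hyperfocalSubgroup p ≤ ⊥ := by
      apply (Subgroup.closure_le _).mpr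
      rintro _ ⟨P, α, x, hP, -, rfl⟩
      have hαm := (mem_autGroup_iff' hP).mp α.2
      obtain ⟨β, hβ, hβ'⟩ := Lib.Helper27.exists_aut_top_of_isNormal_top
        (Lib.Helper27.abelian_isNormal_top hS hF hab) hαm
      have h1 := hβ' x
      rw [hA β hβ] at h1
      have h2 : (((α : MulAut P) x : P) : Ω) = x := h1
      rw [h2, inv_mul_cancel]
      exact Subgroup.one_mem _
    exact hle hy
  apply hne
  rw [Subgroup.eq_bot_iff_forall]
  intro y _
  induction y using QuotientGroup.induction_on with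
  | H a =>
    have : (a : Ω) ∈ (⊥ : Subgroup Ω) := by rw [← hbot, hhyp]; exact a.2
    have ha : a = 1 := Subtype.ext this
    rw [ha]; rfl

end Cfsg.Agent.S5148
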