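import Cfsg.Statements.S5153
import Cfsg.Agent.Lib.Helper26.SatTools

set_option autoImplicit false
open Cfsg

namespace Cfsg.Agent.S5153

open Cfsg.Agent.Lib.Helper26 Cfsg.FusionSystem in
theorem fullyNormalized_sub {Ω : Type*} [Group Ω] {S : Subgroup Ω} [Finite S] {p : ℕ} [Fact p.Prime]
    (hS : IsPGroup p S) {F : Cfsg.FusionSystem S} (hF : F.IsSaturated p) {U : Subgroup Ω}
    (D : Cfsg.FusionSystem U) (hD : D.IsSubsystemOf F) (hU : F.StronglyClosed U)
    {P : Subgroup Ω} (hPU : P ≤ U) (hP : F.IsFullyNormalized P) : D.IsFullyNormalized P := by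
  refine ⟨hPU, fun Q hQ => ?_⟩
  have hQF : F.IsConj P Q := by
    obtain ⟨φ, hφ, hr⟩ := hQ
    exact ⟨φ, hD P hφ, hr⟩
  obtain ⟨f, hf, hfN, hfimg⟩ := exists_normalizer_isMap hS hF hP (isConj_symm hQF)
  have hle : normalizerIn U Q ≤ normalizerIn S Q := fun x hx => ⟨hU.1 hx.1, hx.2⟩
  have hf' := hf.mono hle
  have himg : img (normalizerIn U Q) f ≤ normalizerIn U P := by
    intro y hy
    obtain ⟨x, hx, rfl⟩ := hf'.mem_img.mp hy
    refine ⟨?_, (hfN x (hle hx)).2⟩
    exact (stronglyClosed_iff.mp hU).2 (normalizerIn U Q) (fun z hz => hz.1) f hf' x hx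
  have : Finite (normalizerIn U P) := finite_of_le (fun x hx => hU.1 hx.1)
  rw [← hf'.card_img]
  exact Subgroup.card_le_of_le himg

theorem aux {Ω : Type*} [Group Ω] {T S : Subgroup Ω} {E : Cfsg.FusionSystem T}
    {F : Cfsg.FusionSystem S} {p : ℕ} (h : E.IsSubnormalIn F p) :
    Finite S → Fact p.Prime → IsPGroup p S → F.IsSaturated p →
      T ≤ S ∧ ∀ P ≤ T, F.IsFullyNormalized P → E.IsFullyNormalized P := by
  induction h with
  | refl F p => exact fun _ _ _ _ => ⟨le_rfl, fun P _ h => h⟩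
  | step hED hDF ih =>
    intro hfin hp hS hF
    have hU := hDF.1.2.2.2.1
    have hfinU := Cfsg.Agent.Lib.Helper26.finite_of_le hU.1
    obtain ⟨h1, h2⟩ := ih hfinU hp (hS.to_le hU.1) hDF.1.1
    refine ⟨h1.trans hU.1, fun P hP hPn => h2 P hP ?_⟩
    exact fullyNormalized_sub hS hF _ hDF.1.2.2.1 hU (hP.trans h1) hPn


/-- Let F be a saturated fusion system over a finite p-group S and E a subnormal subsystem of F over T. Then every subgroup of T that is fully normalized in F is fully normalized in E. -/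
theorem result {Ω : Type*} [Group Ω] {S : Subgroup Ω} [Finite S] (p : ℕ) [Fact p.Prime] (hS : IsPGroup p S) (F : Cfsg.FusionSystem S) (hF : F.IsSaturated p) {T : Subgroup Ω} (E : Cfsg.FusionSystem T) (hE : E.IsSubnormalIn F p) (P : Subgroup Ω) (hPT : P ≤ T) (hP : F.IsFullyNormalized P) : E.IsFullyNormalized P := by
  exact (aux hE inferInstance inferInstance hS hF).2 P hPT hP

end Cfsg.Agent.S5153
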