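import Cfsg.Statements.S5198
import Cfsg.Agent.Lib.Helper27.FusionTheta
import Cfsg.Agent.Lib.Helper26.PRes
open Cfsg.Agent.Lib.Helper27

set_option autoImplicit false
open Cfsg

namespace Cfsg.Agent.S5198

/-- Let F be a saturated fusion system over a finite p-group S and T a subgroup of S strongly closed in F (so T is normal in S). Then every element x of the hyperfocal subgroup of F acts on T by conjugation as an element of O^p(Aut_F(T))·Inn(T): there is an automorphism of T in the subgroup generated by the elements of Aut_F(T) of order prime to p together with the inner automorphisms of T that agrees with conjugation by x. -/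
theorem result {Ω : Type*} [Group Ω] {S : Subgroup Ω} [Finite S] (p : ℕ) [Fact p.Prime] (hS : IsPGroup p S) (F : Cfsg.FusionSystem S) (hF : F.IsSaturated p) (T : Subgroup Ω) (hT : F.StronglyClosed T) : ∀ x ∈ F.hyperfocalSubgroup p, ∃ α ∈ ((Cfsg.pResidual p ↥(F.autGroup T)).map (F.autGroup T).subtype ⊔ Cfsg.Inn ↥T : Subgroup (MulAut ↥T)), ∀ t : ↥T, ((α t : ↥T) : Ω) = x * (t : Ω) * x⁻¹ := by
  have hTn := StronglyClosed.le_normalizer hT
  have finT : Finite T := finite_of_le hT.1
  have hn1 : (Cfsg.pResidual p (F.autGroup T)).Normal := Cfsg.Agent.Lib.Helper26.pResidual_normal p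
  have hn2 : ((Cfsg.Inn T).subgroupOf (F.autGroup T)).Normal := Subgroup.Normal.subgroupOf inferInstance _
  have hDn : (Cfsg.pResidual p (F.autGroup T) ⊔ (Cfsg.Inn T).subgroupOf (F.autGroup T)).Normal :=
    Subgroup.sup_normal _ _
  have hle := le_thetaSystem_of_stronglyClosed hS hF hT
    (Cfsg.pResidual p (F.autGroup T) ⊔ (Cfsg.Inn T).subgroupOf (F.autGroup T)) le_sup_right
  have hΓ : IsPGroup p (F.autGroup T ⧸
      (Cfsg.pResidual p (F.autGroup T) ⊔ (Cfsg.Inn T).subgroupOf (F.autGroup T))) := by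
    intro x
    obtain ⟨g, rfl⟩ := QuotientGroup.mk_surjective x
    obtain ⟨k, hk⟩ := Cfsg.Agent.Lib.Helper26.exists_pow_mem_pResidual p g
    refine ⟨k, ?_⟩
    rw [← QuotientGroup.mk_pow]
    exact (QuotientGroup.eq_one_iff _).mpr (le_sup_left (a := Cfsg.pResidual p (F.autGroup T)) hk)
  have key := hyperfocal_le_ker_of_le _ hΓ hle
  intro x hx
  obtain ⟨y, hy, rfl⟩ := key hx
  rw [SetLike.mem_coe, MonoidHom.mem_ker] at hy
  have hy' : conjOn F T hT.1 hTn y ∈
      Cfsg.pResidual p (F.autGroup T) ⊔ (Cfsg.Inn T).subgroupOf (F.autGroup T) :=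
    (QuotientGroup.eq_one_iff _).1 hy
  refine ⟨conjAut T y (hTn y.2), ?_, fun t => rfl⟩
  have h1 : conjAut T y (hTn y.2) ∈ (Cfsg.pResidual p (F.autGroup T) ⊔
      (Cfsg.Inn T).subgroupOf (F.autGroup T)).map (F.autGroup T).subtype := ⟨_, hy', rfl⟩
  rw [Subgroup.map_sup] at h1
  have h2 : ((Cfsg.Inn T).subgroupOf (F.autGroup T)).map (F.autGroup T).subtype ≤ Cfsg.Inn T := by
    rw [Subgroup.subgroupOf_map_subtype]
    exact inf_le_left
  have h3 : (Cfsg.pResidual p (F.autGroup T)).map (F.autGroup T).subtype ⊔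
      ((Cfsg.Inn T).subgroupOf (F.autGroup T)).map (F.autGroup T).subtype ≤
      (Cfsg.pResidual p (F.autGroup T)).map (F.autGroup T).subtype ⊔ Cfsg.Inn T :=
    sup_le_sup_left h2 _
  exact h3 h1

end Cfsg.Agent.S5198
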