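import Cfsg.Statements.S5199
import Cfsg.Agent.Lib.Helper27.FusionRestrict
import Cfsg.Agent.Lib.Helper26.AlperinTools
import Cfsg.Agent.Lib.Helper26.Transport
open Cfsg.Agent.Lib.Helper27

set_option autoImplicit false
open Cfsg

namespace Cfsg.Agent.S5199

/-- Let F be a saturated fusion system over a finite p-group S, E a normal subsystem of F over T, and F₀ a normal subsystem of F over a subgroup U containing both T and the hyperfocal subgroup of F, such that F₀ has p-power index in F. Then E is a subsystem of F₀. -/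
theorem result {Ω : Type*} [Group Ω] {S : Subgroup Ω} [Finite S] (p : ℕ) [Fact p.Prime] (hS : IsPGroup p S) (F : Cfsg.FusionSystem S) (hF : F.IsSaturated p) {T U : Subgroup Ω} (E : Cfsg.FusionSystem T) (hE : E.IsNormalIn F p) (F₀ : Cfsg.FusionSystem U) (hF₀ : F₀.IsNormalIn F p) (hU : T ⊔ F.hyperfocalSubgroup p ≤ U) (hidx : F₀.HasPPowerIndexIn F p) : E.IsSubsystemOf F₀ := by
  have hTS : T ≤ S := hE.1.2.2.2.1.1
  have hUS : U ≤ S := hF₀.1.2.2.2.1.1
  have hTU : T ≤ U := le_sup_left.trans hU
  have finT : Finite T := finite_of_le hTS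
  have hEF : E.IsSubsystemOf F := hE.1.2.2.1
  have key : E ≤ restrictSystem F₀ T hTU := by
    refine Cfsg.Agent.Lib.Helper26.le_of_pResidual_le (hS.to_le hTS) hE.1.1 _ (fun P hP => ?_)
    have hPT : P ≤ T := by
      rcases hP with rfl | hP
      · exact le_rfl
      · exact hP.1.1
    have hle : E.autGroup P ≤ F.autGroup P := by
      intro β hβ
      rw [mem_autGroup_iff F (hPT.trans hTS)]
      exact hEF _ ((mem_autGroup_iff E hPT β).1 hβ)
    rintro _ ⟨α, hα, rfl⟩
    rw [mem_restrictSystem_autGroup F₀ hTU hPT]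
    apply hidx.2.2 P (hPT.trans hTU)
    exact ⟨Subgroup.inclusion hle α, Cfsg.Agent.Lib.Helper26.map_mem_pResidual (Subgroup.inclusion hle)
      (Subgroup.inclusion_injective hle) hα, rfl⟩
  exact fun P φ hφ => (key P hφ).1

end Cfsg.Agent.S5199
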