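import Cfsg.Statements.S5223
import Cfsg.Agent.Lib.Helper27.FusionMore
open Cfsg.Agent.Lib.Helper27

set_option autoImplicit false
open Cfsg

namespace Cfsg.Agent.S5223

/-- Let F be a saturated fusion system over a finite p-group S. Suppose there are subgroups Q₀ = S, Q₁, …, Qₙ = 1 (not required to be nested) such that for each i < n the focal subgroup of Qᵢ (generated by the elements x⁻¹φ(x), x ∈ Qᵢ, φ a map of F defined on the cyclic group generated by x) lies in Qᵢ₊₁. Then F is the inner fusion system of S. -/
theorem result {Ω : Type*} [Group Ω] {S : Subgroup Ω} [Finite S] (p : ℕ) [Fact p.Prime] (hS : IsPGroup p S) (F : Cfsg.FusionSystem S) (hF : F.IsSaturated p) (n : ℕ) (Q : Fin (n + 1) → Subgroup Ω) (hQ0 : Q 0 = S) (hQn : Q (Fin.last n) = ⊥) (hstep : ∀ i : Fin n, Subgroup.closure {y : Ω | ∃ x ∈ Q i.castSucc, ∃ φ ∈ F.Hom (Subgroup.zpowers x), y = x⁻¹ * φ ⟨x, Subgroup.mem_zpowers x⟩} ≤ Q i.succ) : ∀ P : Subgroup Ω, F.Hom P = (Cfsg.innerFusionSystem S).Hom P := by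
  have hin : F = Cfsg.innerFusionSystem S := by
    refine eq_inner_of_autGroups_pGroups hS hF (fun P hP => ?_)
    have finP : Finite P := finite_of_le hP
    have hPp : IsPGroup p P := hS.to_le hP
    refine isPGroup_of_coprime_trivial (fun β m hm hβ => ?_)
    obtain ⟨β, hβF⟩ := β
    have hβ' : β ^ m = 1 := congrArg Subtype.val hβ
    have key : ∀ j : Fin (n + 1), ∀ x : P, (x : Ω) ∈ Q j → β x = x := by
      intro j
      induction j using Fin.reverseInduction with
      | last =>
        intro x hx
        rw [hQn, Subgroup.mem_bot] at hx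
        have : x = 1 := Subtype.ext hx
        rw [this, map_one]
      | cast i ih =>
        intro x hx
        refine eq_of_pow_eq_one_of_fixed hPp hm β hβ' x (ih _ ?_)
        apply hstep i
        apply Subgroup.subset_closure
        have hz : Subgroup.zpowers (x : Ω) ≤ P := by
          rw [Subgroup.zpowers_le]; exact x.2
        exact ⟨x, hx, _, restrict_mem F hz ((mem_autGroup_iff F hP β).mp hβF), rfl⟩
    apply Subtype.ext
    show β = 1
    ext x
    rw [key 0 x (by rw [hQ0]; exact hP x.2)]
    rfl
  intro P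
  rw [hin]

end Cfsg.Agent.S5223
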