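import Cfsg.Statements.S5236
import Cfsg.Agent.Lib.Helper27.FusionSmallExp
import Cfsg.Agent.S5085
open Cfsg.Agent.Lib.Helper27 Cfsg.Agent.Lib Cfsg.FusionSystem
open scoped commutatorElement

set_option autoImplicit false
open Cfsg

namespace Cfsg.Agent.S5236

/-- Let p be an odd prime, F a saturated fusion system over a finite p-group S and P a subgroup of S strongly closed in F. Then P is normal in F if and only if Ω₁(P) (the subgroup generated by the elements of order p of P) has a chain of subgroups 1 = Q₀ ≤ Q₁ ≤ ⋯ ≤ Qₙ = Ω₁(P), each strongly closed in F, with [Qᵢ₊₁, P] ≤ Qᵢ for all i. -/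
theorem result {Ω : Type*} [Group Ω] {S : Subgroup Ω} [Finite S] (p : ℕ) [Fact p.Prime] (hS : IsPGroup p S) (F : Cfsg.FusionSystem S) (hF : F.IsSaturated p) (hp : p ≠ 2) (P : Subgroup Ω) (hP : F.StronglyClosed P) : F.IsNormal P ↔ ∃ (n : ℕ) (Q : Fin (n + 1) → Subgroup Ω), Q 0 = ⊥ ∧ Q (Fin.last n) = Cfsg.omegaOne p P ∧ Monotone Q ∧ (∀ i : Fin (n + 1), F.StronglyClosed (Q i)) ∧ ∀ i : Fin n, ⁅Q i.succ, P⁆ ≤ Q i.castSucc := by
  have homle : Cfsg.omegaOne p P ≤ P := by
    unfold Cfsg.omegaOne
    rw [Subgroup.closure_le]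
    exact fun x hx => hx.1
  constructor
  · intro hN
    have finP : Finite P := finite_of_le hP.1
    obtain ⟨n, hn⟩ := Helper26.exists_ucs_eq (hS.to_le hP.1)
    have hom : ∀ α : MulAut P, ∀ y ∈ Cfsg.omegaOne p P, ∀ h : y ∈ P,
        ((α ⟨y, h⟩ : P) : Ω) ∈ Cfsg.omegaOne p P := by
      intro α y hy
      induction hy using Subgroup.closure_induction with
      | mem y hy =>
        intro h
        apply Subgroup.subset_closure
        refine ⟨(α _).2, ?_⟩
        have h1 : (⟨y, h⟩ : P) ^ p = 1 := Subtype.ext hy.2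
        rw [← Subgroup.coe_pow, ← map_pow, h1, map_one]; rfl
      | one =>
        intro h
        have : (⟨1, h⟩ : P) = 1 := rfl
        rw [this, map_one]; exact one_mem _
      | mul a b ha hb iha ihb =>
        intro h
        have : (⟨a * b, h⟩ : P) = ⟨a, homle ha⟩ * ⟨b, homle hb⟩ := rfl
        rw [this, map_mul]
        exact mul_mem (iha _) (ihb _)
      | inv a ha iha =>
        intro h
        have : (⟨a⁻¹, h⟩ : P) = (⟨a, homle ha⟩ : P)⁻¹ := rfl
        rw [this, map_inv]
        exact inv_mem (iha _)
    have hchar : ∀ i, ((Cfsg.omegaOne p P ⊓ Helper26.ucs P i).subgroupOf P).Characteristic := by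
      intro i
      rw [Subgroup.characteristic_iff_le_comap]
      intro α x hx
      rw [Subgroup.mem_subgroupOf] at hx
      show α x ∈ (Cfsg.omegaOne p P ⊓ Helper26.ucs P i).subgroupOf P
      rw [Subgroup.mem_subgroupOf]
      refine ⟨hom α x hx.1 x.2, ?_⟩
      have hch := Helper26.ucs_char P i
      have h1 := Subgroup.characteristic_iff_map_eq.mp hch α
      have h2 : α x ∈ (Helper26.ucs P i).subgroupOf P := by
        rw [← h1]
        exact ⟨x, Subgroup.mem_subgroupOf.mpr hx.2, rfl⟩
      exact Subgroup.mem_subgroupOf.mp h2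
    refine ⟨n, fun i => Cfsg.omegaOne p P ⊓ Helper26.ucs P i, ?_, ?_, ?_, ?_, ?_⟩
    · show Cfsg.omegaOne p P ⊓ Helper26.ucs P 0 = ⊥
      rw [Helper26.ucs_zero, inf_bot_eq]
    · show Cfsg.omegaOne p P ⊓ Helper26.ucs P n = _
      rw [hn]
      exact inf_eq_left.mpr homle
    · intro i j hij
      exact inf_le_inf_left _ (Helper26.ucs_mono P hij)
    · intro i
      exact IsNormal.stronglyClosed
        (Cfsg.Agent.S5085.result F P _ hN (inf_le_left.trans homle) (hchar i))
    · intro i
      rw [Subgroup.commutator_le]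
      intro x hx g hg
      refine ⟨?_, ?_⟩
      · have h1 := hom (MulAut.conj (⟨g, hg⟩ : P)) x⁻¹ (inv_mem hx.1) (homle (inv_mem hx.1))
        have h2 := mul_mem hx.1 h1
        have e : x * (((MulAut.conj (⟨g, hg⟩ : P)) ⟨x⁻¹, homle (inv_mem hx.1)⟩ : P) : Ω) = ⁅x, g⁆ := by
          rw [commutatorElement_def]
          simp [MulAut.conj_apply, mul_assoc]
        rwa [e] at h2
      · have h1 := Helper26.ucs_comm P i (Subgroup.commutator_mem_commutator hg hx.2)
        have h2 := inv_mem h1
        rwa [commutatorElement_inv] at h2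
  · rintro ⟨n, Q, hQ0, hQn, -, hQsc, hQc⟩
    rw [Helper26.isNormal_iff_centric_radical hS hF]
    refine ⟨hP, fun R hc hr => ?_⟩
    have hR := hc.1
    have finR : Finite R := finite_of_le hR
    apply le_of_normalizerIn_le hS hR hP.1 (hR.trans (StronglyClosed.le_normalizer hP))
    intro g hgP hgN
    have hg : g ∈ normalizerIn S R := ⟨hP.1 hgP, hgN⟩
    refine mem_of_stab_pairs F hc hr
      (fun j : Option (Fin n) => j.elim R (fun i => Q i.succ))
      (fun j : Option (Fin n) => j.elim P (fun i => Q i.castSucc)) ?_ ?_ ?_ hg ?_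
    · rintro (_ | i) α hα x hx
      · exact (α x).2
      · exact StronglyClosed.aut_mem (hQsc _) hR hα x hx
    · rintro (_ | i) α hα x hx
      · exact StronglyClosed.aut_mem hP hR hα x hx
      · exact StronglyClosed.aut_mem (hQsc _) hR hα x hx
    · intro α hα hco hstab
      have hRp := hS.to_le hR
      have h1 : ∀ i : Fin (n + 1), ∀ x : R, (x : Ω) ∈ Q i → α x = x := by
        intro i
        induction i using Fin.induction with
        | zero =>
          intro x hx
          rw [hQ0, Subgroup.mem_bot] at hx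
          have : x = 1 := Subtype.ext hx
          rw [this, map_one]
        | succ i ih =>
          intro x hx
          apply eq_of_pow_eq_one_of_fixed hRp hco α (pow_orderOf_eq_one α)
          exact ih _ (hstab (some i) x hx)
      have h2 : ∀ x ∈ P.subgroupOf R, α x = x := by
        apply fix_of_fix_small hRp α hco
        · intro x
          rw [Subgroup.mem_subgroupOf, Subgroup.mem_subgroupOf]
          refine ⟨fun hx => ?_, StronglyClosed.aut_mem hP hR hα x⟩
          have := StronglyClosed.aut_mem hP hR (inv_mem hα) (α x) hx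
          simpa using this
        · intro x hx hx'
          rcases hx' with hx' | ⟨h2, -⟩
          · apply h1 (Fin.last n)
            rw [hQn]
            apply Subgroup.subset_closure
            exact ⟨Subgroup.mem_subgroupOf.mp hx, by simpa using congrArg Subtype.val hx'⟩
          · exact absurd h2 hp
      ext x
      rw [MulAut.one_apply]
      congr 1
      apply eq_of_pow_eq_one_of_fixed hRp hco α (pow_orderOf_eq_one α)
      apply h2
      rw [Subgroup.mem_subgroupOf]
      exact hstab none x x.2
    · rintro (_ | i) x hxR hx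
      · show x⁻¹ * (g * x * g⁻¹) ∈ P
        have h1 := (Subgroup.mem_normalizer_iff.mp
          (StronglyClosed.le_normalizer hP (S.inv_mem (hR hxR))) g).mp hgP
        have h2 := P.mul_mem h1 (P.inv_mem hgP)
        simpa [mul_assoc] using h2
      · show x⁻¹ * (g * x * g⁻¹) ∈ Q i.castSucc
        have h1 := hQc i (Subgroup.commutator_mem_commutator ((Q i.succ).inv_mem hx) hgP)
        have e : ⁅x⁻¹, g⁆ = x⁻¹ * (g * x * g⁻¹) := by rw [commutatorElement_def]; group
        rwa [e] at h1

end Cfsg.Agent.S5236
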