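import Cfsg.Statements.S5245
import Cfsg.Agent.Lib.Helper27.FusionAutSystem
open Cfsg.Agent.Lib.Helper27

set_option autoImplicit false
open Cfsg

namespace Cfsg.Agent.S5245

/-- Let F be an extremely sparse fusion system over a finite p-group S (saturated, not the inner system, and every saturated fusion system over any subgroup T of S contained in F is F itself or the inner system of T). Then S is normal in F, the focal and hyperfocal subgroups of F are both S, and Aut_F(S) is generated by the inner automorphisms of S together with a single automorphism of prime order q ≠ p (F is the fusion system of the semidirect product of S by a cyclic group of prime order). -/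
theorem result {Ω : Type*} [Group Ω] {S : Subgroup Ω} [Finite S] (p : ℕ) [Fact p.Prime] (hS : IsPGroup p S) (F : Cfsg.FusionSystem S) (hF : F.IsSaturated p) (hxs : ¬ (∀ P : Subgroup Ω, F.Hom P = (Cfsg.innerFusionSystem S).Hom P) ∧ ∀ (T : Subgroup Ω) (E : Cfsg.FusionSystem T), E.IsSaturated p → E.IsSubsystemOf F → (T = S ∧ ∀ P : Subgroup Ω, E.Hom P = F.Hom P) ∨ (∀ P : Subgroup Ω, E.Hom P = (Cfsg.innerFusionSystem T).Hom P)) : F.IsNormal S ∧ F.focalSubgroup = S ∧ F.hyperfocalSubgroup p = S ∧ ∃ (q : ℕ) (β : MulAut ↥S), q.Prime ∧ q ≠ p ∧ β ∈ F.autGroup S ∧ orderOf β = q ∧ (F.autGroup S : Subgroup (MulAut ↥S)) = Cfsg.Inn ↥S ⊔ Subgroup.zpowers β := by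
  obtain ⟨hne, hsp⟩ := hxs
  -- key lemma
  have key : ∀ (T : Subgroup Ω), T ≤ S → ∀ (β : MulAut T) (q : ℕ), q.Prime → q ≠ p →
      β ∈ F.autGroup T → orderOf β = q →
      T = S ∧ ∀ P : Subgroup Ω, (autSystem (Cfsg.Inn T ⊔ Subgroup.zpowers β) le_sup_left).Hom P = F.Hom P := by
    intro T hT β q hq hqp hβ hord
    have hfT : Finite T := finite_of_le hT
    have hcop : (Nat.card (Subgroup.zpowers β)).Coprime p := by
      rw [Nat.card_zpowers, hord]
      exact (Nat.coprime_primes hq Fact.out).2 hqp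
    have hsat := autSystem_sup_saturated (hS.to_le hT) (Subgroup.zpowers β) hcop
    have hsub : (autSystem (Cfsg.Inn T ⊔ Subgroup.zpowers β) le_sup_left).IsSubsystemOf F := by
      refine autSystem_isSubsystemOf F hT _ _ (sup_le ?_ ?_)
      · exact (inn_le_autInducedBy hT).trans (autInducedBy_le_autGroup F hT)
      · exact Subgroup.zpowers_le.2 hβ
    rcases hsp T _ hsat hsub with h | h
    · exact h
    · exfalso
      have h1 : T.subtype.comp β.toMonoidHom ∈
          (autSystem (Cfsg.Inn T ⊔ Subgroup.zpowers β) le_sup_left).Hom T :=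
        ⟨le_rfl, β, le_sup_right (a := Cfsg.Inn T) (Subgroup.mem_zpowers β), fun x => rfl⟩
      rw [h] at h1
      obtain ⟨-, g, hg, h2⟩ := h1
      have h3 : β ∈ Cfsg.autInducedBy T T := (mem_autInducedBy_iff _ _ _).2 ⟨g, hg, h2⟩
      obtain ⟨k, hk⟩ := autInducedBy_isPGroup (hS.to_le hT) T ⟨β, h3⟩
      have hk' : β ^ (p ^ k) = 1 := congrArg Subtype.val hk
      have h4 : q ∣ p ^ k := hord ▸ orderOf_dvd_of_pow_eq_one hk'
      exact hqp ((Nat.prime_dvd_prime_iff_eq hq Fact.out).1 (hq.dvd_of_dvd_pow h4))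
  -- a subgroup whose automizer is not a p-group
  obtain ⟨P, hP, hPp⟩ : ∃ P : Subgroup Ω, P ≤ S ∧ ¬ IsPGroup p (F.autGroup P) := by
    by_contra hcon
    push Not at hcon
    exact hne (fun P => by rw [eq_inner_of_autGroups_pGroups hS hF hcon])
  have hfP : Finite P := finite_of_le hP
  obtain ⟨q, hq, hqp, β', hβ'⟩ := exists_prime_orderOf_of_not_isPGroup hPp
  obtain ⟨hPS, hEF⟩ := key P hP β' q hq hqp β'.2 (by rw [Subgroup.orderOf_coe]; exact hβ')
  subst hPS
  obtain ⟨β, hβ⟩ := β'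
  have hord : orderOf β = q := by rw [← hβ', ← Subgroup.orderOf_coe]
  have hFE : F = autSystem (Cfsg.Inn P ⊔ Subgroup.zpowers β) le_sup_left :=
    fusionSystem_ext (fun R => (hEF R).symm)
  have hNS : F.IsNormal P := by
    rw [hFE]
    exact autSystem_isNormal_top _ _
  have hAut : F.autGroup P = Cfsg.Inn P ⊔ Subgroup.zpowers β := by
    conv_lhs => rw [hFE]
    exact autSystem_autGroup_top _ _
  -- the commutator subgroup [S, β]
  set C : Subgroup P := Subgroup.closure {y : P | ∃ x : P, y = x⁻¹ * β x} with hC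
  have hCβ : ∀ y ∈ C, β y ∈ C := by
    have : C ≤ C.comap β.toMonoidHom := by
      conv_lhs => rw [hC]
      rw [Subgroup.closure_le]
      rintro _ ⟨x, rfl⟩
      show β (x⁻¹ * β x) ∈ C
      rw [map_mul, map_inv]
      exact Subgroup.subset_closure ⟨β x, rfl⟩
    exact fun y hy => this hy
  have hTS : C.map P.subtype ≤ P := by
    rintro _ ⟨y, -, rfl⟩
    exact y.2
  have hφ : (P.subtype.comp β.toMonoidHom).comp (Subgroup.inclusion hTS) ∈ F.Hom (C.map P.subtype) :=
    restrict_mem F hTS ((mem_autGroup_iff F le_rfl β).1 hβ)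
  have hfT : Finite (C.map P.subtype) := finite_of_le hTS
  have hr : ((P.subtype.comp β.toMonoidHom).comp (Subgroup.inclusion hTS)).range = C.map P.subtype := by
    apply Subgroup.eq_of_le_of_card_ge
    · rintro _ ⟨⟨_, y, hy, rfl⟩, rfl⟩
      exact ⟨β y, hCβ y hy, rfl⟩
    · rw [Nat.card_congr (MonoidHom.ofInjective (F.injective_of_mem hφ)).toEquiv]
  obtain ⟨β₀, hβ₀, hβ₀'⟩ := exists_aut_of_range_eq F hφ hr
  have hβ₀'' : ∀ x : C.map P.subtype, ((β₀ x : C.map P.subtype) : Ω) = ((β ⟨x, hTS x.2⟩ : P) : Ω) := hβ₀'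
  have hβne : β ≠ 1 := by
    intro h
    rw [h, orderOf_one] at hord
    exact hq.one_lt.ne hord
  have hord₀ : orderOf β₀ = q := by
    have : Fact q.Prime := ⟨hq⟩
    apply orderOf_eq_prime
    · ext x
      rw [restrict_pow hTS hβ₀'' q x, ← hord, pow_orderOf_eq_one]
      rfl
    · intro h1
      apply hβne
      ext x
      have hx : (x⁻¹ * β x) ∈ C := Subgroup.subset_closure ⟨x, rfl⟩
      have h2 := hβ₀'' ⟨_, ⟨_, hx, rfl⟩⟩
      rw [h1] at h2
      have h3 : β (x⁻¹ * β x) = x⁻¹ * β x := Subtype.ext h2.symm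
      rw [eq_of_pow_eq_one_of_fixed hS ((Nat.coprime_primes hq Fact.out).2 hqp) β
        (hord ▸ pow_orderOf_eq_one β) x h3]
      rfl
  obtain ⟨hT, -⟩ := key _ hTS β₀ q hq hqp hβ₀ hord₀
  refine ⟨hNS, ?_, ?_, q, β, hq, hqp, hβ, hord, hAut⟩
  · apply le_antisymm
    · refine (Subgroup.closure_le _).2 ?_
      rintro _ ⟨R, φ, x, hφ, rfl⟩
      exact P.mul_mem (P.inv_mem (source_le F hφ x.2)) (image_mem F hφ x)
    · conv_lhs => rw [← hT]
      rw [Subgroup.map_le_iff_le_comap, hC, Subgroup.closure_le]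
      rintro _ ⟨x, rfl⟩
      exact Subgroup.subset_closure ⟨P, _, x, (mem_autGroup_iff F le_rfl β).1 hβ, rfl⟩
  · apply le_antisymm
    · refine (Subgroup.closure_le _).2 ?_
      rintro _ ⟨R, α, x, hR, -, rfl⟩
      exact P.mul_mem (P.inv_mem (hR x.2)) (hR ((α : MulAut R) x).2)
    · conv_lhs => rw [← hT]
      rw [Subgroup.map_le_iff_le_comap, hC, Subgroup.closure_le]
      rintro _ ⟨x, rfl⟩
      refine Subgroup.subset_closure ⟨P, ⟨β, hβ⟩, x, le_rfl, Subgroup.subset_closure ?_, rfl⟩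
      show Nat.Coprime (orderOf (⟨β, hβ⟩ : F.autGroup P)) p
      rw [← Subgroup.orderOf_coe, hord]
      exact (Nat.coprime_primes hq Fact.out).2 hqp

end Cfsg.Agent.S5245
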