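import Cfsg.Statements.S5246
import Cfsg.Agent.Lib.Helper27.PStab

set_option autoImplicit false
open Cfsg

namespace Cfsg.Agent.S5246

/-- Let p be an odd prime, G a finite group and P a Sylow p-subgroup. Call a fusion system F p-stable when, for every fully normalized subgroup Q and every χ ∈ Aut_F(Q) acting quadratically on Q (that is, χ fixes a⁻¹χ(a) for every a ∈ Q; equivalently χ(a⁻¹)·a·χ(a⁻¹)·χ(χ(a)) = 1), χ lies in O_p(Aut_F(Q)). Then G is p-stable in the normalizer form (for every p-subgroup Q and x ∈ N_G(Q) with [Q, x, x] = 1, the image of x lies in O_p(N_G(Q)/C_G(Q))) if and only if the fusion system of G on P is p-stable. -/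
theorem result {Ω : Type*} [Group Ω] [Finite Ω] {p : ℕ} [Fact p.Prime] (hp : p ≠ 2) (P : Sylow p Ω) : Cfsg.IsNormalizerPStable p Ω ↔ (∀ Q : Subgroup Ω, (Cfsg.groupFusionSystem (P : Subgroup Ω)).IsFullyNormalized Q → ∀ χ : MulAut ↥Q, χ ∈ (Cfsg.groupFusionSystem (P : Subgroup Ω)).autGroup Q → (∀ a : ↥Q, (χ a⁻¹) * a * (χ a⁻¹) * (χ (χ a)) = 1) → χ ∈ ((Cfsg.pCore p ↥((Cfsg.groupFusionSystem (P : Subgroup Ω)).autGroup Q)).map ((Cfsg.groupFusionSystem (P : Subgroup Ω)).autGroup Q).subtype : Subgroup (MulAut ↥Q))) := by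
  have hPp : IsPGroup p (P : Subgroup Ω) := P.isPGroup'
  constructor
  · intro hG Q hQ χ hχ hquad
    have hQP : Q ≤ (P : Subgroup Ω) := hQ.1
    have hQp : IsPGroup p Q := hPp.to_le hQP
    rw [Lib.Helper26.groupFS_autGroup hQP, Lib.Helper27.PSt.autInducedBy_top_eq_range] at hχ ⊢
    obtain ⟨⟨g, hg⟩, rfl⟩ := hχ
    have hcomm : ⁅⁅Q, Subgroup.zpowers g⁆, Subgroup.zpowers g⁆ = ⊥ := by
      apply Lib.Helper27.PSt.comm_of_quad
      intro a ha
      exact congrArg Subtype.val (hquad ⟨a, ha⟩)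
    exact (Lib.Helper27.PSt.quot_iff_range Q.normalizerMonoidHom _
      (Subgroup.normalizerMonoidHom_ker Q).symm ⟨g, hg⟩).1 (hG Q hQp g hg hcomm)
  · intro hF R hR g hg hcomm
    obtain ⟨y, -, hy⟩ := (Lib.Helper26.sylIn_top_of_sylow P).exists_conj_le le_top hR
    obtain ⟨Q, hconj, hQfn⟩ := Lib.Helper27.exists_fullyNormalized_conj
      (Cfsg.groupFusionSystem (P : Subgroup Ω)) hy
    obtain ⟨-, hQP, z, rfl⟩ := Lib.Helper26.groupFS_isConj_iff.1 hconj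
    rw [Lib.Helper26.cj_cj] at hQfn hQP
    have hg' : (z * y) * g * (z * y)⁻¹ ∈
        Subgroup.normalizer ((Lib.Helper26.cj (z * y) R : Subgroup Ω) : Set Ω) := by
      rw [Lib.Helper26.normalizer_cj]; exact Lib.Helper26.conj_mem_cj hg
    apply Lib.Helper27.PSt.quot_conj R (z * y) g hg hg'
    apply (Lib.Helper27.PSt.quot_iff_range (Lib.Helper26.cj (z * y) R).normalizerMonoidHom _
      (Subgroup.normalizerMonoidHom_ker _).symm ⟨_, hg'⟩).2
    have h1 := hF _ hQfn ((Lib.Helper26.cj (z * y) R).normalizerMonoidHom ⟨_, hg'⟩)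
    rw [Lib.Helper26.groupFS_autGroup hQP, Lib.Helper27.PSt.autInducedBy_top_eq_range] at h1
    apply h1 ⟨_, rfl⟩
    rintro ⟨b, hb⟩
    apply Subtype.ext
    have hb' := Lib.Helper26.mem_cj.1 hb
    have h2 := Lib.Helper27.PSt.quad_of_comm R g hcomm _ hb'
    show (z * y) * g * (z * y)⁻¹ * b⁻¹ * ((z * y) * g * (z * y)⁻¹)⁻¹ * b *
      ((z * y) * g * (z * y)⁻¹ * b⁻¹ * ((z * y) * g * (z * y)⁻¹)⁻¹) *
      ((z * y) * g * (z * y)⁻¹ * ((z * y) * g * (z * y)⁻¹ * b * ((z * y) * g * (z * y)⁻¹)⁻¹) *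
        ((z * y) * g * (z * y)⁻¹)⁻¹) = 1
    have h3 : (z * y) * (g * ((z * y)⁻¹ * b * (z * y))⁻¹ * g⁻¹ * ((z * y)⁻¹ * b * (z * y)) *
      (g * ((z * y)⁻¹ * b * (z * y))⁻¹ * g⁻¹) *
      (g * (g * ((z * y)⁻¹ * b * (z * y)) * g⁻¹) * g⁻¹)) * (z * y)⁻¹ = 1 := by
      rw [h2]; group
    rw [← h3]
    group

end Cfsg.Agent.S5246
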