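import Cfsg.Statements.S5247
import Cfsg.Agent.Lib.Helper27.PStab2

set_option autoImplicit false
open Cfsg

namespace Cfsg.Agent.S5247

/-- Let p be an odd prime and F a saturated fusion system over a finite p-group S. Call a fusion system E (over any subgroup) p-stable when, for every fully E-normalized subgroup Q and every χ ∈ Aut_E(Q) with χ(a⁻¹)·a·χ(a⁻¹)·χ(χ(a)) = 1 for all a ∈ Q (χ acts quadratically), χ lies in O_p(Aut_E(Q)). Then F is p-stable if and only if every normalizer fusion system N_F(R) of every non-cyclic fully F-normalized subgroup R of S is p-stable. -/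
theorem result {Ω : Type*} [Group Ω] {S : Subgroup Ω} [Finite S] (p : ℕ) [Fact p.Prime] (hS : IsPGroup p S) (F : Cfsg.FusionSystem S) (hF : F.IsSaturated p) (hp : p ≠ 2) : (∀ Q : Subgroup Ω, F.IsFullyNormalized Q → ∀ χ : MulAut ↥Q, χ ∈ F.autGroup Q → (∀ a : ↥Q, (χ a⁻¹) * a * (χ a⁻¹) * (χ (χ a)) = 1) → χ ∈ ((Cfsg.pCore p ↥(F.autGroup Q)).map (F.autGroup Q).subtype : Subgroup (MulAut ↥Q))) ↔ ∀ R : Subgroup Ω, F.IsFullyNormalized R → ¬ IsCyclic ↥R → ∀ N : Cfsg.FusionSystem (Cfsg.FusionSystem.normalizerIn S R), F.IsNormalizerSystem R N → (∀ Q : Subgroup Ω, N.IsFullyNormalized Q → ∀ χ : MulAut ↥Q, χ ∈ N.autGroup Q → (∀ a : ↥Q, (χ a⁻¹) * a * (χ a⁻¹) * (χ (χ a)) = 1) → χ ∈ ((Cfsg.pCore p ↥(N.autGroup Q)).map (N.autGroup Q).subtype : Subgroup (MulAut ↥Q))) := by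
  constructor
  · intro hL R _ _ N hN Q hQ χ hχ hq
    have hQN : Q ≤ Cfsg.FusionSystem.normalizerIn S R := hQ.1
    have hQS : Q ≤ S := hQN.trans inf_le_left
    have hle := Lib.Helper27.PSt.autGroup_le_of_normalizerSystem F hN hQN
    have h1 := Lib.Helper27.PSt.stable_all F hL hQS χ (hle hχ) hq
    rw [Lib.Helper27.PSt.mem_pCore_map_iff] at h1 ⊢
    obtain ⟨B, -, hn, hpB, hχB⟩ := h1
    refine ⟨B ⊓ N.autGroup Q, inf_le_right, ?_, hpB.to_le inf_le_left, ⟨hχB, hχ⟩⟩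
    intro a ha b hb
    exact ⟨hn a (hle ha) b hb.1, Subgroup.mul_mem _ (Subgroup.mul_mem _ ha hb.2) (Subgroup.inv_mem _ ha)⟩
  · intro hR Q hQ χ hχ hq
    have hQS : Q ≤ S := hQ.1
    have hfin : Finite Q := Finite.of_injective (Subgroup.inclusion hQS) (Subgroup.inclusion_injective _)
    by_cases hc : IsCyclic Q
    · exact Lib.Helper27.PSt.cyclic_case (hS.to_le hQS) hc _ χ hχ hq
    · have hN := Lib.Helper27.isNormalizerSystem_normalizerSystem F Q hQS
      have hA := Lib.Helper27.PSt.autGroup_self_normalizerSystem F hQS hN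
      have h1 := hR Q hQ hc _ hN Q (Lib.Helper27.PSt.fullyNormalized_self hQS _) χ (hA ▸ hχ) hq
      rw [hA] at h1
      exact h1

end Cfsg.Agent.S5247
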