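import Cfsg.Statements.S5255
import Cfsg.Agent.Lib.Helper27.FusionTheta
open Cfsg.Agent.Lib.Helper27

set_option autoImplicit false
open Cfsg

namespace Cfsg.Agent.S5255

/-- Let F be a saturated fusion system over a finite p-group S and T a subgroup of S strongly closed in F. Then T·C_S(T) is strongly closed in F. -/
theorem result {Ω : Type*} [Group Ω] {S : Subgroup Ω} [Finite S] (p : ℕ) [Fact p.Prime] (hS : IsPGroup p S) (F : Cfsg.FusionSystem S) (hF : F.IsSaturated p) (T : Subgroup Ω) (hT : F.StronglyClosed T) : F.StronglyClosed (T ⊔ Cfsg.FusionSystem.centralizerIn S T) := by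
  have hTn := StronglyClosed.le_normalizer hT
  have hDn : ((Cfsg.Inn T).subgroupOf (F.autGroup T)).Normal := Subgroup.Normal.subgroupOf inferInstance _
  have key := stronglyClosed_ker_of_le _
    (le_thetaSystem_of_stronglyClosed hS hF hT ((Cfsg.Inn T).subgroupOf (F.autGroup T)) le_rfl)
  have hker : ∀ x : S, x ∈ ((QuotientGroup.mk' ((Cfsg.Inn T).subgroupOf (F.autGroup T))).comp
      (conjOn F T hT.1 hTn)).ker ↔ conjAut T x (hTn x.2) ∈ Cfsg.Inn T := by
    intro x
    rw [MonoidHom.mem_ker]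
    show QuotientGroup.mk' _ _ = 1 ↔ _
    rw [QuotientGroup.mk'_apply, QuotientGroup.eq_one_iff, Subgroup.mem_subgroupOf]
    rfl
  convert key using 1
  apply le_antisymm
  · refine sup_le ?_ ?_
    · intro t ht
      refine ⟨⟨t, hT.1 ht⟩, (hker _).2 ⟨⟨t, ht⟩, ?_⟩, rfl⟩
      ext u
      rfl
    · intro c hc
      refine ⟨⟨c, hc.1⟩, (hker _).2 ?_, rfl⟩
      have : conjAut T c (hTn hc.1) = 1 := by
        ext u
        rw [conjAut_apply]
        have := Subgroup.mem_centralizer_iff.1 hc.2 u u.2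
        rw [← this]
        simp
      rw [this]
      exact one_mem _
  · rintro _ ⟨x, hx, rfl⟩
    obtain ⟨t, ht⟩ := (hker x).1 hx
    have hx' : (x : Ω) = t * ((t : Ω)⁻¹ * x) := by group
    show (x : Ω) ∈ _
    rw [hx']
    refine Subgroup.mul_mem_sup t.2 ⟨S.mul_mem (S.inv_mem (hT.1 t.2)) x.2, ?_⟩
    show (t : Ω)⁻¹ * x ∈ Subgroup.centralizer (T : Set Ω)
    rw [Subgroup.mem_centralizer_iff]
    intro u hu
    have h1 : (t : Ω) * u * (t : Ω)⁻¹ = x * u * (x : Ω)⁻¹ :=
      congrArg (fun a : MulAut T => ((a ⟨u, hu⟩ : T) : Ω)) ht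
    have h2 : u = (t : Ω)⁻¹ * (x * u * (x : Ω)⁻¹) * t := by
      rw [← h1]; group
    calc u * ((t : Ω)⁻¹ * x) = ((t : Ω)⁻¹ * (x * u * (x : Ω)⁻¹) * t) * ((t : Ω)⁻¹ * x) := by rw [← h2]
      _ = (t : Ω)⁻¹ * x * u := by group

end Cfsg.Agent.S5255
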