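import Cfsg.Statements.S5256
import Cfsg.Agent.Lib.Helper27.FactorAut

set_option autoImplicit false
open Cfsg

namespace Cfsg.Agent.S5256

/-- Let F be a saturated fusion system over a finite p-group S, T a subgroup of S strongly closed in F, and E a factor system F/T realised along a homomorphism θ of S with kernel T. Then the hyperfocal subgroup of E is the image under θ of the hyperfocal subgroup of F (hyp(F/T) = T·hyp(F)/T). -/
theorem result {Ω : Type*} [Group Ω] {S : Subgroup Ω} [Finite S] (p : ℕ) [Fact p.Prime] (hS : IsPGroup p S) (F : Cfsg.FusionSystem S) (hF : F.IsSaturated p) (T : Subgroup Ω) (hT : F.StronglyClosed T) {Ω' : Type*} [Group Ω'] {S' : Subgroup Ω'} (θ : ↥S →* Ω') (E : Cfsg.FusionSystem S') (hE : F.IsFactorSystem T θ E) : E.hyperfocalSubgroup p = ((F.hyperfocalSubgroup p).subgroupOf S).map θ := by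
  open Cfsg.Agent.Lib.Helper26 Cfsg.Agent.Lib.Helper27 Cfsg.FusionSystem in
  have d : FacData F T θ S' := ⟨hT, hE.2.1, hE.2.2.1⟩
  apply le_antisymm
  · apply (Subgroup.closure_le _).mpr
    rintro _ ⟨P', α', x', hP', hα', rfl⟩
    have hPS : preimageAlong θ P' ≤ S := FacData.pre_le θ P'
    obtain ⟨Φ, hΦ, hsurj⟩ := exists_factorAutHom hS hF d hE hPS (d.image_pre hP')
    have : Finite (preimageAlong θ P') := Cfsg.Agent.Lib.Helper26.finite_of_le hPS
    obtain ⟨α, hα, rfl⟩ := exists_mem_pResidual_of_surjective Φ (hsurj (d.le_pre P')) hα'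
    obtain ⟨x, hx, hxx'⟩ := d.exists_pre' hP' x'.2
    have hx' : toFun₂ θ x ∈ P' := by rw [hxx']; exact x'.2
    have e : x' = ⟨toFun₂ θ x, hx'⟩ := Subtype.ext hxx'.symm
    have h1 := hΦ α ⟨x, hx⟩ hx'
    have hαS : ((((α : MulAut _) ⟨x, hx⟩ : preimageAlong θ P')) : Ω) ∈ S := hPS (Subtype.mem _)
    have hxS : x ∈ S := hPS hx
    refine ⟨⟨x⁻¹ * (((α : MulAut _) ⟨x, hx⟩ : preimageAlong θ P') : Ω),
      S.mul_mem (S.inv_mem hxS) hαS⟩, ?_, ?_⟩
    · apply Subgroup.mem_subgroupOf.mpr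
      exact Subgroup.subset_closure ⟨_, α, ⟨x, hx⟩, hPS, hα, rfl⟩
    · rw [e, h1, ← toFun₂_of_mem θ, toFun₂_mul θ (S.inv_mem hxS) hαS, toFun₂_inv θ hxS]
  · rw [Subgroup.map_le_iff_le_comap]
    have key : ∀ y ∈ F.hyperfocalSubgroup p, y ∈ S ∧ toFun₂ θ y ∈ E.hyperfocalSubgroup p := by
      intro y hy
      induction hy using Subgroup.closure_induction with
      | mem y hy =>
        obtain ⟨P, α, x, hP, hα, rfl⟩ := hy
        obtain ⟨Φ, hΦ, -⟩ := exists_factorAutHom hS hF d hE hP rfl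
        have hx' : toFun₂ θ (x : Ω) ∈ imageAlong θ P := mem_imageAlong.mpr ⟨x, x.2, hP x.2, rfl⟩
        have hαS : ((((α : MulAut _) x : P)) : Ω) ∈ S := hP (Subtype.mem _)
        have hP'S' : imageAlong θ P ≤ S' := by
          intro y hy
          obtain ⟨x, -, hxS, rfl⟩ := mem_imageAlong.mp hy
          exact d.mem_S' hxS
        refine ⟨S.mul_mem (S.inv_mem (hP x.2)) hαS, ?_⟩
        rw [toFun₂_mul θ (S.inv_mem (hP x.2)) hαS, toFun₂_inv θ (hP x.2), ← hΦ α x hx']
        exact Subgroup.subset_closure ⟨_, Φ α, ⟨_, hx'⟩, hP'S', map_mem_pResidual' Φ hα, rfl⟩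
      | one => exact ⟨S.one_mem, by rw [toFun₂_one]; exact Subgroup.one_mem _⟩
      | mul a b _ _ ha hb =>
        exact ⟨S.mul_mem ha.1 hb.1, by rw [toFun₂_mul θ ha.1 hb.1]; exact Subgroup.mul_mem _ ha.2 hb.2⟩
      | inv a _ ha =>
        exact ⟨S.inv_mem ha.1, by rw [toFun₂_inv θ ha.1]; exact Subgroup.inv_mem _ ha.2⟩
    intro s hs
    have := (key s (Subgroup.mem_subgroupOf.mp hs)).2
    rw [toFun₂_apply] at this
    exact this

end Cfsg.Agent.S5256
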