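import Cfsg.Statements.S5274
import Cfsg.Agent.Lib.Helper26.NormalCrit
import Cfsg.Agent.Lib.Helper26.SatTools
import Cfsg.Agent.S5088

set_option autoImplicit false
open Cfsg

namespace Cfsg.Agent.S5274

open Cfsg.FusionSystem Cfsg.Agent.Lib.Helper26

theorem sup_induct {Ω : Type*} [Group Ω] {A B : Subgroup Ω} {p : Ω → Prop} (h1 : p 1)
    (hmul : ∀ x y, p x → p y → p (x * y)) (hinv : ∀ x, p x → p x⁻¹) (hA : ∀ a ∈ A, p a)
    (hB : ∀ b ∈ B, p b) : ∀ y ∈ A ⊔ B, p y := by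
  let D₀ : Subgroup Ω :=
    { carrier := {y | p y}
      one_mem' := h1
      mul_mem' := fun {x y} hx hy => hmul x y hx hy
      inv_mem' := fun {x} hx => hinv x hx }
  have : A ⊔ B ≤ D₀ := sup_le hA hB
  exact fun y hy => this hy

theorem ext_of_isNormal {Ω : Type*} [Group Ω] {S : Subgroup Ω} {F : FusionSystem S}
    {E P : Subgroup Ω} {f : Ω → Ω} (hE : F.IsNormal E) (hf : IsMap F P f) :
    ∃ g, IsMap F (P ⊔ E) g ∧ (∀ x ∈ P, g x = f x) ∧ ∀ e ∈ E, g e ∈ E := by
  obtain ⟨φ, hφ, hφf⟩ := hf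
  obtain ⟨ψ, hψ, h1, h2⟩ := hE.2 P φ hφ
  refine ⟨toFun ψ, isMap_toFun hψ, ?_, ?_⟩
  · intro x hx
    rw [toFun_of_mem ψ ((le_sup_left : P ≤ P ⊔ E) hx), ← hφf ⟨x, hx⟩, ← h1 ⟨x, hx⟩]
    rfl
  · intro e he
    rw [toFun_of_mem ψ ((le_sup_right : E ≤ P ⊔ E) he)]
    have : ψ ⟨e, (le_sup_right : E ≤ P ⊔ E) he⟩ ∈ (E.subgroupOf (P ⊔ E)).map ψ :=
      ⟨⟨e, (le_sup_right : E ≤ P ⊔ E) he⟩, Subgroup.mem_subgroupOf.mpr he, rfl⟩
    rwa [h2] at this

theorem key {Ω : Type*} [Group Ω] {S : Subgroup Ω} [Finite S] (hS : IsPGroup 2 ↥S)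
    (F : Cfsg.FusionSystem S) (hF : F.IsSaturated 2)
    (h : ∀ x ∈ S, ∃ z ∈ S ⊓ Subgroup.centralizer (S : Set Ω), F.IsConjElt x z) :
    ∀ k : ℕ, ∀ s ∈ S, ∀ t ∈ S, s ^ (2 ^ k) = 1 → t ^ (2 ^ k) = 1 → s * t = t * s := by
  have : Fact (Nat.Prime 2) := ⟨Nat.prime_two⟩
  intro k
  induction k with
  | zero =>
    intro s _ t _ hs ht
    simp at hs ht
    rw [hs, ht]
  | succ k ih =>
    let E : Subgroup Ω :=
      { carrier := {t | t ∈ S ∧ t ^ (2 ^ k) = 1}
        mul_mem' := by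
          rintro a b ⟨ha, ha'⟩ ⟨hb, hb'⟩
          refine ⟨mul_mem ha hb, ?_⟩
          rw [(show Commute a b from ih a ha b hb ha' hb').mul_pow, ha', hb', one_mul]
        one_mem' := ⟨one_mem _, one_pow _⟩
        inv_mem' := by
          rintro a ⟨ha, ha'⟩
          exact ⟨inv_mem ha, by rw [inv_pow, ha', inv_one]⟩ }
    have hEmem : ∀ x, x ∈ E ↔ x ∈ S ∧ x ^ (2 ^ k) = 1 := fun x => Iff.rfl
    have hES : E ≤ S := fun x hx => hx.1
    have hEcomm : ∀ a ∈ E, ∀ b ∈ E, a * b = b * a := fun a ha b hb => ih a ha.1 b hb.1 ha.2 hb.2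
    have hsc : F.StronglyClosed E := by
      refine ⟨hES, fun R hR φ hφ x => (hEmem _).2 ⟨(F.le_of_mem hφ).2 x, ?_⟩⟩
      rw [← map_pow]
      have h1 : x ^ (2 ^ k) = 1 := Subtype.ext (by rw [Subgroup.coe_pow]; exact (hR x.2).2)
      rw [h1, map_one]
    have hEn : F.IsNormal E := by
      rw [Cfsg.Agent.S5088.result 2 hS F hF E]
      refine ⟨1, ![⊥, E], rfl, rfl, ?_, ?_⟩
      · rw [Fin.monotone_iff_le_succ]
        intro i
        fin_cases i
        exact bot_le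
      · intro i
        fin_cases i
        refine ⟨hsc, ?_⟩
        show ⁅E, E⁆ ≤ ⊥
        rw [Subgroup.commutator_le]
        intro a ha b hb
        apply Subgroup.mem_bot.2
        rw [commutatorElement_eq_one_iff_mul_comm]
        exact hEcomm a ha b hb
    obtain ⟨Z, hZ⟩ : ∃ Z, Z = S ⊓ Subgroup.centralizer (S : Set Ω) := ⟨_, rfl⟩
    have hZS : Z ≤ S := hZ ▸ inf_le_left
    have hZc : ∀ z ∈ Z, ∀ y ∈ S, z * y = y * z := by
      intro z hz y hy
      rw [hZ] at hz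
      exact ((Subgroup.mem_centralizer_iff.mp (Subgroup.mem_inf.mp hz).2) y hy).symm
    have hZmem : ∀ z ∈ S, (∀ y ∈ S, z * y = y * z) → z ∈ Z := by
      intro z hz hzc
      rw [hZ]
      refine Subgroup.mem_inf.mpr ⟨hz, ?_⟩
      rw [Subgroup.mem_centralizer_iff]
      exact fun y hy => (hzc y hy).symm
    have hA : ∀ x ∈ S, ∃ g, IsMap F (Subgroup.zpowers x ⊔ E) g ∧ g x ∈ Z ∧ ∀ e ∈ E, g e ∈ E := by
      intro x hx
      obtain ⟨z, hz, φ, hφ, hφx⟩ := h x hx
      obtain ⟨g, hg, h1, h2⟩ := ext_of_isNormal hEn (isMap_toFun hφ)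
      refine ⟨g, hg, ?_, h2⟩
      rw [h1 x (Subgroup.mem_zpowers x), toFun_of_mem φ (Subgroup.mem_zpowers x), hφx, hZ]
      exact hz
    have hEZ : ∀ x ∈ S, ∀ e ∈ E, x * e = e * x := by
      intro x hx e he
      obtain ⟨g, hg, hgx, hgE⟩ := hA x hx
      have hxD : x ∈ Subgroup.zpowers x ⊔ E := Subgroup.mem_sup_left (Subgroup.mem_zpowers x)
      have heD : e ∈ Subgroup.zpowers x ⊔ E := Subgroup.mem_sup_right he
      apply hg.inj (mul_mem hxD heD) (mul_mem heD hxD)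
      rw [hg.map_mul hxD heD, hg.map_mul heD hxD]
      exact hZc _ hgx _ (hES (hgE e he))
    have hEleZ : E ≤ Z := fun e he => hZmem e (hES he) (fun y hy => (hEZ y hy e he).symm)
    intro s hs t ht hs' ht'
    have hsq : ∀ r ∈ S, r ^ (2 ^ (k + 1)) = 1 → r ^ 2 ∈ E := by
      intro r hr hr'
      refine (hEmem _).2 ⟨pow_mem hr 2, ?_⟩
      rw [← pow_mul, ← pow_succ' 2 k]; exact hr'
    have hs2 := hsq s hs hs'
    have ht2 := hsq t ht ht'
    obtain ⟨d, hd⟩ : ∃ d, d = s * t := ⟨_, rfl⟩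
    obtain ⟨c, hc⟩ : ∃ c, c = s ^ 2 * t ^ 2 := ⟨_, rfl⟩
    have hdS : d ∈ S := hd ▸ mul_mem hs ht
    have hcE : c ∈ E := hc ▸ mul_mem hs2 ht2
    have hconj : s⁻¹ * d * s⁻¹⁻¹ = d⁻¹ * c := by
      have h1 := hEZ s hs _ ht2
      rw [hd, hc, inv_inv]
      calc s⁻¹ * (s * t) * s = t * s := by group
        _ = t⁻¹ * (t ^ 2 * s) := by rw [pow_two]; group
        _ = t⁻¹ * (s * t ^ 2) := by rw [h1]
        _ = (s * t)⁻¹ * (s ^ 2 * t ^ 2) := by rw [pow_two s]; group
    obtain ⟨g, hg, hgd, hgE⟩ := hA d hdS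
    obtain ⟨D, hD⟩ : ∃ D, D = Subgroup.zpowers d ⊔ E := ⟨_, rfl⟩
    rw [← hD] at hg
    have hdD : d ∈ D := hD ▸ Subgroup.mem_sup_left (Subgroup.mem_zpowers d)
    have hED : E ≤ D := hD ▸ le_sup_right
    have hDS : D ≤ S := hg.le
    have hgZ : ∀ y ∈ D, y ∈ D ∧ g y ∈ Z := by
      rw [hD]
      apply sup_induct
      · rw [← hD]; exact ⟨D.one_mem, by rw [hg.map_one]; exact Z.one_mem⟩
      · rw [← hD]
        rintro x y ⟨hx, hx'⟩ ⟨hy, hy'⟩
        exact ⟨mul_mem hx hy, by rw [hg.map_mul hx hy]; exact mul_mem hx' hy'⟩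
      · rw [← hD]
        rintro x ⟨hx, hx'⟩
        exact ⟨inv_mem hx, by rw [hg.map_inv hx]; exact inv_mem hx'⟩
      · rw [← hD]
        intro a ha
        obtain ⟨i, rfl⟩ := Subgroup.mem_zpowers_iff.mp ha
        have hmain : ∀ n : ℕ, d ^ n ∈ D ∧ g (d ^ n) ∈ Z := by
          intro n
          induction n with
          | zero => rw [pow_zero]; exact ⟨D.one_mem, by rw [hg.map_one]; exact Z.one_mem⟩
          | succ n ihn =>
            rw [pow_succ]
            exact ⟨mul_mem ihn.1 hdD, by rw [hg.map_mul ihn.1 hdD]; exact mul_mem ihn.2 hgd⟩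
        rcases Int.eq_nat_or_neg i with ⟨n, rfl | rfl⟩
        · rw [zpow_natCast]; exact hmain n
        · rw [zpow_neg, zpow_natCast]
          exact ⟨inv_mem (hmain n).1, by rw [hg.map_inv (hmain n).1]; exact inv_mem (hmain n).2⟩
      · rw [← hD]
        exact fun e he => ⟨hED he, hEleZ (hgE e he)⟩
    have hcsD : ∀ y ∈ D, s⁻¹ * y * s⁻¹⁻¹ ∈ D := by
      rw [hD]
      apply sup_induct
      · rw [← hD]; simp
      · rw [← hD]
        intro x y hx hy
        have e : s⁻¹ * (x * y) * s⁻¹⁻¹ = (s⁻¹ * x * s⁻¹⁻¹) * (s⁻¹ * y * s⁻¹⁻¹) := by group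
        rw [e]; exact mul_mem hx hy
      · rw [← hD]
        intro x hx
        have e : s⁻¹ * x⁻¹ * s⁻¹⁻¹ = (s⁻¹ * x * s⁻¹⁻¹)⁻¹ := by group
        rw [e]; exact inv_mem hx
      · rw [← hD]
        intro a ha
        obtain ⟨i, rfl⟩ := Subgroup.mem_zpowers_iff.mp ha
        rw [← conj_zpow, hconj]
        exact zpow_mem (mul_mem (inv_mem hdD) (hED hcE)) i
      · rw [← hD]
        intro e he
        have h1 := hEZ s hs e he
        have e2 : s⁻¹ * e * s⁻¹⁻¹ = e := by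
          calc s⁻¹ * e * s⁻¹⁻¹ = s⁻¹ * (e * s) := by group
            _ = s⁻¹ * (s * e) := by rw [h1]
            _ = e := by group
        rw [e2]; exact hED he
    obtain ⟨z, hz⟩ : ∃ z, z = g d := ⟨_, rfl⟩
    obtain ⟨c', hc'⟩ : ∃ c', c' = g c := ⟨_, rfl⟩
    have hzZ : z ∈ Z := hz ▸ hgd
    have hc'E : c' ∈ E := hc' ▸ hgE c hcE
    obtain ⟨D', hD'⟩ : ∃ D', D' = img D g := ⟨_, rfl⟩
    have hD'Z : D' ≤ Z := by
      rw [hD', img]
      apply (Subgroup.closure_le _).mpr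
      rintro _ ⟨y, hy, rfl⟩
      exact (hgZ y hy).2
    obtain ⟨g', hg', hg'g, -⟩ := hg.exists_inv
    rw [← hD'] at hg'
    have hg'D : ∀ x ∈ D', g' x ∈ D := by
      intro x hx
      rw [hD'] at hx
      obtain ⟨y, hy, rfl⟩ := hg.mem_img.mp hx
      rw [hg'g y hy]; exact hy
    have hcs : IsMap F D (fun y => s⁻¹ * y * s⁻¹⁻¹) := isMap_conj F hDS (inv_mem hs)
    have h1 : IsMap F D' ((fun y => s⁻¹ * y * s⁻¹⁻¹) ∘ g') := hg'.comp hcs hg'D
    have h2 : IsMap F D' (g ∘ ((fun y => s⁻¹ * y * s⁻¹⁻¹) ∘ g')) :=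
      h1.comp hg (fun x hx => hcsD _ (hg'D x hx))
    obtain ⟨ψ, hψ⟩ : ∃ ψ, ψ = g ∘ ((fun y => s⁻¹ * y * s⁻¹⁻¹) ∘ g') := ⟨_, rfl⟩
    rw [← hψ] at h2
    have hψg : ∀ y ∈ D, ψ (g y) = g (s⁻¹ * y * s⁻¹⁻¹) := by
      intro y hy
      rw [hψ]
      show g (s⁻¹ * g' (g y) * s⁻¹⁻¹) = _
      rw [hg'g y hy]
    have hψz : ψ z = z⁻¹ * c' := by
      rw [hz, hψg d hdD, hconj, hg.map_mul (inv_mem hdD) (hED hcE), hg.map_inv hdD, hc']
    have hψc : ψ c' = c' := by
      rw [hc', hψg c (hED hcE)]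
      have h3 := hEZ s hs c hcE
      have e2 : s⁻¹ * c * s⁻¹⁻¹ = c := by
        calc s⁻¹ * c * s⁻¹⁻¹ = s⁻¹ * (c * s) := by group
          _ = s⁻¹ * (s * c) := by rw [h3]
          _ = c := by group
      rw [e2]
    have hzD' : z ∈ D' := by rw [hD', hz]; exact mem_img_of_mem hdD
    have hc'D' : c' ∈ D' := by rw [hD', hc']; exact mem_img_of_mem (hED hcE)
    have himg : img D' ψ = D' := by
      apply img_eq_of_le_of_finite h2
      rw [img]
      apply (Subgroup.closure_le _).mpr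
      rintro _ ⟨x, hx, rfl⟩
      rw [hψ, hD']
      exact mem_img_of_mem (hcsD _ (hg'D x hx))
    have hD'S : D' ≤ S := hD'Z.trans hZS
    have hfc : F.IsFullyCentralized D' := by
      refine ⟨hD'S, fun Q _ => ?_⟩
      have h3 : centralizerIn S D' = S := by
        apply le_antisymm inf_le_left
        intro y hy
        refine Subgroup.mem_inf.mpr ⟨hy, ?_⟩
        rw [Subgroup.mem_centralizer_iff]
        intro x hx
        exact hZc x (hD'Z hx) y hy
      rw [h3]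
      exact Subgroup.card_le_of_le inf_le_left
    have hrec := Cfsg.Agent.Lib.Helper27.IsSaturated.receptive_of_fullyCentralized hS hF hfc
    have hfix : ∀ y ∈ S, ∀ x ∈ D', y * x * y⁻¹ = x := by
      intro y hy x hx
      have h3 := hZc x (hD'Z hx) y hy
      calc y * x * y⁻¹ = (y * x) * y⁻¹ := rfl
        _ = (x * y) * y⁻¹ := by rw [h3]
        _ = x := by group
    obtain ⟨ψ', hψ', hψ'ψ⟩ := exists_ext_of_receptive hrec h2 himg hD'S (N := S) (by
      intro y hy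
      refine ⟨hy, ?_, 1, S.one_mem, ?_⟩
      · rw [Subgroup.mem_normalizer_iff]
        intro x
        constructor
        · intro hx
          rw [hfix y hy x hx]; exact hx
        · intro hx
          have h3 := hfix y⁻¹ (inv_mem hy) _ hx
          have e : y⁻¹ * (y * x * y⁻¹) * y⁻¹⁻¹ = x := by group
          rw [e] at h3
          rw [h3]; exact hx
      · intro x hx
        rw [hfix y hy x hx]; simp)
    have himgS : img S ψ' = S := img_eq_of_le_of_finite hψ' hψ'.img_le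
    obtain ⟨α, hα, hαψ⟩ := hψ'.exists_aut himgS
    obtain ⟨-, ⟨-, R, hR⟩, -⟩ :=
      Cfsg.Agent.Lib.Helper27.IsSaturated.fullyNormalized_props hS hF (fullyNormalized_self F)
    have hn : (R : Subgroup (F.autGroup S)).Normal := by
      rw [hR, autInducedBy_self_eq_inn]
      exact Subgroup.Normal.subgroupOf inferInstance _
    have hodd : ¬ 2 ∣ (R : Subgroup (F.autGroup S)).index := R.not_dvd_index
    have hpow := Subgroup.pow_index_mem (R : Subgroup (F.autGroup S)) ⟨α, hα⟩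
    obtain ⟨m, hm⟩ : ∃ m, m = (R : Subgroup (F.autGroup S)).index := ⟨_, rfl⟩
    rw [← hm] at hpow hodd
    rw [hR, Subgroup.mem_subgroupOf] at hpow
    have hpow' : α ^ m ∈ autInducedBy S S := by simpa using hpow
    obtain ⟨a, ha, haα⟩ := (Cfsg.Agent.Lib.Helper27.mem_autInducedBy_iff S S _).mp hpow'
    let zS : S := ⟨z, hZS hzZ⟩
    have hst1 : α ^ m ∈ MulAction.stabilizer (MulAut S) zS := by
      rw [MulAction.mem_stabilizer_iff, MulAut.smul_def]
      apply Subtype.ext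
      rw [haα]
      exact hfix a ha z hzD'
    have hαz : ((α zS : S) : Ω) = z⁻¹ * c' := by
      rw [hαψ, hψ'ψ z hzD', hψz]
    have hst2 : α ^ 2 ∈ MulAction.stabilizer (MulAut S) zS := by
      rw [MulAction.mem_stabilizer_iff, MulAut.smul_def]
      apply Subtype.ext
      rw [pow_two, MulAut.mul_apply, hαψ, hαz,
        hψ'ψ _ (mul_mem (inv_mem hzD') hc'D'), h2.map_mul (inv_mem hzD') hc'D', h2.map_inv hzD',
        hψz, hψc]
      have h3 := hZc z hzZ c' (hES hc'E)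
      show (z⁻¹ * c')⁻¹ * c' = z
      calc (z⁻¹ * c')⁻¹ * c' = c'⁻¹ * (z * c') := by group
        _ = c'⁻¹ * (c' * z) := by rw [h3]
        _ = z := by group
    have hmodd : Odd m := by
      rcases Nat.even_or_odd m with he | ho
      · exact absurd he.two_dvd hodd
      · exact ho
    obtain ⟨j, hj⟩ := hmodd
    have hst : α ∈ MulAction.stabilizer (MulAut S) zS := by
      have h3 : α = ((α ^ 2) ^ j)⁻¹ * α ^ m := by
        rw [hj, pow_succ α (2 * j), pow_mul, inv_mul_cancel_left]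
      rw [h3]
      exact mul_mem (inv_mem (pow_mem hst2 j)) hst1
    rw [MulAction.mem_stabilizer_iff, MulAut.smul_def] at hst
    have hzz : z * z = c' := by
      have h3 : z = z⁻¹ * c' := by
        rw [← hαz, hst]
      calc z * z = z * (z⁻¹ * c') := by rw [← h3]
        _ = c' := by group
    have hdd : d * d = c := by
      apply hg.inj (mul_mem hdD hdD) (hED hcE)
      rw [hg.map_mul hdD hdD, ← hz, ← hc', hzz]
    rw [hd, hc, pow_two, pow_two] at hdd
    have h3 : s * (t * s * t) = s * (s * t * t) := by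
      calc s * (t * s * t) = s * t * (s * t) := by group
        _ = s * s * (t * t) := hdd
        _ = s * (s * t * t) := by group
    exact (mul_right_cancel (mul_left_cancel h3)).symm

/-- Let F be a saturated fusion system over a finite 2-group S. Suppose that every element of S is F-conjugate to an element of the centre Z(S) (some map of F defined on the cyclic subgroup it generates sends it into Z(S)). Then S is abelian. -/
theorem result {Ω : Type*} [Group Ω] {S : Subgroup Ω} [Finite S] (hS : IsPGroup 2 ↥S) (F : Cfsg.FusionSystem S) (hF : F.IsSaturated 2) (h : ∀ x ∈ S, ∃ z ∈ S ⊓ Subgroup.centralizer (S : Set Ω), F.IsConjElt x z) : IsMulCommutative ↥S := by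
  refine ⟨⟨fun a b => ?_⟩⟩
  obtain ⟨i, hi⟩ := hS a
  obtain ⟨j, hj⟩ := hS b
  have hi' : (a : Ω) ^ (2 ^ i) = 1 := by
    have := congrArg Subtype.val hi
    rwa [Subgroup.coe_pow] at this
  have hj' : (b : Ω) ^ (2 ^ j) = 1 := by
    have := congrArg Subtype.val hj
    rwa [Subgroup.coe_pow] at this
  apply Subtype.ext
  apply key hS F hF h (i + j) a a.2 b b.2
  · rw [pow_add, pow_mul, hi', one_pow]
  · rw [pow_add, mul_comm, pow_mul, hj', one_pow]

end Cfsg.Agent.S5274
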