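import Cfsg.Statements.S5294
import Cfsg.Agent.Lib.Helper27.FusionChain
import Cfsg.Agent.Lib.Helper27.TraceFixed
open Cfsg Cfsg.FusionSystem Cfsg.Agent.Lib Cfsg.Agent.Lib.Helper27
open scoped IsMulCommutative

set_option autoImplicit false
universe u
open Cfsg

namespace Cfsg.Agent.S5294

/-- Let F be a saturated fusion system over a finite p-group S whose centre Z(S) lies in the largest subgroup O_p(F) normal in F. Then the centre Z(F) of F is a direct factor of Z(S): there is a subgroup K of Z(S) with Z(F) ∩ K = 1 and Z(F)K = Z(S). -/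
theorem result {Ω : Type u} [Group Ω] {S : Subgroup Ω} [Finite S] (p : ℕ) [Fact p.Prime] (hS : IsPGroup p S)
    (F : Cfsg.FusionSystem S) (hF : F.IsSaturated p) (hZ : (S ⊓ Subgroup.centralizer (S : Set Ω)) ≤ F.core) :
    ∃ K : Subgroup Ω, K ≤ (S ⊓ Subgroup.centralizer (S : Set Ω)) ∧ F.center ⊓ K = ⊥ ∧ F.center ⊔ K = (S ⊓ Subgroup.centralizer (S : Set Ω)) := by
  classical
  have hO : F.IsNormal F.core := Helper26.core_isNormal F
  set O := F.core with hOdef
  have hOS : O ≤ S := hO.1
  have finO : Finite O := finite_of_le hOS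
  have hOn : S ≤ Subgroup.normalizer (O : Set Ω) := IsNormal.le_normalizer hO
  have hfn : F.IsFullyNormalized O := by
    refine ⟨hOS, fun Q _ => ?_⟩
    have h1 : normalizerIn S O = S := inf_eq_left.2 hOn
    rw [h1]
    exact Nat.card_le_card_of_injective (Subgroup.inclusion (inf_le_left : normalizerIn S Q ≤ S))
      (Subgroup.inclusion_injective _)
  obtain ⟨-, ⟨-, R, hR⟩, -⟩ := IsSaturated.fullyNormalized_props hS hF hfn
  let res : MulAut O →* MulAut (Subgroup.center O) :=
    { toFun := fun α => Subgroup.centerCongr α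
      map_one' := by ext; rfl
      map_mul' := fun α β => by ext; rfl }
  have hres : ∀ (α : MulAut O) (v : Subgroup.center O), ((res α v : Subgroup.center O) : O) = α v :=
    fun _ _ => rfl
  have hV : IsPGroup p (Subgroup.center O) := (hS.to_le hOS).to_subgroup _
  obtain ⟨K, hK1, hK2, hK3⟩ := exists_compl_fixed (V := Subgroup.center O) hV (res.comp (F.autGroup O).subtype)
    (R : Subgroup (F.autGroup O)) R.not_dvd_index
  -- membership in Z(S)
  have hZV : ∀ z (hz : z ∈ S ⊓ Subgroup.centralizer (S : Set Ω)),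
      (⟨z, hZ hz⟩ : O) ∈ Subgroup.center O := by
    intro z hz
    rw [Subgroup.mem_center_iff]
    intro y
    apply Subtype.ext
    exact (Subgroup.mem_centralizer_iff.1 hz.2) y (hOS y.2)
  have hfixP : ∀ v : Subgroup.center O, (∀ a ∈ (R : Subgroup (F.autGroup O)),
      (res.comp (F.autGroup O).subtype) a v = v) ↔
      ((v : O) : Ω) ∈ S ⊓ Subgroup.centralizer (S : Set Ω) := by
    intro v
    constructor
    · intro h
      refine ⟨hOS (v : O).2, ?_⟩
      show _ ∈ Subgroup.centralizer (S : Set Ω)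
      rw [Subgroup.mem_centralizer_iff]
      intro g hg
      have hmem : conjAut O g (hOn hg) ∈ F.autGroup O :=
        autInducedBy_le_autGroup F hOS (conjAut_mem_autInducedBy hg (hOn hg))
      have h1 := h ⟨conjAut O g (hOn hg), hmem⟩ (by
        rw [hR, Subgroup.mem_subgroupOf]
        exact conjAut_mem_autInducedBy hg (hOn hg))
      have h2 : g * ((v : O) : Ω) * g⁻¹ = ((v : O) : Ω) :=
        congrArg (fun w : Subgroup.center O => ((w : O) : Ω)) h1
      calc g * ((v : O) : Ω) = (g * ((v : O) : Ω) * g⁻¹) * g := by group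
        _ = ((v : O) : Ω) * g := by rw [h2]
    · intro h a ha
      rw [hR, Subgroup.mem_subgroupOf, mem_autInducedBy_iff] at ha
      obtain ⟨g, hg, hga⟩ := ha
      apply Subtype.ext
      apply Subtype.ext
      have h1 : (((res.comp (F.autGroup O).subtype) a v : Subgroup.center O) : O) = (a : MulAut O) v := rfl
      rw [h1, hga]
      have := (Subgroup.mem_centralizer_iff.1 h.2) g hg
      rw [this]
      group
  have hfixA : ∀ v : Subgroup.center O, (∀ a : F.autGroup O,
      (res.comp (F.autGroup O).subtype) a v = v) ↔ ((v : O) : Ω) ∈ F.center := by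
    intro v
    constructor
    · intro h
      have hc : F.IsCentral (Subgroup.zpowers ((v : O) : Ω)) := by
        rw [Helper26.isCentral_iff_conjElt hS hF]
        have hle : Subgroup.zpowers ((v : O) : Ω) ≤ O := by
          rw [Subgroup.zpowers_le]; exact (v : O).2
        refine ⟨hle.trans hOS, ?_⟩
        rintro x hx y ⟨φ, hφ, rfl⟩
        have hxO : x ∈ O := hle hx
        have hle' : Subgroup.zpowers x ≤ O := by
          rw [Subgroup.zpowers_le]; exact hxO
        obtain ⟨α, hα, hα'⟩ := IsNormal.exists_aut hO hle' hφ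
        rw [hα']
        obtain ⟨k, rfl⟩ := Subgroup.mem_zpowers_iff.1 hx
        have h1 : α (v : O) = (v : O) := congrArg Subtype.val (h ⟨α, hα⟩)
        have h2 : (⟨((v : O) : Ω) ^ k, hxO⟩ : O) = (v : O) ^ k := Subtype.ext (by simp)
        show ((α ⟨((v : O) : Ω) ^ k, hxO⟩ : O) : Ω) = _
        rw [h2, map_zpow, h1]
        simp
      exact (le_sSup (a := Subgroup.zpowers ((v : O) : Ω)) hc) (Subgroup.mem_zpowers _)
    · intro h a
      have hc := (Helper26.isCentral_iff_conjElt hS hF _).1 (Helper26.center_isCentral F)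
      apply Subtype.ext
      apply Subtype.ext
      have h1 : (((res.comp (F.autGroup O).subtype) a v : Subgroup.center O) : O) = (a : MulAut O) v := rfl
      rw [h1]
      apply hc.2 _ h
      have hle : Subgroup.zpowers ((v : O) : Ω) ≤ O := by
        rw [Subgroup.zpowers_le]; exact (v : O).2
      exact ⟨_, restrict_mem F hle ((mem_autGroup_iff F hOS _).1 a.2), rfl⟩
  have hcenZ : F.center ≤ S ⊓ Subgroup.centralizer (S : Set Ω) := by
    intro z hz
    have hc := (Helper26.isCentral_iff_conjElt hS hF _).1 (Helper26.center_isCentral F)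
    refine ⟨hc.1 hz, ?_⟩
    show _ ∈ Subgroup.centralizer (S : Set Ω)
    rw [Subgroup.mem_centralizer_iff]
    intro g hg
    have hle : Subgroup.zpowers z ≤ S := by
      rw [Subgroup.zpowers_le]; exact hc.1 hz
    have h2 : g * z * g⁻¹ = z := hc.2 z hz _ ⟨_, F.conj_mem hle hg, rfl⟩
    calc g * z = (g * z * g⁻¹) * g := by group
      _ = z * g := by rw [h2]
  refine ⟨(K.map (Subgroup.center O).subtype).map O.subtype, ?_, ?_, ?_⟩
  · rintro _ ⟨_, ⟨v, hv, rfl⟩, rfl⟩
    exact (hfixP v).1 (hK1 v hv)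
  · rw [eq_bot_iff]
    rintro _ ⟨hz, _, ⟨v, hv, rfl⟩, rfl⟩
    have := hK2 v hv ((hfixA v).2 hz)
    rw [this]
    simp
  · apply le_antisymm
    · refine sup_le hcenZ ?_
      rintro _ ⟨_, ⟨v, hv, rfl⟩, rfl⟩
      exact (hfixP v).1 (hK1 v hv)
    · intro z hz
      obtain ⟨u, k, hu, hk, he⟩ := hK3 ⟨⟨z, hZ hz⟩, hZV z hz⟩ ((hfixP _).2 hz)
      have he' : z = ((u : O) : Ω) * ((k : O) : Ω) :=
        congrArg (fun w : Subgroup.center O => ((w : O) : Ω)) he
      rw [he']
      exact mul_mem ((le_sup_left : F.center ≤ _) ((hfixA u).1 hu))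
        ((le_sup_right : _ ≤ F.center ⊔ _) ⟨_, ⟨k, hk, rfl⟩, rfl⟩)

end Cfsg.Agent.S5294
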