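import Cfsg.Statements.S5297
import Cfsg.Agent.Lib.Helper27.FusionSmallExp
open Cfsg.Agent.Lib.Helper27 Cfsg.Agent.Lib Cfsg.FusionSystem

set_option autoImplicit false
universe u
open Cfsg

namespace Cfsg.Agent.S5297

/-- Let F be a saturated fusion system over a finite p-group S. If every map of F between cyclic subgroups of the hyperfocal subgroup of F of order p or 4 is a map of the normalizer system of S (it extends to a map of F defined on all of S), then S is normal in F. -/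
theorem result {Ω : Type u} [Group Ω] {S : Subgroup Ω} [Finite S] (p : ℕ) [Fact p.Prime] (hS : IsPGroup p S)
    (F : Cfsg.FusionSystem S) (hF : F.IsSaturated p)
    (h : ∀ A B : Subgroup Ω, A ≤ (F.hyperfocalSubgroup p) → B ≤ (F.hyperfocalSubgroup p) → IsCyclic ↥A → (Nat.card ↥A = p ∨ Nat.card ↥A = 4) → IsCyclic ↥B → (Nat.card ↥B = p ∨ Nat.card ↥B = 4) →
      F.homSet A B ⊆ F.normalizerHom S A) :
    F.IsNormal S := by
  apply isNormal_top_of_forall_eq hS hF
  intro P hfn hc hr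
  have hP := hc.1
  have finP : Finite P := finite_of_le hP
  obtain ⟨D, hDP, hDh, hDinv, hDexp, hDf, -⟩ := exists_small_exp_fusion hS F hP
  have hext : ∀ α ∈ F.autGroup P, ∀ x : P, (x : Ω) ∈ D →
      ∃ ψ ∈ F.Hom S, ψ ⟨x, hP x.2⟩ = ((α x : P) : Ω) := by
    intro β hβ x hx
    by_cases hx1 : (x : Ω) = 1
    · refine ⟨_, subtype_mem F le_rfl, ?_⟩
      have : x = 1 := Subtype.ext hx1
      rw [this, map_one]; simp
    · obtain ⟨φ, hφ, hφx⟩ := exists_cyclic_restriction F hP hβ x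
      have hbx1 : ((β x : P) : Ω) ≠ 1 := by
        intro h1
        apply hx1
        have : β x = 1 := Subtype.ext h1
        rw [map_eq_one_iff β β.injective] at this
        rw [this]; rfl
      have hbD := hDinv β hβ x hx
      have := h _ _ ((Subgroup.zpowers_le).mpr (hDh hx)) ((Subgroup.zpowers_le).mpr (hDh hbD))
        inferInstance (card_zpowers_of_small hx1 (hDexp _ hx)) inferInstance
        (card_zpowers_of_small hbx1 (hDexp _ hbD)) hφ
      obtain ⟨-, -, -, ψ, hψ, hψφ, -⟩ := this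
      refine ⟨_, restrict_mem F le_sup_right hψ, ?_⟩
      rw [← hφx, ← hψφ]
      rfl
  have hEinv : ∀ i, ∀ α ∈ F.autGroup P, ∀ x : P, (x : Ω) ∈ D ⊓ Helper26.ucs S i →
      ((α x : P) : Ω) ∈ D ⊓ Helper26.ucs S i := by
    intro i α hα x hx
    refine ⟨hDinv α hα x hx.1, ?_⟩
    obtain ⟨ψ, hψ, hψx⟩ := hext α hα x hx.1
    rw [← hψx]
    exact ucs_mem_of_hom_top F hψ i _ hx.2
  obtain ⟨n, hn⟩ := Helper26.exists_ucs_eq hS
  by_contra hne
  obtain ⟨g, hg, hgP⟩ := exists_mem_normalizerIn_not_mem hS hP hne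
  apply hgP
  refine mem_of_stab_pairs F hc hr (fun i : ℕ => D ⊓ Helper26.ucs S (i + 1))
    (fun i : ℕ => D ⊓ Helper26.ucs S i) (fun i => hEinv (i + 1)) hEinv ?_ hg ?_
  · intro α hα hco hstab
    apply hDf α hα hco
    intro x hx
    refine fix_of_stab_asc_chain (hS.to_le hP) hco α (pow_orderOf_eq_one α)
      (fun i : ℕ => D ⊓ Helper26.ucs S i) ?_ hstab n x ⟨hx, by rw [hn]; exact hP x.2⟩
    show D ⊓ Helper26.ucs S 0 = ⊥
    rw [Helper26.ucs_zero, inf_bot_eq]
  · intro i x hxP hx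
    refine ⟨D.mul_mem (D.inv_mem hx.1) ?_, inv_mul_conj_mem_ucs hg.1 hx.2⟩
    exact hDinv (conjAut P g hg.2) (autInducedBy_le_autGroup F hP (conjAut_mem_autInducedBy hg.1 hg.2))
      ⟨x, hxP⟩ hx.1

end Cfsg.Agent.S5297
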