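import Cfsg.Statements.S5298
import Cfsg.Agent.Lib.Helper27.FusionSmallExp
import Cfsg.Agent.Lib.Helper27.FusionEssential
import Cfsg.Agent.Lib.Helper26.Chain
open Cfsg.Agent.Lib.Helper27 Cfsg.Agent.Lib Cfsg.FusionSystem
open scoped commutatorElement

set_option autoImplicit false
universe u
open Cfsg

namespace Cfsg.Agent.S5298

/-- Let F be a saturated fusion system over a finite p-group S. If every map of F between cyclic subgroups of the hyperfocal subgroup of F of order p or 4 is conjugation by an element of S, then F is the inner fusion system of S. -/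
theorem result {Ω : Type u} [Group Ω] {S : Subgroup Ω} [Finite S] (p : ℕ) [Fact p.Prime] (hS : IsPGroup p S)
    (F : Cfsg.FusionSystem S) (hF : F.IsSaturated p)
    (h : ∀ A B : Subgroup Ω, A ≤ (F.hyperfocalSubgroup p) → B ≤ (F.hyperfocalSubgroup p) → IsCyclic ↥A → (Nat.card ↥A = p ∨ Nat.card ↥A = 4) → IsCyclic ↥B → (Nat.card ↥B = p ∨ Nat.card ↥B = 4) →
      F.homSet A B ⊆ (Cfsg.innerFusionSystem S).Hom A) :
    ∀ P : Subgroup Ω, F.Hom P = (Cfsg.innerFusionSystem S).Hom P := by
  have key : F = innerFusionSystem S := by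
    apply eq_inner_of_autGroups_pGroups hS hF
    intro P hP
    have finP : Finite P := finite_of_le hP
    obtain ⟨D, hDP, hDh, hDinv, hDexp, hDf, -⟩ := exists_small_exp_fusion hS F hP
    apply isPGroup_of_coprime_trivial
    rintro ⟨β, hβ⟩ m hm hpow
    apply Subtype.ext
    have hpow' : β ^ m = 1 := congrArg Subtype.val hpow
    apply hDf β hβ (Nat.Coprime.coprime_dvd_left (orderOf_dvd_of_pow_eq_one hpow') hm)
    have hconj : ∀ x : P, (x : Ω) ∈ D → ∃ s ∈ S, ((β x : P) : Ω) = s * x * s⁻¹ := by
      intro x hx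
      by_cases hx1 : (x : Ω) = 1
      · refine ⟨1, one_mem _, ?_⟩
        have : x = 1 := Subtype.ext hx1
        rw [this, map_one]; simp
      · obtain ⟨φ, hφ, hφx⟩ := exists_cyclic_restriction F hP hβ x
        have hbx1 : ((β x : P) : Ω) ≠ 1 := by
          intro h1
          apply hx1
          have : β x = 1 := Subtype.ext h1
          rw [map_eq_one_iff β β.injective] at this
          rw [this]; rfl
        have hbD := hDinv β hβ x hx
        have := h _ _ ((Subgroup.zpowers_le).mpr (hDh hx)) ((Subgroup.zpowers_le).mpr (hDh hbD))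
          inferInstance (card_zpowers_of_small hx1 (hDexp _ hx)) inferInstance
          (card_zpowers_of_small hbx1 (hDexp _ hbD)) hφ
        obtain ⟨-, g, hg, hgφ⟩ := this
        exact ⟨g, hg, by rw [← hφx, hgφ]⟩
    have chain : ∀ i, ∀ x : P, (x : Ω) ∈ D → (x : Ω) ∈ Helper26.ucs S i → β x = x := by
      intro i
      induction i with
      | zero =>
        intro x _ hx
        rw [Helper26.ucs_zero, Subgroup.mem_bot] at hx
        have : x = 1 := Subtype.ext hx
        rw [this, map_one]
      | succ i ih =>
        intro x hxD hx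
        apply eq_of_pow_eq_one_of_fixed (hS.to_le hP) hm β hpow'
        apply ih
        · exact D.mul_mem (D.inv_mem hxD) (hDinv β hβ x hxD)
        · obtain ⟨s, hs, hsx⟩ := hconj x hxD
          show (x : Ω)⁻¹ * ((β x : P) : Ω) ∈ Helper26.ucs S i
          rw [hsx]
          have h1 := (Helper26.ucs S i).inv_mem (Helper26.ucs_comm S i
            (Subgroup.commutator_mem_commutator hs ((Helper26.ucs S (i + 1)).inv_mem hx)))
          have e : ⁅s, (x : Ω)⁻¹⁆⁻¹ = (x : Ω)⁻¹ * (s * x * s⁻¹) := by
            rw [commutatorElement_def]; group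
          rwa [e] at h1
    obtain ⟨n, hn⟩ := Helper26.exists_ucs_eq hS
    intro x hx
    exact chain n x hx (by rw [hn]; exact hP x.2)
  intro P
  rw [key]

end Cfsg.Agent.S5298
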