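import Cfsg.Statements.S5300
import Cfsg.Agent.Lib.Helper27.FusionSmallExp
open Cfsg.Agent.Lib.Helper27 Cfsg.Agent.Lib Cfsg.FusionSystem

set_option autoImplicit false
universe u
open Cfsg

namespace Cfsg.Agent.S5300

/-- Let F be a saturated fusion system over a finite p-group S. If every cyclic subgroup of the focal subgroup of F of order p (of order 2 or 4 when p = 2) is normal in S, then S is normal in F. -/
theorem result {Ω : Type u} [Group Ω] {S : Subgroup Ω} [Finite S] (p : ℕ) [Fact p.Prime] (hS : IsPGroup p S)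
    (F : Cfsg.FusionSystem S) (hF : F.IsSaturated p)
    (hnorm : ∀ x ∈ F.focalSubgroup, (x ^ p = 1 ∨ (p = 2 ∧ x ^ 4 = 1)) → ∀ s ∈ S, s * x * s⁻¹ ∈ Subgroup.zpowers x) :
    F.IsNormal S := by
  apply isNormal_top_of_forall_eq hS hF
  intro P hfn hc hr
  have hP := hc.1
  have finP : Finite P := finite_of_le hP
  obtain ⟨D, hDP, hDh, hDinv, hDexp, hDf, -⟩ := exists_small_exp_fusion hS F hP
  have hhf : F.hyperfocalSubgroup p ≤ F.focalSubgroup := by
    unfold hyperfocalSubgroup
    rw [Subgroup.closure_le]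
    rintro _ ⟨Q, α, x, hQ, -, rfl⟩
    exact Subgroup.subset_closure ⟨Q, _, x, (mem_autGroup_iff F hQ _).mp α.2, rfl⟩
  -- the action of `S` on the elements of `D`
  have hact : ∀ x ∈ D, ∀ g ∈ S, g * x * g⁻¹ = x ∨ (p = 2 ∧ g * x * g⁻¹ = x⁻¹) := by
    intro x hx g hg
    have hxS : x ∈ S := hP (hDP hx)
    have hn := hnorm x (hhf (hDh hx)) (hDexp x hx)
    rcases hDexp x hx with hxp | ⟨hp2, hx4⟩
    · left
      by_cases hx1 : x = 1
      · rw [hx1]; simp
      have hN : (Subgroup.zpowers (⟨x, hxS⟩ : S)).Normal := by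
        constructor
        rintro _ ⟨k, rfl⟩ s
        obtain ⟨j, hj⟩ := hn s s.2
        refine ⟨j * k, ?_⟩
        apply Subtype.ext
        have e : ((s * (fun x1 : S => x1 ^ k) ⟨x, hxS⟩ * s⁻¹ : S) : Ω) = ((s : Ω) * x * (s : Ω)⁻¹) ^ k := by
          rw [conj_zpow]; simp
        rw [e, ← hj, ← zpow_mul]
        simp
      have hx1' : (⟨x, hxS⟩ : S) ≠ 1 := fun h => hx1 (congrArg Subtype.val h)
      have hNb : Subgroup.zpowers (⟨x, hxS⟩ : S) ≠ ⊥ := by
        intro h
        rw [Subgroup.zpowers_eq_bot] at h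
        exact hx1' h
      obtain ⟨w, hwN, hwc, hw1⟩ := Helper2.exists_mem_center_of_normal_of_isPGroup hS _ hNb
      have hcard : Nat.card (Subgroup.zpowers (⟨x, hxS⟩ : S)) = p := by
        rw [Nat.card_zpowers]
        exact orderOf_eq_prime (Subtype.ext (by simpa using hxp)) hx1'
      have hw1' : (⟨w, hwN⟩ : Subgroup.zpowers (⟨x, hxS⟩ : S)) ≠ 1 :=
        fun h => hw1 (congrArg Subtype.val h)
      obtain ⟨k, hk⟩ := mem_zpowers_of_prime_card hcard hw1'
        (g' := ⟨⟨x, hxS⟩, Subgroup.mem_zpowers _⟩)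
      have hk' : w ^ k = ⟨x, hxS⟩ := by
        have := congrArg Subtype.val hk
        simpa using this
      have hxc : (⟨x, hxS⟩ : S) ∈ Subgroup.center S := hk' ▸ Subgroup.zpow_mem _ hwc k
      have := Subgroup.mem_center_iff.mp hxc ⟨g, hg⟩
      have h2 : g * x = x * g := congrArg Subtype.val this
      rw [h2, mul_inv_cancel_right]
    · obtain ⟨k, hk⟩ := hn g hg
      have hk' : x ^ k = x ^ (k % 4) := by
        conv_lhs => rw [← Int.mul_ediv_add_emod k 4, zpow_add, zpow_mul]
        have : x ^ (4 : ℤ) = 1 := by exact_mod_cast hx4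
        rw [this, one_zpow, one_mul]
      have h0 : 0 ≤ k % 4 := Int.emod_nonneg _ (by norm_num)
      have h4 : k % 4 < 4 := Int.emod_lt_of_pos _ (by norm_num)
      have hk2 : x ^ (k % 4) = g * x * g⁻¹ := by rw [← hk']; exact hk
      generalize k % 4 = r at h0 h4 hk2
      interval_cases r
      · left
        have : g * x * g⁻¹ = 1 := by rw [← hk2]; simp
        have hx1 : x = 1 := by
          have := conj_eq_one_iff.mp this
          exact this
        rw [hx1]; simp
      · left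
        rw [← hk2]; simp
      · left
        have h5 : (g * x * g⁻¹) ^ 2 = 1 := by
          rw [← hk2]
          have : (x ^ (2 : ℤ)) ^ 2 = x ^ 4 := by
            rw [show (2 : ℤ) = ((2 : ℕ) : ℤ) from rfl, zpow_natCast, ← pow_mul]
          rw [this, hx4]
        rw [conj_pow] at h5
        have h6 : x ^ 2 = 1 := conj_eq_one_iff.mp h5
        have h7 : g * x * g⁻¹ = 1 := by
          rw [← hk2, show (2 : ℤ) = ((2 : ℕ) : ℤ) from rfl, zpow_natCast, h6]
        have hx1 : x = 1 := conj_eq_one_iff.mp h7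
        rw [hx1]; simp
      · right
        refine ⟨hp2, ?_⟩
        rw [← hk2]
        rw [eq_inv_iff_mul_eq_one, show (3 : ℤ) = ((3 : ℕ) : ℤ) from rfl, zpow_natCast, ← pow_succ]
        exact hx4
  let K : Subgroup (MulAut P) :=
    { carrier := {κ | κ ∈ F.autGroup P ∧ ∀ x : P, (x : Ω) ∈ D → κ x = x ∨ (p = 2 ∧ κ x = x⁻¹)}
      one_mem' := ⟨one_mem _, fun x _ => Or.inl rfl⟩
      mul_mem' := by
        rintro a b ⟨ha, ha'⟩ ⟨hb, hb'⟩
        refine ⟨mul_mem ha hb, fun x hx => ?_⟩
        rw [MulAut.mul_apply]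
        rcases hb' x hx with h1 | ⟨h2, h1⟩
        · rw [h1]; exact ha' x hx
        · rw [h1, map_inv]
          rcases ha' x hx with h3 | ⟨-, h3⟩
          · rw [h3]; exact Or.inr ⟨h2, rfl⟩
          · rw [h3, inv_inv]; exact Or.inl rfl
      inv_mem' := by
        rintro a ⟨ha, ha'⟩
        refine ⟨inv_mem ha, fun x hx => ?_⟩
        rcases ha' x hx with h1 | ⟨h2, h1⟩
        · left
          rw [MulAut.inv_apply, MulEquiv.symm_apply_eq, h1]
        · right
          refine ⟨h2, ?_⟩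
          rw [MulAut.inv_apply, MulEquiv.symm_apply_eq, map_inv, h1, inv_inv] }
  by_contra hne
  obtain ⟨g, hg, hgP⟩ := exists_mem_normalizerIn_not_mem hS hP hne
  apply hgP
  refine mem_of_conjAut_mem_normal F hc hr K (fun a h => h.1) ?_ ?_ hg
    ⟨autInducedBy_le_autGroup F hP (conjAut_mem_autInducedBy hg.1 hg.2), fun x hx => ?_⟩
  · rintro α hα β ⟨hβ, hβ'⟩
    refine ⟨mul_mem (mul_mem hα hβ) (inv_mem hα), fun x hx => ?_⟩
    rw [MulAut.mul_apply, MulAut.mul_apply]
    rcases hβ' (α⁻¹ x) (hDinv α⁻¹ (inv_mem hα) x hx) with h1 | ⟨h2, h1⟩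
    · left; rw [h1]; simp
    · right; refine ⟨h2, ?_⟩; rw [h1]; simp
  · rintro β ⟨hβ, hβ'⟩ hco
    apply hDf β hβ hco
    intro x hx
    rcases hβ' x hx with h1 | ⟨h2, h1⟩
    · exact h1
    · subst h2
      have hsq : (β ^ 2) x = x := by
        rw [pow_two, MulAut.mul_apply, h1, map_inv, h1, inv_inv]
      have hodd : Odd (orderOf β) := Nat.Coprime.odd_of_right hco
      obtain ⟨k, hk⟩ := hodd
      have hpk : ∀ j : ℕ, ((β ^ 2) ^ j) x = x := by
        intro j
        induction j with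
        | zero => simp
        | succ j ih => rw [pow_succ, MulAut.mul_apply, hsq, ih]
      have h3 : (β ^ (2 * k + 1)) x = x := by rw [← hk, pow_orderOf_eq_one]; rfl
      rw [pow_succ', MulAut.mul_apply, pow_mul, hpk] at h3
      exact h3
  · rcases hact x hx g hg.1 with h1 | ⟨h2, h1⟩
    · left; exact Subtype.ext h1
    · right; exact ⟨h2, Subtype.ext h1⟩

end Cfsg.Agent.S5300
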