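import Cfsg.Statements.S5301
import Cfsg.Agent.Lib.Helper27.FusionMore
open Cfsg.Agent.Lib.Helper27

set_option autoImplicit false
universe u
open Cfsg

namespace Cfsg.Agent.S5301

/-- Let F be a saturated fusion system over a finite p-group S. If for every subgroup P of S that is fully normalized, centric and radical in F the automorphism group that F induces on P has a normal Sylow p-subgroup, then S is normal in F. -/
theorem result {Ω : Type u} [Group Ω] {S : Subgroup Ω} [Finite S] (p : ℕ) [Fact p.Prime] (hS : IsPGroup p S)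
    (F : Cfsg.FusionSystem S) (hF : F.IsSaturated p)
    (hcl : ∀ P : Subgroup Ω, F.IsFullyNormalized P → F.IsCentric P → F.IsRadical p P →
      ∃ R : Sylow p ↥(F.autGroup P), (R : Subgroup ↥(F.autGroup P)).Normal) :
    F.IsNormal S := by
  refine isNormal_top_of_forall_eq hS hF (fun R h1 h2 h3 => ?_)
  obtain ⟨R₁, hR₁⟩ := hcl R h1 h2 h3
  obtain ⟨-, ⟨hRle, R₀, hR₀⟩, -⟩ := IsSaturated.fullyNormalized_props hS hF h1
  have finR : Finite R := finite_of_le hRle
  refine eq_top_of_autInducedBy_le_inn hS hRle (h2.2 R (isConj_refl F hRle)) ?_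
  intro α hα
  have hαF : α ∈ F.autGroup R := autInducedBy_le_autGroup F hRle hα
  have h01 : (R₀ : Subgroup (F.autGroup R)) = R₁ :=
    R₁.3 R₀.2 (normal_pGroup_le_sylow hR₁ R₁.2 R₀)
  have h4 : (⟨α, hαF⟩ : F.autGroup R) ∈ (R₀ : Subgroup (F.autGroup R)) := by
    rw [hR₀]; exact Subgroup.mem_subgroupOf.mpr hα
  rw [h01] at h4
  rw [← h3.2]
  exact ⟨⟨α, hαF⟩, le_pCore hR₁ R₁.2 h4, rfl⟩

end Cfsg.Agent.S5301
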