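import Cfsg.Statements.S5330
import Cfsg.Agent.Lib.Helper27.FusionAbelian
open Cfsg.Agent.Lib.Helper27

set_option autoImplicit false
open Cfsg

namespace Cfsg.Agent.S5330

/-- Let F be a saturated fusion system over a finite abelian p-group S. Then S is the internal direct product of the centre of the system and the focal subgroup: Z(F) ∩ foc(F) = 1 and Z(F)·foc(F) = S. -/
theorem result {Ω : Type*} [Group Ω] {S : Subgroup Ω} [Finite S] (p : ℕ) [Fact p.Prime] (hS : IsPGroup p S) (F : Cfsg.FusionSystem S) (hF : F.IsSaturated p) (hab : ∀ x ∈ S, ∀ y ∈ S, x * y = y * x) : F.center ⊓ F.focalSubgroup = ⊥ ∧ F.center ⊔ F.focalSubgroup = S := by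
  have hNS : F.IsNormal S := abelian_isNormal_top hS hF hab
  have hnd := abelian_autGroup_top_not_dvd hS hF hab
  have hcop : (Nat.card (F.autGroup S)).Coprime (Nat.card S) := by
    obtain ⟨n, hn⟩ := IsPGroup.iff_card.1 hS
    rw [hn]
    exact Nat.Coprime.pow_right n (((Fact.out : p.Prime).coprime_iff_not_dvd.2 hnd).symm)
  obtain ⟨k1, k2⟩ := coprime_abelian (M := S) (fun x y => Subtype.ext (hab x x.2 y y.2))
    (F.autGroup S) hcop
  -- the centre consists of fixed points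
  have hc1 : ∀ x ∈ F.center, ∃ hx : x ∈ S, ∀ α ∈ F.autGroup S, α ⟨x, hx⟩ = ⟨x, hx⟩ := by
    let Z : Subgroup S :=
      { carrier := {x | ∀ α ∈ F.autGroup S, α x = x}
        one_mem' := fun α _ => map_one α
        mul_mem' := fun {a b} ha hb α hα => by rw [map_mul, ha α hα, hb α hα]
        inv_mem' := fun {a} ha α hα => by rw [map_inv, ha α hα] }
    have : F.center ≤ Z.map S.subtype := by
      refine sSup_le ?_
      intro Q hQ x hx
      refine ⟨⟨x, hQ.1 hx⟩, ?_, rfl⟩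
      intro α hα
      obtain ⟨ψ, -, h1, h2⟩ := hQ.2 S _ ((mem_autGroup_iff F le_rfl α).1 hα)
      apply Subtype.ext
      have e1 := h1 ⟨x, hQ.1 hx⟩
      have e2 := h2 ⟨x, hx⟩
      exact e1.symm.trans e2
    intro x hx
    obtain ⟨y, hy, rfl⟩ := this hx
    exact ⟨y.2, hy⟩
  have hc2 : ∀ x : S, (∀ α ∈ F.autGroup S, α x = x) → (x : Ω) ∈ F.center := by
    intro x hx
    have hle : Subgroup.zpowers (x : Ω) ≤ S := Subgroup.zpowers_le.2 x.2
    have : F.IsCentral (Subgroup.zpowers (x : Ω)) := by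
      refine ⟨hle, fun P φ hφ => ?_⟩
      obtain ⟨α, hα, hα'⟩ := exists_aut_top_of_isNormal_top hNS hφ
      have hsup : P ⊔ Subgroup.zpowers (x : Ω) ≤ S := sup_le (source_le F hφ) hle
      refine ⟨(S.subtype.comp α.toMonoidHom).comp (Subgroup.inclusion hsup),
        restrict_mem F hsup ((mem_autGroup_iff F le_rfl α).1 hα), fun y => (hα' y).symm, ?_⟩
      rintro ⟨y, hy⟩
      obtain ⟨k, rfl⟩ := Subgroup.mem_zpowers_iff.1 hy
      show ((α ⟨(x : Ω) ^ k, _⟩ : S) : Ω) = (x : Ω) ^ k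
      have : (⟨(x : Ω) ^ k, hle hy⟩ : S) = x ^ k := Subtype.ext (by simp)
      rw [this, map_zpow, hx α hα]
      simp
    exact (le_sSup (a := Subgroup.zpowers (x : Ω)) this) (Subgroup.mem_zpowers _)
  have hf1 : F.focalSubgroup ≤ (Subgroup.closure {y : S | ∃ α ∈ F.autGroup S, ∃ z : S, y = z⁻¹ * α z}).map
      S.subtype := by
    refine (Subgroup.closure_le _).2 ?_
    rintro _ ⟨P, φ, x, hφ, rfl⟩
    obtain ⟨α, hα, hα'⟩ := exists_aut_top_of_isNormal_top hNS hφ
    refine ⟨_, Subgroup.subset_closure ⟨α, hα, ⟨x, source_le F hφ x.2⟩, rfl⟩, ?_⟩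
    rw [hα' x]
    rfl
  have hf2 : ∀ c ∈ Subgroup.closure {y : S | ∃ α ∈ F.autGroup S, ∃ z : S, y = z⁻¹ * α z},
      (c : Ω) ∈ F.focalSubgroup := by
    have : Subgroup.closure {y : S | ∃ α ∈ F.autGroup S, ∃ z : S, y = z⁻¹ * α z} ≤
        F.focalSubgroup.comap S.subtype := by
      refine (Subgroup.closure_le _).2 ?_
      rintro _ ⟨α, hα, z, rfl⟩
      exact Subgroup.subset_closure ⟨S, _, z, (mem_autGroup_iff F le_rfl α).1 hα, rfl⟩
    exact fun c hc => this hc
  constructor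
  · rw [Subgroup.eq_bot_iff_forall]
    rintro x ⟨hx1, hx2⟩
    obtain ⟨hxS, hfix⟩ := hc1 x hx1
    obtain ⟨c, hc, rfl⟩ := hf1 hx2
    have := k1 c hfix hc
    rw [this]
    rfl
  · apply le_antisymm
    · refine sup_le (fun x hx => (hc1 x hx).1) (fun x hx => ?_)
      obtain ⟨c, -, rfl⟩ := hf1 hx
      exact c.2
    · intro x hx
      obtain ⟨z, c, hz, hc, h⟩ := k2 ⟨x, hx⟩
      have : x = (z : Ω) * c := congrArg Subtype.val h
      rw [this]
      exact Subgroup.mul_mem_sup (hc2 z hz) (hf2 c hc)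

end Cfsg.Agent.S5330
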