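import Cfsg.Statements.S5331
import Cfsg.Agent.Lib.Helper27.FusionAbelian
import Cfsg.Agent.Lib.Helper27.AbelianAut
open Cfsg.Agent.Lib.Helper27

set_option autoImplicit false
open Cfsg

namespace Cfsg.Agent.S5331

/-- Let S be a finite abelian 2-group that is a direct product of cyclic groups of pairwise distinct orders 2^{a_1} < 2^{a_2} < ⋯ < 2^{a_n} (all a_i ≥ 1). Then every saturated fusion system over S is the inner one: its maps are exactly the conjugations by elements of S. -/
theorem result {Ω : Type*} [Group Ω] {S : Subgroup Ω} [Finite S] (n : ℕ) (a : Fin n → ℕ) (ha : StrictMono a) (ha1 : ∀ i, 1 ≤ a i) (e : ↥S ≃* Multiplicative ((i : Fin n) → ZMod (2 ^ a i))) (F : Cfsg.FusionSystem S) (hF : F.IsSaturated 2) (P : Subgroup Ω) : F.Hom P = (Cfsg.innerFusionSystem S).Hom P := by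
  have : Fact (Nat.Prime 2) := ⟨Nat.prime_two⟩
  have hab : ∀ x ∈ S, ∀ y ∈ S, x * y = y * x := by
    intro x hx y hy
    have : (⟨x, hx⟩ : S) * ⟨y, hy⟩ = ⟨y, hy⟩ * ⟨x, hx⟩ :=
      e.injective (by rw [map_mul, map_mul, mul_comm])
    exact congrArg Subtype.val this
  have hS : IsPGroup 2 S := by
    intro x
    refine ⟨∑ i, a i, e.injective ?_⟩
    rw [map_pow, map_one]
    apply Multiplicative.toAdd.injective
    rw [toAdd_pow, toAdd_one]
    exact distinct_invariants_torsion a _
  have hNS : F.IsNormal S := abelian_isNormal_top hS hF hab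
  have hnd := abelian_autGroup_top_not_dvd hS hF hab
  have htriv : ∀ α ∈ F.autGroup S, α = 1 := by
    intro α hα
    have hdvd : orderOf α ∣ Nat.card (F.autGroup S) := by
      have := orderOf_dvd_natCard (⟨α, hα⟩ : F.autGroup S)
      rwa [← Subgroup.orderOf_coe] at this
    have hodd : Odd (orderOf α) := by
      rw [← Nat.not_even_iff_odd, even_iff_two_dvd]
      exact fun h => hnd (h.trans hdvd)
    exact distinct_invariants_aut a ha ha1 e α _ hodd (pow_orderOf_eq_one α)
  apply Set.Subset.antisymm
  · intro φ hφ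
    obtain ⟨α, hα, hα'⟩ := exists_aut_top_of_isNormal_top hNS hφ
    have : φ = P.subtype := by
      ext x
      rw [hα' x, htriv α hα]
      rfl
    rw [this]
    exact subtype_mem _ (source_le F hφ)
  · exact inner_le F P

end Cfsg.Agent.S5331
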