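import Cfsg.Statements.S5346
import Cfsg.Agent.Lib.Helper27.ThreeTrans2
open Cfsg.Agent.Lib.Helper27

set_option autoImplicit false
open Cfsg

namespace Cfsg.Agent.S5346

/-- Let D be a conjugation-invariant generating set of 3-transpositions of a finite group G and d a member of D. Then D has width 1 (no two different members of D commute) if and only if G is the product of the subgroup generated by d with the largest normal 3-subgroup of G. -/
theorem result {G : Type*} [Group G] [Finite G] {D : Set G} (hD : Cfsg.IsThreeTranspositionGroup D) {d : G} (hd : d ∈ D) : Cfsg.commutingWidth D = 1 ↔ Subgroup.zpowers d ⊔ Cfsg.pCore 3 G = ⊤ := by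
  obtain ⟨hset, hconj, hgen⟩ := hD
  have : Fact (Nat.Prime 3) := ⟨Nat.prime_three⟩
  have hNn : (Cfsg.pCore 3 G).Normal := pCore_normal'
  have hNp : IsPGroup 3 (Cfsg.pCore 3 G) := pCore_isPGroup
  have hdd := tt_sq hset hd
  have hbdd : BddAbove {n : ℕ | ∃ E : Set G, E ⊆ D ∧ E.Finite ∧ (∀ a ∈ E, ∀ b ∈ E, Commute a b) ∧ E.ncard = n} := by
    refine ⟨Nat.card G, ?_⟩
    rintro n ⟨E, -, -, -, rfl⟩
    rw [← Set.ncard_univ]
    exact Set.ncard_le_ncard (Set.subset_univ _) (Set.toFinite _)
  constructor
  · intro hw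
    have hw' : ∀ a ∈ D, ∀ b ∈ D, Commute a b → a = b := by
      intro a ha b hb hab
      by_contra hne
      have h2 : 2 ≤ Cfsg.commutingWidth D := by
        apply le_csSup hbdd
        refine ⟨{a, b}, ?_, Set.toFinite _, ?_, Set.ncard_pair hne⟩
        · intro x hx
          rcases hx with rfl | rfl
          · exact ha
          · exact hb
        · intro x hx y hy
          rcases hx with rfl | rfl <;> rcases hy with rfl | rfl
          · exact Commute.refl _
          · exact hab
          · exact hab.symm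
          · exact Commute.refl _
      omega
    rw [eq_top_iff, ← hgen, Subgroup.closure_le]
    intro e he
    have h1 : d * e ∈ Cfsg.pCore 3 G := tt_width_one_mul_mem hset hconj hw' hd he
    have h2 : e = d * (d * e) := by rw [← mul_assoc, hdd, one_mul]
    rw [h2]
    exact mul_mem ((le_sup_left : Subgroup.zpowers d ≤ _) (Subgroup.mem_zpowers d))
      ((le_sup_right : Cfsg.pCore 3 G ≤ Subgroup.zpowers d ⊔ _) h1)
  · intro htop
    -- no element of order two in `O_3`
    have hnot : ∀ a : G, a * a = 1 → a ∈ Cfsg.pCore 3 G → a = 1 := by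
      intro a ha haN
      obtain ⟨k, hk⟩ := hNp ⟨a, haN⟩
      have hk' : a ^ 3 ^ k = 1 := congrArg Subtype.val hk
      have h1 : orderOf a ∣ 3 ^ k := orderOf_dvd_of_pow_eq_one hk'
      have h2 : orderOf a ∣ 2 := orderOf_dvd_of_pow_eq_one (by rw [pow_two, ha])
      have h3 : orderOf a ∣ Nat.gcd (3 ^ k) 2 := Nat.dvd_gcd h1 h2
      have hcop : Nat.Coprime (3 ^ k) 2 := Nat.Coprime.pow_left _ (by norm_num)
      rw [hcop] at h3
      exact orderOf_eq_one_iff.1 (Nat.dvd_one.1 h3)
    have hcos : ∀ a ∈ D, d * a ∈ Cfsg.pCore 3 G := by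
      intro a ha
      have hmem : a ∈ ((Subgroup.zpowers d ⊔ Cfsg.pCore 3 G : Subgroup G) : Set G) := by rw [htop]; trivial
      rw [Subgroup.mul_normal] at hmem
      obtain ⟨x, hx, n, hn, rfl⟩ := Set.mem_mul.1 hmem
      obtain ⟨m, rfl⟩ := Subgroup.mem_zpowers_iff.1 hx
      have hd2 : ∀ j : ℤ, d ^ (j + j) = 1 := by
        intro j
        rw [zpow_add, ← (Commute.refl d).mul_zpow, hdd, one_zpow]
      rcases Int.even_or_odd m with ⟨j, hj⟩ | ⟨j, hj⟩
      · exfalso
        apply tt_ne_one hset ha
        apply hnot _ (tt_sq hset ha)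
        rw [hj, hd2, one_mul]; exact hn
      · have : d ^ m = d := by
          rw [hj, zpow_add, two_mul, hd2, one_mul, zpow_one]
        rw [this, ← mul_assoc, hdd, one_mul]; exact hn
    have hw' : ∀ a ∈ D, ∀ b ∈ D, Commute a b → a = b := by
      intro a ha b hb hab
      have h1 : a * b ∈ Cfsg.pCore 3 G := by
        have e : a * b = (d * a)⁻¹ * (d * b) := by
          rw [mul_inv_rev, tt_inv hset ha]; group
        rw [e]; exact mul_mem (inv_mem (hcos a ha)) (hcos b hb)
      have h2 : (a * b) * (a * b) = 1 := by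
        calc (a * b) * (a * b) = a * (b * a) * b := by group
          _ = a * (a * b) * b := by rw [hab.eq]
          _ = (a * a) * (b * b) := by group
          _ = 1 := by rw [tt_sq hset ha, tt_sq hset hb, one_mul]
      have h3 := hnot _ h2 h1
      have := eq_inv_of_mul_eq_one_left h3
      rwa [tt_inv hset hb] at this
    apply le_antisymm
    · apply csSup_le (⟨1, {d}, by simpa using hd, Set.toFinite _, by simp, Set.ncard_singleton d⟩ :
        {n : ℕ | ∃ E : Set G, E ⊆ D ∧ E.Finite ∧ (∀ a ∈ E, ∀ b ∈ E, Commute a b) ∧ E.ncard = n}.Nonempty)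
      rintro n ⟨E, hE, -, hc, rfl⟩
      rw [Set.ncard_le_one_iff]
      intro a b ha hb
      exact hw' a (hE ha) b (hE hb) (hc a ha b hb)
    · exact le_csSup hbdd ⟨{d}, by simpa using hd, Set.toFinite _, by simp, Set.ncard_singleton d⟩

end Cfsg.Agent.S5346
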