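import Cfsg.Statements.S5352
import Cfsg.Agent.Lib.Helper27.ThreeTrans6
open Cfsg.Agent.Lib.Helper27

set_option autoImplicit false
open Cfsg

namespace Cfsg.Agent.S5352

/-- Let D be a conjugacy class of 3-transpositions generating the finite group G, with at least two members, and suppose the largest normal 2-subgroup and the largest normal 3-subgroup of G are both central. Then G has a quasisimple normal subgroup L such that the generalized Fitting subgroup of G is the product of L and the centre; and either L = G or the image of D in G/L has width 1, in the sense that two members of D whose commutator lies in L have the same image modulo L. -/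
theorem result {G : Type*} [Group G] [Finite G] {D : Set G} (hD : Cfsg.IsThreeTranspositionClass D) (hD2 : ∃ a ∈ D, ∃ b ∈ D, a ≠ b) (h2 : Cfsg.pCore 2 G ≤ Subgroup.center G) (h3 : Cfsg.pCore 3 G ≤ Subgroup.center G) : ∃ L : Subgroup G, L.Normal ∧ Cfsg.IsQuasisimple L ∧ Cfsg.generalizedFittingSubgroup G = L ⊔ Subgroup.center G ∧ (L = ⊤ ∨ ∀ a ∈ D, ∀ b ∈ D, a * b * a⁻¹ * b⁻¹ ∈ L → a⁻¹ * b ∈ L) := by
  obtain ⟨L, hLn, hL, hF⟩ := tt_exists_component hD hD2 h2 h3
  refine ⟨L, hLn, hL, hF, Or.inr ?_⟩
  intro a ha b hb hab
  have hset := hD.1
  rw [tt_inv hset ha]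
  rw [tt_inv hset ha, tt_inv hset hb] at hab
  rcases tt_commute_or_braid hset ha hb with h | h
  · exact tt_mul_mem_of_commute hD hLn hL ha hb h
  · have e : a * b = (a * b * a * b) * (a * b * a * b) := by
      calc a * b = a * b * ((a * b * a) * (b * a * b)) := by
            rw [h]
            have : (b * a * b) * (b * a * b) = 1 := by
              calc (b * a * b) * (b * a * b) = b * a * (b * b) * a * b := by group
                _ = b * (a * a) * b := by rw [tt_sq hset hb]; group
                _ = 1 := by rw [tt_sq hset ha, mul_one, tt_sq hset hb]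
            rw [this, mul_one]
        _ = (a * b * a * b) * (a * b * a * b) := by group
    rw [e]
    exact mul_mem hab hab

end Cfsg.Agent.S5352
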