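import Cfsg.Statements.S5354
import Cfsg.Agent.Lib.Helper27.ThreeTrans8
open Cfsg.Agent.Lib.Helper27

set_option autoImplicit false
open Cfsg

namespace Cfsg.Agent.S5354

/-- Let D be a conjugation-invariant generating set of 3-transpositions of the finite group G on which G acts primitively by conjugation, and suppose two different members of D commute (width at least 2). Then G has a quasisimple normal subgroup L of index at most 2 with the generalized Fitting subgroup of G equal to L times the centre, the commuting graph of D is connected, and for d in D the subgroup generated by the members of D commuting with d is a maximal D-subgroup: it is proper, and every subgroup generated by members of D that contains it is either it or G. -/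
theorem result {G : Type*} [Group G] [Finite G] {D : Set G} (hD : Cfsg.IsThreeTranspositionGroup D) (hprim : Cfsg.IsPrimitiveUnderConj D) (hw : ∃ a ∈ D, ∃ b ∈ D, a ≠ b ∧ Commute a b) : (∃ L : Subgroup G, L.Normal ∧ Cfsg.IsQuasisimple L ∧ L.index ≤ 2 ∧ Cfsg.generalizedFittingSubgroup G = L ⊔ Subgroup.center G) ∧ (Cfsg.commutingGraph D).Connected ∧ ∀ d ∈ D, Subgroup.closure {y : G | y ∈ D ∧ Commute d y} ≠ ⊤ ∧ ∀ H : Subgroup G, Cfsg.IsDSubgroup D H → Subgroup.closure {y : G | y ∈ D ∧ Commute d y} ≤ H → H = Subgroup.closure {y : G | y ∈ D ∧ Commute d y} ∨ H = ⊤ := by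
  have hC := isClass_of_primitive hD hprim
  have hset := hC.1
  have hconj : ∀ g : G, ∀ x ∈ D, g * x * g⁻¹ ∈ D := hD.2.1
  have hD2 := hprim.2.1
  have hV : ∀ d ∈ D, ∀ v ∈ D, VEq D v d → v = d := fun d hd v hv h => V_trivial_of_primitive hC hprim hd hv h
  have hW : ∀ d ∈ D, ∀ v ∈ D, Dp D v = Dp D d → v = d :=
    fun d hd v hv h => W_trivial_of_primitive hC hprim hw hd hv h
  have h2 := pCore_two_le_center_of_V hC hD2 hV
  have h3 := pCore_three_le_center_of_W hC hD2 hW
  have hconn := connected_of_primitive hC hprim hw
  obtain ⟨L, hLn, hL, hF⟩ := tt_exists_component hC hD2 h2 h3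
  refine ⟨⟨L, hLn, hL, ?_, hF⟩, hconn, ?_⟩
  · apply tt_index_le_two_of_mul_mem hC hLn
    intro a ha b hb
    exact tt_mul_mem_of_reachable hC hLn hL (hconn.preconnected ⟨a, ha⟩ ⟨b, hb⟩)
  · intro d hd
    have hdd := tt_sq hset hd
    have hcl : Subgroup.closure {y : G | y ∈ D ∧ Commute d y} ≤ Subgroup.centralizer ({d} : Set G) := by
      rw [Subgroup.closure_le]
      rintro y ⟨-, hy⟩
      rw [SetLike.mem_coe, Subgroup.mem_centralizer_singleton_iff]
      exact hy.eq.symm
    refine ⟨?_, ?_⟩
    · intro htop
      obtain ⟨e, he, hde⟩ := tt_class_exists_not_commute hC hD2 hd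
      apply hde
      have := hcl (htop ▸ Subgroup.mem_top e)
      rw [Subgroup.mem_centralizer_singleton_iff] at this
      exact this.symm
    · intro H hH hle
      by_contra hcon
      push Not at hcon
      obtain ⟨hne, hnt⟩ := hcon
      have hdH : d ∈ H := hle (Subgroup.subset_closure ⟨hd, Commute.refl d⟩)
      have hex : ∃ e ∈ D, e ∈ H ∧ ¬ Commute d e := by
        by_contra hcon
        push Not at hcon
        apply hne
        apply le_antisymm _ hle
        rw [← hH]
        apply Subgroup.closure_mono
        rintro e ⟨he, heH⟩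
        exact ⟨he, hcon e he heH⟩
      obtain ⟨e, he, heH, hde⟩ := hex
      set Γ : Set G := {x : G | ∃ h ∈ H, x = h * d * h⁻¹} with hΓ
      have hΓH : ∀ x ∈ Γ, x ∈ H := by
        rintro x ⟨h, hh, rfl⟩
        exact mul_mem (mul_mem hh hdH) (inv_mem hh)
      have hΓD : Γ ⊆ D := by
        rintro x ⟨h, -, rfl⟩
        exact hconj h d hd
      have hcent : ∀ x ∈ Γ, ∀ y ∈ D, Commute y x → y ∈ H := by
        rintro x ⟨h, hh, rfl⟩ y hy hc
        have h1 : h⁻¹ * y * h ∈ D := by
          have := hconj h⁻¹ y hy
          rwa [inv_inv] at this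
        have h4 : Commute d (h⁻¹ * y * h) := by
          have e1 : y = h * (h⁻¹ * y * h) * h⁻¹ := by group
          rw [e1] at hc
          exact ((Commute.conj_iff h).1 hc).symm
        have h5 : h⁻¹ * y * h ∈ H := hle (Subgroup.subset_closure ⟨h1, h4⟩)
        have e2 : y = h * (h⁻¹ * y * h) * h⁻¹ := by group
        rw [e2]
        exact mul_mem (mul_mem hh h5) (inv_mem hh)
      have hmod : IsMod D Γ := by
        refine ⟨hΓD, ?_, ?_⟩
        · rintro x hx _ ⟨k, hk, rfl⟩
          exact ⟨x * k, mul_mem (hΓH x hx) hk, by group⟩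
        · intro y hy hyn
          by_cases hyH : y ∈ H
          · left
            intro x hx
            by_contra hnc
            apply hyn
            obtain ⟨k, hk, rfl⟩ := hx
            have hxD := hconj k d hd
            have hbr : (k * d * k⁻¹) * y * (k * d * k⁻¹) = y * (k * d * k⁻¹) * y :=
              (tt_commute_or_braid hset hxD hy).resolve_left (fun hc => hnc hc.symm)
            have h6 := tt_conj_of_braid (tt_sq hset hxD) (tt_sq hset hy) hbr
            refine ⟨(k * d * k⁻¹ * y) * k, mul_mem (mul_mem (hΓH _ ⟨k, hk, rfl⟩) hyH) hk, ?_⟩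
            symm
            calc (k * d * k⁻¹ * y) * k * d * ((k * d * k⁻¹ * y) * k)⁻¹
                = k * d * k⁻¹ * y * (k * d * k⁻¹) * (k * d * k⁻¹ * y)⁻¹ := by group
              _ = y := h6
          · right
            intro x hx hc
            exact hyH (hcent x hx y hy hc)
      have hnontriv : Γ.Nontrivial := by
        refine ⟨d, ⟨1, one_mem _, by group⟩, e * d * e⁻¹, ⟨e, heH, rfl⟩, ?_⟩
        intro hh
        apply hde
        show d * e = e * d
        calc d * e = (e * d * e⁻¹) * e := by rw [← hh]
          _ = e * d := by group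
      have hΓeq := hmod.eq_of_primitive hset hconj hprim hV hW hnontriv
      apply hnt
      rw [eq_top_iff, ← hD.2.2, Subgroup.closure_le]
      intro x hx
      exact hΓH x (hΓeq ▸ hx)

end Cfsg.Agent.S5354
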