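import Cfsg.Statements.S5361
import Cfsg.Agent.Lib.Helper27.ThreeTrans8
open Cfsg.Agent.Lib.Helper27
open scoped commutatorElement

set_option autoImplicit false
open Cfsg

namespace Cfsg.Agent.S5361

/-- Let D be a conjugacy class of 3-transpositions generating the finite group G, and suppose the centre of G is trivial and some two different members of D commute. Then the following are equivalent: (1) the commutator subgroup of G is simple (possibly of prime order); (2) G acts primitively on D by conjugation; (3) the largest normal 2-subgroup and the largest normal 3-subgroup of G are trivial and the commuting graph of D is connected. -/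
theorem result {G : Type*} [Group G] [Finite G] {D : Set G} (hD : Cfsg.IsThreeTranspositionClass D) (hZ : Subgroup.center G = ⊥) (hw : ∃ a ∈ D, ∃ b ∈ D, a ≠ b ∧ Commute a b) : (IsSimpleGroup (commutator G) ↔ Cfsg.IsPrimitiveUnderConj D) ∧ (Cfsg.IsPrimitiveUnderConj D ↔ (Cfsg.pCore 2 G = ⊥ ∧ Cfsg.pCore 3 G = ⊥ ∧ (Cfsg.commutingGraph D).Connected)) := by
  have hset := hD.1
  have hconj : ∀ g : G, ∀ x ∈ D, g * x * g⁻¹ ∈ D := fun g x hx => tt_class_conj_mem hD g hx
  have hD2 : ∃ a ∈ D, ∃ b ∈ D, a ≠ b := by
    obtain ⟨a, ha, b, hb, hab, -⟩ := hw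
    exact ⟨a, ha, b, hb, hab⟩
  have hprimcons : Cfsg.IsPrimitiveUnderConj D →
      (Cfsg.pCore 2 G = ⊥ ∧ Cfsg.pCore 3 G = ⊥ ∧ (Cfsg.commutingGraph D).Connected) := by
    intro hprim
    have hV : ∀ d ∈ D, ∀ v ∈ D, VEq D v d → v = d := fun d hd v hv h => V_trivial_of_primitive hD hprim hd hv h
    have hW : ∀ d ∈ D, ∀ v ∈ D, Dp D v = Dp D d → v = d :=
      fun d hd v hv h => W_trivial_of_primitive hD hprim hw hd hv h
    have h2 := pCore_two_le_center_of_V hD hD2 hV
    have h3 := pCore_three_le_center_of_W hD hD2 hW
    rw [hZ, le_bot_iff] at h2 h3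
    exact ⟨h2, h3, connected_of_primitive hD hprim hw⟩
  have hstruct : (Cfsg.pCore 2 G = ⊥ ∧ Cfsg.pCore 3 G = ⊥ ∧ (Cfsg.commutingGraph D).Connected) →
      ∃ L : Subgroup G, L.Normal ∧ Cfsg.IsQuasisimple L ∧ L.index ≤ 2 := by
    rintro ⟨h2, h3, hconn⟩
    obtain ⟨L, hLn, hL, -⟩ := tt_exists_component hD hD2 (h2 ▸ bot_le) (h3 ▸ bot_le)
    refine ⟨L, hLn, hL, ?_⟩
    apply tt_index_le_two_of_mul_mem hD hLn
    intro a ha b hb
    exact tt_mul_mem_of_reachable hD hLn hL (hconn.preconnected ⟨a, ha⟩ ⟨b, hb⟩)
  have hback : (Cfsg.pCore 2 G = ⊥ ∧ Cfsg.pCore 3 G = ⊥ ∧ (Cfsg.commutingGraph D).Connected) →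
      Cfsg.IsPrimitiveUnderConj D := by
    intro h
    obtain ⟨L, hLn, hL, hidx⟩ := hstruct h
    exact tt_primitive_of_index_le_two hD hD2 (h.1 ▸ bot_le) (h.2.1 ▸ bot_le) hLn hL hidx
  refine ⟨⟨?_, ?_⟩, ⟨hprimcons, hback⟩⟩
  · -- simple derived group implies primitive
    intro hs
    set L : Subgroup G := commutator G with hLdef
    have hLn : L.Normal := inferInstance
    have hmul : ∀ a ∈ D, ∀ b ∈ D, a * b ∈ L := by
      intro a ha b hb
      obtain ⟨g, rfl⟩ := tt_class_isConj hD ha hb
      have e : a * (g * a * g⁻¹) = ⁅a, g⁆ := by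
        rw [commutatorElement_def]
        conv_rhs => rw [tt_inv hset ha]
        group
      rw [e]
      exact Subgroup.commutator_mem_commutator (Subgroup.mem_top a) (Subgroup.mem_top g)
    have hidx : L.index ≤ 2 := tt_index_le_two_of_mul_mem hD hLn hmul
    have hnc : ¬ ∀ u v : L, u * v = v * u := by
      intro hab
      obtain ⟨a, ha, b, hb, hne, hc⟩ := hw
      have hxL := hmul a ha b hb
      have hx1 : a * b ≠ 1 := by
        intro h
        have := eq_inv_of_mul_eq_one_left h
        rw [tt_inv hset hb] at this
        exact hne this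
      have hx2 : (a * b) * (a * b) = 1 := by
        calc (a * b) * (a * b) = a * (b * a) * b := by group
          _ = a * (a * b) * b := by rw [hc.eq]
          _ = (a * a) * (b * b) := by group
          _ = 1 := by rw [tt_sq hset ha, tt_sq hset hb, one_mul]
      have hzn : (Subgroup.zpowers (⟨a * b, hxL⟩ : L)).Normal := by
        constructor
        intro n hn g
        rw [hab g n, mul_assoc, mul_inv_cancel, mul_one]
        exact hn
      have htop : Subgroup.zpowers (⟨a * b, hxL⟩ : L) = ⊤ := by
        rcases hs.eq_bot_or_eq_top_of_normal _ hzn with h | h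
        · exfalso
          rw [Subgroup.zpowers_eq_bot] at h
          exact hx1 (congrArg Subtype.val h)
        · exact h
      have hall : ∀ y ∈ L, y = 1 ∨ y = a * b := by
        intro y hy
        have : (⟨y, hy⟩ : L) ∈ Subgroup.zpowers (⟨a * b, hxL⟩ : L) := by rw [htop]; trivial
        obtain ⟨m, hm⟩ := Subgroup.mem_zpowers_iff.1 this
        have hm' : (a * b) ^ m = y := by
          have := congrArg Subtype.val hm
          simpa using this
        have hd2 : ∀ j : ℤ, (a * b) ^ (j + j) = 1 := by
          intro j
          rw [zpow_add, ← (Commute.refl (a * b)).mul_zpow, hx2, one_zpow]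
        rcases Int.even_or_odd m with ⟨j, hj⟩ | ⟨j, hj⟩
        · left; rw [← hm', hj, hd2]
        · right; rw [← hm', hj, zpow_add, two_mul, hd2, one_mul, zpow_one]
      have hcen : a * b ∈ Subgroup.center G := by
        rw [Subgroup.mem_center_iff]
        intro g
        rcases hall _ (hLn.conj_mem _ hxL g) with h | h
        · exfalso
          apply hx1
          calc a * b = g⁻¹ * (g * (a * b) * g⁻¹) * g := by group
            _ = 1 := by rw [h]; group
        · calc g * (a * b) = (g * (a * b) * g⁻¹) * g := by group
            _ = a * b * g := by rw [h]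
      rw [hZ, Subgroup.mem_bot] at hcen
      exact hx1 hcen
    have hLq : Cfsg.IsQuasisimple L := by
      have hnt : Nontrivial L := hs.toNontrivial
      apply Cfsg.Agent.Lib.Helper10.isQuasisimple_of_normal_central
      · rw [Group.isPerfect_def]
        rcases hs.eq_bot_or_eq_top_of_normal (commutator L) inferInstance with h | h
        · exfalso
          apply hnc
          intro u v
          rw [commutator_def, Subgroup.commutator_eq_bot_iff_le_centralizer] at h
          have := h (Subgroup.mem_top u)
          rw [Subgroup.mem_centralizer_iff] at this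
          exact (this v (Subgroup.mem_top v)).symm
        · exact h
      · intro N hN hNt
        rcases hs.eq_bot_or_eq_top_of_normal N hN with h | h
        · rw [h]; exact bot_le
        · exact absurd h hNt
    have hcore : ∀ p : ℕ, p.Prime → Cfsg.pCore p G ≤ Subgroup.center G := by
      intro p hp
      have : Fact p.Prime := ⟨hp⟩
      have hNn : (Cfsg.pCore p G).Normal := pCore_normal'
      have hcomp : Cfsg.IsComponent L := ⟨hLn.isSubnormal, hLq⟩
      -- `L` centralizes the solvable normal subgroup `O_p(G)`
      have h1 : ⁅L, Cfsg.pCore p G⁆ = ⊥ := by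
        apply Cfsg.Agent.Lib.Helper10.component_commutator_solvable hcomp
        · have := (pCore_isPGroup (p := p) (G := G)).isNilpotent
          exact IsNilpotent.to_isSolvable
        · rw [Subgroup.normalizer_eq_top]; exact le_top
      rw [Subgroup.commutator_eq_bot_iff_le_centralizer] at h1
      -- `O_p(G) ∩ L` is central in `L`, hence trivial... use the class directly
      obtain ⟨d, hd, -⟩ := hD.2.1
      apply tt_le_center hD hNn hd
      intro x hx
      -- `[d, x] ∈ O_p(G) ∩ L` commutes with `L`
      have hcx : d * x * d⁻¹ * x⁻¹ ∈ Cfsg.pCore p G := mul_mem (hNn.conj_mem x hx d) (inv_mem hx)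
      have hcL : d * x * d⁻¹ * x⁻¹ ∈ L :=
        Subgroup.commutator_mem_commutator (Subgroup.mem_top d) (Subgroup.mem_top x)
      have hcz : (⟨_, hcL⟩ : L) ∈ Subgroup.center L := by
        rw [Subgroup.mem_center_iff]
        intro y
        have := h1 y.2
        rw [Subgroup.mem_centralizer_iff] at this
        exact Subtype.ext (this _ hcx).symm
      have hcb : Subgroup.center L = ⊥ := by
        rcases hs.eq_bot_or_eq_top_of_normal (Subgroup.center L) inferInstance with h | h
        · exact h
        · exfalso
          apply hnc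
          intro u v
          have : u ∈ Subgroup.center L := by rw [h]; trivial
          exact (Subgroup.mem_center_iff.1 this v).symm
      rw [hcb, Subgroup.mem_bot] at hcz
      have h5 : d * x * d⁻¹ * x⁻¹ = 1 := congrArg Subtype.val hcz
      show d * x = x * d
      calc d * x = (d * x * d⁻¹ * x⁻¹) * (x * d) := by group
        _ = x * d := by rw [h5, one_mul]
    exact tt_primitive_of_index_le_two hD hD2 (hcore 2 Nat.prime_two) (hcore 3 Nat.prime_three) hLn hLq hidx
  · -- primitive implies simple derived group
    intro hprim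
    have hcons := hprimcons hprim
    obtain ⟨L, hLn, hL, hidx⟩ := hstruct hcons
    have hcomp : Cfsg.IsComponent L := ⟨hLn.isSubnormal, hL⟩
    obtain ⟨d, hd, -⟩ := hD.2.1
    have hcomm : commutator G = L := by
      apply le_antisymm
      · rw [commutator_def, Subgroup.commutator_le]
        intro g _ h _
        have hπ : ∀ g : G, (QuotientGroup.mk' L) g = 1 ∨ (QuotientGroup.mk' L) g = (QuotientGroup.mk' L) d := by
          intro g
          rcases mem_or_mul_mem_of_index_le_two hD hLn hidx hd g with hg | hg
          · left; exact (QuotientGroup.eq_one_iff g).2 hg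
          · right
            have h1 : (QuotientGroup.mk' L) (d * g) = 1 := (QuotientGroup.eq_one_iff _).2 hg
            rw [map_mul] at h1
            have h2 := eq_inv_of_mul_eq_one_right h1
            rw [h2, ← map_inv, tt_inv hset hd]
        have h1 : (QuotientGroup.mk' L) ⁅g, h⁆ = 1 := by
          rw [map_commutatorElement]
          rcases hπ g with h1 | h1 <;> rcases hπ h with h2 | h2 <;> rw [h1, h2] <;> simp [commutatorElement_def]
        exact (QuotientGroup.eq_one_iff _).1 h1
      · rw [← Cfsg.Agent.Lib.Helper10.component_perfect hcomp, commutator_def]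
        exact Subgroup.commutator_mono le_top le_top
    have hcz : Subgroup.center L = ⊥ := by
      have hNn : ((Subgroup.center L).map L.subtype).Normal := by
        constructor
        rintro _ ⟨z, hz, rfl⟩ g
        refine ⟨⟨g * z * g⁻¹, hLn.conj_mem _ z.2 g⟩, ?_, rfl⟩
        rw [SetLike.mem_coe, Subgroup.mem_center_iff]
        intro y
        apply Subtype.ext
        have h1 := congrArg Subtype.val
          (Subgroup.mem_center_iff.1 hz ⟨g⁻¹ * y * g⁻¹⁻¹, hLn.conj_mem _ y.2 g⁻¹⟩)
        have h2 : (g⁻¹ * (y : G) * g⁻¹⁻¹) * (z : G) = (z : G) * (g⁻¹ * (y : G) * g⁻¹⁻¹) := h1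
        rw [inv_inv] at h2
        show (y : G) * (g * z * g⁻¹) = (g * z * g⁻¹) * y
        calc (y : G) * (g * z * g⁻¹) = g * ((g⁻¹ * (y : G) * g) * z) * g⁻¹ := by group
          _ = g * ((z : G) * (g⁻¹ * (y : G) * g)) * g⁻¹ := by rw [h2]
          _ = (g * z * g⁻¹) * y := by group
      have hnil : Group.IsNilpotent ((Subgroup.center L).map L.subtype) :=
        Cfsg.Agent.Lib.Helper10.isNilpotent_map_subtype _ (Cfsg.Agent.Lib.Helper10.isNilpotent_of_isMulCommutative inferInstance)
      have h1 := (Cfsg.Agent.Lib.Helper10.le_fittingSubgroup hNn hnil).trans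
        (tt_fitting_le_center hD (hcons.1 ▸ bot_le) (hcons.2.1 ▸ bot_le))
      rw [hZ, le_bot_iff, Subgroup.map_eq_bot_iff_of_injective _ L.subtype_injective] at h1
      exact h1
    rw [hcomm]
    have hs := hL.2
    exact ((QuotientGroup.quotientMulEquivOfEq hcz).trans (QuotientGroup.quotientBot)).symm.isSimpleGroup

end Cfsg.Agent.S5361
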