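import Cfsg.Statements.S5427
import Mathlib
import Cfsg.Agent.Lib.Helper14.PGroupRel
import Cfsg.Agent.Lib.Helper10.Components
import Cfsg.Agent.Lib.Lead.Basic
import Cfsg.Agent.Lib.Helper23.Fitting
import Cfsg.Agent.S5595
-- import your own Cfsg.Agent.* helpers here

set_option autoImplicit false
open Cfsg

namespace Cfsg.Agent.S5427

open Cfsg.Agent.Lib
open scoped commutatorElement

theorem inv_of_fpf {G : Type*} [Group G] [Finite G] (N : Subgroup G) (t : G) (hNt : ∀ n ∈ N, t * n * t⁻¹ ∈ N)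
    (ht : t * t = 1) (hf : ∀ n ∈ N, n * t = t * n → n = 1) : ∀ n ∈ N, t * n * t⁻¹ = n⁻¹ := by
  have hti : t⁻¹ = t := inv_eq_of_mul_eq_one_left ht
  let φ : N → N := fun n => ⟨(n : G)⁻¹ * (t * n * t⁻¹), N.mul_mem (N.inv_mem n.2) (hNt _ n.2)⟩
  have hinj : Function.Injective φ := by
    intro n m h
    have h1 : (n : G)⁻¹ * (t * n * t⁻¹) = (m : G)⁻¹ * (t * m * t⁻¹) := congrArg Subtype.val h
    have h2 : (m : G) * (n : G)⁻¹ * t = t * ((m : G) * (n : G)⁻¹) := by
      have e1 : (m : G) * (n : G)⁻¹ = (m : G) * ((n : G)⁻¹ * (t * n * t⁻¹)) * (t * (n : G)⁻¹ * t⁻¹) := by group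
      have e2 : (m : G) * ((m : G)⁻¹ * (t * m * t⁻¹)) * (t * (n : G)⁻¹ * t⁻¹) = t * ((m : G) * (n : G)⁻¹) * t⁻¹ := by group
      rw [h1, e2] at e1
      calc (m : G) * (n : G)⁻¹ * t = t * ((m : G) * (n : G)⁻¹) * t⁻¹ * t := by rw [← e1]
        _ = t * ((m : G) * (n : G)⁻¹) := by group
    have h3 := hf _ (N.mul_mem m.2 (N.inv_mem n.2)) h2
    apply Subtype.ext
    exact (mul_inv_eq_one.1 h3).symm
  have hsurj : Function.Surjective φ := Finite.injective_iff_surjective.1 hinj
  intro x hx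
  obtain ⟨n, hn⟩ := hsurj ⟨x, hx⟩
  have hx' : x = (n : G)⁻¹ * (t * n * t⁻¹) := (congrArg Subtype.val hn).symm
  rw [hx', hti]
  have : t * ((n : G)⁻¹ * (t * n * t)) * t = t * (n : G)⁻¹ * t * n * (t * t) := by
    simp only [mul_assoc]
  rw [this, ht]
  have e3 : ((n : G)⁻¹ * (t * n * t))⁻¹ = t⁻¹ * (n : G)⁻¹ * t⁻¹ * n := by group
  rw [e3, hti, mul_one]

theorem mem_zp {L : Type*} [Group L] {z x : L} (hz : z ^ 2 = 1) :
    x ∈ Subgroup.zpowers z ↔ x = 1 ∨ x = z := by
  constructor
  · rintro ⟨k, rfl⟩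
    have hz' : z ^ (2 : ℤ) = 1 := by exact_mod_cast hz
    rcases Int.emod_two_eq_zero_or_one k with h | h
    · left
      have hk : k = 2 * (k / 2) := by omega
      show z ^ k = 1
      rw [hk, zpow_mul, hz', one_zpow]
    · right
      have hk : k = 2 * (k / 2) + 1 := by omega
      show z ^ k = z
      rw [hk, zpow_add, zpow_mul, hz', one_zpow, one_mul, zpow_one]
  · rintro (rfl | rfl)
    · exact one_mem _
    · exact Subgroup.mem_zpowers _

theorem eq_one_of_pow {G : Type*} [Group G] (N : Subgroup G) (hno : ∀ y ∈ N, orderOf y ≠ 2) :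
    ∀ (k : ℕ) (x : G), x ∈ N → x ^ (2 ^ k) = 1 → x = 1 := by
  intro k
  induction k with
  | zero => intro x _ h; simpa using h
  | succ k ih =>
    intro x hx h
    have h1 : (x ^ 2) ^ (2 ^ k) = 1 := by rw [← pow_mul, ← pow_succ']; exact h
    have h2 := ih _ (N.pow_mem hx 2) h1
    by_contra hne
    exact hno x hx (orderOf_eq_prime h2 hne)

theorem main {G : Type*} [Group G] [Finite G] (z : G) (hz : orderOf z = 2) (C : Subgroup G)
    (hC : C = Subgroup.centralizer ({z} : Set G)) (Q : Subgroup G)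
    (hF : (Cfsg.generalizedFittingSubgroup ↥C).map C.subtype = Q)
    (hQ : Cfsg.IsExtraspecial 2 ↥Q) (K U : Subgroup G)
    (hU : U = Subgroup.closure {x : G | ∃ k ∈ K, x = k * z * k⁻¹}) (hUab : IsMulCommutative ↥U)
    (hgen : Subgroup.closure {x : G | ∃ c ∈ C, ∃ u ∈ U, x = c * u * c⁻¹} = C)
    (h3 : (∃ k ∈ K, k * z * k⁻¹ ∈ Q ∧ k * z * k⁻¹ ≠ z) ∨ ∃ u ∈ U ⊓ Q, u ∉ Subgroup.zpowers z ∧
      (∃ hz' : z ∈ Subgroup.centralizer ({u} : Set G),
        (⟨z, hz'⟩ : ↥(Subgroup.centralizer ({u} : Set G))) ∈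
          Cfsg.pCore 2 ↥(Subgroup.centralizer ({u} : Set G)))) :
    IsSimpleGroup G ∧ Cfsg.IsLargeExtraspecial Q := by
  have : Fact (Nat.Prime 2) := ⟨Nat.prime_two⟩
  have hz2 : z * z = 1 := by rw [← pow_two, ← hz]; exact pow_orderOf_eq_one z
  have hz1 : z ≠ 1 := by intro h; rw [h, orderOf_one] at hz; omega
  have hzi : z⁻¹ = z := inv_eq_of_mul_eq_one_left hz2
  have memC : ∀ x, x ∈ C ↔ x * z = z * x := fun x => by
    rw [hC]; exact Subgroup.mem_centralizer_singleton_iff
  have hzC : z ∈ C := (memC z).2 rfl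
  have hQ'n : (Cfsg.generalizedFittingSubgroup ↥C).Normal := Helper10.genFitting_normal _
  have hB := Helper10.centralizer_genFitting_le ↥C
  have memQ : ∀ x, x ∈ Q ↔ ∃ hx : x ∈ C, (⟨x, hx⟩ : ↥C) ∈ Cfsg.generalizedFittingSubgroup ↥C := by
    intro x
    rw [← hF, Subgroup.mem_map]
    constructor
    · rintro ⟨y, hy, rfl⟩; exact ⟨y.2, hy⟩
    · rintro ⟨hx, h⟩; exact ⟨_, h, rfl⟩
  have hQC : Q ≤ C := fun x hx => ((memQ x).1 hx).1
  have hzQ : z ∈ Q := (memQ z).2 ⟨hzC, hB (Subgroup.mem_centralizer_iff.2 fun q _ =>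
    Subtype.ext ((memC q).1 q.2))⟩
  have hn : ∀ c ∈ C, ∀ q ∈ Q, c * q * c⁻¹ ∈ Q := by
    intro c hc q hq
    obtain ⟨hqC, hq'⟩ := (memQ q).1 hq
    exact (memQ _).2 ⟨C.mul_mem (C.mul_mem hc hqC) (C.inv_mem hc), hQ'n.conj_mem ⟨q, hqC⟩ hq' ⟨c, hc⟩⟩
  have hCc : ∀ x : G, (∀ q ∈ Q, x * q = q * x) → x ∈ Q := by
    intro x hx
    have hxC : x ∈ C := (memC x).2 (hx z hzQ)
    exact (memQ x).2 ⟨hxC, hB (Subgroup.mem_centralizer_iff.2 fun q hq =>
      Subtype.ext (hx q ((memQ q).2 ⟨q.2, hq⟩)).symm)⟩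
  have hzc : ∀ q ∈ Q, q * z = z * q := fun q hq => (memC q).1 (hQC hq)
  have hD : ∀ c ∈ Q, (∀ q ∈ Q, c * q = q * c) → c = 1 ∨ c = z := by
    intro c hc hcc
    obtain ⟨y, hy, huniq⟩ := (Nat.card_eq_two_iff' (1 : Subgroup.center ↥Q)).1 hQ.2
    by_cases h1 : c = 1
    · left; exact h1
    · right
      have hcm : (⟨c, hc⟩ : ↥Q) ∈ Subgroup.center ↥Q := by
        rw [Subgroup.mem_center_iff]; intro q; exact Subtype.ext (hcc q q.2).symm
      have hzm : (⟨z, hzQ⟩ : ↥Q) ∈ Subgroup.center ↥Q := by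
        rw [Subgroup.mem_center_iff]; intro q; exact Subtype.ext (hzc q q.2)
      have e1 : (⟨⟨c, hc⟩, hcm⟩ : Subgroup.center ↥Q) = y :=
        huniq _ (by intro h; apply h1; exact congrArg (fun x : Subgroup.center ↥Q => ((x : ↥Q) : G)) h)
      have e2 : (⟨⟨z, hzQ⟩, hzm⟩ : Subgroup.center ↥Q) = y :=
        huniq _ (by intro h; apply hz1; exact congrArg (fun x : Subgroup.center ↥Q => ((x : ↥Q) : G)) h)
      exact congrArg (fun x : Subgroup.center ↥Q => ((x : ↥Q) : G)) (e1.trans e2.symm)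
  have hE : ∀ u ∈ Q, ∀ q ∈ Q, q * u ≠ u * q → q * u * q⁻¹ * u⁻¹ = z := by
    intro u hu q hq hne
    have h1 : ⁅(⟨q, hq⟩ : ↥Q), ⟨u, hu⟩⁆ ∈ Subgroup.center ↥Q := by
      rw [← hQ.1.2.2, commutator_def]
      exact Subgroup.commutator_mem_commutator (Subgroup.mem_top _) (Subgroup.mem_top _)
    have h2 : ∀ x ∈ Q, (q * u * q⁻¹ * u⁻¹) * x = x * (q * u * q⁻¹ * u⁻¹) := by
      intro x hx
      have h3 := Subgroup.mem_center_iff.1 h1 ⟨x, hx⟩
      have h4 := congrArg Subtype.val h3
      simpa [commutatorElement_def] using h4.symm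
    rcases hD _ (Q.mul_mem (Q.mul_mem (Q.mul_mem hq hu) (Q.inv_mem hq)) (Q.inv_mem hu)) h2 with h | h
    · exfalso; apply hne
      calc q * u = (q * u * q⁻¹ * u⁻¹) * (u * q) := by group
        _ = u * q := by rw [h, one_mul]
    · exact h
  -- the key element u
  obtain ⟨u, huQ, hunz, huu, hz', hzO⟩ : ∃ u ∈ Q, u ∉ Subgroup.zpowers z ∧ u * u = 1 ∧
      (∃ hz' : z ∈ Subgroup.centralizer ({u} : Set G),
        (⟨z, hz'⟩ : ↥(Subgroup.centralizer ({u} : Set G))) ∈
          Cfsg.pCore 2 ↥(Subgroup.centralizer ({u} : Set G))) := by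
    rcases h3 with ⟨k, hk, hkQ, hkz⟩ | ⟨u, hu, hunz, hh⟩
    · refine ⟨k * z * k⁻¹, hkQ, ?_, ?_, ?_⟩
      · rw [mem_zp (by rw [pow_two]; exact hz2)]
        rintro (h | h)
        · apply hz1; simpa using h
        · exact hkz h
      · calc k * z * k⁻¹ * (k * z * k⁻¹) = k * (z * z) * k⁻¹ := by group
          _ = 1 := by rw [hz2]; group
      · have hpc : (Cfsg.pCore 2 ↥C).map C.subtype = Q := by
          rw [← hF]
          congr 1
          apply le_antisymm
          · exact (Helper23.pCore_le_fittingSubgroup 2 ↥C).trans le_sup_right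
          · apply le_sSup
            refine ⟨hQ'n, ?_⟩
            rintro ⟨y, hy⟩
            obtain ⟨m, hm⟩ := hQ.1.1 ⟨(y : G), (memQ _).2 ⟨y.2, hy⟩⟩
            refine ⟨m, ?_⟩
            apply Subtype.ext
            apply Subtype.ext
            have h0 := congrArg Subtype.val hm
            simpa using h0
        subst hC
        have hA1 : Cfsg.IsExtraspecial 2 ↥((Cfsg.pCore 2 ↥(Subgroup.centralizer ({z} : Set G))).map
            (Subgroup.centralizer ({z} : Set G)).subtype) := by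
          rw [hpc]; exact hQ
        have hA2 : Subgroup.centralizer (((Cfsg.pCore 2 ↥(Subgroup.centralizer ({z} : Set G))).map
            (Subgroup.centralizer ({z} : Set G)).subtype : Subgroup G) : Set G) ≤
            (Cfsg.pCore 2 ↥(Subgroup.centralizer ({z} : Set G))).map
            (Subgroup.centralizer ({z} : Set G)).subtype := by
          rw [hpc]
          intro x hx
          exact hCc x (fun q hq => (Subgroup.mem_centralizer_iff.1 hx q hq).symm)
        have hA3 : k * z * k⁻¹ ∈ (Cfsg.pCore 2 ↥(Subgroup.centralizer ({z} : Set G))).map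
            (Subgroup.centralizer ({z} : Set G)).subtype := by
          rw [hpc]; exact hkQ
        have h5 := Cfsg.Agent.S5595.result
          (fun x => (Cfsg.pCore 2 ↥(Subgroup.centralizer ({x} : Set G))).map
            (Subgroup.centralizer ({x} : Set G)).subtype) (fun x => rfl) z hz hA1 hA2 k hA3
        obtain ⟨y, hy, hyz⟩ := h5
        have hyz' : (y : G) = z := hyz
        have hzc' : z ∈ Subgroup.centralizer ({k * z * k⁻¹} : Set G) := by
          have h6 := y.2
          rwa [hyz'] at h6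
        refine ⟨hzc', ?_⟩
        have : y = ⟨z, hzc'⟩ := Subtype.ext hyz'
        rwa [← this]
    · refine ⟨u, hu.2, hunz, ?_, hh⟩
      have hall : ∀ x ∈ U, x * x = 1 := by
        intro x hx
        rw [hU] at hx
        induction hx using Subgroup.closure_induction with
        | mem x hx =>
          obtain ⟨k, -, rfl⟩ := hx
          calc k * z * k⁻¹ * (k * z * k⁻¹) = k * (z * z) * k⁻¹ := by group
            _ = 1 := by rw [hz2]; group
        | one => simp
        | mul x y hx hy ihx ihy =>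
          have hc : x * y = y * x := by
            have := hUab.is_comm.comm ⟨x, by rw [hU]; exact hx⟩ ⟨y, by rw [hU]; exact hy⟩
            exact congrArg Subtype.val this
          calc x * y * (x * y) = x * (y * x) * y := by group
            _ = x * (x * y) * y := by rw [hc]
            _ = (x * x) * (y * y) := by group
            _ = 1 := by rw [ihx, ihy, one_mul]
        | inv x hx ih =>
          calc x⁻¹ * x⁻¹ = (x * x)⁻¹ := by group
            _ = 1 := by rw [ih, inv_one]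
      exact hall u hu.1
  have hu1 : u ≠ 1 := fun h => hunz (h ▸ one_mem _)
  have huz : u ≠ z := fun h => hunz (h ▸ Subgroup.mem_zpowers z)
  have hui : u⁻¹ = u := inv_eq_of_mul_eq_one_left huu
  obtain ⟨q, hq, hqu⟩ : ∃ q ∈ Q, q * u * q⁻¹ * u⁻¹ = z := by
    by_contra hcon
    push Not at hcon
    have : ∀ q ∈ Q, u * q = q * u := by
      intro q hq
      by_contra hne
      exact hcon q hq (hE u huQ q hq (fun h => hne h.symm))
    rcases hD u huQ this with h | h
    · exact hu1 h
    · exact huz h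
  have h4 : ∀ X : Subgroup G, Odd (Nat.card X) → Q ≤ Subgroup.normalizer (X : Set G) → X = ⊥ := by
    intro X hXo hQX
    have hnorm : ∀ q ∈ Q, ∀ x ∈ X, q * x * q⁻¹ ∈ X := fun q hq x hx =>
      (Subgroup.mem_normalizer_iff.1 (hQX hq) x).1 hx
    have hodd : ∀ (m : ℕ) (x : G), x ∈ X → x ^ (2 ^ m) = 1 → x = 1 := by
      intro m x hx hxm
      have h1 : orderOf x ∣ 2 ^ m := orderOf_dvd_of_pow_eq_one hxm
      have h2 : orderOf x ∣ Nat.card X := by
        have := orderOf_dvd_natCard (⟨x, hx⟩ : ↥X)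
        rwa [Subgroup.orderOf_mk] at this
      have h3 : Nat.Coprime (2 ^ m) (Nat.card X) := (Nat.coprime_two_left.2 hXo).pow_left m
      have := Nat.eq_one_of_dvd_coprimes h3 h1 h2
      exact orderOf_eq_one_iff.1 this
    have hXQ : ∀ x ∈ X, x ∈ Q → x = 1 := by
      intro x hx hxQ
      obtain ⟨m, hm⟩ := hQ.1.1 ⟨x, hxQ⟩
      exact hodd m x hx (by simpa using congrArg Subtype.val hm)
    have hfz : ∀ x ∈ X, x * z = z * x → x = 1 := by
      intro x hx hxz
      have hxC : x ∈ C := (memC x).2 hxz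
      apply hXQ x hx
      apply hCc
      intro q' hq'
      have h2 : x * q' * x⁻¹ * q'⁻¹ = 1 := by
        apply hXQ
        · have : x * q' * x⁻¹ * q'⁻¹ = x * (q' * x⁻¹ * q'⁻¹) := by group
          rw [this]; exact X.mul_mem hx (hnorm q' hq' _ (X.inv_mem hx))
        · exact Q.mul_mem (hn x hxC q' hq') (Q.inv_mem hq')
      calc x * q' = (x * q' * x⁻¹ * q'⁻¹) * (q' * x) := by group
        _ = q' * x := by rw [h2, one_mul]
    have hzinv := inv_of_fpf X z (hnorm z hzQ) hz2 hfz
    have hab : ∀ x ∈ X, ∀ y ∈ X, x * y = y * x := by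
      intro x hx y hy
      have e1 := hzinv x hx
      have e2 := hzinv y hy
      have e3 := hzinv (x * y) (X.mul_mem hx hy)
      have e4 : z * (x * y) * z⁻¹ = (z * x * z⁻¹) * (z * y * z⁻¹) := by group
      rw [e4, e1, e2] at e3
      have e5 : x⁻¹ * y⁻¹ = (y * x)⁻¹ := by group
      rw [e5] at e3
      exact (inv_injective e3).symm
    have hfu : ∀ x ∈ X, x * u = u * x → x = 1 := by
      intro x hx hxu
      have hxCu : x ∈ Subgroup.centralizer ({u} : Set G) :=
        Subgroup.mem_centralizer_singleton_iff.2 hxu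
      have hOn := Helper23.pCore_normal' 2 ↥(Subgroup.centralizer ({u} : Set G))
      have hOp := Helper23.isPGroup_pCore 2 ↥(Subgroup.centralizer ({u} : Set G))
      have h1 : (⟨x, hxCu⟩ : ↥(Subgroup.centralizer ({u} : Set G))) * ⟨z, hz'⟩ *
          (⟨x, hxCu⟩ : ↥(Subgroup.centralizer ({u} : Set G)))⁻¹ *
          (⟨z, hz'⟩ : ↥(Subgroup.centralizer ({u} : Set G)))⁻¹ ∈
          Cfsg.pCore 2 ↥(Subgroup.centralizer ({u} : Set G)) :=
        Subgroup.mul_mem _ (hOn.conj_mem _ hzO _) (Subgroup.inv_mem _ hzO)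
      obtain ⟨m, hm⟩ := hOp ⟨_, h1⟩
      have hm' : (x * z * x⁻¹ * z⁻¹) ^ (2 ^ m) = 1 := by
        have := congrArg (fun y : ↥(Cfsg.pCore 2 ↥(Subgroup.centralizer ({u} : Set G))) =>
          ((y : ↥(Subgroup.centralizer ({u} : Set G))) : G)) hm
        simpa using this
      have e1 : x * z * x⁻¹ * z⁻¹ = x * x := by
        have := hzinv x⁻¹ (X.inv_mem hx)
        rw [inv_inv] at this
        calc x * z * x⁻¹ * z⁻¹ = x * (z * x⁻¹ * z⁻¹) := by group
          _ = x * x := by rw [this]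
      rw [e1] at hm'
      have h2 := hodd m _ (X.mul_mem hx hx) hm'
      exact hodd 1 x hx (by rw [pow_one, pow_two]; exact h2)
    have huinv : ∀ x ∈ X, u * x * u⁻¹ = x⁻¹ := by
      intro x hx
      have hux := hnorm u huQ x hx
      have h1 : x * (u * x * u⁻¹) = 1 := by
        apply hfu _ (X.mul_mem hx hux)
        have e1 : u * (x * (u * x * u⁻¹)) * u⁻¹ = (u * x * u⁻¹) * ((u * u) * x * (u * u)⁻¹) := by
          group
        rw [huu] at e1
        simp only [one_mul, inv_one, mul_one] at e1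
        rw [hab _ hux _ hx] at e1
        calc x * (u * x * u⁻¹) * u = u * (x * (u * x * u⁻¹)) * u⁻¹ * u := by rw [e1]
          _ = u * (x * (u * x * u⁻¹)) := by group
      exact (eq_inv_of_mul_eq_one_right h1)
    rw [eq_bot_iff]
    intro x hx
    rw [Subgroup.mem_bot]
    have hzu : q * u * q⁻¹ = z * u := by
      calc q * u * q⁻¹ = (q * u * q⁻¹ * u⁻¹) * u := by group
        _ = z * u := by rw [hqu]
    have hy : q⁻¹ * x * q ∈ X := by
      have := hnorm q⁻¹ (Q.inv_mem hq) x hx; simpa using this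
    have h1 : q⁻¹ * x * q = 1 := by
      apply hfu _ hy
      have e1 : (z * u) * x * (z * u)⁻¹ = x := by
        have : (z * u) * x * (z * u)⁻¹ = z * (u * x * u⁻¹) * z⁻¹ := by group
        rw [this, huinv x hx, hzinv _ (X.inv_mem hx), inv_inv]
      rw [← hzu] at e1
      calc q⁻¹ * x * q * u = q⁻¹ * (q * u * q⁻¹ * x * (q * u * q⁻¹)⁻¹) * q * u := by rw [e1]
        _ = u * (q⁻¹ * x * q) := by group
    calc x = q * (q⁻¹ * x * q) * q⁻¹ := by group
      _ = 1 := by rw [h1]; group
  have hLarge : Cfsg.IsLargeExtraspecial Q := by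
    refine ⟨hQ, ?_, ?_, h4⟩
    · ext x
      constructor
      · intro hx
        have hxc : ∀ q ∈ Q, x * q = q * x := fun q hq =>
          (Subgroup.mem_centralizer_iff.1 hx q hq).symm
        have hxQ := hCc x hxc
        refine ⟨⟨x, hxQ⟩, ?_, rfl⟩
        rw [SetLike.mem_coe, Subgroup.mem_center_iff]
        intro q'; exact Subtype.ext (hxc q' q'.2).symm
      · rintro ⟨y, hy, rfl⟩
        rw [Subgroup.mem_centralizer_iff]
        intro q' hq'
        have := Subgroup.mem_center_iff.1 hy ⟨q', hq'⟩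
        exact congrArg Subtype.val this
    · intro x hx
      have hzm : z ∈ ((Subgroup.center ↥Q).map Q.subtype : Subgroup G) :=
        ⟨⟨z, hzQ⟩, by
          rw [SetLike.mem_coe, Subgroup.mem_center_iff]
          intro q'; exact Subtype.ext (hzc q' q'.2), rfl⟩
      have hxC : x ∈ C := (memC x).2 (Subgroup.mem_centralizer_iff.1 hx z hzm).symm
      rw [Subgroup.mem_normalizer_iff]
      intro q'
      constructor
      · exact hn x hxC q'
      · intro h
        have := hn x⁻¹ (C.inv_mem hxC) _ h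
        have e : x⁻¹ * (x * q' * x⁻¹) * x⁻¹⁻¹ = q' := by group
        rwa [e] at this
  refine ⟨?_, hLarge⟩
  obtain ⟨S, hQS⟩ := hQ.1.1.exists_le_sylow
  have hZS : ∀ c ∈ S, (∀ s ∈ S, c * s = s * c) → c = 1 ∨ c = z := by
    intro c hc hcs
    have hcQ := hCc c (fun q hq => hcs q (hQS hq))
    exact hD c hcQ (fun q hq => hcs q (hQS hq))
  have hzS : z ∈ S := hQS hzQ
  have hmeet : ∀ K : Subgroup ↥(S : Subgroup G), K.Normal → K ≠ ⊥ →
      (⟨z, hzS⟩ : ↥(S : Subgroup G)) ∈ K ∧ ∀ s ∈ S, z * s = s * z := by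
    intro K hK hKb
    obtain ⟨x, hxK, hx1, -, hxc⟩ := Helper14.exists_rel_central_order_p 2 S.isPGroup' ⊥ K
      (fun h => hKb (le_bot_iff.1 h))
    have hxc' : ∀ s ∈ S, (x : G) * s = s * x := by
      intro s hs
      have h1 := hxc ⟨s, hs⟩
      rw [Subgroup.mem_bot, commutatorElement_eq_one_iff_mul_comm] at h1
      exact congrArg Subtype.val h1
    rcases hZS x x.2 hxc' with h | h
    · exfalso; apply hx1; rw [Subgroup.mem_bot]; exact Subtype.ext h
    · constructor
      · have : x = ⟨z, hzS⟩ := Subtype.ext h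
        rwa [← this]
      · rw [← h]; exact hxc'
  have hzSc : ∀ s ∈ S, z * s = s * z := by
    refine (hmeet ⊤ inferInstance ?_).2
    intro h
    have : (⟨z, hzS⟩ : ↥(S : Subgroup G)) ∈ (⊥ : Subgroup ↥(S : Subgroup G)) := by
      rw [← h]; exact Subgroup.mem_top _
    rw [Subgroup.mem_bot] at this
    exact hz1 (congrArg Subtype.val this)
  refine { exists_pair_ne := ⟨z, 1, hz1⟩, eq_bot_or_eq_top_of_normal := ?_ }
  intro N hN
  by_contra hcon
  push Not at hcon
  obtain ⟨hNb, hNt⟩ := hcon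
  have hzN : z ∈ N := by
    by_cases hinv : ∃ y ∈ N, orderOf y = 2
    · obtain ⟨y, hyN, hy⟩ := hinv
      have hpy : IsPGroup 2 (Subgroup.zpowers y) := by
        apply IsPGroup.of_card (n := 1); rw [Nat.card_zpowers, hy, pow_one]
      obtain ⟨P, hP⟩ := hpy.exists_le_sylow
      obtain ⟨a, ha⟩ := MulAction.exists_smul_eq G P S
      have hyS : a * y * a⁻¹ ∈ S := by
        rw [← ha, Lead.mem_sylow_smul_iff]
        have : a⁻¹ * (a * y * a⁻¹) * a = y := by group
        rw [this]; exact hP (Subgroup.mem_zpowers y)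
      have h1 := (hmeet (N.subgroupOf S) inferInstance (by
        intro h
        have h0 : (⟨a * y * a⁻¹, hyS⟩ : ↥(S : Subgroup G)) ∈ N.subgroupOf S := by
          rw [Subgroup.mem_subgroupOf]; exact hN.conj_mem y hyN a
        rw [h, Subgroup.mem_bot] at h0
        have h2 : a * y * a⁻¹ = 1 := congrArg Subtype.val h0
        have h3 : y = 1 := by simpa using h2
        rw [h3, orderOf_one] at hy; omega)).1
      rw [Subgroup.mem_subgroupOf] at h1
      exact h1
    · exfalso
      have hNo : Odd (Nat.card N) := by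
        by_contra hev
        rw [Nat.not_odd_iff_even] at hev
        obtain ⟨y, hy⟩ := exists_prime_orderOf_dvd_card' 2 (even_iff_two_dvd.1 hev)
        exact hinv ⟨y, y.2, by rwa [Subgroup.orderOf_coe]⟩
      apply hNb
      apply h4 N hNo
      intro q' _
      rw [Subgroup.mem_normalizer_iff]
      intro x
      constructor
      · intro hx; exact hN.conj_mem x hx q'
      · intro hx
        have := hN.conj_mem _ hx q'⁻¹
        have e : q'⁻¹ * (q' * x * q'⁻¹) * q'⁻¹⁻¹ = x := by group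
        rwa [e] at this
  have hUN : U ≤ N := by
    rw [hU, Subgroup.closure_le]
    rintro _ ⟨k, -, rfl⟩
    exact hN.conj_mem z hzN k
  have hHN : C ≤ N := by
    rw [← hgen, Subgroup.closure_le]
    rintro _ ⟨c, -, u', hu', rfl⟩
    exact hN.conj_mem u' (hUN hu') c
  have hSH : (S : Subgroup G) ≤ C := fun s hs => (memC s).2 (hzSc s hs).symm
  have hSN : (S : Subgroup G) ≤ N := hSH.trans hHN
  have hfr := Sylow.normalizer_sup_eq_top' S hSN
  have hNS : Subgroup.normalizer ((S : Subgroup G) : Set G) ≤ N := by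
    intro n hn
    apply hHN
    rw [memC]
    have h1 : n * z * n⁻¹ ∈ S := (Subgroup.mem_normalizer_iff.1 hn z).1 hzS
    have h2 : ∀ s ∈ S, (n * z * n⁻¹) * s = s * (n * z * n⁻¹) := by
      intro s hs
      have hs' : n⁻¹ * s * n ∈ (S : Subgroup G) := by
        have := (Subgroup.mem_normalizer_iff.1 (Subgroup.inv_mem _ hn) s).1 hs
        simpa using this
      have h3 := hzSc _ hs'
      calc n * z * n⁻¹ * s = n * (z * (n⁻¹ * s * n)) * n⁻¹ := by group
        _ = n * ((n⁻¹ * s * n) * z) * n⁻¹ := by rw [h3]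
        _ = s * (n * z * n⁻¹) := by group
    rcases hZS _ h1 h2 with h | h
    · exfalso; apply hz1; simpa using h
    · calc n * z = n * z * n⁻¹ * n := by group
        _ = z * n := by rw [h]
  apply hNt
  rw [eq_top_iff, ← hfr]
  exact sup_le hNS le_rfl

/-- Let z be an involution of the finite group G whose centralizer C has generalized Fitting subgroup Q, an extraspecial 2-group of width at least 2 (order 2^(2w+1), w ≥ 2). Let K be a subgroup of G such that the subgroup U generated by the K-conjugates of z is abelian and C is generated by the C-conjugates of U. Suppose that either some K-conjugate of z other than z lies in Q, or some element u of U ∩ Q outside the subgroup generated by z has z in the largest normal 2-subgroup of its centralizer. Then G is simple and Q is a large extraspecial 2-subgroup of G. -/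
theorem result {G : Type*} [Group G] [Finite G] (z : G) (hz : orderOf z = 2) (Q : Subgroup G) (hQC : Q ≤ Subgroup.centralizer ({z} : Set G)) (hF : (Cfsg.generalizedFittingSubgroup ↥(Subgroup.centralizer ({z} : Set G))).map (Subgroup.centralizer ({z} : Set G)).subtype = Q) (hQ : Cfsg.IsExtraspecial 2 ↥Q) (w : ℕ) (hw : 2 ≤ w) (hcard : Nat.card ↥Q = 2 ^ (2 * w + 1)) (K U : Subgroup G) (hU : U = Subgroup.closure {x : G | ∃ k ∈ K, x = k * z * k⁻¹}) (hUab : IsMulCommutative ↥U) (hgen : Subgroup.closure {x : G | ∃ c ∈ Subgroup.centralizer ({z} : Set G), ∃ u ∈ U, x = c * u * c⁻¹} = Subgroup.centralizer ({z} : Set G)) (h3 : (∃ k ∈ K, k * z * k⁻¹ ∈ Q ∧ k * z * k⁻¹ ≠ z) ∨ ∃ u ∈ U ⊓ Q, u ∉ Subgroup.zpowers z ∧ (∃ hz' : z ∈ Subgroup.centralizer ({u} : Set G), (⟨z, hz'⟩ : ↥(Subgroup.centralizer ({u} : Set G))) ∈ Cfsg.pCore 2 ↥(Subgroup.centralizer ({u} : Set G)))) : IsSimpleGroup G ∧ Cfsg.IsLargeExtraspecial Q := by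
  exact main z hz _ rfl Q hF hQ K U hU hUab hgen h3

end Cfsg.Agent.S5427
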