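import Mathlib
import Cfsg.Statements.S5521
import Cfsg.Agent.Lib.Helper3.Config

set_option autoImplicit false
open Cfsg

namespace Cfsg.Agent.S5521

/-- The Mathieu group M₂₄ in its natural action on the 24 coordinate positions of the binary Golay code has minimal base size exactly 7: every set of at most 6 positions is fixed pointwise by some non-identity element of M₂₄, while some set of 7 positions is fixed pointwise only by the identity. -/
theorem result :
    (∀ B : Finset Cfsg.GolayPt, B.card ≤ 6 → ∃ g ∈ Cfsg.M24, g ≠ 1 ∧ ∀ b ∈ B, g b = b) ∧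
    (∃ B : Finset Cfsg.GolayPt, B.card = 7 ∧ ∀ g ∈ Cfsg.M24, (∀ b ∈ B, g b = b) → g = 1) := by
  open Cfsg.Agent.Lib.Helper3 in
  constructor
  · intro B hB
    classical
    -- first five points and a possible sixth
    set l := B.toList with hl
    have hlen : l.length ≤ 6 := by rw [hl, Finset.length_toList]; exact hB
    have hnd : l.Nodup := B.nodup_toList
    obtain ⟨u, hu, h1, _⟩ := exists_map_list Finset.univ (by decide) (l.take 5)
      (hnd.sublist (List.take_sublist _ _)) (by simp) (by simp)
    set b' : Cfsg.GolayPt := u (l.getD 5 none) with hb'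
    have hcard := card_eq_orbit_mul (K 5) b'
    rw [card_K_values.2.2.1] at hcard
    have horb : (MulAction.orbit (K 5) b').ncard ≤ 24 := by
      have := Set.ncard_le_card (MulAction.orbit (K 5) b')
      simpa [card_GolayPt] using this
    have h2 : 1 < Nat.card ↥(K 5 ⊓ MulAction.stabilizer (Equiv.Perm Cfsg.GolayPt) b') := by
      by_contra hcon
      have : Nat.card ↥(K 5 ⊓ MulAction.stabilizer (Equiv.Perm Cfsg.GolayPt) b') ≤ 1 := by omega
      nlinarith
    have hfin : Finite ↥(K 5 ⊓ MulAction.stabilizer (Equiv.Perm Cfsg.GolayPt) b') := inferInstance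
    have hnt := Finite.one_lt_card_iff_nontrivial.1 h2
    obtain ⟨⟨g0, hg0⟩, hne⟩ := exists_ne (1 : ↥(K 5 ⊓ MulAction.stabilizer (Equiv.Perm Cfsg.GolayPt) b'))
    have hg0ne : g0 ≠ 1 := fun h => hne (Subtype.ext h)
    obtain ⟨hK, hst⟩ := Subgroup.mem_inf.1 hg0
    obtain ⟨hM, hfix⟩ := (mem_K 5 g0).1 hK
    refine ⟨u⁻¹ * g0 * u, Cfsg.M24.mul_mem (Cfsg.M24.mul_mem (Cfsg.M24.inv_mem hu) hM) hu, ?_, ?_⟩
    · intro h
      apply hg0ne
      have : g0 = u * (u⁻¹ * g0 * u) * u⁻¹ := by group
      rw [this, h]; group
    · intro b hb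
      show u⁻¹ (g0 (u b)) = b
      rw [Equiv.Perm.inv_eq_iff_eq]
      have hbl : b ∈ l := by rw [hl]; exact Finset.mem_toList.2 hb
      obtain ⟨i, hi, rfl⟩ := List.mem_iff_getElem.1 hbl
      by_cases hi5 : i < 5
      · have h3 := h1 i (by simp; omega)
        rw [List.getElem_take] at h3
        rw [h3]; exact hfix i hi5
      · have hi' : i = 5 := by omega
        subst hi'
        have : u l[5] = b' := by
          rw [hb', List.getD_eq_getElem?_getD, List.getElem?_eq_getElem hi, Option.getD_some]
        rw [this]; exact hst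
  · refine ⟨(Finset.range 7).image bpt, ?_, ?_⟩
    · rw [Finset.card_image_of_injOn, Finset.card_range]
      intro i hi j hj hij
      exact bpt_inj (by simpa using hi) (by simpa using hj) hij
    · intro g hg h
      apply eq_one_of_fixes hg
      intro j hj
      exact h _ (Finset.mem_image_of_mem _ (Finset.mem_range.2 hj))

end Cfsg.Agent.S5521
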