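import Cfsg.Statements.S5562
-- import your own Cfsg.Agent.* helpers here

set_option autoImplicit false
open Cfsg

namespace Cfsg.Agent.S5562

theorem sq_one_of_mem {G : Type*} [Group G] {d a : G} (hd : orderOf d = 2) (ha : a ∈ conjugatesOf d) :
    a * a = 1 := by
  have ha' : IsConj d a := ha
  rw [isConj_iff] at ha'
  obtain ⟨c, rfl⟩ := ha'
  have h : d * d = 1 := by
    have := pow_orderOf_eq_one d
    rw [hd, pow_two] at this
    exact this
  calc c * d * c⁻¹ * (c * d * c⁻¹) = c * (d * d) * c⁻¹ := by group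
    _ = 1 := by rw [h]; group

theorem conj_mem {G : Type*} [Group G] {d a : G} (ha : a ∈ conjugatesOf d) (c : G) :
    c * a * c⁻¹ ∈ conjugatesOf d := by
  have ha' : IsConj d a := ha
  exact (ha'.trans (isConj_iff.2 ⟨c, rfl⟩) : IsConj d (c * a * c⁻¹))

/-- the swapping involution of two involutions with product of odd order -/
theorem exists_swap {G : Type*} [Group G] (e f : G) (he : e * e = 1) (hf : f * f = 1)
    (hodd : Odd (orderOf (e * f))) :
    ∃ m : ℕ, (((e * f) ^ m)⁻¹ * e * (e * f) ^ m) * e * (((e * f) ^ m)⁻¹ * e * (e * f) ^ m) = f := by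
  obtain ⟨k, hk⟩ := hodd
  set r := e * f with hr
  refine ⟨(k + 1) ^ 2, ?_⟩
  set g := r ^ ((k + 1) ^ 2) with hg
  have hrn : r ^ (2 * k + 1) = 1 := by rw [← hk]; exact pow_orderOf_eq_one r
  have hg4 : g ^ 4 = r := by
    rw [hg, ← pow_mul]
    have : (k + 1) ^ 2 * 4 = (2 * k + 1) * (2 * k + 3) + 1 := by ring
    rw [this, pow_succ, pow_mul, hrn, one_pow, one_mul]
  have hrinv : r⁻¹ = f * e := by
    rw [inv_eq_iff_mul_eq_one, hr]
    calc e * f * (f * e) = e * (f * f) * e := by group
      _ = 1 := by rw [hf, mul_one, he]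
  have her : SemiconjBy e r r⁻¹ := by
    rw [hrinv]
    show e * r = f * e * e
    rw [hr, mul_assoc f, he, mul_one, ← mul_assoc, he, one_mul]
  have heg : SemiconjBy e g g⁻¹ := by
    have := her.pow_right ((k + 1) ^ 2)
    rwa [inv_pow] at this
  have heg' : e * g = g⁻¹ * e := heg
  have h1 : g⁻¹ * e * g = g⁻¹ * g⁻¹ * e := by rw [mul_assoc, heg', ← mul_assoc]
  have h2 : g⁻¹ * e * g * e = g⁻¹ * g⁻¹ := by rw [h1, mul_assoc, he, mul_one]
  rw [h2, h1]
  have h3 : g⁻¹ * g⁻¹ * (g⁻¹ * g⁻¹ * e) = (g ^ 4)⁻¹ * e := by group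
  rw [h3, hg4, hrinv, mul_assoc, he, mul_one]

/-- Let G be a finite group, d an involution of G whose conjugates pairwise have products of odd order, and x any involution of G. Then the conjugacy class of d is the disjoint union, over the conjugates a of d commuting with x, of the sets of conjugates of d commuting with ax: every conjugate of d commutes with ax for exactly one conjugate a of d that commutes with x. -/
theorem result {G : Type*} [Group G] [Finite G] (d : G) (hd : orderOf d = 2)
    (hodd : ∀ a ∈ conjugatesOf d, ∀ b ∈ conjugatesOf d, Odd (orderOf (a * b)))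
    (x : G) (hx : orderOf x = 2) :
    ∀ e ∈ conjugatesOf d,
      ∃! a : G, a ∈ conjugatesOf d ∧ Commute a x ∧ Commute e (a * x) := by
  intro e he
  have hx2 : x * x = 1 := by
    have := pow_orderOf_eq_one x
    rw [hx, pow_two] at this
    exact this
  have hxinv : x⁻¹ = x := inv_eq_of_mul_eq_one_right hx2
  have he2 : e * e = 1 := sq_one_of_mem hd he
  set f := x * e * x with hf
  have hfD : f ∈ conjugatesOf d := by
    have := conj_mem he x
    rwa [hxinv] at this
  have hf2 : f * f = 1 := sq_one_of_mem hd hfD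
  obtain ⟨m, hm⟩ := exists_swap e f he2 hf2 (hodd e he f hfD)
  set g := (e * f) ^ m with hg
  set a₀ := g⁻¹ * e * g with ha₀
  have ha₀D : a₀ ∈ conjugatesOf d := by
    have := conj_mem he g⁻¹
    rwa [inv_inv] at this
  have ha₀2 : a₀ * a₀ = 1 := sq_one_of_mem hd ha₀D
  have hxe : x * e = f * x := by
    rw [hf, mul_assoc (x * e), hx2, mul_one]
  have hxf : x * f = e * x := by
    rw [hf, ← mul_assoc, ← mul_assoc, hx2, one_mul]
  have hfe_inv : (e * f)⁻¹ = f * e := by
    rw [inv_eq_iff_mul_eq_one]
    calc e * f * (f * e) = e * (f * f) * e := by group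
      _ = 1 := by rw [hf2, mul_one, he2]
  have hxr : SemiconjBy x (e * f) (e * f)⁻¹ := by
    rw [hfe_inv]
    show x * (e * f) = f * e * x
    rw [← mul_assoc, hxe, mul_assoc, hxf, ← mul_assoc]
  have hxg : x * g = g⁻¹ * x := by
    have := hxr.pow_right m
    rw [inv_pow] at this
    exact this
  have hxg' : x * g⁻¹ = g * x := by
    have h := congrArg (fun y => g * y * g⁻¹) hxg
    have h1 : g * (x * g) * g⁻¹ = g * x := by group
    have h2 : g * (g⁻¹ * x) * g⁻¹ = x * g⁻¹ := by group
    rw [h1, h2] at h
    exact h.symm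
  -- a₀ swaps e and f
  have hswap : a₀ * e * a₀ = f := hm
  have hswap' : a₀ * f * a₀ = e := by
    rw [← hswap]
    calc a₀ * (a₀ * e * a₀) * a₀ = (a₀ * a₀) * e * (a₀ * a₀) := by group
      _ = e := by rw [ha₀2, one_mul, mul_one]
  -- g f g⁻¹ = a₀
  have hgf : g * f * g⁻¹ = a₀ := by
    rw [← hswap]
    have h1 : g * a₀ = e * g := by rw [ha₀]; group
    have h2 : a₀ * g⁻¹ = g⁻¹ * e := by rw [ha₀]; group
    calc g * (a₀ * e * a₀) * g⁻¹ = (g * a₀) * e * (a₀ * g⁻¹) := by group
      _ = e * g * e * (g⁻¹ * e) := by rw [h1, h2]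
      _ = e * (g * e * g⁻¹) * e := by group
      _ = a₀ := ?_
    -- use e g = g⁻¹ e
    have her : SemiconjBy e (e * f) (e * f)⁻¹ := by
      rw [hfe_inv]
      show e * (e * f) = f * e * e
      rw [mul_assoc f, he2, mul_one, ← mul_assoc, he2, one_mul]
    have heg : e * g = g⁻¹ * e := by
      have := her.pow_right m
      rw [inv_pow] at this
      exact this
    have heg' : e * g⁻¹ = g * e := by
      have h := congrArg (fun y => g * y * g⁻¹) heg
      have h1 : g * (e * g) * g⁻¹ = g * e := by group
      have h2 : g * (g⁻¹ * e) * g⁻¹ = e * g⁻¹ := by group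
      rw [h1, h2] at h
      exact h.symm
    calc e * (g * e * g⁻¹) * e = (e * g) * e * g⁻¹ * e := by group
      _ = g⁻¹ * e * e * g⁻¹ * e := by rw [heg]
      _ = g⁻¹ * (e * e) * (g⁻¹ * e) := by group
      _ = g⁻¹ * (g⁻¹ * e) := by rw [he2, mul_one]
      _ = g⁻¹ * (e * g) := by rw [heg]
      _ = a₀ := by rw [ha₀]; group
  have hcomm : Commute a₀ x := by
    show a₀ * x = x * a₀
    have : x * a₀ = a₀ * x := by
      calc x * a₀ = x * g⁻¹ * e * g := by rw [ha₀]; group
        _ = g * x * e * g := by rw [hxg']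
        _ = g * (x * e) * g := by group
        _ = g * (f * x) * g := by rw [hxe]
        _ = g * f * (x * g) := by group
        _ = g * f * (g⁻¹ * x) := by rw [hxg]
        _ = (g * f * g⁻¹) * x := by group
        _ = a₀ * x := by rw [hgf]
    exact this.symm
  refine ⟨a₀, ⟨ha₀D, hcomm, ?_⟩, ?_⟩
  · show e * (a₀ * x) = a₀ * x * e
    have h1 : a₀ * f = e * a₀ := by
      calc a₀ * f = (a₀ * f * a₀) * a₀ := by rw [mul_assoc (a₀ * f), ha₀2, mul_one]
        _ = e * a₀ := by rw [hswap']
    calc e * (a₀ * x) = (e * a₀) * x := by group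
      _ = a₀ * f * x := by rw [h1]
      _ = a₀ * (f * x) := by group
      _ = a₀ * (x * e) := by rw [hxe]
      _ = a₀ * x * e := by group
  · rintro a ⟨haD, hax, hea⟩
    have ha2 : a * a = 1 := sq_one_of_mem hd haD
    have hea' : e * (a * x) = a * x * e := hea
    -- a e a = f
    have hae : a * e * a = f := by
      have h1 : a * (e * (a * x)) * x = a * e * a := by
        calc a * (e * (a * x)) * x = a * e * a * (x * x) := by group
          _ = a * e * a := by rw [hx2, mul_one]
      have h2 : a * (a * x * e) * x = f := by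
        calc a * (a * x * e) * x = (a * a) * (x * e * x) := by group
          _ = f := by rw [ha2, one_mul]
      rw [← h1, hea', h2]
    have haf : a * f * a = e := by
      rw [← hae]
      calc a * (a * e * a) * a = (a * a) * e * (a * a) := by group
        _ = e := by rw [ha2, one_mul, mul_one]
    set v := a₀ * a with hv
    have hve : v * e = e * v := by
      have h1 : a * e = f * a := by
        calc a * e = (a * e * a) * a := by rw [mul_assoc (a * e), ha2, mul_one]
          _ = f * a := by rw [hae]
      have h2 : a₀ * f = e * a₀ := by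
        calc a₀ * f = (a₀ * f * a₀) * a₀ := by rw [mul_assoc (a₀ * f), ha₀2, mul_one]
          _ = e * a₀ := by rw [hswap']
      calc v * e = a₀ * (a * e) := by rw [hv]; group
        _ = a₀ * (f * a) := by rw [h1]
        _ = (a₀ * f) * a := by group
        _ = e * a₀ * a := by rw [h2]
        _ = e * v := by rw [hv]; group
    have hvf : v * f = f * v := by
      have h1 : a * f = e * a := by
        calc a * f = (a * f * a) * a := by rw [mul_assoc (a * f), ha2, mul_one]
          _ = e * a := by rw [haf]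
      have h2 : a₀ * e = f * a₀ := by
        calc a₀ * e = (a₀ * e * a₀) * a₀ := by rw [mul_assoc (a₀ * e), ha₀2, mul_one]
          _ = f * a₀ := by rw [hswap]
      calc v * f = a₀ * (a * f) := by rw [hv]; group
        _ = a₀ * (e * a) := by rw [h1]
        _ = (a₀ * e) * a := by group
        _ = f * a₀ * a := by rw [h2]
        _ = f * v := by rw [hv]; group
    have hvg : Commute v g := by
      have h1 : Commute v (e * f) := Commute.mul_right hve hvf
      exact h1.pow_right m
    have hva₀ : Commute v a₀ := by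
      rw [ha₀]
      exact ((hvg.inv_right).mul_right hve).mul_right hvg
    have hvinv : a₀ * v * a₀ = v⁻¹ := by
      rw [eq_inv_iff_mul_eq_one, hv]
      calc a₀ * (a₀ * a) * a₀ * (a₀ * a) = (a₀ * a₀) * a * (a₀ * a₀) * a := by group
        _ = 1 := by rw [ha₀2, one_mul, mul_one, ha2]
    have hvv : v * v = 1 := by
      have h1 : a₀ * v * a₀ = v := by
        rw [← hva₀.eq, mul_assoc, ha₀2, mul_one]
      rw [h1] at hvinv
      calc v * v = v * v⁻¹ := by rw [← hvinv]
        _ = 1 := mul_inv_cancel v
    have hvodd : Odd (orderOf v) := hodd a₀ ha₀D a haD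
    have hv1 : v = 1 := by
      have h2 : orderOf v ∣ 2 := orderOf_dvd_of_pow_eq_one (by rw [pow_two]; exact hvv)
      have h3 : orderOf v = 1 := by
        rcases (Nat.dvd_prime Nat.prime_two).1 h2 with h | h
        · exact h
        · rw [h] at hvodd
          exact absurd hvodd (by decide)
      exact orderOf_eq_one_iff.1 h3
    have : a₀ * a = a₀ * a₀ := by rw [ha₀2, ← hv, hv1]
    exact mul_left_cancel this

end Cfsg.Agent.S5562
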