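import Cfsg.Statements.S5729
-- import your own Cfsg.Agent.* helpers here

set_option autoImplicit false
open Cfsg

namespace Cfsg.Agent.S5729

open Finset in
/-- Burnside's lemma with filters. -/
theorem burnside {H Ω : Type*} [Group H] [Fintype H] [MulAction H Ω] [Fintype Ω] [DecidableEq Ω] :
    ∑ h : H, (univ.filter (fun ω : Ω => h • ω = ω)).card
      = Nat.card (Quotient (MulAction.orbitRel H Ω)) * Fintype.card H := by
  classical
  letI : Fintype (Quotient (MulAction.orbitRel H Ω)) := Fintype.ofFinite _
  rw [Nat.card_eq_fintype_card, ← MulAction.sum_card_fixedBy_eq_card_orbits_mul_card_group H Ω]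
  refine Finset.sum_congr rfl (fun h _ => ?_)
  symm
  apply Fintype.card_of_subtype
  intro x
  simp [MulAction.mem_fixedBy]

open Finset in
theorem sum_fix_trans {G Ω : Type*} [Group G] [Fintype G] [MulAction G Ω] [Fintype Ω] [DecidableEq Ω]
    [MulAction.IsPretransitive G Ω] [Nonempty Ω] :
    ∑ g : G, (univ.filter (fun ω : Ω => g • ω = ω)).card = Fintype.card G := by
  rw [burnside]
  have : Unique (Quotient (MulAction.orbitRel G Ω)) :=
    ((MulAction.pretransitive_iff_unique_quotient_of_nonempty G Ω).mp inferInstance).some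
  rw [Nat.card_unique, one_mul]

open Finset in
theorem sum_fix_stab {G Ω : Type*} [Group G] [Fintype G] [MulAction G Ω] [Fintype Ω] [DecidableEq Ω]
    (ω β : Ω) (hβ : β ≠ ω) :
    2 * (univ.filter (fun g : G => g • ω = ω)).card ≤
      ∑ g ∈ univ.filter (fun g : G => g • ω = ω), (univ.filter (fun x : Ω => g • x = x)).card := by
  classical
  letI : Fintype (MulAction.stabilizer G ω) := Fintype.ofFinite _
  have h1 := burnside (H := MulAction.stabilizer G ω) (Ω := Ω)
  have h2 : 2 ≤ Nat.card (Quotient (MulAction.orbitRel (MulAction.stabilizer G ω) Ω)) := by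
    have : Nontrivial (Quotient (MulAction.orbitRel (MulAction.stabilizer G ω) Ω)) := by
      refine ⟨⟨Quotient.mk _ ω, Quotient.mk _ β, ?_⟩⟩
      intro h
      have h' := Quotient.exact h
      change ω ∈ MulAction.orbit (MulAction.stabilizer G ω) β at h'
      obtain ⟨g, hg⟩ := h'
      apply hβ
      have hg1 : g⁻¹ • ω = ω := (g⁻¹).2
      have hg2 : g • β = ω := hg
      rw [← hg1, eq_inv_smul_iff, hg2]
    exact Finite.one_lt_card
  have h3 : Fintype.card (MulAction.stabilizer G ω) = (univ.filter (fun g : G => g • ω = ω)).card := by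
    apply Fintype.card_of_subtype
    intro x
    simp [MulAction.mem_stabilizer_iff]
  have h4 : ∑ g ∈ univ.filter (fun g : G => g • ω = ω), (univ.filter (fun x : Ω => g • x = x)).card
      = ∑ h : MulAction.stabilizer G ω, (univ.filter (fun x : Ω => h • x = x)).card := by
    apply Finset.sum_subtype (f := fun g : G => (univ.filter (fun x : Ω => g • x = x)).card)
    intro x
    simp [MulAction.mem_stabilizer_iff]
  rw [h4, h1, h3]
  exact Nat.mul_le_mul_right _ h2


/-- Let a finite group G act faithfully and transitively on a set with n ≥ 3 points. Then either G is a Frobenius permutation group (Frobenius as a permutation group: transitive, some non-identity element fixes a point, and no non-identity element fixes two points) of order n(n − 1) and exactly |G|/n of its elements are derangements (fix no point), or the number of derangements is greater than |G|/n. -/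
theorem result {G Ω : Type*} [Group G] [Finite G] [MulAction G Ω] [FaithfulSMul G Ω] [Fintype Ω] (htr : MulAction.IsPretransitive G Ω) (hn : 3 ≤ Fintype.card Ω) :
    ((MulAction.IsPretransitive G Ω ∧ (∃ g : G, g ≠ 1 ∧ ∃ ω : Ω, g • ω = ω) ∧ ∀ g : G, g ≠ 1 → Nat.card (MulAction.fixedBy Ω g) ≤ 1) ∧ Nat.card G = Fintype.card Ω * (Fintype.card Ω - 1) ∧ Fintype.card Ω * Nat.card {g : G // ∀ ω : Ω, g • ω ≠ ω} = Nat.card G) ∨
    Nat.card G < Fintype.card Ω * Nat.card {g : G // ∀ ω : Ω, g • ω ≠ ω} := by
  classical
  letI : Fintype G := Fintype.ofFinite G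
  have hne : Nonempty Ω := by
    rw [← Fintype.card_pos_iff]; omega
  set n := Fintype.card Ω with hn_def
  set N := Fintype.card G with hN_def
  let fx : G → ℕ := fun g => (Finset.univ.filter (fun ω : Ω => g • ω = ω)).card
  have hfx_le : ∀ g, fx g ≤ n := fun g => Finset.card_le_univ _
  have hfx_one : fx 1 = n := by
    simp [fx, hn_def]
  have hfx_n : ∀ g, fx g = n → g = 1 := by
    intro g hg
    have h1 : Finset.univ.filter (fun ω : Ω => g • ω = ω) = Finset.univ :=
      Finset.eq_univ_of_card _ hg
    apply FaithfulSMul.eq_of_smul_eq_smul (α := Ω)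
    intro a
    have : a ∈ Finset.univ.filter (fun ω : Ω => g • ω = ω) := by rw [h1]; exact Finset.mem_univ a
    rw [one_smul]
    exact (Finset.mem_filter.mp this).2
  have hfx_zero : ∀ g, fx g = 0 ↔ ∀ ω : Ω, g • ω ≠ ω := by
    intro g
    simp [fx, Finset.filter_eq_empty_iff]
  have hcardfix : ∀ g : G, Nat.card (MulAction.fixedBy Ω g) = fx g := by
    intro g
    rw [Nat.card_eq_fintype_card]
    apply Fintype.card_of_subtype
    intro x
    simp [MulAction.mem_fixedBy]
  set D := Finset.univ.filter (fun g : G => ∀ ω : Ω, g • ω ≠ ω) with hD_def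
  have hcardD : Nat.card {g : G // ∀ ω : Ω, g • ω ≠ ω} = D.card := by
    rw [Nat.card_eq_fintype_card]
    apply Fintype.card_of_subtype
    intro x
    simp [hD_def]
  have hcardG : Nat.card G = N := Nat.card_eq_fintype_card
  rw [hcardD, hcardG]
  -- first moment
  have hS1 : ∑ g : G, fx g = N := sum_fix_trans
  -- second moment
  have hS2 : 2 * N ≤ ∑ g : G, fx g * fx g := by
    have h1 : ∑ g : G, fx g * fx g
        = ∑ ω : Ω, ∑ g ∈ Finset.univ.filter (fun g : G => g • ω = ω), fx g := by
      have : ∀ g : G, fx g * fx g = ∑ ω : Ω, if g • ω = ω then fx g else 0 := by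
        intro g
        rw [← Finset.sum_filter, Finset.sum_const, smul_eq_mul]
      simp only [this]
      rw [Finset.sum_comm]
      refine Finset.sum_congr rfl (fun ω _ => ?_)
      rw [Finset.sum_filter]
    have h2 : ∀ ω : Ω, 2 * (Finset.univ.filter (fun g : G => g • ω = ω)).card ≤
        ∑ g ∈ Finset.univ.filter (fun g : G => g • ω = ω), fx g := by
      intro ω
      have : ∃ β : Ω, β ≠ ω := by
        have : Nontrivial Ω := by
          rw [← Fintype.one_lt_card_iff_nontrivial]; omega
        exact exists_ne ω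
      obtain ⟨β, hβ⟩ := this
      exact sum_fix_stab ω β hβ
    have h3 : ∑ ω : Ω, (Finset.univ.filter (fun g : G => g • ω = ω)).card = N := by
      rw [← hS1]
      simp only [fx, Finset.card_filter]
      exact Finset.sum_comm
    rw [h1, ← h3, Finset.mul_sum]
    exact Finset.sum_le_sum (fun ω _ => h2 ω)
  -- the polynomial (x-1)(x-n)
  let t : G → ℤ := fun g => ((fx g : ℤ) - 1) * ((fx g : ℤ) - n)
  have hT : ∑ g : G, t g = (∑ g : G, fx g * fx g : ℕ) - (N : ℤ) := by
    have h1 : ∀ g, t g = ((fx g * fx g : ℕ) : ℤ) - ((n : ℤ) + 1) * (fx g : ℕ) + n := by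
      intro g; simp only [t]; push_cast; ring
    simp only [h1]
    rw [Finset.sum_add_distrib, Finset.sum_sub_distrib, ← Finset.mul_sum, ← Nat.cast_sum, ← Nat.cast_sum, hS1,
      Finset.sum_const, Finset.card_univ, nsmul_eq_mul]
    ring
  have htD : ∀ g ∈ D, t g = n := by
    intro g hg
    have : fx g = 0 := (hfx_zero g).mpr (Finset.mem_filter.mp hg).2
    simp [t, this]
  have htnD : ∀ g ∈ Finset.univ.filter (fun g : G => ¬ ∀ ω : Ω, g • ω ≠ ω), t g ≤ 0 := by
    intro g hg
    have h0 : fx g ≠ 0 := fun h => (Finset.mem_filter.mp hg).2 ((hfx_zero g).mp h)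
    have h1 : (1 : ℤ) ≤ fx g := by exact_mod_cast Nat.one_le_iff_ne_zero.mpr h0
    have h2 : (fx g : ℤ) ≤ n := by exact_mod_cast hfx_le g
    simp only [t]
    nlinarith
  have hsplit : ∑ g : G, t g = (n : ℤ) * D.card
      + ∑ g ∈ Finset.univ.filter (fun g : G => ¬ ∀ ω : Ω, g • ω ≠ ω), t g := by
    rw [← Finset.sum_filter_add_sum_filter_not Finset.univ (fun g : G => ∀ ω : Ω, g • ω ≠ ω) t,
      Finset.sum_congr rfl htD, Finset.sum_const, nsmul_eq_mul]
    ring
  have hneg := Finset.sum_nonpos htnD
  by_cases hlt : N < n * D.card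
  · right; exact hlt
  left
  push Not at hlt
  have hlt' : (n : ℤ) * D.card ≤ N := by exact_mod_cast hlt
  have hS2' : (2 : ℤ) * N ≤ (∑ g : G, fx g * fx g : ℕ) := by exact_mod_cast hS2
  have hsum0 : ∑ g ∈ Finset.univ.filter (fun g : G => ¬ ∀ ω : Ω, g • ω ≠ ω), t g = 0 := by linarith
  have hS2eq : ((∑ g : G, fx g * fx g : ℕ) : ℤ) = 2 * N := by linarith
  have hND : (n : ℤ) * D.card = N := by linarith
  have hzero := (Finset.sum_eq_zero_iff_of_nonpos htnD).mp hsum0
  have hle1 : ∀ g : G, g ≠ 1 → fx g ≤ 1 := by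
    intro g hg
    by_cases hgD : ∀ ω : Ω, g • ω ≠ ω
    · rw [(hfx_zero g).mpr hgD]; omega
    · have h1 := hzero g (Finset.mem_filter.mpr ⟨Finset.mem_univ _, hgD⟩)
      simp only [t] at h1
      rcases mul_eq_zero.mp h1 with h2 | h2
      · have : (fx g : ℤ) = 1 := by linarith
        have : fx g = 1 := by exact_mod_cast this
        omega
      · have : (fx g : ℤ) = n := by linarith
        have : fx g = n := by exact_mod_cast this
        exact absurd (hfx_n g this) hg
  have hNn : N = n * (n - 1) := by
    have h1 : ∑ g : G, fx g * (fx g - 1) = n * (n - 1) := by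
      rw [Finset.sum_eq_single (1 : G), hfx_one]
      · intro g _ hg
        have := hle1 g hg
        interval_cases (fx g) <;> simp
      · intro h; exact absurd (Finset.mem_univ _) h
    have h2 : ∑ g : G, fx g * (fx g - 1) + ∑ g : G, fx g = ∑ g : G, fx g * fx g := by
      rw [← Finset.sum_add_distrib]
      refine Finset.sum_congr rfl (fun g _ => ?_)
      rcases Nat.eq_zero_or_pos (fx g) with h | h
      · simp [h]
      · obtain ⟨k, hk⟩ : ∃ k, fx g = k + 1 := ⟨fx g - 1, by omega⟩
        rw [hk]; simp; ring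
    have h3 : (∑ g : G, fx g * fx g) = 2 * N := by exact_mod_cast hS2eq
    rw [h1, hS1, h3] at h2
    omega
  refine ⟨⟨htr, ?_, ?_⟩, hNn, by exact_mod_cast hND⟩
  · by_contra hcon
    push Not at hcon
    have h1 : ∑ g : G, fx g = n := by
      rw [Finset.sum_eq_single (1 : G), hfx_one]
      · intro g _ hg
        exact (hfx_zero g).mpr (hcon g hg)
      · intro h; exact absurd (Finset.mem_univ _) h
    rw [hS1, hNn] at h1
    have h2 : n - 1 = 1 := by
      have : n * (n - 1) = n * 1 := by rw [h1, mul_one]
      exact Nat.eq_of_mul_eq_mul_left (by omega) this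
    omega
  · intro g hg
    rw [hcardfix]
    exact hle1 g hg

end Cfsg.Agent.S5729
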