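import Cfsg.Statements.S5738
-- import your own Cfsg.Agent.* helpers here

set_option autoImplicit false
open Cfsg

namespace Cfsg.Agent.S5738

/-- Let F ⊆ K be finite fields with |F| = q and [K : F] = n ≥ 2, so |K| = q^n. Regard K as an n-dimensional F-vector space; the multiplications by non-zero elements of K form a cyclic subgroup of GL_F(K) of order q^n − 1 acting regularly on the non-zero vectors (a Singer group). Its normaliser in GL_F(K) has order n·(q^n − 1). -/
theorem result {F K : Type*} [Field F] [Fintype F] [Field K] [Fintype K] [Algebra F K] (n : ℕ) (hn : 2 ≤ n) (hdim : Module.finrank F K = n) :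
    Nat.card (Subgroup.normalizer (((Units.map ((Algebra.lmul F K : K →ₐ[F] Module.End F K) : K →* Module.End F K)).range : Subgroup (Module.End F K)ˣ) : Set (Module.End F K)ˣ)) = n * (Fintype.card K - 1) := by
  classical
  set ι : Kˣ →* (Module.End F K)ˣ :=
    Units.map ((Algebra.lmul F K : K →ₐ[F] Module.End F K) : K →* Module.End F K) with hι
  have hιapp : ∀ (u : Kˣ) (x : K), ((ι u : (Module.End F K)ˣ) : Module.End F K) x = (u : K) * x := fun u x => rfl
  have : Module.Finite F K := Module.Finite.of_finite
  have : Finite (Module.End F K) := Module.finite_of_finite F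
  have : Finite (Module.End F K)ˣ := inferInstance
  have happ_mul : ∀ (a b : (Module.End F K)ˣ) (x : K),
      ((a * b : (Module.End F K)ˣ) : Module.End F K) x = (a : Module.End F K) ((b : Module.End F K) x) :=
    fun a b x => rfl
  have hinv_app : ∀ (a : (Module.End F K)ˣ) (x : K),
      ((a⁻¹ : (Module.End F K)ˣ) : Module.End F K) ((a : Module.End F K) x) = x := by
    intro a x
    rw [← happ_mul, inv_mul_cancel]; rfl
  -- criterion for membership
  have hmem : ∀ φ : (Module.End F K)ˣ, φ ∈ Subgroup.normalizer ((ι.range : Subgroup (Module.End F K)ˣ) : Set (Module.End F K)ˣ)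
      ↔ ∀ u : Kˣ, ∃ w : Kˣ, φ * ι u = ι w * φ := by
    intro φ
    rw [Subgroup.mem_normalizer_iff_map_conj_eq]
    constructor
    · intro h u
      have h1 : φ * ι u * φ⁻¹ ∈ ι.range := by
        rw [← h]
        exact ⟨ι u, ⟨u, rfl⟩, rfl⟩
      obtain ⟨w, hw⟩ := h1
      exact ⟨w, by rw [hw]; group⟩
    · intro h
      apply Subgroup.eq_of_le_of_card_ge
      · rintro _ ⟨_, ⟨u, rfl⟩, rfl⟩
        obtain ⟨w, hw⟩ := h u
        refine ⟨w, ?_⟩
        change ι w = φ * ι u * φ⁻¹
        rw [hw]; group
      · exact (Subgroup.card_map_of_injective (MulAut.conj φ).injective).ge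
  obtain ⟨Φ, hΦapp⟩ : ∃ Φ : (K ≃ₐ[F] K) × Kˣ → (Module.End F K)ˣ,
      ∀ (p : (K ≃ₐ[F] K) × Kˣ) (x : K), ((Φ p : (Module.End F K)ˣ) : Module.End F K) x = (p.2 : K) * p.1 x :=
    ⟨fun p => ι p.2 * LinearMap.GeneralLinearGroup.ofLinearEquiv p.1.toLinearEquiv, fun p x => rfl⟩
  have hΦmem : ∀ p, Φ p ∈ Subgroup.normalizer ((ι.range : Subgroup (Module.End F K)ˣ) : Set (Module.End F K)ˣ) := by
    intro p
    rw [hmem]
    intro u
    refine ⟨Units.map (p.1 : K →* K) u, ?_⟩
    apply Units.ext
    apply LinearMap.ext
    intro x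
    rw [happ_mul, happ_mul, hΦapp, hΦapp, hιapp, hιapp, map_mul]
    simp only [Units.coe_map, MonoidHom.coe_coe]
    ring
  have hbij : Function.Bijective (fun p => (⟨Φ p, hΦmem p⟩ :
      Subgroup.normalizer ((ι.range : Subgroup (Module.End F K)ˣ) : Set (Module.End F K)ˣ))) := by
    constructor
    · intro p q hpq
      have h1 : Φ p = Φ q := congrArg Subtype.val hpq
      have h2 : ∀ x, (p.2 : K) * p.1 x = (q.2 : K) * q.1 x := by
        intro x
        rw [← hΦapp, ← hΦapp, h1]
      have h3 : p.2 = q.2 := by
        apply Units.ext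
        simpa using h2 1
      have h4 : p.1 = q.1 := by
        ext x
        have := h2 x
        rw [h3] at this
        exact mul_left_cancel₀ q.2.ne_zero this
      exact Prod.ext h4 h3
    · rintro ⟨φ, hφ⟩
      rw [hmem] at hφ
      have ha : (φ : Module.End F K) 1 ≠ 0 := by
        intro h0
        have := hinv_app φ 1
        rw [h0, map_zero] at this
        exact zero_ne_one this
      set a : Kˣ := Units.mk0 _ ha with ha_def
      set ψ : (Module.End F K)ˣ := (ι a)⁻¹ * φ with hψ
      have hψapp : ∀ x, (ψ : Module.End F K) x = (a : K)⁻¹ * (φ : Module.End F K) x := by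
        intro x
        rw [hψ, ← map_inv, happ_mul, hιapp, Units.val_inv_eq_inv_val]
      have hone : (ψ : Module.End F K) 1 = 1 := by
        rw [hψapp]
        exact inv_mul_cancel₀ ha
      have hmul : ∀ x y, (ψ : Module.End F K) (x * y) = (ψ : Module.End F K) x * (ψ : Module.End F K) y := by
        intro x y
        by_cases hx : x = 0
        · simp [hx]
        · obtain ⟨w, hw⟩ := hφ (Units.mk0 x hx)
          have h1 : ∀ z, (φ : Module.End F K) (x * z) = (w : K) * (φ : Module.End F K) z := by
            intro z
            have := congrArg (fun e : (Module.End F K)ˣ => (e : Module.End F K) z) hw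
            simpa [happ_mul, hιapp] using this
          have h2 : (φ : Module.End F K) x = (w : K) * (a : K) := by
            have := h1 1
            rwa [mul_one] at this
          rw [hψapp, hψapp, hψapp, h1, h2]
          field_simp
      let σ : K ≃ₐ[F] K := AlgEquiv.ofLinearEquiv (LinearMap.GeneralLinearGroup.toLinearEquiv ψ) hone hmul
      refine ⟨(σ, a), ?_⟩
      apply Subtype.ext
      apply Units.ext
      apply LinearMap.ext
      intro x
      change ((Φ (σ, a) : (Module.End F K)ˣ) : Module.End F K) x = _
      rw [hΦapp]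
      change (a : K) * (ψ : Module.End F K) x = _
      rw [hψapp, mul_inv_cancel_left₀ a.ne_zero]
  rw [← Nat.card_congr (Equiv.ofBijective _ hbij), Nat.card_prod, IsGalois.card_aut_eq_finrank, hdim,
    Nat.card_eq_fintype_card, Fintype.card_units]

end Cfsg.Agent.S5738
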