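import Cfsg.Statements.S5739
-- import your own Cfsg.Agent.* helpers here

set_option autoImplicit false
open Cfsg

namespace Cfsg.Agent.S5739

/-- The elements `x` of `K` whose multiplication map lies in the `g`-conjugate of the multiplication maps. -/
def conjSub {F K : Type*} [Field F] [Field K] [Algebra F K] (g : (Module.End F K)ˣ) : Subalgebra F K where
  carrier := {x | ∃ y : K, (g : Module.End F K) * Algebra.lmul F K y * ((g⁻¹ : (Module.End F K)ˣ) : Module.End F K)
      = Algebra.lmul F K x}
  mul_mem' := by
    rintro a b ⟨y, hy⟩ ⟨z, hz⟩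
    refine ⟨y * z, ?_⟩
    rw [map_mul, map_mul, ← hy, ← hz]
    simp only [mul_assoc, Units.inv_mul_cancel_left]
  add_mem' := by
    rintro a b ⟨y, hy⟩ ⟨z, hz⟩
    refine ⟨y + z, ?_⟩
    rw [map_add, map_add, ← hy, ← hz, mul_add, add_mul]
  algebraMap_mem' := by
    intro r
    refine ⟨algebraMap F K r, ?_⟩
    rw [AlgHom.commutes, ← Algebra.commutes, mul_assoc, Units.mul_inv, mul_one]


/-- Let F ⊆ K be finite fields with |F| = q and [K : F] = n ≥ 2, and let M ≤ GL_F(K) be the Singer group of multiplications by non-zero elements of K. If g ∈ GL_F(K) does not normalise M, then the order of M ∩ gMg⁻¹ divides q^r − 1 for some proper divisor r of n. In particular, when n is prime, that order divides q − 1. -/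
theorem result {F K : Type*} [Field F] [Fintype F] [Field K] [Fintype K] [Algebra F K] (n : ℕ) (hn : 2 ≤ n) (hdim : Module.finrank F K = n)
    (g : (Module.End F K)ˣ) (hg : ((Units.map ((Algebra.lmul F K : K →ₐ[F] Module.End F K) : K →* Module.End F K)).range).map (MulAut.conj g).toMonoidHom ≠ (Units.map ((Algebra.lmul F K : K →ₐ[F] Module.End F K) : K →* Module.End F K)).range) :
    ∃ r : ℕ, 1 ≤ r ∧ r ∣ n ∧ r < n ∧ Nat.card ↥(((Units.map ((Algebra.lmul F K : K →ₐ[F] Module.End F K) : K →* Module.End F K)).range).map (MulAut.conj g).toMonoidHom ⊓ (Units.map ((Algebra.lmul F K : K →ₐ[F] Module.End F K) : K →* Module.End F K)).range) ∣ Fintype.card F ^ r - 1 := by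
  classical
  set ι : Kˣ →* (Module.End F K)ˣ :=
    Units.map ((Algebra.lmul F K : K →ₐ[F] Module.End F K) : K →* Module.End F K) with hι
  have hιinj : Function.Injective ι := by
    apply Units.map_injective
    exact Algebra.lmul_injective
  have hιval : ∀ u : Kˣ, ((ι u : (Module.End F K)ˣ) : Module.End F K) = Algebra.lmul F K (u : K) := fun u => rfl
  have : Module.Finite F K := Module.Finite.of_finite
  have : Algebra.IsAlgebraic F K := Algebra.IsAlgebraic.of_finite F K
  set E : IntermediateField F K := subalgebraEquivIntermediateField (conjSub g) with hE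
  have hmemE : ∀ x : K, x ∈ E ↔ ∃ y : K, (g : Module.End F K) * Algebra.lmul F K y *
      ((g⁻¹ : (Module.End F K)ˣ) : Module.End F K) = Algebra.lmul F K x := fun x => Iff.rfl
  refine ⟨Module.finrank F E, Module.finrank_pos, ?_, ?_, ?_⟩
  · rw [← hdim, ← Module.finrank_mul_finrank F E K]
    exact dvd_mul_right _ _
  · have hle : Module.finrank F E ≤ n := by
      rw [← hdim]; exact E.toSubalgebra.toSubmodule.finrank_le
    refine lt_of_le_of_ne hle (fun heq => hg ?_)
    have htop : E = ⊤ := by
      apply IntermediateField.eq_of_le_of_finrank_eq le_top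
      rw [heq, IntermediateField.finrank_top', hdim]
    have hSle : ι.range ≤ (ι.range).map (MulAut.conj g).toMonoidHom := by
      rintro _ ⟨u, rfl⟩
      have hu : (u : K) ∈ E := htop ▸ IntermediateField.mem_top
      obtain ⟨y, hy⟩ := (hmemE _).mp hu
      have hy0 : y ≠ 0 := by
        rintro rfl
        rw [map_zero, mul_zero, zero_mul] at hy
        have h0 : Algebra.lmul F K (u : K) = Algebra.lmul F K 0 := by rw [← hy, map_zero]
        exact u.ne_zero (Algebra.lmul_injective (R := F) (A := K) h0)
      refine ⟨ι (Units.mk0 y hy0), ⟨_, rfl⟩, ?_⟩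
      apply Units.ext
      simpa [hιval] using hy
    symm
    have : Finite (Module.End F K) := Module.finite_of_finite F
    have : Finite (Module.End F K)ˣ := inferInstance
    apply Subgroup.eq_of_le_of_card_ge hSle
    rw [Subgroup.card_map_of_injective (MulAut.conj g).injective]
  · set A := (ι.range).map (MulAut.conj g).toMonoidHom ⊓ ι.range with hA
    have h1 : Nat.card A = Nat.card (A.comap ι) := by
      conv_lhs => rw [← Subgroup.map_comap_eq_self (f := ι) (H := A) inf_le_right]
      exact Subgroup.card_map_of_injective hιinj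
    set j : Eˣ →* Kˣ := Units.map (E.val : E →* K) with hj
    have hjinj : Function.Injective j := by
      apply Units.map_injective
      exact E.val.injective
    have h2 : A.comap ι ≤ j.range := by
      intro u hu
      have hu1 : ι u ∈ (ι.range).map (MulAut.conj g).toMonoidHom := hu.1
      obtain ⟨_, ⟨v, rfl⟩, hv⟩ := hu1
      have huE : (u : K) ∈ E := by
        rw [hmemE]
        refine ⟨(v : K), ?_⟩
        have := congrArg (fun w : (Module.End F K)ˣ => (w : Module.End F K)) hv
        simpa [hιval] using this
      have hu0 : (⟨(u : K), huE⟩ : E) ≠ 0 := by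
        intro h
        exact u.ne_zero (congrArg Subtype.val h)
      refine ⟨Units.mk0 ⟨(u : K), huE⟩ hu0, ?_⟩
      apply Units.ext
      rfl
    have h3 : Nat.card j.range = Fintype.card F ^ Module.finrank F E - 1 := by
      rw [← Nat.card_congr (MonoidHom.ofInjective hjinj).toEquiv, Nat.card_eq_fintype_card, Fintype.card_units,
        Module.card_eq_pow_finrank (K := F) (V := E)]
    rw [h1, ← h3]
    exact Subgroup.card_dvd_of_le h2

end Cfsg.Agent.S5739
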