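import Cfsg.Statements.S5747
-- import your own Cfsg.Agent.* helpers here
import Mathlib

set_option autoImplicit false
open Cfsg

namespace Cfsg.Agent.S5747

def IB (G : Type*) {Ω : Type*} [Group G] [MulAction G Ω] (t : ℕ) (f : Fin t → Ω) : Prop :=
  (∀ g : G, (∀ i : Fin t, g • f i = f i) → g = 1) ∧
    ∀ i : Fin t, ∃ g : G, (∀ j : Fin t, j < i → g • f j = f j) ∧ g • f i ≠ f i

def MB (G : Type*) {Ω : Type*} [Group G] [MulAction G Ω] (S : Finset Ω) : Prop :=
  (∀ g : G, (∀ a ∈ S, g • a = a) → g = 1) ∧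
    ∀ s ∈ S, ∃ g : G, (∀ a ∈ S, a ≠ s → g • a = a) ∧ g • s ≠ s

def sn {Ω : Type*} {n : ℕ} (f : Fin n → Ω) (a : Ω) : Fin (n + 1) → Ω :=
  fun i => if h : i.val < n then f ⟨i.val, h⟩ else a

theorem sn_lt {Ω : Type*} {n : ℕ} (f : Fin n → Ω) (a : Ω) {i : Fin (n + 1)} (h : i.val < n) :
    sn f a i = f ⟨i.val, h⟩ := dif_pos h

theorem sn_ge {Ω : Type*} {n : ℕ} (f : Fin n → Ω) (a : Ω) {i : Fin (n + 1)} (h : ¬ i.val < n) :
    sn f a i = a := dif_neg h

theorem shrink (G : Type*) {Ω : Type*} [Group G] [MulAction G Ω] :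
    ∀ (t : ℕ) (h : Fin t → Ω), (∀ g : G, (∀ i, g • h i = h i) → g = 1) →
      ∃ (t' : ℕ) (f' : Fin t' → Ω), t' ≤ t ∧ IB G t' f' ∧
        (¬ (∀ i : Fin t, ∃ g : G, (∀ j, j < i → g • h j = h j) ∧ g • h i ≠ h i) → t' < t) := by
  intro t
  induction t with
  | zero =>
    intro h hb
    exact ⟨0, h, le_rfl, ⟨hb, fun i => i.elim0⟩, fun hn => absurd (fun i => i.elim0) hn⟩
  | succ n ih =>
    intro h hb
    by_cases hirr : ∀ i : Fin (n + 1), ∃ g : G, (∀ j, j < i → g • h j = h j) ∧ g • h i ≠ h i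
    · exact ⟨n + 1, h, le_rfl, ⟨hb, hirr⟩, fun hn => absurd hirr hn⟩
    · push Not at hirr
      obtain ⟨i, hi⟩ := hirr
      have hb' : ∀ g : G, (∀ k : Fin n, g • (h ∘ i.succAbove) k = (h ∘ i.succAbove) k) → g = 1 := by
        intro g hg
        apply hb
        have hne : ∀ j, j ≠ i → g • h j = h j := by
          intro j hj
          obtain ⟨k, rfl⟩ := Fin.exists_succAbove_eq hj
          exact hg k
        intro j
        by_cases hj : j = i
        · rw [hj]; exact hi g (fun j' hj' => hne j' hj'.ne)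
        · exact hne j hj
      obtain ⟨t', f', hle, hIB, -⟩ := ih (h ∘ i.succAbove) hb'
      exact ⟨t', f', by omega, hIB, fun _ => by omega⟩

theorem irr_snoc {G : Type*} {Ω : Type*} [Group G] [MulAction G Ω] {n : ℕ} (f : Fin n → Ω) (a : Ω)
    (hf : ∀ i : Fin n, ∃ g : G, (∀ j, j < i → g • f j = f j) ∧ g • f i ≠ f i)
    (ha : ∃ g : G, (∀ j, g • f j = f j) ∧ g • a ≠ a) :
    ∀ i : Fin (n + 1), ∃ g : G, (∀ j, j < i → g • sn f a j = sn f a j) ∧
      g • sn f a i ≠ sn f a i := by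
  intro i
  by_cases hi : i.val < n
  · obtain ⟨g, hg1, hg2⟩ := hf ⟨i.val, hi⟩
    refine ⟨g, fun j hj => ?_, ?_⟩
    · have hj2 : j.val < i.val := hj
      have hj' : j.val < n := lt_trans hj2 hi
      rw [sn_lt f a hj']
      exact hg1 ⟨j.val, hj'⟩ hj2
    · rw [sn_lt f a hi]; exact hg2
  · obtain ⟨g, hg1, hg2⟩ := ha
    refine ⟨g, fun j hj => ?_, ?_⟩
    · have hj2 : j.val < i.val := hj
      have hj' : j.val < n := by have := i.isLt; omega
      rw [sn_lt f a hj']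
      exact hg1 _
    · rw [sn_ge f a hi]; exact hg2

theorem mb_of_ib {G : Type*} {Ω : Type*} [Group G] [MulAction G Ω] [DecidableEq Ω]
    (RC : ∀ (t : ℕ) (f : Fin t → Ω) (σ : Equiv.Perm (Fin t)), IB G t f → IB G t (f ∘ σ))
    {t : ℕ} {f : Fin t → Ω} (hf : IB G t f) :
    MB G (Finset.univ.image f) ∧ (Finset.univ.image f).card = t := by
  have hinj : Function.Injective f := by
    intro i j hij
    by_contra hne
    rcases lt_or_gt_of_ne hne with h | h
    · obtain ⟨g, hg1, hg2⟩ := hf.2 j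
      exact hg2 (hij ▸ hg1 i h)
    · obtain ⟨g, hg1, hg2⟩ := hf.2 i
      exact hg2 (hij ▸ hg1 j h)
  refine ⟨⟨?_, ?_⟩, ?_⟩
  · intro g hg
    apply hf.1
    intro i
    exact hg _ (Finset.mem_image_of_mem f (Finset.mem_univ i))
  · intro s hs
    obtain ⟨i, -, rfl⟩ := Finset.mem_image.mp hs
    cases t with
    | zero => exact i.elim0
    | succ m =>
      have hsw := RC _ f (Equiv.swap i (Fin.last m)) hf
      obtain ⟨g, hg1, hg2⟩ := hsw.2 (Fin.last m)
      refine ⟨g, ?_, ?_⟩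
      · intro a ha hne
        obtain ⟨k, -, rfl⟩ := Finset.mem_image.mp ha
        have hki : k ≠ i := fun h => hne (h ▸ rfl)
        have hlt : Equiv.swap i (Fin.last m) k < Fin.last m := by
          apply lt_of_le_of_ne (Fin.le_last _)
          intro h
          apply hki
          have h2 := congrArg (Equiv.swap i (Fin.last m)) h
          rw [Equiv.swap_apply_self, Equiv.swap_apply_right] at h2
          exact h2
        have h3 := hg1 _ hlt
        simp only [Function.comp, Equiv.swap_apply_self] at h3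
        exact h3
      · simp only [Function.comp, Equiv.swap_apply_right] at hg2
        exact hg2
  · rw [Finset.card_image_of_injective _ hinj, Finset.card_univ, Fintype.card_fin]

theorem exchange {G : Type*} {Ω : Type*} [Group G] [MulAction G Ω] [DecidableEq Ω]
    (RC : ∀ (t : ℕ) (f : Fin t → Ω) (σ : Equiv.Perm (Fin t)), IB G t f → IB G t (f ∘ σ))
    (S : Finset Ω) (hS : MB G S) (x y : Ω)
    (h : ∃ g : G, (∀ a ∈ S.erase x, g • a = a) ∧ g • y ≠ y) : MB G (insert y (S.erase x)) := by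
  obtain ⟨n, hn⟩ : ∃ n, n = (S.erase x).card := ⟨_, rfl⟩
  let e : ↥(S.erase x) ≃ Fin n := (S.erase x).equivFinOfCardEq hn.symm
  let f₀ : Fin n → Ω := fun i => (e.symm i : Ω)
  have hf₀mem : ∀ i, f₀ i ∈ S.erase x := fun i => (e.symm i).2
  have hf₀sur : ∀ a ∈ S.erase x, ∃ i, f₀ i = a := fun a ha => ⟨e ⟨a, ha⟩, by simp [f₀]⟩
  have hf₀inj : Function.Injective f₀ := fun i j hij => e.symm.injective (Subtype.ext hij)
  have hirr₀ : ∀ i : Fin n, ∃ g : G, (∀ j, j < i → g • f₀ j = f₀ j) ∧ g • f₀ i ≠ f₀ i := by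
    intro i
    obtain ⟨g, hg1, hg2⟩ := hS.2 (f₀ i) (Finset.mem_of_mem_erase (hf₀mem i))
    exact ⟨g, fun j hj => hg1 _ (Finset.mem_of_mem_erase (hf₀mem j))
      (fun h => hj.ne (hf₀inj h)), hg2⟩
  obtain ⟨g₀, hg₀1, hg₀2⟩ := h
  have hirr₁ := irr_snoc f₀ y hirr₀ ⟨g₀, fun j => hg₀1 _ (hf₀mem j), hg₀2⟩
  by_cases hb : ∀ g : G, (∀ i, g • sn f₀ y i = sn f₀ y i) → g = 1
  · have hIB : IB G (n + 1) (sn f₀ y) := ⟨hb, hirr₁⟩
    have hmb := (mb_of_ib RC hIB).1
    have himg : Finset.univ.image (sn f₀ y) = insert y (S.erase x) := by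
      ext a
      simp only [Finset.mem_image, Finset.mem_univ, true_and, Finset.mem_insert]
      constructor
      · rintro ⟨i, rfl⟩
        by_cases hi : i.val < n
        · right; rw [sn_lt f₀ y hi]; exact hf₀mem _
        · left; rw [sn_ge f₀ y hi]
      · rintro (rfl | ha)
        · exact ⟨Fin.last n, sn_ge f₀ _ (by simp)⟩
        · obtain ⟨i, rfl⟩ := hf₀sur a ha
          exact ⟨i.castSucc, sn_lt f₀ y (i := i.castSucc) i.isLt⟩
    rwa [himg] at hmb
  · exfalso
    push Not at hb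
    obtain ⟨g₁, hg₁f, hg₁ne⟩ := hb
    have hg₁e : ∀ a ∈ S.erase x, g₁ • a = a := by
      intro a ha
      obtain ⟨i, rfl⟩ := hf₀sur a ha
      have h1 := hg₁f i.castSucc
      rw [sn_lt f₀ y (i := i.castSucc) i.isLt] at h1
      exact h1
    have hg₁x : g₁ • x ≠ x := by
      intro hx'
      apply hg₁ne
      apply hS.1
      intro a ha
      by_cases hax : a = x
      · rw [hax]; exact hx'
      · exact hg₁e a (Finset.mem_erase.mpr ⟨hax, ha⟩)
    have hirr₂ := irr_snoc (sn f₀ y) x hirr₁ ⟨g₁, hg₁f, hg₁x⟩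
    have hval : ∀ (k : ℕ) (hk : k < n), sn (sn f₀ y) x ⟨k, by omega⟩ = f₀ ⟨k, hk⟩ := by
      intro k hk
      rw [sn_lt (sn f₀ y) x (i := ⟨k, by omega⟩) (by simp; omega)]
      rw [sn_lt f₀ y (i := ⟨k, by omega⟩) hk]
    have hvaly : sn (sn f₀ y) x ⟨n, by omega⟩ = y := by
      rw [sn_lt (sn f₀ y) x (i := ⟨n, by omega⟩) (by simp)]
      rw [sn_ge f₀ y (i := ⟨n, by omega⟩) (by simp)]
    have hvalx : sn (sn f₀ y) x ⟨n + 1, by omega⟩ = x := by
      rw [sn_ge (sn f₀ y) x (i := ⟨n + 1, by omega⟩) (by simp)]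
    have hfixS : ∀ g : G, g • x = x → (∀ (k : ℕ) (hk : k < n), g • f₀ ⟨k, hk⟩ = f₀ ⟨k, hk⟩) →
        g = 1 := by
      intro g hgx hgk
      apply hS.1
      intro a ha
      by_cases hax : a = x
      · rw [hax]; exact hgx
      · obtain ⟨i, rfl⟩ := hf₀sur a (Finset.mem_erase.mpr ⟨hax, ha⟩)
        exact hgk i.val i.isLt
    have hb₂ : ∀ g : G, (∀ i, g • sn (sn f₀ y) x i = sn (sn f₀ y) x i) → g = 1 := by
      intro g hg
      apply hfixS g
      · have h1 := hg ⟨n + 1, by omega⟩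
        rwa [hvalx] at h1
      · intro k hk
        have h1 := hg ⟨k, by omega⟩
        rwa [hval k hk] at h1
    have hIB₂ : IB G (n + 1 + 1) (sn (sn f₀ y) x) := ⟨hb₂, hirr₂⟩
    have hsw := RC _ _ (Equiv.swap (⟨n + 1, by omega⟩ : Fin (n + 1 + 1)) ⟨n, by omega⟩) hIB₂
    obtain ⟨g₂, hg₂1, hg₂2⟩ := hsw.2 ⟨n + 1, by omega⟩
    simp only [Function.comp, Equiv.swap_apply_left] at hg₂2
    rw [hvaly] at hg₂2
    apply hg₂2
    have hg₂ : g₂ = 1 := by
      apply hfixS g₂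
      · have h1 := hg₂1 ⟨n, by omega⟩ (by rw [Fin.lt_def]; simp)
        simp only [Function.comp, Equiv.swap_apply_right] at h1
        rwa [hvalx] at h1
      · intro k hk
        have h1 := hg₂1 ⟨k, by omega⟩ (by rw [Fin.lt_def]; simp; omega)
        simp only [Function.comp] at h1
        rw [Equiv.swap_apply_of_ne_of_ne (by intro h; have := congrArg Fin.val h; simp at this; omega)
          (by intro h; have := congrArg Fin.val h; simp at this; omega)] at h1
        rwa [hval k hk] at h1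
    rw [hg₂, one_smul]

theorem card_eq {G : Type*} {Ω : Type*} [Group G] [MulAction G Ω] [DecidableEq Ω]
    (RC : ∀ (t : ℕ) (f : Fin t → Ω) (σ : Equiv.Perm (Fin t)), IB G t f → IB G t (f ∘ σ)) :
    ∀ (n : ℕ) (B₁ B₂ : Finset Ω), MB G B₁ → MB G B₂ → (B₁ \ B₂).card = n → B₁.card = B₂.card := by
  intro n
  induction n with
  | zero =>
    intro B₁ B₂ h1 h2 hc
    have hsub : B₁ ⊆ B₂ := by
      rw [Finset.card_eq_zero, Finset.sdiff_eq_empty_iff_subset] at hc
      exact hc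
    have hsub2 : B₂ ⊆ B₁ := by
      intro s hs
      by_contra hs1
      obtain ⟨g, hg1, hg2⟩ := h2.2 s hs
      have hg : g = 1 := h1.1 g (fun a ha => hg1 a (hsub ha) (fun h => hs1 (h ▸ ha)))
      exact hg2 (by rw [hg, one_smul])
    rw [Finset.Subset.antisymm hsub hsub2]
  | succ n ih =>
    intro B₁ B₂ h1 h2 hc
    have hne : (B₁ \ B₂).Nonempty := by
      rw [← Finset.card_pos]; omega
    obtain ⟨x, hx⟩ := hne
    rw [Finset.mem_sdiff] at hx
    obtain ⟨g₀, hg1, hg2⟩ := h1.2 x hx.1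
    have hex : ∃ y ∈ B₂, g₀ • y ≠ y := by
      by_contra hcon
      push Not at hcon
      have hg : g₀ = 1 := h2.1 g₀ hcon
      exact hg2 (by rw [hg, one_smul])
    obtain ⟨y, hy, hgy⟩ := hex
    have hyx : y ≠ x := fun h => hx.2 (h ▸ hy)
    have hyB : y ∉ B₁ := fun h => hgy (hg1 y h hyx)
    have hmb := exchange RC B₁ h1 x y
      ⟨g₀, fun a ha => hg1 a (Finset.mem_of_mem_erase ha) (Finset.ne_of_mem_erase ha), hgy⟩
    have hcard : (insert y (B₁.erase x)).card = B₁.card := by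
      rw [Finset.card_insert_of_notMem (fun h => hyB (Finset.mem_of_mem_erase h)),
        Finset.card_erase_of_mem hx.1]
      have : 0 < B₁.card := Finset.card_pos.mpr ⟨x, hx.1⟩
      omega
    have hsd : insert y (B₁.erase x) \ B₂ = (B₁ \ B₂).erase x := by
      ext a
      simp only [Finset.mem_sdiff, Finset.mem_insert, Finset.mem_erase]
      constructor
      · rintro ⟨h | h, h'⟩
        · exact absurd (h ▸ hy) h'
        · exact ⟨h.1, h.2, h'⟩
      · rintro ⟨h, h', h''⟩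
        exact ⟨Or.inr ⟨h, h'⟩, h''⟩
    have hc2 : (insert y (B₁.erase x) \ B₂).card = n := by
      rw [hsd, Finset.card_erase_of_mem (Finset.mem_sdiff.mpr hx), hc]
      rfl
    rw [← hcard]
    exact ih _ _ hmb h2 hc2

/-- Let a finite group G act on a finite set Ω. An irredundant base is a sequence of points ω₁, …, ω_t whose pointwise stabiliser is trivial and in which each ω_i is moved by some element fixing ω₁, …, ω_{i−1}. Then all irredundant bases have the same length if and only if every reordering of an irredundant base is again an irredundant base. -/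
theorem result {G Ω : Type*} [Group G] [Finite G] [MulAction G Ω] [Fintype Ω] :
    (∀ (t t' : ℕ) (f : Fin t → Ω) (f' : Fin t' → Ω), ((∀ g : G, (∀ i : Fin t, g • f i = f i) → g = 1) ∧ ∀ i : Fin t, ∃ g : G, (∀ j : Fin t, j < i → g • f j = f j) ∧ g • f i ≠ f i) → ((∀ g : G, (∀ i : Fin t', g • f' i = f' i) → g = 1) ∧ ∀ i : Fin t', ∃ g : G, (∀ j : Fin t', j < i → g • f' j = f' j) ∧ g • f' i ≠ f' i) → t = t') ↔
    (∀ (t : ℕ) (f : Fin t → Ω) (σ : Equiv.Perm (Fin t)), ((∀ g : G, (∀ i : Fin t, g • f i = f i) → g = 1) ∧ ∀ i : Fin t, ∃ g : G, (∀ j : Fin t, j < i → g • f j = f j) ∧ g • f i ≠ f i) → ((∀ g : G, (∀ i : Fin t, g • (f ∘ σ) i = (f ∘ σ) i) → g = 1) ∧ ∀ i : Fin t, ∃ g : G, (∀ j : Fin t, j < i → g • (f ∘ σ) j = (f ∘ σ) j) ∧ g • (f ∘ σ) i ≠ (f ∘ σ) i)) := by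
  classical
  change (∀ (t t' : ℕ) (f : Fin t → Ω) (f' : Fin t' → Ω), IB G t f → IB G t' f' → t = t') ↔
    (∀ (t : ℕ) (f : Fin t → Ω) (σ : Equiv.Perm (Fin t)), IB G t f → IB G t (f ∘ σ))
  constructor
  · intro hlen t f σ hf
    have hb : ∀ g : G, (∀ i, g • (f ∘ σ) i = (f ∘ σ) i) → g = 1 := by
      intro g hg
      apply hf.1
      intro i
      have h1 := hg (σ.symm i)
      simpa using h1
    obtain ⟨t', f', hle, hIB, hlt⟩ := shrink G t (f ∘ σ) hb
    have ht : t = t' := hlen t t' f f' hf hIB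
    refine ⟨hb, ?_⟩
    by_contra hn
    have := hlt hn
    omega
  · intro RC t t' f f' hf hf'
    obtain ⟨h1, c1⟩ := mb_of_ib RC hf
    obtain ⟨h2, c2⟩ := mb_of_ib RC hf'
    rw [← c1, ← c2]
    exact card_eq RC _ _ _ h1 h2 rfl

end Cfsg.Agent.S5747
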