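import Cfsg.Statements.S5754
-- import your own Cfsg.Agent.* helpers here

set_option autoImplicit false
open Cfsg

namespace Cfsg.Agent.S5754

open QuadraticMap in
/-- value of `Q` on `x + c • d`. -/
theorem map_add_smul' {F V : Type*} [Field F] [AddCommGroup V] [Module F V] (Q : QuadraticForm F V)
    (x d : V) (c : F) : Q (x + c • d) = Q x + c * c * Q d + c * polar Q x d := by
  have h : Q (x + c • d) = Q x + Q (c • d) + polar Q x (c • d) := by
    simp only [polar]; ring
  rw [h, QuadraticMap.map_smul, polar_smul_right, smul_eq_mul, smul_eq_mul]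

open QuadraticMap in
/-- the reflection in a non-singular vector, as a linear map. -/
noncomputable def reflLin {F V : Type*} [Field F] [AddCommGroup V] [Module F V] (Q : QuadraticForm F V)
    (d : V) : V →ₗ[F] V :=
  LinearMap.id - ((Q d)⁻¹ • (polarBilin Q).flip d).smulRight d

open QuadraticMap in
theorem reflLin_apply {F V : Type*} [Field F] [AddCommGroup V] [Module F V] (Q : QuadraticForm F V)
    (d x : V) : reflLin Q d x = x + (-((Q d)⁻¹ * polar Q x d)) • d := by
  simp [reflLin, sub_eq_add_neg]

open QuadraticMap in
theorem reflLin_invol {F V : Type*} [Field F] [AddCommGroup V] [Module F V] (Q : QuadraticForm F V)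
    (d : V) (hd : Q d ≠ 0) : Function.Involutive (reflLin Q d) := by
  intro x
  rw [reflLin_apply, reflLin_apply, polar_add_left, polar_smul_left, polar_self, add_assoc, ← add_smul]
  have : (-((Q d)⁻¹ * polar Q x d) + -((Q d)⁻¹ * (polar Q x d + -((Q d)⁻¹ * polar Q x d) • 2 • Q d))) = 0 := by
    simp only [smul_eq_mul, nsmul_eq_mul]
    field_simp
    ring
  rw [this, zero_smul, add_zero]

open QuadraticMap in
theorem reflLin_isom {F V : Type*} [Field F] [AddCommGroup V] [Module F V] (Q : QuadraticForm F V)
    (d : V) (hd : Q d ≠ 0) (x : V) : Q (reflLin Q d x) = Q x := by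
  rw [reflLin_apply, map_add_smul']
  field_simp
  ring

/-- the reflection as an isometry. -/
noncomputable def refl {F V : Type*} [Field F] [AddCommGroup V] [Module F V] (Q : QuadraticForm F V)
    (d : V) (hd : Q d ≠ 0) : Q.IsometryEquiv Q where
  toLinearEquiv := LinearEquiv.ofInvolutive (reflLin Q d) (reflLin_invol Q d hd)
  map_app' := fun m => reflLin_isom Q d hd m

open QuadraticMap in
theorem refl_apply {F V : Type*} [Field F] [AddCommGroup V] [Module F V] (Q : QuadraticForm F V)
    (d : V) (hd : Q d ≠ 0) (x : V) : refl Q d hd x = x + (-((Q d)⁻¹ * polar Q x d)) • d :=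
  reflLin_apply Q d x

open QuadraticMap in
theorem polar_isom {F V : Type*} [Field F] [AddCommGroup V] [Module F V] (Q : QuadraticForm F V)
    (τ : Q.IsometryEquiv Q) (x y : V) : polar Q (τ x) (τ y) = polar Q x y := by
  simp only [polar]
  rw [← map_add, τ.map_app, τ.map_app, τ.map_app]

open QuadraticMap in
theorem witt {F V : Type*} [Field F] [AddCommGroup V] [Module F V] (Q : QuadraticForm F V)
    (hQ : Q.Anisotropic) : ∀ (n : ℕ) (v v' : Fin n → V), (∀ i, Q (v i) = Q (v' i)) →
      (∀ i j, polar Q (v i) (v j) = polar Q (v' i) (v' j)) →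
      ∃ φ : Q.IsometryEquiv Q, ∀ i, φ (v i) = v' i := by
  intro n
  induction n with
  | zero => intro v v' _ _; exact ⟨QuadraticMap.IsometryEquiv.refl Q, fun i => i.elim0⟩
  | succ n ih =>
    intro v v' hq hb
    obtain ⟨τ, hτ⟩ := ih (fun i => v i.castSucc) (fun i => v' i.castSucc)
      (fun i => hq _) (fun i j => hb _ _)
    set w := τ (v (Fin.last n)) with hw
    set d := v' (Fin.last n) - w with hd
    by_cases hd0 : d = 0
    · refine ⟨τ, fun i => ?_⟩
      induction i using Fin.lastCases with
      | last => rw [← hw]; exact (sub_eq_zero.mp hd0).symm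
      | cast j => exact hτ j
    · have hQd : Q d ≠ 0 := fun h => hd0 (hQ d h)
      have hQw : Q w = Q (v' (Fin.last n)) := by rw [hw, τ.map_app, hq]
      refine ⟨τ.trans (refl Q d hQd), fun i => ?_⟩
      induction i using Fin.lastCases with
      | last =>
        change refl Q d hQd (τ (v (Fin.last n))) = _
        rw [← hw, refl_apply]
        have h1 : Q d = Q (v' (Fin.last n)) + Q w - polar Q w (v' (Fin.last n)) := by
          have := map_add_smul' Q (v' (Fin.last n)) w (-1)
          rw [hd, sub_eq_add_neg, ← neg_one_smul F w, this, polar_comm]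
          ring
        have h2 : polar Q w d = - Q d := by
          rw [h1, hd, polar_sub_right, polar_self, ← hQw, nsmul_eq_mul]
          push_cast
          ring
        rw [h2]
        have : (-((Q d)⁻¹ * -Q d)) = 1 := by field_simp
        rw [this, one_smul, hd]
        abel
      | cast j =>
        change refl Q d hQd (τ (v j.castSucc)) = _
        rw [hτ j, refl_apply]
        have h3 : polar Q (v' j.castSucc) d = 0 := by
          rw [hd, polar_sub_right, hw, ← hτ j, polar_isom, hτ j, hb, sub_self]
        rw [h3, mul_zero, neg_zero, zero_smul, add_zero]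


/-- Let V be a finite-dimensional vector space over a finite field F carrying an anisotropic quadratic form Q (Q(v) = 0 only for v = 0). Then the group of all maps v ↦ φ(v) + c, with φ an isometry of Q and c ∈ V, acts on V as a binary permutation group: given n ≥ 2 and two n-tuples u, u' of vectors such that every pair of corresponding entries of u is carried to that of u' by such a map, one such map carries u to u'. -/
theorem result {F V : Type*} [Field F] [Finite F] [AddCommGroup V] [Module F V] [Module.Finite F V]
    (Q : QuadraticForm F V) (hQ : Q.Anisotropic) (n : ℕ) (hn : 2 ≤ n) (u u' : Fin n → V)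
    (h2 : ∀ i j : Fin n, i ≠ j → ∃ (φ : Q.IsometryEquiv Q) (c : V), φ (u i) + c = u' i ∧ φ (u j) + c = u' j) :
    ∃ (φ : Q.IsometryEquiv Q) (c : V), ∀ i, φ (u i) + c = u' i := by
  classical
  have hpair : ∀ i j : Fin n, Q (u i - u j) = Q (u' i - u' j) := by
    intro i j
    by_cases hij : i = j
    · subst hij; simp
    · obtain ⟨φ, c, h1, h2'⟩ := h2 i j hij
      rw [← h1, ← h2', add_sub_add_right_eq_sub, ← map_sub, φ.map_app]
  have hsub : ∀ a b : V, QuadraticMap.polar Q a b = Q a + Q b - Q (a - b) := by
    intro a b
    have := map_add_smul' Q a b (-1)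
    rw [neg_one_smul, ← sub_eq_add_neg] at this
    rw [this]; ring
  let i0 : Fin n := ⟨0, by omega⟩
  obtain ⟨φ, hφ⟩ := witt Q hQ n (fun i => u i - u i0) (fun i => u' i - u' i0)
    (fun i => hpair i i0)
    (fun i j => by
      rw [hsub, hsub, hpair i i0, hpair j i0]
      congr 1
      rw [sub_sub_sub_cancel_right, sub_sub_sub_cancel_right, hpair i j])
  refine ⟨φ, u' i0 - φ (u i0), fun i => ?_⟩
  have := hφ i
  rw [map_sub] at this
  rw [add_sub_assoc', add_comm, ← add_sub_assoc', this]
  abel

end Cfsg.Agent.S5754
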