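import Cfsg.Statements.S5763
-- import your own Cfsg.Agent.* helpers here
import Mathlib

set_option autoImplicit false
open Cfsg

namespace Cfsg.Agent.S5763


open Equiv
open scoped Pointwise

/-- pair label -/
def pp (i : Fin 8) : ℕ := i.val / 2
/-- quad label -/
def qq (i : Fin 8) : ℕ := i.val / 4

/-- candidate involutions -/
def cand : List (Perm (Fin 8)) :=
  [swap 0 4 * swap 1 5 * swap 2 6 * swap 3 7,
   swap 6 7,
   swap 0 1 * swap 2 3 * swap 4 6 * swap 5 7,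
   swap 0 7 * swap 1 6 * swap 2 5 * swap 3 4,
   swap 2 3,
   swap 0 1,
   swap 0 2 * swap 1 3 * swap 4 5 * swap 6 7,
   swap 0 6 * swap 1 7 * swap 2 5 * swap 3 4,
   swap 0 5 * swap 1 4 * swap 2 6 * swap 3 7,
   swap 0 5 * swap 1 4 * swap 2 7 * swap 3 6,
   swap 0 7 * swap 1 6 * swap 2 4 * swap 3 5]

/-- the check -/
def good (a : Fin 8 → Fin 8) : Prop :=
  ∃ h ∈ cand, ∀ u v : Fin 8, (pp (a u) = pp (a v) → pp (a (h u)) = pp (a (h v))) ∧
    (qq (a u) = qq (a v) → qq (a (h u)) = qq (a (h v)))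

instance (a : Fin 8 → Fin 8) : Decidable (good a) := by unfold good; infer_instance

set_option maxRecDepth 100000 in
set_option synthInstance.maxSize 100000 in
set_option synthInstance.maxHeartbeats 0 in
set_option maxHeartbeats 0 in
theorem bigD : ∀ a0 a1 : Fin 8, a0 < a1 → ∀ a2, a0 < a2 → a2 ≠ a1 → ∀ a3, a2 < a3 → a3 ≠ a1 →
    ∀ a4, a0 < a4 → a4 ≠ a1 → a4 ≠ a2 → a4 ≠ a3 →
    ∀ a5, a4 < a5 → a5 ≠ a1 → a5 ≠ a2 → a5 ≠ a3 →
    ∀ a6, a4 < a6 → a6 ≠ a1 → a6 ≠ a2 → a6 ≠ a3 → a6 ≠ a5 →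
    ∀ a7, a6 < a7 → a7 ≠ a1 → a7 ≠ a2 → a7 ≠ a3 → a7 ≠ a5 →
    good ![a0, a1, a2, a3, a4, a5, a6, a7] := by
  decide +kernel

/-- tree-preserving condition -/
def pres (g : Perm (Fin 8)) : Prop :=
  ∀ i j : Fin 8, (pp (g i) = pp (g j) ↔ pp i = pp j) ∧ (qq (g i) = qq (g j) ↔ qq i = qq j)

instance (g : Perm (Fin 8)) : Decidable (pres g) := by unfold pres; infer_instance

/-- the stabiliser of the standard binary tree -/
def P0 : Subgroup (Perm (Fin 8)) where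
  carrier := {g | pres g}
  mul_mem' := by
    intro a b ha hb i j
    refine ⟨?_, ?_⟩
    · rw [Perm.mul_apply, Perm.mul_apply, (ha (b i) (b j)).1, (hb i j).1]
    · rw [Perm.mul_apply, Perm.mul_apply, (ha (b i) (b j)).2, (hb i j).2]
  one_mem' := fun i j => ⟨Iff.rfl, Iff.rfl⟩
  inv_mem' := by
    intro a ha i j
    have := ha (a⁻¹ i) (a⁻¹ j)
    show (pp (a⁻¹ i) = pp (a⁻¹ j) ↔ pp i = pp j) ∧ (qq (a⁻¹ i) = qq (a⁻¹ j) ↔ qq i = qq j)
    simp only [Equiv.Perm.coe_inv, Equiv.apply_symm_apply] at this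
    exact ⟨this.1.symm, this.2.symm⟩

theorem sq_fix {g : Perm (Fin 8)} (r s : Fin 8 → ℕ) (hr : ∀ i, r (g i) = r i)
    (hs : ∀ i j, s (g i) = s (g j) ↔ s i = s j)
    (hpig : ∀ i j k, r i = r j → r j = r k → s i = s j ∨ s j = s k ∨ s i = s k) (i : Fin 8) :
    s (g (g i)) = s i := by
  rcases hpig i (g i) (g (g i)) (hr i).symm (hr (g i)).symm with h | h | h
  · have := (hs i (g i)).mpr h
    rw [← this, ← h]
  · have := (hs i (g i)).mp h
    rw [← h, ← this]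
  · exact h.symm

theorem pow8 {g : Perm (Fin 8)} (hg : g ∈ P0) : g ^ 8 = 1 := by
  have h1 : ∀ i, qq ((g * g) i) = qq i := fun i =>
    sq_fix (g := g) (fun _ => 0) qq (fun _ => rfl) (fun i j => (hg i j).2)
      (by intro i j k _ _; simp only [qq]; omega) i
  have hg2 : g * g ∈ P0 := P0.mul_mem hg hg
  have h2 : ∀ i, pp ((g * g * (g * g)) i) = pp i := fun i =>
    sq_fix (g := g * g) qq pp h1 (fun i j => (hg2 i j).1)
      (by intro i j k; simp only [qq, pp]; omega) i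
  have h3 : ∀ i, ((g * g * (g * g) * (g * g * (g * g))) i).val = i.val := fun i =>
    sq_fix (g := g * g * (g * g)) pp (fun i => i.val) h2
      (fun i j => by
        constructor
        · intro h; exact congrArg Fin.val ((g * g * (g * g)).injective (Fin.ext h))
        · intro h; rw [Fin.ext h])
      (by intro i j k; simp only [pp]; omega) i
  ext i
  have : g ^ 8 = g * g * (g * g) * (g * g * (g * g)) := by
    simp only [pow_succ, pow_zero, one_mul, mul_assoc]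
  rw [this, h3]
  rfl

theorem P0_pgroup : IsPGroup 2 P0 := by
  intro g
  refine ⟨3, ?_⟩
  apply Subtype.ext
  exact pow8 g.2

/-- the claim -/
def CC (y : Perm (Fin 8)) : Prop := ∃ h, h ≠ 1 ∧ h ∈ P0 ∧ y * h * y⁻¹ ∈ P0

set_option maxRecDepth 100000 in
theorem cand_facts : ∀ h ∈ cand, h ≠ 1 ∧ pres h ∧ ∀ u, h (h u) = u := by
  intro h hh
  simp only [cand, List.mem_cons, List.mem_nil_iff, or_false] at hh
  rcases hh with rfl | rfl | rfl | rfl | rfl | rfl | rfl | rfl | rfl | rfl | rfl <;>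
    refine ⟨?_, ?_, ?_⟩ <;> decide +kernel

theorem CC_of_good (y : Perm (Fin 8)) (hy : good (fun u => y u)) : CC y := by
  obtain ⟨h, hc, hh⟩ := hy
  obtain ⟨h1, h2, h3⟩ := cand_facts h hc
  refine ⟨h, h1, h2, ?_⟩
  intro i j
  have e1 : ∀ i, (y * h * y⁻¹) i = y (h (y⁻¹ i)) := fun i => rfl
  have A := hh (y⁻¹ i) (y⁻¹ j)
  have B := hh (h (y⁻¹ i)) (h (y⁻¹ j))
  have e2 : ∀ i, y (y⁻¹ i) = i := fun i => by simp
  simp only [h3, e2] at A B
  rw [e1, e1]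
  exact ⟨⟨B.1, A.1⟩, ⟨B.2, A.2⟩⟩

theorem CC_right (y s : Perm (Fin 8)) (hs : s ∈ P0) (hC : CC (y * s)) : CC y := by
  obtain ⟨h, h1, h2, h3⟩ := hC
  refine ⟨s * h * s⁻¹, ?_, P0.mul_mem (P0.mul_mem hs h2) (P0.inv_mem hs), ?_⟩
  · intro he
    apply h1
    have : h = s⁻¹ * (s * h * s⁻¹) * s := by group
    rw [this, he]; group
  · have : y * (s * h * s⁻¹) * y⁻¹ = y * s * h * (y * s)⁻¹ := by group
    rw [this]; exact h3

theorem C_norm (y : Perm (Fin 8)) (h01 : y 0 < y 1) (h23 : y 2 < y 3) (h45 : y 4 < y 5)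
    (h67 : y 6 < y 7) (h02 : y 0 < y 2) (h46 : y 4 < y 6) (h04 : y 0 < y 4) : CC y := by
  apply CC_of_good
  have ne : ∀ a b : Fin 8, a ≠ b → y a ≠ y b := fun a b h => y.injective.ne h
  have := bigD (y 0) (y 1) h01 (y 2) h02 (ne _ _ (by decide)) (y 3) h23 (ne _ _ (by decide))
    (y 4) h04 (ne _ _ (by decide)) (ne _ _ (by decide)) (ne _ _ (by decide))
    (y 5) h45 (ne _ _ (by decide)) (ne _ _ (by decide)) (ne _ _ (by decide))
    (y 6) h46 (ne _ _ (by decide)) (ne _ _ (by decide)) (ne _ _ (by decide)) (ne _ _ (by decide))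
    (y 7) h67 (ne _ _ (by decide)) (ne _ _ (by decide)) (ne _ _ (by decide)) (ne _ _ (by decide))
  have e : (fun u => y u) = ![y 0, y 1, y 2, y 3, y 4, y 5, y 6, y 7] := by
    funext u
    fin_cases u <;> rfl
  rw [e]
  exact this

theorem lvl6 (y : Perm (Fin 8)) (h01 : y 0 < y 1) (h23 : y 2 < y 3) (h45 : y 4 < y 5) (h67 : y 6 < y 7) (h02 : y 0 < y 2) (h46 : y 4 < y 6) : CC y := by
  rcases lt_or_gt_of_ne (y.injective.ne (show ((0 : Fin 8)) ≠ 4 by decide)) with h | h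
  · exact C_norm y h01 h23 h45 h67 h02 h46 h
  · refine CC_right y (swap 0 4 * swap 1 5 * swap 2 6 * swap 3 7) (show pres _ by decide +kernel) (C_norm _ ?_ ?_ ?_ ?_ ?_ ?_ ?_)
    · show y ((swap 0 4 * swap 1 5 * swap 2 6 * swap 3 7 : Perm (Fin 8)) 0) < y ((swap 0 4 * swap 1 5 * swap 2 6 * swap 3 7 : Perm (Fin 8)) 1)
      rw [show (swap 0 4 * swap 1 5 * swap 2 6 * swap 3 7 : Perm (Fin 8)) 0 = 4 by decide, show (swap 0 4 * swap 1 5 * swap 2 6 * swap 3 7 : Perm (Fin 8)) 1 = 5 by decide]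
      exact h45
    · show y ((swap 0 4 * swap 1 5 * swap 2 6 * swap 3 7 : Perm (Fin 8)) 2) < y ((swap 0 4 * swap 1 5 * swap 2 6 * swap 3 7 : Perm (Fin 8)) 3)
      rw [show (swap 0 4 * swap 1 5 * swap 2 6 * swap 3 7 : Perm (Fin 8)) 2 = 6 by decide, show (swap 0 4 * swap 1 5 * swap 2 6 * swap 3 7 : Perm (Fin 8)) 3 = 7 by decide]
      exact h67
    · show y ((swap 0 4 * swap 1 5 * swap 2 6 * swap 3 7 : Perm (Fin 8)) 4) < y ((swap 0 4 * swap 1 5 * swap 2 6 * swap 3 7 : Perm (Fin 8)) 5)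
      rw [show (swap 0 4 * swap 1 5 * swap 2 6 * swap 3 7 : Perm (Fin 8)) 4 = 0 by decide, show (swap 0 4 * swap 1 5 * swap 2 6 * swap 3 7 : Perm (Fin 8)) 5 = 1 by decide]
      exact h01
    · show y ((swap 0 4 * swap 1 5 * swap 2 6 * swap 3 7 : Perm (Fin 8)) 6) < y ((swap 0 4 * swap 1 5 * swap 2 6 * swap 3 7 : Perm (Fin 8)) 7)
      rw [show (swap 0 4 * swap 1 5 * swap 2 6 * swap 3 7 : Perm (Fin 8)) 6 = 2 by decide, show (swap 0 4 * swap 1 5 * swap 2 6 * swap 3 7 : Perm (Fin 8)) 7 = 3 by decide]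
      exact h23
    · show y ((swap 0 4 * swap 1 5 * swap 2 6 * swap 3 7 : Perm (Fin 8)) 0) < y ((swap 0 4 * swap 1 5 * swap 2 6 * swap 3 7 : Perm (Fin 8)) 2)
      rw [show (swap 0 4 * swap 1 5 * swap 2 6 * swap 3 7 : Perm (Fin 8)) 0 = 4 by decide, show (swap 0 4 * swap 1 5 * swap 2 6 * swap 3 7 : Perm (Fin 8)) 2 = 6 by decide]
      exact h46
    · show y ((swap 0 4 * swap 1 5 * swap 2 6 * swap 3 7 : Perm (Fin 8)) 4) < y ((swap 0 4 * swap 1 5 * swap 2 6 * swap 3 7 : Perm (Fin 8)) 6)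
      rw [show (swap 0 4 * swap 1 5 * swap 2 6 * swap 3 7 : Perm (Fin 8)) 4 = 0 by decide, show (swap 0 4 * swap 1 5 * swap 2 6 * swap 3 7 : Perm (Fin 8)) 6 = 2 by decide]
      exact h02
    · show y ((swap 0 4 * swap 1 5 * swap 2 6 * swap 3 7 : Perm (Fin 8)) 0) < y ((swap 0 4 * swap 1 5 * swap 2 6 * swap 3 7 : Perm (Fin 8)) 4)
      rw [show (swap 0 4 * swap 1 5 * swap 2 6 * swap 3 7 : Perm (Fin 8)) 0 = 4 by decide, show (swap 0 4 * swap 1 5 * swap 2 6 * swap 3 7 : Perm (Fin 8)) 4 = 0 by decide]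
      exact h

theorem lvl5 (y : Perm (Fin 8)) (h01 : y 0 < y 1) (h23 : y 2 < y 3) (h45 : y 4 < y 5) (h67 : y 6 < y 7) (h02 : y 0 < y 2) : CC y := by
  rcases lt_or_gt_of_ne (y.injective.ne (show ((4 : Fin 8)) ≠ 6 by decide)) with h | h
  · exact lvl6 y h01 h23 h45 h67 h02 h
  · refine CC_right y (swap 4 6 * swap 5 7) (show pres _ by decide +kernel) (lvl6 _ ?_ ?_ ?_ ?_ ?_ ?_)
    · show y ((swap 4 6 * swap 5 7 : Perm (Fin 8)) 0) < y ((swap 4 6 * swap 5 7 : Perm (Fin 8)) 1)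
      rw [show (swap 4 6 * swap 5 7 : Perm (Fin 8)) 0 = 0 by decide, show (swap 4 6 * swap 5 7 : Perm (Fin 8)) 1 = 1 by decide]
      exact h01
    · show y ((swap 4 6 * swap 5 7 : Perm (Fin 8)) 2) < y ((swap 4 6 * swap 5 7 : Perm (Fin 8)) 3)
      rw [show (swap 4 6 * swap 5 7 : Perm (Fin 8)) 2 = 2 by decide, show (swap 4 6 * swap 5 7 : Perm (Fin 8)) 3 = 3 by decide]
      exact h23
    · show y ((swap 4 6 * swap 5 7 : Perm (Fin 8)) 4) < y ((swap 4 6 * swap 5 7 : Perm (Fin 8)) 5)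
      rw [show (swap 4 6 * swap 5 7 : Perm (Fin 8)) 4 = 6 by decide, show (swap 4 6 * swap 5 7 : Perm (Fin 8)) 5 = 7 by decide]
      exact h67
    · show y ((swap 4 6 * swap 5 7 : Perm (Fin 8)) 6) < y ((swap 4 6 * swap 5 7 : Perm (Fin 8)) 7)
      rw [show (swap 4 6 * swap 5 7 : Perm (Fin 8)) 6 = 4 by decide, show (swap 4 6 * swap 5 7 : Perm (Fin 8)) 7 = 5 by decide]
      exact h45
    · show y ((swap 4 6 * swap 5 7 : Perm (Fin 8)) 0) < y ((swap 4 6 * swap 5 7 : Perm (Fin 8)) 2)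
      rw [show (swap 4 6 * swap 5 7 : Perm (Fin 8)) 0 = 0 by decide, show (swap 4 6 * swap 5 7 : Perm (Fin 8)) 2 = 2 by decide]
      exact h02
    · show y ((swap 4 6 * swap 5 7 : Perm (Fin 8)) 4) < y ((swap 4 6 * swap 5 7 : Perm (Fin 8)) 6)
      rw [show (swap 4 6 * swap 5 7 : Perm (Fin 8)) 4 = 6 by decide, show (swap 4 6 * swap 5 7 : Perm (Fin 8)) 6 = 4 by decide]
      exact h

theorem lvl4 (y : Perm (Fin 8)) (h01 : y 0 < y 1) (h23 : y 2 < y 3) (h45 : y 4 < y 5) (h67 : y 6 < y 7) : CC y := by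
  rcases lt_or_gt_of_ne (y.injective.ne (show ((0 : Fin 8)) ≠ 2 by decide)) with h | h
  · exact lvl5 y h01 h23 h45 h67 h
  · refine CC_right y (swap 0 2 * swap 1 3) (show pres _ by decide +kernel) (lvl5 _ ?_ ?_ ?_ ?_ ?_)
    · show y ((swap 0 2 * swap 1 3 : Perm (Fin 8)) 0) < y ((swap 0 2 * swap 1 3 : Perm (Fin 8)) 1)
      rw [show (swap 0 2 * swap 1 3 : Perm (Fin 8)) 0 = 2 by decide, show (swap 0 2 * swap 1 3 : Perm (Fin 8)) 1 = 3 by decide]
      exact h23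
    · show y ((swap 0 2 * swap 1 3 : Perm (Fin 8)) 2) < y ((swap 0 2 * swap 1 3 : Perm (Fin 8)) 3)
      rw [show (swap 0 2 * swap 1 3 : Perm (Fin 8)) 2 = 0 by decide, show (swap 0 2 * swap 1 3 : Perm (Fin 8)) 3 = 1 by decide]
      exact h01
    · show y ((swap 0 2 * swap 1 3 : Perm (Fin 8)) 4) < y ((swap 0 2 * swap 1 3 : Perm (Fin 8)) 5)
      rw [show (swap 0 2 * swap 1 3 : Perm (Fin 8)) 4 = 4 by decide, show (swap 0 2 * swap 1 3 : Perm (Fin 8)) 5 = 5 by decide]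
      exact h45
    · show y ((swap 0 2 * swap 1 3 : Perm (Fin 8)) 6) < y ((swap 0 2 * swap 1 3 : Perm (Fin 8)) 7)
      rw [show (swap 0 2 * swap 1 3 : Perm (Fin 8)) 6 = 6 by decide, show (swap 0 2 * swap 1 3 : Perm (Fin 8)) 7 = 7 by decide]
      exact h67
    · show y ((swap 0 2 * swap 1 3 : Perm (Fin 8)) 0) < y ((swap 0 2 * swap 1 3 : Perm (Fin 8)) 2)
      rw [show (swap 0 2 * swap 1 3 : Perm (Fin 8)) 0 = 2 by decide, show (swap 0 2 * swap 1 3 : Perm (Fin 8)) 2 = 0 by decide]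
      exact h

theorem lvl3 (y : Perm (Fin 8)) (h01 : y 0 < y 1) (h23 : y 2 < y 3) (h45 : y 4 < y 5) : CC y := by
  rcases lt_or_gt_of_ne (y.injective.ne (show ((6 : Fin 8)) ≠ 7 by decide)) with h | h
  · exact lvl4 y h01 h23 h45 h
  · refine CC_right y (swap 6 7) (show pres _ by decide +kernel) (lvl4 _ ?_ ?_ ?_ ?_)
    · show y ((swap 6 7 : Perm (Fin 8)) 0) < y ((swap 6 7 : Perm (Fin 8)) 1)
      rw [show (swap 6 7 : Perm (Fin 8)) 0 = 0 by decide, show (swap 6 7 : Perm (Fin 8)) 1 = 1 by decide]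
      exact h01
    · show y ((swap 6 7 : Perm (Fin 8)) 2) < y ((swap 6 7 : Perm (Fin 8)) 3)
      rw [show (swap 6 7 : Perm (Fin 8)) 2 = 2 by decide, show (swap 6 7 : Perm (Fin 8)) 3 = 3 by decide]
      exact h23
    · show y ((swap 6 7 : Perm (Fin 8)) 4) < y ((swap 6 7 : Perm (Fin 8)) 5)
      rw [show (swap 6 7 : Perm (Fin 8)) 4 = 4 by decide, show (swap 6 7 : Perm (Fin 8)) 5 = 5 by decide]
      exact h45
    · show y ((swap 6 7 : Perm (Fin 8)) 6) < y ((swap 6 7 : Perm (Fin 8)) 7)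
      rw [show (swap 6 7 : Perm (Fin 8)) 6 = 7 by decide, show (swap 6 7 : Perm (Fin 8)) 7 = 6 by decide]
      exact h

theorem lvl2 (y : Perm (Fin 8)) (h01 : y 0 < y 1) (h23 : y 2 < y 3) : CC y := by
  rcases lt_or_gt_of_ne (y.injective.ne (show ((4 : Fin 8)) ≠ 5 by decide)) with h | h
  · exact lvl3 y h01 h23 h
  · refine CC_right y (swap 4 5) (show pres _ by decide +kernel) (lvl3 _ ?_ ?_ ?_)
    · show y ((swap 4 5 : Perm (Fin 8)) 0) < y ((swap 4 5 : Perm (Fin 8)) 1)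
      rw [show (swap 4 5 : Perm (Fin 8)) 0 = 0 by decide, show (swap 4 5 : Perm (Fin 8)) 1 = 1 by decide]
      exact h01
    · show y ((swap 4 5 : Perm (Fin 8)) 2) < y ((swap 4 5 : Perm (Fin 8)) 3)
      rw [show (swap 4 5 : Perm (Fin 8)) 2 = 2 by decide, show (swap 4 5 : Perm (Fin 8)) 3 = 3 by decide]
      exact h23
    · show y ((swap 4 5 : Perm (Fin 8)) 4) < y ((swap 4 5 : Perm (Fin 8)) 5)
      rw [show (swap 4 5 : Perm (Fin 8)) 4 = 5 by decide, show (swap 4 5 : Perm (Fin 8)) 5 = 4 by decide]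
      exact h

theorem lvl1 (y : Perm (Fin 8)) (h01 : y 0 < y 1) : CC y := by
  rcases lt_or_gt_of_ne (y.injective.ne (show ((2 : Fin 8)) ≠ 3 by decide)) with h | h
  · exact lvl2 y h01 h
  · refine CC_right y (swap 2 3) (show pres _ by decide +kernel) (lvl2 _ ?_ ?_)
    · show y ((swap 2 3 : Perm (Fin 8)) 0) < y ((swap 2 3 : Perm (Fin 8)) 1)
      rw [show (swap 2 3 : Perm (Fin 8)) 0 = 0 by decide, show (swap 2 3 : Perm (Fin 8)) 1 = 1 by decide]
      exact h01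
    · show y ((swap 2 3 : Perm (Fin 8)) 2) < y ((swap 2 3 : Perm (Fin 8)) 3)
      rw [show (swap 2 3 : Perm (Fin 8)) 2 = 3 by decide, show (swap 2 3 : Perm (Fin 8)) 3 = 2 by decide]
      exact h

theorem lvl0 (y : Perm (Fin 8))  : CC y := by
  rcases lt_or_gt_of_ne (y.injective.ne (show ((0 : Fin 8)) ≠ 1 by decide)) with h | h
  · exact lvl1 y  h
  · refine CC_right y (swap 0 1) (show pres _ by decide +kernel) (lvl1 _ ?_)
    · show y ((swap 0 1 : Perm (Fin 8)) 0) < y ((swap 0 1 : Perm (Fin 8)) 1)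
      rw [show (swap 0 1 : Perm (Fin 8)) 0 = 1 by decide, show (swap 0 1 : Perm (Fin 8)) 1 = 0 by decide]
      exact h

/-- In the symmetric group on 8 letters any two Sylow 2-subgroups have non-trivial intersection: for a Sylow 2-subgroup H and every element x, H ∩ xHx⁻¹ ≠ 1. -/
theorem result (H : Sylow 2 (Equiv.Perm (Fin 8))) (x : Equiv.Perm (Fin 8)) :
    (H : Subgroup (Equiv.Perm (Fin 8))) ⊓ (H : Subgroup (Equiv.Perm (Fin 8))).map (MulAut.conj x).toMonoidHom ≠ ⊥ := by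
  obtain ⟨Q, hQ⟩ := P0_pgroup.exists_le_sylow
  obtain ⟨c, hc⟩ := MulAction.exists_smul_eq (Equiv.Perm (Fin 8)) Q H
  have hin : ∀ g ∈ P0, c * g * c⁻¹ ∈ (H : Subgroup (Equiv.Perm (Fin 8))) := by
    intro g hg
    rw [← hc]
    have h2 : MulAut.conj c • g ∈ MulAut.conj c • (Q : Subgroup (Equiv.Perm (Fin 8))) :=
      Subgroup.smul_mem_pointwise_smul _ _ _ (hQ hg)
    exact h2
  obtain ⟨h, h1, h2, h3⟩ := lvl0 (c⁻¹ * x * c)
  intro hbot
  have hw : c * ((c⁻¹ * x * c) * h * (c⁻¹ * x * c)⁻¹) * c⁻¹ ∈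
      (H : Subgroup (Equiv.Perm (Fin 8))) ⊓
        (H : Subgroup (Equiv.Perm (Fin 8))).map (MulAut.conj x).toMonoidHom := by
    refine ⟨hin _ h3, ?_⟩
    refine ⟨c * h * c⁻¹, hin _ h2, ?_⟩
    show x * (c * h * c⁻¹) * x⁻¹ = _
    group
  rw [hbot, Subgroup.mem_bot] at hw
  apply h1
  have : h = (c⁻¹ * x * c)⁻¹ * (c⁻¹ * (c * ((c⁻¹ * x * c) * h * (c⁻¹ * x * c)⁻¹) * c⁻¹) * c) *
      (c⁻¹ * x * c) := by group
  rw [this, hw]
  group

end Cfsg.Agent.S5763
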