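import Cfsg.Statements.S5885
-- import your own Cfsg.Agent.* helpers here
import Mathlib
import Cfsg.Agent.Lib.Helper29.Coatom

set_option autoImplicit false
open Cfsg

namespace Cfsg.Agent.S5885


open Equiv
open scoped Pointwise

theorem exists_three {G : Type*} [Group G] (n : ℕ) (ρ : G →* Equiv.Perm (Fin n))
    (hA : alternatingGroup (Fin n) ≤ ρ.range) (a b c : Fin n) (hab : a ≠ b) (hac : a ≠ c) :
    ∃ g : G, ρ g = swap a b * swap a c := by
  have h : swap a b * swap a c ∈ alternatingGroup (Fin n) := by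
    rw [Equiv.Perm.mem_alternatingGroup, Equiv.Perm.sign_mul, Equiv.Perm.sign_swap hab,
      Equiv.Perm.sign_swap hac]
    rfl
  exact hA h

theorem core {G : Type*} [Group G] [Finite G] (n : ℕ) (hodd : Odd n)
    (ρ : G →* Equiv.Perm (Fin n))
    (hA : alternatingGroup (Fin n) ≤ ρ.range) (α : Fin n)
    (M H K : Subgroup G) (hM : ∀ g, g ∈ M ↔ ρ g α = α)
    (hHM : H ≤ M) (hmax : ∀ X : Subgroup G, H ≤ X → X ≤ M → X = H ∨ X = M)
    (hHK : H ≤ K) (hMK : ¬ M ≤ K)
    (L : Subgroup G) (hHL : H ≤ L) (hLK : L ≤ K) : L = H ∨ L = K := by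
  by_contra hcon
  push Not at hcon
  obtain ⟨hLH, hLK'⟩ := hcon
  have hKM : ∀ g, g ∈ K → g ∈ M → g ∈ H := by
    rcases hmax (K ⊓ M) (le_inf hHK hHM) inf_le_right with h | h
    · intro g h1 h2
      rw [← h]; exact ⟨h1, h2⟩
    · exfalso
      apply hMK
      rw [← h]; exact inf_le_left
  obtain ⟨B, hB⟩ : ∃ B : Set (Fin n), B = {x | ∃ l ∈ L, ρ l α = x} := ⟨_, rfl⟩
  have hBmem : ∀ x, x ∈ B ↔ ∃ l ∈ L, ρ l α = x := by intro x; rw [hB]; rfl
  have hαB : α ∈ B := (hBmem α).mpr ⟨1, L.one_mem, by simp⟩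
  obtain ⟨l0, hl0L, hl0H⟩ : ∃ l0 ∈ L, l0 ∉ H := by
    by_contra hc
    push Not at hc
    exact hLH (le_antisymm hc hHL)
  obtain ⟨k, hkK, hkL⟩ : ∃ k ∈ K, k ∉ L := by
    by_contra hc
    push Not at hc
    exact hLK' (le_antisymm hLK hc)
  obtain ⟨β, hβ⟩ : ∃ β, β = ρ l0 α := ⟨_, rfl⟩
  have hβB : β ∈ B := (hBmem β).mpr ⟨l0, hl0L, hβ.symm⟩
  have hβα : β ≠ α := by
    intro h
    apply hl0H
    exact hKM l0 (hLK hl0L) ((hM l0).mpr (by rw [← hβ, h]))
  -- elements of K carrying a point of B to a point of B lie in L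
  have hKL : ∀ c ∈ K, ∀ x ∈ B, ρ c x ∈ B → c ∈ L := by
    intro c hc x hx hcx
    obtain ⟨l1, hl1, rfl⟩ := (hBmem x).mp hx
    obtain ⟨l2, hl2, h2⟩ := (hBmem _).mp hcx
    have h3 : l2⁻¹ * c * l1 ∈ H := by
      apply hKM
      · exact K.mul_mem (K.mul_mem (K.inv_mem (hLK hl2)) hc) (hLK hl1)
      · rw [hM]
        simp only [map_mul, map_inv, Equiv.Perm.mul_apply]
        rw [← h2]
        simp
    have h4 : c = l2 * (l2⁻¹ * c * l1) * l1⁻¹ := by group
    rw [h4]
    exact L.mul_mem (L.mul_mem hl2 (hHL h3)) (L.inv_mem hl1)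
  have hLB : ∀ l ∈ L, ∀ x ∈ B, ρ l x ∈ B := by
    intro l hl x hx
    obtain ⟨l1, hl1, rfl⟩ := (hBmem x).mp hx
    exact (hBmem _).mpr ⟨l * l1, L.mul_mem hl hl1, by simp⟩
  have hdisj : ∀ x ∈ B, ρ k x ∉ B := fun x hx h => hkL (hKL k hkK x hx h)
  obtain ⟨x', hx'⟩ : ∃ x', x' = ρ k α := ⟨_, rfl⟩
  obtain ⟨y', hy'⟩ : ∃ y', y' = ρ k β := ⟨_, rfl⟩
  have hx'B : x' ∉ B := by rw [hx']; exact hdisj α hαB
  have hy'B : y' ∉ B := by rw [hy']; exact hdisj β hβB
  have hxy : x' ≠ y' := by
    rw [hx', hy']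
    intro h
    exact hβα ((ρ k).injective h).symm
  -- the stabilizer of B
  obtain ⟨Y, hYdef⟩ : ∃ Y : Subgroup G,
      Y = (MulAction.stabilizer (Equiv.Perm (Fin n)) B).comap ρ := ⟨_, rfl⟩
  have hY : ∀ g, g ∈ Y ↔ ∀ x ∈ B, ρ g x ∈ B := by
    intro g
    rw [hYdef, Subgroup.mem_comap, MulAction.mem_stabilizer_set_iff_smul_set_subset (Set.toFinite B)]
    constructor
    · intro h x hx
      exact h ⟨x, hx, rfl⟩
    · rintro h _ ⟨x, hx, rfl⟩
      exact h x hx
  have hLY : L ≤ Y := fun l hl => (hY l).mpr (hLB l hl)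
  rcases hmax (Y ⊓ M) (le_inf (hHL.trans hLY) hHM) inf_le_right with hX | hX
  · -- Y ⊓ M = H
    have hfixH : ∀ g : G, (∀ x ∈ B, ρ g x = x) → g ∈ H := by
      intro g hg
      rw [← hX]
      refine ⟨(hY g).mpr (fun x hx => by rw [hg x hx]; exact hx), (hM g).mpr (hg α hαB)⟩
    have hcover : ∀ z, z ∈ B ∨ z ∈ (ρ k) '' B := by
      intro z
      by_contra hz
      push Not at hz
      obtain ⟨hzB, hzB'⟩ := hz
      have hzx : x' ≠ z := by
        intro h
        exact hzB' ⟨α, hαB, by rw [← hx', h]⟩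
      have hzy : y' ≠ z := by
        intro h
        exact hzB' ⟨β, hβB, by rw [← hy', h]⟩
      obtain ⟨g, hg⟩ := exists_three n ρ hA y' x' z hxy.symm hzy
      have hgH : g ∈ H := by
        apply hfixH
        intro x hx
        have h1 : x ≠ y' := fun h => hy'B (h ▸ hx)
        have h2 : x ≠ x' := fun h => hx'B (h ▸ hx)
        have h3 : x ≠ z := fun h => hzB (h ▸ hx)
        rw [hg, Equiv.Perm.mul_apply, swap_apply_of_ne_of_ne h1 h3, swap_apply_of_ne_of_ne h1 h2]
      have hgx : ρ g x' = y' := by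
        rw [hg, Equiv.Perm.mul_apply, swap_apply_of_ne_of_ne hxy hzx, swap_apply_right]
      have hgy : ρ g y' = z := by
        rw [hg, Equiv.Perm.mul_apply, swap_apply_left, swap_apply_of_ne_of_ne hzy.symm hzx.symm]
      have hc : k⁻¹ * g * k ∈ L := by
        apply hKL _ (K.mul_mem (K.mul_mem (K.inv_mem hkK) (hHK hgH)) hkK) α hαB
        simp only [map_mul, map_inv, Equiv.Perm.mul_apply]
        rw [← hx', hgx, hy']
        simpa using hβB
      have h5 := hLB _ hc β hβB
      simp only [map_mul, map_inv, Equiv.Perm.mul_apply] at h5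
      rw [← hy', hgy] at h5
      apply hzB'
      exact ⟨_, h5, by simp⟩
    have hun : B ∪ (ρ k) '' B = Set.univ := by
      ext z
      simp only [Set.mem_union, Set.mem_univ, iff_true]
      exact hcover z
    have hdj : Disjoint B ((ρ k) '' B) := by
      rw [Set.disjoint_left]
      rintro _ h1 ⟨x, hx, rfl⟩
      exact hdisj x hx h1
    have hcard := Set.ncard_union_eq hdj (Set.toFinite _) (Set.toFinite _)
    rw [hun, Set.ncard_univ, Nat.card_eq_fintype_card, Fintype.card_fin,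
      Set.ncard_image_of_injective _ (ρ k).injective] at hcard
    rw [hcard] at hodd
    exact (Nat.not_even_iff_odd.mpr hodd) ⟨_, rfl⟩
  · -- M ≤ Y
    have hMY : M ≤ Y := by rw [← hX]; exact inf_le_left
    have hβx : β ≠ x' := fun h => hx'B (h ▸ hβB)
    have hβy : β ≠ y' := fun h => hy'B (h ▸ hβB)
    have hαx : α ≠ x' := fun h => hx'B (h ▸ hαB)
    have hαy : α ≠ y' := fun h => hy'B (h ▸ hαB)
    obtain ⟨g, hg⟩ := exists_three n ρ hA β y' x' hβy hβx
    have hgM : g ∈ M := by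
      rw [hM, hg, Equiv.Perm.mul_apply, swap_apply_of_ne_of_ne hβα.symm hαx,
        swap_apply_of_ne_of_ne hβα.symm hαy]
    have h1 := (hY g).mp (hMY hgM) β hβB
    rw [hg, Equiv.Perm.mul_apply, swap_apply_left, swap_apply_of_ne_of_ne hβx.symm hxy] at h1
    exact hx'B h1

/-- Let n be an odd positive integer such that every primitive permutation group of degree n contains the alternating group (so the symmetric and alternating groups are the only primitive groups of degree n). Let G be a finite group, M a maximal subgroup of G of index n, and H a maximal subgroup of M. Then H is a second maximal subgroup of G: H is maximal in every maximal subgroup K of G containing H. -/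
theorem result {G : Type*} [Group G]
    [Finite G] (n : ℕ) (hodd : Odd n)
    (hA : ∀ P : Subgroup (Equiv.Perm (Fin n)), MulAction.IsPreprimitive P (Fin n) → alternatingGroup (Fin n) ≤ P)
    (M : Subgroup G) (hM : IsCoatom M) (hn : M.index = n) (H : Subgroup G) (hHM : H ≤ M)
    (hmax : IsCoatom (H.subgroupOf M)) (K : Subgroup G) (hK : IsCoatom K) (hHK : H ≤ K) :
    IsCoatom (H.subgroupOf K) := by
  classical
  by_cases hKM : K = M
  · subst hKM; exact hmax
  have hMtop : M ≠ ⊤ := hM.1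
  have hKtop : K ≠ ⊤ := hK.1
  have hcard : Nat.card (G ⧸ M) = n := by rw [← Subgroup.index_eq_card]; exact hn
  let e : (G ⧸ M) ≃ Fin n := Finite.equivFinOfCardEq hcard
  let ρ : G →* Equiv.Perm (Fin n) :=
    (e.permCongrHom.toMonoidHom).comp (MulAction.toPermHom G (G ⧸ M))
  have hρ : ∀ (g : G) (x : G ⧸ M), ρ g (e x) = e (g • x) := by
    intro g x
    simp [ρ, Equiv.permCongrHom, Equiv.permCongr_apply]
  have hnt : Nontrivial (G ⧸ M) := by
    rw [← Finite.one_lt_card_iff_nontrivial, ← Subgroup.index_eq_card]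
    have h0 : M.index ≠ 0 := Subgroup.index_ne_zero_of_finite
    have h1 : M.index ≠ 1 := fun h => hMtop (Subgroup.index_eq_one.mp h)
    omega
  have hprim : MulAction.IsPreprimitive G (G ⧸ M) := by
    apply (MulAction.isCoatom_stabilizer_iff_preprimitive G ((1 : G) : G ⧸ M)).mp
    rw [MulAction.stabilizer_quotient M]
    exact hM
  let f : (G ⧸ M) →ₑ[ρ.rangeRestrict] Fin n :=
    { toFun := e
      map_smul' := by
        intro g x
        exact (hρ g x).symm }
  have hprim2 : MulAction.IsPreprimitive ρ.range (Fin n) :=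
    MulAction.IsPreprimitive.of_surjective (f := f) e.surjective
  have hAr := hA ρ.range hprim2
  have hMmem : ∀ g, g ∈ M ↔ ρ g (e ((1 : G) : G ⧸ M)) = e ((1 : G) : G ⧸ M) := by
    intro g
    rw [hρ, e.apply_eq_iff_eq, ← MulAction.mem_stabilizer_iff, MulAction.stabilizer_quotient M]
  have hMK : ¬ M ≤ K := by
    intro h
    rcases eq_or_lt_of_le h with h1 | h1
    · exact hKM h1.symm
    · exact hKtop (hM.2 K h1)
  have hne : H ≠ K := by
    intro h
    rw [h] at hHM
    rcases eq_or_lt_of_le hHM with h1 | h1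
    · exact hKM h1
    · exact hMtop (hK.2 M h1)
  exact Cfsg.Agent.Lib.Helper29.isCoatom_subgroupOf hHK hne
    (fun L h1 h2 => core n hodd ρ hAr (e ((1 : G) : G ⧸ M)) M H K hMmem hHM
      (Cfsg.Agent.Lib.Helper29.eq_or_eq_of_isCoatom_subgroupOf hmax) hHK hMK L h1 h2)

end Cfsg.Agent.S5885
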