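import Cfsg.Statements.S5895
-- import your own Cfsg.Agent.* helpers here
import Cfsg.Agent.Lib.Helper29.Coatom

set_option autoImplicit false
open Cfsg

namespace Cfsg.Agent.S5895

open Cfsg.Agent.Lib.Helper29

/-- The affine group `F ⋊ L` for a subgroup `L` of the multiplicative group of `F`. -/
structure Aff {F : Type} [Field F] (L : Subgroup Fˣ) where
  t : F
  a : L

namespace Aff

variable {F : Type} [Field F] {L : Subgroup Fˣ}

theorem ext' {x y : Aff L} (h1 : x.t = y.t) (h2 : x.a = y.a) : x = y := by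
  cases x; cases y; simp_all

instance instGroup : Group (Aff L) where
  mul x y := ⟨x.t + ((x.a : Fˣ) : F) * y.t, x.a * y.a⟩
  one := ⟨0, 1⟩
  inv x := ⟨-((((x.a⁻¹ : L) : Fˣ) : F) * x.t), x.a⁻¹⟩
  mul_assoc x y z := by
    apply ext'
    · change x.t + ((x.a : Fˣ) : F) * y.t + (((x.a * y.a : L) : Fˣ) : F) * z.t
        = x.t + ((x.a : Fˣ) : F) * (y.t + ((y.a : Fˣ) : F) * z.t)
      push_cast; ring
    · exact mul_assoc _ _ _
  one_mul x := by
    apply ext'
    · change (0 : F) + (((1 : L) : Fˣ) : F) * x.t = x.t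
      simp
    · exact one_mul _
  mul_one x := by
    apply ext'
    · change x.t + ((x.a : Fˣ) : F) * 0 = x.t
      simp
    · exact mul_one _
  inv_mul_cancel x := by
    apply ext'
    · change -((((x.a⁻¹ : L) : Fˣ) : F) * x.t) + (((x.a⁻¹ : L) : Fˣ) : F) * x.t = 0
      ring
    · exact inv_mul_cancel _

theorem mul_t (x y : Aff L) : (x * y).t = x.t + ((x.a : Fˣ) : F) * y.t := rfl
theorem mul_a (x y : Aff L) : (x * y).a = x.a * y.a := rfl
theorem one_t : (1 : Aff L).t = 0 := rfl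
theorem one_a : (1 : Aff L).a = 1 := rfl
theorem inv_t (x : Aff L) : (x⁻¹).t = -((((x.a⁻¹ : L) : Fˣ) : F) * x.t) := rfl
theorem inv_a (x : Aff L) : (x⁻¹).a = x.a⁻¹ := rfl

/-- The subgroup `W ⋊ H'`. -/
def sub (W : AddSubgroup F) (H' : Subgroup L) (hW : ∀ a ∈ H', ∀ w ∈ W, ((a : Fˣ) : F) * w ∈ W) :
    Subgroup (Aff L) where
  carrier := {x | x.t ∈ W ∧ x.a ∈ H'}
  mul_mem' := by
    rintro x y ⟨hx1, hx2⟩ ⟨hy1, hy2⟩
    exact ⟨W.add_mem hx1 (hW _ hx2 _ hy1), H'.mul_mem hx2 hy2⟩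
  one_mem' := ⟨W.zero_mem, H'.one_mem⟩
  inv_mem' := by
    rintro x ⟨hx1, hx2⟩
    exact ⟨W.neg_mem (hW _ (H'.inv_mem hx2) _ hx1), H'.inv_mem hx2⟩

theorem mem_sub {W : AddSubgroup F} {H' : Subgroup L} {hW : ∀ a ∈ H', ∀ w ∈ W, ((a : Fˣ) : F) * w ∈ W}
    {x : Aff L} : x ∈ sub W H' hW ↔ x.t ∈ W ∧ x.a ∈ H' := Iff.rfl

theorem hbot (H' : Subgroup L) : ∀ a ∈ H', ∀ w ∈ (⊥ : AddSubgroup F), ((a : Fˣ) : F) * w ∈ (⊥ : AddSubgroup F) := by
  intro a _ w hw
  rw [AddSubgroup.mem_bot] at hw ⊢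
  rw [hw, mul_zero]

theorem htop (H' : Subgroup L) : ∀ a ∈ H', ∀ w ∈ (⊤ : AddSubgroup F), ((a : Fˣ) : F) * w ∈ (⊤ : AddSubgroup F) :=
  fun _ _ _ _ => AddSubgroup.mem_top _

/-- the embedding of `L`. -/
def inr : L →* Aff L where
  toFun a := ⟨0, a⟩
  map_one' := rfl
  map_mul' a b := by
    apply ext'
    · change (0 : F) = 0 + ((a : Fˣ) : F) * 0
      simp
    · rfl

/-- decomposition of an element. -/
theorem decomp (x : Aff L) : x = (⟨x.t, 1⟩ : Aff L) * inr x.a := by
  apply ext'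
  · change x.t = x.t + (((1 : L) : Fˣ) : F) * 0
    simp
  · change x.a = 1 * x.a
    simp

/-- the translations inside a subgroup `X`. -/
def transl (X : Subgroup (Aff L)) : AddSubgroup F where
  carrier := {w | (⟨w, 1⟩ : Aff L) ∈ X}
  add_mem' := by
    intro v w hv hw
    have : (⟨v + w, 1⟩ : Aff L) = (⟨v, 1⟩ : Aff L) * ⟨w, 1⟩ := by
      apply ext'
      · change v + w = v + (((1 : L) : Fˣ) : F) * w
        simp
      · change (1 : L) = 1 * 1
        simp
    change (⟨v + w, 1⟩ : Aff L) ∈ X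
    rw [this]
    exact X.mul_mem hv hw
  zero_mem' := X.one_mem
  neg_mem' := by
    intro v hv
    have : (⟨-v, 1⟩ : Aff L) = (⟨v, 1⟩ : Aff L)⁻¹ := by
      apply ext'
      · change -v = -((((1⁻¹ : L) : Fˣ) : F) * v)
        simp
      · change (1 : L) = 1⁻¹
        simp
    change (⟨-v, 1⟩ : Aff L) ∈ X
    rw [this]
    exact X.inv_mem hv

theorem transl_inv (X : Subgroup (Aff L)) (a : L) (ha : inr a ∈ X) (w : F) (hw : w ∈ transl X) :
    ((a : Fˣ) : F) * w ∈ transl X := by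
  have : (⟨((a : Fˣ) : F) * w, 1⟩ : Aff L) = inr a * ⟨w, 1⟩ * (inr a)⁻¹ := by
    apply ext'
    · change ((a : Fˣ) : F) * w = (0 + ((a : Fˣ) : F) * w) + (((a * 1 : L) : Fˣ) : F) * (-((((a⁻¹ : L) : Fˣ) : F) * 0))
      simp
    · change (1 : L) = a * 1 * a⁻¹
      simp
  change (⟨((a : Fˣ) : F) * w, 1⟩ : Aff L) ∈ X
  rw [this]
  exact X.mul_mem (X.mul_mem ha hw) (X.inv_mem ha)

end Aff

/-- `L` leaves no proper non-zero additive subgroup invariant. -/
def Irr {F : Type} [Field F] (L : Subgroup Fˣ) : Prop :=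
  ∀ W : AddSubgroup F, (∀ a ∈ L, ∀ w ∈ W, (a : F) * w ∈ W) → W = ⊥ ∨ W = ⊤

namespace Aff

variable {F : Type} [Field F] {L : Subgroup Fˣ}

theorem inr_mem_sub (W : AddSubgroup F) (H' : Subgroup L) (hW : ∀ a ∈ H', ∀ w ∈ W, ((a : Fˣ) : F) * w ∈ W)
    (a : L) : inr a ∈ sub W H' hW ↔ a ∈ H' := by
  rw [mem_sub]
  exact ⟨fun h => h.2, fun h => ⟨W.zero_mem, h⟩⟩

theorem coatom_M (hL : Irr L) : IsCoatom (sub (⊥ : AddSubgroup F) (⊤ : Subgroup L) (hbot _)) := by
  constructor
  · intro h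
    have : (⟨1, 1⟩ : Aff L) ∈ sub (⊥ : AddSubgroup F) (⊤ : Subgroup L) (hbot _) := h ▸ Subgroup.mem_top _
    rw [mem_sub, AddSubgroup.mem_bot] at this
    exact one_ne_zero this.1
  · intro X hX
    have hinr : ∀ a : L, inr a ∈ X := fun a => hX.le ((inr_mem_sub _ _ _ a).mpr (Subgroup.mem_top _))
    obtain ⟨x, hxX, hxM⟩ := SetLike.exists_of_lt hX
    have hxt : x.t ≠ 0 := by
      intro h
      apply hxM
      rw [mem_sub, AddSubgroup.mem_bot]
      exact ⟨h, Subgroup.mem_top _⟩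
    have hx1 : x.t ∈ transl X := by
      change (⟨x.t, 1⟩ : Aff L) ∈ X
      have h1 := decomp x
      have h2 : (⟨x.t, 1⟩ : Aff L) = x * (inr x.a)⁻¹ := by
        rw [eq_mul_inv_iff_mul_eq]; exact h1.symm
      rw [h2]
      exact X.mul_mem hxX (X.inv_mem (hinr _))
    have htr : transl X = ⊤ := by
      rcases hL (transl X) (fun a ha w hw => transl_inv X ⟨a, ha⟩ (hinr _) w hw) with h | h
      · rw [h, AddSubgroup.mem_bot] at hx1
        exact absurd hx1 hxt
      · exact h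
    rw [eq_top_iff]
    intro y _
    rw [decomp y]
    refine X.mul_mem ?_ (hinr _)
    have : y.t ∈ transl X := htr ▸ AddSubgroup.mem_top _
    exact this

/-- projection onto `L`. -/
def rightHom : Aff L →* L where
  toFun x := x.a
  map_one' := rfl
  map_mul' _ _ := rfl

theorem coatom_K (H' : Subgroup L) (hH' : IsCoatom H') : IsCoatom (sub (⊤ : AddSubgroup F) H' (htop _)) := by
  have h1 : sub (⊤ : AddSubgroup F) H' (htop _) = H'.comap rightHom := by
    ext x
    rw [mem_sub, Subgroup.mem_comap]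
    exact ⟨fun h => h.2, fun h => ⟨AddSubgroup.mem_top _, h⟩⟩
  rw [h1]
  exact Subgroup.isCoatom_comap_of_surjective (fun a => ⟨inr a, rfl⟩) hH'

theorem coatom_H (H' : Subgroup L) (hH' : IsCoatom H') :
    IsCoatom ((sub (⊥ : AddSubgroup F) H' (hbot _)).subgroupOf (sub (⊥ : AddSubgroup F) (⊤ : Subgroup L) (hbot _))) := by
  apply isCoatom_subgroupOf
  · intro x hx
    exact ⟨hx.1, Subgroup.mem_top _⟩
  · intro h
    apply hH'.1
    rw [eq_top_iff]
    intro a _
    rw [← inr_mem_sub (⊥ : AddSubgroup F) H' (hbot _), h, inr_mem_sub]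
    exact Subgroup.mem_top _
  · intro X h1 h2
    have hX : ∀ x, x ∈ X ↔ x.t = 0 ∧ x.a ∈ X.comap inr := by
      intro x
      constructor
      · intro hx
        have h0 : x.t = 0 := by
          have := (h2 hx).1
          rwa [AddSubgroup.mem_bot] at this
        refine ⟨h0, ?_⟩
        rw [Subgroup.mem_comap]
        have : inr x.a = x := ext' h0.symm rfl
        rw [this]; exact hx
      · rintro ⟨h0, hx⟩
        rw [Subgroup.mem_comap] at hx
        have : inr x.a = x := ext' h0.symm rfl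
        rw [← this]; exact hx
    have hle : H' ≤ X.comap inr := by
      intro a ha
      rw [Subgroup.mem_comap]
      exact h1 ((inr_mem_sub _ _ _ a).mpr ha)
    rcases hH'.le_iff.mp hle with h | h
    · right
      ext x
      rw [hX, h, mem_sub, AddSubgroup.mem_bot]
    · left
      ext x
      rw [hX, h, mem_sub, AddSubgroup.mem_bot]

theorem not_coatom (H' : Subgroup L) (W : AddSubgroup F) (hW : ∀ a ∈ H', ∀ w ∈ W, ((a : Fˣ) : F) * w ∈ W)
    (h0 : W ≠ ⊥) (h1 : W ≠ ⊤) :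
    ¬ IsCoatom ((sub (⊥ : AddSubgroup F) H' (hbot _)).subgroupOf (sub (⊤ : AddSubgroup F) H' (htop _))) := by
  apply not_isCoatom_subgroupOf (Y := sub W H' hW)
  · refine lt_of_le_of_ne (fun x hx => ⟨?_, hx.2⟩) (fun h => h0 ?_)
    · have := hx.1
      rw [AddSubgroup.mem_bot] at this
      rw [this]; exact W.zero_mem
    · rw [eq_bot_iff]
      intro w hw
      have : (⟨w, 1⟩ : Aff L) ∈ sub W H' hW := ⟨hw, H'.one_mem⟩
      rw [← h] at this
      exact this.1
  · refine lt_of_le_of_ne (fun x hx => ⟨AddSubgroup.mem_top _, hx.2⟩) (fun h => h1 ?_)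
    rw [eq_top_iff]
    intro w _
    have : (⟨w, 1⟩ : Aff L) ∈ sub (⊤ : AddSubgroup F) H' (htop _) := ⟨AddSubgroup.mem_top _, H'.one_mem⟩
    rw [← h] at this
    exact this.1

/-- underlying pairs. -/
def equivProd : Aff L ≃ F × L where
  toFun x := (x.t, x.a)
  invFun p := ⟨p.1, p.2⟩
  left_inv _ := rfl
  right_inv _ := rfl

theorem index_M [Finite F] : (sub (⊥ : AddSubgroup F) (⊤ : Subgroup L) (hbot _)).index = Nat.card F := by
  have : Finite (Aff L) := Finite.of_equiv _ equivProd.symm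
  have h1 := Subgroup.card_mul_index (sub (⊥ : AddSubgroup F) (⊤ : Subgroup L) (hbot _))
  have h2 : Nat.card (Aff L) = Nat.card F * Nat.card L := by
    rw [Nat.card_congr equivProd, Nat.card_prod]
  have h3 : Nat.card (sub (⊥ : AddSubgroup F) (⊤ : Subgroup L) (hbot _)) = Nat.card L := by
    apply Nat.card_congr
    refine ⟨fun x => x.1.a, fun a => ⟨inr a, (inr_mem_sub _ _ _ a).mpr (Subgroup.mem_top _)⟩, ?_, ?_⟩
    · rintro ⟨x, hx⟩
      apply Subtype.ext
      have h0 : x.t = 0 := by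
        have := hx.1
        rwa [AddSubgroup.mem_bot] at this
      exact ext' h0.symm rfl
    · intro a; rfl
  rw [h2, h3, mul_comm] at h1
  exact Nat.eq_of_mul_eq_mul_right Nat.card_pos h1

end Aff

theorem irr_top {F : Type} [Field F] : Irr (⊤ : Subgroup Fˣ) := by
  intro W hW
  by_cases h : W = ⊥
  · exact Or.inl h
  · right
    obtain ⟨w, hw, hw0⟩ : ∃ w ∈ W, w ≠ 0 := by
      by_contra hcon
      push Not at hcon
      exact h ((AddSubgroup.eq_bot_iff_forall W).mpr hcon)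
    rw [eq_top_iff]
    intro x _
    by_cases hx : x = 0
    · rw [hx]; exact W.zero_mem
    · have := hW (Units.mk0 (x / w) (div_ne_zero hx hw0)) (Subgroup.mem_top _) w hw
      simpa [div_mul_cancel₀ _ hw0] using this

theorem not_irr_bot {F : Type} [Field F] [Finite F] (p d : ℕ) [Fact p.Prime] [hch : CharP F p] (hcard : Nat.card F = p ^ d)
    (hd : 2 ≤ d) : ¬ Irr (⊥ : Subgroup Fˣ) := by
  intro h
  have hp : p.Prime := Fact.out
  have hc : Nat.card (AddSubgroup.zmultiples (1 : F)) = p := by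
    rw [Nat.card_zmultiples]
    have := CharP.addOrderOf_one F
    exact CharP.eq F this hch
  rcases h (AddSubgroup.zmultiples (1 : F)) (by
    intro a ha w hw
    rw [Subgroup.mem_bot] at ha
    rw [ha]; simpa using hw) with h1 | h1
  · rw [h1] at hc
    simp at hc
    exact hp.one_lt.ne hc
  · rw [h1, AddSubgroup.card_top, hcard] at hc
    have : p ^ 1 < p ^ d := Nat.pow_lt_pow_right hp.one_lt (by omega)
    rw [pow_one] at this
    omega


/-- For every prime p and every d ≥ 2 there is a finite group G with a maximal subgroup M of index p^d and a maximal subgroup H of M that is not second maximal in G: some maximal subgroup K of G contains H without H being maximal in K. (One may take G the affine group V ⋊ GL(V) of V = 𝔽_p^d, M = GL(V), H the stabiliser in M of a line W of V, and K = V ⋊ H, with H < W ⋊ H < K.) So the prime-index hypothesis in the second-maximality criterion cannot be relaxed to prime-power index. -/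
theorem result (p d : ℕ) (hp : p.Prime)
    (hd : 2 ≤ d) :
    ∃ (G : Type) (_ : Group G) (_ : Finite G) (M H K : Subgroup G), IsCoatom M ∧ M.index = p ^ d ∧ H ≤ M ∧
      IsCoatom (H.subgroupOf M) ∧ IsCoatom K ∧ H ≤ K ∧ ¬ IsCoatom (H.subgroupOf K) := by
  classical
  have : Fact p.Prime := ⟨hp⟩
  let F := GaloisField p d
  have hcard : Nat.card F = p ^ d := GaloisField.card p d (by omega)
  have hfin : Finite F := Nat.finite_of_card_ne_zero (by rw [hcard]; exact pow_ne_zero _ hp.ne_zero)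
  have : Finite (Subgroup Fˣ) := inferInstance
  -- a minimal irreducible subgroup
  obtain ⟨L, hL, hLmin⟩ := wellFounded_lt.has_min {L : Subgroup Fˣ | Irr L} ⟨⊤, irr_top⟩
  have hLbot : L ≠ ⊥ := by
    rintro rfl
    exact not_irr_bot p d hcard hd hL
  have hnt : Nontrivial L := (Subgroup.nontrivial_iff_ne_bot L).mpr hLbot
  obtain ⟨H', hH', -⟩ := (eq_top_or_exists_le_coatom (⊥ : Subgroup L)).resolve_left bot_ne_top
  have hlt : H'.map L.subtype < L := by
    refine lt_of_le_of_ne (Subgroup.map_subtype_le H') (fun h => hH'.1 ?_)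
    rw [eq_top_iff]
    intro x _
    have hx : (x : Fˣ) ∈ H'.map L.subtype := by rw [h]; exact x.2
    obtain ⟨y, hy, hyx⟩ := hx
    have : y = x := Subtype.ext hyx
    exact this ▸ hy
  have hnirr : ¬ Irr (H'.map L.subtype) := fun h => hLmin _ h hlt
  unfold Irr at hnirr
  push Not at hnirr
  obtain ⟨W, hW, hW0, hW1⟩ := hnirr
  have hW' : ∀ a ∈ H', ∀ w ∈ W, ((a : Fˣ) : F) * w ∈ W :=
    fun a ha w hw => hW a ⟨a, ha, rfl⟩ w hw
  refine ⟨Aff L, Aff.instGroup, Finite.of_equiv _ Aff.equivProd.symm,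
    Aff.sub ⊥ ⊤ (Aff.hbot _), Aff.sub ⊥ H' (Aff.hbot _), Aff.sub ⊤ H' (Aff.htop _),
    Aff.coatom_M hL, ?_, ?_, Aff.coatom_H H' hH', Aff.coatom_K H' hH', ?_, Aff.not_coatom H' W hW' hW0 hW1⟩
  · rw [Aff.index_M, hcard]
  · intro x hx
    exact ⟨hx.1, Subgroup.mem_top _⟩
  · intro x hx
    exact ⟨AddSubgroup.mem_top _, hx.2⟩

end Cfsg.Agent.S5895
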