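import Cfsg.Statements.S5896
-- import your own Cfsg.Agent.* helpers here
import Mathlib
import Cfsg.Agent.Lib.Helper23.PermSmall

set_option autoImplicit false
open Cfsg

namespace Cfsg.Agent.S5896


open scoped commutatorElement
open RegularWreathProduct

section wr
variable {G : Type} [Group G] [Fintype G] {D : Type} [CommGroup D]

theorem prod_shift (g : G) (e : G → D) : ∏ x, e (g * x) = ∏ x, e x :=
  Equiv.prod_comp (Equiv.mulLeft g) e

variable (G D) in
/-- The product of all coordinates, as a homomorphism on the wreath product. -/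
def psi : D ≀ᵣ G →* D where
  toFun w := ∏ x, w.left x
  map_one' := by simp
  map_mul' a b := by
    simp only [RegularWreathProduct.mul_left, Pi.mul_apply, Finset.prod_mul_distrib]
    rw [prod_shift]

variable (G D) in
def Gam : Subgroup (D ≀ᵣ G) := (psi G D).ker

theorem mem_Gam (w : D ≀ᵣ G) : w ∈ Gam G D ↔ ∏ x, w.left x = 1 := MonoidHom.mem_ker

variable (G D) in
def VV : Subgroup (G → D) where
  carrier := {f | ∏ x, f x = 1}
  one_mem' := by simp
  mul_mem' := by
    intro a b ha hb
    simp only [Set.mem_ofPred_eq, Pi.mul_apply, Finset.prod_mul_distrib] at *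
    rw [ha, hb, one_mul]
  inv_mem' := by
    intro a ha
    simp only [Set.mem_ofPred_eq, Pi.inv_apply, Finset.prod_inv_distrib] at *
    rw [ha, inv_one]

theorem mem_VV (f : G → D) : f ∈ VV G D ↔ ∏ x, f x = 1 := Iff.rfl

def tw (g : G) (f : VV G D) : VV G D :=
  ⟨fun x => f.1 (g⁻¹ * x), (mem_VV _).mpr (by rw [prod_shift]; exact f.2)⟩

def bb : VV G D →* Gam G D where
  toFun f := ⟨⟨f.1, 1⟩, (mem_Gam _).mpr f.2⟩
  map_one' := rfl
  map_mul' f₁ f₂ := by
    apply Subtype.ext
    ext <;> simp

def ss : G →* Gam G D where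
  toFun g := ⟨inl g, (mem_Gam _).mpr (by simp)⟩
  map_one' := by apply Subtype.ext; exact map_one _
  map_mul' a b := by apply Subtype.ext; exact map_mul _ _ _

theorem comm_ss_bb (g : G) (f : VV G D) : ⁅(ss g : Gam G D), bb f⁆ = bb (tw g f * f⁻¹) := by
  apply Subtype.ext
  rw [commutatorElement_def]
  ext x
  · simp [ss, bb, tw]
  · simp [ss, bb]

theorem decomp (γ : Gam G D) :
    γ = bb ⟨γ.1.left, (mem_Gam _).mp γ.2⟩ * ss γ.1.right := by
  apply Subtype.ext
  ext x
  · simp [ss, bb]
  · simp [ss, bb]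

theorem perfect (p : ℕ) (hD : ∀ c : D, c ^ p = 1) (hN : (Fintype.card G).Coprime p)
    (hG : commutator G = ⊤) : commutator (Gam G D) = ⊤ := by
  have hs : ∀ g : G, (ss g : Gam G D) ∈ commutator (Gam G D) := by
    intro g
    have h1 := map_derivedSeries_le_derivedSeries (ss : G →* Gam G D) 1
    rw [derivedSeries_one, derivedSeries_one, hG] at h1
    exact h1 ⟨g, trivial, rfl⟩
  have hb : ∀ f : VV G D, bb f ∈ commutator (Gam G D) := by
    intro f
    obtain ⟨S, hS⟩ : ∃ S : Subgroup (VV G D), S = (commutator (Gam G D)).comap bb := ⟨_, rfl⟩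
    have h1 : ∀ g : G, tw g f * f⁻¹ ∈ S := by
      intro g
      rw [hS, Subgroup.mem_comap, ← comm_ss_bb, commutator_def]
      exact Subgroup.commutator_mem_commutator (Subgroup.mem_top _) (Subgroup.mem_top _)
    have h2 : ∏ g : G, (tw g f * f⁻¹) ∈ S := Subgroup.prod_mem S (fun g _ => h1 g)
    have h3 : ∏ g : G, (tw g f * f⁻¹) = (f⁻¹) ^ (Fintype.card G) := by
      rw [Finset.prod_mul_distrib, Finset.prod_const, Finset.card_univ]
      have h4 : ∏ g : G, tw g f = 1 := by
        apply Subtype.ext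
        funext x
        rw [Subgroup.val_finsetProd, Finset.prod_apply]
        show ∏ g : G, f.1 (g⁻¹ * x) = 1
        have h5 := Equiv.prod_comp ((Equiv.inv G).trans (Equiv.mulRight x)) f.1
        exact h5.trans f.2
      rw [h4, one_mul]
    rw [h3] at h2
    have h4 : (f⁻¹) ^ p = 1 := by
      apply Subtype.ext
      funext x
      show ((f.1 x)⁻¹) ^ p = 1
      exact hD _
    have h5 : (Fintype.card G).Coprime (orderOf f⁻¹) :=
      Nat.Coprime.coprime_dvd_right (orderOf_dvd_of_pow_eq_one h4) hN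
    obtain ⟨m, hm⟩ := exists_pow_eq_self_of_coprime h5
    have h6 : f⁻¹ ∈ S := by rw [← hm]; exact S.pow_mem h2 m
    have h7 : f ∈ S := by simpa using S.inv_mem h6
    rw [hS] at h7
    exact h7
  rw [eq_top_iff]
  intro γ _
  rw [decomp γ]
  exact mul_mem (hb _) (hs _)

theorem Qstep (p : ℕ) (hp : p.Prime) (hD : ∀ c : D, c ^ p = 1) (hlt : Fintype.card G < p) (a : G)
    (f : VV G D) (hf1 : f ≠ 1) (hf2 : ∀ x, x ∉ Subgroup.zpowers a → f.1 x = 1) :
    tw a f * f⁻¹ ≠ 1 ∧ ∀ x, x ∉ Subgroup.zpowers a → (tw a f * f⁻¹).1 x = 1 := by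
  classical
  constructor
  · intro h
    apply hf1
    have hinv : ∀ x, f.1 (a⁻¹ * x) = f.1 x := by
      intro x
      have h1 := congrArg (fun k : VV G D => k.1 x) h
      have h2 : f.1 (a⁻¹ * x) * (f.1 x)⁻¹ = 1 := h1
      exact mul_inv_eq_one.mp h2
    have hpow : ∀ n : ℕ, ∀ x, f.1 ((a⁻¹) ^ n * x) = f.1 x := by
      intro n
      induction n with
      | zero => intro x; simp
      | succ n ih => intro x; rw [pow_succ', mul_assoc, hinv, ih]
    have hconst : ∀ y ∈ Subgroup.zpowers a, f.1 y = f.1 1 := by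
      intro y hy
      rw [← Subgroup.zpowers_inv, ← mem_powers_iff_mem_zpowers] at hy
      obtain ⟨n, rfl⟩ := hy
      have h1 := hpow n 1
      rwa [mul_one] at h1
    have hprod : ∏ x, f.1 x =
        (f.1 1) ^ (Finset.univ.filter (fun x => x ∈ Subgroup.zpowers a)).card := by
      rw [← Finset.prod_filter_mul_prod_filter_not Finset.univ (fun x => x ∈ Subgroup.zpowers a)]
      rw [Finset.prod_congr rfl (fun x hx => hconst x (Finset.mem_filter.mp hx).2),
        Finset.prod_const,
        Finset.prod_congr rfl (fun x hx => hf2 x (Finset.mem_filter.mp hx).2),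
        Finset.prod_const_one, mul_one]
    have hc : f.1 1 = 1 := by
      have h1 : (f.1 1) ^ (Finset.univ.filter (fun x => x ∈ Subgroup.zpowers a)).card = 1 := by
        rw [← hprod]; exact f.2
      have hpos : 0 < (Finset.univ.filter (fun x => x ∈ Subgroup.zpowers a)).card :=
        Finset.card_pos.mpr ⟨1, Finset.mem_filter.mpr ⟨Finset.mem_univ _, Subgroup.one_mem _⟩⟩
      have hle : (Finset.univ.filter (fun x => x ∈ Subgroup.zpowers a)).card ≤ Fintype.card G :=
        Finset.card_le_univ _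
      have h2 := orderOf_dvd_of_pow_eq_one h1
      have h3 := orderOf_dvd_of_pow_eq_one (hD (f.1 1))
      rcases (Nat.dvd_prime hp).mp h3 with h4 | h4
      · exact orderOf_eq_one_iff.mp h4
      · exfalso
        rw [h4] at h2
        have := Nat.le_of_dvd hpos h2
        omega
    apply Subtype.ext
    funext x
    by_cases hx : x ∈ Subgroup.zpowers a
    · rw [hconst x hx, hc]; rfl
    · exact hf2 x hx
  · intro x hx
    show f.1 (a⁻¹ * x) * (f.1 x)⁻¹ = 1
    have h1 : a⁻¹ * x ∉ Subgroup.zpowers a := by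
      intro h
      apply hx
      have h2 := mul_mem (Subgroup.mem_zpowers a) h
      rwa [mul_inv_cancel_left] at h2
    rw [hf2 x hx, hf2 _ h1]
    simp

theorem start (c : D) (hc : c ≠ 1) (a : G) (ha : a ≠ 1) :
    ∃ f : VV G D, f ≠ 1 ∧ ∀ x, x ∉ Subgroup.zpowers a → f.1 x = 1 := by
  classical
  have hmem : (fun x => (Pi.mulSingle (1 : G) c : G → D) (a⁻¹ * x) *
      ((Pi.mulSingle (1 : G) c : G → D) x)⁻¹) ∈ VV G D := by
    rw [mem_VV, Finset.prod_mul_distrib, Finset.prod_inv_distrib, prod_shift, mul_inv_cancel]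
  refine ⟨⟨_, hmem⟩, ?_, ?_⟩
  · intro h
    have h1 := congrArg (fun k : VV G D => k.1 1) h
    have h2 : (Pi.mulSingle (1 : G) c : G → D) (a⁻¹ * 1) *
      ((Pi.mulSingle (1 : G) c : G → D) 1)⁻¹ = 1 := h1
    rw [mul_one, Pi.mulSingle_eq_same, Pi.mulSingle_eq_of_ne (by simpa using ha), one_mul,
      inv_eq_one] at h2
    exact hc h2
  · intro x hx
    show (Pi.mulSingle (1 : G) c : G → D) (a⁻¹ * x) * ((Pi.mulSingle (1 : G) c : G → D) x)⁻¹ = 1
    have h1 : x ≠ 1 := fun h => hx (h ▸ Subgroup.one_mem _)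
    have h2 : a⁻¹ * x ≠ 1 := by
      intro h
      apply hx
      have : x = a := by
        have h3 := congrArg (fun y => a * y) h
        simpa using h3
      rw [this]; exact Subgroup.mem_zpowers a
    rw [Pi.mulSingle_eq_of_ne h1, Pi.mulSingle_eq_of_ne h2]
    simp

variable (G D) in
def pp : Gam G D →* G := RegularWreathProduct.rightHom.comp (Gam G D).subtype

theorem pp_surj : Function.Surjective (pp G D) := fun g => ⟨ss g, rfl⟩

def sX (H : Subgroup G) : H →* (H.comap (pp G D)) where
  toFun h := ⟨ss h.1, h.2⟩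
  map_one' := by apply Subtype.ext; exact map_one _
  map_mul' a b := by apply Subtype.ext; exact map_mul _ _ _

def bX (H : Subgroup G) (f : VV G D) : H.comap (pp G D) := ⟨bb f, H.one_mem⟩

theorem comm_X (H : Subgroup G) (h : H) (f : VV G D) :
    ⁅(sX H h : H.comap (pp G D)), bX H f⁆ = bX H (tw h.1 f * f⁻¹) := by
  apply Subtype.ext
  exact comm_ss_bb h.1 f

theorem derived (H : Subgroup G) (d : ℕ) (a : H) (ha : a ∈ derivedSeries H d) (F : ℕ → VV G D)
    (hF : ∀ i, F (i + 1) = tw a.1 (F i) * (F i)⁻¹) :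
    ∀ i, i ≤ d + 1 → bX H (F i) ∈ derivedSeries (H.comap (pp G D)) i := by
  intro i
  induction i with
  | zero => intro _; rw [derivedSeries_zero]; trivial
  | succ i ih =>
    intro hi
    rw [derivedSeries_succ, hF, ← comm_X]
    apply Subgroup.commutator_mem_commutator
    · apply map_derivedSeries_le_derivedSeries (sX H) i
      exact ⟨a, derivedSeries_antitone H (by omega : i ≤ d) ha, rfl⟩
    · exact ih (by omega)

theorem solv (H : Subgroup G) (hsol : Group.IsSolvable H) :
    Group.IsSolvable (H.comap (pp G D)) := by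
  have hk : Group.IsSolvable ((pp G D).subgroupComap H).ker := by
    apply Group.isSolvable_of_comm
    intro a b
    have ha : a.1.1.1.right = 1 := by
      have h1 := a.2
      rw [MonoidHom.mem_ker] at h1
      exact congrArg Subtype.val h1
    have hb : b.1.1.1.right = 1 := by
      have h1 := b.2
      rw [MonoidHom.mem_ker] at h1
      exact congrArg Subtype.val h1
    apply Subtype.ext
    apply Subtype.ext
    apply Subtype.ext
    show a.1.1.1 * b.1.1.1 = b.1.1.1 * a.1.1.1
    ext x
    · simp [ha, hb, mul_comm]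
    · simp [ha, hb]
  exact Group.isSolvable_of_ker_le_range ((pp G D).subgroupComap H).ker.subtype
    ((pp G D).subgroupComap H) (by rw [Subgroup.range_subtype])

end wr

theorem step {G : Type} [Group G] [Finite G] (H : Subgroup G) (hperf : commutator G = ⊤)
    (hco : IsCoatom H) (hsol : Group.IsSolvable H) (d : ℕ) (hd : derivedSeries H d ≠ ⊥) :
    ∃ (G' : Type) (_ : Group G') (_ : Finite G') (H' : Subgroup G'), commutator G' = ⊤ ∧
      IsCoatom H' ∧ Group.IsSolvable H' ∧ derivedSeries H' (d + 1) ≠ ⊥ := by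
  classical
  haveI := Fintype.ofFinite G
  obtain ⟨p, hpge, hp⟩ := Nat.exists_infinite_primes (Fintype.card G + 1)
  haveI : Fact p.Prime := ⟨hp⟩
  have hlt : Fintype.card G < p := by omega
  have hcardD : Nat.card (Multiplicative (ZMod p)) = p := by
    rw [Nat.card_congr Multiplicative.toAdd, Nat.card_zmod]
  have hD : ∀ c : Multiplicative (ZMod p), c ^ p = 1 := by
    intro c
    have h1 := pow_card_eq_one' (x := c)
    rwa [hcardD] at h1
  have hN : (Fintype.card G).Coprime p := by
    rw [Nat.coprime_comm, Nat.Prime.coprime_iff_not_dvd hp]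
    intro h
    have := Nat.le_of_dvd Fintype.card_pos h
    omega
  obtain ⟨c, hc⟩ := exists_ne (1 : Multiplicative (ZMod p))
  obtain ⟨a, ha1⟩ := (Subgroup.ne_bot_iff_exists_ne_one).mp hd
  have ha0 : (a.1.1 : G) ≠ 1 := by
    intro h
    apply ha1
    apply Subtype.ext
    apply Subtype.ext
    exact h
  obtain ⟨f0, hf01, hf02⟩ := start (D := Multiplicative (ZMod p)) c hc a.1.1 ha0
  obtain ⟨F, hF0, hF⟩ : ∃ F : ℕ → VV G (Multiplicative (ZMod p)), F 0 = f0 ∧
      ∀ i, F (i + 1) = tw a.1.1 (F i) * (F i)⁻¹ :=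
    ⟨fun i => Nat.rec f0 (fun _ f => tw a.1.1 f * f⁻¹) i, rfl, fun _ => rfl⟩
  have hQ : ∀ i, F i ≠ 1 ∧ ∀ x, x ∉ Subgroup.zpowers a.1.1 → (F i).1 x = 1 := by
    intro i
    induction i with
    | zero => rw [hF0]; exact ⟨hf01, hf02⟩
    | succ i ih => rw [hF]; exact Qstep p hp hD hlt a.1.1 (F i) ih.1 ih.2
  refine ⟨Gam G (Multiplicative (ZMod p)), inferInstance, inferInstance,
    H.comap (pp G (Multiplicative (ZMod p))), perfect p hD hN hperf,
    Subgroup.isCoatom_comap_of_surjective pp_surj hco, solv H hsol, ?_⟩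
  intro hbot
  have h1 := derived H d a.1 a.2 F hF (d + 1) le_rfl
  rw [hbot, Subgroup.mem_bot] at h1
  apply (hQ (d + 1)).1
  have h2 := congrArg (fun k : H.comap (pp G (Multiplicative (ZMod p))) => k.1.1.left) h1
  apply Subtype.ext
  exact h2

theorem base : ∃ (G : Type) (_ : Group G) (_ : Finite G) (H : Subgroup G), commutator G = ⊤ ∧
    IsCoatom H ∧ Group.IsSolvable H ∧ derivedSeries H 0 ≠ ⊥ := by
  have hcard : Nat.card (Fin 5) = 5 := by simp
  have hprim : MulAction.IsPreprimitive (alternatingGroup (Fin 5)) (Fin 5) :=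
    alternatingGroup.isPreprimitive_of_three_le_card (Fin 5) (by rw [hcard]; norm_num)
  refine ⟨alternatingGroup (Fin 5), inferInstance, inferInstance,
    MulAction.stabilizer (alternatingGroup (Fin 5)) (0 : Fin 5),
    commutator_alternatingGroup_eq_top (by rw [hcard]),
    MulAction.IsPreprimitive.isCoatom_stabilizer_of_isPreprimitive _ _, ?_, ?_⟩
  · have hle : MulAction.stabilizer (alternatingGroup (Fin 5)) (0 : Fin 5) ≤
        (alternatingGroup.ofSubtype ({0}ᶜ : Finset (Fin 5))).range := by
      intro g hg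
      rw [alternatingGroup.mem_range_ofSubtype_iff]
      intro x hx
      rw [Finset.mem_compl, Finset.mem_singleton]
      rintro rfl
      exact (Equiv.Perm.mem_support.mp hx) hg
    haveI h4 : Group.IsSolvable (Equiv.Perm ↥({0}ᶜ : Finset (Fin 5))) :=
      Cfsg.Agent.Lib.Helper23.perm_solvable_of_card_le (by simp)
    have hr : Group.IsSolvable (alternatingGroup.ofSubtype ({0}ᶜ : Finset (Fin 5))).range :=
      Group.isSolvable_of_surjective
        (f := (alternatingGroup.ofSubtype ({0}ᶜ : Finset (Fin 5))).rangeRestrict)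
        (MonoidHom.rangeRestrict_surjective _)
    exact Cfsg.Agent.Lib.Helper23.isSolvable_of_le' hle hr
  · rw [derivedSeries_zero]
    intro h
    have hmem : Equiv.swap (1 : Fin 5) 2 * Equiv.swap 1 3 ∈ alternatingGroup (Fin 5) := by
      rw [Equiv.Perm.mem_alternatingGroup]; decide
    have hst : (⟨Equiv.swap (1 : Fin 5) 2 * Equiv.swap 1 3, hmem⟩ : alternatingGroup (Fin 5)) ∈
        MulAction.stabilizer (alternatingGroup (Fin 5)) (0 : Fin 5) := by
      rw [MulAction.mem_stabilizer_iff]
      show (Equiv.swap (1 : Fin 5) 2 * Equiv.swap 1 3 : Equiv.Perm (Fin 5)) 0 = 0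
      decide
    have h1 : (⟨_, hst⟩ : MulAction.stabilizer (alternatingGroup (Fin 5)) (0 : Fin 5)) ∈
        (⊤ : Subgroup (MulAction.stabilizer (alternatingGroup (Fin 5)) (0 : Fin 5))) := trivial
    rw [h, Subgroup.mem_bot] at h1
    have h2 := congrArg (fun k : MulAction.stabilizer (alternatingGroup (Fin 5)) (0 : Fin 5) =>
      (k.1.1 : Equiv.Perm (Fin 5)) 1) h1
    have h3 : (Equiv.swap (1 : Fin 5) 2 * Equiv.swap 1 3 : Equiv.Perm (Fin 5)) 1 = 1 := h2
    revert h3
    decide

/-- Finite perfect groups have solvable maximal subgroups of unbounded derived length: for every d there is a finite perfect group G (equal to its commutator subgroup) with a solvable maximal subgroup H whose derived length exceeds d, i.e. the d-th term of the derived series of H is non-trivial. (Take the derived subgroup of a wreath product S ≀ A₅ with S solvable of large derived length, and H the preimage of a maximal subgroup of A₅.) -/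
theorem result (d : ℕ) :
    ∃ (G : Type) (_ : Group G) (_ : Finite G) (H : Subgroup G), commutator G = ⊤ ∧ IsCoatom H ∧ Group.IsSolvable H ∧
      derivedSeries H d ≠ ⊥ := by
  induction d with
  | zero => exact base
  | succ d ih =>
    obtain ⟨G, iG, iF, H, h1, h2, h3, h4⟩ := ih
    exact step H h1 h2 h3 d h4

end Cfsg.Agent.S5896
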