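import Cfsg.Statements.S5902
-- import your own Cfsg.Agent.* helpers here
import Cfsg.Agent.S5901

set_option autoImplicit false
open Cfsg

namespace Cfsg.Agent.S5902

/-- Let G be a finite group, X a subgroup whose own subgroup lattice is complemented, and suppose X lies in exactly one maximal subgroup M of G. Then every subgroup H of G not contained in the normal core of M has a complement in the subgroup lattice of G (some C with H ⊔ C = G and H ⊓ C = 1); in particular the subgroup lattice of G modulo the normal core of M is complemented. -/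
theorem result {G : Type*} [Group G] [Finite G] (X M : Subgroup G)
    (hK : ComplementedLattice (Subgroup X))
    (hM : IsCoatom M) (hXM : X ≤ M) (huniq : ∀ M' : Subgroup G, IsCoatom M' → X ≤ M' → M' = M) :
    (∀ H : Subgroup G, ¬ H ≤ M.normalCore → ∃ C : Subgroup G, H ⊔ C = ⊤ ∧ H ⊓ C = ⊥) ∧
    ComplementedLattice (Subgroup (G ⧸ M.normalCore)) := by
  classical
  have hXtop : X ≠ ⊤ := by
    rintro rfl
    exact hM.1 (top_le_iff.mp hXM)
  have hint : ∀ Y : Subgroup G, (⊥ : Subgroup G) ≤ Y → Y ≤ X →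
      ∃ C : Subgroup G, (⊥ : Subgroup G) ≤ C ∧ C ≤ X ∧ Y ⊔ C = X ∧ Y ⊓ C = ⊥ := by
    intro Y _ hYX
    obtain ⟨C', hC'⟩ := hK.exists_isCompl (Y.subgroupOf X)
    refine ⟨C'.map X.subtype, bot_le, Subgroup.map_subtype_le C', ?_, ?_⟩
    · conv_lhs => rw [← Subgroup.map_subgroupOf_eq_of_le hYX]
      rw [← Subgroup.map_sup, hC'.sup_eq_top, ← MonoidHom.range_eq_map, Subgroup.range_subtype]
    · conv_lhs => rw [← Subgroup.map_subgroupOf_eq_of_le hYX]
      rw [← Subgroup.map_inf _ _ _ X.subtype_injective, hC'.inf_eq_bot, Subgroup.map_bot]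
  have hpart : ∀ H : Subgroup G, ¬ H ≤ M.normalCore → ∃ C : Subgroup G, H ⊔ C = ⊤ ∧ H ⊓ C = ⊥ := by
    intro H hH
    obtain ⟨h, hhH, hh⟩ := SetLike.not_le_iff_exists.mp hH
    have : ∃ b : G, b * h * b⁻¹ ∉ M := by
      by_contra hcon
      push Not at hcon
      exact hh hcon
    obtain ⟨b, hb⟩ := this
    let o : Subgroup G ≃o Subgroup G := (MulAut.conj b).mapSubgroup
    have hoH : ¬ o H ≤ M := by
      intro hle
      apply hb
      apply hle
      exact ⟨h, hhH, rfl⟩
    obtain ⟨C1, h1, h2⟩ := Cfsg.Agent.S5901.result ⊥ X M bot_le hXtop hint hM hXM huniq (o H) hoH (by simp)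
    refine ⟨o.symm C1, ?_, ?_⟩
    · apply o.injective
      rw [o.map_sup, o.apply_symm_apply, h1, o.map_top]
    · apply o.injective
      rw [o.map_inf, o.apply_symm_apply, h2, o.map_bot]
  refine ⟨hpart, ⟨fun Hbar => ?_⟩⟩
  set N := M.normalCore with hN
  set π := QuotientGroup.mk' N with hπ
  have hπs : Function.Surjective π := QuotientGroup.mk'_surjective N
  by_cases hle : Hbar.comap π ≤ N
  · have : Hbar = ⊥ := by
      rw [eq_bot_iff]
      intro y hy
      obtain ⟨g, rfl⟩ := hπs y
      have : g ∈ N := hle hy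
      rw [Subgroup.mem_bot]
      exact (QuotientGroup.eq_one_iff g).mpr this
    rw [this]
    exact ⟨⊤, isCompl_bot_top⟩
  · obtain ⟨C, h1, h2⟩ := hpart _ hle
    refine ⟨C.map π, disjoint_iff.mpr ?_, codisjoint_iff.mpr ?_⟩
    · rw [eq_bot_iff]
      rintro y ⟨hy1, c, hc, rfl⟩
      have : c ∈ Hbar.comap π ⊓ C := ⟨hy1, hc⟩
      rw [h2, Subgroup.mem_bot] at this
      rw [this, map_one]
      exact Subgroup.one_mem _
    · conv_lhs => rw [← Subgroup.map_comap_eq_self_of_surjective hπs Hbar]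
      rw [← Subgroup.map_sup, h1, Subgroup.map_top_of_surjective π hπs]

end Cfsg.Agent.S5902
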