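import Cfsg.Statements.S5903
-- import your own Cfsg.Agent.* helpers here
import Cfsg.Agent.S5901

set_option autoImplicit false
open Cfsg

namespace Cfsg.Agent.S5903

/-- Let G be a finite simple group, X a subgroup lying in exactly one maximal subgroup M of G, and N a subgroup of prime order with N ≤ X that is central in M. If the subgroup lattice of X/N is complemented, then the subgroup lattice of G is complemented. -/
theorem result {G : Type*} [Group G] [Finite G] [IsSimpleGroup G] (X M N : Subgroup G)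
    (hM : IsCoatom M) (hXM : X ≤ M) (huniq : ∀ M' : Subgroup G, IsCoatom M' → X ≤ M' → M' = M)
    (hNX : N ≤ X) (hN : (Nat.card N).Prime) (hcen : ∀ n ∈ N, ∀ m ∈ M, m * n = n * m)
    [(N.subgroupOf X).Normal] (hK : ComplementedLattice (Subgroup (X ⧸ N.subgroupOf X))) :
    ComplementedLattice (Subgroup G) := by
  classical
  have hXtop : X ≠ ⊤ := by
    rintro rfl
    exact hM.1 (top_le_iff.mp hXM)
  have hNbot : N ≠ ⊥ := by
    rintro rfl
    rw [Subgroup.card_bot] at hN
    exact Nat.not_prime_one hN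
  -- the interval [N, X] is complemented
  have hint : ∀ Y : Subgroup G, N ≤ Y → Y ≤ X → ∃ C : Subgroup G, N ≤ C ∧ C ≤ X ∧ Y ⊔ C = X ∧ Y ⊓ C = N := by
    intro Y hNY hYX
    set N' := N.subgroupOf X with hN'
    set π := QuotientGroup.mk' N' with hπ
    have hπs : Function.Surjective π := QuotientGroup.mk'_surjective N'
    have hker : π.ker = N' := QuotientGroup.ker_mk' N'
    set Y' := Y.subgroupOf X with hY'
    have hNY' : N' ≤ Y' := Subgroup.comap_mono hNY
    obtain ⟨Cb, hCb⟩ := hK.exists_isCompl (Y'.map π)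
    have hYc : (Y'.map π).comap π = Y' := Subgroup.comap_map_eq_self (by rw [hker]; exact hNY')
    have hsup : Y' ⊔ Cb.comap π = ⊤ := by
      rw [← hYc, Subgroup.comap_sup_eq π _ _ hπs, hCb.sup_eq_top, Subgroup.comap_top]
    have hinf : Y' ⊓ Cb.comap π = N' := by
      rw [← hYc, ← Subgroup.comap_inf, hCb.inf_eq_bot]
      exact hker
    have hNC : N' ≤ Cb.comap π := by
      have h0 : Y' ⊓ Cb.comap π ≤ Cb.comap π := inf_le_right
      rwa [hinf] at h0
    refine ⟨(Cb.comap π).map X.subtype, ?_, Subgroup.map_subtype_le _, ?_, ?_⟩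
    · rw [← Subgroup.map_subgroupOf_eq_of_le hNX]
      exact Subgroup.map_mono hNC
    · conv_lhs => rw [← Subgroup.map_subgroupOf_eq_of_le hYX]
      rw [← Subgroup.map_sup, hsup, ← MonoidHom.range_eq_map, Subgroup.range_subtype]
    · conv_lhs => rw [← Subgroup.map_subgroupOf_eq_of_le hYX]
      rw [← Subgroup.map_inf _ _ _ X.subtype_injective, hinf, Subgroup.map_subgroupOf_eq_of_le hNX]
  refine ⟨fun H => ?_⟩
  by_cases hHn : H.Normal
  · rcases IsSimpleGroup.eq_bot_or_eq_top_of_normal H hHn with h | h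
    · rw [h]; exact ⟨⊤, isCompl_bot_top⟩
    · rw [h]; exact ⟨⊥, isCompl_top_bot⟩
  -- a good conjugate
  have hgood : ∃ b : G, ¬ (H.map (MulAut.conj b).toMonoidHom ≤ M) ∧ H.map (MulAut.conj b).toMonoidHom ⊓ N = ⊥ := by
    by_contra hcon
    push Not at hcon
    apply hHn
    rw [← Subgroup.normalizer_eq_top_iff, eq_top_iff]
    have hnc : Subgroup.normalClosure (N : Set G) = ⊤ := by
      rcases IsSimpleGroup.eq_bot_or_eq_top_of_normal (Subgroup.normalClosure (N : Set G))
        Subgroup.normalClosure_normal with h | h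
      · exfalso
        apply hNbot
        rw [eq_bot_iff, ← h]
        exact Subgroup.le_normalClosure
      · exact h
    rw [← hnc, Subgroup.normalClosure, Subgroup.closure_le]
    intro x hx
    obtain ⟨n, hn, hnx⟩ := Group.mem_conjugatesOfSet_iff.mp hx
    obtain ⟨c, rfl⟩ := isConj_iff.mp hnx
    by_cases h1 : H.map (MulAut.conj c⁻¹).toMonoidHom ≤ M
    · apply Subgroup.centralizer_le_normalizer
      rw [Subgroup.mem_centralizer_iff]
      intro h hh
      have h2 : c⁻¹ * h * c⁻¹⁻¹ ∈ M := h1 ⟨h, hh, rfl⟩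
      have h3 := hcen n hn _ h2
      rw [inv_inv] at h3
      calc h * (c * n * c⁻¹) = c * ((c⁻¹ * h * c) * n) * c⁻¹ := by group
        _ = c * (n * (c⁻¹ * h * c)) * c⁻¹ := by rw [h3]
        _ = c * n * c⁻¹ * h := by group
    · have h2 := hcon c⁻¹ h1
      have h3 : H.map (MulAut.conj c⁻¹).toMonoidHom ⊓ N = N := by
        apply Subgroup.eq_of_le_of_card_ge inf_le_right
        have h4 : Nat.card (H.map (MulAut.conj c⁻¹).toMonoidHom ⊓ N : Subgroup G) ∣ Nat.card N :=
          Subgroup.card_dvd_of_le inf_le_right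
        rcases (Nat.dvd_prime hN).mp h4 with h5 | h5
        · exact absurd (Subgroup.card_eq_one.mp h5) h2
        · exact h5.ge
      have h4 : n ∈ H.map (MulAut.conj c⁻¹).toMonoidHom := by
        have : n ∈ H.map (MulAut.conj c⁻¹).toMonoidHom ⊓ N := by rw [h3]; exact hn
        exact this.1
      obtain ⟨h, hh, hhn⟩ := h4
      apply Subgroup.le_normalizer
      have : c * n * c⁻¹ = h := by
        rw [← hhn]
        change c * (c⁻¹ * h * c⁻¹⁻¹) * c⁻¹ = h
        group
      rw [this]
      exact hh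
  obtain ⟨b, hb1, hb2⟩ := hgood
  let o : Subgroup G ≃o Subgroup G := (MulAut.conj b).mapSubgroup
  obtain ⟨C1, h1, h2⟩ := Cfsg.Agent.S5901.result N X M hNX hXtop hint hM hXM huniq (o H) hb1 hb2
  refine ⟨o.symm C1, disjoint_iff.mpr ?_, codisjoint_iff.mpr ?_⟩
  · apply o.injective
    rw [o.map_inf, o.apply_symm_apply, h2, o.map_bot]
  · apply o.injective
    rw [o.map_sup, o.apply_symm_apply, h1, o.map_top]

end Cfsg.Agent.S5903
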