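import Cfsg.Statements.S5905
-- import your own Cfsg.Agent.* helpers here

set_option autoImplicit false
open Cfsg

namespace Cfsg.Agent.S5905

open scoped Pointwise

section aux

variable {Ω : Type*} [Fintype Ω] [DecidableEq Ω] {b : ℕ} (f : Ω → Fin b)

/-- the partition stabilizer as a subgroup -/
def stab : Subgroup (Equiv.Perm Ω) where
  carrier := {g | ∀ x y : Ω, f x = f y ↔ f (g x) = f (g y)}
  one_mem' := fun _ _ => Iff.rfl
  mul_mem' := fun {g h} hg hh x y => (hh x y).trans (hg (h x) (h y))
  inv_mem' := fun {g} hg x y => by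
    have := hg (g⁻¹ x) (g⁻¹ y)
    simpa using this.symm

omit [Fintype Ω] in
theorem f_swap {x y : Ω} (h : f x = f y) (u : Ω) : f (Equiv.swap x y u) = f u := by
  rcases eq_or_ne u x with rfl | h1
  · rw [Equiv.swap_apply_left, h]
  · rcases eq_or_ne u y with rfl | h2
    · rw [Equiv.swap_apply_right, h]
    · rw [Equiv.swap_apply_of_ne_of_ne h1 h2]

omit [Fintype Ω] in
theorem swap_mem {x y : Ω} (h : f x = f y) : Equiv.swap x y ∈ stab f :=
  fun u v => by rw [f_swap f h, f_swap f h]

omit [DecidableEq Ω] in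
theorem exists_lift (a : ℕ) (hf : ∀ i : Fin b, Nat.card {x : Ω // f x = i} = a)
    (σ : Equiv.Perm (Fin b)) :
    ∃ g ∈ stab f, (∀ x, f (g x) = σ (f x)) ∧ ∀ x, σ (f x) = f x → g x = x := by
  have e : ∀ i : Fin b, {x // f x = i} ≃ Fin a := fun i => Finite.equivFinOfCardEq (hf i)
  obtain ⟨E, hE⟩ : ∃ E : Ω ≃ Fin b × Fin a, ∀ x, (E x).1 = f x :=
    ⟨(Equiv.sigmaFiberEquiv f).symm.trans
      ((Equiv.sigmaCongrRight e).trans (Equiv.sigmaEquivProd _ _)), fun x => rfl⟩
  have hg : ∀ x, f ((E.trans ((Equiv.prodCongr σ (Equiv.refl _)).trans E.symm)) x) = σ (f x) := by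
    intro x
    rw [← hE, ← hE x]
    simp
  refine ⟨E.trans ((Equiv.prodCongr σ (Equiv.refl _)).trans E.symm), ?_, hg, ?_⟩
  · intro x y
    rw [hg, hg]
    exact σ.injective.eq_iff.symm
  · intro x hx
    rw [← hE x] at hx
    simp only [Equiv.trans_apply, Equiv.prodCongr_apply, Prod.map, Equiv.refl_apply]
    rw [hx]
    exact E.symm_apply_apply x

end aux


/-- Let Ω be a finite set and f : Ω → Fin b a map onto b ≥ 2 labels whose fibres all have the same size a ≥ 2 (a partition of Ω into b blocks of size a, so |Ω| = ab). Then the stabilizer of this partition in the symmetric group on Ω — the permutations g such that x and y lie in the same block exactly when g x and g y do, a group isomorphic to the imprimitive wreath product S_a ≀ S_b — is a maximal subgroup of the symmetric group. -/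
theorem result {Ω : Type*} [Fintype Ω] [DecidableEq Ω] (a b : ℕ) (ha : 2 ≤ a) (hb : 2 ≤ b)
    (f : Ω → Fin b) (hf : ∀ i : Fin b, Nat.card {x : Ω // f x = i} = a) :
    IsCoatom (Subgroup.closure {g : Equiv.Perm Ω | ∀ x y : Ω, f x = f y ↔ f (g x) = f (g y)}) := by
  have hcl : Subgroup.closure {g : Equiv.Perm Ω | ∀ x y : Ω, f x = f y ↔ f (g x) = f (g y)} = stab f :=
    Subgroup.closure_eq (stab f)
  rw [hcl]
  -- basic facts on fibres
  have hpair : ∀ x : Ω, ∃ y, y ≠ x ∧ f y = f x := by
    intro x
    have h1 : 1 < Nat.card {y : Ω // f y = f x} := by rw [hf]; omega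
    rw [Finite.one_lt_card_iff_nontrivial] at h1
    obtain ⟨y, hy⟩ := exists_ne (⟨x, rfl⟩ : {y : Ω // f y = f x})
    exact ⟨y.1, fun h => hy (Subtype.ext h), y.2⟩
  have hsurj : Function.Surjective f := by
    intro i
    have h1 : 0 < Nat.card {y : Ω // f y = i} := by rw [hf]; omega
    rw [Finite.card_pos_iff] at h1
    obtain ⟨y⟩ := h1
    exact ⟨y.1, y.2⟩
  obtain ⟨x0, hx0⟩ := hsurj ⟨0, by omega⟩
  obtain ⟨x1, hx1⟩ := hsurj ⟨1, by omega⟩
  have h01 : f x0 ≠ f x1 := by
    rw [hx0, hx1]; intro h; simpa using congrArg Fin.val h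
  constructor
  · -- not everything
    intro htop
    obtain ⟨x', hx'ne, hx'f⟩ := hpair x0
    have hmem : Equiv.swap x0 x1 ∈ stab f := by rw [htop]; trivial
    have h1 := (hmem x0 x').1 hx'f.symm
    rw [Equiv.swap_apply_left, Equiv.swap_apply_of_ne_of_ne hx'ne
      (fun h => h01 (by rw [← hx'f, h]))] at h1
    exact h01 (by rw [h1, hx'f])
  · intro K hK
    have hWK : stab f ≤ K := hK.le
    -- transitivity
    have htrans : ∀ x y : Ω, ∃ g ∈ stab f, g x = y := by
      intro x y
      obtain ⟨g, hg, hgf, _⟩ := exists_lift f a hf (Equiv.swap (f x) (f y))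
      refine ⟨Equiv.swap (g x) y * g, mul_mem (swap_mem f ?_) hg, ?_⟩
      · rw [hgf, Equiv.swap_apply_left]
      · simp
    have hpre : MulAction.IsPretransitive K Ω := by
      constructor
      intro x y
      obtain ⟨g, hg, hgx⟩ := htrans x y
      exact ⟨⟨g, hWK hg⟩, hgx⟩
    -- elements of `K` fixing a point of a block preserve it
    have hblk : ∀ B : Set Ω, MulAction.IsBlock K B → ∀ g ∈ K, ∀ u ∈ B, g u ∈ B → ∀ z ∈ B, g z ∈ B := by
      intro B hB g hg u hu hgu z hz
      have h1 : (⟨g, hg⟩ : K) • B = B := hB.smul_eq_of_mem hu hgu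
      rw [← h1]
      exact ⟨z, hz, rfl⟩
    -- blocks meeting two fibres are everything
    have hbig : ∀ B : Set Ω, MulAction.IsBlock K B → ∀ u ∈ B, ∀ v ∈ B, f u ≠ f v → B = Set.univ := by
      intro B hB u hu v hv huv
      have hfib : ∀ u ∈ B, ∀ v ∈ B, f u ≠ f v → ∀ z, f z = f v → z ∈ B := by
        intro u hu v hv huv z hz
        have h1 := hblk B hB (Equiv.swap v z) (hWK (swap_mem f hz.symm)) u hu (by
          rw [Equiv.swap_apply_of_ne_of_ne (fun h => huv (by rw [h])) (fun h => huv (by rw [h, hz]))]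
          exact hu) v hv
        rwa [Equiv.swap_apply_left] at h1
      ext z
      simp only [Set.mem_univ, iff_true]
      by_cases hzu : f z = f u
      · exact hfib v hv u hu huv.symm z hzu
      · by_cases hzv : f z = f v
        · exact hfib u hu v hv huv z hzv
        · obtain ⟨g, hg, hgf, hgfix⟩ := exists_lift f a hf (Equiv.swap (f v) (f z))
          have hgu : g u = u := hgfix u (Equiv.swap_apply_of_ne_of_ne huv (fun h => hzu h.symm))
          have h1 := hblk B hB g (hWK hg) u hu (by rw [hgu]; exact hu) v hv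
          have h2 : f (g v) = f z := by rw [hgf, Equiv.swap_apply_left]
          exact hfib u hu (g v) h1 (by rw [h2]; exact fun h => hzu h.symm) z h2.symm
    have hprim : MulAction.IsPreprimitive K Ω := by
      refine { toIsPretransitive := hpre, isTrivialBlock_of_isBlock := ?_ }
      intro B hB
      by_contra hnt
      unfold MulAction.IsTrivialBlock at hnt
      push Not at hnt
      obtain ⟨hns, hnu⟩ := hnt
      -- nontrivial blocks are unions of fibres contained in a fibre
      have hnice : ∀ B' : Set Ω, MulAction.IsBlock K B' → B'.Nontrivial → B' ≠ Set.univ →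
          (∀ u ∈ B', ∀ v ∈ B', f u = f v) ∧ (∀ u ∈ B', ∀ v, f v = f u → v ∈ B') := by
        intro B' hB' hnt' hnu'
        have hc : ∀ u ∈ B', ∀ v ∈ B', f u = f v := by
          intro u hu v hv
          by_contra hne
          exact hnu' (hbig B' hB' u hu v hv hne)
        refine ⟨hc, ?_⟩
        intro u hu v hv
        obtain ⟨y, hy, hyu⟩ := hnt'.exists_ne u
        by_cases hvu : v = u
        · rw [hvu]; exact hu
        · have h1 := hblk B' hB' (Equiv.swap y v)
            (hWK (swap_mem f (by rw [hv]; exact hc y hy u hu))) u hu (by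
              rw [Equiv.swap_apply_of_ne_of_ne hyu.symm (fun h => hvu h.symm)]; exact hu) y hy
          rwa [Equiv.swap_apply_left] at h1
      have htr : ∀ k : K, (k • B).Nontrivial ∧ k • B ≠ Set.univ := by
        intro k
        constructor
        · obtain ⟨p, hp, p', hp', hpp⟩ := hns
          exact ⟨k • p, ⟨p, hp, rfl⟩, k • p', ⟨p', hp', rfl⟩, fun h => hpp (smul_left_cancel k h)⟩
        · intro h
          apply hnu
          have : k⁻¹ • (k • B) = k⁻¹ • (Set.univ : Set Ω) := by rw [h]
          rwa [inv_smul_smul, Set.smul_set_univ] at this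
      have hKW : K ≤ stab f := by
        have hone : ∀ k ∈ K, ∀ u v : Ω, f u = f v → f (k u) = f (k v) := by
          intro k hk u v huv
          obtain ⟨p, hp⟩ := hns.nonempty
          obtain ⟨w, hw, hwp⟩ := htrans p u
          have hB1 := hnice ((⟨w, hWK hw⟩ : K) • B) (hB.translate _) (htr _).1 (htr _).2
          have hu1 : u ∈ (⟨w, hWK hw⟩ : K) • B := ⟨p, hp, hwp⟩
          have hv1 : v ∈ (⟨w, hWK hw⟩ : K) • B := hB1.2 u hu1 v huv.symm
          have hB2 := hnice ((⟨k, hk⟩ : K) • ((⟨w, hWK hw⟩ : K) • B)) ((hB.translate _).translate _)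
            (by rw [← mul_smul]; exact (htr _).1) (by rw [← mul_smul]; exact (htr _).2)
          exact hB2.1 (k u) ⟨u, hu1, rfl⟩ (k v) ⟨v, hv1, rfl⟩
        intro k hk u v
        refine ⟨hone k hk u v, fun h => ?_⟩
        have := hone k⁻¹ (inv_mem hk) (k u) (k v) h
        simpa using this
      exact absurd (le_antisymm hKW hWK) hK.ne'
    obtain ⟨x', hx'ne, hx'f⟩ := hpair x0
    exact Equiv.Perm.subgroup_eq_top_of_isPreprimitive_of_isSwap_mem hprim (Equiv.swap x' x0)
      ⟨x', x0, hx'ne, rfl⟩ (hWK (swap_mem f hx'f))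

end Cfsg.Agent.S5905
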