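import Cfsg.Statements.S5908
import Cfsg.Agent.S0827

set_option autoImplicit false
open Cfsg

namespace Cfsg.Agent.S5908

theorem q8_key : ∀ y : QuaternionGroup 2, y = 1 ∨ y = QuaternionGroup.a 2 ∨
    y ^ 2 = QuaternionGroup.a 2 := by decide

theorem q8_ne : (QuaternionGroup.a 2 : QuaternionGroup 2) ≠ 1 := by decide

theorem q8_ex : ∃ y : QuaternionGroup 2, y ≠ 1 ∧ y ≠ QuaternionGroup.a 2 :=
  ⟨QuaternionGroup.a 1, by decide, by decide⟩

theorem q8_sq : (QuaternionGroup.a 2 : QuaternionGroup 2) * QuaternionGroup.a 2 = 1 := by decide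

/-- A group with a surjection onto `Q₈` has a non-complemented subgroup lattice. -/
theorem notCompl {G : Type*} [Group G] (π : G →* QuaternionGroup 2)
    (hπ : Function.Surjective π) : ¬ ComplementedLattice (Subgroup G) := by
  intro hC
  obtain ⟨Zs, hZs⟩ : ∃ Zs : Subgroup (QuaternionGroup 2), Zs = Subgroup.zpowers (QuaternionGroup.a 2) :=
    ⟨_, rfl⟩
  have hZmem : ∀ y, y ∈ Zs ↔ y = 1 ∨ y = QuaternionGroup.a 2 := by
    intro y
    rw [hZs]
    constructor
    · intro hy
      obtain ⟨k, rfl⟩ := Subgroup.mem_zpowers_iff.mp hy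
      rcases Int.even_or_odd' k with ⟨m, rfl | rfl⟩
      · left
        rw [zpow_mul, zpow_two, q8_sq, one_zpow]
      · right
        rw [zpow_add, zpow_mul, zpow_two, q8_sq, one_zpow, one_mul, zpow_one]
    · rintro (rfl | rfl)
      · exact Subgroup.one_mem _
      · exact Subgroup.mem_zpowers _
  obtain ⟨X, hX⟩ := hC.exists_isCompl (Zs.comap π)
  have hdisj := hX.disjoint
  have hsup := hX.sup_eq_top
  -- every element of X maps to 1
  have hX1 : ∀ x ∈ X, π x = 1 := by
    intro x hx
    have key : ∀ w ∈ X, π w ∈ Zs → w = 1 := by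
      intro w hw hwz
      have : w ∈ Zs.comap π ⊓ X := ⟨hwz, hw⟩
      rw [hdisj.eq_bot] at this
      exact this
    rcases q8_key (π x) with h | h | h
    · exact h
    · have := key x hx ((hZmem _).mpr (Or.inr h))
      rw [this, map_one]
    · have h2 : x ^ 2 = 1 := key (x ^ 2) (X.pow_mem hx 2) (by
        rw [map_pow, h]; exact (hZmem _).mpr (Or.inr rfl))
      exfalso
      apply q8_ne
      rw [← h, ← map_pow, h2, map_one]
  have hle : X ≤ Zs.comap π := by
    intro x hx
    show π x ∈ Zs
    rw [hX1 x hx]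
    exact Subgroup.one_mem _
  rw [sup_eq_left.mpr hle] at hsup
  obtain ⟨y, hy1, hy2⟩ := q8_ex
  obtain ⟨g, rfl⟩ := hπ y
  have : g ∈ Zs.comap π := by rw [hsup]; exact Subgroup.mem_top _
  rcases (hZmem _).mp this with h | h
  · exact hy1 h
  · exact hy2 h

/-- The subgroup lattice of PSU₃(2) (the solvable group of order 72, realised over the field with 4 elements) is not complemented: some subgroup H has no subgroup X with H ⊔ X = ⊤ and H ⊓ X = ⊥. -/
theorem result {F : Type*} [Field F] [Fintype F] (hF : Fintype.card F = 4) :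
    ¬ ComplementedLattice (Subgroup (Cfsg.PSU 3 F 2)) := by
  obtain ⟨N, hN, -, -, ⟨e⟩⟩ := Cfsg.Agent.S0827.result hF
  exact notCompl (e.toMonoidHom.comp (QuotientGroup.mk' N))
    (e.surjective.comp (QuotientGroup.mk'_surjective N))

end Cfsg.Agent.S5908
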