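import Cfsg.Statements.S5910
import Mathlib
-- import your own Cfsg.Agent.* helpers here

set_option autoImplicit false
open Cfsg

namespace Cfsg.Agent.S5910

open Equiv Equiv.Perm

abbrev V := ZMod 2 × ZMod 2
abbrev W := V × ZMod 2

set_option maxRecDepth 100000 in
theorem perm_V_affine : ∀ π : Perm V, ∀ a b c d : V, a + b + c + d = 0 →
    π a + π b + π c + π d = 0 := by decide

set_option maxRecDepth 100000 in
theorem eps_affine : ∀ ε : V → ZMod 2, (∑ u, ε u) = 0 → ∀ a b c d : V, a + b + c + d = 0 →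
    ε a + ε b + ε c + ε d = 0 := by decide

theorem sign_addRight' : ∀ s : ZMod 2, sign (Equiv.addRight s) = if s = 0 then 1 else -1 := by
  decide

theorem prod_sign : ∀ ε : V → ZMod 2, (∏ u, (if ε u = 0 then (1 : ℤˣ) else -1)) = 1 →
    ∑ u, ε u = 0 := by decide

theorem zmod2_ne : ∀ s t : ZMod 2, s ≠ t → s = 1 + t := by decide

theorem zmod2_cases : ∀ b : ZMod 2, b = 0 ∨ b = 1 := by decide

theorem aff_of_part (σ : Perm W) (hP : ∀ x y : W, x.1 = y.1 ↔ (σ x).1 = (σ y).1)
    (hs : sign σ = 1) : ∀ a b c d : W, a + b + c + d = 0 → σ a + σ b + σ c + σ d = 0 := by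
  let πf : V → V := fun u => (σ (u, 0)).1
  have h1 : ∀ u b, (σ (u, b)).1 = πf u := fun u b => ((hP (u, b) (u, 0)).mp rfl)
  have πinj : Function.Injective πf := fun u u' h => (hP (u, 0) (u', 0)).mpr h
  let π : Perm V := Equiv.ofBijective πf ⟨πinj, Finite.injective_iff_surjective.mp πinj⟩
  let ε : V → ZMod 2 := fun u => (σ (u, 0)).2
  have h2 : ∀ u b, (σ (u, b)).2 = b + ε u := by
    intro u b
    rcases zmod2_cases b with rfl | rfl
    · simp [ε]
    · have hne : (σ (u, 1)).2 ≠ (σ (u, 0)).2 := by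
        intro h
        have h3 : σ (u, 1) = σ (u, 0) := Prod.ext ((h1 u 1).trans (h1 u 0).symm) h
        have h4 : (1 : ZMod 2) = 0 := congrArg Prod.snd (σ.injective h3)
        exact absurd h4 (by decide)
      exact zmod2_ne _ _ hne
  have hσ : σ = (prodCongrLeft (fun _ : ZMod 2 => π) : Perm W) *
      (prodCongrRight (fun u => Equiv.addRight (ε u)) : Perm W) := by
    ext ⟨u, b⟩ : 1
    apply Prod.ext
    · exact h1 u b
    · exact h2 u b
  rw [hσ, Perm.sign_mul, sign_prodCongrLeft, sign_prodCongrRight] at hs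
  have h3 : ∏ _k : ZMod 2, sign π = 1 := by
    rw [Finset.prod_const, Finset.card_univ, ZMod.card]
    exact Int.units_sq _
  rw [h3, one_mul] at hs
  simp only [sign_addRight'] at hs
  have hε := prod_sign ε hs
  intro a b c d h
  apply Prod.ext
  · have h4 := perm_V_affine π a.1 b.1 c.1 d.1 (congrArg Prod.fst h)
    show (σ a).1 + (σ b).1 + (σ c).1 + (σ d).1 = 0
    rw [show a = (a.1, a.2) from rfl, show b = (b.1, b.2) from rfl, show c = (c.1, c.2) from rfl,
      show d = (d.1, d.2) from rfl, h1, h1, h1, h1]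
    exact h4
  · have h4 := eps_affine ε hε a.1 b.1 c.1 d.1 (congrArg Prod.fst h)
    have h5 : a.2 + b.2 + c.2 + d.2 = 0 := congrArg Prod.snd h
    show (σ a).2 + (σ b).2 + (σ c).2 + (σ d).2 = 0
    rw [show a = (a.1, a.2) from rfl, show b = (b.1, b.2) from rfl, show c = (c.1, c.2) from rfl,
      show d = (d.1, d.2) from rfl, h2, h2, h2, h2]
    calc a.2 + ε a.1 + (b.2 + ε b.1) + (c.2 + ε c.1) + (d.2 + ε d.1)
        = (a.2 + b.2 + c.2 + d.2) + (ε a.1 + ε b.1 + ε c.1 + ε d.1) := by ring
      _ = 0 := by rw [h4, h5, add_zero]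

def k0 : Perm W := swap ((0, 1), 0) ((0, 0), 1) * swap ((1, 1), 0) ((1, 0), 1)
def t0 : Perm W := swap ((0, 0), 0) ((0, 0), 1) * swap ((0, 0), 1) ((0, 1), 0)

set_option maxRecDepth 100000 in
theorem k0_aff : ∀ a b c d : W, a + b + c + d = 0 ↔ k0 a + k0 b + k0 c + k0 d = 0 := by decide

theorem k0_sign : sign k0 = 1 := by
  rw [k0, Perm.sign_mul, sign_swap (by decide), sign_swap (by decide)]; rfl

theorem t0_sign : sign t0 = 1 := by
  rw [t0, Perm.sign_mul, sign_swap (by decide), sign_swap (by decide)]; rfl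

theorem k0_part : (k0 ((0, 1), 0)).1 ≠ (k0 ((0, 1), 1)).1 := by decide

theorem t0_naff : t0 ((0, 0), 0) + t0 ((0, 0), 1) + t0 ((1, 0), 0) + t0 ((1, 0), 1) ≠ 0 := by decide

section general

variable {Ω : Type*} [Fintype Ω] [DecidableEq Ω]

/-- permutations preserving the affine structure given by the coordinates `e` -/
def affSub (e : Ω ≃ W) : Subgroup (Perm Ω) where
  carrier := {σ | ∀ a b c d, e a + e b + e c + e d = 0 ↔ e (σ a) + e (σ b) + e (σ c) + e (σ d) = 0}
  one_mem' := by intro a b c d; rfl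
  mul_mem' := by
    intro s t hs ht a b c d
    rw [ht a b c d, hs (t a) (t b) (t c) (t d)]
    rfl
  inv_mem' := by
    intro t ht a b c d
    have := ht (t⁻¹ a) (t⁻¹ b) (t⁻¹ c) (t⁻¹ d)
    simp at this
    exact this.symm

/-- permutations preserving the partition -/
def partSub (f : Ω → Fin 4) : Subgroup (Perm Ω) where
  carrier := {g | ∀ x y : Ω, f x = f y ↔ f (g x) = f (g y)}
  one_mem' := by intro x y; rfl
  mul_mem' := by
    intro s t hs ht x y
    rw [ht x y, hs (t x) (t y)]
    rfl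
  inv_mem' := by
    intro t ht x y
    have := ht (t⁻¹ x) (t⁻¹ y)
    simp at this
    exact this.symm

theorem aff_dir (e : Ω ≃ W) (f : Ω → Fin 4) (j : Fin 4 ≃ V) (he : ∀ x, (e x).1 = j (f x))
    (σ : Perm Ω) (hP : σ ∈ partSub f) (hs : sign σ = 1) (a b c d : Ω)
    (h : e a + e b + e c + e d = 0) : e (σ a) + e (σ b) + e (σ c) + e (σ d) = 0 := by
  have h0 : ∀ x, e.permCongr σ (e x) = e (σ x) := by
    intro x
    simp [Equiv.permCongr_apply]
  have h1 := aff_of_part (e.permCongr σ) (by
    intro x y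
    obtain ⟨x, rfl⟩ := e.surjective x
    obtain ⟨y, rfl⟩ := e.surjective y
    rw [h0, h0, he, he, he, he, j.injective.eq_iff, j.injective.eq_iff]
    exact hP x y) (by rw [sign_permCongr]; exact hs) (e a) (e b) (e c) (e d) h
  rwa [h0, h0, h0, h0] at h1

end general

/-- Let Ω be a set with 8 elements and f : Ω → Fin 4 a labelling whose four fibres all have size 2 (a partition of the 8 points into 4 pairs). Then the group of even permutations preserving this partition, (S₂ ≀ S₄) ∩ A₈, is not a maximal subgroup of the alternating group A₈ (it lies in a subgroup isomorphic to the affine group AGL₃(2)). -/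
theorem result {Ω : Type*} [Fintype Ω] [DecidableEq Ω] (h8 : Fintype.card Ω = 8)
    (f : Ω → Fin 4) (hf : ∀ i : Fin 4, Nat.card {x : Ω // f x = i} = 2) :
    ¬ IsCoatom ((Subgroup.closure {g : Equiv.Perm Ω | ∀ x y : Ω, f x = f y ↔ f (g x) = f (g y)} ⊓ alternatingGroup Ω).subgroupOf (alternatingGroup Ω)) := by
  classical
  -- coordinates
  let ei : ∀ i : Fin 4, {x : Ω // f x = i} ≃ ZMod 2 := fun i => Finite.equivFinOfCardEq (hf i)
  let j : Fin 4 ≃ V := Fintype.equivOfCardEq (by simp [ZMod.card])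
  let e : Ω ≃ W := (Equiv.sigmaFiberEquiv f).symm.trans
    ((Equiv.sigmaEquivProdOfEquiv ei).trans (Equiv.prodCongr j (Equiv.refl _)))
  have he : ∀ x, (e x).1 = j (f x) := fun x => rfl
  have hle : Subgroup.closure {g : Equiv.Perm Ω | ∀ x y : Ω, f x = f y ↔ f (g x) = f (g y)} ≤
      partSub f := (Subgroup.closure_le _).mpr (fun g hg => hg)
  have hHK : partSub f ⊓ alternatingGroup Ω ≤ affSub e := by
    intro σ hσ
    obtain ⟨h1, h2⟩ := Subgroup.mem_inf.mp hσ
    have hs : sign σ = 1 := mem_alternatingGroup.mp h2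
    intro a b c d
    constructor
    · exact aff_dir e f j he σ h1 hs a b c d
    · intro h
      have := aff_dir e f j he σ⁻¹ ((partSub f).inv_mem h1) (by rw [sign_inv]; exact hs) _ _ _ _ h
      simpa using this
  -- the two special elements
  have hk0 : ∀ x, e (e.symm.permCongr k0 x) = k0 (e x) := by
    intro x; simp [Equiv.permCongr_apply]
  have ht0 : ∀ x, e (e.symm.permCongr t0 x) = t0 (e x) := by
    intro x; simp [Equiv.permCongr_apply]
  have hkA : e.symm.permCongr k0 ∈ alternatingGroup Ω :=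
    mem_alternatingGroup.mpr (by rw [sign_permCongr]; exact k0_sign)
  have htA : e.symm.permCongr t0 ∈ alternatingGroup Ω :=
    mem_alternatingGroup.mpr (by rw [sign_permCongr]; exact t0_sign)
  have hkK : e.symm.permCongr k0 ∈ affSub e := by
    intro a b c d
    rw [hk0, hk0, hk0, hk0]
    exact k0_aff _ _ _ _
  have hkP : e.symm.permCongr k0 ∉ partSub f := by
    intro h
    have h1 := (h (e.symm ((0, 1), 0)) (e.symm ((0, 1), 1))).mp (by
      apply j.injective
      rw [← he, ← he, e.apply_symm_apply, e.apply_symm_apply])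
    have h2 := congrArg j h1
    rw [← he, ← he, hk0, hk0, e.apply_symm_apply, e.apply_symm_apply] at h2
    exact k0_part h2
  have htK : e.symm.permCongr t0 ∉ affSub e := by
    intro h
    have h1 := (h (e.symm ((0, 0), 0)) (e.symm ((0, 0), 1)) (e.symm ((1, 0), 0))
      (e.symm ((1, 0), 1))).mp (by
        simp only [e.apply_symm_apply]
        decide)
    rw [ht0, ht0, ht0, ht0] at h1
    simp only [e.apply_symm_apply] at h1
    exact t0_naff h1
  intro hco
  have h1 := hco.2 ((affSub e).subgroupOf (alternatingGroup Ω)) (by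
    constructor
    · intro x hx
      rw [Subgroup.mem_subgroupOf] at hx ⊢
      exact hHK (Subgroup.mem_inf.mpr ⟨hle (Subgroup.mem_inf.mp hx).1, (Subgroup.mem_inf.mp hx).2⟩)
    · intro hcon
      have h2 : (⟨_, hkA⟩ : alternatingGroup Ω) ∈ (affSub e).subgroupOf (alternatingGroup Ω) :=
        Subgroup.mem_subgroupOf.mpr hkK
      have h3 := hcon h2
      rw [Subgroup.mem_subgroupOf] at h3
      exact hkP (hle (Subgroup.mem_inf.mp h3).1))
  have h2 : (⟨_, htA⟩ : alternatingGroup Ω) ∈ (affSub e).subgroupOf (alternatingGroup Ω) :=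
    h1 ▸ Subgroup.mem_top _
  exact htK (Subgroup.mem_subgroupOf.mp h2)

end Cfsg.Agent.S5910
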