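import Cfsg.Statements.S5912
import Cfsg.Agent.Lib.Helper21.S6Out

set_option autoImplicit false
open Cfsg

namespace Cfsg.Agent.S5912

/-- The symmetric group on a 6-element set Ω has exactly two conjugacy classes of subgroups of index 6: there are two non-conjugate subgroups of index 6 (a point stabilizer and a transitive subgroup isomorphic to S₅), and every subgroup of index 6 is conjugate to one of them. -/
theorem result {Ω : Type*} [Fintype Ω] [DecidableEq Ω] (h6 : Fintype.card Ω = 6) :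
    ∃ H₁ H₂ : Subgroup (Equiv.Perm Ω), H₁.index = 6 ∧ H₂.index = 6 ∧
      (¬ ∃ g : Equiv.Perm Ω, Subgroup.map (MulAut.conj g).toMonoidHom H₁ = H₂) ∧
      ∀ H : Subgroup (Equiv.Perm Ω), H.index = 6 →
        ∃ g : Equiv.Perm Ω, Subgroup.map (MulAut.conj g).toMonoidHom H₁ = H ∨ Subgroup.map (MulAut.conj g).toMonoidHom H₂ = H := by
  classical
  obtain ⟨γ, hγ⟩ := Cfsg.Agent.Lib.Helper21.S6Out.exists_outer h6
  obtain ⟨x0⟩ : Nonempty Ω := Fintype.card_pos_iff.mp (by omega)
  have hconj : ∀ b : Ω, ∃ g : Equiv.Perm Ω,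
      Subgroup.map (MulAut.conj g).toMonoidHom (MulAction.stabilizer (Equiv.Perm Ω) x0) =
        MulAction.stabilizer (Equiv.Perm Ω) b := by
    intro b
    refine ⟨Equiv.swap x0 b, ?_⟩
    rw [← MulAction.stabilizer_smul_eq_stabilizer_map_conj]
    congr 1
    exact Equiv.swap_apply_left x0 b
  refine ⟨MulAction.stabilizer (Equiv.Perm Ω) x0,
    (MulAction.stabilizer (Equiv.Perm Ω) x0).map γ.toMonoidHom,
    Cfsg.Agent.Lib.Helper21.S6Out.index_stab h6 x0, ?_, ?_, ?_⟩
  · rw [Cfsg.Agent.Lib.Helper21.S6Out.index_map]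
    exact Cfsg.Agent.Lib.Helper21.S6Out.index_stab h6 x0
  · rintro ⟨g, hg⟩
    rw [← MulAction.stabilizer_smul_eq_stabilizer_map_conj] at hg
    exact Cfsg.Agent.Lib.Helper21.S6Out.map_ne_stab h6 γ hγ x0 _ hg.symm
  · intro H hH
    rcases Cfsg.Agent.Lib.Helper21.S6Out.main h6 γ hγ H hH with ⟨b, rfl⟩ | ⟨b, rfl⟩
    · obtain ⟨g, hg⟩ := hconj b
      exact ⟨g, Or.inl hg⟩
    · obtain ⟨g, hg⟩ := hconj b
      refine ⟨γ g, Or.inr ?_⟩
      rw [← hg, Subgroup.map_map, Subgroup.map_map]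
      congr 1
      ext k : 1
      simp

end Cfsg.Agent.S5912
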