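import Cfsg.Statements.S5913
-- import your own Cfsg.Agent.* helpers here

set_option autoImplicit false
open Cfsg

namespace Cfsg.Agent.S5913

/-- Let S be a non-abelian simple group and n a natural number. Every normal subgroup N of the direct power S^n (functions Fin n → S) is a subproduct: there is a set T of coordinates such that N consists exactly of the elements whose coordinates outside T are trivial. In particular the minimal normal subgroups of S^n are its n factors. -/
theorem result {S : Type*} [Group S] [IsSimpleGroup S] (hS : ¬ IsMulCommutative S) (n : ℕ)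
    (N : Subgroup (Fin n → S)) [N.Normal] :
    ∃ T : Finset (Fin n), ∀ x : Fin n → S, x ∈ N ↔ ∀ i, i ∉ T → x i = 1 := by
  classical
  -- the set of coordinates on which N is non-trivial
  let T : Finset (Fin n) := Finset.univ.filter (fun i => ∃ x ∈ N, x i ≠ 1)
  -- S has trivial centre
  have hcenter : ∀ s : S, s ≠ 1 → ∃ t : S, t * s * t⁻¹ * s⁻¹ ≠ 1 := by
    intro s hs
    by_contra hcon
    push Not at hcon
    have hsc : s ∈ Subgroup.center S := by
      rw [Subgroup.mem_center_iff]
      intro t
      have := hcon t
      rw [mul_inv_eq_one, mul_inv_eq_iff_eq_mul] at this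
      exact this
    rcases IsSimpleGroup.eq_bot_or_eq_top_of_normal (Subgroup.center S) inferInstance with h | h
    · rw [h, Subgroup.mem_bot] at hsc
      exact hs hsc
    · apply hS
      refine ⟨⟨fun a b => ?_⟩⟩
      have ha : a ∈ Subgroup.center S := h ▸ Subgroup.mem_top a
      exact ((Subgroup.mem_center_iff.mp ha) b).symm
  -- for i ∈ T all elements supported at i lie in N
  have hsingle : ∀ i ∈ T, ∀ s : S, Pi.mulSingle i s ∈ N := by
    intro i hi
    obtain ⟨x, hxN, hxi⟩ := (Finset.mem_filter.mp hi).2
    obtain ⟨t, ht⟩ := hcenter (x i) hxi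
    let Ni : Subgroup S := N.comap (MonoidHom.mulSingle (fun _ : Fin n => S) i)
    have hNi : Ni.Normal := by
      refine ⟨fun a ha b => ?_⟩
      change MonoidHom.mulSingle (fun _ : Fin n => S) i (b * a * b⁻¹) ∈ N
      rw [map_mul, map_mul, map_inv]
      exact ‹N.Normal›.conj_mem _ ha _
    have hmem : t * x i * t⁻¹ * (x i)⁻¹ ∈ Ni := by
      change Pi.mulSingle i (t * x i * t⁻¹ * (x i)⁻¹) ∈ N
      have h1 : (Pi.mulSingle i (t * x i * t⁻¹ * (x i)⁻¹) : Fin n → S)
          = (Pi.mulSingle i t * x * (Pi.mulSingle i t)⁻¹) * x⁻¹ := by
        funext j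
        by_cases hj : j = i
        · subst hj; simp
        · simp [Pi.mulSingle_eq_of_ne hj]
      rw [h1]
      exact N.mul_mem (‹N.Normal›.conj_mem _ hxN _) (N.inv_mem hxN)
    have hNitop : Ni = ⊤ := by
      rcases IsSimpleGroup.eq_bot_or_eq_top_of_normal Ni hNi with h | h
      · rw [h, Subgroup.mem_bot] at hmem
        exact absurd hmem ht
      · exact h
    intro s
    have : s ∈ Ni := hNitop ▸ Subgroup.mem_top s
    exact this
  refine ⟨T, fun x => ⟨fun hx i hi => ?_, fun hx => ?_⟩⟩
  · by_contra h
    exact hi (Finset.mem_filter.mpr ⟨Finset.mem_univ _, x, hx, h⟩)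
  · have h1 : ∀ A : Finset (Fin n), (fun i => if i ∈ A then x i else 1) ∈ N := by
      intro A
      induction A using Finset.induction_on with
      | empty =>
        have : (fun i : Fin n => if i ∈ (∅ : Finset (Fin n)) then x i else 1) = 1 := by
          funext i; simp
        rw [this]; exact N.one_mem
      | insert a A ha ih =>
        have h2 : (fun i => if i ∈ insert a A then x i else 1)
            = (fun i => if i ∈ A then x i else 1) * Pi.mulSingle a (x a) := by
          funext j
          by_cases hj : j = a
          · subst hj; simp [ha]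
          · simp [hj]
        rw [h2]
        refine N.mul_mem ih ?_
        by_cases haT : a ∈ T
        · exact hsingle a haT _
        · rw [hx a haT, Pi.mulSingle_one]; exact N.one_mem
    simpa using h1 Finset.univ

end Cfsg.Agent.S5913
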