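import Cfsg.Statements.S5914
-- import your own Cfsg.Agent.* helpers here
import Cfsg.Agent.Lib.Helper20.CharSimple

set_option autoImplicit false
open Cfsg

namespace Cfsg.Agent.S5914


/-- transvection automorphism of a power of a commutative group. -/
def tau {S : Type*} [Group S] (hc : ∀ a b : S, a * b = b * a) {n : ℕ} (i j : Fin n)
    (hij : i ≠ j) : (Fin n → S) ≃* (Fin n → S) where
  toFun y := y * Pi.mulSingle j (y i)
  invFun y := y * Pi.mulSingle j (y i)⁻¹
  left_inv y := by
    funext l
    by_cases hl : l = j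
    · subst hl; simp [Pi.mulSingle_eq_of_ne hij]
    · simp [Pi.mulSingle_eq_of_ne hl]
  right_inv y := by
    funext l
    by_cases hl : l = j
    · subst hl; simp [Pi.mulSingle_eq_of_ne hij]
    · simp [Pi.mulSingle_eq_of_ne hl]
  map_mul' a b := by
    funext l
    by_cases hl : l = j
    · subst hl
      simp only [Pi.mul_apply, Pi.mulSingle_eq_same]
      rw [mul_assoc, mul_assoc, ← mul_assoc (b l), hc (b l), mul_assoc]
    · simp [Pi.mulSingle_eq_of_ne hl]

theorem aux {S : Type*} [Group S] [IsSimpleGroup S] (n : ℕ) (K : Subgroup (Fin n → S))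
    (hK : ∀ φ : (Fin n → S) ≃* (Fin n → S), ∀ x ∈ K, φ x ∈ K) : K = ⊥ ∨ K = ⊤ := by
  classical
  by_cases hbot : K = ⊥
  · exact Or.inl hbot
  right
  obtain ⟨x, hxK, hx1⟩ : ∃ x, x ∈ K ∧ x ≠ 1 := by
    obtain ⟨x, hx⟩ := Subgroup.ne_bot_iff_exists_ne_one.mp hbot
    exact ⟨x.1, x.2, fun h => hx (Subtype.ext h)⟩
  obtain ⟨i, hi⟩ : ∃ i, x i ≠ 1 := by
    by_contra hcon
    push Not at hcon
    exact hx1 (funext hcon)
  have hswap : ∀ (j l : Fin n) (s : S), Pi.mulSingle j s ∈ K → Pi.mulSingle l s ∈ K := by
    intro j l s hs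
    have := hK (MulEquiv.arrowCongr (Equiv.swap j l) (MulEquiv.refl S)) _ hs
    convert this using 1
    funext a
    simp only [MulEquiv.arrowCongr_apply, MulEquiv.refl_apply, Equiv.symm_swap,
      Pi.mulSingle_apply]
    by_cases ha : a = l
    · subst ha; simp
    · rw [if_neg ha, if_neg]
      intro h
      apply ha
      have := congrArg (Equiv.swap j l) h
      simpa using this
  have hKn : K.Normal := ⟨fun x hx g => hK (MulAut.conj g) x hx⟩
  have key : ∃ t : S, t ≠ 1 ∧ Pi.mulSingle i t ∈ K := by
    by_cases hc : ∀ a b : S, a * b = b * a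
    · by_cases hj : ∃ j, i ≠ j
      · obtain ⟨j, hj⟩ := hj
        refine ⟨x i, hi, hswap j i _ ?_⟩
        have h1 := K.mul_mem (K.inv_mem hxK) (hK (tau hc i j hj) x hxK)
        have h2 : x⁻¹ * (tau hc i j hj) x = Pi.mulSingle j (x i) := by
          change x⁻¹ * (x * Pi.mulSingle j (x i)) = _
          group
        rwa [h2] at h1
      · push Not at hj
        refine ⟨x i, hi, ?_⟩
        have : Pi.mulSingle i (x i) = x := by
          funext l
          rw [← hj l]; simp
        rw [this]; exact hxK
    · have hs : ∃ s : S, x i * s * (x i)⁻¹ * s⁻¹ ≠ 1 := by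
        by_contra hcon
        push Not at hcon
        have hcen : x i ∈ Subgroup.center S := by
          rw [Subgroup.mem_center_iff]
          intro g
          have := hcon g
          rw [mul_inv_eq_one, mul_inv_eq_iff_eq_mul] at this
          exact this.symm
        rcases (inferInstance : (Subgroup.center S).Normal).eq_bot_or_eq_top with h0 | h0
        · rw [h0, Subgroup.mem_bot] at hcen
          exact hi hcen
        · apply hc
          intro a b
          have : b ∈ Subgroup.center S := by rw [h0]; trivial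
          exact (Subgroup.mem_center_iff.mp this a)
      obtain ⟨s, hs⟩ := hs
      refine ⟨_, hs, ?_⟩
      have h1 := K.mul_mem hxK (hKn.conj_mem _ (K.inv_mem hxK) (Pi.mulSingle i s))
      have h2 : x * (Pi.mulSingle i s * x⁻¹ * (Pi.mulSingle i s)⁻¹) =
          Pi.mulSingle i (x i * s * (x i)⁻¹ * s⁻¹) := by
        funext l
        by_cases hl : l = i
        · subst hl; simp [mul_assoc]
        · simp [Pi.mulSingle_eq_of_ne hl]
      rwa [h2] at h1
  obtain ⟨t, ht1, htK⟩ := key
  have hA : K.comap (MonoidHom.mulSingle (fun _ : Fin n => S) i) = ⊤ := by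
    have hAn : (K.comap (MonoidHom.mulSingle (fun _ : Fin n => S) i)).Normal := hKn.comap _
    rcases hAn.eq_bot_or_eq_top with h0 | h0
    · exfalso
      have : t ∈ K.comap (MonoidHom.mulSingle (fun _ : Fin n => S) i) := htK
      rw [h0, Subgroup.mem_bot] at this
      exact ht1 this
    · exact h0
  rw [eq_top_iff]
  intro y _
  apply Submonoid.pi_mem_of_mulSingle_mem
  intro j
  apply hswap i j
  have : y j ∈ K.comap (MonoidHom.mulSingle (fun _ : Fin n => S) i) := by rw [hA]; trivial
  exact this

/-- A non-trivial finite group G is characteristically simple (its only characteristic subgroups are 1 and G) if and only if G is isomorphic to a direct power S^n (n ≥ 1) of some simple group S (possibly cyclic of prime order). -/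
theorem result {G : Type*} [Group G] [Finite G] [Nontrivial G] :
    (∀ H : Subgroup G, H.Characteristic → H = ⊥ ∨ H = ⊤) ↔
    ∃ (S : Type) (_ : Group S) (_ : IsSimpleGroup S) (n : ℕ), 1 ≤ n ∧ Nonempty (G ≃* (Fin n → S)) := by
  constructor
  · intro h
    obtain ⟨T, iT, m, hT, hm, he⟩ := Cfsg.Agent.Lib.Helper20.exists_simple_power
      (⊤ : Subgroup (MulAut G))
      (fun M _ hinv => h M (Subgroup.characteristic_iff_map_le.mpr (fun φ => hinv φ trivial)))
    exact ⟨T, iT, hT, m, hm, he⟩
  · rintro ⟨S, iS, hS, n, hn, ⟨e⟩⟩ H hH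
    have hK : ∀ φ : (Fin n → S) ≃* (Fin n → S), ∀ x ∈ H.comap e.symm.toMonoidHom,
        φ x ∈ H.comap e.symm.toMonoidHom := by
      intro φ x hx
      have h1 := Subgroup.characteristic_iff_map_le.mp hH (e.trans (φ.trans e.symm))
      have h2 : (e.trans (φ.trans e.symm)) (e.symm x) ∈ H := h1 ⟨e.symm x, hx, rfl⟩
      simpa using h2
    rcases aux n (H.comap e.symm.toMonoidHom) hK with h0 | h0
    · left
      rw [eq_bot_iff]
      intro x hx
      have : e x ∈ H.comap e.symm.toMonoidHom := by
        change e.symm (e x) ∈ H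
        simpa using hx
      rw [h0, Subgroup.mem_bot] at this
      rw [Subgroup.mem_bot]
      simpa using this
    · right
      rw [eq_top_iff]
      intro x _
      have : e x ∈ H.comap e.symm.toMonoidHom := by rw [h0]; trivial
      have h3 : e.symm (e x) ∈ H := this
      simpa using h3

end Cfsg.Agent.S5914
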